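import Cfsg.Statements.S4249
import Cfsg.Agent.Lib.BG.Hall
import Cfsg.Agent.Lib.FGS.Kegel

set_option autoImplicit false
open Cfsg

namespace Cfsg.Agent.S4249

/-- Let G be a finite group and p a prime such that G is not a p-group, and suppose the Hughes subgroup H_p(G), generated by all elements g with g^p ≠ 1, is a proper subgroup. Then H_p(G) is nilpotent and has index p in G. -/
theorem result {G : Type*} [Group G] [Finite G] (p : ℕ) (hp : p.Prime) (hG : ¬ IsPGroup p G)
    (hH : Subgroup.closure {g : G | g ^ p ≠ 1} ≠ ⊤) :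
    Group.IsNilpotent (Subgroup.closure {g : G | g ^ p ≠ 1}) ∧ (Subgroup.closure {g : G | g ^ p ≠ 1}).index = p := by
  open Subgroup Cfsg.Lib Cfsg.Lib.BG Cfsg.Lib.Transfer in
  open Cfsg.Lib.FGS in
  haveI : (closure {g : G | g ^ p ≠ 1}).Normal := ⟨fun x hx g => (Subgroup.closure_le
    ((closure {g : G | g ^ p ≠ 1}).comap (MulAut.conj g).toMonoidHom)).2 (fun y (hy : y ^ p ≠ 1) =>
      Subgroup.subset_closure fun e => hy (by simpa [conj_eq_one_iff] using e)) hx⟩
  exact hughes_thompson hp hG hH fun g hg => by_contra fun e => hg (Subgroup.subset_closure e)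

end Cfsg.Agent.S4249
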