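import Cfsg.Statements.S4221
import Cfsg.Agent.Lib.Perm.Hall6

set_option autoImplicit false
open Cfsg

namespace Cfsg.Agent.S4221

open MulAction Lib.Perm

/-- Let `G` be a `4`-fold transitive permutation group on a finite set of `n` points in which the pointwise stabilizer of some four distinct points has odd order. Then `n = 4` or `n = 5` with `G` the full symmetric group, or `n = 6` or `n = 7` with `G` the alternating group, or `n = 11` and `G` has order `7920`. -/
theorem result {α : Type*} [Fintype α] [DecidableEq α] (G : Subgroup (Equiv.Perm α)) (hG : MulAction.IsMultiplyPretransitive G α 4) (x : Fin 4 ↪ α) (hodd : Odd (Nat.card (MulAction.stabilizer G x))) : ((Fintype.card α = 4 ∨ Fintype.card α = 5) ∧ G = ⊤) ∨ ((Fintype.card α = 6 ∨ Fintype.card α = 7) ∧ G = alternatingGroup α) ∨ (Fintype.card α = 11 ∧ Nat.card G = 7920) := by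
  have hx : Nat.card (stabilizer G x) =
      Nat.card (fixingSubgroup G ((Finset.univ.map x : Finset α) : Set α)) := by
    congr 2
    ext g
    simp [mem_fixingSubgroup_iff, Function.Embedding.ext_iff]
    rfl
  have h4 : 4 ≤ Fintype.card α := by simpa using Fintype.card_le_of_embedding x
  have H : H4 G α := ⟨hG, fun g a b c d h1 h2 h3 h4 h5 h6 e1 e2 e3 e4 => by
    rw [hx, card_fixing_eq hG (t := {a, b, c, d}) (by simp)
      (Finset.card_eq_four.2 ⟨a, b, c, d, h1, h2, h3, h4, h5, h6, rfl⟩)] at hodd
    exact hodd.of_dvd_nat (Subgroup.orderOf_dvd_natCard _ (mem_fixing_iff.2 (by simp [*])))⟩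
  by_cases h5 : Fintype.card α ≤ 5
  · refine Or.inl ⟨by omega, Equiv.Perm.eq_top_of_isMultiplyPretransitive
      (isMultiplyPretransitive_of_le (n := 4) ?_ ?_)⟩ <;> rw [Nat.card_eq_fintype_card] <;> omega
  by_cases h7 : Fintype.card α ≤ 7
  · exact Or.inr (Or.inl ⟨by omega, H.eq_alt (by omega)⟩)
  have hs := H.sharp_of_le (by omega)
  obtain ⟨s, hs6⟩ := exists_finset_card (α := α) (k := 6) (by rw [Nat.card_eq_fintype_card]; omega)
  have h11 := (sharp_four_card hG hs s hs6).2
  have := card_eq_descFactorial_of_sharp hG (sharp_four_iff.2 hs) (by omega)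
  rw [Nat.card_eq_fintype_card (α := α)] at h11 this
  refine Or.inr (Or.inr ⟨by omega, ?_⟩)
  rw [this, h11.resolve_left (by omega)]
  rfl

end Cfsg.Agent.S4221
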