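import Cfsg.Statements.S2430
import Cfsg.Agent.Lib.CharDeg.SL2Sylow
import Cfsg.Agent.Lib.Inv.FourGroup

set_option autoImplicit false
open Cfsg

namespace Cfsg.Agent.S2430

open Cfsg.Lib.GLTwo Cfsg.Lib.Char Cfsg.Lib.PSL2 in

/-- Let F be a finite field with q elements, q odd, ℓ an odd prime, and P a Sylow ℓ-subgroup of SL₂ over F. If ℓ divides q − 1, the centraliser of P is cyclic of order q − 1 (a split torus) and the normaliser of P has order 2(q − 1); if ℓ divides q + 1, the centraliser of P is cyclic of order q + 1 (a non-split torus) and the normaliser of P has order 2(q + 1). -/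
theorem result {F : Type*} [Field F] [Fintype F] (hodd : Odd (Fintype.card F)) (ℓ : ℕ) [Fact ℓ.Prime] (hℓ : ℓ ≠ 2)
    (P : Sylow ℓ (Matrix.SpecialLinearGroup (Fin 2) F)) :
    (ℓ ∣ Fintype.card F - 1 →
      Nat.card (Subgroup.centralizer ((P : Subgroup (Matrix.SpecialLinearGroup (Fin 2) F)) : Set (Matrix.SpecialLinearGroup (Fin 2) F))) = Fintype.card F - 1 ∧
      IsCyclic (Subgroup.centralizer ((P : Subgroup (Matrix.SpecialLinearGroup (Fin 2) F)) : Set (Matrix.SpecialLinearGroup (Fin 2) F))) ∧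
      Nat.card (Subgroup.normalizer ((P : Subgroup (Matrix.SpecialLinearGroup (Fin 2) F)) : Set (Matrix.SpecialLinearGroup (Fin 2) F))) = 2 * (Fintype.card F - 1)) ∧
    (ℓ ∣ Fintype.card F + 1 →
      Nat.card (Subgroup.centralizer ((P : Subgroup (Matrix.SpecialLinearGroup (Fin 2) F)) : Set (Matrix.SpecialLinearGroup (Fin 2) F))) = Fintype.card F + 1 ∧
      IsCyclic (Subgroup.centralizer ((P : Subgroup (Matrix.SpecialLinearGroup (Fin 2) F)) : Set (Matrix.SpecialLinearGroup (Fin 2) F))) ∧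
      Nat.card (Subgroup.normalizer ((P : Subgroup (Matrix.SpecialLinearGroup (Fin 2) F)) : Set (Matrix.SpecialLinearGroup (Fin 2) F))) = 2 * (Fintype.card F + 1)) := by
  have h2 := two_ne_zero_iff_odd.2 (by rwa [Nat.card_eq_fintype_card] : Odd (Nat.card F))
  have hl : ℓ.Prime := Fact.out
  refine ⟨fun h => ?_, fun h => ?_⟩
  · obtain ⟨s, hs, hr, ho, hP⟩ := exists_reg_of_sylow h2 hℓ
      (by rw [card_sq_sub_one]; exact h.mul_right _) P
    rw [hr.centralizer_eq hs hP, hr.normalizer_eq h2 hs hP, hr.card_normalizer h2]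
    obtain ⟨h3, h4 | h4⟩ := hr.centralizer_cases
    · exact ⟨h4, h3, by rw [h4]⟩
    · exact (not_dvd_both hl hℓ h (by
        rw [← h4, ← ho]; exact Subgroup.orderOf_dvd_natCard _ (self_mem_centralizer s))).elim
  · obtain ⟨s, hs, hr, ho, hP⟩ := exists_reg_of_sylow h2 hℓ
      (by rw [card_sq_sub_one]; exact h.mul_left _) P
    rw [hr.centralizer_eq hs hP, hr.normalizer_eq h2 hs hP, hr.card_normalizer h2]
    obtain ⟨h3, h4 | h4⟩ := hr.centralizer_cases
    · exact (not_dvd_both hl hℓ (by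
        rw [← h4, ← ho]; exact Subgroup.orderOf_dvd_natCard _ (self_mem_centralizer s)) h).elim
    · exact ⟨h4, h3, by rw [h4]⟩

end Cfsg.Agent.S2430
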