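import Cfsg.Statements.S4837
import Cfsg.Agent.Lib.CharDeg.Gagola

set_option autoImplicit false
open Cfsg

namespace Cfsg.Agent.S4837

open Cfsg.Lib.CharDeg Cfsg.Lib.Char Cfsg.Lib.Clifford Subgroup in

/-- Let G be a finite group of order greater than 2 with an irreducible character χ nonzero on exactly two conjugacy classes, and let N be the set of elements where χ is nonzero, given as a nontrivial normal p-subgroup of G for the prime p. Then for every nonidentity x in N the centralizer C_G(x) is a Sylow p-subgroup of G, and for every irreducible character λ ≠ 1 of N the stabilizer of λ in G (its inertia group) is a Sylow p-subgroup of G. -/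
theorem result {G : Type*} [Group G] [Finite G] (hG : 2 < Nat.card G) (χ : Cfsg.IrrCharacter G) (hχ : Nat.card {C : ConjClasses G // ∃ g ∈ C.carrier, (χ : G → ℂ) g ≠ 0} = 2) (p : ℕ) [Fact p.Prime] (N : Subgroup G) [N.Normal] (hN : ∀ g : G, g ∈ N ↔ (χ : G → ℂ) g ≠ 0) (hNp : IsPGroup p N) (hN1 : N ≠ ⊥) :
    (∀ x ∈ N, x ≠ 1 → ∃ P : Sylow p G, Subgroup.centralizer ({x} : Set G) = P) ∧
      (∀ μ : Cfsg.IrrCharacter N, (μ : N → ℂ) ≠ (fun _ => (1 : ℂ)) → ∃ P : Sylow p G, ∀ g : G, g ∈ (P : Subgroup G) ↔ ∀ n n' : N, (n' : G) = g * n * g⁻¹ → (μ : N → ℂ) n' = (μ : N → ℂ) n) := by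
  obtain ⟨x, h⟩ := exists_gag hG χ hχ
  refine ⟨fun a ha h1 => ⟨(h.isPGroup_centralizer hN hNp ha h1).toSylow
    (h.not_dvd_index hN hNp ha h1), rfl⟩, fun μ hμ => ?_⟩
  have h1 := h.index_inertia hN hNp μ.2 hμ
  obtain ⟨k, hk⟩ := IsPGroup.iff_card.1 (h.isPGroup_centralizer hN hNp (h.mem hN) h.ne)
  have h2 : Nat.card (inertia N μ.1) = p ^ k := Nat.eq_of_mul_eq_mul_right
    (Nat.pos_of_ne_zero (index_ne_zero_of_finite (H := inertia N μ.1)))
    (by rw [card_mul_index, h1, ← hk, card_mul_index])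
  refine ⟨(IsPGroup.of_card h2).toSylow (h1 ▸ h.not_dvd_index hN hNp (h.mem hN) h.ne), fun g =>
    (mem_inertia_iff N).trans ⟨fun e n n' e' => ?_, fun e n => e n _ rfl⟩⟩
  rw [← e n]
  exact congrArg _ (Subtype.ext e')

end Cfsg.Agent.S4837
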