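import Cfsg.Statements.S2580
import Cfsg.Agent.Lib.GLC.Mat

set_option autoImplicit false
open Cfsg

namespace Cfsg.Agent.S2580

/-- Over a finite field, a square matrix is similar to its transpose: for every n × n matrix A there is an invertible matrix P with P A P⁻¹ = Aᵀ (stated as conjugacy in the monoid of matrices, whose units are the invertible matrices). -/
theorem result {F : Type*} [Field F] [Finite F] {n : ℕ} (A : Matrix (Fin n) (Fin n) F) : IsConj A A.transpose := by
  open Lib.GLC Polynomial Matrix in
  have h : ∀ Q : F[X], aeval Aᵀ Q = (aeval A Q)ᵀ := fun Q => by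
    induction Q using Polynomial.induction_on' with
    | add p q hp hq => rw [map_add, map_add, hp, hq, transpose_add]
    | monomial n c => simp only [aeval_monomial, ← Algebra.smul_def, transpose_smul, transpose_pow]
  refine isConj_iff_sim.2 (sim_of_kd fun φ _ _ k => ?_)
  have h1 := rank_add_finrank_ker (aeval A (φ ^ k))
  have h2 := rank_add_finrank_ker (aeval Aᵀ (φ ^ k))
  rw [h, rank_transpose, ← h] at h2
  rw [kd, kd, aeval_toLin', aeval_toLin']
  omega

end Cfsg.Agent.S2580
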