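import Cfsg.Statements.S4966
import Mathlib

set_option autoImplicit false
open Cfsg

namespace Cfsg.Agent.S4966

open Module LinearMap

section

universe u

variable {F G : Type*} [Field F] [Group G] (p : ℕ)

/-- Invariant form. -/
def Inv {V : Type*} [AddCommGroup V] [Module F V] (ρ : Representation F G V) (B : LinearMap.BilinForm F V) : Prop :=
  ∀ g x y, B (ρ g x) (ρ g y) = B x y

/-- The conclusion, in a form that glues. -/
def Good {V : Type*} [AddCommGroup V] [Module F V] (ρ : Representation F G V) : Prop :=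
  ∃ A S : LinearMap.BilinForm F V, (∀ x, A x x = 0) ∧ (∀ x y, S x y = S y x) ∧ Inv ρ A ∧ Inv ρ S ∧
    (∀ v, A v = 0 → S v = 0 → v = 0) ∧ (∀ v, ∃ w, A w = 0 ∧ S (v - w) = 0) ∧ (p = 2 → ∀ g w, A w = 0 → ρ g w = w)

variable {V : Type u} [AddCommGroup V] [Module F V] {ρ : Representation F G V} {B : LinearMap.BilinForm F V}

theorem Inv.adj (h : Inv ρ B) (g : G) (x y : V) : B (ρ g x) y = B x (ρ g⁻¹ y) := by
  rw [← h g x, ← End.mul_apply, ← map_mul]; simp

theorem proj_comm {X Y : Submodule F V} (h : IsCompl X Y) (hX : ∀ g, X ≤ X.comap (ρ g)) (hY : ∀ g, Y ≤ Y.comap (ρ g))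
    (g : G) (v : V) : X.projectionOnto Y h (ρ g v) = ρ.subrepresentation X hX g (X.projectionOnto Y h v) := by
  obtain ⟨x, hx, y, hy, rfl⟩ := Submodule.codisjoint_iff_exists_add_eq.1 h.codisjoint v |>.imp fun x => by
    rintro ⟨y, a, b, c⟩; exact (⟨a, y, b, c⟩ : x ∈ X ∧ ∃ y ∈ Y, x + y = v)
  simp only [map_add, Submodule.projectionOnto_apply_of_mem_left h hx, Submodule.projectionOnto_apply_of_mem_right h hy,
    Submodule.projectionOnto_apply_of_mem_left h (hX g hx), Submodule.projectionOnto_apply_of_mem_right h (hY g hy),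
    add_zero]
  rfl

theorem glue {X Y : Submodule F V} (h : IsCompl X Y) (hX : ∀ g, X ≤ X.comap (ρ g)) (hY : ∀ g, Y ≤ Y.comap (ρ g))
    (h1 : Good p (ρ.subrepresentation X hX)) (h2 : Good p (ρ.subrepresentation Y hY)) : Good p ρ := by
  obtain ⟨A, S, a1, a2, a3, a4, a5, a6, a7⟩ := h1
  obtain ⟨A', S', b1, b2, b3, b4, b5, b6, b7⟩ := h2
  set π := X.projectionOnto Y h
  set π' := Y.projectionOnto X h.symm
  have hs : ∀ v, (π v : V) + π' v = v := Submodule.projection_add_projection_eq_self h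
  have key : ∀ (C : LinearMap.BilinForm F X) (D : LinearMap.BilinForm F Y) (v : V),
      (C.comp π π + D.comp π' π') v = 0 ↔ C (π v) = 0 ∧ D (π' v) = 0 := fun C D v =>
    ⟨fun e => ⟨LinearMap.ext fun x => by simpa [π, π'] using congr($e x),
      LinearMap.ext fun x => by simpa [π, π'] using congr($e x)⟩, fun e => LinearMap.ext fun w => by simp [e.1, e.2]⟩
  have hi : ∀ (C : LinearMap.BilinForm F X) (D : LinearMap.BilinForm F Y), Inv (ρ.subrepresentation X hX) C →
      Inv (ρ.subrepresentation Y hY) D → Inv ρ (C.comp π π + D.comp π' π') := fun C D hC hD g x y => by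
    simp only [LinearMap.add_apply, BilinForm.comp_apply, π, π', proj_comm h hX hY, proj_comm h.symm hY hX, hC g, hD g]
  refine ⟨A.comp π π + A'.comp π' π', S.comp π π + S'.comp π' π', fun x => by simp [a1, b1],
    fun x y => by simp [a2 (π x), b2 (π' x)], hi _ _ a3 b3, hi _ _ a4 b4, fun v e1 e2 => ?_, fun v => ?_,
    fun hp g w e => ?_⟩
  · rw [key] at e1 e2
    rw [← hs v, a5 _ e1.1 e2.1, b5 _ e1.2 e2.2]; simp
  · obtain ⟨x, c1, c2⟩ := a6 (π v)
    obtain ⟨y, d1, d2⟩ := b6 (π' v)
    refine ⟨x + y, ?_, ?_⟩ <;> rw [key]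
    · simp [π, π', c1, d1]
    · simpa [π, π', -map_sub, (map_sub π _ _ :), (map_sub π' _ _ :)] using And.intro c2 d2
  · rw [key] at e
    rw [← hs w, map_add]
    exact congrArg₂ _ (congrArg Subtype.val (a7 hp g _ e.1)) (congrArg Subtype.val (b7 hp g _ e.2))

theorem nd_restrict [FiniteDimensional F V] {T : Submodule F V} (h : ∀ x ∈ T, (∀ y ∈ T, B y x = 0) → x = 0) :
    (B.restrict T).Nondegenerate :=
  .ofSeparatingRight fun x hx => Subtype.ext (h x x.2 fun y hy => hx ⟨y, hy⟩)

theorem good [Finite G] [Fact p.Prime] [CharP F p] (hcop : ¬ p ∣ Nat.card G) (n : ℕ) :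
    ∀ {V : Type u} [AddCommGroup V] [Module F V] [FiniteDimensional F V] (ρ : Representation F G V)
    (B : LinearMap.BilinForm F V), B.Nondegenerate → Inv ρ B → finrank F V = n → Good p ρ := by
  induction n using Nat.strong_induction_on with | _ n ih
  intro V _ _ _ ρ B hB hi hn
  have hG : (Nat.card G : F) ≠ 0 := by rwa [Ne, CharP.cast_eq_zero_iff F p]
  haveI : NeZero (Nat.card G : F) := ⟨hG⟩
  have horth : ∀ T : Submodule F V, (∀ g, T ≤ T.comap (ρ g)) → ∀ g, BilinForm.orthogonal B T ≤ (BilinForm.orthogonal B T).comap (ρ g) :=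
    fun T hT g y hy x hx => by
      have := hi.adj g⁻¹ x y
      rw [inv_inv] at this
      exact this.symm.trans (hy _ (hT _ hx))
  by_cases H : ∃ T : Submodule F V, (∀ g, T ≤ T.comap (ρ g)) ∧ T ≠ ⊥ ∧ T ≠ ⊤ ∧ ∀ x ∈ T, (∀ y ∈ T, B y x = 0) → x = 0
  · obtain ⟨T, h1, h2, h3, h4⟩ := H
    have h5 : IsCompl T (BilinForm.orthogonal B T) := by
      have hd : Disjoint T (BilinForm.orthogonal B T) := Submodule.disjoint_def.2 fun x a b => h4 x a b
      have := Submodule.finrank_le T
      exact (Submodule.isCompl_iff_disjoint _ _ (by rw [BilinForm.finrank_orthogonal hB]; omega)).2 hd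
    refine glue p h5 h1 (horth T h1) (ih _ (hn ▸ Submodule.finrank_lt h3) _ _ (nd_restrict h4) (fun g x y => hi g x y) rfl)
      (ih _ (hn ▸ Submodule.finrank_lt fun e => h2 (by simpa [e] using h5.disjoint)) _ (BilinForm.restrict B _) (.ofSeparatingRight fun x hx => ?_)
        (fun g x y => hi g x y) rfl)
    · refine Subtype.ext (hB.2 _ fun v => ?_)
      obtain ⟨a, b, ha, hb, rfl⟩ := Submodule.codisjoint_iff_exists_add_eq.1 h5.codisjoint v
      rw [map_add, LinearMap.add_apply, x.2 a ha, zero_add]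
      exact hx ⟨b, hb⟩
  replace H : ∀ T : Submodule F V, (∀ g, T ≤ T.comap (ρ g)) → (∀ x ∈ T, (∀ y ∈ T, B y x = 0) → x = 0) → T = ⊥ ∨ T = ⊤ :=
    fun T a b => by_contra fun e => H ⟨T, a, fun c => e (.inl c), fun c => e (.inr c), b⟩
  have alt : ∀ A : LinearMap.BilinForm F V, (∀ x, A x x = 0) → Inv ρ A → (∀ v, A v = 0 → v = 0) → Good p ρ :=
    fun A a b c => ⟨A, 0, a, fun _ _ => rfl, b, fun _ _ _ => rfl, fun v e _ => c v e, fun v => ⟨0, by simp⟩,
      fun _ g w e => by simp [c w e]⟩
  have sym : (∀ x y, B x y = B y x) → (p = 2 → ∀ g w, ρ g w = w) → Good p ρ :=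
    fun a b => ⟨0, B, fun _ => rfl, a, fun _ _ _ => rfl, hi, fun v _ e => hB.1 v fun w => by simp [e],
      fun v => ⟨v, by simp⟩, fun hp g w _ => b hp g w⟩
  set R := ker (B - B.flip)
  have hR : ∀ x, x ∈ R ↔ ∀ y, B x y = B y x := fun x => by simp [R, LinearMap.ext_iff, sub_eq_zero]
  have hRi : ∀ g, R ≤ R.comap (ρ g) := fun g x hx => (hR _).2 fun y => by
    rw [hi.adj, (hR x).1 hx, hi.adj, inv_inv]
  by_cases h0 : R ⊓ BilinForm.orthogonal B R = ⊥
  · rcases H R hRi (fun x a b => (Submodule.eq_bot_iff _).1 h0 x ⟨a, b⟩) with h | h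
    · exact alt (B - B.flip) (by simp) (fun g x y => by simp [hi g]) fun v e => (Submodule.eq_bot_iff _).1 h v e
    have hs : ∀ x y, B x y = B y x := fun x => (hR x).1 (h.ge trivial)
    rcases ne_or_eq p 2 with hp | rfl
    · exact sym hs fun e => absurd e hp
    have := Fintype.ofFinite G
    have hav : ∀ v, ∑ g, ρ g v ∈ ρ.invariants := fun v g => by
      rw [map_sum]
      exact Fintype.sum_equiv (Equiv.mulLeft g) _ _ fun a => by simp
    rcases H ρ.invariants (fun g x hx => by simpa [hx g] using hx) (fun x a b => hB.2 x fun v => by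
      have := b _ (hav v)
      simp only [map_sum, LinearMap.sum_apply, hi.adj, a _, Finset.sum_const, Finset.card_univ, nsmul_eq_mul] at this
      exact (mul_eq_zero.1 this).resolve_left (by rwa [← Nat.card_eq_fintype_card])) with h1 | h1
    · refine alt B (fun x => ?_) hi fun v e => hB.1 v fun w => by simp [e]
      let q : V →+ F := ⟨⟨fun x => B x x, by simp⟩, fun x y => by
        simp only [map_add, LinearMap.add_apply, hs y x]
        linear_combination CharTwo.add_self_eq_zero (B x y)⟩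
      have := map_sum q (fun g => ρ g x) Finset.univ
      rw [(Submodule.eq_bot_iff _).1 h1 _ (hav x)] at this
      simp only [q, AddMonoidHom.coe_mk, ZeroHom.coe_mk, hi _, Finset.sum_const, Finset.card_univ, nsmul_eq_mul,
        map_zero] at this
      exact (mul_eq_zero.1 this.symm).resolve_left (by rwa [← Nat.card_eq_fintype_card])
    · exact sym hs fun _ g w => h1.ge (Submodule.mem_top (x := w)) g
  set X := R ⊓ BilinForm.orthogonal B R
  have hX : ∀ g, X ≤ X.comap (ρ g) := fun g x hx => ⟨hRi g hx.1, horth R hRi g hx.2⟩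
  obtain ⟨⟨Y, hY⟩, hc⟩ := exists_isCompl (⟨BilinForm.orthogonal B X, fun g _ hv => horth X hX g hv⟩ : Subrepresentation ρ)
  replace hc : IsCompl (BilinForm.orthogonal B X) Y :=
    ⟨disjoint_iff.2 (congrArg Subrepresentation.toSubmodule hc.inf_eq_bot),
      codisjoint_iff.2 (congrArg Subrepresentation.toSubmodule hc.sup_eq_top)⟩
  replace hY : ∀ g, Y ≤ Y.comap (ρ g) := fun g _ hv => hY g hv
  have hXX : X ≤ BilinForm.orthogonal B X := fun x hx y hy => hx.2 y hy.1
  have hxy : ∀ x ∈ X, ∀ y ∈ Y, (∀ x' ∈ X, B x' y = 0) → (∀ y' ∈ Y, B x y' = 0) → x + y = 0 := fun x hx y hy a b => by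
    rw [Submodule.disjoint_def.1 hc.disjoint y a hy, hB.1 x fun v => ?_, add_zero]
    obtain ⟨c, d, h1, h2, rfl⟩ := Submodule.codisjoint_iff_exists_add_eq.1 hc.codisjoint v
    rw [map_add, h1 x hx, b d h2, add_zero]
  rcases H (X ⊔ Y) (fun g => sup_le ((hX g).trans (Submodule.comap_mono le_sup_left))
    ((hY g).trans (Submodule.comap_mono le_sup_right))) (fun v a b => by
      obtain ⟨x, hx, y, hy, rfl⟩ := Submodule.mem_sup.1 a
      have h1 : ∀ x' ∈ X, B x' y = 0 := fun x' hx' => by
        simpa [show B x' x = 0 from hXX hx x' hx'] using b x' (Submodule.mem_sup_left hx')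
      refine hxy x hx y hy h1 fun y' hy' => ?_
      simpa [Submodule.disjoint_def.1 hc.disjoint y h1 hy, ← (hR x).1 hx.1] using
        b y' (Submodule.mem_sup_right hy')) with h | h
  · exact absurd (le_sup_left.trans h.le) fun e => h0 (le_bot_iff.1 e)
  have h1 : IsCompl X Y := ⟨hc.disjoint.mono_left hXX, codisjoint_iff.2 h⟩
  let C : LinearMap.BilinForm F V := BilinForm.comp B (X.projection Y h1) (Y.projection X h1.symm)
  have hC : Inv ρ C := fun g x y => by
    simp only [C, BilinForm.comp_apply, Submodule.projection_apply, proj_comm h1 hX hY, proj_comm h1.symm hY hX]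
    exact hi g _ _
  refine alt (C - C.flip) (by simp) (fun g x y => by simp [hC g]) fun v e => ?_
  rw [← Submodule.projection_add_projection_eq_self h1 v]
  refine hxy _ (Submodule.projection_apply_mem _ _) _ (Submodule.projection_apply_mem _ _) (fun x hx => ?_) fun y hy => ?_
  · simpa [C, Submodule.projection_apply_of_mem_left h1 hx, Submodule.projection_apply_of_mem_right h1.symm hx]
      using congr($e x)
  · simpa [C, Submodule.projection_apply_of_mem_left h1.symm hy, Submodule.projection_apply_of_mem_right h1 hy]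
      using congr($e y)

end


/-- Let F be a finite field of characteristic p, G a finite group of order prime to p, and V a finite-dimensional representation of G over F carrying a nondegenerate G-invariant bilinear form (equivalently, V is self-dual). Then V is the direct sum of two G-invariant subspaces U and W such that U carries a G-invariant alternating bilinear form that is nondegenerate on U and W carries a G-invariant symmetric bilinear form that is nondegenerate on W; moreover when p = 2 the decomposition can be chosen with G acting trivially on W. -/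
theorem result {F : Type*} [Field F] [Fintype F] (p : ℕ) [Fact p.Prime] [CharP F p] {G : Type*} [Group G] [Finite G] (hcop : ¬ p ∣ Nat.card G) {V : Type*} [AddCommGroup V] [Module F V] [FiniteDimensional F V] (ρ : Representation F G V) (B : LinearMap.BilinForm F V) (hB : B.Nondegenerate) (hBinv : ∀ g : G, ∀ x y : V, B (ρ g x) (ρ g y) = B x y) : ∃ U W : Submodule F V, IsCompl U W ∧ (∀ g : G, ∀ u ∈ U, ρ g u ∈ U) ∧ (∀ g : G, ∀ w ∈ W, ρ g w ∈ W) ∧ (∃ A : LinearMap.BilinForm F V, (∀ x : V, A x x = 0) ∧ (∀ g : G, ∀ x ∈ U, ∀ y ∈ U, A (ρ g x) (ρ g y) = A x y) ∧ (∀ x ∈ U, (∀ y ∈ U, A x y = 0) → x = 0)) ∧ (∃ S : LinearMap.BilinForm F V, (∀ x y : V, S x y = S y x) ∧ (∀ g : G, ∀ x ∈ W, ∀ y ∈ W, S (ρ g x) (ρ g y) = S x y) ∧ (∀ x ∈ W, (∀ y ∈ W, S x y = 0) → x = 0)) ∧ (p = 2 → ∀ g : G, ∀ w ∈ W, ρ g w = w) := by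
  obtain ⟨A, S, a1, a2, a3, a4, a5, a6, a7⟩ := good p hcop _ ρ B hB hBinv rfl
  have hk : ∀ C, Inv ρ C → ∀ g, ∀ u ∈ ker C, ρ g u ∈ ker C := fun C h g u hu =>
    LinearMap.ext fun y => by rw [h.adj, mem_ker.1 hu]; rfl
  refine ⟨ker S, ker A, ⟨Submodule.disjoint_def.2 fun x a b => a5 x b a, Submodule.codisjoint_iff_exists_add_eq.2
    fun v => ?_⟩, hk S a4, hk A a3, ⟨A, a1, fun g x _ y _ => a3 g x y, fun x a b => a5 x (LinearMap.ext fun v => ?_) a⟩,
    ⟨S, a2, fun g x _ y _ => a4 g x y, fun x a b => a5 x a (LinearMap.ext fun v => ?_)⟩, a7⟩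
  · obtain ⟨w, h1, h2⟩ := a6 v
    exact ⟨v - w, w, h2, h1, by simp⟩
  · obtain ⟨w, h1, h2⟩ := a6 v
    have := b _ h2
    rwa [map_sub, ← LinearMap.IsAlt.neg a1 w x, h1, LinearMap.zero_apply, neg_zero, sub_zero] at this
  · obtain ⟨w, h1, h2⟩ := a6 v
    have := congr($h2 x)
    rw [a2, map_sub, b w h1, sub_zero] at this
    exact this

end Cfsg.Agent.S4966
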