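import Cfsg.Statements.S4959
import Cfsg.Agent.Lib.KGV.Real

set_option autoImplicit false
open Cfsg

namespace Cfsg.Agent.S4959

open Cfsg.Lib Cfsg.Lib.KGV Subgroup

/-- Let X be a finite group and V a normal subgroup of X in which every element has order dividing the prime p, whose index in X is prime to p and which is its own centralizer in X; so V is an elementary abelian normal Sylow p-subgroup, and any complement G to V in X is a group of order prime to p acting faithfully on the vector space V by conjugation (the coprime linear setting of the k(GV) problem). Let G be a complement to V in X, let v be in V and let H be the centralizer of v in G. Suppose there is a subgroup U of V normalized by H, on which H acts faithfully, and carrying an H-invariant bi-additive pairing β with values in the integers modulo p that is nondegenerate on U (equivalently: the restriction of the module V to H has a faithful self-dual submodule; such a v is called a real vector for G). Then the number of conjugacy classes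 of X is at most the order of V (the real-vector criterion for the k(GV) problem). The pairing is given as a function on X whose relevant values are those on pairs from U. -/
theorem result {X : Type*} [Group X] [Finite X] (p : ℕ) [Fact p.Prime] (V : Subgroup X) [V.Normal] (hVexp : ∀ v ∈ V, v ^ p = 1) (hidx : ¬ p ∣ V.index) (hself : Subgroup.centralizer (V : Set X) = V) (G : Subgroup X) (hGV : Subgroup.IsComplement' V G) (v : X) (hv : v ∈ V) (U : Subgroup X) (hUV : U ≤ V) (hUinv : ∀ h ∈ G, h * v * h⁻¹ = v → ∀ u ∈ U, h * u * h⁻¹ ∈ U) (hUfaith : ∀ h ∈ G, h * v * h⁻¹ = v → (∀ u ∈ U, h * u * h⁻¹ = u) → h = 1) (β : X → X → ZMod p) (hβl : ∀ u ∈ U, ∀ u' ∈ U, ∀ w ∈ U, β (u * u') w = β u w + β u' w) (hβr : ∀ u ∈ U, ∀ w ∈ U, ∀ w' ∈ U, β u (w * w') = β u w + β u w') (hβinv : ∀ h ∈ G, h * v * h⁻¹ = v → ∀ u ∈ U, ∀ w ∈ U, β (h * u * h⁻¹) (h * w * h⁻¹) = β u w) (hβnd : ∀ u ∈ U, (∀ w ∈ U, β u w = 0) → u = 1) : Nat.card (ConjClasses X) ≤ Nat.card V := by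
  classical
  haveI := Fintype.ofFinite X
  have hV : ∀ a ∈ V, ∀ b ∈ V, a * b = b * a := fun a ha _ hb => (hself.ge hb) a ha
  obtain ⟨e⟩ := PLocal.nonempty_elemAbCoord (p := p) (V := U)
    ⟨⟨⟨fun a b => Subtype.ext (hV _ (hUV a.2) _ (hUV b.2))⟩⟩, fun u hu => hVexp u (hUV hu)⟩
  obtain ⟨F, _, _, ⟨f⟩⟩ := Clifford.exists_ringHom_charP p
  have hc : ∀ c : ↥(G ⊓ centralizer {v}), (c : X) * v * (c : X)⁻¹ = v := fun c =>
    mul_inv_eq_iff_eq_mul.2 (mem_centralizer_singleton_iff.1 c.2.2)
  have hC : G ⊓ centralizer {v} ≤ normalizer (U : Set X) := fun c h =>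
    mem_normalizer_fintype fun u hu => hUinv c h.1 (hc ⟨c, h⟩) u hu
  let L : (Fin e.n → ZMod p) → (Fin e.n → ZMod p) →+ ZMod p := fun x => AddMonoidHom.mk' (fun y => β (e.e x) (e.e y))
    fun y z => by rw [e.map_add, hβr _ (e.mem _) _ (e.mem _) _ (e.mem _)]
  let B : LinearMap.BilinForm (ZMod p) (Fin e.n → ZMod p) :=
    (AddMonoidHom.mk' (fun x => (L x).toZModLinearMap p) fun x y => LinearMap.ext fun z => by
      change β (e.e (x + y)) (e.e z) = β (e.e x) (e.e z) + β (e.e y) (e.e z)
      rw [e.map_add, hβl _ (e.mem _) _ (e.mem _) _ (e.mem _)]).toZModLinearMap p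
  have hB : ∀ x y, B x y = β (e.e x) (e.e y) := fun _ _ => rfl
  refine crit hidx hV hGV hv (hVexp v hv) (f := f) (good_dual (rep e hC) (B := B)
    (fun h => hidx (hGV.symm.index_eq_card ▸ h.trans (card_dvd_of_le inf_le_left)))
    (.ofSeparatingLeft fun x hx => e.eq_one_iff.1 (hβnd _ (e.mem x) fun w hw => ?_)) fun c x y => ?_)
    (fun c h => Subtype.ext (hUfaith c c.2.1 (hc c) fun u hu => ?_)) fun c => ?_
  · obtain ⟨w, rfl⟩ := (e.mem_iff w).1 hw
    exact hx w
  · rw [hB, hB, e_rep, e_rep, hβinv c c.2.1 (hc c) _ (e.mem _) _ (e.mem _)]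
  · obtain ⟨w, rfl⟩ := (e.mem_iff u).1 hu
    rw [← e_rep e hC c w, (dl_eq_one _).1 h]
    rfl
  · have h1 := dl_rep e hC c
    have h2 := PGroup.card_inf_mul_relIndex U (V ⊓ centralizer {(c : X)})
    rw [← inf_assoc, inf_eq_left.2 hUV] at h2
    rw [← h2, ← mul_assoc, h1, ← PGroup.card_mul_relIndex hUV]
    exact Nat.mul_le_mul_left _ (relIndex_le_of_le_right inf_le_left index_ne_zero_of_finite)

end Cfsg.Agent.S4959
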