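import Cfsg.Statements.S4965
import Mathlib

set_option autoImplicit false
open Cfsg

namespace Cfsg.Agent.S4965

/-- Let X be a finite group with an abelian normal subgroup V (any two elements of V commute), and let φ be the action of X ⧸ V on V induced by conjugation (well defined because V is abelian; the hypothesis hφ says that the class of x acts as conjugation by x). Then X has at most as many conjugacy classes as the semidirect product of V by X ⧸ V formed with this action: the split extension has the largest class number among extensions with the given action. -/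
theorem result {X : Type*} [Group X] [Finite X] (V : Subgroup X) [V.Normal] (hab : ∀ a ∈ V, ∀ b ∈ V, a * b = b * a) (φ : X ⧸ V →* MulAut ↥V) (hφ : ∀ (x : X) (v : ↥V), ((φ (QuotientGroup.mk x) v : ↥V) : X) = x * v * x⁻¹) : Nat.card (ConjClasses X) ≤ Nat.card (ConjClasses (SemidirectProduct ↥V (X ⧸ V) φ)) := by
  classical
  have hVn : V.Normal := inferInstance
  haveI : Finite (SemidirectProduct V (X ⧸ V) φ) := Finite.of_equiv _ SemidirectProduct.equivProd.symm
  have h1 := card_comm_eq_card_conjClasses_mul_card X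
  have h2 := card_comm_eq_card_conjClasses_mul_card (SemidirectProduct V (X ⧸ V) φ)
  have h3 : Nat.card (SemidirectProduct V (X ⧸ V) φ) = Nat.card X := by
    rw [SemidirectProduct.card, ← V.card_mul_index, Subgroup.index_eq_card]
  rw [h3] at h2
  refine Nat.le_of_mul_le_mul_right ?_ (Nat.card_pos (α := X))
  rw [← h1, ← h2]
  have hex : ∀ p : {p : X × X // Commute p.1 p.2}, ∃ b : {p : X × X // Commute p.1 p.2},
      ((b.1.1 : X ⧸ V), (b.1.2 : X ⧸ V)) = ((p.1.1 : X ⧸ V), (p.1.2 : X ⧸ V)) := fun p => ⟨p, rfl⟩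
  let π : {p : X × X // Commute p.1 p.2} → (X ⧸ V) × (X ⧸ V) := fun p => (p.1.1, p.1.2)
  haveI : Nonempty {p : X × X // Commute p.1 p.2} := ⟨⟨(1, 1), Commute.refl 1⟩⟩
  let B : {p : X × X // Commute p.1 p.2} → {p : X × X // Commute p.1 p.2} :=
    fun p => Function.invFun π (π p)
  have hB : ∀ p, π (B p) = π p := fun p => Function.invFun_eq ⟨p, rfl⟩
  have hB1 : ∀ p, p.1.1 * (B p).1.1⁻¹ ∈ V := fun p => by
    have := QuotientGroup.eq.1 (congrArg Prod.fst (hB p))
    exact hVn.mem_comm this
  have hB2 : ∀ p, p.1.2 * (B p).1.2⁻¹ ∈ V := fun p => by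
    have := QuotientGroup.eq.1 (congrArg Prod.snd (hB p))
    exact hVn.mem_comm this
  refine Nat.card_le_card_of_injective
    (fun p => ⟨(⟨⟨_, hB1 p⟩, (p.1.1 : X ⧸ V)⟩, ⟨⟨_, hB2 p⟩, (p.1.2 : X ⧸ V)⟩), ?_⟩) ?_
  · refine SemidirectProduct.ext (Subtype.ext ?_) ?_
    · simp only [SemidirectProduct.mul_left, Subgroup.coe_mul]
      have e1 : (p.1.1 : X ⧸ V) = ((B p).1.1 : X ⧸ V) := (congrArg Prod.fst (hB p)).symm
      have e2 : (p.1.2 : X ⧸ V) = ((B p).1.2 : X ⧸ V) := (congrArg Prod.snd (hB p)).symm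
      rw [e1, e2, hφ, hφ]
      have c1 := p.2.eq
      have c2 := (B p).2.inv_inv.eq
      calc p.1.1 * (B p).1.1⁻¹ * ((B p).1.1 * (p.1.2 * (B p).1.2⁻¹) * (B p).1.1⁻¹)
          = (p.1.1 * p.1.2) * ((B p).1.2⁻¹ * (B p).1.1⁻¹) := by group
        _ = (p.1.2 * p.1.1) * ((B p).1.1⁻¹ * (B p).1.2⁻¹) := by rw [c1, c2]
        _ = _ := by group
    · simp only [SemidirectProduct.mul_right, ← QuotientGroup.mk_mul, p.2.eq]
  · intro p q h
    have h := congrArg Subtype.val h
    have a1 := congrArg (fun t => t.1.right) h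
    have a2 := congrArg (fun t => t.2.right) h
    have a3 := congrArg (fun t => (t.1.left : X)) h
    have a4 := congrArg (fun t => (t.2.left : X)) h
    simp only at a1 a2 a3 a4
    have hb : B p = B q := congrArg (Function.invFun π) (Prod.ext a1 a2)
    rw [hb] at a3 a4
    exact Subtype.ext (Prod.ext (mul_right_cancel a3) (mul_right_cancel a4))

end Cfsg.Agent.S4965
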