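import Cfsg.Statements.S0087
import Cfsg.Agent.Lib.Transfer.Criteria

set_option autoImplicit false
open Cfsg

namespace Cfsg.Agent.S0087

open scoped IsMulCommutative in
/-- A Hall subgroup that is central in its normalizer has a normal complement. -/
theorem result {G : Type*} [Group G] [Finite G] (H : Subgroup G) (hHall : Nat.Coprime (Nat.card H) H.index) (h : Subgroup.normalizer (H : Set G) ≤ Subgroup.centralizer (H : Set G)) : ∃ N : Subgroup G, N.Normal ∧ N.IsComplement' H := by
  have hc : IsMulCommutative H :=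
    Subgroup.le_centralizer_iff_isMulCommutative.1 (Subgroup.le_normalizer.trans h)
  refine Lib.Transfer.exists_normal_complement_of_nilpotent_hall H inferInstance hHall
    fun x hx g hg => ⟨1, one_mem _, ?_⟩
  have hy : H ≤ Subgroup.centralizer (Subgroup.zpowers (g * x * g⁻¹) : Set G) :=
    Subgroup.le_centralizer_iff.1 ((Subgroup.zpowers_le.2 hg).trans (Subgroup.le_centralizer H))
  have hx' : H ≤ Subgroup.centralizer (Subgroup.zpowers x : Set G) :=
    Subgroup.le_centralizer_iff.1 ((Subgroup.zpowers_le.2 hx).trans (Subgroup.le_centralizer H))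
  obtain ⟨c, hc, h1⟩ := Lib.Transfer.exists_le_conj_of_abelian
    (H := H.map (MulAut.conj g).toMonoidHom) (K := H)
    (X := Subgroup.centralizer (Subgroup.zpowers (g * x * g⁻¹) : Set G))
    (by rw [← Lib.Transfer.conj_zpowers, ← Lib.Transfer.conj_centralizer]; exact Subgroup.map_mono hx')
    hy (by
      rw [Lib.Transfer.card_conj]
      exact Nat.Coprime.coprime_dvd_right (Subgroup.relIndex_dvd_index_of_le hy) hHall)
  rw [Lib.Transfer.le_conj_iff_inv_conj_le, Lib.Transfer.conj_conj] at h1
  have h2 := h (Lib.Transfer.mem_normalizer_of_conj_le h1) x hx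
  have h3 := hc _ (Subgroup.mem_zpowers _)
  calc 1 * x * 1⁻¹ = c⁻¹ * g * x * (c⁻¹ * g)⁻¹ := by rw [← h2]; group
    _ = c⁻¹ * (g * x * g⁻¹ * c) := by group
    _ = g * x * g⁻¹ := by rw [h3]; group

end Cfsg.Agent.S0087
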