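import Cfsg.Statements.S0899
import Cfsg.Agent.Lib.CharDeg.FTSylow

set_option autoImplicit false
open Cfsg

namespace Cfsg.Agent.S0899

open Cfsg.Lib.Char Cfsg.Lib.CharDeg

/-- Let G be a finite group with a faithful complex representation of degree n (on Fin n → ℂ) and p a prime. Suppose either that (n + 1) ^ 2 ≤ p, or that n + 1 < p and every subgroup of G whose order is not divisible by p ^ 2 has a normal Sylow p-subgroup. Then every Sylow p-subgroup of G is normal. -/
theorem result {G : Type*} [Group G] [Finite G] (n : ℕ) (ρ : Representation ℂ G (Fin n → ℂ)) (hρ : Function.Injective ρ) (p : ℕ) [Fact p.Prime] (h : (n + 1) ^ 2 ≤ p ∨ (n + 1 < p ∧ ∀ K : Subgroup G, ¬ p ^ 2 ∣ Nat.card K → ∀ Q : Sylow p K, (Q : Subgroup K).Normal)) (P : Sylow p G) : (P : Subgroup G).Normal := by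
  have hf : ∀ g, ρ.character g = ρ.character 1 → g = 1 := fun g hg =>
    hρ (((character_eq_character_one_iff ρ g).1 hg).trans ρ.map_one.symm)
  rcases n.eq_zero_or_pos with rfl | hn
  · have : Subsingleton G := ⟨fun a b => hρ (Subsingleton.elim _ _)⟩
    rw [Subsingleton.elim (P : Subgroup G) ⊥]
    infer_instance
  have h1 : n + 1 < p ∧ ∀ K : Subgroup G, ¬ p ^ 2 ∣ Nat.card K → ∀ Q : Sylow p K,
      (Q : Subgroup K).Normal := h.elim (fun h => ⟨by nlinarith, fun K hK =>
    normal_sylow_of_sq_le (ρ.comp K.subtype) (hρ.comp K.subtype_injective)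
      (by rw [Module.finrank_fin_fun]; nlinarith) hK⟩) id
  exact normal_sylow_of_forall _ G ρ.character rfl ⟨n, ρ, rfl⟩ hf
    (by rw [charDegree_character, Module.finrank_fin_fun]; exact h1.1) h1.2 P

end Cfsg.Agent.S0899
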