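import Cfsg.Statements.S4485
import Cfsg.Agent.S4486

set_option autoImplicit false
open Cfsg

namespace Cfsg.Agent.S4485

open Cfsg.Lib.Char Cfsg.Lib.OddChar

/-- Let G be a finite group and p a prime dividing its order such that every non-identity element of a Sylow p-subgroup P has the same centralizer as P itself (so P is abelian); let p^n be the order of P. If G has a faithful character of degree x with x² < p^n − 1, then P is normal in G. -/
theorem result {G : Type*} [Group G] [Finite G] (p : ℕ) (hp : p.Prime) (hpG : p ∣ Nat.card G) (P : Sylow p G) (hstar : ∀ x ∈ (P : Subgroup G), x ≠ 1 → Subgroup.centralizer ({x} : Set G) = Subgroup.centralizer ((P : Subgroup G) : Set G)) (n : ℕ) (hn : Nat.card P = p ^ n) (χ : G → ℂ) (hχ : Cfsg.IsCharacter G χ) (hfaith : ∀ g : G, χ g = χ 1 → g = 1) (hdeg : Cfsg.charDegree χ ^ 2 + 1 < p ^ n) : (P : Subgroup G).Normal := by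
  classical
  haveI := Fact.mk hp
  let K : Subgroup G := Subgroup.normalClosure ((P : Subgroup G) : Set G)
  have hPK : (P : Subgroup G) ≤ K := Subgroup.le_normalClosure
  letI := Fintype.ofFinite K
  have hcard : Nat.card (P.subtype hPK) = p ^ n := by
    rw [← hn]; exact Nat.card_congr (Subgroup.subgroupOfEquivOfLe hPK).toEquiv
  -- conjugates of `P` lie in every normal subgroup of `K` containing `P`
  have conj : ∀ L : Subgroup K, L.Normal → (P : Subgroup G).subgroupOf K ≤ L → ∀ (g : G) (y : K),
      g⁻¹ * y * g ∈ (P : Subgroup G) → y ∈ L := by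
    intro L hL hPL g y hy
    have hle : ((g • P : Sylow p G) : Subgroup G) ≤ K := by
      intro z hz
      rw [Sylow.coe_subgroup_smul, Subgroup.mem_pointwise_smul_iff_inv_smul_mem] at hz
      simpa [mul_assoc] using (inferInstance : K.Normal).conj_mem _ (hPK hz) g
    obtain ⟨k, hk⟩ := MulAction.exists_smul_eq K (P.subtype hPK) ((g • P).subtype hle)
    have h1 : y ∈ ((g • P).subtype hle : Subgroup K) := by
      rw [Sylow.coe_subtype, Subgroup.mem_subgroupOf, Sylow.coe_subgroup_smul,
        Subgroup.mem_pointwise_smul_iff_inv_smul_mem]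
      simpa using hy
    rw [← hk, Sylow.coe_subgroup_smul, Subgroup.mem_pointwise_smul_iff_inv_smul_mem] at h1
    simpa [mul_assoc] using hL.conj_mem _ (hPL h1) k
  have top : ∀ L : Subgroup K, L.Normal → (P : Subgroup G).subgroupOf K ≤ L → L = ⊤ := by
    intro L hL hPL
    have : K ≤ L.map K.subtype := by
      refine (Subgroup.closure_le _).2 fun y hy => ?_
      obtain ⟨z, hz, h⟩ := Group.mem_conjugatesOfSet_iff.1 hy
      obtain ⟨g, rfl⟩ := isConj_iff.1 h
      exact ⟨⟨_, (inferInstance : K.Normal).conj_mem _ (hPK hz) g⟩, conj L hL hPL g _ (by simpa [mul_assoc] using (show z ∈ (P : Subgroup G) from hz)), rfl⟩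
    exact top_le_iff.1 fun y _ => by
      obtain ⟨z, hz, e⟩ := this y.2
      rwa [← Subtype.ext e]
  have hχK := hχ.restrict K
  have lin : ∀ ψ : IrrCharacter K, mlt (fun k : K => χ k) ψ ≠ 0 → (ψ : K → ℂ) 1 = 1 := by
    intro ψ hψ
    by_cases h1 : (ψ : K → ℂ) = fun _ => 1
    · rw [h1]
    have hle : charDegree (ψ : K → ℂ) ≤ charDegree χ :=
      hχK.degree_le_of_constituent ψ.2 ((mlt_ne_zero_iff hχK.isGeneralizedCharacter).1 hψ) ψ.2.apply_one_eq
        hχ.apply_one_eq
    have hn0 : n ≠ 0 := by rintro rfl; simp at hdeg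
    have hst : ∀ x ∈ (P.subtype hPK : Subgroup K), x ≠ 1 → Subgroup.centralizer ({x} : Set K) =
        Subgroup.centralizer ((P.subtype hPK : Subgroup K) : Set K) := by
      intro x hx hx1
      have := hstar x hx fun e => hx1 (Subtype.ext e)
      refine le_antisymm (fun c hc y hy => Subtype.ext ?_) fun c hc =>
        Subgroup.mem_centralizer_singleton_iff.2 (hc x hx).symm
      have h2 : (c : G) ∈ Subgroup.centralizer ({(x : G)} : Set G) :=
        Subgroup.mem_centralizer_singleton_iff.2 (congrArg Subtype.val (Subgroup.mem_centralizer_singleton_iff.1 hc))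
      rw [this] at h2
      exact h2 y hy
    rcases Cfsg.Agent.S4486.result p hp ((dvd_pow_self p hn0).trans (hcard ▸ Subgroup.card_subgroup_dvd_card _))
      (P.subtype hPK) hst n hcard ψ h1 (by nlinarith) with ⟨L, h2, h3, h4⟩ | ⟨-, h2⟩
    · exact (h3 (top L h2 h4)).elim
    · exact ψ.2.isCharacter.charDegree_eq_one_iff.1 h2
  have comm : ∀ a b : K, a * b = b * a := by
    intro a b
    have : a * b * a⁻¹ * b⁻¹ = 1 := by
      refine Subtype.ext (hfaith _ ?_)
      have e1 := apply_eq_sum_mlt hχK.isGeneralizedCharacter (a * b * a⁻¹ * b⁻¹)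
      have e2 := apply_eq_sum_mlt hχK.isGeneralizedCharacter 1
      refine e1.trans (Eq.trans (Finset.sum_congr rfl fun ψ _ => ?_) e2.symm)
      by_cases hψ : mlt (fun k : K => χ k) ψ = 0
      · simp [hψ]
      obtain ⟨lam, hlam⟩ := ψ.2.isCharacter.exists_hom_of_apply_one (lin ψ hψ)
      rw [hlam]; simp [mul_comm, mul_left_comm]
    rw [mul_inv_eq_one, mul_inv_eq_iff_eq_mul] at this
    exact this
  refine ⟨fun y hy g => ?_⟩
  exact conj ((P : Subgroup G).subgroupOf K) ⟨fun a ha b => by rwa [comm b a, mul_inv_cancel_right]⟩ le_rfl g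
    ⟨_, (inferInstance : K.Normal).conj_mem _ (hPK hy) g⟩ (by simpa [mul_assoc] using hy)

end Cfsg.Agent.S4485
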