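import Cfsg.Statements.S3430
import Cfsg.Agent.Lib.GLC.Zsig2

set_option autoImplicit false
open Cfsg

namespace Cfsg.Agent.S3430

theorem aux : ∀ p ∈ [(2, 8), (2, 20), (2, 3), (4, 3), (4, 6)],
    (2 * p.2 + 1).Prime ∧ 2 * p.2 + 1 ∣ p.1 ^ p.2 - 1 ∧ ∀ i ∈ Finset.Ico 1 p.2, ¬ 2 * p.2 + 1 ∣ p.1 ^ i - 1 := by
  decide +kernel


/-- Let q, n ≥ 2 be integers. Unless (n = 2 and q + 1 = 2^s·3^t for some s ≥ 0 and t ≤ 1), or (q = 2 and n ∈ {4, 6, 10, 12, 18}), or (q = 3 and n ∈ {4, 6}), or (q, n) = (5, 6), there is a prime p dividing q^n − 1 but no q^i − 1 with 1 ≤ i < n (a primitive prime divisor), such that p > n + 1 or p² divides q^n − 1. -/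
theorem result (q n : ℕ) (hq : 2 ≤ q) (hn : 2 ≤ n)
    (h1 : ¬ (n = 2 ∧ ∃ s t : ℕ, t ≤ 1 ∧ q + 1 = 2 ^ s * 3 ^ t))
    (h2 : ¬ (q = 2 ∧ (n = 4 ∨ n = 6 ∨ n = 10 ∨ n = 12 ∨ n = 18)))
    (h3 : ¬ (q = 3 ∧ (n = 4 ∨ n = 6))) (h4 : ¬ (q = 5 ∧ n = 6)) :
    ∃ p : ℕ, p.Prime ∧ p ∣ q ^ n - 1 ∧ (∀ i : ℕ, 1 ≤ i → i < n → ¬ p ∣ q ^ i - 1) ∧ (n + 1 < p ∨ p ^ 2 ∣ q ^ n - 1) := by
  rcases hn.eq_or_lt with rfl | hn
  · have h5 : q ^ 2 - 1 = (q + 1) * (q - 1) := by rw [← Nat.sq_sub_sq]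
    obtain ⟨s, m, hm, e⟩ := Nat.exists_eq_two_pow_mul_odd (n := q + 1) (by omega)
    have h6 : ∀ p : ℕ, p.Prime → p ∣ m → ∀ i : ℕ, 1 ≤ i → i < 2 → ¬ p ∣ q ^ i - 1 := fun p hp hpm i h7 h8 h9 => by
      obtain rfl : i = 1 := by omega
      have h10 : p ∣ 2 := by
        have := Nat.dvd_sub (e ▸ hpm.mul_left _ : p ∣ q + 1) h9
        rwa [show q + 1 - (q ^ 1 - 1) = 2 by simp; omega] at this
      obtain rfl := (Nat.prime_dvd_prime_iff_eq hp Nat.prime_two).1 h10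
      exact (Nat.not_even_iff_odd.2 hm) (even_iff_two_dvd.2 hpm)
    have h7 : m ∣ q ^ 2 - 1 := by rw [h5, e]; exact (dvd_mul_left _ _).mul_right _
    obtain ⟨t, m', hm', e'⟩ := Nat.exists_eq_pow_mul_and_not_dvd (n := m) (by rintro rfl; simp at hm) 3 (by norm_num)
    rcases eq_or_ne m' 1 with rfl | h8
    · have ht : 2 ≤ t := by
        by_contra ht
        exact h1 ⟨rfl, s, t, by omega, by rw [e, e', mul_one]⟩
      have h9 : 3 ^ 2 ∣ m := by rw [e', mul_one]; exact pow_dvd_pow _ ht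
      have h10 : 3 ∣ m := (dvd_pow_self 3 two_ne_zero).trans h9
      exact ⟨3, Nat.prime_three, h10.trans h7, h6 3 Nat.prime_three h10, Or.inr (h9.trans h7)⟩
    · obtain ⟨p, hp, hpm⟩ := Nat.exists_prime_and_dvd h8
      have h9 : p ∣ m := e' ▸ hpm.mul_left _
      refine ⟨p, hp, h9.trans h7, h6 p hp h9, Or.inl ?_⟩
      have := hp.two_le
      by_contra h10
      interval_cases p
      · exact (Nat.not_even_iff_odd.2 hm) (even_iff_two_dvd.2 h9)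
      · exact hm' hpm
  by_cases h5 : (q, n) ∈ [(2, 8), (2, 20), (2, 3), (4, 3), (4, 6)]
  · obtain ⟨h6, h7, h8⟩ := aux _ h5
    exact ⟨_, h6, h7, fun i a b => h8 i (Finset.mem_Ico.2 ⟨a, b⟩), Or.inl (by simp only; omega)⟩
  obtain ⟨m, h6, h7, h8⟩ := Lib.GLC.exists_large_prim_divisor hq hn (by
    clear h1
    simp only [List.mem_cons, Prod.mk.injEq, List.not_mem_nil, or_false] at h5 ⊢; omega)
  by_contra! H
  have h9 : ∀ p : ℕ, p.Prime → p ∣ m → p = n + 1 ∧ ¬ p ^ 2 ∣ m := fun p hp hpm => by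
    have h10 : ∀ i : ℕ, 1 ≤ i → i < n → ¬ p ∣ q ^ i - 1 := fun i a b c =>
      hp.ne_one (Nat.eq_one_of_dvd_coprimes (h7 i a b) hpm c)
    obtain ⟨h11, h12⟩ := H p hp (hpm.trans h6) h10
    refine ⟨h11.antisymm ?_, fun e => h12 (e.trans h6)⟩
    by_contra h13
    haveI := Fact.mk hp
    have h14 : ¬ p ∣ q := fun e => by
      have := Nat.dvd_sub (e.pow (n := n) (by omega)) (hpm.trans h6)
      rw [Nat.sub_sub_self (Nat.one_le_pow _ _ (by omega))] at this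
      exact hp.one_lt.ne' (Nat.dvd_one.1 this)
    refine h10 (p - 1) (by have := hp.two_le; omega) (by omega) ?_
    have := Nat.ModEq.pow_totient ((Nat.Prime.coprime_iff_not_dvd hp).2 h14).symm
    rw [Nat.totient_prime hp] at this
    exact (Nat.modEq_iff_dvd' (Nat.one_le_pow _ _ (by omega))).1 this.symm
  obtain ⟨p, hp, k, rfl⟩ := Nat.exists_prime_and_dvd (n := m) (by omega)
  obtain ⟨rfl, h10⟩ := h9 p hp (dvd_mul_right _ _)
  obtain ⟨r, hr, hrk⟩ := Nat.exists_prime_and_dvd (n := k) (by rintro rfl; omega)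
  obtain ⟨rfl, -⟩ := h9 r hr (hrk.mul_left _)
  exact h10 (by rw [sq]; exact mul_dvd_mul_left _ hrk)

end Cfsg.Agent.S3430
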