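import Cfsg.Statements.S5015
import Cfsg.Agent.Lib.Root.RankOne

set_option autoImplicit false
open Cfsg

namespace Cfsg.Agent.S5015

open Cfsg.Lib Cfsg.Lib.Root

open Cfsg.Lib.Transfer
open scoped Cfsg.Lib.Transfer

/-- Let a group Y act doubly transitively on a set Ω with at least three points, and suppose that the stabilizer of a point α contains a nilpotent subgroup A, normalized by that stabilizer, which acts regularly on the points other than α. Then for any y in Y moving α, the subgroups A and y A y⁻¹ are the unipotent subgroups of a rank one group, and the normal closure of A in Y (the subgroup generated by all conjugates of A) is generated by A and y A y⁻¹ alone. -/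
theorem result {Y Ω : Type*} [Group Y] [MulAction Y Ω]
    (h2 : MulAction.IsMultiplyPretransitive Y Ω 2) (hΩ : 3 ≤ ENat.card Ω) (α : Ω) (A : Subgroup Y)
    (hA : A ≤ MulAction.stabilizer Y α) (hAn : ∀ y ∈ MulAction.stabilizer Y α, Cfsg.conjBy A y = A)
    (hnil : Group.IsNilpotent A) (hreg : ∀ β γ : Ω, β ≠ α → γ ≠ α → ∃! a : Y, a ∈ A ∧ a • β = γ)
    (y : Y) (hy : y ∉ MulAction.stabilizer Y α) :
    Cfsg.IsRankOnePair A (Cfsg.conjBy A y) ∧ Subgroup.normalClosure (A : Set Y) = A ⊔ Cfsg.conjBy A y := by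
  simp only [conjBy] at hAn ⊢
  have hy' : y • α ≠ α := hy
  have wd : ∀ g g' : Y, g • α = g' • α → g ⋆ A = g' ⋆ A := by
    intro g g' e
    have : (g'⁻¹ * g) ⋆ A = A := hAn _ (by
      rw [MulAction.mem_stabilizer_iff, mul_smul, e, inv_smul_smul])
    rw [← conj_conj] at this
    rw [← conj_inv_conj g' (g ⋆ A), this]
  have fix : ∀ a ∈ A, ∀ β, β ≠ α → a • β = β → a = 1 := by
    intro a ha β hβ e
    exact (hreg β β hβ hβ).unique ⟨ha, e⟩ ⟨A.one_mem, one_smul _ _⟩
  have nfix : ∀ a ∈ A, ∀ β, β ≠ α → a • β ≠ α := by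
    intro a ha β hβ e
    have : a • α = α := hA ha
    exact hβ (smul_left_cancel a (e.trans this.symm))
  have hyi : y⁻¹ • α ≠ α := fun e => hy' (by conv_lhs => rw [← e]; rw [smul_inv_smul])
  refine ⟨r1_mk ?_ hnil (Group.nilpotent_of_mulEquiv (conjEquiv y A)) ?_ ?_, le_antisymm ?_ ?_⟩
  · intro e
    obtain ⟨γ, h1, h2⟩ : ∃ γ : Ω, γ ≠ α ∧ γ ≠ y • α := by
      by_contra hc
      push Not at hc
      have : ENat.card Ω ≤ 2 := by
        have e2 : (Set.univ : Set Ω) ⊆ {α, y • α} := fun γ _ => by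
          by_cases h : γ = α
          · exact Or.inl h
          · exact Or.inr (hc γ h)
        rw [← Set.encard_univ]
        exact (Set.encard_le_encard e2).trans (Set.encard_pair hy'.symm).le
      have := hΩ.trans this
      norm_num at this
    obtain ⟨a, ⟨ha, e1⟩, -⟩ := hreg (y • α) γ hy' h1
    rw [e, mem_conj] at ha
    have : (y⁻¹ * a * y) • α = α := hA ha
    rw [mul_smul, mul_smul, e1, inv_smul_eq_iff] at this
    exact h2 this
  · intro a ha ha1
    have h1 : (y⁻¹ * a * y) • α ≠ α := by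
      rw [mul_smul, mul_smul, Ne, inv_smul_eq_iff]
      exact fun e => ha1 (fix a ha _ hy' e)
    obtain ⟨a', ⟨ha', e⟩, -⟩ := hreg _ _ hyi h1
    have e' : (y * a' * y⁻¹) • α = (a * y) • α := by
      rw [mul_smul, mul_smul, e, ← mul_smul]; congr 1; group
    refine ⟨y * a' * y⁻¹, conj_mem_conj.2 ha', fun h0 => ?_, by rw [conj_conj]; exact wd _ _ e'⟩
    rw [h0, one_smul, mul_smul] at e'
    exact nfix a ha _ hy' e'.symm
  · intro b hb hb1
    rw [mem_conj] at hb
    have h1 : b • α ≠ α := by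
      intro e
      have : y⁻¹ * b * y = 1 := fix _ hb _ hyi (by rw [mul_smul, mul_smul, smul_inv_smul, e])
      apply hb1
      calc b = y * (y⁻¹ * b * y) * y⁻¹ := by group
        _ = 1 := by rw [this]; group
    obtain ⟨a, ⟨ha, e⟩, -⟩ := hreg _ _ hy' h1
    refine ⟨a, ha, fun h0 => ?_, by rw [conj_conj]; exact wd _ _ (by rw [mul_smul, e])⟩
    rw [h0, one_smul] at e
    apply nfix _ hb _ hyi
    rw [mul_smul, mul_smul, smul_inv_smul, ← e, inv_smul_smul]
  · rw [Subgroup.normalClosure, Subgroup.closure_le]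
    intro x hx
    obtain ⟨a, ha, hx⟩ := Group.mem_conjugatesOfSet_iff.1 hx
    obtain ⟨g, rfl⟩ := isConj_iff.1 hx
    have hm : g * a * g⁻¹ ∈ g ⋆ A := conj_mem_conj.2 ha
    by_cases hg : g • α = α
    · rw [hAn g hg] at hm
      exact Subgroup.mem_sup_left hm
    · obtain ⟨a', ⟨ha', e⟩, -⟩ := hreg _ _ hy' hg
      rw [wd g (a' * y) (by rw [mul_smul, e]), ← conj_conj] at hm
      exact Om_le (conj_mem_Om' ha') hm
  · refine sup_le Subgroup.le_normalClosure ?_
    rw [conj_le_iff]
    intro x hx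
    exact Subgroup.normalClosure_normal.conj_mem _ (Subgroup.le_normalClosure hx) y

end Cfsg.Agent.S5015
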