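import Cfsg.Statements.S0744
import Cfsg.Agent.Lib.Perm.Witt
import Cfsg.Agent.S0743

set_option autoImplicit false
open Cfsg

namespace Cfsg.Agent.S0744

/-- If for some `k > 1` the pointwise stabilisers of all `(k-1)`-subsets have the same order `> 1` and those of all `k`-subsets have the same order, then the group is `(k-1)`-transitive. -/
theorem result {α : Type*} [Fintype α] [DecidableEq α] (G : Subgroup (Equiv.Perm α)) {k : ℕ} (hk : 1 < k) (hkn : k ≤ Fintype.card α) (l m : ℕ) (hl : 1 < l) (hkm1 : ∀ s : Finset α, s.card = k - 1 → Nat.card (fixingSubgroup G (s : Set α)) = l) (hkm : ∀ s : Finset α, s.card = k → Nat.card (fixingSubgroup G (s : Set α)) = m) : MulAction.IsMultiplyPretransitive G α (k - 1) := by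
  obtain ⟨j, rfl⟩ := Nat.exists_eq_add_of_le' hk.le
  simp only [Nat.add_sub_cancel] at hkm1 ⊢
  have horb : ∀ s : Finset α, s.card = j → ∀ a ∉ s,
      l = Nat.card (MulAction.orbit (fixingSubgroup G (s : Set α)) a) * m := by
    intro s hs a ha
    rw [← hkm1 s hs, Lib.Perm.card_fixing_eq_mul s a,
      hkm (insert a s) (by rw [Finset.card_insert_of_notMem ha, hs])]
  obtain ⟨s₀, hs₀⟩ := Lib.Perm.exists_finset_card (α := α) (k := j)
    (by rw [Nat.card_eq_fintype_card]; omega)
  obtain ⟨a₀, ha₀⟩ := Lib.Perm.exists_notMem_finset s₀ (by rw [Nat.card_eq_fintype_card]; omega)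
  set r := Nat.card (MulAction.orbit (fixingSubgroup G (s₀ : Set α)) a₀) with hr
  have hm : 0 < m := by
    have := horb s₀ hs₀ a₀ ha₀
    rcases Nat.eq_zero_or_pos m with rfl | h
    · omega
    · exact h
  have horb' : ∀ s : Finset α, s.card = j → ∀ a ∉ s,
      Nat.card (MulAction.orbit (fixingSubgroup G (s : Set α)) a) = r := fun s hs a ha =>
    Nat.eq_of_mul_eq_mul_right hm ((horb s hs a ha).symm.trans (horb s₀ hs₀ a₀ ha₀))
  have hr1 : r ≠ 1 := by
    intro h1
    have : fixingSubgroup G (s₀ : Set α) = ⊥ := by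
      rw [eq_bot_iff]
      intro g hg
      rw [Subgroup.mem_bot]
      ext x
      by_cases hx : x ∈ s₀
      · exact Lib.Perm.mem_fixing_iff.1 hg x hx
      · have h2 := horb' s₀ hs₀ x hx
        rw [h1, Nat.card_eq_one_iff_unique] at h2
        exact congrArg Subtype.val (h2.1.elim ⟨_, MulAction.mem_orbit x ⟨g, hg⟩⟩
          ⟨_, MulAction.mem_orbit_self x⟩)
    have h2 := hkm1 s₀ hs₀
    rw [this] at h2
    simp at h2
    omega
  obtain ⟨p, hp, hpr⟩ := Nat.exists_prime_and_dvd hr1
  have := Fact.mk hp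
  refine S0743.result G hp (by omega) (by omega) fun s hs => ?_
  obtain ⟨P, -, hPK, hP, hPi⟩ := Lib.Transfer.exists_sylowIn_ge (p := p)
    (H := fixingSubgroup G (s : Set α)) IsPGroup.of_bot bot_le
  refine ⟨P, hP, ?_⟩
  ext x
  refine ⟨fun hx => ?_, fun hx g => Lib.Perm.mem_fixing_iff.1 (hPK g.2) x hx⟩
  by_contra hxs
  apply hPi
  have hle : P ≤ fixingSubgroup G ((insert x s : Finset α) : Set α) := by
    intro g hg
    rw [Lib.Perm.mem_fixing_iff]
    intro y hy
    rcases Finset.mem_insert.1 hy with rfl | hy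
    · exact hx ⟨g, hg⟩
    · exact Lib.Perm.mem_fixing_iff.1 (hPK hg) y hy
  have hle2 : fixingSubgroup G ((insert x s : Finset α) : Set α) ≤ fixingSubgroup G (s : Set α) :=
    fixingSubgroup_antitone G α (by simp)
  refine hpr.trans (Dvd.dvd.trans ?_ (Subgroup.relIndex_dvd_of_le_left _ hle))
  have h1 := Lib.Transfer.card_mul_relIndex hle2
  rw [Lib.Perm.card_fixing_eq_mul s x, horb' s hs x hxs, mul_comm r] at h1
  rw [Nat.eq_of_mul_eq_mul_left Nat.card_pos h1]

end Cfsg.Agent.S0744
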