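import Cfsg.Statements.S0745
import Cfsg.Agent.Lib.Perm.LW2
import Cfsg.Agent.Lib.Perm.Half
import Cfsg.Agent.S0744

set_option autoImplicit false
open Cfsg

namespace Cfsg.Agent.S0745

open MulAction Function Equiv SubMulAction Lib.Perm
open scoped Pointwise

theorem card_dvd_ncard {G α : Type*} [Group G] [MulAction G α] [Finite α] (U : Subgroup G)
    {s : Set α} (hs : ∀ u ∈ U, ∀ x ∈ s, u • x ∈ s) (h : ∀ u ∈ U, ∀ x ∈ s, u • x = x → u = 1) :
    Nat.card U ∣ s.ncard := by
  refine dvd_ncard_of_orbits (A := U) (fun g => hs g g.2) fun x hx => ?_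
  have h1 : stabilizer U x = ⊥ := by
    rw [eq_bot_iff]; exact fun u hu => Subtype.ext (h u u.2 x hx hu)
  rw [← ncard_orbit_mul (A := U) x, h1]; simp

theorem eq_one_of_mod_four {G α : Type*} [Group G] [Finite G] [MulAction G α] [Finite α]
    [IsPretransitive G α] (hm : Nat.card α % 4 = 2)
    (h2 : ∀ (g : G) (a b : α), a ≠ b → g • a = a → g • b = b → g = 1)
    (h1 : ∀ (t : G) (a : α), t • a = a → t * t = 1 → t = 1) (g : G) (a : α) (hg : g • a = a) :
    g = 1 := by
  classical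
  have := Fintype.ofFinite α
  have : Nonempty α := ⟨a⟩
  obtain ⟨t, ht⟩ := Lib.Inv.exists_involution_of_even (G := G) (by
    rw [card_eq_card_mul_stabilizer a]
    exact Even.mul_right (Nat.even_iff.2 (by omega)) _)
  have ht2 := Lib.Inv.mul_self_of_orderOf ht
  let φ : G →* ℤˣ := Perm.sign.comp (toPermHom G α)
  have hφt : φ t = -1 := by
    have e : Fintype.card (Function.fixedPoints (toPermHom G α t)) = 0 :=
      Fintype.card_eq_zero_iff.2 ⟨fun x => Lib.Inv.ne_one_of_orderOf ht (h1 t x x.2 ht2)⟩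
    have := Perm.sign_of_pow_two_eq_one (σ := toPermHom G α t) (by rw [← map_pow, sq, ht2, map_one])
    rw [e, ← Nat.card_eq_fintype_card] at this
    exact this.trans (Odd.neg_one_pow (Nat.odd_iff.2 (by omega)))
  have hU : ∀ u : G, u • a = a → φ u = 1 := by
    intro u hu
    obtain ⟨k, hk⟩ := Lib.Inv.exists_sq_pow_eq_of_odd (odd_of_no_invol (α := α) (m := 1)
      (fun t S hS h ht => by
        obtain ⟨b, hb⟩ := Finset.card_pos.1 hS
        exact h1 t b (h b hb) ht) u {a} (by simp) (by simpa using hu))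
    rw [← hk, map_pow, map_mul, Int.units_mul_self, one_pow]
  set O : Set α := {x | ∃ g : G, φ g = 1 ∧ g • a = x} with hO
  have hmem : ∀ g : G, g • a ∈ O ↔ φ g = 1 := fun g => ⟨fun ⟨h, h1, h2⟩ => by
    have := hU (h⁻¹ * g) (by rw [mul_smul, ← h2, inv_smul_smul])
    rwa [map_mul, map_inv, h1, inv_one, one_mul] at this, fun h => ⟨g, h, rfl⟩⟩
  have hc : Oᶜ = t • O := by
    ext x
    obtain ⟨g, rfl⟩ := exists_smul_eq G a x
    rw [Set.mem_compl_iff, hmem, Set.mem_smul_set_iff_inv_smul_mem, ← mul_smul, hmem, map_mul,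
      map_inv, hφt]
    rcases Int.units_eq_one_or (φ g) with h | h <;> simp [h]
  have hinv : ∀ u ∈ stabilizer G a, ∀ x, u • x ∈ O ↔ x ∈ O := fun u hu x => by
    obtain ⟨g, rfl⟩ := exists_smul_eq G a x
    rw [← mul_smul, hmem, hmem, map_mul, hU u hu, one_mul]
  have haO : a ∈ O := ⟨1, map_one _, one_smul _ _⟩
  have d1 := card_dvd_ncard (stabilizer G a) (s := Oᶜ) (fun u hu x hx h => hx ((hinv u hu x).1 h))
    (fun u hu x hx h => h2 u a x (fun e => hx (e ▸ haO)) hu h)
  have d2 := card_dvd_ncard (stabilizer G a) (s := O \ {a}) (fun u hu x hx =>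
    ⟨(hinv u hu x).2 hx.1, fun h => hx.2 (smul_left_cancel u (h.trans hu.symm))⟩)
    (fun u hu x hx h => h2 u a x (Ne.symm hx.2) hu h)
  rw [hc, Set.ncard_smul_set, ← Set.ncard_diff_singleton_add_one haO] at d1
  have := Nat.dvd_one.1 ((Nat.dvd_add_right d2).1 d1)
  exact Subgroup.mem_bot.1 ((Subgroup.eq_bot_of_card_eq _ this) ▸ (hg : g ∈ stabilizer G a))

theorem eq_one_of_mod_four' {G α : Type*} [Group G] [Finite G] [MulAction G α] [Fintype α]
    [DecidableEq α] {j : ℕ} (hG : IsMultiplyPretransitive G α (j + 1))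
    (hm : (Fintype.card α - j) % 4 = 2)
    (h2 : ∀ (g : G) (S : Finset α), j + 2 ≤ S.card → (∀ x ∈ S, g • x = x) → g = 1)
    (h1 : ∀ (t : G) (S : Finset α), j + 1 ≤ S.card → (∀ x ∈ S, t • x = x) → t * t = 1 → t = 1)
    (g : G) (S : Finset α) (hS : j + 1 ≤ S.card) (hg : ∀ x ∈ S, g • x = x) : g = 1 := by
  classical
  obtain ⟨s, hs, rfl⟩ := Finset.exists_subset_card_eq (s := S) (n := j) (by omega)
  obtain ⟨a, ha, ha'⟩ := Finset.exists_mem_notMem_of_card_lt_card (s := s) (t := S) (by omega)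
  have := is_one_pretransitive_iff.1 (ofFixingSubgroup.isMultiplyPretransitive G (m := 1)
    (s : Set α) (by rw [Set.ncard_coe_finset]))
  exact congrArg Subtype.val (eq_one_of_mod_four (G := fixingSubgroup G (s : Set α))
    (α := ofFixingSubgroup G (s : Set α)) (by rwa [card_ofFixing])
    (fun g a b hab e1 e2 => Subtype.ext (fix_lift (P := fun g => g = 1) s h2 g {a, b}
      (Finset.card_pair hab).ge (by simp [e1, e2])))
    (fun t a e ht => Subtype.ext (fix_lift (P := fun t => t * t = 1 → t = 1) s h1 t {a}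
      (by simp) (by simp [e]) (congrArg Subtype.val ht)))
    ⟨g, mem_fixing_iff.2 fun x hx => hg x (hs hx)⟩ ⟨a, ha'⟩ (Subtype.ext (hg a ha)))

set_option synthInstance.maxSize 2000 in
theorem num3 : ∀ N < 8, ∀ u < N, 3 ≤ N → u ∣ N → u % 2 = 1 → N ∣ 2 * u → ¬ N * (N - 1) ∣ 6 * u := by
  decide
set_option synthInstance.maxSize 2000 in
theorem num4 : ∀ N < 26, ∀ u < N, 3 ≤ N → u ∣ N → u % 2 = 1 → N ∣ 6 * u → N * (N - 1) ∣ 24 * u →
    (N = 3 ∧ u = 1) ∨ (N = 9 ∧ u = 3) := by decide +kernel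
set_option synthInstance.maxSize 20000 in
set_option synthInstance.maxHeartbeats 200000 in
theorem num5 : ∀ N < 122, ∀ u < N, 3 ≤ N → u ∣ N → u % 2 = 1 → N ∣ 24 * u → N * (N - 1) ∣ 120 * u →
    (N = 3 ∧ u = 1) ∨ (N = 4 ∧ u = 1) ∨ (N = 6 ∧ u = 1) ∨ (N = 6 ∧ u = 3) ∨ (N = 9 ∧ u = 3) ∨
    (N = 21 ∧ u = 7) := by decide +kernel

/-- Let `G` have degree `n` and `3 ≤ k ≤ n`; suppose `G` is `(k-2)`-transitive but not `(k-1)`-transitive, and is `(k-1)`-homogeneous and `k`-homogeneous. Then `k = n` and `G` is the alternating group, or `n = 5, k = 4, |G| = 20`, or `n = 6, k = 5, |G| = 120`, or `n = 9, k = 5, |G| ∈ {504, 1512}`. -/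
theorem result {α : Type*} [Fintype α] [DecidableEq α] (G : Subgroup (Equiv.Perm α)) {k : ℕ} (hk : 3 ≤ k) (hkn : k ≤ Fintype.card α) (ht : MulAction.IsMultiplyPretransitive G α (k - 2)) (hnt : ¬ MulAction.IsMultiplyPretransitive G α (k - 1)) (hh1 : MulAction.IsPretransitive G (Set.powersetCard α (k - 1))) (hh : MulAction.IsPretransitive G (Set.powersetCard α k)) : (k = Fintype.card α ∧ G = alternatingGroup α) ∨ (Fintype.card α = 5 ∧ k = 4 ∧ Nat.card G = 20) ∨ (Fintype.card α = 6 ∧ k = 5 ∧ Nat.card G = 120) ∨ (Fintype.card α = 9 ∧ k = 5 ∧ (Nat.card G = 504 ∨ Nat.card G = 1512)) := by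
  by_cases hn : k = Fintype.card α
  · refine Or.inl ⟨hn, ?_⟩
    have h1 := _root_.IsMultiplyPretransitive.alternatingGroup_le α G
      (by rw [Nat.card_eq_fintype_card, ← hn]; exact ht)
    refine (Equiv.Perm.eq_alternatingGroup_of_index_eq_two ?_)
    have : Nontrivial α := Fintype.one_lt_card_iff_nontrivial.1 (by omega)
    have h2 := Subgroup.index_dvd_of_le h1
    rw [alternatingGroup.index_eq_two] at h2
    refine ((Nat.dvd_prime Nat.prime_two).1 h2).resolve_left fun h => hnt ?_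
    rw [Subgroup.index_eq_one.1 h]
    exact mt_iff.2 fun x y hx hy => by
      obtain ⟨g, hg⟩ := mt_iff.1 (Equiv.Perm.isMultiplyPretransitive α (k - 1)) x y hx hy
      exact ⟨⟨g, trivial⟩, hg⟩
  right
  by_cases h6 : 6 ≤ k
  · obtain ⟨j, rfl⟩ : ∃ j, k = j + 6 := ⟨k - 6, by omega⟩
    have := card_le_of_homog (j := j) ht hh1 hnt
    omega
  obtain ⟨j, rfl⟩ : ∃ j, k = j + 3 := ⟨k - 3, by omega⟩
  change IsMultiplyPretransitive G α (j + 1) at ht
  change ¬ IsMultiplyPretransitive G α (j + 2) at hnt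
  change IsPretransitive G (Set.powersetCard α (j + 2)) at hh1
  have hn' : j + 4 ≤ Nat.card α := by rw [Nat.card_eq_fintype_card]; omega
  obtain ⟨Γ, hΓ⟩ := exists_finset_card (α := α) (k := j + 1) (by omega)
  obtain ⟨Δ, hΔ⟩ := exists_finset_card (α := α) (k := j + 2) (by omega)
  obtain ⟨T, hT⟩ := exists_finset_card (α := α) (k := j + 3) (by omega)
  have h2 : ∀ (g : G) (S : Finset α), j + 2 ≤ S.card → (∀ x ∈ S, g • x = x) → g = 1 := by
    intro g S hS hg
    obtain ⟨s, hs, hsc⟩ := Finset.exists_subset_card_eq hS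
    by_contra hg1
    refine hnt (S0744.result G (k := j + 3) (by omega) hkn (Nat.card (fixingSubgroup G (s : Set α)))
      (Nat.card (fixingSubgroup G (T : Set α))) ?_
      (fun s' hs' => card_fixing_eq_of_homog hh1 hs' hsc)
      (fun s' hs' => card_fixing_eq_of_homog hh hs' hT))
    rw [Subgroup.one_lt_card_iff_ne_bot]
    exact fun h => hg1 (Subgroup.mem_bot.1 (h ▸ mem_fixing_iff.2 fun x hx => hg x (hs hx)))
  have h1 : ∀ (t : G) (S : Finset α), j + 1 ≤ S.card → (∀ x ∈ S, t • x = x) → t * t = 1 →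
      t = 1 := by
    intro t S hS hg ht2
    by_contra ht1
    obtain ⟨x, hx, hx1, -⟩ := exists_enum Δ hΔ
    exact hnt (mt_of_homog_of_ind hh1 hx (ind_eq_top_of_swaps Δ
      (swaps_of_invol (by omega) ht h2 hS hg ht2 ht1 Δ hΔ) hx hx1))
  set U := fixingSubgroup G (Γ : Set α) with hU
  obtain ⟨N, hN⟩ : ∃ N, Nat.card α = j + 1 + N := ⟨Nat.card α - (j + 1), by omega⟩
  have hsemi : ∀ u ∈ U, ∀ x ∈ (Γ : Set α)ᶜ, u • x = x → u = 1 := fun u hu x hx h =>
    h2 u (insert x Γ) (by rw [Finset.card_insert_of_notMem hx, hΓ])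
      (by simpa [h] using mem_fixing_iff.1 hu)
  have hinv : ∀ u ∈ U, ∀ x ∈ (Γ : Set α)ᶜ, u • x ∈ (Γ : Set α)ᶜ := fun u hu x hx h =>
    hx (by rwa [smul_left_cancel u (mem_fixing_iff.1 hu _ h)] at h)
  have hcc : ((Γ : Set α)ᶜ).ncard = N := by
    rw [← Finset.coe_compl, Set.ncard_coe_finset, Finset.card_compl, ← Nat.card_eq_fintype_card]
    omega
  have d0 : Nat.card U ∣ N := hcc ▸ card_dvd_ncard U hinv hsemi
  have hodd : Nat.card U % 2 = 1 := Nat.odd_iff.1 (Lib.Inv.odd_card_iff.2 fun t ht h =>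
    Lib.Inv.ne_one_of_orderOf h (h1 t Γ hΓ.ge (mem_fixing_iff.1 ht)
      (Lib.Inv.mul_self_of_orderOf h)))
  have hlt : Nat.card U < N := by
    refine lt_of_le_of_ne (Nat.le_of_dvd (by omega) d0) fun h => hnt ?_
    refine mt_succ_of_exists ht Γ hΓ fun a b ha hb => ?_
    have e : orbit U a = (Γ : Set α)ᶜ := by
      refine Set.eq_of_subset_of_ncard_le (by rintro _ ⟨u, rfl⟩; exact hinv u u.2 a ha) ?_
      have h1 : stabilizer U a = ⊥ := by
        rw [eq_bot_iff]; exact fun u hu => Subtype.ext (hsemi u u.2 a ha hu)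
      rw [hcc, ← h, ← ncard_orbit_mul (A := U) a, h1]; simp
    obtain ⟨u, hu⟩ : b ∈ orbit U a := e ▸ hb
    exact ⟨u, mem_fixing_iff.1 u.2, hu⟩
  have hG := card_eq_descFactorial_mul ht Γ hΓ
  rw [← hU] at hG
  have hpos : 0 < (Nat.card α).descFactorial (j + 1) := Nat.descFactorial_pos.2 (by omega)
  have d1 : N ∣ (j + 2).factorial * Nat.card U := by
    refine Nat.dvd_of_mul_dvd_mul_left hpos ?_
    rw [mul_left_comm, ← hG, card_eq_choose_mul hh1 hΔ, ← mul_assoc,
      ← Nat.descFactorial_eq_factorial_mul_choose, Nat.descFactorial_succ _ (j + 1), mul_comm _ N,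
      show Nat.card α - (j + 1) = N by omega]
    exact dvd_mul_right _ _
  have d2 : N * (N - 1) ∣ (j + 3).factorial * Nat.card U := by
    refine Nat.dvd_of_mul_dvd_mul_left hpos ?_
    rw [mul_left_comm _ (j + 3).factorial, ← hG, card_eq_choose_mul hh hT,
      ← mul_assoc (j + 3).factorial,
      ← Nat.descFactorial_eq_factorial_mul_choose, Nat.descFactorial_succ _ (j + 2),
      Nat.descFactorial_succ _ (j + 1), show Nat.card α - (j + 1) = N by omega,
      show Nat.card α - (j + 2) = N - 1 by omega]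
    exact ⟨Nat.card (stabilizer G T), by ring⟩
  have hb : N - 1 ≤ (j + 3).factorial := by
    have := Nat.le_of_dvd (Nat.mul_pos (Nat.factorial_pos _) Nat.card_pos) d2
    have h3 : N * (N - 1) ≤ N * (j + 3).factorial :=
      this.trans (by rw [mul_comm]; exact Nat.mul_le_mul_right _ hlt.le)
    exact Nat.le_of_mul_le_mul_left h3 (by omega)
  have hB : (N + 1) % 4 = 2 → Nat.card U = 1 := fun h => by
    rw [Subgroup.card_eq_one, eq_bot_iff]
    exact fun g hg => eq_one_of_mod_four' ht (by rw [← Nat.card_eq_fintype_card]; omega) h2 h1 g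
      Γ hΓ.ge (mem_fixing_iff.1 hg)
  rw [← Nat.card_eq_fintype_card]
  obtain rfl | rfl | rfl : j = 0 ∨ j = 1 ∨ j = 2 := by omega
  · exact absurd d2 (num3 N (by simp [Nat.factorial] at hb; omega) _ hlt (by omega) d0 hodd d1)
  · rcases num4 N (by simp [Nat.factorial] at hb; omega) _ hlt (by omega) d0 hodd d1 d2 with
      ⟨rfl, h⟩ | ⟨rfl, h⟩
    · left; rw [hG, h, hN]; decide
    · omega
  · rcases num5 N (by simp [Nat.factorial] at hb; omega) _ hlt (by omega) d0 hodd d1 d2 with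
      ⟨rfl, h⟩ | ⟨rfl, h⟩ | ⟨rfl, h⟩ | ⟨rfl, h⟩ | ⟨rfl, h⟩ | ⟨rfl, h⟩
    · right; left; rw [hG, h, hN]; decide
    · exfalso
      have h3 : ∀ (g : G) (S : Finset α), 1 + 2 ≤ S.card → (∀ x ∈ S, g • x = x) → g = 1 := by
        intro g S hS hg
        obtain ⟨s, hs, hsc⟩ := Finset.exists_subset_card_eq hS
        have := card_fixing_eq ht hsc hΓ
        rw [← hU, h, Subgroup.card_eq_one] at this
        exact Subgroup.mem_bot.1 (this ▸ mem_fixing_iff.2 fun x hx => hg x (hs hx))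
      have ht2 : IsMultiplyPretransitive G α (1 + 1) :=
        isMultiplyPretransitive_of_le (n := 2 + 1) (by omega) (by omega)
      obtain ⟨s, hs⟩ := exists_finset_card (α := α) (k := 1 + 1) (by omega)
      have e := card_eq_descFactorial_mul ht2 s hs
      have h5 : Nat.card (fixingSubgroup G (s : Set α)) = 5 := by
        rw [hG, h, hN] at e; simp [Nat.descFactorial] at e; omega
      have : fixingSubgroup G (s : Set α) = ⊥ := by
        rw [eq_bot_iff]
        refine fun g hg => eq_one_of_mod_four' ht2 (by rw [← Nat.card_eq_fintype_card]; omega) h3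
          (fun t S hS hg ht2' => ?_) g s hs.ge (mem_fixing_iff.1 hg)
        obtain ⟨s', hs', hsc⟩ := Finset.exists_subset_card_eq hS
        refine Lib.Inv.eq_one_of_odd_of_mul_self (Lib.Inv.odd_orderOf_of_mem
          (H := fixingSubgroup G (s' : Set α)) ?_ (mem_fixing_iff.2 fun x hx => hg x (hs' hx))) ht2'
        rw [card_fixing_eq ht2 hsc hs, h5]; decide
      rw [this] at h5
      simp at h5
    · right; right; rw [hG, h, hN]; decide
    · right; right; rw [hG, h, hN]; decide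
    · omega
    · omega

end Cfsg.Agent.S0745
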