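import Cfsg.Statements.S0746
import Cfsg.Agent.S0745

set_option autoImplicit false
open Cfsg

namespace Cfsg.Agent.S0746

/-- The Livingstone–Wagner Theorem, first form: a `k`-homogeneous group of degree `n` with `4 ≤ 2k ≤ n` is `(k-1)`-transitive. -/
theorem result {α : Type*} [Fintype α] [DecidableEq α] (G : Subgroup (Equiv.Perm α)) {k : ℕ} (hk : 2 ≤ k) (hkn : 2 * k ≤ Fintype.card α) (hh : MulAction.IsPretransitive G (Set.powersetCard α k)) : MulAction.IsMultiplyPretransitive G α (k - 1) := by
  have key : ∀ j, j + 2 ≤ k → MulAction.IsMultiplyPretransitive G α (j + 1) := by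
    intro j
    induction j with
    | zero =>
      exact fun _ => MulAction.is_one_pretransitive_iff.2 (Lib.Perm.isPretransitive_of_homog_one
        (Lib.Perm.homog_of_le hh (by omega) le_rfl (by omega)))
    | succ j ih =>
      intro hj
      by_contra hc
      have := S0745.result G (k := j + 3) (by omega) (by omega) (ih (by omega)) hc
        (Lib.Perm.homog_of_le hh (by omega) (by omega) (by omega))
        (Lib.Perm.homog_of_le hh (by omega) (by omega) (by omega))
      omega
  have := key (k - 2) (by omega)
  rwa [show k - 2 + 1 = k - 1 by omega] at this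

end Cfsg.Agent.S0746
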