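import Cfsg.Statements.S0548
import Cfsg.Agent.Lib.Solv.CoreFree

set_option autoImplicit false
open Cfsg

namespace Cfsg.Agent.S0548

open Subgroup Cfsg.Lib Cfsg.Lib.Core Cfsg.Lib.Solv MulAction

/-- Let a finite solvable group G act faithfully and primitively on a set, let M be a minimal normal subgroup and H the stabilizer of a point. Then H is a complement to M, no non-identity element of H centralizes M, and the only subgroups of M normalized by H are the trivial subgroup and M. -/
theorem result {G : Type*} [Group G] [Finite G] [Group.IsSolvable G] {Ω : Type*} [MulAction G Ω] [FaithfulSMul G Ω] (hprim : MulAction.IsPreprimitive G Ω) (M : Subgroup G) [M.Normal] (hM : M ≠ ⊥) (hmin : ∀ K : Subgroup G, K.Normal → K ≤ M → K = ⊥ ∨ K = M) (ω : Ω) : Subgroup.IsComplement' M (MulAction.stabilizer G ω) ∧ MulAction.stabilizer G ω ⊓ Subgroup.centralizer (M : Set G) = ⊥ ∧ ∀ K : Subgroup G, K ≤ M → MulAction.stabilizer G ω ≤ Subgroup.normalizer (K : Set G) → K = ⊥ ∨ K = M := by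
  have hM' : IsMinNormal M := ⟨inferInstance, hM, hmin⟩
  have hab := hM'.isMulCommutative inferInstance
  have hcore : (stabilizer G ω).normalCore = ⊥ := by
    rw [eq_bot_iff]
    intro g hg
    refine mem_bot.2 (FaithfulSMul.eq_of_smul_eq_smul (α := Ω) fun x => ?_)
    obtain ⟨a, rfl⟩ := hprim.exists_smul_eq ω x
    have := hg a⁻¹
    rw [mem_stabilizer_iff, inv_inv, mul_smul, mul_smul, inv_smul_eq_iff] at this
    rw [this, one_smul]
  have hne : stabilizer G ω ≠ ⊤ := fun e => hM (eq_bot_of_le_of_normalCore hcore inferInstance (e ▸ le_top))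
  have : Nontrivial Ω := by
    by_contra h
    have := not_nontrivial_iff_subsingleton.1 h
    exact hne (eq_top_iff.2 fun g _ => Subsingleton.elim _ _)
  have hU : IsCoatom (stabilizer G ω) := IsPreprimitive.isCoatom_stabilizer_of_isPreprimitive G ω
  have hs := sup_eq_top_of_coreFree hU hcore hM'.normal hM
  refine ⟨isComplement'_of_inf_eq_bot (hM'.inf_eq_bot_of_sup_eq_top hne hs) hs,
    (inf_comm _ _).trans (centralizer_inf_eq_bot_of_coreFree hU hcore hM'.normal hM), fun K hK hn => ?_⟩
  exact hM'.min_invariant K (hs ▸ sup_le (((le_centralizer M).trans (centralizer_le hK)).trans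
    (centralizer_le_normalizer _)) hn) hK

end Cfsg.Agent.S0548
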