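import Cfsg.Statements.S0547
import Cfsg.Agent.S0548
import Cfsg.Agent.Lib.Perm.Basic

set_option autoImplicit false
open Cfsg

namespace Cfsg.Agent.S0547

open Subgroup Cfsg.Lib Cfsg.Lib.Core MulAction

/-- Let a finite solvable group G act faithfully and primitively on a set, and let M be a minimal normal subgroup of G. Then M is transitive with trivial point stabilizers, and the number of points equals the order of M, which is a prime power p ^ d with d ≥ 1. -/
theorem result {G : Type*} [Group G] [Finite G] [Group.IsSolvable G] {Ω : Type*} [Nonempty Ω] [MulAction G Ω] [FaithfulSMul G Ω] (hprim : MulAction.IsPreprimitive G Ω) (M : Subgroup G) [M.Normal] (hM : M ≠ ⊥) (hmin : ∀ K : Subgroup G, K.Normal → K ≤ M → K = ⊥ ∨ K = M) : MulAction.IsPretransitive M Ω ∧ (∀ ω : Ω, MulAction.stabilizer M ω = ⊥) ∧ ∃ p d : ℕ, p.Prime ∧ 0 < d ∧ Nat.card Ω = p ^ d ∧ Nat.card M = p ^ d := by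
  have hM' : IsMinNormal M := ⟨inferInstance, hM, hmin⟩
  have h1 : ∀ ω : Ω, stabilizer M ω = ⊥ := fun ω => by
    rw [eq_bot_iff]
    intro g hg
    exact mem_bot.2 (Subtype.ext (mem_bot.1
      ((S0548.result hprim M hM hmin ω).1.disjoint.le_bot (mem_inf.2 ⟨g.2, hg⟩))))
  have h2 : IsPretransitive M Ω := ⟨fun x y => by
    obtain ⟨g, rfl⟩ := hprim.exists_smul_eq x y
    obtain ⟨⟨m, s⟩, h, -⟩ := (S0548.result hprim M hM hmin x).1.existsUnique g
    refine ⟨m, ?_⟩
    rw [← h, mul_smul, mem_stabilizer_iff.1 s.2]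
    rfl⟩
  obtain ⟨p, hp, hpM⟩ := hM'.exists_isPGroup inferInstance
  have := Fact.mk hp
  obtain ⟨d, hd⟩ := IsPGroup.iff_card.1 hpM
  refine ⟨h2, h1, p, d, hp, Nat.pos_of_ne_zero fun e => hM (card_eq_one.1 (by rw [hd, e, pow_zero])),
    ?_, hd⟩
  rw [← Perm.card_eq_of_regular h2 h1, hd]

end Cfsg.Agent.S0547
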