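import Cfsg.Statements.S2332
import Cfsg.Agent.Lib.CharDeg.Fourier
import Cfsg.Agent.Lib.Linear.Simple
import Cfsg.Agent.Lib.Linear.Transv
import Cfsg.Agent.S0157

set_option autoImplicit false
open Cfsg

namespace Cfsg.Agent.S2332

theorem small : ∀ n ∈ Finset.Icc 3 14, ∀ q ∈ Finset.Icc 2 63, ∀ j ∈ Finset.Icc 2 n,
    (j * (j - 1) * (q - 1) * (1 + (q - 1) * j)) % ((q ^ n - 1) / (q - 1) - j) = 0 → IsPrimePow q →
    (n, q) ∈ [(3, 2), (3, 4), (4, 2), (4, 3)] := by
  decide +kernel

theorem cube_le (m : ℕ) : (m + 15) ^ 3 ≤ 2 ^ (m + 12) := by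
  induction m with
  | zero => norm_num
  | succ m ih => rw [show m + 1 + 12 = m + 12 + 1 by ring, pow_succ 2]; nlinarith [sq_nonneg (m : ℤ), Nat.zero_le (m ^ 3), Nat.zero_le (m ^ 2)]

theorem arith {n q k : ℕ} (hn : 3 ≤ n) (hq : IsPrimePow q)
    (hex : (n, q) ≠ (3, 2) ∧ (n, q) ≠ (3, 4) ∧ (n, q) ≠ (4, 2) ∧ (n, q) ≠ (4, 3))
    (h1 : ∑ i ∈ Finset.range n, q ^ i ≤ k + n) (h2 : k + 1 < ∑ i ∈ Finset.range n, q ^ i)
    (hd : k ∣ (∑ i ∈ Finset.range n, q ^ i) * (q ^ (n - 1) - 1) * q ^ (n - 1)) : False := by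
  have hq2 := hq.two_le
  obtain ⟨j, hj⟩ := Nat.exists_eq_add_of_le (show k ≤ _ by omega : k ≤ ∑ i ∈ Finset.range n, q ^ i)
  obtain ⟨r, rfl⟩ := Nat.exists_eq_add_of_le' hq.one_lt.le
  obtain ⟨m, rfl⟩ := Nat.exists_eq_add_of_le' hn
  have h3 := geom_sum_mul_add r (m + 3)
  have h4 : k ∣ j * (j - 1) * r * (1 + r * j) := by
    obtain ⟨j, rfl⟩ := Nat.exists_eq_add_of_le' (show 1 ≤ j by omega)
    obtain ⟨s, hs⟩ := Nat.exists_eq_add_of_le' (Nat.one_le_pow (m + 2) (r + 1) (by omega))
    rw [hj, show m + 3 - 1 = m + 2 from rfl, hs, Nat.add_sub_cancel] at hd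
    rw [hj, pow_succ, hs] at h3
    zify at *
    have h5 : (s + 1 : ℤ) * (r + 1) = (k + (j + 1)) * r + 1 := h3.symm
    have h6 : (s : ℤ) * (r + 1) = (k + j) * r := by linear_combination h5
    have h7 : (k + (j + 1) : ℤ) * s * (s + 1) * (r + 1) ^ 2 =
        (k + (j + 1)) * ((k + j) * r) * ((k + (j + 1)) * r + 1) := by rw [← h5, ← h6]; ring
    have h8 := hd.mul_right ((r + 1 : ℤ) ^ 2)
    rw [h7] at h8
    simp only [Nat.add_sub_cancel]
    exact (dvd_sub h8 (dvd_mul_right (k : ℤ)
      (r * (r * k ^ 2 + (3 * j + 2) * r * k + k + (3 * j ^ 2 + 4 * j + 1) * r + 2 * j + 1)))).trans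
      (dvd_of_eq (by ring))
  have h5 : (r + 1) ^ (m + 2) ≤ k := by
    have h6 : ∀ t, t + 3 ≤ ∑ i ∈ Finset.range (t + 2), (r + 1) ^ i := fun t => by
      induction t with
      | zero => simp [Finset.sum_range_succ]; omega
      | succ t ih => rw [Finset.sum_range_succ]; have := Nat.one_le_pow (t + 2) (r + 1) (by omega); omega
    have := h6 m
    rw [Finset.sum_range_succ] at h1
    omega
  have h6 : j * (j - 1) * r * (1 + r * j) < (m + 3) ^ 3 * (r + 1) ^ 2 := by
    have h7 : j ≤ m + 3 := by omega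
    calc _ < (m + 3) * (m + 3) * (r + 1) * ((r + 1) * (m + 3)) := by
          refine Nat.mul_lt_mul_of_lt_of_le (Nat.mul_lt_mul_of_le_of_lt (Nat.mul_le_mul h7 (by omega))
            (by omega) (by positivity)) (by nlinarith) (by positivity)
      _ = _ := by ring
  have h7 : (r + 1) ^ m < (m + 3) ^ 3 := by
    have := (h5.trans (Nat.le_of_dvd (by
      have : 0 < j - 1 := by omega
      have : 0 < j := by omega
      have : 0 < r := by omega
      positivity) h4)).trans_lt h6
    rw [pow_add] at this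
    exact lt_of_mul_lt_mul_right this (Nat.zero_le _)
  have h8 : m < 12 := by
    by_contra h
    obtain ⟨t, rfl⟩ := Nat.exists_eq_add_of_le' (not_lt.1 h)
    exact absurd ((cube_le t).trans (Nat.pow_le_pow_left hq2 _)) (not_le.2 h7)
  have h9 : r + 1 < 64 := by
    rcases Nat.eq_zero_or_pos m with rfl | hm
    · have : j = 2 ∨ j = 3 := by omega
      simp only [Finset.sum_range_succ, Finset.sum_range_zero] at hj
      by_contra h
      zify at h4 hj h
      rcases this with rfl | rfl
      · have h10 : (k : ℤ) ∣ 10 * r + 4 := by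
          refine (dvd_sub (dvd_mul_left (k : ℤ) 4) h4).trans (dvd_of_eq ?_)
          push_cast at hj ⊢
          linear_combination -4 * hj
        have := Int.le_of_dvd (by positivity) h10
        push_cast at hj
        nlinarith
      · have h10 : (r + 3 : ℤ) * r ∣ (6 + 18 * r) * r := by
          refine (dvd_of_eq ?_).trans (h4.trans (dvd_of_eq ?_))
          · push_cast at hj; linear_combination hj
          · push_cast; ring
        have h11 : (r + 3 : ℤ) ∣ 48 := by
          exact (dvd_sub (dvd_mul_left (r + 3 : ℤ) 18)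
            ((mul_dvd_mul_iff_right (by omega)).1 h10)).trans (dvd_of_eq (by ring))
        have := Int.le_of_dvd (by positivity) h11
        omega
    · by_contra h
      have := Nat.pow_le_pow_left (not_lt.1 h) m
      interval_cases m <;> omega
  have := small (m + 3) (by simp; omega) (r + 1) (by simp; omega) j (by simp; omega)
    (Nat.mod_eq_zero_of_dvd (by
      rwa [← Nat.geomSum_eq hq2, hj, Nat.add_sub_cancel, Nat.add_sub_cancel])) hq
  simp only [List.mem_cons, List.not_mem_nil, or_false] at this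
  tauto

open Matrix hiding transvection
open Module Matrix.SpecialLinearGroup Lib.Sz Lib.Linear Lib.CharDeg Lib.Char
open scoped LinearAlgebra.Projectivization

section
variable {F : Type*} [Field F] {ι : Type*} [Fintype ι] [DecidableEq ι]

theorem tv_mul {u v w φ θ η : ι → F} (h1 : φ ⬝ᵥ u = 0) (h2 : θ ⬝ᵥ v = 0) (h3 : η ⬝ᵥ w = 0)
    (h : φ ⬝ᵥ v = 0) (e : vecMulVec u φ + vecMulVec v θ = vecMulVec w η) :
    tvSL u φ h1 * tvSL v θ h2 = tvSL w η h3 := Subtype.ext (by
  simp only [coe_mul, tvSL_coe, add_mul, mul_add, one_mul, mul_one, vecMulVec_mul_vecMulVec', h,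
    zero_smul, add_zero, ← e, add_assoc])

theorem tv_conj (g : SpecialLinearGroup ι F) {v v' φ φ' : ι → F} (h : φ ⬝ᵥ v = 0)
    (h' : φ' ⬝ᵥ v' = 0) (e : vecMulVec v (φ ᵥ* g.1) = vecMulVec (g.1 *ᵥ v') φ') :
    tvSL v φ h * g = g * tvSL v' φ' h' := Subtype.ext (by
  simp only [coe_mul, tvSL_coe, add_mul, mul_add, one_mul, mul_one, vecMulVec_mul, mul_vecMulVec,
    e])

/-- Column groups. -/
def col (l : ι) (v : ι → F) : SpecialLinearGroup ι F :=
  tvSL (Function.update v l 0) (Pi.single l 1) (by simp)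

theorem col_mul (l : ι) (u v : ι → F) : col l u * col l v = col l (u + v) :=
  tv_mul _ _ _ (by simp) (by rw [← add_vecMulVec, ← Function.update_add, add_zero])

theorem col_single {i l : ι} (h : i ≠ l) (c : F) : col l (Pi.single i c) = transvection h c :=
  Subtype.ext (by
    rw [col, tvSL_coe, transvection_coe, single_eq_vecMulVec, Function.update_eq_self_iff.2]
    simp [h.symm])

variable {V : Type*} [AddCommGroup V] [Module ℂ V] (ψ : AddChar F ℂ)
  (ρ : Representation ℂ (SpecialLinearGroup ι F) V)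

/-- Weight spaces of the column groups. -/
noncomputable def cw (l : ι) (a : ι → F) : Submodule ℂ V := wt (fun u => ρ (col l u)) fun u => ψ (a ⬝ᵥ u)

variable {ψ ρ}

theorem cw_move {l : ι} (h : SpecialLinearGroup ι F) {c : F} (hc : c ≠ 0)
    (hl : Pi.single l 1 ᵥ* h.1 = c • Pi.single l 1) {a a' : ι → F} (ha' : a' l = 0)
    (H : a ᵥ* h.1 = c • a') {y : V} (hy : y ∈ cw ψ ρ l a) : ρ h⁻¹ y ∈ cw ψ ρ l a' := by
  have h1 : ∀ v : ι → F, (c⁻¹ • h.1 *ᵥ Function.update v l 0) l = 0 := fun v => by
    have := dotProduct_mulVec (Pi.single l 1) h.1 (Function.update v l 0)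
    rw [hl] at this
    simp only [single_dotProduct, one_mul, smul_dotProduct, Function.update_self, smul_zero] at this
    simp [this]
  have h2 : Pi.single l 1 ᵥ* (h⁻¹).1 = c⁻¹ • Pi.single l 1 := by
    rw [eq_inv_smul_iff₀ hc, ← smul_vecMul, ← hl, vecMul_vecMul, SL_coe_mul_inv, vecMul_one]
  have := apply_mem_wt ρ hy (g := h⁻¹) (s := fun v => c⁻¹ • h.1 *ᵥ Function.update v l 0) fun v =>
    tv_conj _ _ _ (by
      rw [h2, (Function.update_eq_self_iff (f := c⁻¹ • _)).2 (h1 v).symm, mulVec_smul, mulVec_mulVec, SL_coe_inv_mul,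
        one_mulVec, vecMulVec_smul, smul_vecMulVec])
  intro v
  refine (this v).trans ?_
  congr 1
  beta_reduce
  rw [dotProduct_smul, dotProduct_mulVec, H, smul_dotProduct, inv_smul_smul₀ hc]
  congr 1
  refine Finset.sum_congr rfl fun i _ => ?_
  by_cases hi : i = l
  · simp [hi, ha']
  · rw [Function.update_of_ne hi]

theorem cw_eq_bot (hψ : ψ ≠ 1) {l : ι} {a : ι → F} (ha : a l ≠ 0) : cw ψ ρ l a = ⊥ := by
  refine (Submodule.eq_bot_iff _).2 fun y hy => by_contra fun h0 => ha ?_
  refine eq_of_addChar hψ fun t => ?_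
  have h1 : col l (Pi.single l t) = 1 := Subtype.ext (by
    rw [col, tvSL_coe, show Function.update (Pi.single l t) l 0 = (0 : ι → F) by
      ext i; by_cases h : i = l <;> simp [h]]; simp)
  have := hy (Pi.single l t)
  simp only [h1, map_one, End.one_apply, dotProduct_single] at this
  rw [zero_mul, AddChar.map_zero_eq_one]
  exact smul_left_injective ℂ h0 (this.symm.trans (one_smul _ _).symm)

variable [FiniteDimensional ℂ V]

theorem finrank_cw_le (h3 : 3 ≤ Fintype.card ι) {l : ι} {a a' : ι → F} (h1 : a ≠ 0) (h2 : a l = 0)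
    (h1' : a' ≠ 0) (h2' : a' l = 0) : finrank ℂ (cw ψ ρ l a) ≤ finrank ℂ (cw ψ ρ l a') := by
  have key : ∀ a : ι → F, a ≠ 0 → a l = 0 → LinearIndependent F ![Pi.single l 1, a] :=
    fun a h1 h2 => LinearIndependent.pair_iff.2 fun s t e => by
      have hs : s = 0 := by simpa [h2] using congrFun e l
      simpa [hs, h1] using e
  obtain ⟨g, hg⟩ := Lib.GLFlag.exists_SL_of_linearIndependent (by simp; omega) (key a h1 h2)
    (key a' h1' h2')
  refine LinearMap.finrank_le_finrank_of_injective (f := (ρ g.transpose⁻¹).restrict fun w hw =>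
    cw_move _ one_ne_zero ?_ h2' ?_ hw) fun w w' e =>
      Subtype.ext (apply_injective ρ _ (congrArg Subtype.val e))
  · rw [coe_transpose, vecMul_transpose, one_smul]; exact hg 0
  · rw [coe_transpose, vecMul_transpose, one_smul]; exact hg 1

open Classical in
theorem trace_col [Fintype F] (hψ : ψ ≠ 1) (h3 : 3 ≤ Fintype.card ι) {l : ι}
    {a0 : ι → F} (h1 : a0 ≠ 0) (h2 : a0 l = 0) (w : ι → F) :
    ρ.character (col l w) + finrank ℂ (cw ψ ρ l a0) = finrank ℂ (cw ψ ρ l 0) +
      finrank ℂ (cw ψ ρ l a0) * ∑ a : LinearMap.ker (LinearMap.proj l : (ι → F) →ₗ[F] F),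
        ψ (a.1 ⬝ᵥ w) := by
  have h := trace_eq_sum_wt hψ ρ (col_mul l) w
  rw [← Finset.sum_filter_of_ne (p := fun a => a l = 0) (fun a _ ha => by_contra fun e => ha (by
      rw [show wt _ _ = _ from cw_eq_bot hψ e]; simp)),
    Finset.sum_congr rfl (g := fun a => finrank ℂ (cw ψ ρ l a0) * ψ (a ⬝ᵥ w) +
      if a = 0 then (finrank ℂ (cw ψ ρ l 0) - finrank ℂ (cw ψ ρ l a0) : ℂ) else 0) fun a ha => by
        split_ifs with e
        · subst e; simp; rfl
        · have := le_antisymm (finrank_cw_le (ψ := ψ) (ρ := ρ) h3 e (Finset.mem_filter.1 ha).2 h1 h2)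
            (finrank_cw_le h3 h1 h2 e (Finset.mem_filter.1 ha).2)
          rw [← this, add_zero, mul_comm]; rfl,
    Finset.sum_add_distrib, Finset.sum_ite_eq', if_pos (by simp), ← Finset.mul_sum,
    Finset.sum_subtype (p := (· ∈ LinearMap.ker (LinearMap.proj l : (ι → F) →ₗ[F] F))) _
      (by simp)] at h
  change LinearMap.trace ℂ V _ + _ = _
  rw [h]; ring

theorem card_ker_proj [Fintype F] (l : ι) :
    Nat.card (LinearMap.ker (LinearMap.proj l : (ι → F) →ₗ[F] F)) =
      Fintype.card F ^ (Fintype.card ι - 1) := by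
  rw [card_ker_functional (fun e => by simpa using LinearMap.congr_fun e 1)]; simp

theorem trace_one [Fintype F] (hψ : ψ ≠ 1) (h3 : 3 ≤ Fintype.card ι) {l : ι}
    {a0 : ι → F} (h1 : a0 ≠ 0) (h2 : a0 l = 0) :
    finrank ℂ V + finrank ℂ (cw ψ ρ l a0) = finrank ℂ (cw ψ ρ l 0) +
      finrank ℂ (cw ψ ρ l a0) * Fintype.card F ^ (Fintype.card ι - 1) := by
  classical
  have h := trace_col (ρ := ρ) hψ h3 h1 h2 0
  rw [show col l (0 : ι → F) = 1 from Subtype.ext (by simp [col, tvSL_coe])] at h
  simp only [dotProduct_zero, AddChar.map_zero_eq_one, Finset.sum_const, Finset.card_univ,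
    ← Nat.card_eq_fintype_card (α := LinearMap.ker _), card_ker_proj, Representation.char_one,
    nsmul_eq_mul, mul_one] at h
  exact_mod_cast h

theorem trace_tv [Fintype F] (hψ : ψ ≠ 1) (h3 : 3 ≤ Fintype.card ι) {i l : ι} (hi : i ≠ l)
    {a0 : ι → F} (h1 : a0 ≠ 0) (h2 : a0 l = 0) {c : F} (hc : c ≠ 0) :
    ρ.character (transvection hi c) = finrank ℂ V -
      finrank ℂ (cw ψ ρ l a0) * Fintype.card F ^ (Fintype.card ι - 1) := by
  classical
  have h := trace_col (ρ := ρ) hψ h3 h1 h2 (Pi.single i c)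
  have h' := congrArg (Nat.cast : ℕ → ℂ) (trace_one (ρ := ρ) hψ h3 h1 h2)
  have h4 := sum_addChar_linear hψ (f := (dotProductBilin F F).flip (Pi.single i c) ∘ₗ
    (LinearMap.ker (LinearMap.proj l : (ι → F) →ₗ[F] F)).subtype) fun e => by
      simpa [hc] using LinearMap.congr_fun e ⟨Pi.single i 1, by simp [hi.symm]⟩
  erw [col_single hi, h4] at h
  push_cast at h'
  linear_combination h - h'

theorem tv_fix {k l : ι} (hkl : k ≠ l) {α : F} (h1 : finrank ℂ (cw ψ ρ l (Pi.single k α)) = 1)
    {y : V} (hy : y ∈ cw ψ ρ l (Pi.single k α)) (h0 : y ≠ 0) {i j : ι} (hij : i ≠ j) (hik : i ≠ k)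
    (hil : i ≠ l) (hT : 5 ≤ Fintype.card ι ∨ ∃ d : ι → F, ∏ s, d s = 1 ∧ d k = d l ∧
      ∀ s ≠ i, d s ≠ d i) (c : F) : ρ (transvection hij c) y = y := by
  have hm : ∀ (h : SpecialLinearGroup ι F) (c : F), c ≠ 0 →
      Pi.single l 1 ᵥ* h.1 = c • Pi.single l 1 → Pi.single k 1 ᵥ* h.1 = c • Pi.single k 1 →
      h ∈ lineStabRep ρ y := fun h c hc e1 e2 =>
    inv_mem_iff.1 (mem_lineStabRep_of_finrank h1 hy h0 (cw_move h hc e1 (by simp [hkl.symm]) (by
      rw [← mul_one α, ← smul_eq_mul, Pi.single_smul, smul_vecMul, e2, smul_comm]) hy))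
  have ht : ∀ {i j : ι} (hij : i ≠ j), i ≠ k → i ≠ l → ∀ c, transvection hij c ∈ lineStabRep ρ y :=
    fun hij hik hil c => hm _ 1 one_ne_zero
      (by simp [transvection_coe, single_eq_vecMulVec, vecMul_add, vecMul_vecMulVec, hil, -single_vecMul])
      (by simp [transvection_coe, single_eq_vecMulVec, vecMul_add, vecMul_vecMulVec, hik, -single_vecMul])
  rcases hT with h5 | ⟨d, hd, hd1, hd2⟩
  · obtain ⟨s, -, hs⟩ := Finset.exists_mem_notMem_of_card_lt_card (s := {i, j, k, l})
      (t := Finset.univ) (Finset.card_le_four.trans_lt h5)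
    simp only [Finset.mem_insert, Finset.mem_singleton, not_or] at hs
    have := commutator_apply_of_mem (ht (Ne.symm hs.1) hik hil c) (ht hs.2.1 hs.2.2.1 hs.2.2.2 1)
    rwa [← commutatorElement_def, commutator_transvection _ _ hij, mul_one] at this
  · have hd0 : ∀ s, d s ≠ 0 := fun s => Finset.prod_ne_zero_iff.1 (hd ▸ one_ne_zero) s
      (Finset.mem_univ s)
    let D : SpecialLinearGroup ι F := ⟨diagonal d, by rw [det_diagonal, hd]⟩
    have h2 : ∀ s, Pi.single s 1 ᵥ* D.1 = d s • Pi.single s 1 := fun s => by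
      rw [single_vecMul_diagonal, ← Pi.single_smul]; simp
    have h3 := sub_ne_zero.2 (hd2 j hij.symm).symm
    have := commutator_apply_of_mem (hm D (d l) (hd0 l) (h2 l) (hd1 ▸ h2 k))
      (ht hij hik hil (c * d j / (d i - d j)))
    have h4 : D * transvection hij (c * d j / (d i - d j)) =
        transvection hij (c * d i / (d i - d j)) * D := Subtype.ext (by
      change diagonal d * (1 + single i j _) = (1 + single i j _) * diagonal d
      rw [mul_add, add_mul, mul_one, one_mul, diagonal_mul_single, single_mul_diagonal]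
      congr 2; ring)
    rwa [h4, mul_inv_cancel_right, transvection_inv, ← transvection_add,
      show c * d i / (d i - d j) + -(c * d j / (d i - d j)) = c by field_simp; ring] at this

end

section
variable {F : Type*} [Field F] {n : ℕ}

/-- Row groups. -/
def row (k : Fin n) (φ : Fin n → F) : SpecialLinearGroup (Fin n) F :=
  tvSL (Pi.single k 1) (fun j => if k < j then φ j else 0) (by simp)

theorem row_mul (k : Fin n) (u v : Fin n → F) : row k u * row k v = row k (u + v) :=
  tv_mul _ _ _ (by simp) (by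
    rw [← vecMulVec_add]; congr 1; ext j; simp only [Pi.add_apply]; split_ifs <;> simp)

theorem row_single {k j : Fin n} (h : k < j) (c : F) :
    row k (Pi.single j c) = transvection h.ne c := Subtype.ext (by
  rw [row, tvSL_coe, transvection_coe]
  congr 1
  ext a b
  simp only [vecMulVec_apply, Pi.single_apply, single_apply]
  grind)

theorem row_single_of_le {k j : Fin n} (h : ¬ k < j) (c : F) : row k (Pi.single j c) = 1 :=
  Subtype.ext (by
    rw [row, tvSL_coe, coe_one, add_eq_left]
    ext a b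
    simp only [vecMulVec_apply, Pi.single_apply, Matrix.zero_apply]
    grind)

theorem row_conj (k : Fin n) (φ : Fin n → F) (g : SpecialLinearGroup (Fin n) F)
    (hg : ∀ i ≤ k, g.1 *ᵥ Pi.single i 1 = Pi.single i 1) :
    row k φ * g = g * row k ((fun j => if k < j then φ j else 0) ᵥ* g.1) := by
  refine tv_conj _ _ _ ?_
  rw [hg k le_rfl]
  congr 1
  ext j
  split_ifs with h
  · rfl
  · have := dotProduct_mulVec (fun j => if k < j then φ j else 0) g.1 (Pi.single j 1)
    rw [hg j (not_lt.1 h)] at this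
    simpa [h] using this.symm

variable {V : Type*} [AddCommGroup V] [Module ℂ V] [FiniteDimensional ℂ V] {ψ : AddChar F ℂ}
  (ρ : Representation ℂ (SpecialLinearGroup (Fin n) F) V)

/-- The vectors fixed by the first `k` row groups. -/
def fixRows (k : ℕ) : Submodule ℂ V where
  carrier := {y | ∀ i : Fin n, i.val < k → ∀ φ, ρ (row i φ) y = y}
  add_mem' h h' i hi φ := by rw [map_add, h i hi, h' i hi]
  zero_mem' i _ φ := map_zero _
  smul_mem' c y h i hi φ := by rw [map_smul, h i hi]

variable {ρ}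

omit [FiniteDimensional ℂ V] in
theorem apply_mem_fixRows {k : ℕ} {y : V} (hy : y ∈ fixRows ρ k) (g : SpecialLinearGroup (Fin n) F)
    (hg : ∀ i : Fin n, i.val < k → g.1 *ᵥ Pi.single i 1 = Pi.single i 1) :
    ρ g y ∈ fixRows ρ k := fun i hi φ => by
  rw [← End.mul_apply, ← map_mul, row_conj i φ g fun j hj => hg j (lt_of_le_of_lt hj hi), map_mul,
    End.mul_apply, hy i hi]

theorem exists_row_wt [Finite F] (hψ : ψ ≠ 1)
    (h1 : ∀ (k l : Fin n) (α : F), k ≠ l → α ≠ 0 → finrank ℂ (cw ψ ρ l (Pi.single k α)) = 1)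
    (hT : ∀ i k l : Fin n, i ≠ k → i ≠ l → k ≠ l → 5 ≤ Fintype.card (Fin n) ∨
      ∃ d : Fin n → F, ∏ s, d s = 1 ∧ d k = d l ∧ ∀ s ≠ i, d s ≠ d i)
    (k : Fin n) {a : Fin n → F} {l : Fin n} (hl : k < l) (ha : a l ≠ 0) (ha' : ∀ j ≤ k, a j = 0) :
    fixRows ρ k ⊓ wt (fun u => ρ (row k u)) (fun u => ψ (a ⬝ᵥ u)) ≠ ⊥ := by
  have h2 := h1 k l _ hl.ne ha
  obtain ⟨y, hy, h0⟩ := (Submodule.ne_bot_iff (cw ψ ρ l (Pi.single k (a l)))).1 fun e => by
    rw [e, finrank_bot] at h2; exact zero_ne_one h2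
  have h3 : y ∈ fixRows ρ k := fun i hi φ => by
    have hik : i < k := hi
    induction φ using Pi.single_induction with
    | zero => rw [← Pi.single_zero i, row_single_of_le (lt_irrefl i), map_one, End.one_apply]
    | add u v hu hv => rw [← row_mul, map_mul, End.mul_apply, hv, hu]
    | single j t =>
      by_cases h : i < j
      · rw [row_single h]
        exact tv_fix hl.ne h2 hy h0 _ hik.ne (hik.trans hl).ne
          (hT i k l hik.ne (hik.trans hl).ne hl.ne) t
      · rw [row_single_of_le h, map_one, End.one_apply]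
  have h4 : ∀ φ : Fin n → F, ∀ i ≤ k, (row k φ).1 *ᵥ Pi.single i 1 = Pi.single i 1 :=
    fun φ i hi => by rw [row, tvSL_mulVec]; simp [not_lt.2 hi]
  obtain ⟨b, z, ⟨h5, h6⟩, h7, h8⟩ := exists_wt_dot hψ ρ (row_mul k)
    (W := fixRows ρ k ⊓ wt (fun t => ρ (row k (Pi.single l t))) fun t => ψ (a l * t))
    ((Submodule.ne_bot_iff _).2 ⟨y, ⟨h3, fun t => by
      beta_reduce; rw [row_single hl, ← col_single, hy]; simp [hl.ne]⟩, h0⟩)
    fun u v hv => ⟨apply_mem_fixRows hv.1 _ fun i hi => h4 u i (le_of_lt hi),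
      apply_mem_wt ρ hv.2 (s := id) fun t => by rw [row_mul, row_mul, add_comm]; rfl⟩
  have h9 : b l = a l := eq_of_addChar hψ fun t => smul_left_injective ℂ h7 (by
    simpa using (h8 (Pi.single l t)).symm.trans (h6 t))
  let u : Fin n → F := fun j => if k < j then (a l)⁻¹ * (a j - b j) else 0
  let g := tvSL u (Pi.single l 1) (by simp [u, h9])
  have hg : ∀ i ≤ k, g.1 *ᵥ Pi.single i 1 = Pi.single i 1 := fun i hi => by
    rw [tvSL_mulVec]; simp [(hi.trans_lt hl).ne']
  refine (Submodule.ne_bot_iff _).2 ⟨ρ g z, ⟨apply_mem_fixRows h5 _ fun i hi => hg i (le_of_lt hi),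
    ?_⟩, fun e => h7 (apply_injective ρ g (e.trans (map_zero _).symm))⟩
  intro φ
  refine (apply_mem_wt ρ h8 (fun φ => row_conj k φ g hg) φ).trans ?_
  congr 1
  beta_reduce
  rw [dotProduct_comm b, ← dotProduct_mulVec, tvSL_mulVec, single_dotProduct, one_mul, h9]
  congr 1
  refine Finset.sum_congr rfl fun j _ => ?_
  simp only [Pi.add_apply, Pi.smul_apply, u, smul_eq_mul]
  split_ifs with h
  · field_simp; ring
  · simp [ha' j (not_lt.1 h)]

theorem chain [Fintype F] (hψ : ψ ≠ 1)
    (h1 : ∀ (k l : Fin n) (α : F), k ≠ l → α ≠ 0 → finrank ℂ (cw ψ ρ l (Pi.single k α)) = 1)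
    (hT : ∀ i k l : Fin n, i ≠ k → i ≠ l → k ≠ l → 5 ≤ Fintype.card (Fin n) ∨
      ∃ d : Fin n → F, ∏ s, d s = 1 ∧ d k = d l ∧ ∀ s ≠ i, d s ≠ d i) (k : ℕ) (hk : k ≤ n) :
    ∑ i ∈ Finset.range k, Fintype.card F ^ (n - 1 - i) + finrank ℂ (fixRows ρ k) ≤
      finrank ℂ V + k := by
  classical
  induction k with
  | zero => simpa using Submodule.finrank_le _
  | succ k ih =>
    let k' : Fin n := ⟨k, hk⟩
    let e : ({j // k' < j} → F) → Fin n → F := fun a j => if h : k' < j then a ⟨j, h⟩ else 0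
    have he : Function.Injective e := fun a b h => funext fun j => by
      simpa [e, j.2] using congrFun h j
    have h2 := sum_finrank_le_of_wt (fun u => ρ (row k' u)) ((dot_injective hψ).comp he)
      (fun a => fixRows ρ k ⊓ wt (fun u => ρ (row k' u)) (fun u => ψ (e a ⬝ᵥ u)))
      (fun _ => inf_le_right) (fun _ => inf_le_left)
    rw [← Finset.add_sum_erase _ _ (Finset.mem_univ 0)] at h2
    have h3 : fixRows ρ (k + 1) ≤
        fixRows ρ k ⊓ wt (fun u => ρ (row k' u)) (fun u => ψ (e 0 ⬝ᵥ u)) := fun y hy =>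
      ⟨fun i hi => hy i (by omega), fun φ => by
        rw [hy k' (Nat.lt_succ_self k), show e 0 = 0 from funext fun j => by simp [e]]; simp⟩
    have h4 := Finset.card_nsmul_le_sum (Finset.univ.erase 0) (fun a => finrank ℂ
      ↥(fixRows ρ k ⊓ wt (fun u => ρ (row k' u)) (fun u => ψ (e a ⬝ᵥ u)))) 1 fun a ha => by
        obtain ⟨l, hl⟩ := Function.ne_iff.1 (Finset.ne_of_mem_erase ha)
        exact Nat.pos_of_ne_zero fun h => exists_row_wt hψ h1 hT k' l.2 (by simpa [e, l.2] using hl)
          (fun j hj => by simp [e, not_lt.2 hj]) (Submodule.finrank_eq_zero.1 h)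
    have h5 : Fintype.card {j // k' < j} = n - 1 - k := by
      rw [Fintype.card_subtype, Finset.filter_lt_eq_Ioi, Fin.card_Ioi]
    rw [Finset.card_erase_of_mem (Finset.mem_univ _), Finset.card_univ, Fintype.card_fun, h5,
      smul_eq_mul, mul_one] at h4
    have := Submodule.finrank_mono h3
    have := ih (by omega)
    have := Nat.one_le_pow (n - 1 - k) _ (Fintype.card_pos (α := F))
    rw [Finset.sum_range_succ]
    omega

end

theorem degree_dvd {F : Type*} [Field F] [Fintype F] {ι : Type*} [Fintype ι] [DecidableEq ι]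
    {χ : SpecialLinearGroup ι F → ℂ} (hχ : IsIrrCharacter _ χ) {i j : ι} (hij : i ≠ j) {k δ : ℕ}
    (h1 : χ 1 = k) (h : ∀ c ≠ 0, χ (transvection hij c) = k - δ) :
    k ∣ (∑ i ∈ Finset.range (Fintype.card ι), Fintype.card F ^ i) *
      (Fintype.card F ^ (Fintype.card ι - 1) - 1) * δ := by
  classical
  let X := Σ p : ℙ F (ι → F), {φ : ι → F // φ ≠ 0 ∧ φ ⬝ᵥ p.rep = 0}
  let τ : X → SpecialLinearGroup ι F := fun x => tvSL x.1.rep x.2.1 x.2.2.2
  have hτ : Function.Injective τ := by
    rintro ⟨p, φ, h1, h2⟩ ⟨p', φ', h1', h2'⟩ e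
    have e' : vecMulVec p.rep φ = vecMulVec p'.rep φ' := add_left_cancel (congrArg Subtype.val e)
    obtain ⟨s, hs⟩ := Function.ne_iff.1 h1
    obtain rfl : p = p' := by
      rw [← p.mk_rep, ← p'.mk_rep, Projectivization.mk_eq_mk_iff']
      refine ⟨φ' s / φ s, funext fun t => ?_⟩
      have : p.rep t * φ s = p'.rep t * φ' s := congrFun (congrFun e' t) s
      have hs : φ s ≠ 0 := hs
      simp only [Pi.smul_apply, smul_eq_mul]
      field_simp
      linear_combination -this
    obtain ⟨t, ht⟩ := Function.ne_iff.1 p.rep_nonzero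
    obtain rfl : φ = φ' := funext fun s => mul_left_cancel₀ ht (congrFun (congrFun e' t) s)
    rfl
  have hc : ∀ g h, g ∈ Set.range τ → h * g * h⁻¹ ∈ Set.range τ := by
    rintro _ g ⟨⟨p, φ, h1, h2⟩, rfl⟩
    have h3 : g.1 *ᵥ p.rep ≠ 0 := fun e => p.rep_nonzero (by
      rw [← one_mulVec p.rep, ← SL_coe_inv_mul g, ← mulVec_mulVec, e, mulVec_zero])
    obtain ⟨c, hc⟩ := Projectivization.exists_smul_eq_mk_rep F _ h3
    refine ⟨⟨Projectivization.mk F _ h3, (c⁻¹ : Fˣ) • φ ᵥ* (g⁻¹).1, fun e => h1 ?_, ?_⟩, ?_⟩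
    · rw [smul_eq_zero_iff_eq] at e
      rw [← vecMul_one φ, ← SL_coe_inv_mul g, ← vecMul_vecMul, e, zero_vecMul]
    · rw [← hc, smul_dotProduct, dotProduct_smul, ← dotProduct_mulVec, mulVec_mulVec,
        SL_coe_inv_mul, one_mulVec, h2, smul_zero, smul_zero]
    · rw [eq_mul_inv_iff_mul_eq]
      refine tv_conj _ _ _ ?_
      simp only [← hc, Units.smul_def, smul_vecMul, vecMul_vecMul, SL_coe_inv_mul, vecMul_one,
        smul_vecMulVec, vecMulVec_smul, smul_smul, Units.inv_mul, one_smul]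
  have := Fintype.ofFinite (ℙ F (ι → F))
  have h2 := hχ.isIntegral_sum_div (f := fun g => if g ∈ Set.range τ then 1 else 0)
    (fun g h => if_congr ⟨fun e => by simpa [mul_assoc] using hc _ h⁻¹ e, hc g h⟩ rfl rfl)
    (fun g => by split_ifs; exacts [isIntegral_one, isIntegral_zero])
  have h3 : ∑ g, (if g ∈ Set.range τ then 1 else 0) * χ g = Fintype.card X * (k - δ) := by
    simp only [ite_mul, one_mul, zero_mul]
    rw [← Finset.sum_filter, Finset.sum_congr rfl (g := fun _ => (k - δ : ℂ)), Finset.sum_const,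
      ← Set.toFinset_setOf, Set.toFinset_card, nsmul_eq_mul, ← Set.card_range_of_injective hτ]
    · congr!
    simp only [Finset.mem_filter, Finset.mem_univ, true_and]
    rintro _ ⟨⟨p, φ, h1, h2⟩, rfl⟩
    obtain ⟨g, c, hc, hg⟩ := exists_SL_conj_single hij p.rep_nonzero h1 h2
    rw [← h c⁻¹ (inv_ne_zero hc), ← hχ.isClassFunction (transvection hij c⁻¹) g]
    congr 1
    refine Subtype.ext ?_
    simp only [τ, coe_mul, tvSL_coe, transvection_coe, mul_add, add_mul, mul_one, SL_coe_mul_inv, hg,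
      mul_inv_cancel₀ hc, one_smul]
  have h4 : Fintype.card X = (∑ i ∈ Finset.range (Fintype.card ι), Fintype.card F ^ i) *
      (Fintype.card F ^ (Fintype.card ι - 1) - 1) := by
    rw [Fintype.card_sigma, Finset.sum_congr rfl
      (g := fun _ => Fintype.card F ^ (Fintype.card ι - 1) - 1), Finset.sum_const, Finset.card_univ,
      ← Nat.card_eq_fintype_card, Projectivization.card_of_finrank F _ rfl]
    · simp
    intro p _
    have h5 := card_ker_functional (f := (dotProductBilin F F).flip p.rep) fun e =>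
      p.rep_nonzero (funext fun i => by simpa using LinearMap.congr_fun e (Pi.single i 1))
    rw [Nat.card_eq_fintype_card, Nat.card_eq_fintype_card, finrank_fintype_fun_eq_card,
      Fintype.card_subtype] at h5
    rw [← h5, Fintype.card_subtype, ← Finset.card_erase_of_mem (a := 0) (by simp)]
    congr 1
    ext φ
    simp
  have h0 : k ≠ 0 := fun e => hχ.apply_one_ne_zero (by rw [h1, e, Nat.cast_zero])
  rw [h3, h1] at h2
  rw [← h4]
  refine nat_dvd_of_isIntegral_div h0 ?_
  have h5 := (isIntegral_natCast (R := ℤ) (B := ℂ) (Fintype.card X)).sub h2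
  have : (k : ℂ) ≠ 0 := by exact_mod_cast h0
  rwa [show (Fintype.card X : ℂ) - Fintype.card X * (k - δ) / k = (Fintype.card X * δ : ℕ) / k by
    push_cast; field_simp; ring] at h5

/-- Smallest degree of a non-linear irreducible complex representation of SL_n over a finite field with q elements, for n ≥ 3 and (n, q) not one of (3, 2), (3, 4), (4, 2), (4, 3): every irreducible complex representation of SL_n(F) of degree at least 2 has degree at least (q^n − q)/(q − 1), and there is an irreducible complex representation of exactly that degree. -/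
theorem result {F : Type*} [Field F] [Fintype F] [DecidableEq F] (n : ℕ) (hn : 3 ≤ n)
    (hex : (n, Fintype.card F) ≠ (3, 2) ∧ (n, Fintype.card F) ≠ (3, 4) ∧ (n, Fintype.card F) ≠ (4, 2) ∧ (n, Fintype.card F) ≠ (4, 3)) :
    (∀ (k : ℕ) (ρ : Representation ℂ (Matrix.SpecialLinearGroup (Fin n) F) (Fin k → ℂ)), ρ.IsIrreducible → 2 ≤ k → (Fintype.card F ^ n - Fintype.card F) / (Fintype.card F - 1) ≤ k) ∧
    (∃ ρ : Representation ℂ (Matrix.SpecialLinearGroup (Fin n) F) (Fin ((Fintype.card F ^ n - Fintype.card F) / (Fintype.card F - 1)) → ℂ), ρ.IsIrreducible) := by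
  have hq := Fintype.one_lt_card (α := F)
  have hN : (Fintype.card F ^ n - Fintype.card F) / (Fintype.card F - 1) + 1 =
      ∑ i ∈ Finset.range n, Fintype.card F ^ i := by
    rw [Nat.geomSum_eq hq, ← Nat.add_div_right _ (by omega)]
    have := Nat.le_self_pow (n := n) (by omega) (Fintype.card F)
    congr 1; omega
  refine ⟨fun k ρ hρ hk => ?_, ?_⟩
  · by_contra hlt
    obtain ⟨ψ, hψ⟩ := exists_addChar_ne_one F
    have h3 : 3 ≤ Fintype.card (Fin n) := by simpa using hn
    have h1 : ∀ (i l : Fin n) (α : F), i ≠ l → α ≠ 0 →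
        finrank ℂ (cw ψ ρ l (Pi.single i α)) = 1 := fun i l α hil hα => by
      have h4 := trace_tv (ρ := ρ) hψ h3 hil (a0 := Pi.single i α) (by simpa using hα)
        (by simp [hil.symm]) one_ne_zero
      have h5 := trace_one (ρ := ρ) hψ h3 (l := l) (a0 := Pi.single i α) (by simpa using hα)
        (by simp [hil.symm])
      generalize finrank ℂ (cw ψ ρ l (Pi.single i α)) = m at h4 h5
      rcases lt_trichotomy m 1 with h | h | h
      · obtain rfl : m = 0 := by omega
        rw [Nat.cast_zero, zero_mul, sub_zero, character_eq_finrank_iff] at h4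
        rcases normal_SL_le_center_or_eq_top (Or.inl h3) (MonoidHom.ker ρ) with h6 | h6
        · exact absurd ((transvection_mem_center_iff _ _).1 (h6 h4)) one_ne_zero
        · have := finrank_le_one_of_ker_eq_top ρ hρ h6
          simp at this
          omega
      · exact h
      · exfalso
        obtain ⟨t, rfl⟩ := Nat.exists_eq_add_of_le' (show 1 ≤ n by omega)
        obtain ⟨r, hr⟩ := Nat.exists_eq_add_of_le' hq.le
        have h6 := geom_sum_mul_add r t
        rw [Finset.sum_range_succ'] at hN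
        simp only [finrank_fin_fun, Fintype.card_fin, Nat.add_sub_cancel, pow_succ,
          ← Finset.sum_mul, pow_zero, add_left_inj] at h5 hN
        rw [pow_succ, hN] at hlt
        rw [hr] at h5 hlt hq
        rw [← h6] at h5
        generalize ∑ i ∈ Finset.range t, (r + 1) ^ i = s at *
        obtain ⟨m, rfl⟩ := Nat.exists_eq_add_of_le' h
        have : s ≤ s * r := Nat.le_mul_of_pos_right _ (by omega)
        nlinarith [Nat.zero_le (m * (s * r))]
    have hT : ∀ i k l : Fin n, i ≠ k → i ≠ l → k ≠ l → 5 ≤ Fintype.card (Fin n) ∨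
        ∃ d : Fin n → F, ∏ s, d s = 1 ∧ d k = d l ∧ ∀ s ≠ i, d s ≠ d i := fun i k l h4 h5 h6 => by
      rw [Fintype.card_fin]
      rcases (show n = 3 ∨ n = 4 ∨ 5 ≤ n by omega) with rfl | rfl | h
      · obtain ⟨t, ht⟩ : ∃ t : Fˣ, t ^ 3 ≠ 1 := by
          by_contra h
          push Not at h
          have h7 := Monoid.exponent_dvd_of_forall_pow_eq_one h
          rw [IsCyclic.exponent_eq_card, card_units_field] at h7
          have := Nat.le_of_dvd (by norm_num) h7
          simp only [ne_eq, Prod.mk.injEq, true_and] at hex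
          generalize Fintype.card F = q at *
          have : q ≤ 4 := by omega
          interval_cases q <;> simp_all
        refine Or.inr ⟨Function.update (fun _ => t) i ((t : F)⁻¹ ^ 2), ?_, by simp [h4.symm, h5.symm],
          fun s hs e => ht (Units.ext ?_)⟩
        · rw [Finset.prod_update_of_mem (Finset.mem_univ i), Finset.prod_const,
            Finset.card_sdiff_of_subset (by simp)]
          simp
        · simp only [Function.update_self, Function.update_of_ne hs] at e
          have := t.ne_zero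
          field_simp at e
          simpa using e
      · obtain ⟨t, ht, ht'⟩ := exists_ne_zero_sq_ne_one (F := F) (by
          simp only [ne_eq, Prod.mk.injEq, true_and] at hex
          rw [Nat.card_eq_fintype_card]; omega)
        obtain ⟨s, -, hs⟩ := Finset.exists_mem_notMem_of_card_lt_card (s := {i, k, l})
          (t := Finset.univ) (Finset.card_le_three.trans_lt (by simp))
        simp only [Finset.mem_insert, Finset.mem_singleton, not_or] at hs
        refine Or.inr ⟨_, (det_diagonal ..).symm.trans (diag2n (Ne.symm hs.1) t ht).2,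
          by simp [h4.symm, h5.symm, Ne.symm hs.2.1, Ne.symm hs.2.2], fun j hj e => ht' ?_⟩
        simp only [hj, if_false, if_true] at e
        split_ifs at e
        · field_simp at e
          exact e.symm
        · rw [← e, one_pow]
      · exact Or.inl h
    have h4 := chain hψ h1 hT n le_rfl
    rw [Finset.sum_range_reflect (fun i => Fintype.card F ^ i), finrank_fin_fun] at h4
    have h01 : (⟨0, by omega⟩ : Fin n) ≠ ⟨1, by omega⟩ := by simp
    have h5 := degree_dvd (isIrrCharacter_character ρ) h01 (k := k)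
      (δ := Fintype.card F ^ (n - 1)) (by simp) fun c hc => by
        rw [trace_tv hψ h3 h01 (a0 := Pi.single ⟨0, by omega⟩ 1) (by simp) (by simp [h01.symm]) hc,
          h1 _ _ _ h01 one_ne_zero]
        simp
    rw [Fintype.card_fin] at h5
    exact arith hn (Fintype.isPrimePow_card_of_field) hex (by omega) (by omega) h5
  · have h1 : Nat.card (ℙ F (Fin n → F)) = ∑ i ∈ Finset.range n, Fintype.card F ^ i := by
      rw [Projectivization.card_of_finrank F _ (finrank_fin_fun F), Nat.card_eq_fintype_card]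
    obtain ⟨m, ρ, hρ, h2⟩ := (S0157.result (G := Matrix.SpecialLinearGroup (Fin n) F)
      (ℙ F (Fin n → F)) (by
        obtain ⟨t, rfl⟩ := Nat.exists_eq_add_of_le' hn
        rw [h1, Finset.sum_range_succ', Finset.sum_range_succ', zero_add, pow_one]
        omega)).2 inferInstance
    have h3 := congrFun h2 1
    rw [MulAction.fixedBy_one_eq_univ, Nat.card_univ, h1, ← hN] at h3
    obtain rfl : m = (Fintype.card F ^ n - Fintype.card F) / (Fintype.card F - 1) := by
      simpa using h3
    exact ⟨ρ, hρ⟩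

end Cfsg.Agent.S2332
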