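import Cfsg.Statements.S2380
import Cfsg.Agent.Lib.GLC.Homocyc
import Cfsg.Agent.Lib.GLC.Nilp

set_option autoImplicit false
open scoped MatrixGroups
open Cfsg

namespace Cfsg.Agent.S2380

open Cfsg.Lib Cfsg.Lib.GLC Cfsg.Lib.GLC.Homocyc

/-- Sylow subgroups of `GL_n(q)` for large primes. Let `F` be a field with `q` elements and `r` a prime with `r > n` and `r ∤ q`. Let `d` be the multiplicative order of `q` modulo `r` and `m` the `r`-part of the value at `q` of the `d`-th cyclotomic polynomial. Then every Sylow `r`-subgroup of `GL_n(q)` is a direct product of `⌊n/d⌋` cyclic groups of order `m` (the degrees of the Weyl group being `1, …, n`). -/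
theorem result {F : Type*} [Field F] [Fintype F] {q : ℕ} (hq : Fintype.card F = q) (n : ℕ)
    (r : ℕ) [Fact r.Prime] (hrn : n < r) (hrq : ¬ r ∣ q) (P : Sylow r (GL (Fin n) F)) :
    Nonempty (↥(P : Subgroup (GL (Fin n) F)) ≃*
      (Fin (n / orderOf (q : ZMod r)) →
        Multiplicative (ZMod (r ^ padicValNat r ((Polynomial.cyclotomic (orderOf (q : ZMod r)) ℤ).eval (q : ℤ)).natAbs)))) := by
  rw [← Nat.card_eq_fintype_card] at hq
  subst hq
  have h1 : 1 < Nat.card F := Finite.one_lt_card
  rw [val_cyclotomic h1 hrq]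
  refine (hc_gl hrq n).sylow ?_ P
  rw [Linear.card_GL, Linear.prod_pow_sub_pow, Fintype.card_fin, ← Nat.card_eq_fintype_card,
    val_card h1 hrq _ _ (fun i => i + 1) (fun _ _ => Nat.succ_ne_zero _), Nat.card_multiples]
  intro i hi j hj hr
  have h2 := Finset.mem_range.1 hi
  have h3 : j ≠ 0 := by rintro rfl; simp at hj
  have h4 := Nat.le_of_dvd (Nat.pos_of_ne_zero h3) hr
  have h5 : j ≤ i + 1 := Nat.le_of_dvd (Nat.succ_pos _) ⟨_, hj.trans (mul_comm _ _)⟩
  omega

end Cfsg.Agent.S2380
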