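import Cfsg.Statements.S4888
import Cfsg.Agent.Lib.Block.Pahlings
import Cfsg.Agent.Lib.CharDeg.PrincSolv

set_option autoImplicit false
open Cfsg

namespace Cfsg.Agent.S4888

open Cfsg.Lib.Block Cfsg.Lib.Char Cfsg.Lib.Transfer MonoidAlgebra Subgroup

/-- Let G be a finite group, p a prime and M a maximal ideal of the algebraic integers containing p. Then all height-zero irreducible characters of the principal p-block of G (equivalently, all its characters of degree prime to p) have the same degree if and only if G has a normal p-complement. -/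
theorem result {G : Type*} [Group G] [Finite G] (p : ℕ) [Fact p.Prime] (M : Ideal Cfsg.AlgInt) (hM : Cfsg.IsPModular p M) : (∃ d : ℕ, ∀ χ : Cfsg.IrrCharacter G, χ ∈ (Cfsg.principalBlock M G) → Cfsg.blockHeight p (Cfsg.principalBlock M G) (χ : G → ℂ) = 0 → Cfsg.charDegree (χ : G → ℂ) = d) ↔ Cfsg.HasNormalPComplement p G := by
  have : Modular p M := ⟨hM⟩
  have hp : p.Prime := Fact.out
  simp only [Lib.CharDeg.blockHeight_principalBlock_eq_zero_iff hM]
  refine ⟨fun ⟨d, h⟩ => hasNormalPComplement_of_principal M fun χ h1 h2 => ?_, fun h => ⟨1, ?_⟩⟩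
  · rw [h χ h1 h2, ← h _ irrOne_mem_principalBlock (by
      rw [coe_irrOne, charDegree_one]; exact hp.not_dvd_one), coe_irrOne, charDegree_one]
  · intro χ h1 h2
    obtain ⟨k, hk⟩ := exists_index_pResidual_eq_pow (G := G) (p := p)
    rw [principalBlock_eq_kerSet (hp.coprime_iff_not_dvd.1
      (hasNormalPComplement_iff_card_pResidual.1 h).symm) ⟨k, hk⟩] at h1
    exact Nat.Coprime.eq_one_of_dvd ((hp.coprime_iff_not_dvd.2 h2).symm.pow_right k)
      (hk ▸ χ.2.charDegree_dvd_index_of_le_ker _ h1)

end Cfsg.Agent.S4888
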