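import Cfsg.Statements.S0244
import Mathlib

set_option autoImplicit false
open Cfsg

namespace Cfsg.Agent.S0244

/-- Sp_2 = SL_2: a matrix on Fin 1 ⊕ Fin 1 lies in Mathlib's symplectic group iff its determinant is 1. -/
theorem result {R : Type*} [CommRing R] (A : Matrix (Fin 1 ⊕ Fin 1) (Fin 1 ⊕ Fin 1) R) : A ∈ Matrix.symplecticGroup (Fin 1) R ↔ A.det = 1 := by
  refine ⟨SymplecticGroup.det_eq_one, fun h => ?_⟩
  rw [← Matrix.det_reindex_self (finSumFinEquiv : Fin 1 ⊕ Fin 1 ≃ Fin 2), Matrix.det_fin_two] at h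
  have e0 : (finSumFinEquiv : Fin 1 ⊕ Fin 1 ≃ Fin 2).symm 0 = Sum.inl 0 := by decide
  have e1 : (finSumFinEquiv : Fin 1 ⊕ Fin 1 ≃ Fin 2).symm 1 = Sum.inr 0 := by decide
  simp only [Matrix.reindex_apply, Matrix.submatrix_apply, e0, e1] at h
  rw [SymplecticGroup.mem_iff]
  ext i j
  rcases i with i | i <;> rcases j with j | j <;> obtain rfl := Subsingleton.elim i 0 <;>
    obtain rfl := Subsingleton.elim j 0 <;>
    simp [Matrix.mul_apply, Matrix.J, Fintype.sum_sum_type] <;>
    first | linear_combination h | linear_combination -h | ring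

end Cfsg.Agent.S0244
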