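import Cfsg.Statements.S0413
import Cfsg.Agent.Lib.Mathieu.Aut2

set_option autoImplicit false
open Cfsg

namespace Cfsg.Agent.S0413

/-- Aut of an S(4, 7, 23) is simple of order 10200960 and 4-transitive. -/
theorem result {α : Type*} [Fintype α] [DecidableEq α] (hα : Fintype.card α = 23) {B : Set (Finset α)} (hB : Cfsg.IsSteinerSystem 4 7 B) : Cfsg.IsM23 (Cfsg.setSystemAut B) ∧ MulAction.IsMultiplyPretransitive (Cfsg.setSystemAut B) α 4 := by
  have h := Lib.Mathieu.autEq23 hα hB
  exact ⟨⟨h.simple Lib.Mathieu.simple_m23, by rw [h.card, Lib.Mathieu.card_m23]⟩, h.trans fun x y a b hx hy =>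
    Lib.Mathieu.exists_map_mask Lib.Mathieu.ch23.w (fun _ h => Lib.Mathieu.smul_toF_compl
      (Lib.Mathieu.smul_toF_pt (by norm_num) h (m := 8388608) (by decide +kernel)) (by decide +kernel))
      (by decide +kernel) x y a b hx hy⟩

end Cfsg.Agent.S0413
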