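import Cfsg.Statements.S0414
import Cfsg.Agent.Lib.Mathieu.Aut2

set_option autoImplicit false
open Cfsg

namespace Cfsg.Agent.S0414

open Lib.Mathieu Lib.Golay Pointwise in
theorem le22 : m22 ≤ MulAction.stabilizer M24 (G.toF 8388609) := fun _ h =>
  smul_eq_of_fix (fix_maskL (l := [23, 0]) (List.forall_mem_cons.2 ⟨h.1, List.forall_mem_singleton.2 h.2⟩))


/-- Aut of an S(3, 6, 22) has order 887040, is 3-transitive, and contains a simple subgroup of index 2. -/
theorem result {α : Type*} [Fintype α] [DecidableEq α] (hα : Fintype.card α = 22) {B : Set (Finset α)} (hB : Cfsg.IsSteinerSystem 3 6 B) : Nat.card (Cfsg.setSystemAut B) = 887040 ∧ MulAction.IsMultiplyPretransitive (Cfsg.setSystemAut B) α 3 ∧ ∃ H : Subgroup (Cfsg.setSystemAut B), H.index = 2 ∧ Cfsg.IsM22 H := by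
  have h := Lib.Mathieu.autEq22 hα hB
  have hc := h.card
  rw [Lib.Mathieu.card_stabilizer_duad (Lib.Mathieu.card_toF_eq (by decide +kernel))] at hc
  refine ⟨hc, h.trans fun x y a b hx hy =>
    Lib.Mathieu.exists_map_mask (Lib.Mathieu.ch22.w.mono le22)
      (fun _ h => Lib.Mathieu.smul_toF_compl (P := 8388609) h (by decide +kernel)) (by decide +kernel) x y a b hx hy, ?_⟩
  obtain ⟨j, φ, -⟩ := h
  let e := ((φ.subgroupMap (Lib.Mathieu.m22.subgroupOf _)).symm.trans (Subgroup.subgroupOfEquivOfLe le22))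
  have h1 := (Nat.card_congr e.toEquiv).trans Lib.Mathieu.card_m22
  refine ⟨_, ?_, haveI := Lib.Mathieu.simple_m22; e.isSimpleGroup, h1⟩
  apply Nat.eq_of_mul_eq_mul_right (by norm_num : 0 < 443520)
  rw [← h1, Subgroup.index_mul_card, h1, hc]

end Cfsg.Agent.S0414
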