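import Cfsg.Statements.S0454
import Cfsg.Agent.Lib.Ly.Main
import Cfsg.Agent.Lib.F2.Simple2
import Cfsg.Agent.Lib.F2.Shape

set_option autoImplicit false
open Cfsg

namespace Cfsg.Agent.S0454

theorem double_cen {G G' K : Type*} [Group G] [Group G'] [Group K] (e : G ≃* G') (t : G)
    (h : IsNonsplitDoubleCover (Subgroup.centralizer {t}) K) : IsNonsplitDoubleCover (Subgroup.centralizer {e t}) K :=
  Lib.Big.double_congr (Lib.F2.centralizerEquiv e rfl) h

/-- Existence of the Lyons group: there is a transitive permutation group of degree 8835156, simple of order 51765179004000000, whose point stabiliser is simple of the order of a group of type G2, and which has an involution whose centraliser is a non-split double cover of the alternating group of degree 11. -/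
theorem result : ∃ H : Subgroup (Equiv.Perm (Fin 8835156)), Cfsg.IsLy H ∧ MulAction.IsPretransitive H (Fin 8835156) ∧ Cfsg.IsG2 (MulAction.stabilizer H (0 : Fin 8835156)) ∧ ∃ t : H, orderOf t = 2 ∧ Cfsg.IsNonsplitDoubleCover (Subgroup.centralizer ({t} : Set H)) (alternatingGroup (Fin 11)) := by
  obtain ⟨ι, h⟩ := Lib.Ly.solM
  have := Lib.Ly.isLy_GM.1
  have hK := (h.exact Lib.Ly.dvdM).1
  obtain ⟨P, e, h1, h2⟩ := Lib.F2.exists_perm_of_core _ (Lib.F2.normalCore_eq_bot (by rw [hK]; norm_num)) hK
  have f := (MonoidHom.ofInjective h.inj).trans (e.subgroupMap ι.range)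
  obtain ⟨t, h3, h4⟩ : ∃ t : Lib.Ly.GM, orderOf t = 2 ∧
    IsNonsplitDoubleCover (Subgroup.centralizer {t}) (alternatingGroup (Fin 11)) := ⟨_, Lib.Ly.doubleT⟩
  have h5 := double_cen e t h4
  refine ⟨P, ⟨e.symm.isSimpleGroup, by rw [← Nat.card_congr e.toEquiv, Lib.Ly.isLy_GM.2]⟩, h1, ?_, e t,
    (e.orderOf_eq _).trans h3, h5⟩
  · rw [h2]
    exact ⟨f.symm.isSimpleGroup, 5, Nat.prime_five.isPrimePow, by norm_num, by
      rw [← Nat.card_congr f.toEquiv, Lib.Ly.cardH]; norm_num⟩

end Cfsg.Agent.S0454
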