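import Cfsg.Statements.S0472
import Cfsg.Agent.Lib.Calc.Fi23
import Cfsg.Agent.Lib.Calc.Iso2
-- import your own Cfsg.Agent.* helpers here

set_option autoImplicit false
open Cfsg

namespace Cfsg.Agent.S0472

/-- The Fischer group of order 4089470473293004800 exists as a 3-transposition group: a simple group of that order generated by a conjugacy class of 31671 3-transpositions, the centraliser of each being a non-split double cover of a simple group of order 64561751654400. -/
theorem result : ∃ (G : Type) (_ : Group G) (_ : Finite G), Cfsg.IsFi23 G ∧ ∃ D : Set G, Cfsg.IsThreeTranspositionClass D ∧ Nat.card D = 31671 ∧ ∀ d ∈ D, ∃ (K : Type) (_ : Group K), Cfsg.IsFi22 K ∧ Cfsg.IsNonsplitDoubleCover (Subgroup.centralizer ({d} : Set G)) K := by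
  open Cfsg.Lib.Calc Cfsg.Lib.Calc.Fi23 in
  refine ⟨Spor.Fi23, inferInstance, Nat.finite_of_card_ne_zero (by rw [card]; decide), ⟨simple, card⟩, _, transp,
    by rw [card_conjugatesOf, centralizer_z, index_stab], fun d hd => ⟨Spor.Fi22, inferInstance, ⟨Fi22.simple, Fi22.card⟩, ?_⟩⟩
  obtain ⟨e⟩ := Cfsg.Lib.Calc.nonempty_centralizer_equiv hd
  exact Cfsg.Lib.Calc.isNonsplitDoubleCover_congr e (Cfsg.Lib.Calc.Fi23.centralizer_z.symm ▸ Cfsg.Lib.Calc.Fi23.double_cover)

end Cfsg.Agent.S0472
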