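import Cfsg.Statements.S0473
import Cfsg.Agent.Lib.Calc.Fi24He
-- import your own Cfsg.Agent.* helpers here

set_option autoImplicit false
open Cfsg

namespace Cfsg.Agent.S0473

/-- The largest Fischer 3-transposition group: a group of order 2 · 1255205709190661721292800 generated by a conjugacy class of 306936 3-transpositions, in which a transposition centraliser has order 2 · 4089470473293004800 and contains a simple subgroup of order 4089470473293004800; its subgroup of index 2 is simple and contains simple subgroups of orders 4089470473293004800 and 4030387200. -/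
theorem result : ∃ (G : Type) (_ : Group G) (_ : Finite G), Nat.card G = 2 * 1255205709190661721292800 ∧ ∃ D : Set G, Cfsg.IsThreeTranspositionClass D ∧ Nat.card D = 306936 ∧ (∀ d ∈ D, Nat.card (Subgroup.centralizer ({d} : Set G)) = 2 * 4089470473293004800 ∧ ∃ K : Subgroup G, K ≤ Subgroup.centralizer ({d} : Set G) ∧ Cfsg.IsFi23 K) ∧ ∃ H : Subgroup G, H.index = 2 ∧ Cfsg.IsFi24' H ∧ (∃ K : Subgroup H, Cfsg.IsFi23 K) ∧ (∃ K : Subgroup H, Cfsg.IsHe K) := by
  open Cfsg.Lib.Calc Cfsg.Lib.Calc.Fi24 in
  obtain ⟨e⟩ := nonempty_K0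
  have k0 : Cfsg.IsFi23 K0 := ⟨simple_K0, (Nat.card_congr e.toEquiv).trans Fi23.card⟩
  have tr : ∀ {A B : Type} [Group A] [Group B], (A ≃* B) → Cfsg.IsFi23 B → Cfsg.IsFi23 A := fun f h =>
    ⟨have := h.1; f.isSimpleGroup, (Nat.card_congr f.toEquiv).trans h.2⟩
  refine ⟨Spor.Fi24, inferInstance, finite, card, _, transp, card_class, fun d hd => ?_, sgn.ker, index_ker,
    ⟨simple_ker, card_ker⟩, ⟨K0.subgroupOf sgn.ker, tr (Subgroup.subgroupOfEquivOfLe inf_le_right) k0⟩, ?_⟩
  · obtain ⟨f⟩ := nonempty_centralizer_equiv hd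
    have h : K0 ≤ Subgroup.centralizer {gam 11} := inf_le_left.trans hs_le
    refine ⟨by rw [← Nat.card_congr f.toEquiv, centralizer_l, card_hs],
      ((K0.subgroupOf _).map f.toMonoidHom).map (Subgroup.subtype _), Subgroup.map_subtype_le _, tr ?_ k0⟩
    exact (Subgroup.equivMapOfInjective _ _ (Subgroup.subtype_injective _)).symm.trans
      ((f.subgroupMap _).symm.trans (Subgroup.subgroupOfEquivOfLe h))
  · obtain ⟨φ, h1, h2⟩ := exists_He
    have f := (Subgroup.subgroupOfEquivOfLe h2).trans (MonoidHom.ofInjective h1).symm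
    have := He.simple
    exact ⟨_, f.isSimpleGroup, (Nat.card_congr f.toEquiv).trans He.card⟩

end Cfsg.Agent.S0473
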