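import Cfsg.Statements.S0493
import Cfsg.Agent.Lib.Small.SieveFT
import Cfsg.Agent.Lib.Small.SylCount2

set_option autoImplicit false
open Cfsg

namespace Cfsg.Agent.S0493

/-- A finite simple group of order at most 100 that is not cyclic has order 60. -/
theorem result {G : Type*} [Group G] [Finite G] [IsSimpleGroup G]
    (hG : ¬ IsCyclic G) (h : Nat.card G ≤ 100) : Nat.card G = 60 := by
  simpa using Lib.Small.card_mem_of_range (fun _ => hG Lib.Small.isCyclic_of_simple) (B := 10)
    (a := 1) (k := 100) (L := [60]) (by decide +kernel) Nat.card_pos (by omega)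

end Cfsg.Agent.S0493
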