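import Cfsg.Statements.S0572
import Cfsg.Agent.Lib.Loc.Product
-- import your own Cfsg.Agent.* helpers here

set_option autoImplicit false
open Cfsg
open scoped Pointwise

namespace Cfsg.Agent.S0572

/-- Itô's Theorem: if a group G is the product AB of two abelian subgroups, then the commutator subgroup of G is abelian, i.e. the second term of the derived series is trivial. -/
theorem result {G : Type*} [Group G] (A B : Subgroup G) [IsMulCommutative A] [IsMulCommutative B] (hAB : ∀ g : G, ∃ a ∈ A, ∃ b ∈ B, g = a * b) : derivedSeries G 2 = ⊥ := by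
  have h1 : ((A ⊔ B : Subgroup G) : Set G) = (A : Set G) * (B : Set G) :=
    Set.Subset.antisymm (fun g _ => by
      obtain ⟨a, ha, b, hb, rfl⟩ := hAB g
      exact ⟨a, ha, b, hb, rfl⟩) (Cfsg.Lib.Loc.set_mul_subset_sup A B)
  have h2 : A ⊔ B = ⊤ := eq_top_iff.2 fun g _ => by
    obtain ⟨a, ha, b, hb, rfl⟩ := hAB g
    exact Subgroup.mul_mem_sup ha hb
  have := Cfsg.Lib.Loc.ito_isMulCommutative h1
  rw [derivedSeries_succ, derivedSeries_succ, derivedSeries_zero, ← h2,
    Cfsg.Lib.Loc.commutator_sup_of_abelian, Subgroup.commutator_eq_bot_iff_le_centralizer]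
  exact Subgroup.le_centralizer _

end Cfsg.Agent.S0572
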