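import Cfsg.Statements.S0725
import Cfsg.Agent.Lib.PS4.Main
import Cfsg.Agent.Lib.PS4.Num2
import Cfsg.Agent.Lib.SNL.Mil
import Cfsg.Agent.S3681

set_option autoImplicit false
open Cfsg

namespace Cfsg.Agent.S0725

open Cfsg.Lib.SNL Cfsg.Lib.PS4 Finset in
theorem mt_of {α : Type*} [Fintype α] [DecidableEq α] {G : Subgroup (Equiv.Perm α)} {k : ℕ} (hk : k ≤ Fintype.card α)
    (h : MulAction.IsMultiplyPretransitive G α k) : MT G k := fun Δ hΔ x hx y hy => by
  have := MulAction.isMultiplyPretransitive_of_le (G := G) (α := α) (m := #Δ + 1) hΔ (by simpa using hk)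
  have inj : ∀ z ∈ Δᶜ, Function.Injective (Fin.cons z fun i => (Δ.equivFin.symm i : α) : Fin (#Δ + 1) → α) :=
    fun z hz => Fin.cons_injective_iff.2 ⟨fun ⟨i, e⟩ => mem_compl.1 hz (e ▸ (Δ.equivFin.symm i).2),
      Subtype.val_injective.comp Δ.equivFin.symm.injective⟩
  obtain ⟨g, hg⟩ := MulAction.exists_smul_eq G (⟨_, inj x hx⟩ : Fin (#Δ + 1) ↪ α) ⟨_, inj y hy⟩
  refine ⟨g, ⟨g.2, fun z hz => ?_⟩, DFunLike.congr_fun hg 0⟩
  have e : g.1 (Δ.equivFin.symm (Δ.equivFin ⟨z, hz⟩)) = Δ.equivFin.symm (Δ.equivFin ⟨z, hz⟩) :=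
    DFunLike.congr_fun hg (Δ.equivFin ⟨z, hz⟩).succ
  rwa [Equiv.symm_apply_apply] at e

theorem small : ∀ n < 22, n.factorial < (4 ^ n + 1) * ((n + 1) / 2).factorial := by decide +kernel

/-- The Praeger–Saxl bound: a primitive permutation group of degree `n` not containing the alternating group has order at most `4 ^ n`. -/
theorem result {α : Type*} [Fintype α] [DecidableEq α] (G : Subgroup (Equiv.Perm α)) (hG : MulAction.IsPreprimitive G α) (hA : ¬ alternatingGroup α ≤ G) : Nat.card G ≤ 4 ^ Fintype.card α := by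
  by_cases h : Fintype.card α < 22
  · have := (S3681.result hG fun e => hA (e.trans_eq G.range_subtype)).trans_lt (small _ h)
    exact Nat.lt_succ_iff.1 (Nat.lt_of_mul_lt_mul_right this)
  obtain ⟨R, ⟨r, r1, r2⟩, hU, hI⟩ := Lib.PS4.good (not_lt.1 h)
  refine Lib.PS4.core r G α _ _ rfl hG (fun e => hA ?_) (fun i l => hU i (by omega)) fun i l => hI i (by omega)
  rcases r2 with r2 | r2 | r2 | ⟨k, p, hp, h1, hk, hn, hr, h3, r2⟩ <;> try omega
  have := Nat.mul_le_mul h1 hp.one_le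
  have e := mt_of (by omega) e
  obtain rfl | h1 := h1.eq_or_lt
  · exact Lib.SNL.miller_one hp (by omega) h3 e
  · exact Lib.SNL.miller_two hp h1 hk hn hr (by omega) e

end Cfsg.Agent.S0725
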