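import Cfsg.Statements.S0735
import Cfsg.Agent.Lib.Perm.Basic

set_option autoImplicit false
open Cfsg

namespace Cfsg.Agent.S0735

open scoped Pointwise

/-- A 2-homogeneous permutation group (transitive on 2-subsets) of even order is doubly transitive; a non-trivial 2-homogeneous group is primitive. -/
theorem result {α : Type*} [Fintype α] [DecidableEq α] (G : Subgroup (Equiv.Perm α)) (h2 : MulAction.IsPretransitive G (Set.powersetCard α 2)) (hα : 3 ≤ Fintype.card α) : (Even (Nat.card G) → MulAction.IsMultiplyPretransitive G α 2) ∧ (G ≠ ⊥ → MulAction.IsPreprimitive G α) := by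
  have hom : ∀ a b c d : α, a ≠ b → c ≠ d →
      ∃ g : G, (g • a = c ∧ g • b = d) ∨ (g • a = d ∧ g • b = c) := by
    intro a b c d hab hcd
    obtain ⟨g, hg⟩ := h2.exists_smul_eq ⟨{a, b}, Finset.card_pair hab⟩ ⟨{c, d}, Finset.card_pair hcd⟩
    have hg' : g • ({a, b} : Finset α) = {c, d} := by
      exact congrArg Subtype.val hg
    have h1 : g • a ∈ ({c, d} : Finset α) := hg' ▸ Finset.smul_mem_smul_finset (by simp)
    have h2 : g • b ∈ ({c, d} : Finset α) := hg' ▸ Finset.smul_mem_smul_finset (by simp)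
    have h3 : g • a ≠ g • b := fun e => hab (smul_left_cancel g e)
    simp only [Finset.mem_insert, Finset.mem_singleton] at h1 h2
    refine ⟨g, ?_⟩
    rcases h1 with h1 | h1 <;> rcases h2 with h2 | h2 <;> simp_all
  constructor
  · intro hev
    obtain ⟨t, ht⟩ := exists_prime_orderOf_dvd_card' (G := G) 2 hev.two_dvd
    have ht1 : t ≠ 1 := by rintro rfl; simp at ht
    obtain ⟨u, hu⟩ : ∃ u : α, t • u ≠ u := by
      by_contra h
      push Not at h
      exact ht1 (Subtype.ext (Equiv.ext h))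
    have htt : t • t • u = u := by
      rw [← mul_smul, ← sq, ← ht, pow_orderOf_eq_one, one_smul]
    have swap : ∀ c d : α, c ≠ d → ∃ g : G, g • c = d ∧ g • d = c := by
      intro c d hcd
      obtain ⟨g, ⟨h1, h2⟩ | ⟨h1, h2⟩⟩ := hom u (t • u) c d hu.symm hcd
      · exact ⟨g * t * g⁻¹, by rw [← h1, ← h2]; simp [mul_smul],
          by rw [← h1, ← h2]; simp [mul_smul, htt]⟩
      · exact ⟨g * t * g⁻¹, by rw [← h1, ← h2]; simp [mul_smul, htt],
          by rw [← h1, ← h2]; simp [mul_smul]⟩
    rw [Lib.Perm.two_iff]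
    intro a b c d hab hcd
    obtain ⟨g, h | ⟨h1, h2⟩⟩ := hom a b c d hab hcd
    · exact ⟨g, h⟩
    · obtain ⟨s, hs1, hs2⟩ := swap c d hcd
      exact ⟨s * g, by rw [mul_smul, h1, hs2], by rw [mul_smul, h2, hs1]⟩
  · intro _
    have hthird : ∀ a b : α, ∃ c, c ≠ a ∧ c ≠ b := by
      intro a b
      by_contra h
      push Not at h
      have : (Finset.univ : Finset α) ⊆ {a, b} := by
        intro x _
        by_cases hx : x = a
        · simp [hx]
        · simp [h x hx]
      have := (Finset.card_le_card this).trans (Finset.card_le_two)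
      rw [Finset.card_univ] at this
      omega
    have htr : MulAction.IsPretransitive G α := by
      refine ⟨fun a b => ?_⟩
      by_cases hab : a = b
      · exact ⟨1, by simp [hab]⟩
      obtain ⟨c, hca, hcb⟩ := hthird a b
      -- compare `{a, b}`, `{b, c}`, `{a, c}`
      obtain ⟨g, ⟨h1, h2⟩ | ⟨h1, h2⟩⟩ := hom a c b c hca.symm hcb.symm
      · exact ⟨g, h1⟩
      · exact ⟨g * g, by rw [mul_smul, h1, h2]⟩
    refine ⟨fun {B} hB => ?_⟩
    rcases B.subsingleton_or_nontrivial with hs | ⟨a, ha, b, hb, hab⟩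
    · exact Or.inl hs
    right
    rw [Set.eq_univ_iff_forall]
    intro c
    by_cases hca : c = a
    · exact hca ▸ ha
    obtain ⟨g, ⟨h1, h2⟩ | ⟨h1, h2⟩⟩ := hom a b a c hab (Ne.symm hca)
    · rw [← hB.smul_eq_of_mem ha (h1.symm ▸ ha : g • a ∈ B), ← h2]
      exact Set.smul_mem_smul_set hb
    · rw [← hB.smul_eq_of_mem hb (h2.symm ▸ ha : g • b ∈ B), ← h1]
      exact Set.smul_mem_smul_set ha

end Cfsg.Agent.S0735
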