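import Cfsg.Statements.S0737
import Cfsg.Agent.Lib.Perm.Huppert
import Cfsg.Agent.Lib.Perm.Affine
import Cfsg.Agent.Lib.Perm.Prim
import Cfsg.Agent.Lib.Perm.Homog
import Cfsg.Agent.Lib.GLC.Zsig
import Cfsg.Agent.Lib.PF.Main
import Cfsg.Agent.S0735

set_option autoImplicit false
open Cfsg

namespace Cfsg.Agent.S0737

open MulAction Subgroup Lib.Perm
open scoped Pointwise

/-- A non-trivial 2-homogeneous permutation group that is not doubly transitive has odd order and degree `p^f ≡ 3 (mod 4)`, and is permutation-isomorphic to a group of semi-affine transformations `x ↦ a φ(x) + b` of the field with `p^f` elements containing all translations. -/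
theorem result {α : Type*} [Fintype α] [DecidableEq α] (G : Subgroup (Equiv.Perm α)) (hne : G ≠ ⊥) (h2 : MulAction.IsPretransitive G (Set.powersetCard α 2)) (hn2 : ¬ MulAction.IsMultiplyPretransitive G α 2) : Odd (Nat.card G) ∧ ∃ (p f : ℕ) (_ : Fact p.Prime), p ≠ 2 ∧ Fintype.card α = p ^ f ∧ p ^ f % 4 = 3 ∧ ∃ e : α ≃ GaloisField p f, (∀ g : G, e.symm.trans (((g : Equiv.Perm α)).trans e) ∈ Cfsg.semiaffineGroup (GaloisField p f)) ∧ ∀ b : GaloisField p f, ∃ g : G, ∀ x : α, e ((g : Equiv.Perm α) x) = e x + b := by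
  have h3 : 3 ≤ Fintype.card α := by
    by_contra hc
    have h1 : Nat.card (Equiv.Perm α) ∣ 2 := by
      rw [Nat.card_perm, Nat.card_eq_fintype_card]
      exact Nat.factorial_dvd_factorial (show _ ≤ 2 by omega)
    have h4 := (Nat.dvd_prime Nat.prime_two).1 ((card_subgroup_dvd_card G).trans h1)
    rw [card_eq_one, or_iff_right hne] at h4
    have : G = ⊤ := eq_top_of_card_eq _ (Nat.dvd_antisymm (card_subgroup_dvd_card G) (h4 ▸ h1))
    subst this
    exact hn2 (mt_iff.2 fun x y hx hy => by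
      obtain ⟨g, hg⟩ := mt_iff.1 (Equiv.Perm.isMultiplyPretransitive α 2) x y hx hy
      exact ⟨⟨g, trivial⟩, hg⟩)
  obtain ⟨h4, h5⟩ := S0735.result G h2 h3
  have hodd : Odd (Nat.card G) := Nat.not_even_iff_odd.1 fun h => hn2 (h4 h)
  have := h5 hne
  have hs := Lib.PF.isSolvable_of_odd G hodd
  have : Nontrivial G := (nontrivial_iff_ne_bot G).2 hne
  have : Nontrivial α := Fintype.one_lt_card_iff_nontrivial.1 (by omega)
  obtain ⟨hN, hNc, hNC⟩ := fitting_of_primitive (G := G) (Ω := α) Lib.Core.fittingSubgroup_ne_bot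
  set N := fittingSubgroup G with hNd
  have hNn := hN.normal
  obtain ⟨p, hp, hNe⟩ := hN.isElementaryAbelian inferInstance
  have := Fact.mk hp
  obtain ⟨f, hf⟩ := Lib.PGroup.elemAb_card hNe
  have hNt : IsPretransitive N α := isPretransitive_of_normal N hN.ne_bot
  have hNr : ∀ x : α, stabilizer N x = ⊥ := fun x => by
    rw [eq_bot_iff]
    intro n hn
    refine Subtype.ext (Subtype.ext (Equiv.ext fun y => ?_))
    obtain ⟨m, rfl⟩ := exists_smul_eq N x y
    change n • m • x = m • x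
    rw [← mul_smul, hNc.is_comm.comm, mul_smul, hn]
  have hcard : Nat.card α = p ^ f := (card_eq_of_regular hNt hNr).symm.trans hf
  obtain ⟨a⟩ : Nonempty α := inferInstance
  have hG := card_eq_card_mul_stabilizer (G := G) a
  obtain ⟨s, hsc⟩ := exists_finset_card (α := α) (k := 2) (by rw [Nat.card_eq_fintype_card]; omega)
  have hG2 := card_eq_choose_mul h2 hsc
  have ho1 : Odd (p ^ f) := by rw [hG, hcard, Nat.odd_mul] at hodd; exact hodd.1
  have hch : 2 * (p ^ f).choose 2 = p ^ f * (p ^ f - 1) := by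
    rw [Nat.choose_two_right, Nat.mul_div_cancel' (Nat.even_mul_pred_self _).two_dvd]
  have hm4 : p ^ f % 4 = 3 := by
    rw [hG2, hcard, Nat.odd_mul] at hodd
    obtain ⟨k, hk⟩ := ho1
    have h6 := hodd.1
    rw [hk, Nat.add_sub_cancel, mul_left_comm] at hch
    rw [hk, Nat.eq_of_mul_eq_mul_left two_pos hch, Nat.odd_mul, Nat.odd_iff (n := k)] at h6
    omega
  have hf0 : f ≠ 0 := by rintro rfl; simp at hm4
  have hp2 : p ≠ 2 := by
    rintro rfl
    exact (Nat.not_even_iff_odd.2 ho1) (Nat.even_pow.2 ⟨even_two, hf0⟩)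
  have L : LinSet p f N (stabilizer G a) := by
    refine ⟨hNe, hf, Nat.pos_of_ne_zero hf0, le_normalizer_of_normal, ?_, inferInstance,
      fun W hW hn => hN.min W ⟨fun w hw g => ?_⟩ hW⟩
    · rw [hNC, eq_bot_iff]
      exact fun g hg => eq_one_of_regular hNr hg.2 hg.1
    · obtain ⟨n, hn', k, hk, rfl⟩ := exists_mul_stabilizer hNt a g
      have := (mem_normalizer_iff.1 (hn hk) w).1 hw
      rwa [show n * k * w * (n * k)⁻¹ = n * (k * w * k⁻¹) * n⁻¹ by group,
        setLike_mul_comm hn' (hW this), mul_inv_cancel_right]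
  have hgood : Good N (stabilizer G a) := by
    by_cases hf1 : f = 1
    · refine ⟨⊥, bot_le, le_normalizer_of_normal, inferInstance, fun W hW _ => ?_⟩
      have := (Nat.dvd_prime hp).1 (by simpa [hf, hf1] using card_dvd_of_le hW)
      exact this.imp card_eq_one.1 fun e => Lib.Core.eq_of_le_of_card_eq hW (by simp [e, hf, hf1])
    have hf2 : f ≠ 2 := by
      rintro rfl
      obtain ⟨k, rfl⟩ := hp.odd_of_ne_two hp2
      rw [show (2 * k + 1) ^ 2 = 4 * (k ^ 2 + k) + 1 by ring] at hm4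
      omega
    obtain ⟨r, hr, hro⟩ := Lib.GLC.zsigmondy hp.one_lt (n := f) (by omega) (fun h => hp2 h.1)
      (fun h => hf2 h.1)
    have := Fact.mk hr
    have hr2 : r ≠ 2 := by
      rintro rfl
      have := orderOf_le_card_univ (x := (p : ZMod 2))
      simp only [ZMod.card] at this
      omega
    refine (L.good_or_fermat hro (by omega) ?_).resolve_right fun h => ?_
    · have h7 : r ∣ p ^ f - 1 := by
        rw [← Nat.modEq_iff_dvd' (Nat.one_le_pow _ _ hp.pos), ← ZMod.natCast_eq_natCast_iff,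
          Nat.cast_pow, ← hro, pow_orderOf_eq_one, Nat.cast_one]
      have h8 : 2 * Nat.card (stabilizer G a) = (p ^ f - 1) * Nat.card (stabilizer G s) := by
        refine Nat.eq_of_mul_eq_mul_left (Nat.pow_pos hp.pos (n := f)) ?_
        rw [← mul_assoc (p ^ f) (p ^ f - 1), ← hch, mul_assoc, ← hcard, ← hG2, mul_left_comm, ← hG]
      exact ((Nat.coprime_primes hr Nat.prime_two).2 hr2).dvd_of_dvd_mul_left
        (h8 ▸ h7.mul_right _)
    · rw [hG, Nat.odd_mul] at hodd
      exact Nat.not_even_iff_odd.2 hodd.2 h.1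
  obtain ⟨A, hAH, hHA, hAc, hirr⟩ := hgood
  obtain ⟨⟨n, hn⟩, hn1⟩ := ne_bot_iff_exists_ne_one.1 hN.ne_bot
  obtain ⟨F, _, _, φ, ψ, hc, -⟩ := exists_fieldCoord (V := N) (A := A) hNc le_normalizer_of_normal
    (by rw [commutator_eq_bot_iff_le_centralizer.2 (le_centralizer_iff_isMulCommutative.2 hAc)]
        exact bot_le) hirr hn fun e => hn1 (Subtype.ext e)
  have := Fintype.ofFinite (GaloisField p f)
  have hc' := hc.map_equiv' (FiniteField.ringEquivOfCardEq (K := F) (K' := GaloisField p f) (by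
    rw [← Nat.card_eq_fintype_card, ← Nat.card_eq_fintype_card, hc.card_eq, hf,
      GaloisField.card _ _ hf0]))
  obtain ⟨e, he⟩ := hc'.exists_equiv hNt hNr a
  refine ⟨hodd, p, f, inferInstance, hp2, by rwa [← Nat.card_eq_fintype_card], hm4, e,
    hc'.mem_semiaffine hNt he hHA, fun b => ?_⟩
  obtain ⟨m, hm, rfl⟩ := hc'.surj b
  exact ⟨m, hc'.translation hNt he hm⟩

end Cfsg.Agent.S0737
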