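import Cfsg.Statements.S0877
import Cfsg.Agent.Lib.Char.DefectZero
import Cfsg.Agent.Lib.Char.Column

set_option autoImplicit false
open Cfsg

namespace Cfsg.Agent.S0877

open Cfsg.Lib.Char

open scoped ComplexConjugate

/-- If the pull-back along `τ` carries generalized characters to generalized characters and `τ`
meets every class, then the pull-back preserves the multiplicity of the principal character. -/
theorem inner_comp_one {G H : Type*} [Group G] [Group H] [Fintype G] [Fintype H] (τ : G → H)
    (hτ : ∀ φ, IsIrrCharacter H φ → IsGeneralizedCharacter G (fun x => φ (τ x)))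
    (hsurj : ∀ h : H, ∃ x, IsConj h (τ x)) {θ : H → ℂ} (hθ : IsClassFunction H θ) :
    classInner (fun x => θ (τ x)) (fun _ => 1) = classInner θ (fun _ => 1) := by
  classical
  choose k hk using fun φ : IrrCharacter H =>
    (hτ φ φ.2).exists_inner_eq_int isGeneralizedCharacter_one
  set η := ∑ φ : IrrCharacter H, (k φ : ℂ) • (φ : H → ℂ) with hη
  have hηg : IsGeneralizedCharacter H η := isGeneralizedCharacter_sum_int_smul_irr k
  have hL : ∀ θ : H → ℂ, IsClassFunction H θ →
      classInner (fun x => θ (τ x)) (fun _ => 1) = classInner θ η := by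
    intro θ hθ
    have : (fun x => θ (τ x)) = ∑ φ : IrrCharacter H,
        classInner θ φ • fun x => (φ : H → ℂ) (τ x) := by
      funext x
      rw [Finset.sum_apply]
      exact hθ.apply_eq_sum_irr (τ x)
    rw [this, hη, classInner_sum_left, classInner_sum_right]
    refine Finset.sum_congr rfl fun φ _ => ?_
    rw [classInner_smul_left, classInner_smul_right, hk, map_intCast, mul_comm]
  have hval : ∀ h : H, ∃ j : ℤ, 1 ≤ j ∧ conj (η h) = j := by
    intro h
    have h1 := hL _ (isClassFunction_classIndicator h)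
    rw [hηg.isClassFunction.classIndicator_inner, classInner_one_right] at h1
    have h2 : ∑ x, classIndicator h (τ x) =
        ((Finset.univ.filter fun x => IsConj h (τ x)).card : ℂ) := by
      rw [Finset.card_filter]
      push_cast
      exact Finset.sum_congr rfl fun x _ => by simp [classIndicator]
    set c := (Finset.univ.filter fun x => IsConj h (τ x)).card with hc
    have hc0 : 0 < c := by
      obtain ⟨x, hx⟩ := hsurj h
      exact Finset.card_pos.2 ⟨x, by simpa using hx⟩
    have h3 : conj (η h) = ((Nat.card (Subgroup.centralizer ({h} : Set H)) * c / Nat.card G : ℚ)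
        : ℂ) := by
      have := card_ne_zero_complex G
      have := card_ne_zero_complex (Subgroup.centralizer ({h} : Set H))
      rw [h2] at h1
      push_cast
      field_simp at h1 ⊢
      exact h1.symm
    obtain ⟨j, hj⟩ := exists_int_of_isIntegral_of_rat (isIntegral_conj (hηg.isIntegral h)) h3
    refine ⟨j, ?_, hj⟩
    rw [hj] at h3
    have h4 : (j : ℚ) = Nat.card (Subgroup.centralizer ({h} : Set H)) * c / Nat.card G := by
      exact_mod_cast h3
    have h5 : (0 : ℚ) < j := by
      rw [h4]
      have : 0 < Nat.card G := Nat.card_pos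
      have : 0 < Nat.card (Subgroup.centralizer ({h} : Set H)) := Nat.card_pos
      positivity
    exact_mod_cast h5
  choose j hj1 hj using hval
  have hsum : ∑ h, j h = ∑ _h : H, (1 : ℤ) := by
    have h1 := hL _ (isClassFunction_one (G := H))
    rw [classInner_one_one] at h1
    have h2 := card_mul_classInner (fun _ : H => (1 : ℂ)) η
    rw [← h1] at h2
    simp only [hj, one_mul, mul_one] at h2
    rw [Finset.sum_const, Finset.card_univ, ← Nat.card_eq_fintype_card]
    apply Int.cast_injective (α := ℂ)
    push_cast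
    simpa using h2.symm
  have hone : η = fun _ => 1 := by
    funext h
    have := (Finset.sum_eq_sum_iff_of_le (fun h _ => hj1 h)).1 hsum.symm h (Finset.mem_univ h)
    rw [← Complex.conj_conj (η h), hj, ← this]
    simp
  rw [hL θ hθ, hone]

/-- Let H be a subgroup of the finite group G whose order is coprime to its index. Suppose that elements of H conjugate in G are conjugate in H, and that every subgroup E of G that is elementary for some prime (in the sense used for Brauer's characterisation of characters) and whose order divides the order of H is conjugate to a subgroup of H. Then there is a normal subgroup K with K ⊔ H = ⊤ and K ⊓ H trivial. -/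
theorem result {G : Type*} [Group G] [Finite G] (H : Subgroup G) (hHall : Nat.Coprime (Nat.card H) H.index) (hfus : ∀ x ∈ H, ∀ y ∈ H, IsConj x y → ∃ h ∈ H, h * x * h⁻¹ = y) (helem : ∀ (E : Subgroup G) (p : ℕ), p.Prime → Cfsg.IsElementary p E → Nat.card E ∣ Nat.card H → ∃ g : G, E.map (MulAut.conj g).toMonoidHom ≤ H) : ∃ K : Subgroup G, K.Normal ∧ K ⊔ H = ⊤ ∧ K ⊓ H = ⊥ := by
  classical
  haveI := Fintype.ofFinite G
  obtain ⟨a, ha1, ha0⟩ := exists_modEq_one_and_dvd hHall
  have hord : ∀ x : G, orderOf x ∣ Nat.card H * H.index := fun x => by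
    rw [H.card_mul_index]; exact orderOf_dvd_natCard x
  have hex : ∀ x : G, ∃ h : H, IsConj (x ^ a) h := fun x => by
    obtain ⟨g, hg⟩ := helem (Subgroup.zpowers (x ^ a)) 2 Nat.prime_two
      (isElementary_of_isCyclic Nat.prime_two inferInstance)
      (by rw [Nat.card_zpowers]; exact orderOf_pow_dvd_of_dvd ha0 (hord x))
    exact ⟨⟨g * x ^ a * g⁻¹, hg ⟨_, Subgroup.mem_zpowers _, rfl⟩⟩, isConj_iff.2 ⟨g, rfl⟩⟩
  choose τ hτ using hex
  have hfus' : ∀ (x : G) (y : H), IsConj (x ^ a) y → IsConj (τ x) y := fun x y hxy => by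
    obtain ⟨h, hh, e⟩ := hfus _ (τ x).2 _ y.2 ((hτ x).symm.trans hxy)
    exact isConj_iff.2 ⟨⟨h, hh⟩, Subtype.ext e⟩
  have hτH : ∀ h : H, IsConj (τ h) h := fun h => hfus' _ _ (by
    rw [pow_eq_self_of_orderOf_dvd ha1 (by
      rw [Subgroup.orderOf_coe]; exact orderOf_dvd_natCard h)])
  have hτ1 : τ 1 = 1 := isConj_one_left.1 (hτH 1)
  have hcl : ∀ θ : H → ℂ, IsClassFunction H θ → IsClassFunction G (fun x => θ (τ x)) :=
    fun θ hθ x y => hθ.eq_of_isConj (hfus' _ _ (by
      rw [conj_pow]
      exact (isConj_iff.2 ⟨y, rfl⟩ : IsConj (x ^ a) _).symm.trans (hτ x)))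
  have hgen : ∀ φ, IsIrrCharacter H φ → IsGeneralizedCharacter G (fun x => φ (τ x)) := by
    intro φ hφ
    refine isGeneralizedCharacter_of_elementary (hcl φ hφ.isClassFunction) fun E p hp hE => ?_
    have hordE : ∀ e : E, orderOf e ∣ Nat.card H * H.index := fun e => by
      rw [← Subgroup.orderOf_coe]; exact hord e
    let f := hE.powHom hp hHall hordE ha1 ha0
    obtain ⟨g, hg⟩ := helem (f.range.map E.subtype) p hp
      (hE.of_le hp (Subgroup.map_subtype_le _)) (by
        refine card_dvd_of_forall_orderOf_dvd hHall.symm ?_ ?_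
        · rw [mul_comm, H.card_mul_index]; exact Subgroup.card_subgroup_dvd_card _
        · rintro ⟨_, _, ⟨y, rfl⟩, rfl⟩
          rw [← Subgroup.orderOf_coe]
          exact orderOf_pow_dvd_of_dvd ha0 (hord y))
    let h : E →* H := (((MulAut.conj g).toMonoidHom.comp E.subtype).comp f).codRestrict H
      fun e => hg ⟨_, ⟨_, ⟨e, rfl⟩, rfl⟩, rfl⟩
    have : (fun e : E => φ (τ e)) = fun e => φ (h e) := by
      funext e
      exact hφ.isClassFunction.eq_of_isConj (hfus' _ _ (isConj_iff.2 ⟨g, rfl⟩))
    rw [this]
    exact hφ.isGeneralizedCharacter.comp h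
  have hL := fun θ hθ => inner_comp_one τ hgen (fun h => ⟨h, (hτH h).symm⟩) (θ := θ) hθ
  have hirr : ∀ φ, IsIrrCharacter H φ → IsIrrCharacter G (fun x => φ (τ x)) := by
    intro φ hφ
    refine (hgen φ hφ).isIrrCharacter_of_inner_self ?_ ?_
    · have h1 := hL (fun g => φ g * conj (φ g))
        (hφ.isClassFunction.mul hφ.isClassFunction.conj)
      rw [← classInner_eq_inner_one φ φ, hφ.inner_self] at h1
      rw [classInner_eq_inner_one, h1]
    · simp only [hτ1, hφ.isCharacter.re_apply_one]
      positivity
  have hρ : IsCharacter G (fun x => regChar H (τ x)) := by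
    have : (fun x => regChar H (τ x)) = ∑ φ : IrrCharacter H,
        (charDegree (φ : H → ℂ) : ℂ) • fun x => (φ : H → ℂ) (τ x) := by
      funext x
      rw [← sum_irr_apply_one_mul_apply, Finset.sum_apply]
      exact Finset.sum_congr rfl fun φ _ => by rw [φ.2.apply_one_eq]; rfl
    rw [this]
    exact isCharacter_sum _ _ fun φ _ => (hirr _ φ.2).isCharacter.natCast_smul _
  have hK : ∀ x, x ∈ charKer (fun x => regChar H (τ x)) ↔ τ x = 1 := fun x => by
    rw [hρ.mem_charKer_iff, hτ1, regChar_apply, regChar_apply, if_pos rfl]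
    split_ifs with h
    · simp [h]
    · exact iff_of_false (card_ne_zero_complex H).symm h
  haveI := hρ.charKer_normal
  have hinf : charKer (fun x => regChar H (τ x)) ⊓ H = ⊥ := by
    rw [eq_bot_iff]
    rintro x ⟨hx, hxH⟩
    have h1 := hτH ⟨x, hxH⟩
    rw [(hK x).1 hx] at h1
    exact congrArg Subtype.val (isConj_one_right.1 h1)
  refine ⟨_, inferInstance, ?_, hinf⟩
  rw [sup_comm]
  apply Cfsg.Lib.Core.eq_top_of_card_eq'
  rw [Cfsg.Lib.Core.card_sup_of_disjoint (by rw [Subgroup.normalizer_eq_top]; exact le_top)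
    (by rw [inf_comm, hinf])]
  have h1 := hL _ isCharacter_regChar.isClassFunction
  rw [classInner_regChar_left, map_one, classInner_one_right] at h1
  have h2 : ∑ x, regChar H (τ x) =
      Nat.card H * Nat.card (charKer (fun x => regChar H (τ x))) := by
    rw [Nat.card_eq_fintype_card (α := charKer _), Fintype.card_subtype, Finset.card_filter]
    push_cast
    rw [Finset.mul_sum]
    refine Finset.sum_congr rfl fun x _ => ?_
    by_cases h : τ x = 1
    · rw [if_pos ((hK x).2 h), h, regChar_one, mul_one]
    · rw [if_neg (mt (hK x).1 h), regChar_of_ne_one h, mul_zero]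
  rw [h2, inv_mul_eq_one₀ (card_ne_zero_complex G)] at h1
  exact le_of_eq (by exact_mod_cast h1)

end Cfsg.Agent.S0877
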