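import Cfsg.Statements.S0998
import Cfsg.Agent.Lib.Cyc.BT
import Cfsg.Agent.Lib.Comp.PumpP

set_option autoImplicit false
open Cfsg

namespace Cfsg.Agent.S0998

theorem three_dvd (m : ℕ) : 3 ∣ 2 ^ m + 1 ∧ 3 ∣ 2 ^ m + 4 ∨ 3 ∣ 2 ^ m - 1 ∧ 3 ∣ 2 ^ m + 2 := by
  induction m with
  | zero => simp
  | succ m ih => omega


/-- A non-cyclic finite simple group whose order has the form p * r * q^b for distinct primes p, q, r is isomorphic to the projective special linear group of dimension 2 over the field with 5 or with 7 elements. -/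
theorem result {G : Type*} [Group G] [Finite G] [IsSimpleGroup G] (hG : ¬ IsCyclic G) (p q r b : ℕ) (hp : p.Prime) (hq : q.Prime) (hr : r.Prime) (hpq : p ≠ q) (hpr : p ≠ r) (hqr : q ≠ r) (hG' : Nat.card G = p * r * q ^ b) : (∃ (F : Type) (_ : Field F) (_ : Fintype F), Fintype.card F = 5 ∧ Nonempty (G ≃* Matrix.ProjectiveSpecialLinearGroup (Fin 2) F)) ∨ (∃ (F : Type) (_ : Field F) (_ : Fintype F), Fintype.card F = 7 ∧ Nonempty (G ≃* Matrix.ProjectiveSpecialLinearGroup (Fin 2) F)) := by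
  wlog h : r < p generalizing p r
  · exact this r p hr hp hqr.symm hpr.symm hpq.symm (by rw [hG', mul_comm p]) (by omega)
  haveI := Fact.mk hp
  have hc : ¬ IsMulCommutative G := fun _ => hG Cfsg.Lib.Small.isCyclic_of_simple
  have h0 : ¬ q ∣ r := fun e => hqr ((Nat.prime_dvd_prime_iff_eq hq hr).1 e)
  have hp3 : 3 ∣ p → p = 3 := fun e => ((Nat.prime_dvd_prime_iff_eq Nat.prime_three hp).1 e).symm
  have hr3 : 3 ∣ r → r = 3 := fun e => ((Nat.prime_dvd_prime_iff_eq Nat.prime_three hr).1 e).symm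
  rcases (show r ≤ p - 1 by omega).eq_or_lt with e | e
  · obtain rfl : r = 2 := by
      have := hp.eq_two_or_odd; have := hr.eq_two_or_odd; have := hr.two_le; omega
    obtain ⟨T⟩ : Nonempty (Sylow 2 G) := inferInstance
    refine (Cfsg.Lib.Comp.odd_of_perf_of_cyclic (Cfsg.Lib.Small.commutator_eq_top_of_simple hc) T
      (isCyclic_of_prime_card (p := 2) (Cfsg.Lib.Small.card_sylow_eq 2 T (k := 1) (m := p * q ^ b)
        (by rw [hG']; ring) fun h => ?_).1) (hG' ▸ (dvd_mul_left ..).mul_right _)).elim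
    rcases (Nat.Prime.dvd_mul Nat.prime_two).1 h with h | h
    · omega
    · exact hqr ((Nat.prime_dvd_prime_iff_eq Nat.prime_two hq).1 (Nat.prime_two.dvd_of_dvd_pow h)).symm
  obtain ⟨h2, m, ⟨h3, h4⟩ | ⟨F, _, _, h3, h4, h5, ⟨φ⟩⟩⟩ := Cfsg.Lib.Cyc.brauer_tuan hc hq hpq (b := b)
    (by rw [hG']; ring) e h0
  · have h5 := three_dvd m
    have h6 := hr.two_le
    rcases h3 with h3 | h3
    · rcases hr.eq_two_or_odd with rfl | h7
      · exact .inl ⟨ZMod p, _, _, (ZMod.card p).trans (by omega), h4⟩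
      · exact .inr ⟨ZMod p, _, _, (ZMod.card p).trans (by omega), h4⟩
    · exact .inl ⟨ZMod p, _, _, (ZMod.card p).trans (by omega), h4⟩
  · have h6 := three_dvd m
    obtain ⟨f2⟩ := Cfsg.Agent.S0252.result (F := F) (by omega)
    have := Fact.mk Nat.prime_five
    obtain ⟨f3⟩ := Cfsg.Agent.S0253.result (ZMod.card 5)
    exact .inl ⟨ZMod 5, _, _, ZMod.card 5, ⟨φ.trans (f2.trans f3.symm)⟩⟩

end Cfsg.Agent.S0998
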