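import Cfsg.Statements.S1082
import Cfsg.Agent.Lib.Chev.CTA2
import Cfsg.Agent.Lib.Chev.SpinOmega

set_option autoImplicit false
open Cfsg

namespace Cfsg.Agent.S1082

open Cfsg.Lib.Chev

/-- D₄(F) ≅ PΩ₈⁺(F), the commutator subgroup of the orthogonal group of `Σ xᵢ yᵢ` modulo its centre. -/
theorem result {F : Type*} [Field F] : Nonempty (↥(Cfsg.Lie.chevD4.group F) ≃* Cfsg.POmega F (Cfsg.quadFormPlus 4 F)) := by
  have h1 : (rootD (n := 4) (by omega)).A = checkedD4.R.A := by
    rw [(isCartanD4 checkedD4).A_eq]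
    funext i j
    rw [A_D]
    change _ = toM 4 4 cartanD4 i j
    revert i j
    decide
  have h2 : (rootD (n := 4) (by omega)).Laced := fun i j h => by
    rw [A_D, if_neg h]
    split_ifs <;> simp
  let X := (repD (n := 4) (by omega) (carJW _)).real F
  obtain ⟨φ, hφ, -⟩ := (checkedD4.gsys_faithful F).exists_hom_laced (checkedD4.gsys_strongComm F)
    (checkedD4.gsys_adjoint F).hMul checkedD4.anti (fun i j => h1 ▸ h2 i j) (checkedD4.gsys_grp F)
    (h1 ▸ X.hMul.ctRels X.strongComm (MinRep.anti _) h2)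
    fun K h h' => X.grp_eq ▸ X.sys.grp_le_of_simple h h'
  have := (isSimpleGroup_group' (F := F) (D := Lie.chevD4) (by simp)).1
  have := (X.faithful.map_of_central X.grp_eq (QuotientGroup.ker_mk' _).le).nontrivial
  obtain ⟨e⟩ := nonempty_equiv_of_simple hφ
  obtain ⟨e'⟩ := nonempty_spinD_equiv F (n := 4) (by omega) (by omega)
  exact ⟨e.trans e'⟩

end Cfsg.Agent.S1082
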