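import Cfsg.Statements.S1137
import Cfsg.Agent.Lib.Perm.Higman4

set_option autoImplicit false
open Cfsg

namespace Cfsg.Agent.S1137

/-- In a Suzuki 2-group `P` (a finite non-abelian 2-group with more than one involution admitting a cyclic group of automorphisms regular on its involutions) the involutions are exactly the non-identity central elements, and `Z(P)` is elementary abelian. -/
theorem result {P : Type*} [Group P] (hP : Cfsg.IsSuzukiTwoGroup P) :
    (∀ x : P, (x ≠ 1 ∧ x * x = 1) ↔ (x ∈ Subgroup.center P ∧ x ≠ 1)) ∧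
      ∀ z ∈ Subgroup.center P, z * z = 1 := by
  obtain ⟨X, _, _, Q, K, e, h, hna, hc⟩ := Lib.Perm.exists_suz hP
  have key : ∀ x : P, x ∈ Subgroup.center P ↔ x * x = 1 := fun x => (hc x).trans
    ⟨fun h1 => e.injective (Subtype.ext (by simpa [sq] using Lib.Perm.om_sq h1)),
      fun h1 => h.mem_om (e x).2 (by rw [sq, ← Subgroup.coe_mul, ← map_mul, h1]; simp)⟩
  exact ⟨fun x => by rw [key, and_comm], fun z hz => (key z).1 hz⟩

end Cfsg.Agent.S1137
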