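import Cfsg.Statements.S1138
import Cfsg.Agent.Lib.Perm.Higman4
import Cfsg.Agent.S1137

set_option autoImplicit false
open Cfsg

namespace Cfsg.Agent.S1138

/-- Let `P` be a Suzuki 2-group with `|Z(P)| = q`. Then every square lies in `Z(P)` and `P/Z(P)` is abelian (so elementary abelian), `|P| = q²` or `|P| = q³`, and `P` has exponent 4. -/
theorem result {P : Type*} [Group P] (hP : Cfsg.IsSuzukiTwoGroup P) :
    (∀ x : P, x * x ∈ Subgroup.center P) ∧ (∀ x y : P, x⁻¹ * y⁻¹ * x * y ∈ Subgroup.center P) ∧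
      (Nat.card P = Nat.card (Subgroup.center P) ^ 2 ∨ Nat.card P = Nat.card (Subgroup.center P) ^ 3) ∧
      Monoid.exponent P = 4 := by
  obtain ⟨X, _, _, Q, K, e, h, hna, hc⟩ := Lib.Perm.exists_suz hP
  have : Finite P := hP.1
  have h1 : ∀ x : P, x * x ∈ Subgroup.center P := fun x => (hc _).2 (by
    simpa [sq] using h.sq_mem_om hna (e x).2)
  have hcard : Nat.card (Subgroup.center P) = Nat.card (Lib.Perm.om Q) := by
    rw [← Lib.BG.subOf_card (Lib.Perm.om_le Q)]
    exact Nat.card_congr (e.toEquiv.subtypeEquiv hc)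
  refine ⟨h1, fun x y => (hc _).2 (by
    simpa [commutatorElement_def] using h.comm_mem_om hna (e x⁻¹).2 (e y⁻¹).2), ?_, ?_⟩
  · rw [hcard, Nat.card_congr e.toEquiv]
    exact h.card_eq hna
  · have key := (S1137.result hP).1
    have h4 : ∀ x : P, x ^ 2 ^ 2 = 1 := fun x => by
      rw [sq 2, pow_mul, sq, sq]; exact (S1137.result hP).2 _ (h1 x)
    obtain ⟨x, y, hxy⟩ := hP.2.2.1
    have hx : x ∉ Subgroup.center P := fun e => hxy (Subgroup.mem_center_iff.1 e y).symm
    refine Nat.dvd_antisymm (Monoid.exponent_dvd_iff_forall_pow_eq_one.2 h4) ?_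
    have : Fact (Nat.Prime 2) := ⟨Nat.prime_two⟩
    have := orderOf_eq_prime_pow (p := 2) (n := 1) (x := x) (fun e => hx ((key x).1
      ⟨fun e => hx (e ▸ Subgroup.one_mem _), by simpa [sq] using e⟩).1) (h4 x)
    exact (show orderOf x = 4 from this) ▸ Monoid.order_dvd_exponent x

end Cfsg.Agent.S1138
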