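import Cfsg.Statements.S1153
import Cfsg.Agent.Lib.Ree.Inst
import Cfsg.Agent.Lib.Ree.Borel

set_option autoImplicit false
open Cfsg

namespace Cfsg.Agent.S1153

/-- In the small Ree group ²G₂(q), q = 3^(2m+1), realised as G¹ inside the Chevalley group G₂ over the field with q elements, with `B¹ = G¹ ∩ B`: in the action of `G¹` on the cosets of `B¹`, the joint stabiliser of any three distinct cosets has order at most 2, and for some three distinct cosets it has order exactly 2. -/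
theorem result {K : Type*} [Field K] [Fintype K] {m : ℕ} (hK : Fintype.card K = 3 ^ (2 * m + 1)) :
    (∀ x y z : ↥(Cfsg.Lie.twistedG2 K (3 ^ m)) ⧸ ((Cfsg.Lie.chevG2.borelSubgroup K ⊓ Cfsg.Lie.twistedG2 K (3 ^ m))).subgroupOf (Cfsg.Lie.twistedG2 K (3 ^ m)), x ≠ y → x ≠ z → y ≠ z →
        Nat.card ↥(MulAction.stabilizer ↥(Cfsg.Lie.twistedG2 K (3 ^ m)) x ⊓ MulAction.stabilizer ↥(Cfsg.Lie.twistedG2 K (3 ^ m)) y ⊓ MulAction.stabilizer ↥(Cfsg.Lie.twistedG2 K (3 ^ m)) z) ≤ 2) ∧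
      ∃ x y z : ↥(Cfsg.Lie.twistedG2 K (3 ^ m)) ⧸ ((Cfsg.Lie.chevG2.borelSubgroup K ⊓ Cfsg.Lie.twistedG2 K (3 ^ m))).subgroupOf (Cfsg.Lie.twistedG2 K (3 ^ m)), x ≠ y ∧ x ≠ z ∧ y ≠ z ∧
        Nat.card ↥(MulAction.stabilizer ↥(Cfsg.Lie.twistedG2 K (3 ^ m)) x ⊓ MulAction.stabilizer ↥(Cfsg.Lie.twistedG2 K (3 ^ m)) y ⊓ MulAction.stabilizer ↥(Cfsg.Lie.twistedG2 K (3 ^ m)) z) = 2 := by
  obtain ⟨M, -, -, h⟩ := Lib.Ree.exists_model hK
  rw [← h]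
  have := M.finite
  have key : ∀ y, Nat.card (Subgroup.zpowers (y * M.a * y⁻¹)) = 2 := fun y => by
    rw [Nat.card_zpowers, Lib.Ree.orderOf_conj, M.orderOf_a]
  have h1 : ∀ (y) (z : M.Pt), y • M.inf ≠ z → y • M.zero ≠ z →
      MulAction.stabilizer _ (y • M.inf) ⊓ MulAction.stabilizer _ (y • M.zero) ⊓
        MulAction.stabilizer _ z ≤ Subgroup.zpowers (y * M.a * y⁻¹) := fun y z h1 h2 g hg => by
    rcases M.eq_conj_a_of_fix_three h1.symm h2.symm hg.1.1 hg.1.2 hg.2 with rfl | rfl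
    exacts [Subgroup.one_mem _, Subgroup.mem_zpowers _]
  refine ⟨fun x y z h2 h3 h4 => ?_, M.inf, M.zero, M.pt 0 1 0, M.zero_ne_inf.symm,
    (M.pt_ne_inf _ _ _).symm, by simp [eq_comm, M.pt_eq_zero], ?_⟩
  · obtain ⟨g, rfl, rfl⟩ := M.exists_smul_inf_zero h2
    exact key g ▸ Subgroup.card_le_of_le (h1 g z h3 h4)
  · have h2 := h1 1 (M.pt 0 1 0) (by simpa using (M.pt_ne_inf _ _ _).symm)
      (by simp [eq_comm, M.pt_eq_zero])
    simp only [one_smul, one_mul, inv_one, mul_one] at h2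
    rw [le_antisymm h2 (Subgroup.zpowers_le.2
      ⟨⟨M.h_smul_inf _, M.h_smul_zero _⟩, M.a_smul_eq_iff.2 (Or.inr ⟨1, rfl⟩)⟩),
      Nat.card_zpowers, M.orderOf_a]

end Cfsg.Agent.S1153
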