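import Cfsg.Statements.S1164
import Cfsg.Agent.Lib.Chev.CTA2

set_option autoImplicit false
open Cfsg

namespace Cfsg.Agent.S1164

open Cfsg.Lib.Chev Cfsg.Lib.Chev.RootSys

/-- Curtis–Tits: for the Chevalley datum of type D₄, F₄, E₆, E₇ or E₈ and a field `K` with at least four elements, there is an isomorphism from the group presented by the Curtis–Tits relators (additivity, the commutator relators and the `h̄`-relators only for roots inside a common rank-two subsystem spanned by two fundamental roots, all other generators killed) onto the group of Steinberg's presentation, sending each generator `x̄_r(t)` with `r` in such a subsystem to `x̄_r(t)`. -/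
theorem result (D : Cfsg.Lie.ChevalleyDatum)
    (hD : D ∈ [Cfsg.Lie.chevD4, Cfsg.Lie.chevF4, Cfsg.Lie.chevE6, Cfsg.Lie.chevE7, Cfsg.Lie.chevE8])
    (K : Type*) [Field K] [Fintype K] (hK : 4 ≤ Fintype.card K) :
    ∃ e : D.CurtisTitsGroup K ≃* D.SteinbergGroup K,
      ∀ (i j r : ℕ) (t : K), D.InRankTwoSub i j r →
        e (PresentedGroup.mk (D.curtisTitsRels K) (D.stX r t)) = D.stGen K r t := by
  classical
  have hD' := mem_types_of_mem hD
  obtain ⟨c, h⟩ := exists_checked hD'
  have h0 : ∀ (i j : Fin D.rank) (r : Fin D.nroots), D.InRankTwoSub i j r ↔ h.R.InJ (pr i j) r :=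
    fun i j r => ⟨fun e k hk => h.R.co_eq_zero_iff.1 ((h.co_eq r k).trans (e.2.2.2 k k.2
      (fun e => hk (.inl (Fin.ext e))) fun e => hk (.inr (Fin.ext e)))), fun e => ⟨r.2, i.2, j.2,
        fun k hk h1 h2 => (h.co_eq r ⟨k, hk⟩).symm.trans (h.R.co_eq_zero_iff.2 (e _ fun e' =>
          e'.elim (fun e => h1 (congrArg Fin.val e)) fun e => h2 (congrArg Fin.val e)))⟩⟩
  have h1 : ∀ {G : Type _} [Group G] (ψ : FreeGroup (Fin D.nroots × K) →* G)
      {r s : Fin D.nroots}, s ≠ r → s ≠ h.R.neg r → ∀ t u,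
      ψ ((D.stX s u)⁻¹ * (D.stX r t)⁻¹ * D.stX s u * D.stX r t *
        (D.stWord (D.commWord K r s t u))⁻¹) = 1 ↔ genOf ψ s u * genOf ψ r t =
          genOf ψ r t * genOf ψ s u * h.T.commProd (genOf ψ) r s t u := fun ψ _ _ h1 h2 t u => by
    simp only [map_mul, map_inv, map_stX', h.map_commWord ψ h1 h2, mul_inv_eq_one]
    constructor <;> intro e
    · rw [← e]; group
    · rw [mul_assoc, e]; group
  let y := genOf (PresentedGroup.mk (D.curtisTitsRels K))
  have hy : ∀ i j, h.T.Loc (fun i => y (h.R.simple i)) (fun i => y (h.R.neg (h.R.simple i)))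
      (pr i j) y := fun i j => ⟨fun r hr t u => by
      have := PresentedGroup.one_of_mem (rels := D.curtisTitsRels K)
        (.inl (.inl (.inr ⟨i, j, r, t, u, (h0 _ _ _).2 hr, rfl⟩)))
      rw [map_mul, map_mul, map_inv, map_stX', map_stX', map_stX', mul_inv_eq_one] at this
      exact this.symm,
    fun r s hr hs h2 h3 t u => (h1 _ h2 h3 t u).1 (PresentedGroup.one_of_mem (.inl (.inr
      ⟨i, j, r, s, t, u, (h0 _ _ _).2 hr, (h0 _ _ _).2 hs, fun e => h2 (Fin.ext e),
        fun e => h3 (Fin.ext e), rfl⟩))), fun _ _ => rfl, fun _ _ => rfl⟩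
  let C := h.stSys K hD'
  have hF := h.stSys_faithful K hD'
  have hT := h.stSys_strongComm K hD'
  obtain ⟨C', h2, h3, h4⟩ := hF.exists_sys_of_loc hT (h.stSys_hMul K hD')
    (fun i => (h.noA1 hD' i).elim fun j e => (hy i j).rk1 hF hT e.1 e.2) hy
  obtain ⟨ψ, hψ⟩ := h.exists_group_lift (C := C'.map (.snd _ _)) ((h2.strongComm hF hT).map _)
    (h3.map (C'.isHom_map _))
  let f : Fin D.nroots × K → D.SteinbergGroup K := fun a =>
    if ∃ i j, h.R.InJ (pr i j) a.1 then C.x a.1 a.2 else 1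
  have h5 : ∀ {i j r}, h.R.InJ (pr i j) r → genOf (FreeGroup.lift f) r = C.x r :=
    fun {i j r} hr => funext fun t => FreeGroup.lift_apply_of.trans (if_pos ⟨i, j, hr⟩)
  have h6 : ∀ g ∈ D.curtisTitsRels K, FreeGroup.lift f g = 1 := by
    rintro _ (((⟨r, t, hr, e, rfl⟩ | ⟨i, j, r, t, u, e, rfl⟩) |
      ⟨i, j, r, s, t, u, e, e', h7, h8, rfl⟩) | ⟨i, j, r, t, u, e, ht, hu, rfl⟩)
    · lift r to Fin D.nroots using hr
      rw [map_stX', genOf, FreeGroup.lift_apply_of]
      exact if_neg fun ⟨i, j, e'⟩ => e i j ((h0 _ _ _).2 e')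
    all_goals
      lift r to Fin D.nroots using e.1
      lift i to Fin D.rank using e.2.1
      lift j to Fin D.rank using e.2.2.1
      rw [h0] at e
    · simp [map_stX', h5 e, C.x_add]
    · lift s to Fin D.nroots using e'.1
      rw [h0] at e'
      have h9 : s ≠ r := fun e => h7 (congrArg _ e)
      have h10 : s ≠ h.R.neg r := fun e => h8 (congrArg _ e)
      rw [h1 _ h9 h10, h5 e, h5 e', hT r s h9 h10, ChevTab.commProd, ChevTab.commProd]
      exact congrArg (_ * List.prod ·) (List.map_congr_left fun a ha => by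
        rw [h5 (isClosed_inJ _ e _ e' _ (h.T.between_of_mem_terms ha))])
    · lift t to Kˣ using ht.isUnit
      lift u to Kˣ using hu.isUnit
      have h9 : ∀ t : Kˣ, FreeGroup.lift f (D.stH r (t : K)) = C.h r t := fun t => by
        simp [Lie.ChevalleyDatum.stH, Lie.ChevalleyDatum.stWord, Lie.ChevalleyDatum.hWord,
          Lie.ChevalleyDatum.nWord, ← h.neg_val, map_stX', PreSys.h, PreSys.n, h5 e, h5 e.neg,
          mul_assoc]
      rw [← Units.val_mul, map_mul, map_mul, map_inv, h9, h9, h9, h.stSys_hMul K hD',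
        mul_inv_cancel]
  have h7 : ∀ {i j r}, h.R.InJ (pr i j) r → ∀ t, PresentedGroup.toGroup h6 (y r t) = C.x r t :=
    fun hr t => (PresentedGroup.toGroup.of h6).trans (if_pos ⟨_, _, hr⟩)
  have h8 : ∀ {i j r}, h.R.InJ (pr i j) r → ∀ t, ψ (C.x r t) = y r t := fun {i j r} hr t =>
    (congrArg ψ (h.stSys_x K hD' r t)).trans ((hψ r t).trans (h4 i j r hr t))
  refine ⟨MonoidHom.toMulEquiv (PresentedGroup.toGroup h6) ψ (PresentedGroup.ext fun a => ?_)
    (MonoidHom.ext fun g => C.grp_le_of_simple (K := MonoidHom.eqLocus _ _) (fun i t => ?_)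
      (fun i t => ?_) ((h.stSys_grp K hD').ge (Subgroup.mem_top g))), fun i j r t e => ?_⟩
  · by_cases e : ∃ i j, h.R.InJ (pr i j) a.1
    · obtain ⟨i, j, e⟩ := e
      exact (congrArg ψ (h7 e a.2)).trans (h8 e a.2)
    · have := PresentedGroup.one_of_mem (rels := D.curtisTitsRels K) (.inl (.inl (.inl
        ⟨a.1, a.2, a.1.2, fun i j e' => e ⟨⟨i, e'.2.1⟩, ⟨j, e'.2.2.1⟩, (h0 _ _ _).1 e'⟩, rfl⟩)))
      rw [map_stX'] at this
      rw [show PresentedGroup.of a = 1 from this, map_one, map_one]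
  · have e := inJ_simple_iff (R := h.R).2 (show i ∈ pr i i from .inl rfl)
    exact (congrArg _ (h8 e t)).trans (h7 e t)
  · have e := (inJ_simple_iff (R := h.R).2 (show i ∈ pr i i from .inl rfl)).neg
    exact (congrArg _ (h8 e t)).trans (h7 e t)
  · lift r to Fin D.nroots using e.1
    lift i to Fin D.rank using e.2.1
    lift j to Fin D.rank using e.2.2.1
    rw [map_stX']
    exact (h7 ((h0 _ _ _).1 e) t).trans (h.stSys_x K hD' r t)

end Cfsg.Agent.S1164
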