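import Cfsg.Statements.S1300
import Cfsg.Agent.Lib.Sig.Basic
import Cfsg.Agent.Lib.Comp.Local

set_option autoImplicit false
open Cfsg

namespace Cfsg.Agent.S1300

/-- For a finite group G, balance in the sense of commuting involutions is the same as 1-balance for the prime 2. -/
theorem result {G : Type*} [Group G] [Finite G] : Cfsg.IsBalanced G ↔ Cfsg.IsKBalanced 2 1 G := by
  constructor
  · intro h A hA hc b hb hab
    have hA1 : A ≠ ⊥ := by rintro rfl; simp at hc
    obtain ⟨⟨a, ha⟩, h1⟩ := Subgroup.ne_bot_iff_exists_ne_one.1 hA1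
    have h1' : a ≠ 1 := fun h => h1 (Subtype.ext h)
    have := h a b (Lib.PGroup.elemAb_orderOf hA ha h1') hb (hab a ha)
    refine le_trans (inf_le_inf_right _ ?_) (this.le.trans inf_le_left)
    exact iInf_le (fun a : {a : G // a ∈ A ∧ a ≠ 1} => Cfsg.centralizerPPrimeCore 2 (a : G))
      ⟨a, ha, h1'⟩
  · intro h
    have key : ∀ x y : G, orderOf x = 2 → orderOf y = 2 → x * y = y * x →
        Cfsg.centralizerPPrimeCore 2 x ⊓ Subgroup.centralizer {y} ≤
          Cfsg.centralizerPPrimeCore 2 y ⊓ Subgroup.centralizer {x} := by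
      intro x y hx hy hxy
      refine le_inf ?_ (inf_le_left.trans (Lib.Core.pPrimeCoreOf_le 2 _))
      have hx2 : x ^ 2 = 1 := hx ▸ pow_orderOf_eq_one x
      have hm : ∀ a ∈ Subgroup.zpowers x, a ≠ 1 → a = x := by
        intro a ha h1
        classical
        rw [mem_zpowers_iff_mem_range_orderOf, hx] at ha
        simp only [Finset.mem_image, Finset.mem_range] at ha
        obtain ⟨k, hk, rfl⟩ := ha
        interval_cases k
        · simp at h1
        · simp
      refine le_trans (inf_le_inf_right _ ?_) (h (Subgroup.zpowers x)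
        (Lib.PGroup.elemAb_zpowers hx2) (by rw [Nat.card_zpowers, hx]; rfl) y hy ?_)
      · exact le_iInf fun a => by rw [hm a a.2.1 a.2.2]
      · intro a ha
        by_cases h1 : a = 1
        · simp [h1]
        · rw [hm a ha h1, hxy]
    intro x y hx hy hxy
    exact le_antisymm (key x y hx hy hxy) (key y x hy hx hxy.symm)

end Cfsg.Agent.S1300
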