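import Cfsg.Statements.S1297
import Cfsg.Agent.Lib.Comp.Balance
import Cfsg.Agent.S1298
import Cfsg.Agent.S1300

set_option autoImplicit false
open Cfsg

namespace Cfsg.Agent.S1297

/-- Let G be finite. Suppose that for every involution x, writing C = C_G(x), every component K of C / O(C) has K / Z(K) locally balanced. Then G is balanced. -/
theorem result {G : Type*} [Group G] [Finite G] (h : ∀ x : G, orderOf x = 2 → ∀ K : Subgroup (↥(Subgroup.centralizer ({x} : Set G)) ⧸ Cfsg.oddCore ↥(Subgroup.centralizer ({x} : Set G))), Cfsg.IsComponent K → Cfsg.IsLocallyBalanced (↥K ⧸ Subgroup.center ↥K)) : Cfsg.IsBalanced G := by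
  refine (S1300.result (G := G)).2 (S1298.result 2 1 le_rfl fun x hx K hK H hH A hA hc => ?_)
  have hA1 : A ≠ ⊥ := by rintro rfl; simp at hc
  obtain ⟨⟨a, ha⟩, h1⟩ := Subgroup.ne_bot_iff_exists_ne_one.1 hA1
  have h1' : a ≠ 1 := fun h => h1 (Subtype.ext h)
  rw [eq_bot_iff, ← h x hx K hK H hH a (Lib.PGroup.elemAb_orderOf hA ha h1')]
  exact iInf_le (fun a : {a : H // a ∈ A ∧ a ≠ 1} => Cfsg.centralizerPPrimeCore 2 (a : H))
      ⟨a, ha, h1'⟩

end Cfsg.Agent.S1297
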