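import Cfsg.Statements.S1313
import Cfsg.Agent.Lib.Comp.GenFitting

set_option autoImplicit false
open Cfsg

namespace Cfsg.Agent.S1313

/-- For a finite group H, |H| ≤ |F*(H)|!. -/
theorem result {H : Type*} [Group H] [Finite H] : Nat.card H ≤ Nat.factorial (Nat.card ↥(Cfsg.generalizedFittingSubgroup H)) := by
  classical
  set F := Cfsg.generalizedFittingSubgroup H with hF
  have : Fintype F := Fintype.ofFinite F
  let φ : H →* Equiv.Perm F := (MulAut.toPerm F).comp (MulAut.conjNormal (H := F))
  have hker : φ.ker ≤ F := by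
    refine le_trans ?_ Cfsg.Lib.Comp.centralizer_genFitting_le
    intro g hg x hx
    have := congrArg (fun σ : Equiv.Perm F => ((σ ⟨x, hx⟩ : F) : H)) (MonoidHom.mem_ker.1 hg)
    have h2 : g * x * g⁻¹ = x := this
    rw [mul_inv_eq_iff_eq_mul] at h2
    exact h2.symm
  have hr : φ.range ≤ MulAction.stabilizer (Equiv.Perm F) (1 : F) := by
    rintro _ ⟨g, rfl⟩
    exact map_one (MulAut.conjNormal (H := F) g)
  have h1 : Nat.card φ.ker * Nat.card φ.range = Nat.card H := by
    rw [← Subgroup.index_ker, Subgroup.card_mul_index]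
  have h2 : (MulAction.stabilizer (Equiv.Perm F) (1 : F)).index = Nat.card F :=
    MulAction.index_stabilizer_of_transitive _ _
  have h3 := (MulAction.stabilizer (Equiv.Perm F) (1 : F)).card_mul_index
  rw [h2, Nat.card_perm] at h3
  rw [← h1, ← h3, mul_comm]
  exact Nat.mul_le_mul (Subgroup.card_le_of_le hr) (Subgroup.card_le_of_le hker)

end Cfsg.Agent.S1313
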