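import Cfsg.Statements.S1349
import Cfsg.Agent.Lib.Comp.Dihedral
import Cfsg.Agent.Lib.Comp.PumpTwo
import Cfsg.Agent.Lib.PGroup.RankOne

set_option autoImplicit false
open Cfsg

namespace Cfsg.Agent.S1349

open Subgroup Cfsg.Lib Cfsg.Lib.BG Cfsg.Lib.Core Cfsg.Lib.Comp
open scoped Cfsg.Lib.Transfer commutatorElement

/-- Let G be finite, L ≤ G solvable of odd order, and A an elementary abelian 2-subgroup of order 2^d (d ≥ 1) normalizing L with C_A(L) = 1. Then there are subgroups A_1, …, A_d of A of order 2 generating A and subgroups L_1, …, L_d of L such that each A_i ⊔ L_i is dihedral of order 2 n_i with n_i odd and at least 3, and A_i ⊔ L_i commutes elementwise with A_j ⊔ L_j for i ≠ j. -/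
theorem result {G : Type*} [Group G] [Finite G] (L A : Subgroup G) (hLs : Group.IsSolvable ↥L) (hLodd : Odd (Nat.card ↥L)) (hA : Cfsg.IsElementaryAbelian 2 A) (d : ℕ) (hd : 1 ≤ d) (hAd : Nat.card ↥A = 2 ^ d) (hAL : A ≤ Subgroup.normalizer (L : Set G)) (hfaith : A ⊓ Subgroup.centralizer (L : Set G) = ⊥) : ∃ (Ai : Fin d → Subgroup G) (Li : Fin d → Subgroup G) (n : Fin d → ℕ), (∀ i, Ai i ≤ A ∧ Nat.card ↥(Ai i) = 2 ∧ Li i ≤ L ∧ Odd (n i) ∧ 3 ≤ n i ∧ Nonempty (↥(Ai i ⊔ Li i) ≃* DihedralGroup (n i))) ∧ (⨆ i, Ai i) = A ∧ ∀ i j, i ≠ j → ∀ x ∈ Ai i ⊔ Li i, ∀ y ∈ Ai j ⊔ Li j, x * y = y * x := by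
  have ho := odd_iff_piGrp.1 hLodd
  obtain ⟨V, h1, h2, h3, h4⟩ := exists_abelian_faithful hA hLs ho hAL
  have hVL := h1.trans (Fitting_le L)
  obtain ⟨a, v, C, g1, g2, g3, g4, g5, g6, g7, g8⟩ := exists_dual_system hA h2 (ho.of_le hVL) h3
    (eq_bot_mono hfaith (le_inf inf_le_left h4)) hAd.ge
  have hC : C = ⊥ := by
    rw [hAd] at g7
    exact card_eq_one.1 (Nat.eq_of_mul_eq_mul_left (by positivity) (g7.trans (mul_one _).symm))
  have hne := fun i => inv_ne_of_odd (ho.of_le hVL) (g2 i).1 (g2 i).2.1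
  have hodd : ∀ i, Odd (orderOf (v i)) := fun i =>
    hLodd.of_dvd_nat (Subgroup.orderOf_dvd_natCard L (hVL (g2 i).1))
  refine ⟨fun i => zpowers (a i), fun i => zpowers (v i), fun i => orderOf (v i), fun i =>
    ⟨zpowers_le.2 (g1 i), ?_, zpowers_le.2 (hVL (g2 i).1), hodd i, ?_, ?_⟩,
    le_antisymm (iSup_le fun i => zpowers_le.2 (g1 i)) (by rwa [hC, sup_bot_eq] at g8),
    fun i j hij => le_cent_iff.1 ?_⟩
  · rw [Nat.card_zpowers]
    exact PGroup.elemAb_orderOf hA (g1 i) fun e => hne i (by rw [← g3 i, e]; simp)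
  · obtain ⟨k, hk⟩ := hodd i
    have : orderOf (v i) ≠ 1 := fun e => (g2 i).2.1 (orderOf_eq_one_iff.1 e)
    change 3 ≤ orderOf (v i)
    omega
  · rw [sup_comm]
    refine PGroup.nonempty_sup_mulEquiv_dihedral rfl (hA.2 _ (g1 i)) (g3 i) fun h => hne i ?_
    rw [← g3 i, mem_cent1.1 ((cent_zpowers (v i)).le (abelian_cent inferInstance h)), mul_inv_cancel_right]
  · rw [cent_sup, cent_zpowers, cent_zpowers]
    exact sup_le (zpowers_le.2 ⟨mem_cent1.2 (PGroup.elemAb_comm hA (g1 i) (g1 j)), g4 i j hij⟩)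
      (zpowers_le.2 ⟨mem_cent1_symm (g4 j i hij.symm), cent_le_cent1 (g2 j).1
        (abelian_cent h2 (g2 i).1)⟩)

end Cfsg.Agent.S1349
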