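import Cfsg.Statements.S5560
import Cfsg.Agent.Lib.ThreeTr.Structure
import Cfsg.Agent.Lib.ZStar.Main
import Cfsg.Agent.Lib.Coprime.Sylow
import Cfsg.Agent.Lib.Coprime.Nilpotent

set_option autoImplicit false
open Cfsg

namespace Cfsg.Agent.S5560

open Cfsg.Lib Cfsg.Lib.ThreeTr

/-- A Z*-type result for an odd prime p. Let G be a finite group and d an involution of G such that the product of any two conjugates of d has order a power of p. Then the product of any two conjugates of d lies in the largest normal p-subgroup O_p(G); in other words the conjugacy class of d lies in the coset O_p(G)d, and d is central modulo O_p(G). -/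
theorem result {G : Type*} [Group G] [Finite G] {p : ℕ} (hp : p.Prime) (hp2 : p ≠ 2)
    (d : G) (hd : orderOf d = 2)
    (hprod : ∀ a ∈ conjugatesOf d, ∀ b ∈ conjugatesOf d, ∃ k : ℕ, orderOf (a * b) = p ^ k) :
    ∀ a ∈ conjugatesOf d, ∀ b ∈ conjugatesOf d, a * b ∈ Cfsg.pCore p G := by
  have : Fact p.Prime := ⟨hp⟩
  have sd := mul_self_of_orderOf_two hd
  have hD : ∀ g : G, g * d * g⁻¹ ∈ conjugatesOf d := fun g => isConj_iff.2 ⟨g, rfl⟩
  have hdD : d ∈ conjugatesOf d := IsConj.refl d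
  have hsq : ∀ g : G, g * d * g⁻¹ * (g * d * g⁻¹) = 1 := fun g => by
    simp [mul_assoc, sq_cancel_left sd]
  have hpow : ∀ g : G, ∀ n : ℕ, n.Coprime p → (d * (g * d * g⁻¹)) ^ n = 1 → g * d * g⁻¹ = d := by
    intro g n hn h
    obtain ⟨k, hk⟩ := hprod d hdD _ (hD g)
    have := eq_one_of_pow_coprime (hn.pow_right k) h (hk ▸ pow_orderOf_eq_one _)
    rw [mul_eq_one_iff_eq_inv, inv_eq_of_sq (hsq g)] at this
    exact this.symm
  have hiso : IsIsolatedInvolution d := ⟨hd, fun g hc => hpow g 2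
    ((Nat.coprime_primes Nat.prime_two hp).2 hp2.symm) ((commute_iff_mul_sq sd (hsq g)).1 hc)⟩
  have hN : ∀ g : G, d * (g * d * g⁻¹) ∈ oddCore G := fun g => by
    have := ZStar.zstar hiso g
    rw [inv_eq_of_sq sd] at this
    simpa only [mul_assoc] using this
  have hS : ∀ q : ℕ, [Fact q.Prime] → ∃ P : Subgroup G, P ≤ oddCore G ∧ IsPGroup q P ∧
      ¬ q ∣ P.relIndex (oddCore G) ∧ Subgroup.zpowers d ≤ Subgroup.normalizer (P : Set G) :=
    fun q _ => Coprime.exists_invariant_sylowIn q Subgroup.le_normalizer_of_normal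
      (by rw [Nat.card_zpowers, hd]; exact (Core.odd_card_oddCore G).coprime_two_left)
      (Or.inl (Group.isSolvable_of_comm fun a b => mul_comm' a b))
  obtain ⟨P, hPN, hP, hPi, hPd⟩ := hS p
  have hcop : (P.relIndex (oddCore G)).Coprime
      ((Subgroup.centralizer {d}).relIndex (oddCore G)) := by
    refine Nat.coprime_of_dvd fun q hq h1 h2 => ?_
    have : Fact q.Prime := ⟨hq⟩
    obtain ⟨Q, -, hQ, hQi, hQd⟩ := hS q
    refine hQi (h2.trans (Subgroup.relIndex_dvd_of_le_left _ fun u hu => ?_))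
    obtain ⟨k, hk⟩ := Core.isPGroup_subgroup_iff.1 hQ _
      (mul_conj_mem_of_normalizer sd (hQd (Subgroup.mem_zpowers d)) hu)
    have := hpow u _ (((Nat.coprime_primes hq hp).2 fun h => hPi (h ▸ h1)).pow_left k) hk
    exact Subgroup.mem_centralizer_singleton_iff.2 (mul_inv_eq_iff_eq_mul.1 this)
  have key : ∀ a ∈ conjugatesOf d, d * a ∈ P := by
    intro a ha
    obtain ⟨g, rfl⟩ := isConj_iff.1 ha
    obtain ⟨k, hk⟩ := hprod _ ha d hdD
    obtain ⟨m, hm⟩ := ZStar.exists_pow_conj_of_odd (hsq g) sd (hk ▸ (hp.odd_of_ne_two hp2).pow)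
    have h1 : g * d * g⁻¹ * d ∈ oddCore G := by
      have := inv_mem (hN g)
      rwa [mul_inv_rev, inv_eq_of_sq (hsq g), inv_eq_of_sq sd] at this
    obtain ⟨x, hx, y, hy, hxy⟩ := Coprime.exists_mul_of_coprime_relIndex hPN hcop (pow_mem h1 m)
    rw [← hm, hxy, mul_inv_rev, mul_assoc x, Subgroup.mem_centralizer_singleton_iff.1 hy]
    have := mul_conj_mem_of_normalizer sd (hPd (Subgroup.mem_zpowers d)) hx
    simpa [mul_assoc] using this
  let K := Subgroup.closure {t | ∃ a ∈ conjugatesOf d, ∃ b ∈ conjugatesOf d, t = a * b}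
  have hK : K.Normal := by
    apply Core.normal_of_top_le_normalizer
    intro g _
    apply Core.mem_normalizer_of_map_conj_le
    rw [MonoidHom.map_closure, Subgroup.closure_le]
    rintro _ ⟨_, ⟨a, ha, b, hb, rfl⟩, rfl⟩
    exact Subgroup.subset_closure ⟨g * a * g⁻¹, IsConj.trans ha (isConj_iff.2 ⟨g, rfl⟩),
      g * b * g⁻¹, IsConj.trans hb (isConj_iff.2 ⟨g, rfl⟩), by simp [mul_assoc]⟩
  have hKP : K ≤ P := by
    rw [Subgroup.closure_le]
    rintro _ ⟨a, ha, b, hb, rfl⟩
    have := mul_mem (inv_mem (key a ha)) (key b hb)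
    obtain ⟨g, rfl⟩ := isConj_iff.1 ha
    rwa [mul_inv_rev, mul_assoc, inv_mul_cancel_left, inv_eq_of_sq (hsq g)] at this
  intro a ha b hb
  exact Core.le_pCore hK (hP.to_le hKP) (Subgroup.subset_closure ⟨a, ha, b, hb, rfl⟩)

end Cfsg.Agent.S5560
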