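import Cfsg.Statements.S1620
import Cfsg.Agent.Lib.J2.Basic

set_option autoImplicit false
open Quaternion
open Cfsg

namespace Cfsg.Agent.S1620

open Cfsg.Lib.J2

/-- The Hall–Janko group is simple and non-abelian. -/
theorem result : IsSimpleGroup Cfsg.Spor.J2 ∧ ∃ a b : Cfsg.Spor.J2, a * b ≠ b * a := by
  obtain ⟨a, b, h⟩ := exists_noncomm
  exact ⟨inferInstance, eJ.symm a, eJ.symm b, fun e => h (eJ.symm.injective (by rwa [map_mul, map_mul]))⟩

end Cfsg.Agent.S1620
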