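import Cfsg.Statements.S1651
import Cfsg.Agent.Lib.Mod.J2
import Cfsg.Agent.Lib.Grp.MatC
import Cfsg.Agent.S1665

set_option autoImplicit false
open Cfsg

namespace Cfsg.Agent.S1651

set_option maxRecDepth 100000
open Cfsg.Lib Cfsg.Lib.Calc Cfsg.Lib.F2 Cfsg.Lib.Grp Cfsg.Lib.Mod.J2

namespace K

/-- vectors -/
noncomputable def V : ℕ := nat_lit 0xa468990238876027e5f067996535454a90f418fd364be2d4ac2206d1905b124400b825
/-- matrices -/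
def As : List ℕ := [233143833, 202864234]
/-- their tables -/
noncomputable def D0 : List ℕ := [nat_lit 0x6406ed0ae8b0665a196d565f8024f1dc895, nat_lit 0x33571bd3254681442b9d89b6310a7c4dcb]
/-- a chain -/
noncomputable def ch : List Grp.Lv := [⟨0, 28, 2, 675985637947839827487208229647392, [4, 5, 6, 7, 8, 9, 0]⟩, ⟨1, 27, 2, 412071633327812250156575895995392, [10, 11, 12, 13, 14, 15]⟩, ⟨2, 2, 1, 4096, [16]⟩, ⟨4, 4, 3, 1208925819896108446384128, [17]⟩]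
/-- the base -/
def bs : List ℕ := [0, 1, 2, 4]

theorem cL : linK (3 ^ 2) (adQ 3) (muQ 3 2) 3 28 5 10 V (suOK (3 ^ 2) (adQ 3) (muQ 3 2) 3 3 20) As D0 = true := by decide +kernel

theorem cC : chnK 28 5 (get 5) (get 4) 6048 D0 [([0], 6), ([1], 2), ([3, 0, 0], 1), ([3, 0, 0, 0], 1), ([3, 2], 1), ([3, 2, 3], 1), ([0, 0], 1), ([3, 0, 3], 1), ([2, 2, 2, 3, 0, 3], 1), ([0, 1, 0, 3, 2, 2, 1, 0], 1), ([2, 1, 0, 1, 0, 0, 0], 1), ([0, 1, 2, 1, 2, 2, 3, 2], 1), ([3, 2, 1, 2, 3, 0, 1, 0], 1), ([1, 0, 1, 0, 0], 1), ([2, 1, 2, 3, 0, 1, 0, 1, 2, 1], 1), ([0, 1, 0, 1, 2, 2, 2], 1)] ch = true := by decide +kernel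
/-- words for the elements of the dictionary -/
def ws : List (List ℕ × ℕ) := [([0], 6), ([1], 2), ([3, 0, 0], 1), ([3, 0, 0, 0], 1), ([3, 2], 1), ([3, 2, 3], 1), ([0, 0], 1), ([3, 0, 3], 1), ([2, 2, 2, 3, 0, 3], 1), ([0, 1, 0, 3, 2, 2, 1, 0], 1), ([2, 1, 0, 1, 0, 0, 0], 1), ([0, 1, 2, 1, 2, 2, 3, 2], 1), ([3, 2, 1, 2, 3, 0, 1, 0], 1), ([1, 0, 1, 0, 0], 1), ([2, 1, 2, 3, 0, 1, 0, 1, 2, 1], 1), ([0, 1, 0, 1, 2, 2, 2], 1), ([0, 1, 0, 1, 0, 3, 0, 1, 2, 3, 2], 1), ([2, 1, 0, 0], 1), ([0, 3, 0, 0, 0, 1, 0, 1, 0], 1), ([2, 1, 2, 2, 2, 1, 0, 1, 0, 3, 0], 1), ([2, 2, 2, 3, 0, 1, 0, 0, 0, 3], 1), ([0, 0, 0, 3, 2, 3, 2], 1), ([2, 2, 3, 0], 1), ([2, 3, 2, 3, 2, 2, 2, 1, 2], 1), ([2, 1, 2, 3, 2, 3, 0, 0, 0, 3, 0], 1), ([1, 2, 2, 2, 3, 2, 1, 0, 0, 0], 1)]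

end K

/-- edges -/
noncomputable def t1 : ℕ := nat_lit 0x1202202212010112220012002220020000000022120202002210002100212120221100121202201211012020221111102020
/-- edges -/
noncomputable def t2 : ℕ := nat_lit 0x100000011000022200021000020010000000020020201000020000200201000000000202100002101012000001121001000
/-- words for the elements of the dictionary -/
def ws : List (List ℕ × ℕ) := [([0], 4), ([2, 1, 0, 1, 0, 1, 0, 0, 1, 0, 0, 1, 2, 1, 0, 0, 1, 2, 2], 1), ([2, 2, 1, 0, 0, 1, 0, 0, 1, 0, 0, 1, 2, 1, 0, 0, 1, 0, 0, 1, 2], 1), ([1, 2, 2, 1, 2, 1, 2, 1, 2, 2, 1, 0, 1, 2, 1, 0, 0, 1, 0], 1), ([0, 1, 0, 0, 1, 0, 0, 1, 0, 1, 2, 1, 0, 1, 0, 0, 1, 0, 1, 2, 1], 1), ([2, 2, 1, 2, 1, 2, 1, 2, 2, 1, 0, 1, 0, 1, 2, 1, 0, 0, 1, 2, 2, 1], 1), ([0, 1, 2, 2, 1, 2, 1, 0, 0, 1, 0, 0, 1, 2, 1, 0, 0, 1, 2, 2, 1, 2, 2], 1), ([0, 1, 2, 2, 1, 2, 2, 1,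 0, 1, 2, 2, 1, 2, 2, 1, 2, 2, 1, 0, 0], 1), ([2, 1, 2, 2, 1, 0, 1, 2, 1, 0, 0, 1, 0, 1, 0, 1, 0, 0, 1], 1), ([1, 0, 1, 2, 1, 2, 2, 1, 2, 1, 0, 1, 2, 1, 2, 2, 1, 2, 2, 1, 2], 1), ([1, 0, 0, 1, 2, 2, 1, 0, 1, 2, 1, 2, 1, 0, 0, 1, 0, 1, 0, 1, 0, 0], 1), ([0, 0, 1, 0, 0, 1, 2, 2, 1, 0, 1, 2, 2, 1, 2, 2, 1, 0, 1, 0, 0, 1, 2], 1), ([0, 1, 2, 1, 2, 2, 1, 2, 1, 0, 0, 1, 0, 1, 0, 0, 1, 2, 1, 2, 1, 2], 1), ([1, 2, 1, 0, 0, 1, 0, 1, 0, 1, 2, 2, 1, 2, 1, 0, 0, 1, 0, 1, 2, 1], 1), ([1, 0, 1, 2, 1, 2, 1, 0, 0, 1, 2, 1, 2, 1, 2, 2, 1, 2, 1, 2, 1, 0, 1], 1)]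
theorem c1 : litK 100 7 (get 7) D0 ws (fun D => litK 28 5 (get 5) K.D0 K.ws fun E =>
    band (lowG 100 (get 7) (get 4) D bs [3, 4] [(14, [4, 3, 4, 3, 4, 4, 4, 3]), (15, [4, 3, 4, 4, 4, 3, 3, 4, 3, 4]), (16, [15, 15, 15, 14, 14, 15, 14, 14, 15])]
    [⟨0, 63, 11, t1, [0, 1]⟩, ⟨1, 32, 6, t2, [2, 3]⟩, ⟨2, 3, 2, 474284397516047136454946754595585670566993857190463750305618264096693653981888512, [4]⟩] 6048)
    (homChk 28 100 7 (get 5) (get 7) (get 7) (get 4) E D K.bs bs [18, 19, 20, 21, 22, 23, 24, 25, 26, 27, 17] [3, 4, 5, 6, 7, 8, 9, 10, 11, 12, 13] 2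
    [⟨⟨0, 28, 10, 670756186386801998445627505254928, [0, 1]⟩, [0, 6], 0, 0, 0⟩,
    ⟨⟨1, 27, 6, 367782742310483500226051660914944, [2, 3]⟩, [7, 8], 0, 0, 0⟩,
    ⟨⟨2, 2, 1, 4096, [4]⟩, [9], 0, 0, 0⟩,
    ⟨⟨4, 4, 3, 1208925819896108446384128, [5]⟩, [10], 0, 0, 0⟩]
    [[[0, 1, 1, 0, 1, 0, 1, 1, 0, 1, 1, 0, 0, 1, 1, 0, 1], [0, 1, 1, 0, 1, 0, 1, 0, 1, 0]], [[0, 0, 0, 0, 1, 0, 0, 0, 0, 1, 0]], [[0, 0, 0, 0, 0, 0]], []] 6048)) = true := by decide +kernel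


/-- A group of Hall–Janko type contains U₃(3): let a finite simple group have exactly two conjugacy classes of involutions and an involution t whose centraliser C has a normal extraspecial subgroup Q of order 32 with no elementary abelian subgroup of order 8, whose centraliser in C lies in Q, with C / Q isomorphic to the alternating group of degree 5. Then the group has a subgroup isomorphic to PSU(3, 3), realised over a field with 9 elements. -/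
theorem result {G : Type*} [Group G] [Finite G] [IsSimpleGroup G] (t : G) (ht : orderOf t = 2) (Q : Subgroup (Subgroup.centralizer ({t} : Set G))) [Q.Normal] (hQ : Cfsg.IsExtraspecial 2 Q) (hcard : Nat.card Q = 32) (hminus : ∀ E : Subgroup Q, Cfsg.IsElementaryAbelian 2 E → Nat.card E ≤ 2 ^ 2) (h2c : Subgroup.centralizer (Q : Set (Subgroup.centralizer ({t} : Set G))) ≤ Q) (e : (Subgroup.centralizer ({t} : Set G)) ⧸ Q ≃* alternatingGroup (Fin 5)) (htwo : ∃ x y : G, orderOf x = 2 ∧ orderOf y = 2 ∧ ¬ IsConj x y ∧ ∀ z : G, orderOf z = 2 → IsConj z x ∨ IsConj z y) : ∃ (H : Subgroup G) (K : Type) (_ : Field K) (_ : Fintype K), Fintype.card K = 9 ∧ Nonempty (H ≃* Cfsg.PSU 3 K 3) := by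
  obtain ⟨_, _, _, γ, C⟩ := hasCx (S1665.result t ht Q hQ hcard hminus h2c e htwo) ws
  have := Fintype.ofFinite (GaloisField 3 2)
  have hF : Fintype.card (GaloisField 3 2) = 3 ^ 2 := Nat.card_eq_fintype_card.symm.trans (GaloisField.card 3 2 two_ne_zero)
  obtain ⟨θ, F⟩ := exists_cod_quad (c := 2) hF (by decide)
  obtain ⟨_, _, _, _, K⟩ := F.hasCx_PSU (q₀ := 3) hF (by norm_num) (Nat.eq_of_mul_eq_mul_left (by norm_num : 0 < 4)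
    ((one_mul _).symm.trans ((Unitary.card_PSU (q := 3) (n := 3) hF (by norm_num)).trans (by decide)))) K.cL rfl K.cC K.ws
  have k := band_eq_true.1 (of_litK (of_litK c1))
  have := K.fin
  obtain ⟨a, f, b, -⟩ := K.exists_hom C rfl k.2
  obtain ⟨g⟩ := K.nonempty_equiv C rfl k.2 (C.lowG k.1)
  rw [Subgroup.eq_top_of_le_card _ (K.card.trans_le ((C.lowG k.1).trans (Nat.card_congr g.toEquiv).ge))] at g
  exact ⟨_, _, _, _, hF, ⟨g.symm.trans Subgroup.topEquiv⟩⟩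

end Cfsg.Agent.S1651
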