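import Cfsg.Statements.S1678
import Cfsg.Agent.Lib.T3.CoH

set_option autoImplicit false
open Cfsg

namespace Cfsg.Agent.S1678

open Cfsg.Lib Cfsg.Lib.T3 Cfsg.Lib.T3.Co Subgroup

/-- The third Conway group from an involution centraliser: let G be a finite group with no non-trivial normal subgroup of odd order and trivial centre, having an involution t whose centraliser is a non-split double cover of the symplectic group Sp(6, 2). Then G is isomorphic to the third Conway group (the stabiliser in the Leech lattice automorphism group of a vector of the second shortest length). -/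
theorem result {G : Type*} [Group G] [Finite G] (hO : Cfsg.oddCore G = ⊥) (hZ : Subgroup.center G = ⊥) (t : G) (ht : orderOf t = 2) (hC : Cfsg.IsNonsplitDoubleCover (Subgroup.centralizer ({t} : Set G)) (Matrix.symplecticGroup (Fin 3) (ZMod 2))) : Cfsg.Spor.IsoCo3 G := by
  obtain ⟨e⟩ := sp_equiv
  obtain ⟨σ, a, b⟩ := stem_of_double hC (Agent.S0269.result 3 (Or.inl le_rfl))
  have h1 : t ≠ 1 := by rintro rfl; simp at ht
  refine recog h1 (Schur.isStemExtension_equiv_comp a e) (by
    rwa [← MonoidHom.comap_ker, (MonoidHom.ker_eq_bot_iff _).2 e.injective, MonoidHom.comap_bot]) fun hi => h1 ?_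
  have := McR.sup_of_isolated hi
  rw [hO, sup_bot_eq] at this
  exact mem_bot.1 (hZ.le (mem_center_iff.2 fun g => cms (this.ge (mem_top g))))

end Cfsg.Agent.S1678
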