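import Cfsg.Statements.S1717
import Cfsg.Agent.Lib.T2.LG

set_option autoImplicit false
open Cfsg

namespace Cfsg.Agent.S1717

/-- Let G be a finite group with an involution z whose centraliser C is isomorphic to the centraliser of a transvection of SL(5, 2). Then a Sylow 2-subgroup of C, viewed in G, is a Sylow 2-subgroup of G (its index in G is odd). -/
theorem result {G : Type*} [Group G] [Finite G] (s : Matrix.SpecialLinearGroup (Fin 5) (ZMod 2)) (hs : (s : Matrix (Fin 5) (Fin 5) (ZMod 2)) = Matrix.transvection 0 1 1) (z : G) (hz : orderOf z = 2) (e : (Subgroup.centralizer ({z} : Set G)) ≃* Subgroup.centralizer ({s} : Set (Matrix.SpecialLinearGroup (Fin 5) (ZMod 2)))) (T : Sylow 2 (Subgroup.centralizer ({z} : Set G))) : ¬ 2 ∣ ((T : Subgroup (Subgroup.centralizer ({z} : Set G))).map (Subgroup.subtype (Subgroup.centralizer ({z} : Set G)))).index := by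
  obtain ⟨γ, J, rfl⟩ := Lib.T2.L.exists_LH_of_SL hs hz e
  rintro ⟨k, hk⟩
  have a := Subgroup.card_mul_index ((T : Subgroup (Subgroup.centralizer ({Lib.T2.L.zz γ} : Set G))).map (Subgroup.subtype _))
  have b := Subgroup.card_mul_index (T : Subgroup (Subgroup.centralizer ({Lib.T2.L.zz γ} : Set G)))
  rw [Subgroup.card_subtype, hk] at a
  rw [J.card_cen] at b
  obtain ⟨l, c⟩ : 2 ^ 10 ∣ Nat.card T := (Nat.Coprime.pow_left 10 ((Nat.Prime.coprime_iff_not_dvd Nat.prime_two).2
    T.not_dvd_index)).dvd_of_dvd_mul_right (b ▸ by decide)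
  exact J.sylow ⟨l * k, by rw [← a, c]; ring⟩

end Cfsg.Agent.S1717
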