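import Cfsg.Statements.S1722
import Cfsg.Agent.Lib.Mod.J2
import Cfsg.Agent.Lib.Grp.Loc3
import Cfsg.Agent.S1720

set_option autoImplicit false
open Cfsg

namespace Cfsg.Agent.S1722

set_option maxRecDepth 100000
open Cfsg.Lib Cfsg.Lib.Calc Cfsg.Lib.F2 Cfsg.Lib.Grp Cfsg.Lib.Mod.J2

/-- edges -/
noncomputable def t1 : ℕ := nat_lit 0x7763716241541432566346453316337232523751113544335767445232773142332735271702557312161161114571226163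
/-- edges -/
noncomputable def t2 : ℕ := nat_lit 0x3000410000221000100310004201024000003030001300014310003003010000000400000002040200020030044302000
/-- edges -/
noncomputable def t3 : ℕ := nat_lit 0x30300001001000000000003030010200000300001000010000000000210201002000000000000000022101000000000000
/-- edges -/
noncomputable def t4 : ℕ := nat_lit 0x10000000000000001000000000000000000000000000000100000000000000000000000000000000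
/-- edges -/
noncomputable def t5 : ℕ := nat_lit 0x1112222212112221212222202222122221122122211222221121122122102112111221212102102222221211221212112121
/-- edges -/
noncomputable def t6 : ℕ := nat_lit 0x4243176366174416064253237417521144261371577347741511571225246323147165473172521565726661611321423524
/-- edges -/
noncomputable def t7 : ℕ := nat_lit 0x530514006526301033540000002530063500664102626600311030421041156042000203032000030302260552101041034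
/-- orbit -/
noncomputable def t8 : ℕ := nat_lit 0x18b0dfbd76d59b15eb54a54684f911e3438505f3d78edcb86ed9ab262c172c56a94274c952224278e9b32609911e3868b1424406080c080
/-- edges -/
noncomputable def t9 : ℕ := nat_lit 0x300000000030101001310000001230032000300002312000032030030011230000000000002000020003020003000000003
/-- edges -/
noncomputable def t10 : ℕ := nat_lit 0x1233332312312233033332312210331322233222333331313333332233313332313333313232333113032022331331312233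
/-- edges -/
noncomputable def t11 : ℕ := nat_lit 0x20000000020000120020220220000002020010020000002000000000022000200000200000020002102000012000000
/-- edges -/
noncomputable def t12 : ℕ := nat_lit 0x1100020002200020021212221222112000001020010010100002022020000022220200001210200022002101001221000210
/-- edges -/
noncomputable def t13 : ℕ := nat_lit 0x2000000000002000000000000000000000000000000000000000000000000000010000002000000000000000100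
/-- edges -/
noncomputable def t14 : ℕ := nat_lit 0x1100020002200020021212221222112000001020010010100002022020000022220200001210200022002101001221000210
/-- edges -/
noncomputable def t15 : ℕ := nat_lit 0x2000000000002000000000000000000000000000000000000000000000000000010000002000000000000000100
/-- edges -/
noncomputable def t16 : ℕ := nat_lit 0x1121212111122111222111112122221212222111211212111121222212111121121122111211221212212112121111222110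
/-- classes -/
noncomputable def t17 : ℕ := nat_lit 0x5041110212482089218486141158608a81049c1026d101360a0904108e2184681022c041080000ae102960c12a880a4c4084000030142338a120000100000600000
/-- words for the elements of the dictionary -/
def ws : List (List ℕ × ℕ) := [([0], 4), ([1, 0, 1, 2, 2, 1, 2, 2, 1, 0, 1, 2, 1, 0, 0, 1, 2, 2, 1, 2, 2, 1, 0, 1], 1), ([0, 0, 1, 0, 1, 0, 1, 0, 0, 1, 2, 2, 1, 2, 2, 1, 2, 2, 1], 1), ([1, 0, 0, 1, 0], 1), ([2, 1, 2, 1], 1), ([0, 1, 0, 0], 1), ([2, 1, 2, 2], 1), ([2, 2], 1), ([1, 0, 1], 1), ([2, 1, 2, 2, 1], 1), ([1, 0, 1, 0], 1), ([2, 2, 1, 2], 1), ([0, 0, 1, 0], 1), ([0, 0], 1), ([1, 2, 1], 1), ([1, 0, 1, 0, 1, 2, 1, 0, 0], 1), ([1, 2, 2, 1, 2, 1, 0, 1, 2, 1, 0, 0], 1), ([1, 0, 0, 1, 0, 0, 1], 1), ([0, 1, 2, 2, 1, 2, 2, 1, 0, 1, 2], 1), ([2, 2, 1, 0, 1, 2, 1, 2, 1], 1), ([2, 2, 1, 0, 1, 2, 1, 0, 1, 0, 0, 1], 1), ([1,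 2, 2, 1, 2, 2, 1], 1), ([0, 1, 2, 1, 0, 0, 1, 0, 0, 1, 2], 1), ([2, 1, 0, 0, 1, 2, 2, 1, 2, 1, 0, 1, 2, 1, 2], 1), ([0, 1, 2, 1, 0, 1, 2, 1, 0, 0, 1, 2, 2, 1, 0], 1), ([0, 1, 0, 1, 2, 1, 0, 0, 1, 2, 1, 0, 1, 2], 1), ([0, 1, 0, 1, 2, 1, 0, 1, 0, 0, 1, 2, 2, 1, 0], 1), ([2, 1, 0, 0, 1, 2, 2, 1, 0, 1, 2, 1, 0, 1, 2], 1), ([0, 1, 2, 1, 0, 1, 2, 2, 1, 0, 1, 2, 1, 2], 1), ([1, 0, 1, 0, 0, 1, 2, 1, 0, 1, 0, 0, 1, 0, 1, 2, 1, 0, 0, 1, 0], 1), ([2, 1, 2, 2, 1, 0, 1, 2, 1, 2, 2, 1, 2, 1, 0, 1, 2, 2, 1, 2, 1], 1), ([1, 0, 0, 1, 2, 2, 1, 2, 1, 2, 2, 1, 0, 1, 0, 1, 2, 1, 0, 1, 2, 1], 1), ([0, 1, 0, 0, 1, 0, 0, 1, 2, 2, 1, 2, 2, 1, 2, 1, 2, 2, 1, 2, 1, 0], 1), ([0, 1, 0, 0, 1, 0, 1, 2, 2, 1, 0, 1, 0, 1, 2, 1, 0, 1, 2, 1, 2, 2, 1, 2], 1), ([2, 1, 2, 1, 2], 1), ([2, 1, 0, 0], 1), ([1, 0, 1, 0, 0], 1), ([0, 1, 0, 1, 0], 1), ([2, 2, 1, 0], 1), ([2, 2, 1, 2, 1], 1), ([1,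 2, 1, 0, 1, 0, 1, 0, 0], 1), ([0, 1, 2, 2, 1, 0, 1, 2, 1, 2, 1], 1), ([1, 0, 0, 1, 2, 1, 0, 0, 1, 2, 2, 1], 1), ([1, 0, 0, 1, 0, 1, 2, 1, 0, 1, 2], 1), ([0, 0, 1, 2, 1, 0, 0, 1, 0, 1], 1), ([2, 1, 0, 1, 0, 1, 2, 2, 1, 2, 2], 1), ([2, 2, 1, 2, 1, 2, 1, 0, 1], 1), ([1, 0, 1, 0, 1, 2, 1, 0, 0, 1, 2], 1), ([1, 0, 0, 1, 2, 2, 1, 0, 1, 2, 2, 1], 1), ([0, 1, 2, 1, 0, 1, 2, 1, 2, 2, 1], 1), ([1, 2, 1, 2, 2, 1, 0, 1, 2, 2], 1), ([0, 0, 1, 0, 0, 1, 2, 1, 2, 1, 0], 1), ([1, 0, 1, 2, 1, 0, 1, 0, 1, 2, 1, 2, 2], 1), ([2, 1, 2, 1, 2, 1, 0, 0, 0, 1, 0, 1, 0, 0, 1, 2], 1), ([0, 0, 1, 0, 1, 0, 0, 1, 2, 1, 0], 1), ([0, 0, 1, 0, 1, 2, 1, 2, 1, 0, 1, 2, 1], 1), ([0, 1, 2, 2, 1, 2, 1, 2, 2, 2, 1, 0, 1, 0, 1, 0], 1), ([2, 1, 0, 1, 2, 2, 1, 2, 1, 2, 2], 1), ([2, 2, 1, 2, 2, 1, 0, 0, 1, 2, 1, 2, 1, 2, 2, 1, 0, 0, 1, 2, 1, 0], 1), ([2, 1, 0, 1, 2, 2, 1, 0, 0, 1, 0, 1, 0, 1,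 2, 2, 1, 0, 0, 1, 0, 0], 1), ([1, 2, 1, 0, 1, 0, 0, 1, 0, 0, 1, 0, 1, 2, 1, 2, 2, 1, 0, 1, 0, 1, 0], 1), ([1, 0, 1, 2, 2, 1, 0, 1, 0, 0, 1, 2, 1, 0, 0, 1, 2, 1], 1), ([2, 1, 0, 0, 1, 0, 0, 1, 2, 2, 1, 2, 1, 2, 1, 0, 1, 2, 1, 0], 1), ([0, 1, 0, 0, 1, 0, 0, 1, 0, 1, 0, 1, 2, 1, 2, 2, 1, 2, 2, 1, 2], 1), ([0, 1, 2, 2, 1, 0, 0, 1, 2, 1, 2, 1, 0, 0, 1, 2, 2, 1, 0, 1], 1), ([0, 1, 2, 2, 1, 2, 2, 1, 0, 1, 0, 1, 2, 2, 1, 0, 1, 0, 1, 2, 1], 1), ([1, 2, 1, 2, 2, 1, 2, 2, 1, 0, 1, 0, 1, 0, 0, 1, 0, 1, 0, 0, 1, 2, 1, 0], 1), ([1, 0, 1, 0, 0, 1, 2, 2, 1, 2, 1, 2, 2, 1, 2, 1, 0, 1, 0, 0, 1], 1), ([1, 0, 1, 2, 1, 2, 1, 0, 0, 1, 2, 1, 2, 1, 0, 0, 1, 0, 0, 1, 2], 1), ([1, 2, 2, 1, 2, 1, 0, 1, 0, 0, 1, 0, 1, 0, 0, 1, 2, 2, 1, 2, 1], 1), ([0, 0, 1, 2, 1, 2, 2, 1, 0, 1, 2, 1, 0, 0, 1, 0, 0, 1, 0, 0, 1, 2, 1, 0], 1), ([1, 2, 2, 1, 2, 1, 2, 1, 2, 2, 1, 0, 1, 0, 1, 0, 0,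 1, 0, 1, 0], 1), ([2, 1, 2, 1, 2, 2, 1, 2, 1, 2, 1, 0, 0, 1, 0, 1, 0, 1, 0, 0, 1], 1)]
theorem c1 : litK 100 7 (get 7) D0 ws (fun D =>
    band (pgOK 100 (get 7) (get 4) 5 D bs [3, 4] [(0, [1]), (0, [])]
    [⟨0, 25, 8, t11, [0, 1]⟩])
    (band (cenChk 100 (get 7) (get 4) 604800 D bs [3]
    [⟨⟨25, 100, 3, t1, [5, 6, 7, 8, 9, 10, 1]⟩, [11, 12, 13, 14, 15, 16, 1], 0, 0, 0⟩,
    ⟨⟨43, 36, 3, t2, [17, 18, 19, 20]⟩, [21, 22, 23, 24], 5468708031545640045952274623656733921728291673041492712626142570525860397699, 1, 0⟩,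
    ⟨⟨23, 21, 3, t3, [25, 26, 27]⟩, [28, 29, 30], 136240440728610943129281682275577226051438348, 1, 0⟩,
    ⟨⟨89, 4, 3, t4, [31]⟩, [32], 187948960, 1, 0⟩,
    ⟨⟨72, 1, 0, 0, []⟩, [], 72, 1, 0⟩,
    ⟨⟨3, 2, 1, 91343852333181432387730302044767688728495783936, [33]⟩, [33], 4995, 0, 0⟩,
    ⟨⟨16, 1, 0, 0, []⟩, [], 16, 1, 0⟩]
    [⟨25, 6, t5, [34, 35]⟩, ⟨1, 0, 0, []⟩, ⟨1, 0, 0, []⟩, ⟨1, 0, 0, []⟩, ⟨1, 0, 0, []⟩, ⟨2, 0, 0, []⟩, ⟨1, 0, 0, []⟩] 50)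
    (band (cenChk 100 (get 7) (get 4) 604800 D bs [3, 4]
    [⟨⟨83, 100, 3, t6, [5, 36, 9, 16, 37, 38, 0]⟩, [11, 39, 15, 10, 40, 41, 2], 0, 0, 0⟩,
    ⟨⟨30, 63, 3, t7, [42, 43, 44, 45, 46, 47]⟩, [48, 49, 50, 51, 52, 53], t8, 1, 0⟩,
    ⟨⟨59, 32, 4, t9, [54, 55, 56]⟩, [57, 58, 59], 20787127641930521409285805081115469250687096823606377577828231365760, 1, 1⟩,
    ⟨⟨21, 3, 2, 1532495540865888858363539324008844011247269618512822272, [60]⟩, [61], 740885, 1, 0⟩,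
    ⟨⟨87, 1, 0, 0, []⟩, [], 87, 1, 0⟩]
    [⟨25, 4, t10, [62, 63, 64]⟩, ⟨1, 0, 0, []⟩, ⟨1, 0, 0, []⟩, ⟨1, 0, 0, []⟩, ⟨1, 0, 0, []⟩] 25)
    (band (cmOK (get 7) D bs [3, 4] [3, 4])
    (band (nrmW (get 7) D bs [3, 4] [(66, [[3], [4, 4, 4, 4, 3, 3, 3, 3]]), (67, [[4, 4, 3, 3, 3, 3], [4]])])
    (band (lowG 100 (get 7) (get 4) D bs [66, 67] [(68, [67, 66, 67, 67, 67, 67, 66, 67, 67, 66, 66, 67, 67, 66, 67, 66, 66]), (69, [67, 67, 67, 67, 66, 67, 66, 67, 67, 67])]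
    [⟨0, 50, 8, t12, [0, 1]⟩, ⟨1, 6, 2, t13, [2, 3]⟩] 300)
    (band (schChk 100 (get 7) (get 4) D bs [66, 67]
    [⟨⟨0, 50, 8, t14, [66, 67]⟩, [66, 70], 0, 0, 0⟩,
    ⟨⟨1, 6, 2, t15, [68, 69]⟩, [68, 71], 0, 0, 0⟩]
    [[[1, 1, 1, 0, 1, 0, 1, 1, 1, 0, 1, 1, 1, 1, 0, 1, 0], [1, 1, 0, 1, 0, 0, 0, 0, 1, 1, 0, 0, 0, 1]], []] 300)
    (band (cmOK (get 7) D bs [4] [72, 73])
    (band (lowG 100 (get 7) (get 4) D bs [72, 73] [(74, [72, 72, 72, 72, 72, 73, 73])]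
    [⟨0, 100, 12, t16, [0, 1]⟩, ⟨2, 3, 2, 105312291668557186697918027683670432318896304326368725883485683712, [2]⟩] 300)
    (band (ordP (get 7) D bs 5 4)
    (band (ordP (get 7) D bs 5 3)
    (band (weq (get 7) D bs [65] [4, 4])
    (band (weq (get 7) D bs [64] [3, 3])
    (band (memW (get 7) D bs [3, 4] [3] [3])
    (clsOK (get 7) 5 5 D bs [3, 4] [66, 67] [4, 65, 3, 64] [[]] (get 21 t17) 0 25))))))))))))))) = true := by decide +kernel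


/-- Sylow 5-structure of a group of Hall–Janko type (large-extraspecial hypothesis with Q of order 32, quotient Ω⁻(4, 2), z not weakly closed in Q, more than one class of involutions): a Sylow 5-subgroup P is its own centraliser, has order 25, its normaliser has order 300, and the subgroups of order 5 fall into exactly two conjugacy classes. -/
theorem result {G : Type*} [Group G] [Finite G] (z : G) (hz : orderOf z = 2) (Q : Subgroup (Subgroup.centralizer ({z} : Set G))) [Q.Normal] (hF : Cfsg.generalizedFittingSubgroup (Subgroup.centralizer ({z} : Set G)) = Q) (hQ : Cfsg.IsExtraspecial 2 Q) (hcard : Nat.card Q = 2 ^ 5) (e : (Subgroup.centralizer ({z} : Set G)) ⧸ Q ≃* Cfsg.Omega (ZMod 2) (Cfsg.quadFormMinus 1 (ZMod 2) 1 1)) (hnwc : ∃ g : G, (∃ hq : g * z * g⁻¹ ∈ Subgroup.centralizer ({z} : Set G), (⟨g * z * g⁻¹, hq⟩ : Subgroup.centralizer ({z} : Set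 G)) ∈ Q) ∧ g * z * g⁻¹ ≠ z) (hcl : ∃ x y : G, orderOf x = 2 ∧ orderOf y = 2 ∧ ¬ IsConj x y) (P : Sylow 5 G) : Subgroup.centralizer ((P : Subgroup G) : Set G) = P ∧ Nat.card P = 25 ∧ Nat.card (Subgroup.normalizer ((P : Subgroup G) : Set G)) = 300 ∧ ∃ X Y : Subgroup G, Nat.card X = 5 ∧ Nat.card Y = 5 ∧ (∀ g : G, X.map (MulAut.conj g).toMonoidHom ≠ Y) ∧ ∀ W : Subgroup G, Nat.card W = 5 → ∃ g : G, W.map (MulAut.conj g).toMonoidHom = X ∨ W.map (MulAut.conj g).toMonoidHom = Y := by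
  obtain ⟨_, _, _, _, C⟩ := Lib.Mod.J2.hasCx (S1720.result z hz Q hF hQ hcard e hnwc hcl) ws
  have : Fact (Nat.Prime 5) := ⟨by norm_num⟩
  have h := of_litK c1
  simp only [band_eq_true] at h
  obtain ⟨h1, h2, h3, h4, h5, h6, h7, h8, h9, h10, h11, h12, h13, h14, h15⟩ := h
  obtain ⟨_, γ, C, g⟩ := C.exists_sylow (C.pgp (by norm_num) h1) (by decide) P
  have p := C.pgp (by norm_num) h1
  have d := index_normalizer_mod P
  have c := gset_one (γ := γ) _ ▸ C.card_cen_le h2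
  rw [g] at d ⊢
  refine ⟨centralizer_gsub_eq (C.cmOK h4) ((C.card_cen_le h3).trans p.card.ge), p.card, ?_, exists_two_classes
    (C.ordP h10) (C.ordP h11) (.of_card (c.trans_lt (((C.lowG h9).trans (Subgroup.card_le_of_le
      (gsub_le.2 (gset_one (γ := γ) _ ▸ C.cmOK h8)))).trans_lt' (by norm_num))))
    (fun _ => C.exists_isConj p (by decide) (by decide) h15) ?_⟩
  · have a := card_normalizer_le' (by simpa using C.memW h14) (ncard_conj_le (P := gsub γ [3, 4]) fun e => by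
      simpa [e] using C.ordP h11) c
    obtain ⟨k, b⟩ := Subgroup.card_dvd_of_le (gsub_le.2 (C.nrmW h5))
    erw [(C.card_gsub_le h7).antisymm (C.lowG h6)] at b
    rw [p.card, b] at a
    rw [C.card, b] at d
    rw [b, (by decide : ∀ k ≤ 4, 604800 / (300 * k) % 5 = 1 → k = 1) k (by simp only [List.length] at a; omega) d]
  · have a := C.weq h12
    have b := C.weq h13
    simp only [wd_cons, wd_nil, mul_one] at a b
    simp [a, b, mul_mem]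

end Cfsg.Agent.S1722
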