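import Cfsg.Statements.S1723
import Cfsg.Agent.Lib.Mod.J2
import Cfsg.Agent.Lib.PLocal.QdFacts
import Cfsg.Agent.S1720

set_option autoImplicit false
open Cfsg

namespace Cfsg.Agent.S1723

set_option maxRecDepth 100000
open Cfsg.Lib Cfsg.Lib.Calc Cfsg.Lib.F2 Cfsg.Lib.Grp Cfsg.Lib.Mod.J2

/-- edges -/
noncomputable def t1 : ℕ := nat_lit 0x1511756154372267423317147627412424157105443717363534172637372252736432114665152243431472536166566372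
/-- edges -/
noncomputable def t2 : ℕ := nat_lit 0x2430140000000421601500034420540521034404000002241300352621065066202550435540020413501200031003305106
/-- orbit -/
noncomputable def t3 : ℕ := nat_lit 0x18f161bf7ab55a94e8d09d325ca931e344870a03f7cf1b3568cd92f5cb562b54a13a5488d0a03e74e1b3464b14264888f1c284860a0c100
/-- edges -/
noncomputable def t4 : ℕ := nat_lit 0x330030000000200000000023300000000000303000001012000200211011002002030110010030102200000010003000001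
/-- edges -/
noncomputable def t5 : ℕ := nat_lit 0x10000000000000000000000000000000000000000000000000000000000000000000000010000000000000000000000
/-- edges -/
noncomputable def t6 : ℕ := nat_lit 0x2021222222121122121112212222122212122201121121212111122112202201012212011102221222212112221212221112
/-- edges -/
noncomputable def t7 : ℕ := nat_lit 0x2000000000000000000000100000002000000000000000000000000000020000000002020000000000002000001000000000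
/-- edges -/
noncomputable def t8 : ℕ := nat_lit 0x2121122220000100002000200000022020000100020000000100000110010021020002012200022000002100002220000000
/-- edges -/
noncomputable def t9 : ℕ := nat_lit 0x20000000000000000000000000000010010000000000000000000000000000000200000000000000001000
/-- classes -/
noncomputable def t10 : ℕ := nat_lit 0x58208ac1024a2022c8611041089a384530c2220411408088a2844e1c22b881120608a23045a0c2210c112c708a8204491422204090c1085820441041200000bc50880000400000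
/-- words for the elements of the dictionary -/
def ws : List (List ℕ × ℕ) := [([0], 4), ([2, 1, 0, 1, 0, 1, 2, 2, 1, 0, 0, 1, 0, 0, 1, 2, 2, 1, 0, 1, 0, 0, 1], 1), ([2, 1, 2, 2, 1, 0, 1, 0, 0, 1, 2, 1, 0, 0, 1, 2, 1, 2, 2, 1, 0, 0], 1), ([2, 2, 1, 2, 2, 1, 0, 1, 0, 0, 1, 2, 1, 0, 1, 2, 1, 2, 2, 1, 0, 0, 1, 2], 1), ([1, 0, 1, 0, 0], 1), ([1, 0, 1], 1), ([2, 1, 2], 1), ([1, 2], 1), ([0, 1, 2, 2], 1), ([2, 1, 0], 1), ([2, 2, 1, 2, 1], 1), ([1, 2, 1], 1), ([0, 1, 0], 1), ([0, 1], 1), ([0, 0, 1, 2], 1), ([1, 2, 1, 0, 1, 0, 1, 2, 1, 0, 0], 1), ([0, 1, 0, 1, 2, 1, 0, 0, 1, 0, 0, 1], 1), ([2, 1, 0, 1, 2, 1, 2, 2, 1, 0, 1], 1), ([0, 1, 0, 1, 0, 0, 0, 1, 0, 1, 2], 1), ([0, 1, 0, 0, 1, 0, 1, 2, 2], 1), ([0, 0, 1, 2, 1, 2, 2, 1, 2], 1), ([2, 2, 1, 0, 1, 2, 1, 2, 1, 0, 1], 1), ([1, 2, 2, 1, 2, 2, 1, 0, 1, 2, 1, 2], 1), ([1, 2, 1, 0, 0, 1, 0, 1, 2, 1, 0], 1), ([0, 1,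 2, 1, 2, 2, 2, 1, 2, 1, 2], 1), ([1, 0, 1, 2, 1, 2, 2, 1, 0, 1, 2, 1, 2, 2, 1, 0, 0, 1, 0, 1], 1), ([1, 2, 1, 0, 0, 1, 2, 1, 2, 1, 0, 1, 2, 1, 0, 1, 0], 1), ([1, 2, 1, 2, 2, 1, 2, 2, 1, 0, 1, 2, 1, 2, 2], 1), ([1, 2, 1, 2, 2, 1, 0, 0, 1, 0, 1, 2, 1, 0, 0, 1, 0, 1, 2, 1], 1), ([2, 1, 2, 1, 0, 1, 2, 1, 0, 1, 0, 1, 2, 2, 1, 0, 1], 1), ([0, 0, 1, 0, 1, 2, 1, 0, 0, 1, 0, 0, 1, 0, 1], 1), ([2, 2, 1, 0, 0, 1, 0, 1, 2, 2, 1, 0, 1, 2, 2, 1, 2, 1, 0, 0, 1, 0], 1), ([2, 1, 2, 2, 1, 2, 1, 0, 1, 2, 2, 1, 2, 2, 1, 0, 1, 0, 0, 1, 2, 2, 1], 1), ([2, 2, 1, 2, 1, 0, 0, 1, 2, 2, 1, 2, 1, 0, 0, 1, 2, 1, 2, 1, 0], 1), ([1, 2, 1, 2, 1, 0, 0, 1, 0, 1, 0, 1, 2, 1, 0, 1, 2, 1, 0, 0, 1, 2, 2], 1), ([2, 1, 0, 0, 1, 0, 0, 1, 2, 2, 1, 0, 1, 2, 1, 2, 1, 2, 2, 1, 0, 1, 0], 1), ([1, 2, 1, 0, 1, 2, 1, 2, 1, 0, 0, 1, 0, 1, 0, 0, 1, 2], 1), ([1, 0, 0, 1, 0, 0, 1, 2, 2, 1, 2, 2, 1, 0, 1,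 2, 1, 2, 1, 2, 2, 1, 2, 1], 1), ([0, 1, 0, 1, 0, 0, 1, 2, 1, 0, 0, 1, 2, 1, 0, 0, 1, 0, 1, 2, 1, 2, 2], 1), ([1, 0, 1, 0, 0, 1, 2, 1, 2, 2, 1, 2, 2, 1, 2, 1, 0, 1, 0, 0, 1, 0], 1), ([], 1), ([1, 0, 1, 0, 0, 1, 0, 1, 0, 1, 2, 1, 0, 0, 1, 0, 0, 1, 2, 2, 1, 2, 2, 1], 1), ([0, 0, 1, 0, 1, 2, 1, 2, 2, 1, 0, 1, 2, 2, 1, 0, 1, 2, 2, 1, 2, 1, 2], 1), ([2, 1, 2, 2, 1, 2, 1, 0, 1, 0, 0, 1, 0, 0, 1, 0, 1, 2, 2, 1, 2, 1], 1)]
theorem c1 : litK 100 7 (get 7) D0 ws (fun D =>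
    band (pgOK 100 (get 7) (get 4) 3 D bs [3, 4, 5] [(0, [1, 5]), (0, [1]), (0, [])]
    [⟨0, 9, 4, t7, [0, 1]⟩, ⟨1, 3, 2, 1685408042836245288677227185234366254728567210375194175034812792832, [2]⟩])
    (band (wne (get 7) D bs [3, 5] [5, 3])
    (band (cenChk 100 (get 7) (get 4) 604800 D bs [3]
    [⟨⟨61, 100, 3, t1, [6, 7, 8, 9, 10, 11, 2]⟩, [12, 13, 14, 15, 16, 11, 0], 0, 0, 0⟩,
    ⟨⟨78, 63, 3, t2, [17, 18, 19, 20, 21, 22]⟩, [23, 24, 25, 26, 22, 21], t3, 1, 0⟩,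
    ⟨⟨45, 32, 4, t4, [27, 28, 29]⟩, [30, 31, 32], 20802040223894418649589065223747262711901769816033553526666446406400, 1, 0⟩,
    ⟨⟨97, 3, 2, t5, [33]⟩, [4], 1601302, 0, 0⟩,
    ⟨⟨92, 1, 0, 0, []⟩, [], 92, 1, 0⟩]
    [⟨12, 7, t6, [34, 35]⟩, ⟨1, 0, 0, []⟩, ⟨1, 0, 0, []⟩, ⟨3, 0, 0, []⟩, ⟨1, 0, 0, []⟩] 36)
    (band (nrmW (get 7) D bs [3, 4, 5] [(36, [[4, 4, 3], [4], [5]]), (37, [[5, 5, 4], [4, 4], [5, 3, 5, 3]])])
    (band (lowG 100 (get 7) (get 4) D bs [36, 37] [(5, [36, 37, 36, 37, 37, 36, 37, 36, 37, 36, 37, 36, 37, 37]), (38, [36, 36, 36, 37, 37, 36, 36, 37, 36, 37])]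
    [⟨0, 36, 6, t8, [0, 1]⟩, ⟨1, 6, 2, t9, [2, 3]⟩] 216)
    (band (cmOK (get 7) D bs [3] [39, 40, 41, 42])
    (band (nnW (get 7) 3 D bs [3, 4, 5] [39, 40, 41, 42] [([39], [43]), ([40], [44]), ([41], [45]), ([42], [42])])
    (band (ordP (get 7) D bs 3 4)
    (band (ordP (get 7) D bs 3 3)
    (band (fxNe 100 (get 7) D 4 3)
    (clsOK (get 7) 3 3 D bs [3, 4, 5] [36, 37] [4, 3] [[]] (get 21 t10) 0 27))))))))))) = true := by decide +kernel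


/-- Sylow 3-structure of a group of Hall–Janko type (large-extraspecial hypothesis with Q of order 32, quotient Ω⁻(4, 2), z not weakly closed in Q, more than one class of involutions): a Sylow 3-subgroup P is extraspecial of order 27, its normaliser has order 216, and the elements of order 3 form exactly two conjugacy classes. -/
theorem result {G : Type*} [Group G] [Finite G] (z : G) (hz : orderOf z = 2) (Q : Subgroup (Subgroup.centralizer ({z} : Set G))) [Q.Normal] (hF : Cfsg.generalizedFittingSubgroup (Subgroup.centralizer ({z} : Set G)) = Q) (hQ : Cfsg.IsExtraspecial 2 Q) (hcard : Nat.card Q = 2 ^ 5) (e : (Subgroup.centralizer ({z} : Set G)) ⧸ Q ≃* Cfsg.Omega (ZMod 2) (Cfsg.quadFormMinus 1 (ZMod 2) 1 1)) (hnwc : ∃ g : G, (∃ hq : g * z * g⁻¹ ∈ Subgroup.centralizer ({z} : Set G), (⟨g * z * g⁻¹, hq⟩ : Subgroup.centralizer ({z} : Set G)) ∈ Q) ∧ g * z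 * g⁻¹ ≠ z) (hcl : ∃ x y : G, orderOf x = 2 ∧ orderOf y = 2 ∧ ¬ IsConj x y) (P : Sylow 3 G) : Cfsg.IsExtraspecial 3 (P : Subgroup G) ∧ Nat.card P = 27 ∧ Nat.card (Subgroup.normalizer ((P : Subgroup G) : Set G)) = 216 ∧ ∃ a b : G, orderOf a = 3 ∧ orderOf b = 3 ∧ ¬ IsConj a b ∧ ∀ c : G, orderOf c = 3 → IsConj c a ∨ IsConj c b := by
  obtain ⟨_, _, _, _, C⟩ := Lib.Mod.J2.hasCx (S1720.result z hz Q hF hQ hcard e hnwc hcl) ws
  have h := of_litK c1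
  simp only [band_eq_true] at h
  obtain ⟨h1, h2, h3, h4, h5, h6, h7, h8, h9, h10, h11⟩ := h
  obtain ⟨_, γ, C, g⟩ := C.exists_sylow (C.pgp (by norm_num) h1) (by decide) P
  have p := C.pgp (by norm_num) h1
  rw [g]
  refine ⟨PLocal.isExtraspecial_of_card_eq_cube p.card (not_isMulCommutative (mem_gsub (i := 3) (by simp))
    (mem_gsub (i := 5) (by simp)) (by simpa using C.wne h2)), p.card, ?_, _, _, C.ordP h8, C.ordP h9,
    C.not_isConj_of_fxNe h10, fun c hc => by simpa using C.exists_isConj p (by decide) (by decide) h11 hc⟩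
  have a := card_normalizer_le (mem_gsub (i := 3) (by simp)) (ncard_conj_le (P := gsub γ [3, 4, 5]) fun e => by
    simpa [e] using C.ordP h9) (gset_one (γ := γ) _ ▸ C.nnW p (C.cmOK h6) h7 (C.card_cen_le h3) (b := 9) (by decide))
  have b := (C.lowG h5).trans (Subgroup.card_le_of_le (gsub_le.2 (C.nrmW h4)))
  have c := Subgroup.card_dvd_of_le (Subgroup.le_normalizer (H := gsub γ [3, 4, 5]))
  rw [p.card] at a c
  simp only [List.length] at a c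
  omega

end Cfsg.Agent.S1723
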