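import Cfsg.Statements.S1724
import Cfsg.Agent.Lib.Mod.J2
import Cfsg.Agent.S1720

set_option autoImplicit false
open Cfsg

namespace Cfsg.Agent.S1724

set_option maxRecDepth 100000
open Cfsg.Lib Cfsg.Lib.Calc Cfsg.Lib.F2 Cfsg.Lib.Grp Cfsg.Lib.Mod.J2

/-- edges -/
noncomputable def t1 : ℕ := nat_lit 0x4632326471263140235756663513133347355176532554325215231213415564674266265267133626442555344724512361
/-- edges -/
noncomputable def t2 : ℕ := nat_lit 0x500300000100060000003060046620430005004001600000300002050050104300000040020006020010050210356000020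
/-- edges -/
noncomputable def t3 : ℕ := nat_lit 0x10000101000000000100000000000000010000010002020021000001000020000011002000200000002000001000120000
/-- edges -/
noncomputable def t4 : ℕ := nat_lit 0x1000000000000000010000000000000000100000000000000000000002000000000000100000000000002000000000200
/-- edges -/
noncomputable def t5 : ℕ := nat_lit 0x1111111001111100110011111111111111101111111100111101110101111111011111111111111111111110101111101111
/-- words for the elements of the dictionary -/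
def ws : List (List ℕ × ℕ) := [([0], 4), ([1, 2, 1, 2, 1, 2, 2, 1, 0, 1, 0, 0, 1, 2, 2, 1, 0, 1, 0, 0], 1), ([1, 0, 1, 0, 0], 1), ([0, 1, 0, 0], 1), ([0, 1, 2, 1], 1), ([0, 1], 1), ([0, 1, 0], 1), ([1, 0, 0, 1], 1), ([2, 2, 1, 2, 1], 1), ([2, 2, 1, 2], 1), ([1, 0, 1, 2], 1), ([1, 2], 1), ([2, 1, 2], 1), ([1, 2, 2, 1], 1), ([1, 2, 1, 2, 2, 1, 2], 1), ([2, 2, 1, 0, 1, 2, 1], 1), ([0, 0, 1, 0, 0, 1, 0], 1), ([0, 1, 0, 0, 1, 0, 1], 1), ([1, 0, 1, 2, 1, 0, 0], 1), ([2, 1, 0, 0, 0, 1, 2, 2], 1), ([2, 2, 1, 2, 2, 1, 0, 0, 1, 0, 1, 2, 1, 0, 1, 2], 1), ([2, 1, 2, 1, 0, 0, 1, 0, 0, 1, 0, 0, 1, 2, 1], 1), ([0, 1, 2, 1, 0, 1, 2, 1, 2, 2, 1, 0, 0, 1, 0, 0], 1), ([1, 0, 1, 2, 2, 1, 2, 2, 1, 2, 2, 1, 0, 1, 0], 1), ([2, 1, 0, 0, 1, 2, 1, 0, 0, 1, 2, 2, 1, 2, 2, 1, 2, 1, 0, 0, 1, 0, 1, 2], 1), ([0, 1, 2, 2, 1, 0, 1, 2, 2, 1, 2, 2, 1, 2, 1, 2, 1, 0, 0], 1), ([0, 1, 2, 1, 2, 2, 1, 0, 1, 0, 0, 1, 0, 0, 1, 2, 2,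 1, 0, 1, 2, 2, 1, 0], 1)]
theorem c1 : litK 100 7 (get 7) D0 ws (fun D =>
    band (cenChk 100 (get 7) (get 4) 604800 D bs [3]
    [⟨⟨84, 100, 3, t1, [4, 5, 6, 7, 8, 9, 0]⟩, [10, 11, 12, 13, 14, 15, 2], 0, 0, 0⟩,
    ⟨⟨17, 36, 3, t2, [16, 17, 18, 19, 20, 21]⟩, [19, 20, 21, 16, 17, 18], 5583104448796120359125785330390012928178220595501034735998596178241606763265, 1, 0⟩,
    ⟨⟨75, 21, 4, t3, [22, 23]⟩, [24, 25], 136207768968719626607954358082249671368131204, 1, 0⟩,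
    ⟨⟨0, 8, 3, t4, [26, 27]⟩, [28, 27], 54392782030307584, 1, 0⟩,
    ⟨⟨94, 1, 0, 0, []⟩, [], 94, 1, 0⟩]
    [⟨7, 6, t5, [3]⟩, ⟨1, 0, 0, []⟩, ⟨1, 0, 0, []⟩, ⟨1, 0, 0, []⟩, ⟨1, 0, 0, []⟩] 7)
    (ordP (get 7) D bs 7 3)) = true := by decide +kernel


/-- In a group of Hall–Janko type (large-extraspecial hypothesis with Q of order 32, quotient Ω⁻(4, 2), z not weakly closed in Q, more than one class of involutions), a Sylow 7-subgroup is its own centraliser and its normaliser is non-abelian of order 42. -/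
theorem result {G : Type*} [Group G] [Finite G] (z : G) (hz : orderOf z = 2) (Q : Subgroup (Subgroup.centralizer ({z} : Set G))) [Q.Normal] (hF : Cfsg.generalizedFittingSubgroup (Subgroup.centralizer ({z} : Set G)) = Q) (hQ : Cfsg.IsExtraspecial 2 Q) (hcard : Nat.card Q = 2 ^ 5) (e : (Subgroup.centralizer ({z} : Set G)) ⧸ Q ≃* Cfsg.Omega (ZMod 2) (Cfsg.quadFormMinus 1 (ZMod 2) 1 1)) (hnwc : ∃ g : G, (∃ hq : g * z * g⁻¹ ∈ Subgroup.centralizer ({z} : Set G), (⟨g * z * g⁻¹, hq⟩ : Subgroup.centralizer ({z} : Set G)) ∈ Q) ∧ g * z * g⁻¹ ≠ z) (hcl : ∃ x y : G, orderOf x = 2 ∧ orderOf y = 2 ∧ ¬ IsConj x y) (D : Sylow 7 G) : Subgroup.centralizer ((D : Subgroup G) : Set G) = D ∧ Nat.card (Subgroup.normalizer ((D : Subgroup G) : Set G)) = 42 ∧ ¬ IsMulCommutative (Subgroup.normalizer ((D : Subgroup G) : Set G)) := by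
  obtain ⟨_, _, _, _, C⟩ := Lib.Mod.J2.hasCx (S1720.result z hz Q hF hQ hcard e hnwc hcl) ws
  have : Fact (Nat.Prime 7) := ⟨by norm_num⟩
  have h := C.selfC (by norm_num) (of_litK c1)
  have a := h.card_sylow (by rw [C.card]; norm_num) D
  have b := h.card_normalizer a
  rw [C.card] at b
  refine ⟨h.cen_eq a, b, fun c => ?_⟩
  have := Subgroup.card_le_of_le (((Subgroup.centralizer_le Subgroup.le_normalizer).trans (h.cen _ a)).trans'
    (Subgroup.le_centralizer (Subgroup.normalizer ((D : Subgroup G) : Set G))))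
  omega

end Cfsg.Agent.S1724
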