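import Cfsg.Statements.S1733
import Cfsg.Agent.Lib.T3.CoK
import Cfsg.Agent.S0814
import Cfsg.Agent.S1754

set_option autoImplicit false
open Cfsg

namespace Cfsg.Agent.S1733

open Cfsg.Lib Cfsg.Lib.T2 Cfsg.Lib.T3 Cfsg.Lib.T3.Co Cfsg.Lib.Calc Subgroup

/-- Let G be a non-abelian finite simple group which is locally balanced (the centralizer of every involution has no nontrivial normal subgroup of odd order) and has the strong B-property (every section of G has the B-property), and let L be a standard subgroup of G whose centre has order 2 with quotient isomorphic to the symplectic group of dimension 6 over the field with 2 elements. Then G is isomorphic to the third Conway group. -/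
theorem result {G : Type*} [Group G] [Finite G] [IsSimpleGroup G] (hG : ¬ IsMulCommutative G)
    (hbal : ∀ t : G, orderOf t = 2 → Cfsg.centralizerPPrimeCore 2 t = ⊥) (hB : Cfsg.HasStrongBProperty G)
    (L : Subgroup G) (hL : Cfsg.IsStandardSubgroup L)
    {F : Type*} [Field F] [Fintype F] (hF : Fintype.card F = 2) (hLX : (Nat.card ↥(Subgroup.center ↥L) = 2 ∧ Nonempty (↥L ⧸ Subgroup.center ↥L ≃* Cfsg.PSp 3 F))) :
    Cfsg.Spor.IsoCo3 G := by
  obtain ⟨c2, ⟨e⟩⟩ := hLX
  let e' := e.trans (Mult.pspCongr (FiniteField.ringEquivOfCardEq (hF.trans Asch.TF.card.symm) : F ≃+* Mult.K2) 3)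
  have hp : commutator L = ⊤ := hL.1.1.commutator_eq_top
  have hk : (e'.toMonoidHom.comp (QuotientGroup.mk' _)).ker = center L := by
    rw [← MonoidHom.comap_ker, (MonoidHom.ker_eq_bot_iff _).2 e'.injective, MonoidHom.comap_bot, QuotientGroup.ker_mk']
  obtain ⟨i⟩ := H_equiv (σ := e'.toMonoidHom.comp (QuotientGroup.mk' _))
    ⟨e'.surjective.comp (QuotientGroup.mk'_surjective _), hk.le, hp ▸ le_top⟩ (by rw [hk, c2])
  obtain ⟨γ, g, a⟩ := Gf.of_hom T_ok (L.subtype.comp i.toMonoidHom) ((subtype_injective _).comp i.injective)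
    (cs := [1, 2, 3, 4, 5, 6, 8, 9]) rfl
  rw [MonoidHom.range_comp, MonoidHom.range_eq_top.2 i.surjective, ← MonoidHom.range_eq_map, range_subtype] at a
  change genW γ wH = L at a
  subst a
  have hA : ∀ φ : MulAut (genW γ wH ⧸ center (genW γ wH)), ∃ q, φ = MulAut.conj q := fun φ => by
    have := hL.1.2
    have h1 : center (genW γ wH ⧸ center (genW γ wH)) = ⊥ := (Normal.eq_bot_or_eq_top inferInstance).resolve_right fun h => by
      have := map_commutator_eq _ (QuotientGroup.mk' (center (genW γ wH)))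
      rw [hp, ← MonoidHom.range_eq_map, MonoidHom.range_eq_top.2 (QuotientGroup.mk'_surjective _), ← _root_.commutator_def,
        (commutator_eq_bot_iff_center_eq_top _).2 h] at this
      exact top_ne_bot this
    have : Fact (Nat.Prime 2) := ⟨Nat.prime_two⟩
    have h2 := Agent.S0814.result 2 1 le_rfl hF 3 (by omega) (by omega)
    rw [← Nat.card_congr (MulAut.congr e).toEquiv, ← Nat.card_congr e.toEquiv] at h2
    obtain ⟨q, h⟩ := ((Nat.bijective_iff_injective_and_card MulAut.conj).2 ⟨(injective_iff_map_eq_one _).2 fun x h =>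
      mem_bot.1 (h1.le (mem_center_iff.2 fun y => (mul_inv_eq_iff_eq_mul.1 (DFunLike.congr_fun h y)).symm)),
      by simpa using h2.symm⟩).2 φ
    exact ⟨q, h.symm⟩
  have oz : orderOf (McR.zz γ) = 2 := orderOf_eq_prime g.eq g.ne
  have J : St γ := ⟨g, fun n h => decomp hp hA ((Agent.S1754.result _ hL _ oz fun _ => cL g).1 (mcs h)),
    fun x a b c n d => by
      have : n ∈ normalizer (genW γ wH : Set G) := hL.2.2.2 ▸ by_contra fun h => Nat.not_even_iff_odd.2 (hL.2.1.2 n h)
        (even_iff_two_dvd.2 (orderOf_eq_prime (x := n * x * n⁻¹) (by rw [conj_pow, sq, b]; simp) (mt conj_eq_one_iff.1 c) ▸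
          orderOf_dvd_natCard _ ⟨d, x, a, rfl⟩))
      obtain ⟨l, p, k, q, rfl⟩ := decomp hp hA this
      rw [mul_assoc, ← q _ (zL g), ← mul_assoc, cL g p, mul_assoc]⟩
  have hi : ¬ IsIsolatedInvolution (McR.zz γ) := fun hi => by
    have s := McR.sup_of_isolated hi
    rcases (inferInstance : (oddCore G).Normal).eq_bot_or_eq_top with e | e
    · rw [e, sup_bot_eq] at s
      rcases (inferInstance : (center G).Normal).eq_bot_or_eq_top with f | f
      · exact J.z1 (mem_bot.1 (f.le (mem_center_iff.2 fun g => cms (s.ge (mem_top g)))))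
      · exact hG ⟨⟨fun a b => mem_center_iff.1 (f.ge (mem_top b)) a⟩⟩
    · exact J.z1 (McR.eq_one_of_mem_oddCore J.z2 (e ▸ mem_top _))
  obtain ⟨n, c, d⟩ : ∃ n, Commute (McR.zz γ) (n * McR.zz γ * n⁻¹) ∧ n * McR.zz γ * n⁻¹ ≠ McR.zz γ := by
    by_contra! e; exact hi ⟨oz, e⟩
  exact (J.ch ⟨c.eq.symm, mt cj_of d⟩ (hbal _ oz)).iso hi

end Cfsg.Agent.S1733
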