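import Cfsg.Statements.S1892
import Cfsg.Agent.Lib.Core.PSolvable
import Cfsg.Agent.Lib.Coprime.Nilpotent

set_option autoImplicit false
open Cfsg

namespace Cfsg.Agent.S1892

open Cfsg.Lib Cfsg.Lib.Core Subgroup

/-- Let S be a finite p-solvable group with no nontrivial normal subgroup of order prime to p, A a p-subgroup of S, and Q a nontrivial A-invariant subgroup of order prime to p with [A, Q] = Q. Then the commutator [O_p(S), A, Q] is nontrivial. -/
theorem result {S : Type*} [Group S] [Finite S] {p : ℕ} [Fact p.Prime]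
    (hS : Cfsg.IsPSolvable p S) (hred : Cfsg.pPrimeCore p S = ⊥)
    (A Q : Subgroup S) (hA : IsPGroup p A) (hQ : ¬ p ∣ Nat.card Q) (hQ1 : Q ≠ ⊥)
    (hinv : ∀ a ∈ A, ∀ x ∈ Q, a * x * a⁻¹ ∈ Q) (hAQ : ⁅A, Q⁆ = Q) :
    ⁅⁅Cfsg.pCore p S, A⁆, Q⁆ ≠ ⊥ := by
  intro h
  have hp : p.Prime := Fact.out
  have hc : (Nat.card Q).Coprime p := ((Nat.Prime.coprime_iff_not_dvd hp).2 hQ).symm
  have h1 : ⁅pCore p S, A⁆ ≤ centralizer (Q : Set S) := commutator_eq_bot_iff_le_centralizer.1 h
  have h2 : ⁅⁅A, Q⁆, pCore p S⁆ ≤ ⁅pCore p S, A⁆ := three_subgroups (normalizer_commutator_ge_right _ _)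
    ((le_centralizer_iff.1 h1).trans (centralizer_le_normalizer _)) (normalizer_commutator_ge_left _ _)
    (commutator_mono (commutator_le_right _ _) le_rfl) (h.le.trans bot_le)
  rw [hAQ, commutator_comm] at h2
  have h3 := Coprime.le_centralizer_of_commutator_commutator_eq_bot (A := Q) (K := pCore p S)
    le_normalizer_of_normal (Coprime.coprime_card_of_isPGroup (pCore_isPGroup p S) hc)
    (eq_bot_iff.2 ((commutator_mono h2 le_rfl).trans h.le))
  exact hQ1 (eq_bot_of_isPGroup_of_coprime ((pCore_isPGroup p S).to_le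
    (h3.trans (centralizer_pCore_le_of_isPSolvable hS hred))) hc)

end Cfsg.Agent.S1892
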