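import Cfsg.Statements.S1893
import Cfsg.Agent.Lib.PLocal.Stable
import Cfsg.Agent.Lib.Coprime.Nilpotent
import Cfsg.Agent.Lib.Comp.Component

set_option autoImplicit false
open Cfsg

namespace Cfsg.Agent.S1893

open Subgroup Cfsg.Lib Cfsg.Lib.Core Cfsg.Lib.PLocal

variable {G : Type*} [Group G] [Finite G] [hs : Group.IsSolvable G]

theorem mem_fit {q : ℕ} [Fact q.Prime] (h : pCore q G ≠ ⊥ → q ≠ 2 ∧ q ≠ 3) {x : G}
    (h1 : x ∈ centralizer (((pPrimeCore q (fittingSubgroup G)).map (fittingSubgroup G).subtype :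
      Subgroup G) : Set G))
    (h2 : ⁅⁅pCore q G, zpowers x⁆, zpowers x⁆ = ⊥) : x ∈ fittingSubgroup G := by
  haveI := fittingSubgroup_normal G
  set W := (pPrimeCore q (fittingSubgroup G)).map (fittingSubgroup G).subtype
  haveI : W.Normal := pPrimeCoreOf_normal q _
  have hF : ∀ y ∈ centralizer (W : Set G), y ∈ centralizer (pCore q G : Set G) →
      y ∈ fittingSubgroup G := fun y hy hy' => by
    refine centralizer_fittingSubgroup_le (zpowers_le.1 (le_centralizer_iff.1 ?_))
    rw [← pCoreOf_sup_pPrimeCoreOf (fittingSubgroup_isNilpotent G) q, pCoreOf_fittingSubgroup]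
    exact sup_le (le_centralizer_iff.1 (zpowers_le.2 hy')) (le_centralizer_iff.1 (zpowers_le.2 hy))
  by_cases h0 : pCore q G = ⊥
  · exact hF x h1 (fun y hy => by rw [h0] at hy; rw [mem_bot.1 hy, one_mul, mul_one])
  obtain ⟨M, hx, -, hM, hM'⟩ := isPStableOn_iff.1 ((secStable_of_isPSolvable (h h0).1
    (isPSolvable_of_isSolvable hs) fun e => absurd e (h h0).2).isPStableOn (pCore q G)
      (pCore_isPGroup q G)) x h2
  haveI := normal_of_top_le_normalizer hM
  set K := M ⊓ centralizer (W : Set G)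
  refine le_fittingSubgroup (N := K) inferInstance ?_ ⟨hx, h1⟩
  set f := ((QuotientGroup.mk' W).comp K.subtype).rangeRestrict
  refine @Subgroup.isNilpotent_of_ker_le_center _ _ _ _ f
    (fun y hy => mem_center_iff.2 fun z => Subtype.ext ?_) (IsPGroup.isNilpotent (p := q) fun y => ?_)
  · exact (z.2.2 y ((QuotientGroup.eq_one_iff _).1 (congrArg Subtype.val hy))).symm
  · obtain ⟨_, y, rfl⟩ := y
    obtain ⟨k, hk⟩ := hM' y y.2.1
    obtain ⟨l, hl⟩ := isPGroup_quotient_pPrimeCore (G := fittingSubgroup G) q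
      (QuotientGroup.mk ⟨_, hF _ (pow_mem y.2.2 _) hk⟩)
    refine ⟨k + l, Subtype.ext ((QuotientGroup.eq_one_iff ((y : G) ^ q ^ (k + l))).2 ?_)⟩
    rw [pow_add, pow_mul]
    exact ⟨_, (QuotientGroup.eq_one_iff _).1 hl, rfl⟩

theorem cent_le (h : ∀ q : ℕ, q.Prime → pCore q G ≠ ⊥ → q ≠ 2 ∧ q ≠ 3) {N A : Subgroup G}
    (hN : Group.IsNilpotent N) (hF : fittingSubgroup G ≤ N) (hA : IsSCN N A) :
    centralizer (A : Set G) ≤ A := by
  haveI := fittingSubgroup_normal G
  have hc : IsMulCommutative A := le_centralizer_iff_isMulCommutative.1 (hA.2.2.ge.trans inf_le_right)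
  have hAF : A ≤ fittingSubgroup G := Coprime.le_of_forall_pgroup_le fun q P hq hP hPq x hx => by
    haveI : Fact q.Prime := ⟨hq⟩
    exact mem_fit (h q hq) (le_centralizer_of_coprime_of_le hN (hP.trans hA.1)
      ((pPrimeCoreOf_le _ _).trans hF) (Coprime.coprime_card_of_isPGroup hPq
        (pPrimeCoreOf_coprime q _)).symm hx) (quadratic_zpowers_of_mem (quadratic_of_le_normalizer hc
          ((pCore_le_fittingSubgroup q).trans (hF.trans hA.2.1))) (hP hx))
  refine le_trans (le_inf (le_trans ?_ hF) le_rfl) hA.2.2.le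
  refine Coprime.le_of_forall_pgroup_le fun q P hq hP hPq x hx => ?_
  haveI : Fact q.Prime := ⟨hq⟩
  set W := (pPrimeCore q (fittingSubgroup G)).map (fittingSubgroup G).subtype
  haveI : W.Normal := pPrimeCoreOf_normal q _
  have hW : W ≤ fittingSubgroup G := pPrimeCoreOf_le _ _
  refine mem_fit (h q hq) (Coprime.le_centralizer_of_self_centralizing (B := W ⊓ A)
    (isNilpotent_of_le hW inferInstance) le_normalizer_of_normal
    (Coprime.coprime_card_of_isPGroup hPq (pPrimeCoreOf_coprime q _)).symm inf_le_left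
    (hP.trans (centralizer_le (inf_le_right : W ⊓ A ≤ A))) (le_inf inf_le_left ?_) hx) ?_
  · refine le_trans (le_inf (inf_le_left.trans (hW.trans hF)) (le_centralizer_iff.1 ?_)) hA.2.2.le
    refine (pCoreOf_sup_pPrimeCoreOf (isNilpotent_of_le hA.1 hN) q).ge.trans (sup_le ?_ ?_)
    · exact (le_centralizer_of_coprime_of_le (fittingSubgroup_isNilpotent G)
        ((pCoreOf_le _ _).trans hAF) hW (Coprime.coprime_card_of_isPGroup (pCoreOf_isPGroup q A)
          (pPrimeCoreOf_coprime q _)).symm).trans (centralizer_le inf_le_left)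
    · exact (le_inf (le_pPrimeCoreOf_of_isNilpotent inferInstance ((pPrimeCoreOf_le _ _).trans hAF)
        (pPrimeCoreOf_coprime q _)) (pPrimeCoreOf_le _ _)).trans (le_centralizer_iff.1 inf_le_right)
  · have h1 := Comp.commutator_le_inf_of_normalizer (H := pCore q G) (K := zpowers x)
      le_normalizer_of_normal (zpowers_le.2 (hP hx)) (((pCore_le_fittingSubgroup q).trans
        (hF.trans hA.2.1)).trans (Transfer.normalizer_le_normalizer_centralizer' A))
    rw [commutator_eq_bot_iff_le_centralizer]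
    exact (h1.trans ((inf_le_inf_right _ ((pCore_le_fittingSubgroup q).trans hF)).trans
      hA.2.2.le)).trans (le_centralizer_iff.1 (zpowers_le.2 (hP hx)))

theorem result {S : Type*} [Group S] [Finite S] [Group.IsSolvable S]
    (π : Set ℕ) (h2 : 2 ∉ π) (h3 : 3 ∉ π) (H : Subgroup S) (hH : Cfsg.IsPiHall π H)
    (A : Subgroup S) (hA : Cfsg.IsSCN ((Cfsg.fittingSubgroup H).map H.subtype) A) :
    ∃ D : Subgroup S, D ≤ Subgroup.centralizer (A : Set S) ∧
      (∀ c ∈ Subgroup.centralizer (A : Set S), ∀ d ∈ D, c * d * c⁻¹ ∈ D) ∧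
      A ⊓ D = ⊥ ∧ A ⊔ D = Subgroup.centralizer (A : Set S) ∧
      ∀ q : ℕ, q.Prime → q ∣ Nat.card D → q ∉ π := by
  set O := piCore πᶜ S
  set f := QuotientGroup.mk' O
  have hf : Function.Surjective f := QuotientGroup.mk'_surjective O
  have hO : IsPiSubgroup πᶜ O := piCore_isPiSubgroup _ _
  have hHO : H ⊓ O = ⊥ := inf_eq_bot_of_isPiSubgroup hH.1 hO disjoint_compl_right
  have hAH : A ≤ H := hA.1.trans (map_subtype_le _)
  have hc : A ≤ centralizer (A : Set S) := hA.2.2.ge.trans inf_le_right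
  have h0 : ∀ {q : ℕ} [Fact q.Prime], q ∉ π → pCore q (S ⧸ O) = ⊥ := fun hq =>
    eq_bot_iff.2 ((pCore_le_piCore (π := πᶜ) hq).trans (piCore_quotient_piCore _ _).le)
  have hH' : IsPiHall π (H.map f) :=
    ⟨isPiSubgroup_map f hH.1, fun p hp h hd => hH.2 p hp h (hd.trans (index_map_dvd H hf))⟩
  have hi : Function.Injective (f.comp H.subtype) := by
    rw [injective_iff_map_eq_one]
    intro x hx
    exact Subtype.ext (mem_bot.1 (hHO.le ⟨x.2, (QuotientGroup.eq_one_iff _).1 hx⟩))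
  have hFH : fittingSubgroup (S ⧸ O) ≤ H.map f := by
    rw [fittingSubgroup_eq_iSup_pCore]
    refine iSup_le fun q => ?_
    haveI : Fact (q : ℕ).Prime := ⟨q.2⟩
    by_cases hq : (q : ℕ) ∈ π
    · exact (pCore_le_piCore hq).trans (piCore_le_of_isPiHall hH')
    · rw [h0 hq]; exact bot_le
  have hF : fittingSubgroup (S ⧸ O) ≤ (fittingOf H).map f := by
    have e := map_fittingOf hi ⊤
    rw [fittingOf_top, ← map_map, ← map_map, ← MonoidHom.range_eq_map, range_subtype] at e
    exact ((le_inf le_rfl hFH).trans (fittingSubgroup_inf_le_fittingOf _)).trans e.ge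
  have key := cent_le (G := S ⧸ O) (fun q hq hne => by
      haveI : Fact q.Prime := ⟨hq⟩
      exact ⟨fun e => hne (h0 (e ▸ h2)), fun e => hne (h0 (e ▸ h3))⟩)
    (isNilpotent_map f (fittingOf_isNilpotent H)) hF (A := A.map f)
    ⟨map_mono hA.1, (map_mono hA.2.1).trans (le_normalizer_map f), le_antisymm ?_
      (le_inf (map_mono hA.1) ((map_mono hc).trans (map_centralizer_le_centralizer_image _ f)))⟩
  · refine ⟨centralizer (A : Set S) ⊓ O, inf_le_left, fun c hc d hd =>
      ⟨Subgroup.mul_mem _ (Subgroup.mul_mem _ hc hd.1) (Subgroup.inv_mem _ hc), Normal.conj_mem inferInstance d hd.2 c⟩,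
      eq_bot_iff.2 (hHO ▸ inf_le_inf hAH inf_le_right), le_antisymm (sup_le hc inf_le_left)
        fun x hx => ?_, fun q hq hd => isPiSubgroup_of_le inf_le_right hO q hq hd⟩
    obtain ⟨a, ha, e⟩ := key (map_centralizer_le_centralizer_image _ f (mem_map_of_mem f hx))
    have : a⁻¹ * x ∈ O := QuotientGroup.eq.1 e
    simpa using mul_mem (mem_sup_left ha : a ∈ A ⊔ centralizer (A : Set S) ⊓ O)
      (mem_sup_right ⟨Subgroup.mul_mem _ (Subgroup.inv_mem _ (hc ha)) hx, this⟩)
  · rintro _ ⟨⟨x, hx, rfl⟩, h⟩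
    refine mem_map_of_mem f (hA.2.2.le ⟨hx, fun a ha => ?_⟩)
    have hx' : x ∈ H := map_subtype_le _ hx
    exact congrArg Subtype.val (hi (a₁ := ⟨a, hAH ha⟩ * ⟨x, hx'⟩) (a₂ := ⟨x, hx'⟩ * ⟨a, hAH ha⟩)
      (h (f a) (mem_map_of_mem f ha)))

end Cfsg.Agent.S1893
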