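import Cfsg.Statements.S1894
import Cfsg.Agent.Lib.PGroup.Omega

set_option autoImplicit false
open Cfsg

namespace Cfsg.Agent.S1894

open Cfsg.Lib Cfsg.Lib.PGroup Subgroup
open scoped commutatorElement

/-- Let P be a finite p-group, A a normal subgroup of P and B an abelian subgroup of A that is normal in P. Then some subgroup C of A containing B is normal in P and is self-centralizing and normal in A (C ∈ SCN(A)). -/
theorem result {P : Type*} [Group P] [Finite P] {p : ℕ} [Fact p.Prime] (hP : IsPGroup p P)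
    (A : Subgroup P) [A.Normal] (B : Subgroup P) [B.Normal] (hBA : B ≤ A) (hB : IsMulCommutative B) :
    ∃ C : Subgroup P, C.Normal ∧ B ≤ C ∧ Cfsg.IsSCN A C := by
  obtain ⟨C, ⟨h1, h2, h3, h4⟩, hmax⟩ := Set.Finite.exists_maximal (Set.toFinite
    {C : Subgroup P | C.Normal ∧ B ≤ C ∧ C ≤ A ∧ IsMulCommutative C}) ⟨B, ‹_›, le_rfl, hBA, hB⟩
  refine ⟨C, h1, h2, h3, le_normalizer_of_normal, le_antisymm ?_
    (le_inf h3 (le_centralizer_iff_isMulCommutative.2 h4))⟩
  by_contra h
  have := hP.isNilpotent
  obtain ⟨x, hx, h5, h6⟩ := exists_mem_not_mem_commutator_mem (S := ⊤) (M := C)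
    (N := A ⊓ centralizer (C : Set P)) le_top le_normalizer_of_normal h
  refine h5 (hmax ⟨?_, h2.trans le_sup_left, sup_le h3 (zpowers_le.2 hx.1),
    isMulCommutative_sup_zpowers hx.2⟩ le_sup_left (mem_sup_right (mem_zpowers x)))
  refine normalizer_eq_top_iff.1 (eq_top_iff.2 (le_normalizer_iff_commutator_le_left.2
    (commutator_le.2 fun g hg s _ => mem_sup_left ?_)))
  exact commutator_mem_of_mem_sup_zpowers (le_normalizer_of_normal (mem_top x))
    (le_normalizer_of_normal (mem_top s)) (h6 s trivial) hg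

end Cfsg.Agent.S1894
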