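import Cfsg.Statements.S1895
import Cfsg.Agent.Lib.PGroup.Blackburn
import Cfsg.Agent.Lib.PGroup.Alperin
import Cfsg.Agent.Lib.Transfer.SylowIn
import Cfsg.Agent.Lib.Core.Basic

set_option autoImplicit false
open Cfsg

namespace Cfsg.Agent.S1895

open Subgroup Cfsg.Lib Cfsg.Lib.PGroup
open scoped commutatorElement

universe u

variable {p : ℕ} [hp : Fact p.Prime]

theorem comm_pow {R : Type*} [Group R] [Finite R] (hp2 : p ≠ 2) (hR : IsPGroup p R)
    (hc : ∀ z : R, z ^ p = 1 → z ∈ center R) (S : Subgroup R) :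
    ∀ x ∈ S, ∀ g ∈ S, (x ^ p) ^ p = 1 → ⁅x, g⁆ ^ p = 1 := by
  induction S using WellFoundedLT.induction with
  | ind S ih =>
  intro x hx g hg hxp
  rcases (zpowers_le.2 hx).eq_or_lt with e | hlt
  · rw [← e] at hg
    obtain ⟨k, rfl⟩ := hg
    rw [((Commute.refl x).zpow_right k).commutator_eq, one_pow]
  obtain ⟨M, h1, h2, h3, h4⟩ := exists_card_mul_eq_of_lt (hR.to_subgroup S) hlt
  have hM : M < S := lt_of_le_of_ne h2 fun e => by
    rw [e] at h4
    have := Nat.card_pos (α := S)
    have := hp.out.two_le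
    nlinarith
  have hxM := h1 (mem_zpowers x)
  have hy : g * x⁻¹ * g⁻¹ ∈ M := (mem_normalizer_iff.1 (h3 hg) _).1 (inv_mem hxM)
  have h5 := ih M hM _ hy x hxM (by rw [conj_pow, conj_pow, inv_pow, inv_pow, hxp]; group)
  have h6 := mem_center_iff.1 (hc _ h5)
  have h7 := mem_center_iff.1 (hc _ hxp) g
  have e : ⁅x, g⁆ = x * (g * x⁻¹ * g⁻¹) := by rw [commutatorElement_def]; group
  rw [e, mul_pow_of_odd_of_commute_commutator (hp.out.odd_of_ne_two hp2) (h6 _) (h6 _) h5,
    conj_pow, inv_pow, ← mul_assoc, ← mul_assoc, ← h7]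
  group

/-- Thompson: if the elements of order `p` are central, then `d(R) ≤ d(Ω₁(R))`. -/
theorem pc (hp2 : p ≠ 2) (n : ℕ) : ∀ (R : Type u) [Group R] [Finite R], Nat.card R ≤ n →
    IsPGroup p R → (∀ z : R, z ^ p = 1 → z ∈ center R) →
    (frattini R).index ≤ Nat.card (omegaOne p (⊤ : Subgroup R)) := by
  induction n with
  | zero => intro G _ _ h; exact absurd h (by have := Nat.card_pos (α := G); omega)
  | succ n ih =>
  intro R _ _ hn hR hc
  set O := omegaOne p (⊤ : Subgroup R) with hO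
  have hmem : ∀ {Q : Type u} [Group Q], (∀ z : Q, z ^ p = 1 → z ∈ center Q) →
      ∀ x ∈ omegaOne p (⊤ : Subgroup Q), x ^ p = 1 := fun {Q} _ h x hx => by
    have h1 : omegaOne p (⊤ : Subgroup Q) ≤ center Q := omegaOne_le_iff.2 fun z _ => h z
    rw [← omegaOne_omegaOne] at hx
    exact ((mem_omegaOne_iff_of_isMulCommutative (isMulCommutative_of_le_center h1)).1 hx).2
  by_cases h0 : O = ⊥
  · rw [omegaOne_eq_bot_iff (hR.to_subgroup ⊤)] at h0
    have h1 : frattini R = ⊤ := eq_top_iff.2 (h0.le.trans bot_le)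
    rw [h1, index_top]
    exact Nat.card_pos
  set f := QuotientGroup.mk' O
  have hf : Function.Surjective f := QuotientGroup.mk'_surjective O
  have hc' : ∀ z : R ⧸ O, z ^ p = 1 → z ∈ center (R ⧸ O) := fun z hz => by
    obtain ⟨x, rfl⟩ := hf z
    rw [mem_center_iff]
    intro g
    obtain ⟨g, rfl⟩ := hf g
    have h1 := comm_pow hp2 hR hc ⊤ x trivial g trivial
      (hmem hc _ ((QuotientGroup.eq_one_iff _).1 ((map_pow f x p).trans hz)))
    have h2 : f ⁅x, g⁆ = 1 := (QuotientGroup.eq_one_iff _).2 (mem_omegaOne (mem_top _) h1)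
    rw [map_commutatorElement, commutatorElement_eq_one_iff_mul_comm] at h2
    exact h2.symm
  have h1 := ih (R ⧸ O) (by
    have := card_eq_card_quotient_mul_card_subgroup O
    have h2 : 1 < Nat.card O := (one_lt_card_iff_ne_bot O).2 h0
    have h3 : 0 < Nat.card (R ⧸ O) := Nat.card_pos
    nlinarith) (hR.to_quotient O) hc'
  set H := (omegaOne p (⊤ : Subgroup (R ⧸ O))).comap f
  have hH : ∀ x ∈ H, x ^ p ∈ O := fun x hx =>
    (QuotientGroup.eq_one_iff _).1 ((map_pow f x p).trans (hmem hc' _ hx))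
  have h2 := card_powerClosure_mul_card_omegaOne (p := p) (H := H) fun x _ y hy => by
    have h3 := comm_pow hp2 hR hc ⊤ y trivial x trivial (hmem hc _ (hH y hy))
    have h6 := mem_center_iff.1 (hc _ h3)
    exact mul_pow_of_odd_of_commute_commutator (hp.out.odd_of_ne_two hp2) (h6 _) (h6 _) h3
  have hOH : O ≤ H := by
    intro x hx
    show f x ∈ omegaOne p (⊤ : Subgroup (R ⧸ O))
    rw [show f x = 1 from (QuotientGroup.eq_one_iff _).2 hx]
    exact one_mem _
  rw [omegaOne_eq_of_le (K := ⊤) hOH le_top, ← hO, ← card_mul_relIndex hOH, mul_comm] at h2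
  have h3 : O.relIndex H = Nat.card (omegaOne p (⊤ : Subgroup (R ⧸ O))) := by
    have := relIndex_ker (K := H) f
    rw [QuotientGroup.ker_mk', map_comap_eq_self_of_surjective hf] at this
    exact this
  have h4 : Nat.card (powerClosure p 1 H) ≤ Nat.card ↥(frattini R ⊓ O) :=
    card_le_of_le (powerClosure_one_le_iff.2 fun x hx => ⟨pow_mem_frattini hR x, hH x hx⟩)
  rw [Nat.eq_of_mul_eq_mul_left Nat.card_pos h2, h3] at h4
  rw [← map_frattini_of_surjective hR f hf, index_map, QuotientGroup.ker_mk',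
    MonoidHom.range_eq_top.2 hf, index_top, mul_one] at h1
  rw [← relIndex_mul_index (le_sup_left : frattini R ≤ frattini R ⊔ O),
    relIndex_sup_of_le_normalizer le_normalizer_of_normal, ← card_inf_mul_relIndex (frattini R) O,
    mul_comm]
  exact Nat.mul_le_mul_right _ (h1.trans h4)

theorem key {R : Type*} [Group R] [Finite R] (hp2 : p ≠ 2) (hR : IsPGroup p R) (hr : PRankLE p 2 R)
    {K : Subgroup R} (hK : K ≠ ⊤) (h : ∀ C : Subgroup R, C.Characteristic → C ≠ ⊤ → C ≤ K) :
    K.index ≤ p ^ 2 := by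
  have hΦ : frattini R ≤ K := h _ inferInstance fun e => hK (frattini_nongenerating
    (by rw [e, sup_top_eq]))
  have hle : ∀ {C : Subgroup R}, C ≤ K → K.index ≤ C.index := fun hC =>
    Nat.le_of_dvd (Nat.pos_of_ne_zero index_ne_zero_of_finite) (index_dvd_of_le hC)
  have hp1 : p ≤ p ^ 2 := by have := hp.out.pos; nlinarith
  by_cases hcyc : IsCyclic (⊤ : Subgroup R)
  · haveI := (topEquiv (G := R)).isCyclic.1 hcyc
    obtain ⟨g, hg⟩ := IsCyclic.exists_generator (α := R)
    classical
    have := index_frattini_le_pow_card hR (T := {g}) (by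
      rw [Finset.coe_singleton, ← zpowers_eq_closure, eq_top_iff]; exact fun x _ => hg x)
    rw [Finset.card_singleton, pow_one] at this
    exact (hle hΦ).trans (this.trans hp1)
  obtain ⟨U, -, hUn, hU, hU2⟩ := exists_normal_elemAb_sq_of_odd hp2 hR ⊤ hcyc
  set Z := Subgroup.upperCentralSeries R 2 with hZ
  have hZc : ⁅Z, (⊤ : Subgroup R)⁆ ≤ center R := commutator_le.2 fun x hx y _ => by
    rw [← Subgroup.upperCentralSeries_one]; exact Subgroup.mem_upperCentralSeries_succ_iff.1 hx y
  have hUZ : U ≤ Z := fun x hx => by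
    rw [hZ, Subgroup.mem_upperCentralSeries_succ_iff, Subgroup.upperCentralSeries_one]
    intro y
    have h1 : ⁅U, (⊤ : Subgroup R)⁆ < U := commutator_lt (elemAb_isPGroup hU) (hR.to_subgroup ⊤)
      le_normalizer_of_normal fun e => by
        rw [e, card_bot] at hU2; have := hp.out.two_le; nlinarith
    have h2 := card_le_pow_of_lt hU2 h1
    have h3 : ⁅U, (⊤ : Subgroup R)⁆ ≤ center R := by
      obtain ⟨k, hk⟩ := IsPGroup.iff_card.1 (hR.to_subgroup ⁅U, (⊤ : Subgroup R)⁆)
      rw [hk, Nat.pow_le_pow_iff_right hp.out.one_lt] at h2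
      interval_cases k
      · rw [card_eq_one.1 hk]; exact bot_le
      · exact le_center_of_card_eq hR _ (hk.trans (pow_one p))
    exact h3 (commutator_mem_commutator hx (mem_top y))
  set D := omegaOne p Z
  have hUD : U ≤ D := elemAb_le_omegaOne hU hUZ
  have hDp : ∀ x ∈ D, x ^ p = 1 := fun x hx =>
    pow_eq_one_of_mem_omegaOne_of_class_two (hp.out.odd_of_ne_two hp2)
      (commutator_eq_bot_iff_le_centralizer.2 (((commutator_mono le_rfl le_top).trans hZc).trans
        (center_le_centralizer _))) hx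
  by_cases hDc : IsMulCommutative D
  · have hD2 : Nat.card D = p ^ 2 := le_antisymm (hr D hDc hDp) (hU2 ▸ card_le_of_le hUD)
    by_cases hC : centralizer (D : Set R) = ⊤
    · have hall : ∀ z : R, z ^ p = 1 → z ∈ D := fun z hz => by
        have h1 := pRankLE_iff.1 hr _ (elemAb_sup_zpowers ⟨hDc, hDp⟩ (hC ▸ mem_top z) hz)
        exact (eq_of_le_of_card_ge le_sup_left (hD2 ▸ h1)).ge (mem_sup_right (mem_zpowers z))
      have h1 := pc hp2 _ R le_rfl hR fun z hz => mem_center_iff.2 fun g =>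
        ((hC ▸ mem_top g : g ∈ centralizer (D : Set R)) z (hall z hz)).symm
      exact (hle hΦ).trans (h1.trans (hD2 ▸ card_le_of_le (omegaOne_le_iff.2 fun z _ => hall z)))
    · have h1 := relIndex_centralizer_eq_of_card_sq (hR.to_subgroup ⊤) le_normalizer_of_normal hD2
        fun e => hC (eq_top_iff.2 e)
      rw [relIndex_top_right] at h1
      exact (hle (h _ inferInstance hC)).trans (h1 ▸ hp1)
  · have h3 := card_le_cube_of_exponent (pRankLE_subgroup hr D) hDp
    have hD3 : Nat.card D = p ^ 3 := by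
      refine le_antisymm h3 (pow_succ_le_card_of_lt (hR.to_subgroup D) ?_)
      exact hU2 ▸ Transfer.card_lt_of_lt (lt_of_le_of_ne hUD fun e => hDc (e ▸ hU.1))
    obtain ⟨h4, h5⟩ := center_of_card_cube hD3 hDc
    have h6 := sup_centralizer_eq_of_commutator_le (R := ⊤) (S := D) le_top
      (isCyclic_of_prime_card h5) h4 (by
        rw [← h4, commutator_comm]
        exact le_inf (commutator_le_left _ _) (((commutator_mono (omegaOne_le _) le_rfl).trans
          hZc).trans (center_le_centralizer _)))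
    have hD : D = ⊤ := by
      by_contra hne
      refine hK (eq_top_iff.2 (h6.ge.trans (sup_le (h _ inferInstance hne) (inf_le_right.trans
        (h _ inferInstance fun e => hDc (isMulCommutative_iff.2 fun a ha b _ => ?_))))))
      exact (e ▸ mem_top b : b ∈ centralizer (D : Set R)) a ha
    have h7 := card_mul_index ⁅D, D⁆
    rw [h5, ← card_top, ← hD, hD3, pow_succ' p 2] at h7
    rw [← Nat.eq_of_mul_eq_mul_left hp.out.pos h7]
    exact hle (le_trans (by rw [hD]; exact commutator_le_frattini hR) hΦ)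

theorem result {G : Type*} [Group G] [Finite G] {p : ℕ} [Fact p.Prime] (hp : p ≠ 2)
    (hG : Cfsg.IsPSolvable p G) (hr : Cfsg.PRankLE p 2 G)
    (H K : Subgroup G) [H.Normal] [K.Normal] (hKH : K < H) (hpow : ∃ n : ℕ, K.relIndex H = p ^ n)
    (hchief : ∀ L : Subgroup G, L.Normal → K ≤ L → L ≤ H → L = K ∨ L = H) :
    K.relIndex H = p ∨ K.relIndex H = p ^ 2 := by
  obtain ⟨n, hn⟩ := hpow
  have hp' : p.Prime := Fact.out
  obtain ⟨T, -, hTH, hT, hTi⟩ := Transfer.exists_sylowIn_ge (p := p) (Q := ⊥) IsPGroup.of_bot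
    (bot_le (a := H))
  have hKT : K ⊔ T = H := by
    have h1 := sup_le hKH.le hTH
    refine le_antisymm h1 (relIndex_eq_one.1 ?_)
    have h2 : (K ⊔ T).relIndex H ∣ p ^ n := hn ▸ relIndex_dvd_of_le_left H le_sup_left
    have h3 : (K ⊔ T).relIndex H ∣ T.relIndex H := relIndex_dvd_of_le_left H le_sup_right
    exact Nat.eq_one_of_dvd_coprimes ((hp'.coprime_iff_not_dvd.2 hTi).pow_left n) h2 h3
  have hnorm : ∀ X : Subgroup G, normalizer (T : Set G) ≤ normalizer (X : Set G) → (K ⊔ X).Normal :=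
    fun X hX => by
    refine Core.normal_of_top_le_normalizer fun g _ => ?_
    obtain ⟨m, hm, h1⟩ := Transfer.frattini_argument hTH hT hTi (normalizer_eq_top H).ge (mem_top g)
    rw [← hKT] at hm
    obtain ⟨t, ht, k, hk, rfl⟩ := Transfer.exists_mul_of_mem_sup' le_normalizer_of_normal hm
    have h2 : k * g ∈ normalizer ((K ⊔ X : Subgroup G) : Set G) :=
      Core.le_normalizer_sup le_normalizer_of_normal hX (by
        simpa [mul_assoc] using mul_mem (inv_mem (le_normalizer ht)) h1)
    simpa using mul_mem (inv_mem (le_normalizer (mem_sup_left hk : k ∈ K ⊔ X))) h2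
  obtain ⟨R, ⟨hRT, hRn, hRK⟩, hmin⟩ := (wellFounded_lt (α := Subgroup G)).has_min
    {R | R ≤ T ∧ normalizer (T : Set G) ≤ normalizer (R : Set G) ∧ ¬ R ≤ K}
    ⟨T, le_rfl, le_rfl, fun h => hKH.ne (by rw [← hKT, sup_eq_left.2 h])⟩
  have hKR : K ⊔ R = H := (hchief _ (hnorm R hRn) le_sup_left
    (sup_le hKH.le (hRT.trans hTH))).resolve_left fun e => hRK (e ▸ le_sup_right)
  have h1 := key hp (hT.to_le hRT) (pRankLE_subgroup hr R) (K := K.subgroupOf R)
    (fun e => hRK (subgroupOf_eq_top.1 e)) fun C hC hne => by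
      refine map_le_iff_le_comap.1 ?_
      by_contra hle
      refine hmin _ ⟨(map_subtype_le C).trans hRT,
        hRn.trans (normalizer_le_normalizer_map_subtype C), hle⟩
        (lt_of_le_of_ne (map_subtype_le C) fun e => hne ?_)
      apply map_injective R.subtype_injective
      rw [e, ← MonoidHom.range_eq_map, range_subtype]
  have h2 : K.relIndex H ≤ p ^ 2 := by
    rw [← hKR, relIndex_sup_of_le_normalizer le_normalizer_of_normal]; exact h1
  rw [hn, Nat.pow_le_pow_iff_right hp'.one_lt] at h2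
  interval_cases n
  · exact absurd (relIndex_eq_one.1 hn) hKH.not_ge
  · exact Or.inl (hn.trans (pow_one p))
  · exact Or.inr hn

end Cfsg.Agent.S1895
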