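import Cfsg.Statements.S1898
import Cfsg.Agent.Lib.PGroup.Critical

set_option autoImplicit false
open Cfsg

namespace Cfsg.Agent.S1898

open Cfsg.Lib Cfsg.Lib.PGroup Subgroup
open scoped commutatorElement

/-- Let X be a finite 2-group whose derived subgroup is elementary abelian and central. Then the subgroup generated by the elements of order dividing 4 has exponent dividing 4, and every automorphism of X fixing each element of order dividing 4 has 2-power order. -/
theorem result {X : Type*} [Group X] [Finite X] (hX : IsPGroup 2 X)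
    (hel : Cfsg.IsElementaryAbelian 2 (commutator X)) (hcen : commutator X ≤ Subgroup.center X) :
    (∀ x ∈ Subgroup.closure {g : X | g ^ 4 = 1}, x ^ 4 = 1) ∧
      ∀ φ : MulAut X, (∀ g : X, g ^ 4 = 1 → φ g = g) → ∃ k : ℕ, φ ^ (2 ^ k) = 1 := by
  have : Fact (Nat.Prime 2) := ⟨Nat.prime_two⟩
  refine ⟨fun x hx => ?_, fun φ h => ?_⟩
  · induction hx using closure_induction with
    | mem x hx => exact hx
    | one => exact one_pow _
    | inv x _ hx => rw [inv_pow, hx, inv_one]
    | mul x y _ _ hx hy =>
      have h1 : ⁅y, x⁆ ∈ commutator X := commutator_mem_commutator (mem_top y) (mem_top x)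
      rw [mul_pow_of_commute_commutator (mem_center_iff.1 (hcen h1) x) (mem_center_iff.1 (hcen h1) y),
        hx, hy, show Nat.choose 4 2 = 2 * 3 from rfl, pow_mul, hel.2 _ h1]
      simp
  · obtain ⟨k, m, hm, e⟩ := Nat.exists_eq_two_pow_mul_odd (orderOf_pos φ).ne'
    refine ⟨k, mulAut_eq_one_of_fixes_pow_eq_one (Or.inr ⟨rfl, rfl⟩) hX ?_ fun x hx => ?_⟩
    · rw [orderOf_pow' _ (by positivity), e, Nat.gcd_mul_right_left, Nat.mul_div_cancel_left _ (by positivity)]
      exact (Nat.coprime_two_right).2 hm
    · exact pow_mem (show φ ∈ MulAction.stabilizer (MulAut X) x from h x hx) _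

end Cfsg.Agent.S1898
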