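import Cfsg.Statements.S1899
import Cfsg.Agent.Lib.Core.Basic

set_option autoImplicit false
open Cfsg

namespace Cfsg.Agent.S1899

open Subgroup

/-- Let a dihedral group of order 2n, n odd and n > 1, act on a finite abelian 2-group A through automorphisms d and t with d^n = 1, t² = 1 and t d t⁻¹ = d⁻¹, and suppose that d fixes only the identity. Then A is the internal direct product of C_A(t) and its image under d. -/
theorem result {A : Type*} [CommGroup A] [Finite A] (hA : IsPGroup 2 A)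
    {n : ℕ} (hn : Odd n) (hn1 : 1 < n) (d t : MulAut A) (hd : d ^ n = 1) (ht : t ^ 2 = 1) (hdt : t * d * t⁻¹ = d⁻¹)
    (hfix : ∀ a : A, d a = a → a = 1) :
    (MulEquiv.toMonoidHom t).eqLocus (MonoidHom.id A) ⊓ ((MulEquiv.toMonoidHom t).eqLocus (MonoidHom.id A)).map d.toMonoidHom = ⊥ ∧
      (MulEquiv.toMonoidHom t).eqLocus (MonoidHom.id A) ⊔ ((MulEquiv.toMonoidHom t).eqLocus (MonoidHom.id A)).map d.toMonoidHom = ⊤ := by
  have h1 : ∀ a, t (t a) = a := fun a => by rw [← MulAut.mul_apply, ← pow_two, ht, MulAut.one_apply]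
  have h2 : ∀ a, t (d a) = d⁻¹ (t a) := fun a => by
    rw [← hdt, MulAut.mul_apply, MulAut.mul_apply, MulAut.inv_apply_self]
  have h3 : ∀ a, d a = d⁻¹ a → a = 1 := fun a h => by
    obtain ⟨k, rfl⟩ := hn
    have e : (d ^ 2) a = a := by rw [pow_two, MulAut.mul_apply, h, MulAut.apply_inv_self]
    have e2 : (d ^ (2 * k)) a = a := by
      rw [pow_mul]; exact pow_mem (show d ^ 2 ∈ MulAction.stabilizer (MulAut A) a from e) _
    refine hfix a ?_
    rw [← e2, ← MulAut.mul_apply, ← pow_succ', hd, e2, MulAut.one_apply]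
  refine ⟨eq_bot_iff.2 ?_, eq_top_iff.2 fun a _ => ?_⟩
  · rintro _ ⟨h, c, hc, rfl⟩
    have hc' : t c = c := hc
    have h' : t (d c) = d c := h
    rw [h2, hc'] at h'
    rw [h3 c h'.symm, map_one]
    exact one_mem _
  · obtain ⟨y, rfl⟩ := Finite.surjective_of_injective (f := fun y => d y * (d⁻¹ y)⁻¹)
      (fun x y h => by
        rw [← mul_inv_eq_one]
        refine h3 _ ?_
        simp only [map_mul, map_inv]
        simp only [← div_eq_mul_inv, div_eq_div_iff_mul_eq_mul] at h ⊢
        rw [h, mul_comm]) a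
    have e : d y * (d⁻¹ y)⁻¹ = (d⁻¹ y * t (d⁻¹ y))⁻¹ * d (y * t y) := by
      have : d (t y) = t (d⁻¹ y) := by
        rw [← h1 (d (t y)), h2, h1]
      rw [map_mul, this, mul_inv_rev]
      rw [mul_right_comm, mul_comm (d y) (t _), inv_mul_cancel_left]
    beta_reduce
    rw [e]
    refine mul_mem (mem_sup_left (inv_mem ?_)) (mem_sup_right (mem_map_of_mem _ ?_))
    · show t _ = _
      rw [map_mul, h1, mul_comm]; rfl
    · show t _ = _
      rw [map_mul, h1, mul_comm]; rfl

end Cfsg.Agent.S1899
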