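import Cfsg.Statements.S1900
import Cfsg.Agent.Lib.Coprime.Generation
import Cfsg.Agent.Lib.PGroup.Omega
import Cfsg.Agent.Lib.PGroup.MaxClass
import Cfsg.Agent.Lib.Core.PCore

set_option autoImplicit false
open Cfsg

namespace Cfsg.Agent.S1900

open Cfsg.Lib Cfsg.Lib.Coprime Subgroup

/-- Let S = PQ be a finite group with P a normal Sylow p-subgroup and Q elementary abelian of order q², q a prime different from p. If exactly two subgroups X₁, X₂ of order q in Q have a nontrivial centralizer in P, then P is the internal direct product of C_P(X₁) and C_P(X₂): they commute elementwise, meet trivially and generate P. -/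
theorem result {S : Type*} [Group S] [Finite S] {p q : ℕ} [Fact p.Prime] [Fact q.Prime] (hpq : p ≠ q)
    (P : Sylow p S) [(P : Subgroup S).Normal] (Q : Subgroup S) (hQ : Cfsg.IsElementaryAbelian q Q) (hQc : Nat.card Q = q ^ 2)
    (hS : (P : Subgroup S) ⊔ Q = ⊤)
    (X₁ X₂ : Subgroup S) (h₁ : X₁ ≤ Q) (h₂ : X₂ ≤ Q) (h₁₂ : X₁ ≠ X₂) (hc₁ : Nat.card X₁ = q) (hc₂ : Nat.card X₂ = q)
    (hf₁ : (P : Subgroup S) ⊓ Subgroup.centralizer (X₁ : Set S) ≠ ⊥)
    (hf₂ : (P : Subgroup S) ⊓ Subgroup.centralizer (X₂ : Set S) ≠ ⊥)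
    (honly : ∀ X : Subgroup S, X ≤ Q → Nat.card X = q →
      (P : Subgroup S) ⊓ Subgroup.centralizer (X : Set S) ≠ ⊥ → X = X₁ ∨ X = X₂) :
    ⁅(P : Subgroup S) ⊓ Subgroup.centralizer (X₁ : Set S), (P : Subgroup S) ⊓ Subgroup.centralizer (X₂ : Set S)⁆ = ⊥ ∧
      ((P : Subgroup S) ⊓ Subgroup.centralizer (X₁ : Set S)) ⊓ ((P : Subgroup S) ⊓ Subgroup.centralizer (X₂ : Set S)) = ⊥ ∧
      ((P : Subgroup S) ⊓ Subgroup.centralizer (X₁ : Set S)) ⊔ ((P : Subgroup S) ⊓ Subgroup.centralizer (X₂ : Set S)) = P := by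
  have hq : q.Prime := Fact.out
  have hP := P.isPGroup'
  have hc : ∀ {X U : Subgroup S}, X ≤ Q → U ≤ P → (Nat.card X).Coprime (Nat.card U) := fun hX hU =>
    coprime_card_of_isPGroup (hP.to_le hU) (Nat.Coprime.of_dvd_left (card_dvd_of_le hX)
      (hQc ▸ ((Nat.coprime_primes hq Fact.out).2 hpq.symm).pow_left 2))
  have hidx : ∀ {X : Subgroup S}, X ≤ Q → X.relIndex Q = q → Nat.card X = q := fun h e => by
    have := PGroup.card_mul_relIndex h
    rw [e, hQc, pow_two] at this
    exact Nat.eq_of_mul_eq_mul_right hq.pos this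
  have hgen : ∀ {U H : Subgroup S}, U ≤ P → Q ≤ normalizer (U : Set S) → U ⊓ centralizer (X₁ : Set S) ≤ H →
      U ⊓ centralizer (X₂ : Set S) ≤ H → U ≤ H := fun {U H} hU hn e1 e2 =>
    le_of_forall_hyperplane' hQ (fun e => by rw [e, card_bot] at hQc; exact (one_lt_pow₀ hq.one_lt two_ne_zero).ne hQc)
      hn (hc le_rfl hU) fun B hB hi => by
        by_cases h : (P : Subgroup S) ⊓ centralizer (B : Set S) = ⊥
        · exact (inf_le_inf_right _ hU).trans (h.le.trans bot_le)
        · rcases honly B hB (hidx hB hi) h with rfl | rfl <;> assumption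
  have hn : ∀ {X : Subgroup S}, X ≤ Q → Q ≤ normalizer (((P : Subgroup S) ⊓ centralizer (X : Set S) : Subgroup S) : Set S) :=
    fun h => le_normalizer_inf le_normalizer_of_normal (le_normalizer_centralizer
      (((PGroup.elemAb_le_centralizer hQ).trans (centralizer_le h)).trans (centralizer_le_normalizer _)))
  have h0 : ((P : Subgroup S) ⊓ centralizer (X₁ : Set S)) ⊓ ((P : Subgroup S) ⊓ centralizer (X₂ : Set S)) = ⊥ := by
    have : Fact q.Prime := ⟨hq⟩
    have h3 := PGroup.card_over_eq_succ (p := q) (N := ⊥) (S := Q) bot_le le_normalizer_of_normal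
      (fun x hx => mem_bot.2 (hQ.2 x hx)) (by rw [relIndex_bot_left, hQc])
    have h4 : X₁ ⊔ X₂ = Q := by
      refine eq_of_le_of_card_ge (sup_le h₁ h₂) (hQc ▸ PGroup.pow_succ_le_card_of_lt
        ((PGroup.elemAb_isPGroup hQ).to_le (sup_le h₁ h₂)) ?_)
      rw [pow_one, ← hc₁]
      exact Core.card_lt_card_of_lt (left_lt_sup.2 fun h => h₁₂ (eq_of_le_of_card_ge h (hc₁.trans hc₂.symm).le).symm)
    by_contra h5
    have h6 : Nat.card {K : Subgroup S // ⊥ ≤ K ∧ K ≤ Q ∧ Nat.card K = q * Nat.card (⊥ : Subgroup S)} ≤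
        Nat.card ({X₁, X₂} : Set (Subgroup S)) := Nat.card_le_card_of_injective (fun K => ⟨K.1,
          honly K.1 K.2.2.1 (by simpa using K.2.2.2) fun e => h5 (eq_bot_iff.2 (e ▸ le_inf
            (inf_le_left.trans inf_le_left) (le_centralizer_iff.1 (K.2.2.1.trans (h4 ▸ sup_le
              (le_centralizer_iff.1 (inf_le_left.trans inf_le_right))
              (le_centralizer_iff.1 (inf_le_right.trans inf_le_right)))))))⟩)
        fun K L e => Subtype.ext (Subtype.mk.inj e)
    rw [h3, Nat.card_coe_set_eq, Set.ncard_pair h₁₂] at h6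
    have := hq.two_le
    omega
  have hs : ∀ {X : Subgroup S}, X ≤ Q → Group.IsSolvable X := fun h =>
    isSolvable_of_isMulCommutative (PGroup.isMulCommutative_of_le h hQ.1)
  set C₁ := (P : Subgroup S) ⊓ centralizer (X₁ : Set S)
  set C₂ := (P : Subgroup S) ⊓ centralizer (X₂ : Set S)
  have e1 : ⁅C₁, X₂⁆ = C₁ := by
    have := commutator_sup_centralizer (h₂.trans (hn h₁)) (hc h₂ inf_le_left) (Or.inl (hs h₂))
    rwa [eq_bot_iff.2 ((le_inf inf_le_left (inf_le_inf_right _ inf_le_left)).trans h0.le), sup_bot_eq] at this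
  have e2 : ⁅C₂, X₁⁆ = C₂ := by
    have := commutator_sup_centralizer (h₁.trans (hn h₂)) (hc h₁ inf_le_left) (Or.inl (hs h₁))
    rwa [eq_bot_iff.2 ((le_inf (inf_le_inf_right _ inf_le_left) inf_le_left).trans h0.le), sup_bot_eq] at this
  have hN : (P : Subgroup S) ≤ normalizer (C₁ : Set S) := by
    by_contra h
    set N := (P : Subgroup S) ⊓ normalizer (C₁ : Set S)
    have hQN : Q ≤ normalizer (N : Set S) :=
      le_normalizer_inf le_normalizer_of_normal (le_normalizer_normalizer (hn h₁))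
    have hCN : C₁ ≤ N := le_inf inf_le_left le_normalizer
    have e3 : ⁅N, X₂⁆ = C₁ := by
      rw [show N = C₁ ⊔ (N ⊓ centralizer (X₂ : Set S)) from le_antisymm (hgen inf_le_left hQN
        ((inf_le_inf_right _ inf_le_left).trans le_sup_left) le_sup_right) (sup_le hCN inf_le_left),
        commutator_sup_of_le_centralizer (inf_le_left.trans inf_le_right) inf_le_right, e1]
    refine (PGroup.lt_inf_normalizer hP (inf_lt_left.2 h)).not_ge (hgen inf_le_left
      (le_normalizer_inf le_normalizer_of_normal (le_normalizer_normalizer hQN))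
      ((inf_le_inf_right _ inf_le_left).trans hCN) (le_inf (inf_le_left.trans inf_le_left) ?_))
    exact (le_normalizer_commutator (inf_le_left.trans inf_le_right)
      (inf_le_right.trans (centralizer_le_normalizer _))).trans (by rw [e3])
  refine ⟨?_, h0, le_antisymm (sup_le inf_le_left inf_le_left)
    (hgen le_rfl le_normalizer_of_normal le_sup_left le_sup_right)⟩
  rw [commutator_comm, commutator_eq_bot_iff_le_centralizer]
  exact le_centralizer_of_normal_of_fixed e2 inf_le_right (inf_le_left.trans hN)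

end Cfsg.Agent.S1900
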