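import Cfsg.Statements.S1901
import Cfsg.Agent.Lib.Core.PSolvable
import Cfsg.Agent.Lib.Coprime.Nilpotent

set_option autoImplicit false
open Cfsg

namespace Cfsg.Agent.S1901

open Cfsg.Lib Cfsg.Lib.Core Cfsg.Lib.Transfer Subgroup

theorem le_cent {G : Type*} [Group G] [Finite G] {p : ℕ} [Fact p.Prime] {Q A : Subgroup G}
    (h : ¬ p ∣ (centralizer (Q : Set G)).relIndex (normalizer (Q : Set G))) (hA : IsPGroup p A)
    (hAQ : A ≤ normalizer (Q : Set G)) : A ≤ centralizer (Q : Set G) := by
  obtain ⟨g, hg, h1⟩ := exists_conj_le_of_not_dvd_relIndex' h hA hAQ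
  rwa [← conj_eq_self_iff.2 (normalizer_le_normalizer_centralizer' Q hg), conj_le_conj_iff] at h1

universe u in
theorem aux {p : ℕ} [Fact p.Prime] (G : Type u) [Group G] [Finite G] (hG : IsPSolvable p G)
    (Q A : Subgroup G) (hQ : (Nat.card Q).Coprime p) (hA : IsPGroup p A) (hAQ : A ≤ normalizer (Q : Set G))
    (P : Sylow p G) (hP : Q ≤ normalizer ((P : Subgroup G) : Set G)) : ⁅Q, A⁆ = ⊥ := by
  induction hn : Nat.card G using Nat.strong_induction_on generalizing G with | _ n ih
  rcases subsingleton_or_nontrivial G with _ | _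
  · exact Subsingleton.elim _ _
  have h1 : ∀ (N : Subgroup G) [N.Normal], N ≠ ⊥ → ⁅Q, A⁆ ≤ N := fun N _ hN => by
    have := ih _ (hn ▸ card_quotient_lt hN) (G ⧸ N) (isPSolvable_quotient hG N)
      (Q.map (QuotientGroup.mk' N)) (A.map (QuotientGroup.mk' N))
      (hQ.of_dvd_left (card_map_dvd _ _)) (hA.map _) ((map_mono hAQ).trans (le_normalizer_map _))
      (P.mapSurjective (QuotientGroup.mk'_surjective N)) ((map_mono hP).trans (le_normalizer_map _)) rfl
    rwa [← map_commutator, Subgroup.map_eq_bot_iff, QuotientGroup.ker_mk'] at this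
  have h2 : ⁅Q, A⁆ ≤ Q := Coprime.commutator_le_of_le_normalizer hAQ
  have h3 : (Nat.card ↥⁅Q, A⁆).Coprime p := hQ.of_dvd_left (card_dvd_of_le h2)
  rcases pCore_ne_bot_or_of_isPSolvable hG with h | h
  · exact eq_bot_of_isPGroup_of_coprime ((pCore_isPGroup p G).to_le (h1 _ h)) h3
  have h4 : (P : Subgroup G) ≤ centralizer ((⁅Q, A⁆ : Subgroup G) : Set G) := by
    rw [← commutator_eq_bot_iff_le_centralizer]
    exact eq_bot_of_isPGroup_of_coprime (P.isPGroup'.to_le (Coprime.commutator_le_of_le_normalizer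
      (h2.trans hP))) ((pPrimeCore_coprime p G).of_dvd_left (card_dvd_of_le
        ((commutator_mono le_rfl (h1 _ h)).trans (commutator_le_right _ _))))
  have h5 := le_cent (fun h => not_dvd_index_of_sylow_le P h4 (h.trans (relIndex_dvd_index_of_le
    (centralizer_le_normalizer _)))) hA (normalizer_commutator_ge_right Q A)
  rw [commutator_comm, commutator_eq_bot_iff_le_centralizer]
  exact Coprime.le_centralizer_of_commutator_commutator_eq_bot hAQ
    (Coprime.coprime_card_of_isPGroup hA hQ).symm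
    (by rwa [commutator_comm, commutator_eq_bot_iff_le_centralizer])

/-- Let G be a finite p-solvable group and Q a subgroup of order prime to p such that p divides the index of C_G(Q) in N_G(Q). Then Q normalizes no Sylow p-subgroup of G. -/
theorem result {G : Type*} [Group G] [Finite G] {p : ℕ} [Fact p.Prime]
    (hG : Cfsg.IsPSolvable p G) (Q : Subgroup G) (hQ : ¬ p ∣ Nat.card Q)
    (hA : p ∣ (Subgroup.centralizer (Q : Set G)).relIndex (Subgroup.normalizer (Q : Set G)))
    (P : Sylow p G) : ¬ Q ≤ Subgroup.normalizer ((P : Subgroup G) : Set G) := by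
  intro h
  obtain ⟨T, -, h1, h2, h3⟩ := exists_sylowIn_ge (p := p) (H := normalizer (Q : Set G)) IsPGroup.of_bot bot_le
  have h4 := aux G hG Q T ((Nat.Prime.coprime_iff_not_dvd Fact.out).2 hQ).symm h2 h1 P h
  rw [commutator_comm, commutator_eq_bot_iff_le_centralizer] at h4
  exact h3 (hA.trans (relIndex_dvd_of_le_left _ h4))

end Cfsg.Agent.S1901
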