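import Cfsg.Statements.S1902
import Cfsg.Agent.Lib.Core.PSolvable
import Cfsg.Agent.Lib.Coprime.Constraint
import Cfsg.Agent.Lib.PGroup.Omega

set_option autoImplicit false
open Cfsg

namespace Cfsg.Agent.S1902

open Cfsg.Lib Cfsg.Lib.Core Cfsg.Lib.Transfer Subgroup

/-- Let p be an odd prime, G a finite p-solvable group, and B an elementary abelian subgroup of order p² such that B is the subgroup generated by the elements of order p of some Sylow p-subgroup of C_G(b₀), for some nontrivial b₀ ∈ B. Then every B-invariant subgroup of G of order prime to p lies in O_{p'}(G). -/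
theorem result {G : Type*} [Group G] [Finite G] {p : ℕ} [Fact p.Prime] (hp : p ≠ 2)
    (hG : Cfsg.IsPSolvable p G) (B : Subgroup G) (hB : Cfsg.IsElementaryAbelian p B) (hBc : Nat.card B = p ^ 2)
    (b₀ : G) (hb₀ : b₀ ∈ B) (hb₁ : b₀ ≠ 1) (P : Sylow p ↥(Subgroup.centralizer ({b₀} : Set G)))
    (hBP : B = Subgroup.closure {x : G | x ∈ ((P : Subgroup ↥(Subgroup.centralizer ({b₀} : Set G))).map
      (Subgroup.centralizer ({b₀} : Set G)).subtype : Subgroup G) ∧ orderOf x = p})
    (Q : Subgroup G) (hQ : ¬ p ∣ Nat.card Q) (hinv : ∀ b ∈ B, ∀ x ∈ Q, b * x * b⁻¹ ∈ Q) :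
    Q ≤ Cfsg.pPrimeCore p G := by
  refine Coprime.thompson_bender (isPConstrained_iff.1 (isPConstrained_of_isPSolvable hG)) hp
    (PGroup.elemAb_isPGroup hB) (fun x hx h1 => ?_) ((Nat.Prime.coprime_iff_not_dvd Fact.out).2 hQ).symm
    fun b hb => mem_normalizer_of_conj_le (conj_le_iff.2 (hinv b hb))
  have h2 := PGroup.elemAb_sup_zpowers hB hx h1
  obtain ⟨g, -, h3⟩ := exists_conj_le_of_not_dvd_relIndex' (not_dvd_relIndex_map_sylow P)
    (PGroup.elemAb_isPGroup h2) ((PGroup.elemAb_le_centralizer h2).trans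
      (centralizer_le (Set.singleton_subset_iff.2 (mem_sup_left hb₀))))
  have h4 : g ⋆ (B ⊔ zpowers x) ≤ B := fun y hy => by
    by_cases h : y = 1
    · exact h ▸ one_mem _
    · exact hBP.ge (subset_closure ⟨h3 hy, PGroup.elemAb_orderOf (PGroup.elemAb_map _ h2) hy h⟩)
  rw [eq_of_le_of_card_ge (le_sup_left : B ≤ B ⊔ zpowers x) ((card_conj g _).ge.trans (card_le_of_le h4))]
  exact mem_sup_right (mem_zpowers x)

end Cfsg.Agent.S1902
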