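import Cfsg.Statements.S1905
import Cfsg.Agent.Lib.Inv.StronglyEmbedded
import Cfsg.Agent.Lib.Loc.StronglyEmbedded

set_option autoImplicit false
open Cfsg

namespace Cfsg.Agent.S1905

open Cfsg.Lib Cfsg.Lib.Inv Cfsg.Lib.Transfer Subgroup

/-- Let M be a subgroup of even order of a finite group S such that M contains the centralizer in S of each of its involutions and the normal core of M in S has odd order. Then all involutions of S are conjugate. If moreover N_S(X) ≤ M for a Sylow 2-subgroup X of M and I is an involution in the centre of X, then all involutions of M are conjugate in M and M = M₀ C_M(I) for some subgroup M₀ of M of odd order. -/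
theorem result {S : Type*} [Group S] [Finite S] (M : Subgroup S) (hM : Even (Nat.card M))
    (hC : ∀ i ∈ M, orderOf i = 2 → Subgroup.centralizer ({i} : Set S) ≤ M) (hcore : Odd (Nat.card M.normalCore)) :
    (∀ x y : S, orderOf x = 2 → orderOf y = 2 → IsConj x y) ∧
      ∀ (X : Sylow 2 M) (I : M), I ∈ (Subgroup.center ↥(X : Subgroup ↥M)).map (X : Subgroup ↥M).subtype → orderOf I = 2 →
        Subgroup.normalizer (((X : Subgroup M).map M.subtype : Subgroup S) : Set S) ≤ M →
        (∀ x y : M, orderOf x = 2 → orderOf y = 2 → IsConj x y) ∧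
          ∃ M₀ : Subgroup M, Odd (Nat.card M₀) ∧
            ∀ m : M, ∃ a ∈ M₀, ∃ c ∈ Subgroup.centralizer ({I} : Set M), m = a * c := by
  have : Fact (Nat.Prime 2) := ⟨Nat.prime_two⟩
  obtain ⟨s, hsM, hs⟩ := exists_involution_mem_of_even hM
  obtain ⟨u, huM, hu⟩ : ∃ u, u ∉ M ∧ orderOf u = 2 := by
    by_contra h
    push Not at h
    exact odd_card_iff.1 hcore s (fun g => by_contra fun e => h _ e (by rwa [orderOf_conj'])) hs
  have h1 : ∀ {x y : S}, orderOf x = 2 → orderOf y = 2 → x ∈ M → y ∉ M → IsConj x y := fun hx hy h2 h3 => by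
    by_contra h
    obtain ⟨z, -, h4, h5, h6⟩ := exists_commute_of_not_isConj (mul_self_of_orderOf hx) (mul_self_of_orderOf hy) h
    exact h3 (hC z (hC _ h2 hx (mem_centralizer_singleton_iff.2 h5)) h4 (mem_centralizer_singleton_iff.2 h6.symm))
  refine ⟨fun x y hx hy => ?_, fun X I _ hI hN => ?_⟩
  · by_cases h2 : x ∈ M <;> by_cases h3 : y ∈ M
    · exact (h1 hx hu h2 huM).trans (h1 hy hu h3 huM).symm
    · exact h1 hx hy h2 h3
    · exact (h1 hy hx h3 h2).symm
    · exact (h1 hs hx hsM h2).symm.trans (h1 hs hy hsM h3)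
  have h2 := Loc.spe_iff_mem.1 (Loc.spe_of_centralizers_le (fun e : M = ⊤ => huM (e ▸ mem_top u)) (map_subtype_le _)
    (X.isPGroup'.map _) (not_dvd_relIndex_map_sylow X) (fun x hx => hC x (map_subtype_le _ hx)) hN)
  have h3 : IsStronglyEmbedded M := se_iff.2 ⟨h2.1, hM, h2.2.2⟩
  refine ⟨fun x y hx hy => ?_, (M ⊓ u ⋆ M).subgroupOf M, ?_, fun m => ?_⟩
  · obtain ⟨h, h4, h5⟩ := se_exists_conj_mem h3 (by rwa [orderOf_coe]) (by rwa [orderOf_coe]) x.2 y.2
    exact isConj_iff.2 ⟨⟨h, h4⟩, Subtype.ext h5⟩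
  · rw [Core.card_subgroupOf_of_le inf_le_left]
    exact se_odd_inf_conj h3 huM
  · obtain ⟨k, h4, h5, h6⟩ := se_exists_inverted_conj h3 (mul_self_of_orderOf hu) huM (s := I)
      (s' := (m * I * m⁻¹ : M)) (by rwa [orderOf_coe]) I.2 (by rwa [orderOf_coe, orderOf_conj']) (SetLike.coe_mem _)
    refine ⟨⟨k, h4⟩⁻¹, inv_mem (mem_inf_conj_of_inverted (mul_self_of_orderOf hu) h4 h5), ⟨k, h4⟩ * m,
      mem_centralizer_singleton_iff.2 (Subtype.ext ?_), (inv_mul_cancel_left _ _).symm⟩
    push_cast at h6 ⊢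
    rw [mul_assoc, mul_inv_eq_iff_eq_mul.1 h6.symm]
    group

end Cfsg.Agent.S1905
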