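import Cfsg.Statements.S1907
import Cfsg.Agent.Lib.Coprime.Supplement
import Cfsg.Agent.Lib.Core.PSolvable

set_option autoImplicit false
open Cfsg

namespace Cfsg.Agent.S1907

open Cfsg.Lib Cfsg.Lib.Core Cfsg.Lib.Coprime Cfsg.Lib.Transfer Subgroup

/-- Let P be a Sylow p-subgroup of a finite group G, H = P ∩ O_{p',p}(G), N = N_G(H) and D = O_{p'}(G). (a) If y is an element of p-power order of N and d ∈ D with d⁻¹ y d ∈ N, then d = d₁ d₂ with d₁ ∈ C_D(y) and d₂ ∈ C_D(H). (b) Two elements of P that are conjugate in G are conjugate in N. -/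
theorem result {G : Type*} [Group G] [Finite G] {p : ℕ} [Fact p.Prime] (P : Sylow p G) :
    (∀ y ∈ Subgroup.normalizer (((P : Subgroup G) ⊓ Cfsg.pPrimePCore p G : Subgroup G) : Set G), (∃ k : ℕ, orderOf y = p ^ k) →
      ∀ d ∈ Cfsg.pPrimeCore p G, d⁻¹ * y * d ∈ Subgroup.normalizer (((P : Subgroup G) ⊓ Cfsg.pPrimePCore p G : Subgroup G) : Set G) →
        ∃ d₁ ∈ Cfsg.pPrimeCore p G ⊓ Subgroup.centralizer ({y} : Set G),
          ∃ d₂ ∈ Cfsg.pPrimeCore p G ⊓ Subgroup.centralizer (((P : Subgroup G) ⊓ Cfsg.pPrimePCore p G : Subgroup G) : Set G), d = d₁ * d₂) ∧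
    ∀ x y : G, x ∈ (P : Subgroup G) → y ∈ (P : Subgroup G) → IsConj x y →
      ∃ n ∈ Subgroup.normalizer (((P : Subgroup G) ⊓ Cfsg.pPrimePCore p G : Subgroup G) : Set G), n * x * n⁻¹ = y := by
  set H := (P : Subgroup G) ⊓ pPrimePCore p G
  have hH : IsPGroup p H := P.isPGroup'.to_inf_left
  have h1 : ∀ {y g : G}, y ∈ normalizer (H : Set G) → IsPGroup p (zpowers y) →
      g ∈ pPrimeCore p G ⊔ normalizer (H : Set G) → g * y * g⁻¹ ∈ normalizer (H : Set G) →
      ∃ u ∈ normalizer (H : Set G), ∃ c ∈ pPrimeCore p G ⊓ centralizer {y}, g = u * c := fun hy hp hg h => by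
    rw [← centralizer_zpowers]
    exact exists_mul_centralizer_of_conj_le le_normalizer_of_normal (zpowers_le.2 hy)
      (Core.coprime_card_of_isPGroup hp (pPrimeCore_coprime p G)) (Or.inl (Core.isSolvable_of_isPGroup hp)) hg
      (by rwa [conj_zpowers, zpowers_le])
  refine ⟨fun y hy ⟨k, hk⟩ d hd h => ?_, fun x y hx hy h => ?_⟩
  · obtain ⟨u, hu, c, hc, e⟩ := h1 (g := d⁻¹) hy (IsPGroup.of_card (by rw [Nat.card_zpowers, hk]))
      (mem_sup_left (inv_mem hd)) (by rwa [inv_inv])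
    have h2 : u ∈ pPrimeCore p G := by
      rw [← mul_inv_eq_iff_eq_mul.2 e]
      exact mul_mem (inv_mem hd) (Subgroup.inv_mem _ hc.1)
    refine ⟨c⁻¹, inv_mem hc, u⁻¹, inv_mem ⟨h2, ?_⟩, by rw [← mul_inv_rev, ← e, inv_inv]⟩
    refine (commutator_eq_bot_iff_le_centralizer (H₁ := pPrimeCore p G ⊓ normalizer (H : Set G))).1
      (eq_bot_of_isPGroup_of_coprime (hH.to_le (le_normalizer_iff_commutator_le_right.1 inf_le_right))
        ((pPrimeCore_coprime p G).of_dvd_left (card_dvd_of_le ((commutator_mono inf_le_left le_rfl).trans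
          (commutator_le_left _ _))))) ⟨h2, hu⟩
  · obtain ⟨g, rfl⟩ := isConj_iff.1 h
    have h2 : (P : Subgroup G) ≤ normalizer (H : Set G) := Core.le_normalizer_inf le_normalizer le_normalizer_of_normal
    have h3 := sup_inf_normalizer_of_normal_sup (M := ⊤) (pPrimeCore_coprime p G) hH le_top le_top
      le_normalizer_of_normal (by
        rw [pPrimeCore_sup_eq_pPrimePCore inf_le_right (by
          rw [inf_relIndex_right]; exact sylow_not_dvd_relIndex_normal P _)]
        exact le_normalizer_of_normal)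
    rw [top_inf_eq] at h3
    obtain ⟨u, hu, c, hc, rfl⟩ := h1 (h2 hx) (P.isPGroup'.to_le (zpowers_le.2 hx)) (h3 ▸ mem_top g) (h2 hy)
    refine ⟨u, hu, ?_⟩
    rw [mul_assoc u c, mem_centralizer_singleton_iff.1 hc.2]
    group

end Cfsg.Agent.S1907
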