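import Cfsg.Statements.S1924
import Cfsg.Agent.Lib.Comp.Pump
import Cfsg.Agent.Lib.Inv.QDSylow
import Cfsg.Agent.Lib.Transfer.Fusion

set_option autoImplicit false
open Cfsg

namespace Cfsg.Agent.S1924

open Subgroup Cfsg.Lib Cfsg.Lib.BG Cfsg.Lib.Core Cfsg.Lib.Comp

theorem sign_semireg {α : Type*} [Fintype α] [DecidableEq α] (σ : Equiv.Perm α) {N m : ℕ}
    (hN : Even N) (hN0 : N ≠ 0) (hm : Odd m) (hc : Fintype.card α = N * m) (h1 : σ ^ N = 1)
    (h : ∀ (j : ℕ) (x : α), (σ ^ j) x = x → N ∣ j) : Equiv.Perm.sign σ = -1 := by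
  have hs : σ.support = Finset.univ := by
    refine Finset.eq_univ_of_forall fun x => Equiv.Perm.mem_support.2 fun e => ?_
    have := Nat.dvd_one.1 (h 1 x (by rwa [pow_one]))
    rw [this] at hN
    exact Nat.not_even_one hN
  have hall : ∀ n ∈ σ.cycleType, n = N := by
    intro n hn
    refine Nat.dvd_antisymm ((Equiv.Perm.dvd_of_mem_cycleType hn).trans
      (orderOf_dvd_of_pow_eq_one h1)) ?_
    rw [Equiv.Perm.cycleType_def, Multiset.mem_map] at hn
    obtain ⟨c, hc, rfl⟩ := hn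
    have hc' := Equiv.Perm.mem_cycleFactorsFinset_iff.1 hc
    obtain ⟨x, hx, -⟩ := hc'.1
    have e := Equiv.Perm.cycle_is_cycleOf (Equiv.Perm.mem_support.2 hx) hc
    refine h _ x ?_
    rw [← Equiv.Perm.pow_mod_card_support_cycleOf_self_apply, ← e, Function.comp_apply,
      Nat.mod_self, pow_zero, Equiv.Perm.one_apply]
  have h2 := Equiv.Perm.sum_cycleType σ
  rw [hs, Finset.card_univ, hc, Multiset.eq_replicate_card.2 hall, Multiset.sum_replicate,
    smul_eq_mul, mul_comm] at h2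
  have h3 := Nat.eq_of_mul_eq_mul_left (Nat.pos_of_ne_zero hN0) h2
  rw [Equiv.Perm.sign_of_cycleType, Equiv.Perm.sum_cycleType, hs, Finset.card_univ, hc, h3]
  exact ((hN.mul_right m).add_odd hm).neg_one_pow

theorem exists_index_two {G : Type*} [Group G] [Finite G] (T : Subgroup G) {e : G}
    (he : Even (orderOf e)) {m : ℕ} (hm : Odd m) (hi : T.index = orderOf e * m)
    (h : ∀ (j : ℕ) (g : G), g⁻¹ * e ^ j * g ∈ T → e ^ j = 1) : ∃ H : Subgroup G, H.index = 2 := by
  classical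
  have := Fintype.ofFinite (G ⧸ T)
  let φ : G →* ℤˣ := Equiv.Perm.sign.comp (MulAction.toPermHom G (G ⧸ T))
  have h1 : φ e = -1 := by
    refine sign_semireg _ he (orderOf_pos e).ne' hm (by rw [← hi, index, Nat.card_eq_fintype_card])
      (by rw [← map_pow, pow_orderOf_eq_one, map_one]) fun j x hx => ?_
    obtain ⟨g, rfl⟩ := QuotientGroup.mk_surjective x
    rw [← map_pow, MulAction.toPermHom_apply, MulAction.toPerm_apply,
      MulAction.Quotient.smul_mk, eq_comm, QuotientGroup.eq, smul_eq_mul, ← mul_assoc] at hx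
    exact orderOf_dvd_of_pow_eq_one (h j g hx)
  refine ⟨φ.ker, ?_⟩
  rw [index_ker, MonoidHom.range_eq_top.2, card_top, Nat.card_eq_fintype_card, Fintype.card_units_int]
  intro u
  rcases Int.units_eq_one_or u with rfl | rfl
  exacts [⟨1, map_one _⟩, ⟨e, h1⟩]

theorem prod_inj {G : Type*} [Group G] {A B X : Subgroup G} (h : A ⊓ B = ⊥) (hA : A ≤ X)
    (hB : B ≤ X) : Function.Injective fun q : A × B =>
      (⟨q.1 * q.2, mul_mem (hA q.1.2) (hB q.2.2)⟩ : X) := fun _ _ e =>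
  mul_injective_of_disjoint (disjoint_iff.2 h) (congrArg Subtype.val e)

theorem dih_sq {n : ℕ} (hn : 2 ≤ n) (C : Subgroup (DihedralGroup n)) (hC : IsCyclic C)
    (hi : C.index = 2) {x : DihedralGroup n} (hx : x ∉ C) : orderOf x = 2 := by
  have : NeZero n := ⟨by omega⟩
  obtain ⟨c, -, rfl⟩ := cyclic_iff.1 hC
  have h1 := card_mul_index (zpowers c)
  rw [hi, DihedralGroup.nat_card, Nat.card_zpowers] at h1
  have h2 : orderOf c = n := by omega
  rcases x with j | j
  · rcases c with i | i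
    · refine absurd ?_ hx
      have hle : ∀ k : ZMod n, DihedralGroup.r k ∈ zpowers (DihedralGroup.r (1 : ZMod n)) :=
        fun k => ⟨k.val, by simp⟩
      rw [eq_of_le_of_card_ge (zpowers_le.2 (hle i))
        (by rw [Nat.card_zpowers, Nat.card_zpowers, h2, DihedralGroup.orderOf_r_one])]
      exact hle j
    · rw [DihedralGroup.orderOf_sr] at h2
      subst h2
      refine orderOf_eq_prime ?_ fun e => hx (e ▸ one_mem _)
      rw [DihedralGroup.r_pow, ZMod.natCast_self, mul_zero, DihedralGroup.r_zero]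
  · exact DihedralGroup.orderOf_sr j

/-- A consequence of Thompson's transfer lemma. Let G be a finite group, L a subgroup with O²(L) = L, T a Sylow 2-subgroup of L and S a Sylow 2-subgroup of G containing T. Suppose D ≤ S is a dihedral subgroup of order at least 4 (the four-group counts) with D ∩ T = 1 and S = TD as a set of products (so |S| = |T|·|D|), and C ≤ D is cyclic of index 2 in D. If no involution of D outside C is G-conjugate to an involution of the subgroup generated by T and C, and the involution of C is not G-conjugate to any involution of T, then G has a normal subgroup K, containing every Sylow 2-subgroup of L as a Sylow 2-subgroup, with G = KD. -/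
theorem result {G : Type*} [Group G] [Finite G] (L T S D C : Subgroup G) (hL : Cfsg.pResidual 2 ↥L = ⊤)
    (hTL : T ≤ L) (hT2 : IsPGroup 2 T) (hTsyl : ¬ 2 ∣ T.relIndex L)
    (hS2 : IsPGroup 2 S) (hSsyl : ¬ 2 ∣ S.index) (hTS : T ≤ S)
    (hDS : D ≤ S) (hDih : ∃ n : ℕ, 2 ≤ n ∧ Nonempty (↥D ≃* DihedralGroup n)) (hDT : D ⊓ T = ⊥) (hTD : T ⊔ D = S) (hTDc : Nat.card T * Nat.card D = Nat.card S)
    (hCD : C ≤ D) (hC : IsCyclic ↥C) (hCi : C.relIndex D = 2)
    (h1 : ∀ x ∈ D, x ∉ C → orderOf x = 2 → ∀ g : G, g * x * g⁻¹ ∈ T ⊔ C → False)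
    (h2 : ∀ c ∈ C, orderOf c = 2 → ∀ g : G, g * c * g⁻¹ ∈ T → False) :
    ∃ K : Subgroup G, K.Normal ∧ K ⊔ D = ⊤ ∧
      ∀ T' : Subgroup G, T' ≤ L → IsPGroup 2 T' → ¬ 2 ∣ T'.relIndex L → T' ≤ K ∧ ¬ 2 ∣ T'.relIndex K := by
  obtain ⟨n, hn, ⟨ε⟩⟩ := hDih
  have hinv : ∀ x ∈ D, x ∉ C → orderOf x = 2 := by
    intro x hx hxC
    have := dih_sq hn ((C.subgroupOf D).map ε.toMonoidHom)
      (((subgroupOfEquivOfLe hCD).symm.trans (ε.subgroupMap _)).isCyclic.1 hC)
      (by rw [index_map_of_bijective ε.bijective]; exact hCi) (x := ε ⟨x, hx⟩)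
      (fun h => hxC ((mem_map_iff_mem (f := ε.toMonoidHom) (x := ⟨x, hx⟩) ε.injective).1 h))
    rwa [MulEquiv.orderOf_eq, orderOf_mk] at this
  have hTD' : T ⊓ D = ⊥ := by rw [inf_comm, hDT]
  have hQ : (T ⊔ C).relIndex S = 2 := by
    have hle : T ⊔ C ≤ S := sup_le hTS (hCD.trans hDS)
    have h3 := BG.card_mul_relIndex hle
    have h4 := BG.card_mul_relIndex hCD
    have h5 := Nat.card_le_card_of_injective _ (prod_inj (X := T ⊔ C)
      (eq_bot_iff.2 (hTD' ▸ inf_le_inf_left T hCD)) le_sup_left le_sup_right)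
    rw [Nat.card_prod] at h5
    have h6 : (T ⊔ C).relIndex S ≠ 1 := fun h => by
      obtain ⟨x, hx, hxC⟩ : ∃ x ∈ D, x ∉ C := by
        by_contra hc
        push Not at hc
        rw [relIndex_eq_one.2 hc] at hCi
        omega
      exact h1 x hx hxC (hinv x hx hxC) 1 (by simpa using relIndex_eq_one.1 h (hDS hx))
    have h7 : (T ⊔ C).relIndex S ≠ 0 := index_ne_zero_of_finite
    have h8 : Nat.card ↥(T ⊔ C) * (T ⊔ C).relIndex S ≤ Nat.card ↥(T ⊔ C) * 2 := by
      rw [h3, ← hTDc, ← h4, hCi, ← mul_assoc]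
      exact Nat.mul_le_mul_right 2 h5
    have := Nat.le_of_mul_le_mul_left h8 Nat.card_pos
    omega
  let P : Sylow 2 G := hS2.toSylow hSsyl
  set K := pResidual 2 G with hK
  have hKn : K.Normal := Transfer.pResidual_normal
  have hEC : K ⊓ D ≤ C := by
    intro x hx
    by_contra hxC
    have ho := hinv x hx.2 hxC
    exact Transfer.thompson_transfer P hQ (by rw [← ho, pow_orderOf_eq_one]) (hDS hx.2)
      (h1 x hx.2 hxC ho) (mem_sup_left hx.1)
  have hLK : L ≤ K := by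
    intro x hx
    have : (⊤ : Subgroup L) ≤ K.comap L.subtype := by
      rw [← hL]
      refine (closure_le _).2 fun y hy => subset_closure ?_
      rwa [Set.mem_ofPred_eq, subtype_apply, orderOf_coe]
    exact this (mem_top (⟨x, hx⟩ : L))
  have hTK := hTL.trans hLK
  have hSy : Syl 2 (S ⊓ K) K :=
    Hall.inf_nml (Syl.iff.2 ⟨le_top, hS2, by rwa [relIndex_top_right]⟩) ⟨le_top, le_normalizer_of_normal⟩
  have hcard : Nat.card T * Nat.card ↥(K ⊓ D) = Nat.card ↥(S ⊓ K) := by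
    rw [← Nat.card_prod]
    refine Nat.card_eq_of_bijective _ ⟨prod_inj (eq_bot_iff.2 (hTD' ▸ inf_le_inf_left T inf_le_right))
      (le_inf hTS hTK) (le_inf (inf_le_right.trans hDS) inf_le_left), fun x => ?_⟩
    obtain ⟨⟨t, d⟩, e⟩ := ((Nat.bijective_iff_injective_and_card _).2
      ⟨prod_inj hTD' hTS hDS, by rw [Nat.card_prod, hTDc]⟩).2 ⟨x, x.2.1⟩
    have e' : (t : G) * d = x := congrArg Subtype.val e
    refine ⟨⟨t, d, mem_inf.2 ⟨?_, d.2⟩⟩, Subtype.ext e'⟩
    exact (mul_mem_cancel_left (hTK t.2)).1 (e' ▸ x.2.2)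
  have hE : K ⊓ D = ⊥ := by
    by_contra hne
    obtain ⟨e, he⟩ := isCyclic_iff_exists_zpowers_eq_top.1 (Subgroup.isCyclic_of_le hEC)
    have hoe : orderOf (e : G) = Nat.card ↥(K ⊓ D) := by
      rw [orderOf_coe, ← Nat.card_zpowers, he, card_top]
    have hE2 : IsPGroup 2 ↥(K ⊓ D) := pgroup_of_le hS2 (inf_le_right.trans hDS)
    obtain ⟨H, hH⟩ := exists_index_two (T.subgroupOf K) (e := ⟨e, e.2.1⟩)
      (by rw [orderOf_mk, hoe]; exact even_iff_two_dvd.2 (pgroup_dvd_card hE2 hne))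
      (m := (S ⊓ K).relIndex K) (Nat.odd_iff.2 (Nat.two_dvd_ne_zero.1 (Syl.iff.1 hSy).2.2))
      (by
        rw [orderOf_mk, hoe]
        change T.relIndex K = _
        rw [← relIndex_mul_relIndex T (S ⊓ K) K (le_inf hTS hTK) inf_le_right]
        congr 1
        refine Nat.eq_of_mul_eq_mul_left (Nat.card_pos (α := T)) ?_
        rw [BG.card_mul_relIndex (le_inf hTS hTK), hcard])
      (fun j g hg => by
        by_contra hj
        have hj' : (e : G) ^ j ≠ 1 := fun h => hj (Subtype.ext h)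
        have hm : (e : G) ^ j ∈ K ⊓ D := pow_mem e.2 j
        obtain ⟨k, hk⟩ := (IsPGroup.iff_orderOf.1 hE2) ⟨_, hm⟩
        rw [orderOf_mk] at hk
        obtain _ | k := k
        · exact hj' (orderOf_eq_one_iff.1 hk)
        refine h2 (((e : G) ^ j) ^ 2 ^ k) (hEC (pow_mem hm _)) ?_ (g : G)⁻¹ ?_
        · rw [orderOf_pow, hk, Nat.gcd_eq_right (pow_dvd_pow 2 (Nat.le_succ k)), pow_succ,
            Nat.mul_div_cancel_left _ (by positivity)]
        · rw [← conj_pow, inv_inv]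
          exact pow_mem (mem_subgroupOf.1 hg) _)
    exact Inv.pResidual_index_ne_two H hH
  rw [hE, card_bot, mul_one] at hcard
  refine ⟨K, hKn, ?_, fun T' h3 h4 h5 => ⟨h3.trans hLK, ?_⟩⟩
  · rw [eq_top_iff, ← Transfer.pResidual_sup_sylow P]
    exact sup_le le_sup_left (hTD.ge.trans (sup_le_sup_right hTK D))
  · have := Hall.card_eq (Syl.iff.2 ⟨h3, h4, h5⟩) (Syl.iff.2 ⟨hTL, hT2, hTsyl⟩)
    exact (Syl.iff.1 (hSy.of_card_le (h3.trans hLK) (PiGrp.p_iff.2 h4) (by omega))).2.2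

end Cfsg.Agent.S1924
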