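import Cfsg.Statements.S1935
import Cfsg.Agent.Lib.Q2S.D
import Cfsg.Agent.S0599
-- import your own Cfsg.Agent.* helpers here

set_option autoImplicit false
open Cfsg
open scoped IsMulCommutative

namespace Cfsg.Agent.S1935

/-- Let p ≥ 5 be a prime and, inside an ambient finite group, let G be a p-subgroup acting faithfully by conjugation on an elementary abelian p-subgroup V that it normalizes (only the identity of G centralizes V). Suppose V is an F-module for G: some nontrivial elementary abelian subgroup E of G satisfies #E · #C_V(E) ≥ #V. Then G contains such an offender A that moreover acts quadratically on V ([V, A, A] = 1) and is normal in its normal closure in G. -/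
theorem result {Ω : Type*} [Group Ω] [Finite Ω] (p : ℕ) [Fact p.Prime] (hp : 5 ≤ p) (V G : Subgroup Ω) (hV : Cfsg.IsElementaryAbelian p V) (hG : IsPGroup p ↥G) (hGV : G ≤ Subgroup.normalizer (V : Set Ω)) (hfaith : G ⊓ Subgroup.centralizer (V : Set Ω) = ⊥) (hF : ∃ E : Subgroup Ω, E ≤ G ∧ E ≠ ⊥ ∧ Cfsg.IsElementaryAbelian p E ∧ Nat.card ↥V ≤ Nat.card ↥E * Nat.card ↥(V ⊓ Subgroup.centralizer (E : Set Ω))) : ∃ A : Subgroup Ω, A ≤ G ∧ A ≠ ⊥ ∧ Cfsg.IsElementaryAbelian p A ∧ Nat.card ↥V ≤ Nat.card ↥A * Nat.card ↥(V ⊓ Subgroup.centralizer (A : Set Ω)) ∧ ⁅⁅V, A⁆, A⁆ = ⊥ ∧ ∀ g ∈ Subgroup.closure {x : Ω | ∃ h ∈ G, ∃ a ∈ A, x = h * a * h⁻¹}, ∀ a ∈ A, g * a * g⁻¹ ∈ A := by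
  classical
  haveI := hV.1
  have hpp : p.Prime := Fact.out
  obtain ⟨k, hk⟩ : Odd p := hpp.odd_of_ne_two (by omega)
  have hp0 : ((2 * k + 1 : ℕ) : AddMonoid.End (Additive V)) = 0 := by
    rw [← hk]; exact Lib.Q2S.char_End V hV.2
  have hρ := Lib.Q2S.rep_inj V G hGV hfaith
  haveI : Group.IsNilpotent G := hG.isNilpotent
  haveI : Finite (AddMonoid.End (Additive V)) :=
    Finite.of_injective (fun f : AddMonoid.End (Additive V) => (f : Additive V → Additive V))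
      DFunLike.coe_injective
  obtain ⟨E, hEG, hE0, hE, hoff⟩ := hF
  haveI : Nonempty {B : Subgroup Ω // B ≤ E ∧ B ≠ ⊥} := ⟨⟨E, le_rfl, hE0⟩⟩
  obtain ⟨⟨B, hBE, hB0⟩, hmax⟩ := Finite.exists_max (fun B : {B : Subgroup Ω // B ≤ E ∧ B ≠ ⊥} =>
    Nat.card B.1 * Nat.card (V ⊓ Subgroup.centralizer (B.1 : Set Ω) : Subgroup Ω))
  have hbot : Nat.card (⊥ : Subgroup Ω) *
      Nat.card (V ⊓ Subgroup.centralizer ((⊥ : Subgroup Ω) : Set Ω) : Subgroup Ω) = Nat.card V := by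
    have : Subgroup.centralizer ((⊥ : Subgroup Ω) : Set Ω) = ⊤ := by
      rw [eq_top_iff]
      intro x _ y hy
      have : y = 1 := hy
      simp [this]
    rw [this, inf_top_eq, Subgroup.card_bot, one_mul]
  have hbest : Cfsg.IsBestOffenderOn p V B := by
    refine ⟨fun C hC => ?_, ?_, fun a ha => ?_⟩
    · by_cases hC0 : C = ⊥
      · rw [hC0, hbot]; exact hoff.trans (hmax ⟨E, le_rfl, hE0⟩)
      · exact hmax ⟨C, hC.trans hBE, hC0⟩
    · rw [Subgroup.commutator_le]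
      intro a ha b hb
      have : a * b = b * a := congrArg Subtype.val (hE.1.is_comm.comm ⟨a, hBE ha⟩ ⟨b, hBE hb⟩)
      rw [commutatorElement_eq_one_iff_mul_comm.2 this]
      exact one_mem _
    · rw [hE.2 a (hBE ha)]; exact one_mem _
  have hBG : B ≤ G := hBE.trans hEG
  obtain ⟨h1, -, h3⟩ := S0599.result V B hV (hBG.trans hGV) hbest V le_rfl
  have hVB : ⁅V, B⁆ ≠ ⊥ := by
    intro h
    rw [Subgroup.commutator_comm, Subgroup.commutator_eq_bot_iff_le_centralizer] at h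
    exact hB0 (le_bot_iff.1 (hfaith ▸ le_inf hBG h))
  have hq0 : ⁅⁅V, B ⊓ Subgroup.centralizer ((⁅V, B⁆ : Subgroup Ω) : Set Ω)⁆,
      B ⊓ Subgroup.centralizer ((⁅V, B⁆ : Subgroup Ω) : Set Ω)⁆ = ⊥ := by
    rw [eq_bot_iff]
    refine (Subgroup.commutator_mono (Subgroup.commutator_mono le_rfl inf_le_left)
      inf_le_right).trans ?_
    rw [le_bot_iff, Subgroup.commutator_comm, Subgroup.commutator_eq_bot_iff_le_centralizer]
  have hne := h3 hVB
  have hof := h1.1 ⊥ bot_le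
  rw [hbot] at hof
  have hle : B ⊓ Subgroup.centralizer ((⁅V, B⁆ : Subgroup Ω) : Set Ω) ≤ G := inf_le_left.trans hBG
  generalize B ⊓ Subgroup.centralizer ((⁅V, B⁆ : Subgroup Ω) : Set Ω) = A0 at hq0 hne hof hle
  have hA0 : Lib.Q2S.QO (Lib.Q2S.rep V G hGV) (Additive V) (A0.subgroupOf G) := by
    rw [Lib.Q2S.QO_iff, Subgroup.map_subgroupOf_eq_of_le hle]
    refine ⟨fun h => hne ?_, hq0, hof⟩
    rw [h, Subgroup.commutator_bot_right]
  obtain ⟨A, hA, hn⟩ := Lib.Q2S.main hp0 hρ (Additive V) _ hA0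
  obtain ⟨a1, a2, a3⟩ := (Lib.Q2S.QO_iff V G hGV A).1 hA
  obtain ⟨-, hq, -⟩ := hA
  refine ⟨A.map G.subtype, Subgroup.map_subtype_le _, a1, ⟨⟨⟨?_⟩⟩, ?_⟩, a3, a2, ?_⟩
  · rintro ⟨_, a, ha, rfl⟩ ⟨_, b, hb, rfl⟩
    apply Subtype.ext
    have : a * b = b * a := by
      apply Lib.Q2S.lam_inj hρ
      rw [Lib.Q2S.lam_mul' (hq a ha b hb), Lib.Q2S.lam_mul' (hq b hb a ha), add_comm]
    exact congrArg (Subtype.val : G → Ω) this
  · rintro _ ⟨a, ha, rfl⟩
    have : a ^ p = 1 := by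
      apply Lib.Q2S.lam_inj hρ
      rw [Lib.Q2S.lam_pow hq ha, Lib.Q2S.lam_one, hk]
      exact Lib.Q2S.half hp0 _
    exact congrArg Subtype.val this
  · intro g hg
    have : g ∈ Subgroup.normalizer ((A.map G.subtype : Subgroup Ω) : Set Ω) := by
      refine (Subgroup.closure_le _).2 ?_ hg
      rintro _ ⟨h, hh, _, ⟨a, ha, rfl⟩, rfl⟩
      exact Subgroup.le_normalizer_map G.subtype ⟨_, hn ⟨h, hh⟩ ⟨a, ha, rfl⟩, rfl⟩
    exact fun a ha => (Subgroup.mem_normalizer_iff.1 this a).1 ha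

end Cfsg.Agent.S1935
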