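import Cfsg.Statements.S1939
import Cfsg.Agent.Lib.Transfer.SylowIn

set_option autoImplicit false
open Cfsg

namespace Cfsg.Agent.S1939

open Subgroup Cfsg.Lib.Transfer

/-- Let S be a Sylow p-subgroup of the finite group G and a an element of S that is the only G-conjugate of a lying in S. Then every power of a has the same property: for every n, the only G-conjugate of a^n lying in S is a^n. -/
theorem result {G : Type*} [Group G] [Finite G] {p : ℕ} [Fact p.Prime] (S : Sylow p G) (a : G)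
    (haS : a ∈ (S : Subgroup G)) (hwc : ∀ g : G, g * a * g⁻¹ ∈ (S : Subgroup G) → g * a * g⁻¹ = a) (n : ℕ) :
    ∀ g : G, g * a ^ n * g⁻¹ ∈ (S : Subgroup G) → g * a ^ n * g⁻¹ = a ^ n := by
  intro g hg
  have hZ : ∀ s ∈ (S : Subgroup G), s * a = a * s := fun s hs => by
    rw [← mul_inv_eq_iff_eq_mul]; exact hwc s (mul_mem (mul_mem hs haS) (inv_mem hs))
  have h1 : g ⋆ (S : Subgroup G) ≤ centralizer {g * a ^ n * g⁻¹} := fun x hx => by
    rw [mem_conj] at hx
    rw [mem_centralizer_singleton_iff]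
    have : Commute (g⁻¹ * x * g) (a ^ n) := (show Commute _ a from hZ _ hx).pow_right n
    calc _ = g * (g⁻¹ * x * g * a ^ n) * g⁻¹ := by group
      _ = _ := by rw [this.eq]; group
  have hi : ¬ p ∣ (g ⋆ (S : Subgroup G)).relIndex (centralizer {g * a ^ n * g⁻¹}) := by
    rw [← coe_smul_sylow] at h1 ⊢
    exact sylow_not_dvd_relIndex _ h1
  obtain ⟨c, hc, h2⟩ := exists_conj_le_of_not_dvd_relIndex' (Q := zpowers a) hi
    (S.isPGroup'.to_le (zpowers_le.2 haS)) (zpowers_le.2 (mem_centralizer_singleton_iff.2 (hZ _ hg).symm))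
  have h3 := mem_conj.1 (conj_le_iff.1 h2 a (mem_zpowers a))
  have h4 := hwc (g⁻¹ * c) (by convert h3 using 1; group)
  have h5 : c * a ^ n * c⁻¹ = g * a ^ n * g⁻¹ := by
    rw [← conj_pow, ← conj_pow]; congr 1
    calc _ = g * (g⁻¹ * c * a * (g⁻¹ * c)⁻¹) * g⁻¹ := by group
      _ = _ := by rw [h4]
  rw [mem_centralizer_singleton_iff] at hc
  calc _ = c⁻¹ * (g * a ^ n * g⁻¹ * c) := by rw [← hc]; group
    _ = _ := by rw [← h5]; group

end Cfsg.Agent.S1939
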