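import Cfsg.Statements.S1940

set_option autoImplicit false
open Cfsg

namespace Cfsg.Agent.S1940

/-- Let the finite group L act by automorphisms on the finite abelian group M, and let N be an L-invariant subgroup of M such that M/N is a p-group on which L acts trivially (every l • m lies in the coset mN). If every element of M is a product of an element of N and an element fixed by a Sylow p-subgroup T of L, then every element of M is a product of an element of N and an element fixed by all of L. -/
theorem result {L : Type*} [Group L] [Finite L] {M : Type*} [CommGroup M] [Finite M] [MulDistribMulAction L M]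
    {p : ℕ} [Fact p.Prime] (N : Subgroup M) (hN : ∀ (l : L) (m : M), m ∈ N → l • m ∈ N)
    (hquot : IsPGroup p (M ⧸ N)) (htriv : ∀ (l : L) (m : M), (l • m) * m⁻¹ ∈ N) (T : Sylow p L)
    (hT : ∀ m : M, ∃ n ∈ N, ∃ c : M, (∀ t ∈ (T : Subgroup L), t • c = c) ∧ m = n * c) :
    ∀ m : M, ∃ n ∈ N, ∃ c : M, (∀ l : L, l • c = c) ∧ m = n * c := by
  classical
  intro m
  obtain ⟨n, hn, c, hc, rfl⟩ := hT m
  haveI := Fintype.ofFinite (L ⧸ (T : Subgroup L))
  have hf : ∀ (l : L) (q : L ⧸ (T : Subgroup L)), (l • q).out • c = l • q.out • c := by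
    intro l q
    obtain ⟨t, ht⟩ := QuotientGroup.mk_out_eq_mul (T : Subgroup L) (l * q.out)
    rw [← q.out_eq', MulAction.Quotient.smul_mk, smul_eq_mul, ht, q.out_eq', mul_smul, hc t t.2, mul_smul]
  have hfix : ∀ l : L, l • ∏ q : L ⧸ (T : Subgroup L), q.out • c = ∏ q : L ⧸ (T : Subgroup L), q.out • c := by
    intro l
    rw [Finset.smul_prod']
    exact Fintype.prod_equiv (MulAction.toPerm l) _ _ fun q => (hf l q).symm
  have hq : ((∏ q : L ⧸ (T : Subgroup L), q.out • c : M) : M ⧸ N) = (c : M ⧸ N) ^ (T : Subgroup L).index := by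
    rw [← QuotientGroup.mk'_apply, map_prod, Finset.prod_congr rfl fun q _ =>
      show QuotientGroup.mk' N (q.out • c) = c from by
        rw [QuotientGroup.mk'_apply, QuotientGroup.eq_iff_div_mem, div_eq_mul_inv]; exact htriv _ _,
      Finset.prod_const, Finset.card_univ, Subgroup.index, Nat.card_eq_fintype_card]
  have hcop : ((T : Subgroup L).index).Coprime (orderOf (c : M ⧸ N)) := by
    obtain ⟨k, hk⟩ := IsPGroup.iff_orderOf.1 hquot c
    rw [hk]
    exact Nat.Coprime.pow_right _ ((Nat.Prime.coprime_iff_not_dvd Fact.out).2 T.not_dvd_index).symm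
  obtain ⟨j, hj⟩ := exists_pow_eq_self_of_coprime hcop
  refine ⟨n * (c / (∏ q : L ⧸ (T : Subgroup L), q.out • c) ^ j), N.mul_mem hn ?_, _, fun l => by
    rw [smul_pow', hfix], by rw [mul_assoc, div_mul_cancel]⟩
  rw [← QuotientGroup.eq_iff_div_mem, QuotientGroup.mk_pow, hq, hj]

end Cfsg.Agent.S1940
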