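import Cfsg.Statements.S1946
import Cfsg.Agent.Lib.Transfer.SmallOrder

set_option autoImplicit false
open Cfsg

namespace Cfsg.Agent.S1946

open Subgroup Cfsg.Lib.Transfer

/-- Let P be a Sylow p-subgroup of the finite group G. Then G has a normal p-complement if and only if P controls the fusion of its elements of order dividing p (dividing 4 when p = 2): whenever such an element a of P has a G-conjugate g a g⁻¹ in P, that conjugate is already x a x⁻¹ for some x in P. -/
theorem result {G : Type*} [Group G] [Finite G] {p : ℕ} [Fact p.Prime] (P : Sylow p G) :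
    Cfsg.HasNormalPComplement p G ↔
      ∀ a ∈ (P : Subgroup G), (a ^ p = 1 ∨ (p = 2 ∧ a ^ 4 = 1)) → ∀ g : G, g * a * g⁻¹ ∈ (P : Subgroup G) →
        ∃ x ∈ (P : Subgroup G), g * a * g⁻¹ = x * a * x⁻¹ := by
  refine ⟨fun h a ha _ g hg => ?_, hasNormalPComplement_of_controls_small_fusion P⟩
  obtain ⟨x, hx, e⟩ := (hasNormalPComplement_iff_controls_fusion P).1 h a ha g hg
  exact ⟨x, hx, e.symm⟩

end Cfsg.Agent.S1946
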