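import Cfsg.Statements.S1948
import Cfsg.Agent.Lib.Transfer.Section
import Cfsg.Agent.Lib.Core.PSolvable

set_option autoImplicit false
open Cfsg

namespace Cfsg.Agent.S1948

open Cfsg.Lib Cfsg.Lib.Transfer Subgroup

/-- Let S be a Sylow p-subgroup of the finite group G. Then G = N_G(S)·O_{p'}(G) if and only if G is p-constrained and N_G(S) controls fusion in S, in the sense that whenever a subgroup Q of S has a conjugate g Q g⁻¹ inside S, the element g is a product n c with n normalizing S and c centralizing Q. -/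
theorem result {G : Type*} [Group G] [Finite G] {p : ℕ} [Fact p.Prime] (S : Sylow p G) :
    Subgroup.normalizer ((S : Subgroup G) : Set G) ⊔ Cfsg.pPrimeCore p G = ⊤ ↔
      (Cfsg.IsPConstrained p G ∧
        ∀ Q : Subgroup G, Q ≤ (S : Subgroup G) → ∀ g : G, Q.map (MulAut.conj g).toMonoidHom ≤ (S : Subgroup G) →
          ∃ n ∈ Subgroup.normalizer ((S : Subgroup G) : Set G), ∃ c ∈ Subgroup.centralizer (Q : Set G), g = n * c) := by
  have hO : normalizer ((S : Subgroup G) : Set G) ≤ normalizer (Cfsg.pPrimeCore p G : Set G) := by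
    rw [(Cfsg.pPrimeCore p G).normalizer_eq_top]; exact le_top
  constructor
  · intro h
    rw [sup_comm] at h
    refine ⟨Core.isPConstrained_iff.2 ?_, fun Q hQ g hg => ?_⟩
    · set π := QuotientGroup.mk' (Cfsg.pPrimeCore p G)
      have hπ : Function.Surjective π := QuotientGroup.mk'_surjective _
      refine centralizer_le_of_inf_centralizer_le (S.mapSurjective hπ)
        (Core.pPrimeCore_quotient_pPrimeCore p G) (inf_le_left.trans ?_)
      refine Core.le_pCore ?_ (S.mapSurjective hπ).isPGroup'
      rw [← normalizer_eq_top_iff, eq_top_iff]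
      intro y _
      obtain ⟨x, rfl⟩ := hπ y
      obtain ⟨o, ho, n, hn, rfl⟩ := exists_mul_of_mem_sup hO (h ▸ mem_top x)
      have : π o = 1 := (QuotientGroup.eq_one_iff o).2 ho
      rw [map_mul, this, one_mul]
      exact le_normalizer_map π ⟨n, hn, rfl⟩
    · obtain ⟨n, hn, k, hk, rfl⟩ := exists_mul_of_mem_sup' hO (h ▸ mem_top g)
      refine ⟨n, hn, k, mem_centralizer_iff.2 fun q hq => ?_, rfl⟩
      have h1 : k * q * k⁻¹ ∈ (S : Subgroup G) := by
        have := conj_le_iff.1 hg q hq
        rw [mem_normalizer_iff.1 hn]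
        simpa [mul_assoc] using this
      have h2 : q⁻¹ * (k * q * k⁻¹) ∈ (S : Subgroup G) ⊓ Cfsg.pPrimeCore p G := by
        refine mem_inf.2 ⟨mul_mem (inv_mem (hQ hq)) h1, ?_⟩
        have := (inferInstance : (Cfsg.pPrimeCore p G).Normal).conj_mem k hk q⁻¹
        simpa [mul_assoc] using mul_mem this (inv_mem hk)
      rw [Core.inf_pPrimeCore_eq_bot S.isPGroup', mem_bot] at h2
      calc q * k = q * (q⁻¹ * (k * q * k⁻¹)) * k := by rw [h2, mul_one]
        _ = k * q := by group
  · rintro ⟨h1, h2⟩
    have hi : ¬ p ∣ ((S : Subgroup G) ⊓ Cfsg.pPrimePCore p G).relIndex (Cfsg.pPrimePCore p G) := by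
      rw [inf_relIndex_right]; exact sylow_not_dvd_relIndex_normal S _
    have hle : Cfsg.pPrimePCore p G ≤
        normalizer ((S : Subgroup G) : Set G) ⊔ Cfsg.pPrimeCore p G := by
      rw [← Core.pPrimeCore_sup_eq_pPrimePCore inf_le_right hi]
      exact sup_le le_sup_right ((inf_le_left.trans le_normalizer).trans le_sup_left)
    rw [eq_top_iff]
    intro g _
    obtain ⟨n, hn, hng⟩ := frattini_argument (K := ⊤) inf_le_right S.isPGroup'.to_inf_left hi
      (by rw [normalizer_eq_top]) (mem_top g)
    obtain ⟨m, hm, c, hc, e⟩ := h2 _ inf_le_left (n * g)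
      ((conj_eq_self_iff.2 hng).le.trans inf_le_left)
    have : g = n⁻¹ * (m * c) := by rw [← e]; group
    rw [this]
    exact mul_mem (inv_mem (hle hn)) (mul_mem (mem_sup_left hm)
      (hle ((Core.isPConstrained_iff_sylow S).1 h1 hc)))

end Cfsg.Agent.S1948
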