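import Cfsg.Statements.S1949
import Cfsg.Agent.Lib.Transfer.SmallOrder

set_option autoImplicit false
open Cfsg

namespace Cfsg.Agent.S1949

open Subgroup Cfsg.Lib.Transfer
open scoped commutatorElement

/-- Let P be a finite p-group and G a group of automorphisms of P containing the inner automorphisms. Then there is a G-invariant subgroup D of P, contained in the subgroup generated by the elements x⁻¹α(x) with x in P and α in O^p(G), of exponent dividing p when p is odd and dividing 4 when p = 2, with [D, P] ≤ Z(D), such that every automorphism in G of order prime to p that fixes D elementwise is the identity; moreover every maximal abelian subgroup A of D is normal in P and every automorphism in G fixing A elementwise has p-power order. -/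
theorem result {P : Type*} [Group P] [Finite P] {p : ℕ} [Fact p.Prime] (hP : IsPGroup p P)
    (G : Subgroup (MulAut P)) (hG : Cfsg.Inn P ≤ G) :
    ∃ D : Subgroup P,
      (∀ α ∈ G, D.map α.toMonoidHom = D) ∧
      D ≤ Subgroup.closure {y : P | ∃ α ∈ Cfsg.pResidual p ↥G, ∃ x : P, y = x⁻¹ * (α : MulAut P) x} ∧
      (∀ d ∈ D, d ^ p = 1 ∨ (p = 2 ∧ d ^ 4 = 1)) ∧
      ⁅D, (⊤ : Subgroup P)⁆ ≤ D ⊓ Subgroup.centralizer (D : Set P) ∧
      (∀ α ∈ G, (orderOf α).Coprime p → (∀ d ∈ D, α d = d) → α = 1) ∧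
      ∀ A : Subgroup P, A ≤ D → IsMulCommutative ↥A →
        (∀ B : Subgroup P, A ≤ B → B ≤ D → IsMulCommutative ↥B → B = A) →
        A.Normal ∧ ∀ α ∈ G, (∀ a ∈ A, α a = a) → ∃ k : ℕ, orderOf α = p ^ k := by
  obtain ⟨C, c1, c2, c3, c4⟩ := exists_critical_small_aut hP
  set D := closure {y : P | ∃ α ∈ Cfsg.pResidual p ↥G, ∃ x ∈ C, y = x⁻¹ * (α : MulAut P) x} with hD
  have hDC : D ≤ C := by
    rw [hD, closure_le]
    rintro _ ⟨α, -, x, hx, rfl⟩
    exact C.mul_mem (C.inv_mem hx) (c1 _ x hx)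
  have hinv : ∀ α ∈ G, D.map α.toMonoidHom ≤ D := by
    intro α hα
    rw [hD, MonoidHom.map_closure, closure_le]
    rintro _ ⟨_, ⟨β, hβ, x, hx, rfl⟩, rfl⟩
    exact subset_closure ⟨_, (pResidual_normal (p := p)).conj_mem β hβ ⟨α, hα⟩, α x, c1 α x hx, by simp⟩
  have hinv' : ∀ α ∈ G, ∀ x ∈ D, α x ∈ D := fun α hα x hx => hinv α hα ⟨x, hx, rfl⟩
  have hcop : ∀ {α : MulAut P} (x : P), (orderOf α).Coprime p → (orderOf α).Coprime (orderOf x) := fun x h =>
    (Lib.Coprime.coprime_card_of_isPGroup hP h).coprime_dvd_right (orderOf_dvd_natCard x)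
  have hcomm : ⁅D, (⊤ : Subgroup P)⁆ ≤ D ⊓ centralizer (D : Set P) :=
    le_inf (commutator_le.2 fun x hx y _ => by
      have := D.mul_mem hx (hinv' _ (hG ⟨y, rfl⟩) _ (D.inv_mem hx))
      simpa [commutatorElement_def, mul_assoc] using this)
      (((commutator_mono hDC le_rfl).trans c3).trans (centralizer_le hDC))
  have hdet : ∀ α ∈ G, (orderOf α).Coprime p → (∀ d ∈ D, α d = d) → α = 1 := fun α hα h hd =>
    c4 α h fun x hx => mulAut_apply_eq_of_coprime (hd _ (subset_closure ⟨⟨α, hα⟩,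
      mem_pResidual_of_coprime (by rwa [orderOf_mk]), x, hx, rfl⟩)) (hcop _ h)
  refine ⟨D, fun α hα => eq_of_le_of_card_ge (hinv α hα) (card_map_of_injective α.injective).ge,
    closure_mono ?_, fun d hd => c2 d (hDC hd), hcomm, hdet, fun A hAD hA hmax => ?_⟩
  · rintro _ ⟨α, hα, x, -, rfl⟩
    exact ⟨α, hα, x, rfl⟩
  have hself : ∀ x ∈ D, (∀ a ∈ A, a * x = x * a) → x ∈ A := by
    intro x hx h
    have h1 : A ⊔ zpowers x ≤ centralizer (A : Set P) :=
      sup_le (le_centralizer_iff_isMulCommutative.2 hA) (zpowers_le.2 h)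
    have h2 : A ⊔ zpowers x ≤ centralizer (zpowers x : Set P) :=
      sup_le (le_centralizer_iff.1 (zpowers_le.2 h)) (le_centralizer _)
    rw [← hmax (A ⊔ zpowers x) le_sup_left (sup_le hAD (zpowers_le.2 hx)) (le_centralizer_iff_isMulCommutative.1
      (sup_le (le_centralizer_iff.1 h1) (le_centralizer_iff.1 h2)))]
    exact le_sup_right (a := A) (mem_zpowers x)
  have hn : A.Normal := ⟨fun a ha g => by
    have h1 := hcomm (commutator_mem_commutator (D.inv_mem (hAD ha)) (mem_top g))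
    have := A.mul_mem ha (hself _ h1.1 fun b hb => h1.2 b (hAD hb))
    simpa [commutatorElement_def, mul_assoc] using this⟩
  refine ⟨hn, fun α hα hfix => ?_⟩
  obtain ⟨k, m, hm, e⟩ := Nat.exists_eq_pow_mul_and_not_dvd (orderOf_pos α).ne' p (Fact.out : p.Prime).ne_one
  have ho : (orderOf (α ^ p ^ k)).Coprime p := by
    refine Nat.Coprime.coprime_dvd_left (orderOf_dvd_of_pow_eq_one ?_)
      ((Nat.Prime.coprime_iff_not_dvd Fact.out).2 hm).symm
    rw [← pow_mul, ← e, pow_orderOf_eq_one]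
  have hfix' : ∀ a ∈ A, (α ^ p ^ k) a = a := fun a ha =>
    Lib.PGroup.apply_eq_of_mem_zpowers (npow_mem_zpowers α _) (hfix a ha)
  have h1 := hdet _ (G.pow_mem hα _) ho fun x hx => mulAut_apply_eq_of_coprime (hfix' _ (hself _
    (D.mul_mem (D.inv_mem hx) (hinv' _ (G.pow_mem hα _) x hx)) fun a ha => by
      have := hfix' _ (hn.conj_mem a ha x)
      rw [map_mul, map_mul, hfix' a ha, map_inv] at this
      calc _ = x⁻¹ * (x * a * x⁻¹) * (α ^ p ^ k) x := by group
        _ = _ := by rw [← this]; group)) (hcop _ ho)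
  obtain ⟨j, -, hj⟩ := (Nat.dvd_prime_pow Fact.out).1 (orderOf_dvd_of_pow_eq_one h1)
  exact ⟨j, hj⟩

end Cfsg.Agent.S1949
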