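import Cfsg.Statements.S1950
import Cfsg.Agent.Lib.CharDeg.PairZ
import Cfsg.Agent.Lib.FGS.CycSylow
import Cfsg.Agent.Lib.Inv.SylowTwo

set_option autoImplicit false
open Cfsg

namespace Cfsg.Agent.S1950

open Subgroup Cfsg.Lib.Modular Cfsg.Lib.Core Cfsg.Lib.Transfer

/-- Let G be a finite group whose Sylow p-subgroups are cyclic. Then G is p-solvable if and only if every two elements of order p of G generate a p-solvable subgroup. -/
theorem result {G : Type*} [Group G] [Finite G] {p : ℕ} [Fact p.Prime] (P : Sylow p G) (hP : IsCyclic ↥(P : Subgroup G)) :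
    Cfsg.IsPSolvable p G ↔ ∀ x y : G, orderOf x = p → orderOf y = p → Cfsg.IsPSolvable p ↥(Subgroup.closure ({x, y} : Set G)) := by
  refine ⟨fun h x y _ _ => isPSolvable_subgroup h _, fun hc => ?_⟩
  have hp : p.Prime := Fact.out
  by_cases h2 : p = 2
  · subst h2
    exact Cfsg.Lib.FGS.isPSolvable_of_hasNormalPComplement
      (Cfsg.Lib.Inv.hasNormalPComplement_of_isCyclic P hP)
  let π := QuotientGroup.mk' (pPrimeCore p G)
  have hπ : Function.Surjective π := QuotientGroup.mk'_surjective _
  let Q := P.mapSurjective hπ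
  have hQ : IsCyclic (Q : Subgroup (G ⧸ pPrimeCore p G)) :=
    isCyclic_of_surjective _ (π.subgroupMap_surjective P)
  have lift : ∀ x, orderOf x = p → ∃ y, orderOf y = p ∧ π y = x := fun x hx => by
    obtain ⟨y, rfl⟩ := hπ x
    have e : π (pPart p y) = π y := by
      rw [map_pPart hp, pPart_of_pElt hp ⟨1, by rwa [pow_one]⟩]
    refine ⟨pPart p y, orderOf_eq_prime ?_ fun e' => hp.ne_one ?_, e⟩
    · refine mem_bot.1 ((inf_pPrimeCore_eq_bot (isPGroup_zpowers hp (pElt_pPart hp y))).le
        (mem_inf.2 ⟨pow_mem (mem_zpowers _) _, (QuotientGroup.eq_one_iff _).1 ?_⟩))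
      change π _ = 1
      rw [map_pow, e, ← orderOf_dvd_iff_pow_eq_one, hx]
    · rw [← hx, ← e, e', map_one, orderOf_one]
  have hn := Cfsg.Lib.CharDeg.Pair.sylow_normal h2 (pPrimeCore_quotient_pPrimeCore p G) (P := Q)
    (fun x hx y hy ⟨g, e⟩ => by
      obtain ⟨n, hn, e'⟩ := Q.conj_eq_normalizer_conj_of_mem_centralizer x g⁻¹
        (le_centralizer _ hx) (by rw [inv_inv, e]; exact le_centralizer _ hy)
      exact ⟨n⁻¹, inv_mem hn, by simpa [e] using e'.symm⟩)
    (fun x hx h1 => hasNormalPComplement_of_le (fun g hg => by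
      rintro _ ⟨k, rfl⟩
      exact ((show Commute g x from mem_centralizer_singleton_iff.1 hg).zpow_right k).symm)
      (Cfsg.Lib.FGS.hasNormalPComplement_cent_of_cyclic Q hQ (zpowers_le.2 hx) fun e =>
        hp.ne_one (by rw [← h1, zpowers_eq_bot.1 e, orderOf_one])))
    fun x y hx hy => by
      obtain ⟨x, hx', rfl⟩ := lift x hx
      obtain ⟨y, hy', rfl⟩ := lift y hy
      rw [← Set.image_pair, ← MonoidHom.map_closure]
      exact isPSolvable_map (hc x y hx' hy') π
  exact isPSolvable_of_normal_quotient _ (isPSolvable_of_coprime (pPrimeCore_coprime p G))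
    (isPSolvable_of_normal_quotient _ (isPSolvable_of_isPGroup Q.isPGroup')
      (isPSolvable_of_coprime (coprime_iff_not_dvd.2 Q.not_dvd_index)))

end Cfsg.Agent.S1950
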