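import Cfsg.Statements.S1952
import Cfsg.Agent.Lib.Transfer.Trans

set_option autoImplicit false
open Cfsg

namespace Cfsg.Agent.S1952

open Cfsg.Lib Cfsg.Lib.Transfer Subgroup
open scoped IsMulCommutative

/-- Let P be a finite p-group with a normal elementary abelian subgroup A of index p, and let x ∈ A and y ∈ P with y outside A. If the product of the p conjugates y^(-i) x y^i (i = 0, …, p−1) is not the identity, then the wreath product Z_p ≀ Z_p, realised as a Sylow p-subgroup of the symmetric group of degree p², is a homomorphic image of P. -/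
theorem result {P : Type*} [Group P] [Finite P] {p : ℕ} [Fact p.Prime] (hP : IsPGroup p P) (A : Subgroup P) [A.Normal]
    (hA : Cfsg.IsElementaryAbelian p A) (hidx : A.index = p) (x y : P) (hx : x ∈ A) (hy : y ∉ A)
    (hprod : ((List.range p).map (fun i => (y ^ i)⁻¹ * x * y ^ i)).prod ≠ 1) :
    ∃ (Q : Sylow p (Equiv.Perm (Fin (p ^ 2)))) (f : P →* ↥(Q : Subgroup (Equiv.Perm (Fin (p ^ 2))))), Function.Surjective f := by
  have := hA.1
  have hmem : ∀ i : ℕ, (y ^ i)⁻¹ * x * y ^ i ∈ A := fun i => Normal.conj_mem' inferInstance _ hx _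
  have e : ((∏ i ∈ Finset.range p, (⟨_, hmem i⟩ : A) : A) : P) =
      ((List.range p).map (fun i => (y ^ i)⁻¹ * x * y ^ i)).prod := by
    rw [Finset.prod_eq_multiset_prod, Finset.range_val, Multiset.range, Multiset.map_coe,
      Multiset.prod_coe, ← coe_subtype, map_list_prod, List.map_map]
    rfl
  obtain ⟨M, -, hM, hi⟩ := PGroup.exists_index_eq_not_mem (p := p) (N := (⊥ : Subgroup A))
    (x := ∏ i ∈ Finset.range p, (⟨_, hmem i⟩ : A)) (commutator_eq_bot A).le
    (fun a => Subtype.ext (hA.2 a a.2)) fun h => hprod (by rw [← e, mem_bot.1 h]; rfl)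
  refine exists_surjective_wreath hP hidx hi (QuotientGroup.mk' M) (e := y⁻¹) (x := ⟨x, hx⟩)
    fun h => hM ?_
  rw [← QuotientGroup.eq_one_iff, ← QuotientGroup.mk'_apply, map_prod, ← h]
  refine Finset.prod_congr rfl fun i _ => congrArg _ (Subtype.ext ?_)
  rw [MulAut.conjNormal_apply]
  simp

end Cfsg.Agent.S1952
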