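import Cfsg.Statements.S1953
import Cfsg.Agent.Lib.PLocal.Constrained
import Cfsg.Agent.Lib.PLocal.QdFacts

set_option autoImplicit false
open Cfsg

set_option linter.unusedVariables false
open Cfsg.Lib

namespace Cfsg.Agent.S1953

open Subgroup Transfer PLocal in
theorem qd_free {G : Type*} [Group G] [Finite G] {p : ℕ} [Fact p.Prime]
    (h : HasSection (qd p) G) : ∃ Q : Subgroup G, IsPGroup p Q ∧
      ∃ (H K : Subgroup G) (_ : (K.subgroupOf H).Normal), centralizer (Q : Set G) ≤ K ∧ K ≤ H ∧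
        H ≤ normalizer (Q : Set G) ∧
        Nonempty ((H ⧸ K.subgroupOf H) ≃* Matrix.SpecialLinearGroup (Fin 2) (ZMod p)) := by
  obtain ⟨K, f, hf⟩ := h
  obtain ⟨R, hR, hRf, hi⟩ := exists_isPGroup_map_eq (p := p) hf (Q := qdProj.ker)
    (isPGroup_qdT.to_le ker_qdProj_le_qdT)
  have : (R.map f).Normal := hRf ▸ inferInstance
  have h1 := map_normalizer_eq_top hf hR (hRf ▸ hi)
  refine ⟨R.map K.subtype, hR.map _, ?_⟩
  generalize hQ : R.map K.subtype = Q
  let i : normalizer (R : Set K) →* normalizer (Q : Set G) :=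
    (K.subtype.comp (normalizer (R : Set K)).subtype).codRestrict _ fun x =>
      hQ ▸ le_normalizer_map _ (mem_map_of_mem K.subtype x.2)
  let π := QuotientGroup.mk' ((centralizer (Q : Set G)).subgroupOf (normalizer (Q : Set G)))
  let φ := π.comp i
  let ψ := qdProj.comp (f.comp (normalizer (R : Set K)).subtype)
  have hk : φ.rangeRestrict.ker ≤ ψ.ker := fun x hx => by
    rw [MonoidHom.ker_rangeRestrict] at hx
    have hx := (QuotientGroup.eq_one_iff _).mp hx
    refine centralizer_ker_qdProj_le fun v hv => ?_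
    obtain ⟨r, hr, rfl⟩ := hRf.ge hv
    exact (map_mul f r x).symm.trans ((congrArg f (Subtype.ext
      (hx _ (hQ ▸ mem_map_of_mem K.subtype hr)))).trans (map_mul f (x : K) r))
  let e := (φ.range.comap π).equivMapOfInjective _ (normalizer (Q : Set G)).subtype_injective
  let g := ((φ.rangeRestrict.liftOfSurjective φ.rangeRestrict_surjective ⟨ψ, hk⟩).comp
    (π.subgroupComap φ.range)).comp e.symm.toMonoidHom
  have hg : Function.Surjective g := fun y => by
    obtain ⟨y, rfl⟩ := qdProj_surjective y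
    obtain ⟨x, hx, rfl⟩ := h1.ge (mem_top y)
    refine ⟨e ⟨i ⟨x, hx⟩, ⟨x, hx⟩, rfl⟩, ?_⟩
    simp only [g, MonoidHom.comp_apply, MulEquiv.coe_toMonoidHom, MulEquiv.symm_apply_apply]
    exact MonoidHom.liftOfRightInverse_comp_apply _ _ _ _ (⟨x, hx⟩ : normalizer (R : Set K))
  have h2 := Core.subgroupOf_map_subtype_self g.ker
  have := (congrArg Subgroup.Normal h2).mpr inferInstance
  refine ⟨_, g.ker.map (Subgroup.subtype _), this, fun c hc => ?_,
    map_subtype_le _, map_subtype_le _, ⟨(QuotientGroup.quotientMulEquivOfEq h2).trans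
      (QuotientGroup.quotientKerEquivOfSurjective g hg)⟩⟩
  have h3 : π ⟨c, centralizer_le_normalizer _ hc⟩ = 1 := (QuotientGroup.eq_one_iff _).mpr hc
  refine ⟨e ⟨⟨c, centralizer_le_normalizer _ hc⟩, show π _ ∈ φ.range from h3 ▸ one_mem _⟩, ?_, rfl⟩
  rw [SetLike.mem_coe, MonoidHom.mem_ker]
  simp only [g, MonoidHom.comp_apply, MulEquiv.coe_toMonoidHom, MulEquiv.symm_apply_apply]
  exact (congrArg _ (Subtype.ext h3)).trans (map_one _)

open Subgroup Transfer PLocal in
theorem controls_inf {G : Type*} [Group G] [Finite G] {p : ℕ} [Fact p.Prime] (P : Sylow p G)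
    {Q X : Subgroup G} (hQ : Q ≤ P) (hn : (P : Subgroup G) ≤ normalizer (Q : Set G))
    (hi : ¬ p ∣ (Q ⊓ centralizer (Q : Set G)).relIndex (centralizer (Q : Set G)))
    (hXi : ¬ p ∣ ((P : Subgroup G) ⊓ X).relIndex X) (hX : normalizer (Q : Set G) ≤ normalizer (X : Set G))
    (hQX : Q ≤ X) (h : X ≤ Q ⊔ centralizer (Q : Set G) ⊔ (P : Subgroup G) ⊓ X) :
    Controls (normalizer (((P : Subgroup G) ⊓ X : Subgroup G) : Set G)) P (normalizer (Q : Set G)) := by
  obtain ⟨R, hR⟩ := exists_sylow_of_not_dvd_relIndex (P.isPGroup'.to_le (inf_le_left.trans hQ)) hi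
  have h1 := hasNormalPComplement_iff_card_pResidual.mp
    (hasNormalPComplement_of_normalizer_le_centralizer R fun x _ y hy =>
      Subtype.ext (x.2 y (hR.le hy).1))
  have h2 := map_pResidual_sup_eq inf_le_right hi
  have h3 := (normalizer_le_normalizer_centralizer' Q).trans
    (normalizer_le_normalizer_map_subtype_pResidual (p := p) _)
  have h4 := (map_subtype_le (pResidual p (centralizer (Q : Set G)))).trans
    (centralizer_le_normalizer _)
  rw [← Core.card_map_subtype] at h1
  generalize (pResidual p (centralizer (Q : Set G))).map (Subgroup.subtype _) = O at h1 h2 h3 h4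
  have : (O.subgroupOf (normalizer (Q : Set G))).Normal := normal_subgroupOf_of_le_normalizer h3
  have h5 : Q ≤ (P : Subgroup G) ⊓ X := le_inf hQ hQX
  have h6 : (P : Subgroup G) ≤ normalizer (((P : Subgroup G) ⊓ X : Subgroup G) : Set G) :=
    Core.le_normalizer_inf le_normalizer (hn.trans hX)
  refine (Controls.of_subgroupOf (controls_of_sup_eq_top (Core.coprime_subgroupOf _ h1)
    P.isPGroup'.comap_subtype (comap_mono h6) (eq_top_iff.mpr fun g _ => ?_)) hn).mono
    inf_le_right le_rfl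
  obtain ⟨x, hx, hxg⟩ := frattini_argument inf_le_right (P.isPGroup'.to_le inf_le_left) hXi hX g.2
  have h7 : X ≤ O ⊔ (P : Subgroup G) ⊓ X := h.trans (sup_le (sup_le (h5.trans le_sup_right)
    (h2.ge.trans (sup_le_sup_left (inf_le_left.trans h5) _))) le_sup_right)
  obtain ⟨o, ho, y, hy, rfl⟩ := exists_mul_of_mem_sup' ((inf_le_left.trans hn).trans h3) (h7 hx)
  have : g = ⟨y⁻¹, h4 (O.inv_mem hy)⟩ * ⟨o⁻¹ * (o * y * g), Subgroup.mul_mem _
      (Subgroup.inv_mem _ (hn ho.1)) (Subgroup.mul_mem _ (Subgroup.mul_mem _ (hn ho.1) (h4 hy)) g.2)⟩ :=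
    Subtype.ext (by simp [mul_assoc])
  rw [this]
  exact mul_mem (mem_sup_left (O.inv_mem hy)) (mem_sup_right
    (Subgroup.mul_mem _ (Subgroup.inv_mem _ (le_normalizer ho)) hxg))

/-- Let p be an odd prime and P a Sylow p-subgroup of the finite group G, and suppose that for no p-subgroup Q of G does N_G(Q)/C_G(Q) have a section isomorphic to SL₂(p). Call a subgroup Q of P centric-radical when Z(Q) is a Sylow p-subgroup of C_G(Q) and the only normal subgroup X of N_G(Q) containing Q·C_G(Q) such that the index of Q·C_G(Q) in X is a power of p is Q·C_G(Q) itself (that is, N_G(Q)/Q·C_G(Q) has no nontrivial normal p-subgroup). Then there is a centric-radical subgroup Q of P contained in every centric-radical subgroup of P; it is normal in P, and N_G(Q) controls strong fusion in P: whenever a subgroup A of P has g A g⁻¹ ≤ P, the element g is a product h c with h in N_G(Q) and c centralizing A. -/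
theorem result {G : Type*} [Group G] [Finite G] {p : ℕ} [Fact p.Prime] (hp : p ≠ 2) (P : Sylow p G)
    (hfree : ∀ Q : Subgroup G, IsPGroup p ↥Q → ¬ ∃ (H K : Subgroup G) (_ : (K.subgroupOf H).Normal),
      Subgroup.centralizer (Q : Set G) ≤ K ∧ K ≤ H ∧ H ≤ Subgroup.normalizer (Q : Set G) ∧
      Nonempty ((↥H ⧸ K.subgroupOf H) ≃* Matrix.SpecialLinearGroup (Fin 2) (ZMod p)))
    (cr : Subgroup G → Prop)
    (hcr : ∀ Q : Subgroup G, cr Q ↔ (Q ≤ (P : Subgroup G) ∧
      (∃ R : Sylow p ↥(Subgroup.centralizer (Q : Set G)),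
        (R : Subgroup ↥(Subgroup.centralizer (Q : Set G))).map (Subgroup.centralizer (Q : Set G)).subtype = Q ⊓ Subgroup.centralizer (Q : Set G)) ∧
      ∀ X : Subgroup G, X ≤ Subgroup.normalizer (Q : Set G) →
        (∀ n ∈ Subgroup.normalizer (Q : Set G), X.map (MulAut.conj n).toMonoidHom = X) →
        Q ⊔ Subgroup.centralizer (Q : Set G) ≤ X → (∃ k : ℕ, (Q ⊔ Subgroup.centralizer (Q : Set G)).relIndex X = p ^ k) →
        X = Q ⊔ Subgroup.centralizer (Q : Set G))) :
    ∃ Q : Subgroup G, cr Q ∧ (∀ R : Subgroup G, cr R → Q ≤ R) ∧ (∀ x ∈ (P : Subgroup G), Q.map (MulAut.conj x).toMonoidHom = Q) ∧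
      ∀ A : Subgroup G, A ≤ (P : Subgroup G) → ∀ g : G, A.map (MulAut.conj g).toMonoidHom ≤ (P : Subgroup G) →
        ∃ h ∈ Subgroup.normalizer (Q : Set G), ∃ c ∈ Subgroup.centralizer (A : Set G), g = h * c := by
  open Subgroup Transfer PLocal in
  have hst : SecStable p G := secStable_of_qd_free hp fun h => by
    obtain ⟨Q, hQ, h⟩ := qd_free h
    exact hfree Q hQ h
  obtain ⟨Q₀, h₀⟩ := exists_centric_controls hp hst P
  obtain ⟨Q, -, ⟨hQ, hn, hc, hctl⟩, hmax⟩ := Core.exists_maximal_ge (P := fun Q => Q ≤ (P : Subgroup G) ∧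
    (P : Subgroup G) ≤ normalizer (Q : Set G) ∧ (P : Subgroup G) ⊓ centralizer (Q : Set G) ≤ Q ∧
    Controls (normalizer (Q : Set G)) P ⊤) h₀
  have hi : ¬ p ∣ (Q ⊓ centralizer (Q : Set G)).relIndex (centralizer (Q : Set G)) := by
    rw [← le_antisymm (le_inf hc inf_le_right) (inf_le_inf_right _ hQ)]
    exact not_dvd_relIndex_centralizer (by
      rw [inf_eq_left.mpr hn]; exact sylow_not_dvd_relIndex P hn)
  refine ⟨Q, (hcr Q).mpr ⟨hQ, exists_sylow_map_eq_iff.mpr ⟨inf_le_right,
    P.isPGroup'.to_le (inf_le_left.trans hQ), hi⟩, fun X hX hXn hQX ⟨k, hk⟩ => ?_⟩, fun R hR => ?_,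
    fun x hx => conj_eq_self_iff.mpr (hn hx), fun A hA g hg => ?_⟩
  · have h1 : normalizer (Q : Set G) ≤ normalizer (X : Set G) := fun n hn =>
      conj_eq_self_iff.mp (hXn n hn)
    have h2 : ¬ p ∣ ((P : Subgroup G) ⊓ X).relIndex X := by
      rw [inf_relIndex_right]
      exact not_dvd_relIndex_of_le_normalizer (sylow_not_dvd_relIndex P hn) hX h1
    have h3 : X ≤ Q ⊔ centralizer (Q : Set G) ⊔ (P : Subgroup G) ⊓ X := by
      rw [← relIndex_eq_one]
      exact (Nat.coprime_self _).mp ((((Core.coprime_iff_not_dvd.mpr h2).pow_right k).coprime_dvd_left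
        (relIndex_dvd_of_le_left X le_sup_right)).coprime_dvd_right
        (hk ▸ relIndex_dvd_of_le_left X le_sup_left))
    have h4 : Q ≤ (P : Subgroup G) ⊓ X := le_inf hQ (le_sup_left.trans hQX)
    have h5 := hmax _ ⟨inf_le_left, Core.le_normalizer_inf le_normalizer (hn.trans h1),
      ((inf_le_inf_left _ (centralizer_le (SetLike.coe_subset_coe.mpr h4))).trans hc).trans h4,
      hctl.trans (controls_inf P hQ hn hi h2 h1 (le_sup_left.trans hQX) h3)⟩ h4
    exact le_antisymm (h3.trans (sup_le le_rfl (h5.le.trans le_sup_left))) hQX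
  · obtain ⟨hRP, hRi, hrad⟩ := (hcr R).mp hR
    have hRi := (exists_sylow_map_eq_iff.mp hRi).2.2
    have h1 : R ⊔ centralizer (R : Set G) ≤ normalizer (R : Set G) :=
      sup_le le_normalizer (centralizer_le_normalizer _)
    have h2 : normalizer (R : Set G) ≤ normalizer ((R ⊔ centralizer (R : Set G) : Subgroup G) : Set G) :=
      Core.le_normalizer_sup le_rfl (normalizer_le_normalizer_centralizer' R)
    have h3 := hrad (Q ⊓ normalizer (R : Set G) ⊔ (R ⊔ centralizer (R : Set G)))
      (sup_le inf_le_right h1) (fun n hn => by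
        obtain ⟨h, hh, e⟩ := hctl R hRP n trivial ((conj_eq_self_iff.mpr hn).le.trans hRP)
        have hc : h⁻¹ * n ∈ centralizer (R : Set G) := fun a ha => by
          calc a * (h⁻¹ * n) = h⁻¹ * (h * a * h⁻¹) * n := by group
            _ = _ := by rw [e a ha]; group
        have hh' : h ∈ normalizer (R : Set G) := by
          simpa using mul_mem hn (inv_mem (centralizer_le_normalizer _ hc))
        rw [← mul_inv_cancel_left h n, ← conj_conj, conj_eq_self_of_mem
          (mem_sup_right (mem_sup_right hc)), conj_sup, conj_inf, conj_eq_self_iff.mpr hh,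
          conj_eq_self_of_mem hh', conj_eq_self_iff.mpr (h2 hh')]) le_sup_right (by
        rw [Core.relIndex_sup_of_le_normalizer (inf_le_right.trans h2)]
        obtain ⟨k, hk⟩ := (P.isPGroup'.to_le ((inf_le_left (b := normalizer (R : Set G))).trans
          hQ)).exists_card_eq
        exact ((Nat.dvd_prime_pow Fact.out).mp (hk ▸ relIndex_dvd_card _ _)).imp fun _ h => h.2)
    have h4 : R = Q ⊓ normalizer (R : Set G) ⊔ R := eq_of_not_dvd_relIndex_of_le (p := p)
      (H := R ⊔ centralizer (R : Set G)) (by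
        rwa [sup_comm, Core.relIndex_sup_of_le_normalizer (centralizer_le_normalizer _),
          ← inf_relIndex_right]) (P.isPGroup'.to_le (sup_le (inf_le_left.trans hQ) hRP))
      (sup_le (le_sup_left.trans h3.le) le_sup_left) le_sup_right
    by_contra hQR
    obtain ⟨y, hy, hyR⟩ := SetLike.exists_of_lt (lt_inf_normalizer_of_lt
      (P.isPGroup'.to_le (sup_le hQ hRP)) (right_lt_sup.mpr hQR))
    obtain ⟨a, ha, t, ht, rfl⟩ := exists_mul_of_mem_sup (hRP.trans hn) hy.1
    exact hyR (R.mul_mem (h4.ge (mem_sup_left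
      ⟨ha, (Subgroup.mul_mem_cancel_right _ (le_normalizer ht)).mp hy.2⟩)) ht)
  · obtain ⟨h, hh, e⟩ := hctl A hA g trivial hg
    refine ⟨h, hh, h⁻¹ * g, fun a ha => ?_, by group⟩
    calc a * (h⁻¹ * g) = h⁻¹ * (h * a * h⁻¹) * g := by group
      _ = _ := by rw [e a ha]; group

end Cfsg.Agent.S1953
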