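import Cfsg.Statements.S1954
import Cfsg.Agent.Lib.Fusion.Local

set_option autoImplicit false
open Cfsg

namespace Cfsg.Agent.S1954

open Subgroup Cfsg.Lib.Transfer Cfsg.Lib.Fusion

/-- Let N be a normal subgroup of the finite group G, P a Sylow p-subgroup of G, and V a subgroup of P ∩ N normal in P ∩ N such that N_N(V) controls strong fusion in P ∩ N with respect to N (whenever a subgroup A of P ∩ N has n A n⁻¹ ≤ P ∩ N for some n in N, then n = h c with h in N_N(V) and c in C_N(A)). Let W be the subgroup generated by the conjugates of V under N_G(P ∩ N). Then N_G(W) controls strong fusion in P with respect to G. -/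
theorem result {G : Type*} [Group G] [Finite G] {p : ℕ} [Fact p.Prime] (N : Subgroup G) [N.Normal] (P : Sylow p G) (V : Subgroup G)
    (hV : V ≤ (P : Subgroup G) ⊓ N) (hVn : ∀ x ∈ (P : Subgroup G) ⊓ N, V.map (MulAut.conj x).toMonoidHom = V)
    (hctrl : ∀ A : Subgroup G, A ≤ (P : Subgroup G) ⊓ N → ∀ n ∈ N, A.map (MulAut.conj n).toMonoidHom ≤ (P : Subgroup G) ⊓ N →
      ∃ h ∈ N ⊓ Subgroup.normalizer (V : Set G), ∃ c ∈ N ⊓ Subgroup.centralizer (A : Set G), n = h * c)
    (W : Subgroup G) (hW : W = Subgroup.closure (⋃ x ∈ Subgroup.normalizer (((P : Subgroup G) ⊓ N : Subgroup G) : Set G),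
      ((V.map (MulAut.conj x).toMonoidHom : Subgroup G) : Set G))) :
    ∀ A : Subgroup G, A ≤ (P : Subgroup G) → ∀ g : G, A.map (MulAut.conj g).toMonoidHom ≤ (P : Subgroup G) →
        ∃ h ∈ Subgroup.normalizer (W : Set G), ∃ c ∈ Subgroup.centralizer (A : Set G), g = h * c := by
  set T := (P : Subgroup G) ⊓ N with hT
  have hF := sylGrp_group P
  obtain ⟨E, hE⟩ := exists_grp (V := T) (H := N) inf_le_right
  have hI := hF.inv_of_normal le_top (le_normalizer_of_normal) hT hE
  have hVE : E.IsNormal V := isNormal_iff.2 ⟨hV, fun A f hf => by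
    obtain ⟨n, hn, e, hm, -⟩ := hE.exists_conj hf
    obtain ⟨h, hh, c, hc, rfl⟩ := hctrl A hf.le n hn hm
    have h1 : ∀ x ∈ A, h * x * h⁻¹ = f x := fun x hx => by
      rw [e x hx]
      conv_lhs => rw [← conj_eq_of_mem_centralizer hc.2 hx]
      group
    have h2 := conj_eq_self_iff.2 hh.2
    refine ⟨_, hE.mor_conj (sup_le hf.le hV) hh.1 ?_, h1, by rw [im_conj, h2]⟩
    rw [conj_sup, h2]
    exact sup_le (conj_le_iff.2 fun x hx => h1 x hx ▸ hf.mem hx) hV⟩
  have e1 : W = sSup {X | ∃ x ∈ normalizer (T : Set G), x ⋆ V = X} := by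
    rw [hW]
    refine le_antisymm ((closure_le _).2 (Set.iUnion₂_subset fun x hx => ?_)) (sSup_le ?_)
    · exact SetLike.coe_subset_coe.2 (le_sSup ⟨x, hx, rfl⟩)
    · rintro _ ⟨x, hx, rfl⟩ y hy
      exact subset_closure (Set.mem_iUnion₂.2 ⟨x, hx, hy⟩)
  have h3 : ∀ x ∈ normalizer (T : Set G), ∀ X ≤ T, im (ext (cjA T x)) X = x ⋆ X := fun x hx X hX => by
    rw [im_congr fun y hy => ext_cjA hx (hX hy), im_conj]
  have hA := hF.autGroup_eq (P := T) inf_le_left
  have hWE : E.IsNormal W := e1 ▸ sSup_induction_of_le (S := T) _ (by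
      rintro _ ⟨x, hx, rfl⟩
      exact (conj_mono x hV).trans (conj_eq_self_iff.2 hx).le) (normal_bot E) (by
      rintro _ ⟨x, hx, rfl⟩
      rw [← h3 x hx V hV]
      exact ((hI.iso (hA ▸ cjA_mem_autInducedBy (mem_top x))).normal_iff hV).2 hVE)
    fun _ _ => normal_sup
  have hWF := hI.normal hF.sat hWE fun α hα => by
    rw [hA] at hα
    obtain ⟨g, -, hg, rfl⟩ := mem_autInducedBy'.1 hα
    rw [h3 g hg W hWE.1, conj_eq_self_iff]
    refine mem_normalizer_of_conj_le ?_
    rw [conj_le_iff_le_inv_conj]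
    conv_lhs => rw [e1]
    refine sSup_le ?_
    rintro _ ⟨x, hx, rfl⟩
    rw [← conj_le_iff_le_inv_conj, conj_conj, e1]
    exact le_sSup ⟨_, mul_mem hg hx, rfl⟩
  intro A hA g hm
  obtain ⟨k, hk, e, e'⟩ := (hF.mor_conj hA (mem_top g) hm).ext_normal hWF
  obtain ⟨h, -, e2, -⟩ := hF.exists_conj hk
  refine ⟨h, conj_eq_self_iff.1 ?_, h⁻¹ * g, mem_centralizer_of_conj_eq fun x hx => ?_, by group⟩
  · rw [← im_conj, ← im_congr fun x hx => e2 x (mem_sup_right hx), e']
  · calc _ = h⁻¹ * (g * x * g⁻¹) * h := by group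
      _ = x := by rw [← e x hx, e2 x (mem_sup_left hx)]; group

end Cfsg.Agent.S1954
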