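import Cfsg.Statements.S1956
import Cfsg.Agent.Lib.Transfer.Fusion

set_option autoImplicit false
open Cfsg

namespace Cfsg.Agent.S1956

open Subgroup Cfsg.Lib.Transfer

/-- Let P be a Sylow p-subgroup of the finite group G such that every element of P of order dividing p (dividing 4 when p = 2) is central in P. Then the fusion of these elements is controlled by N_G(P): if such an element a of P has g a g⁻¹ in P, then g = n c with n normalizing P and c commuting with a. -/
theorem result {G : Type*} [Group G] [Finite G] {p : ℕ} [Fact p.Prime] (P : Sylow p G)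
    (hcen : ∀ a ∈ (P : Subgroup G), (a ^ p = 1 ∨ (p = 2 ∧ a ^ 4 = 1)) → ∀ y ∈ (P : Subgroup G), a * y = y * a) :
    ∀ a ∈ (P : Subgroup G), (a ^ p = 1 ∨ (p = 2 ∧ a ^ 4 = 1)) → ∀ g : G, g * a * g⁻¹ ∈ (P : Subgroup G) →
      ∃ n ∈ Subgroup.normalizer ((P : Subgroup G) : Set G), ∃ c : G, c * a = a * c ∧ g = n * c := by
  intro a ha h1 g hg
  have key : ∀ b ∈ (P : Subgroup G), (b ^ p = 1 ∨ (p = 2 ∧ b ^ 4 = 1)) →
      (P : Subgroup G) ≤ centralizer (zpowers b : Set G) := fun b hb h y hy => by
    rw [zpowers_eq_closure, centralizer_closure, mem_centralizer_singleton_iff]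
    exact (hcen b hb h y hy).symm
  obtain ⟨n, hn, h2⟩ := burnside_fusion_centralizer P (X := zpowers a) (g := g) (key a ha h1) (by
    rw [conj_zpowers]
    exact key _ hg (by rw [conj_pow, conj_pow]; exact h1.imp (fun h => by simp [h]) (fun h => ⟨h.1, by simp [h.2]⟩)))
  refine ⟨n, hn, n⁻¹ * g, ?_, by group⟩
  calc _ = n⁻¹ * (g * a * g⁻¹) * g := by group
    _ = _ := by rw [← h2 a (mem_zpowers a)]; group

end Cfsg.Agent.S1956
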