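import Cfsg.Statements.S2001
import Cfsg.Agent.Lib.Fusion.PairFun

set_option autoImplicit false
open Cfsg

namespace Cfsg.Agent.S2001

open Subgroup Cfsg.Lib.Transfer Cfsg.Lib.Fusion
open scoped commutatorElement

/-- Let p be a prime dividing the order of the finite group G, P a Sylow p-subgroup, W a conjugacy functor for p on G with Z(H) ≤ W(H) for every nontrivial p-subgroup H, and V a central functor: a conjugacy functor with V(H) ≤ Z(H), and V(H) ≤ V(K) whenever Z(H) ≤ Z(K), for nontrivial p-subgroups H, K. Say that W with V controls transfer in a subgroup L when some Sylow p-subgroup Q of L satisfies Q ∩ L' = (Q ∩ (N_L(W(Q)))')·(Q ∩ (C_L(V(Q)))') as a product of two subgroups. If W with V controls transfer in N_G(H) for every subgroup H with Z(P) ≤ H ≤ P, then W with V controls transfer in G. -/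
theorem result {G : Type*} [Group G] [Finite G] {p : ℕ} [Fact p.Prime] (hdiv : p ∣ Nat.card G) (P : Sylow p G) (W V : Subgroup G → Subgroup G) (hW : Cfsg.IsConjugacyFunctor p W) (hV : Cfsg.IsConjugacyFunctor p V) (hWZ : ∀ H : Subgroup G, IsPGroup p ↥H → H ⊓ Subgroup.centralizer ((H : Subgroup G) : Set G) ≤ W H) (hVZ : ∀ H : Subgroup G, IsPGroup p ↥H → V H ≤ H ⊓ Subgroup.centralizer ((H : Subgroup G) : Set G)) (hVmono : ∀ H K : Subgroup G, IsPGroup p ↥H → IsPGroup p ↥K → H ≠ ⊥ → K ≠ ⊥ → H ⊓ Subgroup.centralizer ((H : Subgroup G) : Set G) ≤ K ⊓ Subgroup.centralizer ((K : Subgroup G) : Set G) → V H ≤ V K) (hloc : ∀ H : Subgroup G, (P : Subgroup G) ⊓ Subgroup.centralizer (((P : Subgroup G) : Subgroup G) : Set G) ≤ H → H ≤ (P : Subgroup G) → ∃ Q : Subgroup G, Q ≤ Subgroup.normalizer ((H : Subgroup G) : Set G) ∧ IsPGroup p ↥Q ∧ ¬ p ∣ (Q).relIndex (Subgroup.normalizer ((H : Subgroup G) : Set G)) ∧ ∀ x : G, x ∈ Q ⊓ ⁅Subgroup.normalizer ((H : Subgroup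 G) : Set G), Subgroup.normalizer ((H : Subgroup G) : Set G)⁆ ↔ ∃ a ∈ Q ⊓ ⁅Subgroup.normalizer ((H : Subgroup G) : Set G) ⊓ Subgroup.normalizer ((W Q : Subgroup G) : Set G), Subgroup.normalizer ((H : Subgroup G) : Set G) ⊓ Subgroup.normalizer ((W Q : Subgroup G) : Set G)⁆, ∃ b ∈ Q ⊓ ⁅Subgroup.normalizer ((H : Subgroup G) : Set G) ⊓ Subgroup.centralizer ((V Q : Subgroup G) : Set G), Subgroup.normalizer ((H : Subgroup G) : Set G) ⊓ Subgroup.centralizer ((V Q : Subgroup G) : Set G)⁆, x = a * b) : ∃ Q : Subgroup G, IsPGroup p ↥Q ∧ ¬ p ∣ Q.index ∧ ∀ x : G, x ∈ Q ⊓ commutator G ↔ ∃ a ∈ Q ⊓ ⁅Subgroup.normalizer ((W Q : Subgroup G) : Set G), Subgroup.normalizer ((W Q : Subgroup G) : Set G)⁆, ∃ b ∈ Q ⊓ ⁅Subgroup.centralizer ((V Q : Subgroup G) : Set G), Subgroup.centralizer ((V Q : Subgroup G) : Set G)⁆, x = a * b := by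
  have hP0 : (P : Subgroup G) ≠ ⊥ := P.ne_bot_of_dvd_card hdiv
  have hPN := le_normalizer_functor hW P.2
  have cm : ∀ {H : Subgroup G} {x g : G}, x ∈ H → g ∈ H → x⁻¹ * (g * x * g⁻¹) ∈ ⁅H, H⁆ :=
    fun hx hg => by
      simpa [commutatorElement_def, mul_assoc] using commutator_mem_commutator (inv_mem hx) hg
  set K := ((P : Subgroup G) ⊓ ⁅normalizer (W P : Set G), normalizer (W P : Set G)⁆) ⊔
    ((P : Subgroup G) ⊓ ⁅centralizer (V P : Set G), centralizer (V P : Set G)⁆) with hK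
  have key := rel_of_functor_center P hW hWZ (fun X g => ∀ x ∈ X, x⁻¹ * (g * x * g⁻¹) ∈ K)
    (fun X g h H e x hx => by rw [e x hx]; exact H x hx)
    (fun X Y g h _ _ _ H H' hm x hx => by
      simpa [mul_assoc] using mul_mem (H x hx) (H' _ (conj_le_iff.1 hm x hx)))
    (fun X g _ _ H => by
      rintro _ ⟨x, hx, rfl⟩
      simpa [mul_assoc] using inv_mem (H x hx))
    (fun X hX g hg hm x hx => mem_sup_left (mem_inf.2 ⟨mul_mem (inv_mem (hX hx))
      (conj_le_iff.1 hm x hx), cm (hPN (hX hx)) hg⟩))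
    fun U hU hUP hi H X hX g hg hm x hx => by
      obtain ⟨Q, h1, h2, h3, h4⟩ := hloc U hU hUP
      set T := (P : Subgroup G) ⊓ normalizer (U : Set G) with hT
      have hTp : IsPGroup p T := P.2.to_le inf_le_left
      obtain ⟨y, hy, e⟩ := exists_conj_eq_of_sylowIn (T := T) inf_le_right hTp hi h1 h2 h3
      have hZ : (P : Subgroup G) ⊓ centralizer ((P : Subgroup G) : Set G) ≤
          T ⊓ centralizer (T : Set G) := fun z hz => mem_inf.2 ⟨mem_inf.2 ⟨hz.1,
        centralizer_le_normalizer _ (centralizer_le hUP hz.2)⟩, centralizer_le inf_le_left hz.2⟩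
      have hT0 : T ≠ ⊥ := fun e => centralizerIn_ne_bot P.2 hP0
        (eq_bot_iff.2 (hZ.trans (inf_le_left.trans e.le)))
      have hz : x⁻¹ * (g * x * g⁻¹) ∈ T ⊓ ⁅normalizer (U : Set G), normalizer (U : Set G)⁆ :=
        mem_inf.2 ⟨mul_mem (inv_mem (hX hx)) (mem_inf.2 ⟨conj_le_iff.1 hm x hx,
          mul_mem (mul_mem hg (hX hx).2) (inv_mem hg)⟩), cm (hX hx).2 hg⟩
      have e1 := conj_eq_self_of_mem hy
      rw [← e, ← e1, ← conj_commutator, ← conj_inf, mem_conj] at hz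
      obtain ⟨a, ha, b, hb, e2⟩ := (h4 _).1 hz
      rw [← conj_mem_conj (g := y), conj_inf, conj_commutator, conj_inf, e, e1] at ha hb
      rw [conj_normalizer, ← functor_conj hW h2, e] at ha
      rw [conj_centralizer, ← functor_conj hV h2, e] at hb
      have e3 : x⁻¹ * (g * x * g⁻¹) = (y * a * y⁻¹) * (y * b * y⁻¹) := by
        calc _ = y * (y⁻¹ * (x⁻¹ * (g * x * g⁻¹)) * y) * y⁻¹ := by group
          _ = _ := by rw [e2]; group
      rw [e3]
      have hTM : T ≤ normalizer (U : Set G) ⊓ normalizer (W T : Set G) :=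
        le_inf inf_le_right (le_normalizer_functor hW hTp)
      refine mul_mem ((inf_commutator_le_iff hTM hTp (fun h => hi (h.trans
        (Dvd.intro _ (relIndex_mul_relIndex _ _ _ hTM inf_le_left))))).2
        (fun t ht k hk hm => H (zpowers t) (zpowers_le.2 ht) k hk.2 ?_ t (mem_zpowers t)) ha)
        (mem_sup_right (mem_inf.2 ⟨hb.1.1, commutator_mono ?_ ?_ hb.2⟩))
      · rw [conj_zpowers]
        exact zpowers_le.2 hm.1
      all_goals exact inf_le_right.trans (centralizer_le (hVmono _ _ P.2 hTp hP0 hT0 hZ))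
  refine ⟨P, P.2, P.not_dvd_index, fun x => ⟨fun hx => ?_, ?_⟩⟩
  · refine exists_mul_of_mem_sup (inf_le_left.trans fun s hs => conj_eq_self_iff.1 ?_)
      ((commutator_inf_sylow_le_iff P).2 (fun t ht g hm => key (zpowers t) (zpowers_le.2 ht) g
        (by rw [conj_zpowers]; exact zpowers_le.2 hm) t (mem_zpowers t)) ⟨hx.2, hx.1⟩)
    rw [conj_inf, conj_commutator, conj_eq_self_of_mem hs, conj_eq_self_of_mem (hPN hs)]
  · rintro ⟨a, ha, b, hb, rfl⟩
    exact mem_inf.2 ⟨mul_mem ha.1 hb.1, mul_mem (commutator_mono le_top le_top ha.2)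
      (commutator_mono le_top le_top hb.2)⟩

end Cfsg.Agent.S2001
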