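import Cfsg.Statements.S2002
import Cfsg.Agent.Lib.Fusion.PairFun

set_option autoImplicit false
open Cfsg

namespace Cfsg.Agent.S2002

open Subgroup Cfsg.Lib.Transfer Cfsg.Lib.Fusion
open scoped commutatorElement

theorem conj_closure_le {G : Type*} [Group G] {B : Set G} {T : Subgroup G} {x : G}
    (h : ∀ b ∈ B, x * b * x⁻¹ ∈ T) : x ⋆ closure B ≤ T := by
  rw [← closure_image_conj', closure_le]
  rintro _ ⟨b, hb, rfl⟩
  exact h b hb

/-- Let p be a prime dividing the order of the finite group G, P a Sylow p-subgroup, W a conjugacy functor for p on G with Z(H) ≤ W(H) for every nontrivial p-subgroup H, and V a central functor (a conjugacy functor with V(H) ≤ Z(H), and V(H) ≤ V(K) whenever Z(H) ≤ Z(K)). Say that W with V controls strong fusion in a subgroup L when some Sylow p-subgroup Q of L has the property: whenever X ⊆ Q and a ∈ L with a⁻¹Xa ⊆ Q, then a = c b with c ∈ C_L(X) and b = b₁ ⋯ bₙ a product of elements each in N_L(W(Q))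 or in C_L(V(Q)) such that every partial conjugate (b₁ ⋯ bₖ)⁻¹ X (b₁ ⋯ bₖ) lies in Q. If W with V controls strong fusion in N_G(H) for every subgroup H with Z(P) ≤ H ≤ P, then W with V controls strong fusion in G. -/
theorem result {G : Type*} [Group G] [Finite G] {p : ℕ} [Fact p.Prime] (hdiv : p ∣ Nat.card G) (P : Sylow p G) (W V : Subgroup G → Subgroup G) (hW : Cfsg.IsConjugacyFunctor p W) (hV : Cfsg.IsConjugacyFunctor p V) (hWZ : ∀ H : Subgroup G, IsPGroup p ↥H → H ⊓ Subgroup.centralizer ((H : Subgroup G) : Set G) ≤ W H) (hVZ : ∀ H : Subgroup G, IsPGroup p ↥H → V H ≤ H ⊓ Subgroup.centralizer ((H : Subgroup G) : Set G)) (hVmono : ∀ H K : Subgroup G, IsPGroup p ↥H → IsPGroup p ↥K → H ≠ ⊥ → K ≠ ⊥ → H ⊓ Subgroup.centralizer ((H : Subgroup G) : Set G) ≤ K ⊓ Subgroup.centralizer ((K : Subgroup G) : Set G) → V H ≤ V K) (hloc : ∀ H : Subgroup G, (P : Subgroup G) ⊓ Subgroup.centralizer (((P : Subgroup G) : Subgroup G) : Set G) ≤ H → H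 ≤ (P : Subgroup G) → ∃ Q : Subgroup G, Q ≤ Subgroup.normalizer ((H : Subgroup G) : Set G) ∧ IsPGroup p ↥Q ∧ ¬ p ∣ (Q).relIndex (Subgroup.normalizer ((H : Subgroup G) : Set G)) ∧ ∀ (X : Set G) (a : G), X ⊆ Q → a ∈ Subgroup.normalizer ((H : Subgroup G) : Set G) → (fun x => a⁻¹ * x * a) '' X ⊆ Q → ∃ c ∈ Subgroup.normalizer ((H : Subgroup G) : Set G) ⊓ Subgroup.centralizer X, ∃ (n : ℕ) (b : Fin n → G), (∀ i, b i ∈ Subgroup.normalizer ((H : Subgroup G) : Set G) ⊓ Subgroup.normalizer ((W Q : Subgroup G) : Set G) ∨ b i ∈ Subgroup.normalizer ((H : Subgroup G) : Set G) ⊓ Subgroup.centralizer ((V Q : Subgroup G) : Set G)) ∧ a = c * (List.ofFn b).prod ∧ ∀ k : ℕ, k ≤ n → (fun x => (((List.ofFn b).take k).prod)⁻¹ * x * ((List.ofFn b).take k).prod) '' ((fun x => c⁻¹ * x * c) '' X) ⊆ Q) : ∃ Q : Subgroup G, IsPGroup p ↥Q ∧ ¬ p ∣ Q.index ∧ ∀ (X : Set G) (a : G), X ⊆ Q → (fun x => a⁻¹ * x * a) '' X ⊆ Q → ∃ c ∈ Subgroup.centralizer X, ∃ (n : ℕ) (b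 : Fin n → G), (∀ i, b i ∈ ⊤ ⊓ Subgroup.normalizer ((W Q : Subgroup G) : Set G) ∨ b i ∈ ⊤ ⊓ Subgroup.centralizer ((V Q : Subgroup G) : Set G)) ∧ a = c * (List.ofFn b).prod ∧ ∀ k : ℕ, k ≤ n → (fun x => (((List.ofFn b).take k).prod)⁻¹ * x * ((List.ofFn b).take k).prod) '' ((fun x => c⁻¹ * x * c) '' X) ⊆ Q := by
  have hP0 : (P : Subgroup G) ≠ ⊥ := P.ne_bot_of_dvd_card hdiv
  have key := rel_of_functor_center P hW hWZ (fun X g => Fus (P : Subgroup G)
      (fun x => x ∈ normalizer (W P : Set G) ∨ x ∈ centralizer (V P : Set G)) X g)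
    (fun X g h H e => H.congr e)
    (fun X Y g h _ _ _ H H' hm => H.trans H' (conj_le_iff.1 hm))
    (fun X g hX _ H => H.symm (fun x hx => hx.imp inv_mem inv_mem) hX fun _ => mem_conj.1)
    (fun X hX g hg hm => Fus.single (.inl hg) (conj_le_iff.1 hm))
    fun U hU hUP hi H X hX g hg hm => by
      obtain ⟨Q, h1, h2, h3, h4⟩ := hloc U hU hUP
      set T := (P : Subgroup G) ⊓ normalizer (U : Set G) with hT
      have hTp : IsPGroup p T := P.2.to_le inf_le_left
      obtain ⟨y, hy, e⟩ := exists_conj_eq_of_sylowIn (T := T) inf_le_right hTp hi h1 h2 h3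
      have hZ : (P : Subgroup G) ⊓ centralizer ((P : Subgroup G) : Set G) ≤
          T ⊓ centralizer (T : Set G) := fun z hz => mem_inf.2 ⟨mem_inf.2 ⟨hz.1,
        centralizer_le_normalizer _ (centralizer_le hUP hz.2)⟩, centralizer_le inf_le_left hz.2⟩
      have hT0 : T ≠ ⊥ := fun e => centralizerIn_ne_bot P.2 hP0
        (eq_bot_iff.2 (hZ.trans (inf_le_left.trans e.le)))
      have hQ : ∀ t ∈ T, y⁻¹ * t * y ∈ Q := fun t ht => mem_conj.1 (e ▸ ht)
      obtain ⟨c, hc, n, b, hb, e1, h5⟩ := h4 {z | y * z * y⁻¹ ∈ X} (y⁻¹ * g⁻¹ * y)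
        (fun z hz => by simpa [mul_assoc] using hQ _ (hX hz))
        (mul_mem (mul_mem (inv_mem hy) (inv_mem hg)) hy) (by
          rintro _ ⟨z, hz, rfl⟩
          simpa [mul_assoc] using hQ _ (mem_inf.2 ⟨conj_le_iff.1 hm _ hz,
            mul_mem (mul_mem hg (hX hz).2) (inv_mem hg)⟩))
      have hc' : ∀ z, y * z * y⁻¹ ∈ X → c⁻¹ * z * c = z := fun z hz => by
        rw [mul_assoc, hc.2 z hz, inv_mul_cancel_left]
      have h6 : Fus Q (fun x => x ∈ normalizer (W Q : Set G) ∨ x ∈ centralizer (V Q : Set G))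
          {z | y * z * y⁻¹ ∈ X} (List.ofFn b).prod⁻¹ := Fus.of_list _ (fun x hx => by
        obtain ⟨i, rfl⟩ := List.mem_ofFn.1 hx
        exact (hb i).imp (fun h => inv_mem h.2) fun h => inv_mem h.2) fun k hk z hz =>
        h5 k (by simpa using hk) ⟨z, ⟨z, hz, hc' z hz⟩, rfl⟩
      have h7 := h6.map (MulAut.conj y).toMonoidHom (T' := T)
        (ok' := fun x => x ∈ normalizer (W T : Set G) ∨ x ∈ centralizer (V T : Set G)) e.le
        fun x hx => by
          rw [← e, functor_conj hW h2, functor_conj hV h2, ← conj_normalizer, ← conj_centralizer]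
          exact hx.imp conj_mem_conj.2 conj_mem_conj.2
      replace h7 := h7.mono (A := X) fun x hx => ⟨y⁻¹ * x * y, by simpa [mul_assoc] using hx, by
        simp [mul_assoc]⟩
      refine (h7.bind hX fun B x hB hx hm => ?_).congr fun x hx => ?_
      · rcases hx with hx | hx
        · exact (H (closure B) ((closure_le _).2 hB) x hx
            (conj_closure_le fun b hb => (hm b hb).1)).mono subset_closure
        · exact Fus.single (.inr (centralizer_le (hVmono _ _ P.2 hTp hP0 hT0 hZ) hx))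
            fun b hb => (hm b hb).1
      · have e2 := hc' (y⁻¹ * x * y) (by simpa [mul_assoc] using hx)
        have e3 : g = y * ((List.ofFn b).prod⁻¹ * c⁻¹) * y⁻¹ := by
          rw [← mul_inv_rev, ← e1]; group
        calc g * x * g⁻¹ = y * ((List.ofFn b).prod⁻¹ * (c⁻¹ * (y⁻¹ * x * y) * c) *
              (List.ofFn b).prod) * y⁻¹ := by rw [e3]; group
          _ = _ := by rw [e2]; simp [mul_assoc]
  refine ⟨P, P.2, P.not_dvd_index, fun X a hX ha => ?_⟩
  obtain ⟨l, h1, h2, h3⟩ := ((key (closure X) ((closure_le _).2 hX) a⁻¹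
    (conj_closure_le fun x hx => ha ⟨x, hx, by simp⟩)).mono subset_closure).exists_list hX
  have h4 : ∀ x ∈ X, (a * l.prod⁻¹)⁻¹ * x * (a * l.prod⁻¹) = x := fun x hx => by
    calc _ = l.prod * (a⁻¹ * x * a⁻¹⁻¹) * l.prod⁻¹ := by group
      _ = x := by rw [← h3 x hx]; group
  refine ⟨a * l.prod⁻¹, fun x hx => ?_, l.length, l.get, fun i => ?_, by simp, fun k hk => ?_⟩
  · calc x * (a * l.prod⁻¹) = (a * l.prod⁻¹) * ((a * l.prod⁻¹)⁻¹ * x * (a * l.prod⁻¹)) := by group
      _ = _ := by rw [h4 x hx]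
  · exact (h1 _ (List.get_mem l i)).imp (fun h => mem_inf.2 ⟨mem_top _, inv_mem_iff.1 h⟩)
      fun h => mem_inf.2 ⟨mem_top _, inv_mem_iff.1 h⟩
  · rintro _ ⟨_, ⟨x, hx, rfl⟩, rfl⟩
    simp only [List.ofFn_get, h4 x hx]
    exact h2 k hk x hx

end Cfsg.Agent.S2002
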