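import Cfsg.Statements.S2007
import Cfsg.Agent.Lib.Transfer.Section

set_option autoImplicit false
open Cfsg

namespace Cfsg.Agent.S2007

open Subgroup Cfsg.Lib.Transfer

/-- Let p be a prime, G a finite group with Sylow p-subgroup S, and T a normal subgroup of S containing C_S(T). If N_G(T)/C_G(T) is a p-group (every element of N_G(T) of order prime to p centralizes T), then N_G(T) has a normal p-complement. -/
theorem result {G : Type*} [Group G] [Finite G] {p : ℕ} [Fact p.Prime] (S : Sylow p G) (T : Subgroup G) (hTS : T ≤ (S : Subgroup G)) (hTn : (S : Subgroup G) ≤ Subgroup.normalizer ((T : Subgroup G) : Set G)) (hC : (S : Subgroup G) ⊓ Subgroup.centralizer ((T : Subgroup G) : Set G) ≤ T) (hN : ∀ g ∈ Subgroup.normalizer ((T : Subgroup G) : Set G), (orderOf g).Coprime p → g ∈ Subgroup.centralizer ((T : Subgroup G) : Set G)) : Cfsg.HasNormalPComplement p ↥(Subgroup.normalizer ((T : Subgroup G) : Set G)) := by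
  have h1 : Cfsg.HasNormalPComplement p (centralizer (T : Set G)) :=
    hasNormalPComplement_subgroup_of_normalizer_le (T := (S : Subgroup G) ⊓ centralizer (T : Set G))
      (S.2.to_le inf_le_left) (not_dvd_relIndex_centralizer (by
        rw [inf_eq_left.2 hTn]; exact sylow_not_dvd_relIndex S hTn))
      inf_le_right (inf_le_left.trans (centralizer_le hC))
  refine hasNormalPComplement_subgroup_iff_mul.2 fun a ha b hb h2 h3 => ?_
  exact hasNormalPComplement_subgroup_iff_mul.1 h1 a (hN a ha h2) b (hN b hb h3) h2 h3

end Cfsg.Agent.S2007
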