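import Cfsg.Statements.S2010
import Cfsg.Agent.Lib.PLocal.ClassTwo

set_option autoImplicit false
open Cfsg

set_option linter.unusedVariables false
open Cfsg.Lib

namespace Cfsg.Agent.S2010

/-- Let G be a finite solvable group with no section isomorphic to the symmetric group of degree 4, whose Sylow 2-subgroup S has nilpotency class at most 2. Then G = N_G(J_e(S)) · O_{2'}(G), where J_e(S) is the subgroup generated by the elementary abelian subgroups of S of largest order. -/
theorem result {G : Type*} [Group G] [Finite G]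
    [Group.IsSolvable G] (hS4 : ¬ Cfsg.Involves (Equiv.Perm (Fin 4)) G) (S : Sylow 2 G)
    (hcl : Subgroup.lowerCentralSeries (S : Subgroup G) 2 = ⊥) :
    Subgroup.normalizer ((Cfsg.thompsonSubgroupOf 2 (S : Subgroup G)) : Set G) ⊔ Cfsg.pPrimeCore 2 G = ⊤ := by
  open Subgroup Transfer PLocal in
  have hs := QuotientGroup.mk'_surjective (pPrimeCore 2 G)
  have hk : (Nat.card (QuotientGroup.mk' (pPrimeCore 2 G)).ker).Coprime 2 := by
    rw [QuotientGroup.ker_mk']; exact Core.pPrimeCore_coprime 2 G
  have hsol : IsPSolvable 2 (G ⧸ pPrimeCore 2 G) := Core.isPSolvable_of_isSolvable inferInstance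
  have h := thompsonSubgroupOf_normal_of_class_two hsol
    (fun h => hS4 (hasSection_iff.mp (hasSection_qd_two_iff.mp h.of_quotient)))
    (Core.centralizer_pCore_le_of_isPSolvable hsol (Core.pPrimeCore_quotient_pPrimeCore 2 G))
    (S.mapSurjective hs) (by
      rw [Sylow.coe_mapSurjective, ← map_commutator, ← map_commutator,
        show ⁅⁅(S : Subgroup G), (S : Subgroup G)⁆, (S : Subgroup G)⁆ = ⊥ from hcl, Subgroup.map_bot])
  rw [Sylow.coe_mapSurjective, ← (subFunctor_thompsonSubgroupOf (Or.inr rfl)).map S.isPGroup'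
    (Core.inf_eq_bot_of_isPGroup_of_coprime S.isPGroup' hk)] at h
  rw [sup_comm]
  exact pPrimeCore_sup_normalizer_eq_top (S.isPGroup'.to_le (thompsonSubgroupOf_le _)) h

end Cfsg.Agent.S2010
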