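import Cfsg.Statements.S2035
import Cfsg.Agent.Lib.Mult.M12

set_option autoImplicit false
open Cfsg

namespace Cfsg.Agent.S2035

/-- The Schur multiplier of the Mathieu group M₁₂ (the stabiliser of a dodecad in the automorphism group of the length-24 binary code) is cyclic of order 2; here the Schur multiplier is described through stem extensions, as in the definitions: surjective homomorphisms onto the group from a finite group, whose kernel is central in that finite group and contained in that finite group's commutator subgroup. -/
theorem result : Cfsg.HasCyclicSchurMultiplier ↥Cfsg.Spor.M12 2 := by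
  obtain ⟨_, P⟩ := Lib.Mult.M12.pr
  exact Lib.Schur.hasSchurMultiplier_congr_left (Lib.Mult.hasSchurMultiplier_of Lib.Mathieu.card_m12
    (Lib.Mult.M12.clb P) (Lib.Mult.card_mzmod 2) Lib.Mult.Mathieu.ndL12) Lib.Mult.Mathieu.e12

end Cfsg.Agent.S2035
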