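import Cfsg.Statements.S2043
import Cfsg.Agent.Lib.Mult.Co1
import Cfsg.Agent.Lib.Mult.Low
import Cfsg.Agent.Lib.Golay.Img

set_option autoImplicit false
open Cfsg

namespace Cfsg.Agent.S2043

open Cfsg.Lib Cfsg.Lib.Leech Cfsg.Lib.Golay Cfsg.Spor commutatorElement in
theorem negOne_mem : negOne ∈ commutator Co0 := by
  have hc := support_mem_GC (qrWord_mem_golay 0)
  have : negOne = ⁅mono 1 M24.one_mem _ hc, mono projInv projInv_mem ∅ GC_empty⁆ := by
    rw [commutatorElement_def, eq_mul_inv_iff_mul_eq, eq_mul_inv_iff_mul_eq]
    refine co0_ext fun v => Subtype.ext (funext fun i => ?_)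
    have : i ∈ support₂ (qrWord 0) ↔ projInv.symm i ∉ support₂ (qrWord 0) := by revert i; decide +kernel
    rw [mul_assoc, mul_smul, negOne_smul, mul_smul, mul_smul]
    simp only [NegMemClass.coe_neg, Pi.neg_apply, mono_smul, signedPerm, this]
    by_cases h : projInv.symm i ∈ support₂ (qrWord 0) <;> simp [h] <;> rfl
  exact this ▸ Subgroup.commutator_mem_commutator (Subgroup.mem_top _) (Subgroup.mem_top _)

/-- The Schur multiplier of the Conway group Co₁ (the automorphism group of the rank-24 lattice modulo its centre) is cyclic of order 2; here the Schur multiplier is described through stem extensions, as in the definitions: surjective homomorphisms onto the group from a finite group, whose kernel is central in that finite group and contained in that finite group's commutator subgroup. -/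
theorem result : Cfsg.HasCyclicSchurMultiplier Cfsg.Spor.Co1 2 := by
  exact Lib.Mult.hasSchurMultiplier_of Lib.Leech.card_Co1 (Lib.Mult.lb_quot (QuotientGroup.mk'_surjective _)
    (QuotientGroup.ker_mk' _).le ((QuotientGroup.eq_one_iff _).2 Lib.Leech.negOne_mem_center) negOne_mem
    (orderOf_eq_prime (by rw [pow_two, Lib.Leech.negOne_mul_self]) Lib.Leech.negOne_ne_one)) (Lib.Mult.card_mzmod 2)
    Lib.Mult.Co.co1_ndL

end Cfsg.Agent.S2043
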