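import Cfsg.Statements.S2089
import Cfsg.Agent.Lib.MU.SU
import Cfsg.Agent.S3958

set_option autoImplicit false
open Cfsg

set_option linter.unusedVariables false
open Cfsg.Lib

namespace Cfsg.Agent.S2089

/-- Schur multipliers of the unitary groups: for n ≥ 3 and a field F with q² elements, (n, q) ≠ (3, 2), apart from the exceptional pairs (n, q) = (4, 2), (4, 3), (6, 2), the Schur multiplier of PSU_n(q) is cyclic of order gcd(n, q + 1); here the Schur multiplier is described through stem extensions, as in the definitions. -/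
theorem result {F : Type*} [Field F] [Fintype F] (n q : ℕ) (hF : Fintype.card F = q ^ 2) (hn : 3 ≤ n) (h3 : ¬ (n = 3 ∧ q = 2)) (hexc : (n, q) ∉ ({(4, 2), (4, 3), (6, 2)} : Set (ℕ × ℕ))) : Cfsg.HasCyclicSchurMultiplier (Cfsg.PSU n F q) (Nat.gcd n (q + 1)) := by
  open Lib.Unitary Lib.MU Subgroup in
  obtain ⟨σ, hσ⟩ := exists_isBar hF
  simp only [Set.mem_insert_iff, Set.mem_singleton_iff, Prod.mk.injEq, not_or] at hexc
  have hc : IsCyclic (center (SU n F q)) := isCyclic_of_injective_ringHom (R := F)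
    { toFun g := g.1.1.1 ⟨0, by omega⟩ ⟨0, by omega⟩
      map_one' := by simp
      map_mul' g g' := by
        obtain ⟨a, e⟩ := (mem_center_SU hF (by omega)).1 g.2
        simp [e] } fun g g' e => by
    obtain ⟨a, e1⟩ := (mem_center_SU hF (by omega)).1 g.2
    obtain ⟨a', e2⟩ := (mem_center_SU hF (by omega)).1 g'.2
    refine Subtype.ext (Subtype.ext (Subtype.ext ?_))
    rw [e1, e2, show a = a' by simpa [e1, e2] using e]
  have h1 : IsStemExtension (QuotientGroup.mk' (center (SU n F q))) :=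
    ⟨QuotientGroup.mk'_surjective _, (QuotientGroup.ker_mk' _).le, commutator_SU hF hn h3 ▸ le_top⟩
  have e : (QuotientGroup.mk' (center (SU n F q))).ker ≃* Multiplicative (ZMod (Nat.gcd n (q + 1))) :=
    (MulEquiv.subgroupCongr (QuotientGroup.ker_mk' _)).trans
      (card_center_SU hF (show 2 ≤ n by omega) ▸ (zmodCyclicMulEquiv hc).symm)
  refine Schur.hasSchurMultiplier_mk h1 e fun Δ _ _ τ hτ => ?_
  obtain ⟨π, hπ⟩ := S3958.result _ h1 (mult_SU hσ hn h3 hexc.1 hexc.2.1 hexc.2.2) Δ τ hτ
  exact ⟨π.comp e.symm.toMonoidHom, hπ.comp e.symm.surjective⟩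

end Cfsg.Agent.S2089
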