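import Cfsg.Statements.S2136
import Cfsg.Agent.Lib.Co2.Basic

set_option autoImplicit false
open Cfsg

namespace Cfsg.Agent.S2136

open Cfsg.Lib.Co2 Cfsg.Lib.F2

/-- The Conway group Co₂ (the stabiliser of a minimal vector of the rank-24 lattice) has an involution whose centraliser C has largest normal 2-subgroup extraspecial of order 2^9 with quotient C / O₂(C) isomorphic to the symplectic group Sp(6, 2) (shape 2^{1+8}Sp(6, 2)). -/
theorem result : ∃ t : ↥Cfsg.Spor.Co2, orderOf t = 2 ∧ Cfsg.IsExtraspecial 2 (Cfsg.pCore 2 ↥(Subgroup.centralizer ({t} : Set ↥Cfsg.Spor.Co2))) ∧ Nat.card (Cfsg.pCore 2 ↥(Subgroup.centralizer ({t} : Set ↥Cfsg.Spor.Co2))) = 2 ^ 9 ∧ Nonempty (↥(Subgroup.centralizer ({t} : Set ↥Cfsg.Spor.Co2)) ⧸ Cfsg.pCore 2 ↥(Subgroup.centralizer ({t} : Set ↥Cfsg.Spor.Co2)) ≃* Matrix.symplecticGroup (Fin 3) (ZMod 2)) := by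
  obtain ⟨⟨φ, h⟩, h1⟩ := les_k
  have h2 := h.comp ((centralizerEquiv hEquiv (t := ⟨zz, zz_mem_H⟩) rfl).symm.trans (centralizerSub k_le h1))
  haveI := simple_sp (l := Fin 3) (by simp)
  haveI : Finite Spor.Co2 := Finite.of_equiv _ hEquiv.toEquiv
  have h3 := h2.pCore_eq (not_isPGroup_two card_sp_six (by norm_num) (by norm_num))
  refine ⟨hEquiv ⟨zz, zz_mem_H⟩, by rw [hEquiv.orderOf_eq, ← Subgroup.orderOf_coe, orderOf_zz], h3 ▸ h2.es,
    h3 ▸ h2.card, h2.quot.map (QuotientGroup.quotientMulEquivOfEq h3).trans⟩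

end Cfsg.Agent.S2136
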