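import Cfsg.Statements.S2162
import Cfsg.Agent.Lib.GLC.Unip

set_option autoImplicit false
open Cfsg

namespace Cfsg.Agent.S2162

/-- Conjugacy of involutions in the special linear group over a finite field of characteristic two, in dimension at least 3: two elements of order 2 of SL_n(F) are conjugate in SL_n(F) exactly when the matrices a − 1 and b − 1 have the same rank (the rank of a − 1 is the dimension of the commutator space [V, a]). -/
theorem result {F : Type*} [Field F] [Fintype F] [CharP F 2] {n : ℕ} (hn : 3 ≤ n) (a b : Matrix.SpecialLinearGroup (Fin n) F) (ha : orderOf a = 2) (hb : orderOf b = 2) :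
    IsConj a b ↔ ((a : Matrix (Fin n) (Fin n) F) - 1).rank = ((b : Matrix (Fin n) (Fin n) F) - 1).rank := by
  open Lib.GLC Matrix Polynomial in
  have h1 : ∀ {s : SpecialLinearGroup (Fin n) F}, orderOf s = 2 → (toLin' s.1 - 1) ^ 2 = 0 := fun {s} h =>
    (pow_char_pow_eq_one_iff 2 1).1 (by rw [pow_one, ← h, ← orderOf_toLin'_sl, pow_orderOf_eq_one])
  have h2 := rank_add_finrank_ker (a.1 - 1)
  have h3 := rank_add_finrank_ker (b.1 - 1)
  rw [toLin'_sub_one] at h2 h3
  refine ⟨fun h => ?_, fun h => sl_isConj_of_sim (sim_of_sq_eq_zero (h1 ha) (h1 hb) rfl (by omega)) ?_⟩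
  · have := (sim_of_sl_isConj h).sub_one.finrank_ker
    omega
  haveI : Nonempty (Fin n) := ⟨⟨0, by omega⟩⟩
  obtain ⟨d, hd, e⟩ := exists_jt_one ⟨2, h1 ha⟩
  refine detC_eq_top_of_char 2 fun P hP => ⟨_, irreducible_X_sub_C 1, ?_⟩
  obtain ⟨k, hk, rfl⟩ := Multiset.mem_map.1 (e ▸ hP :)
  have h4 := (e ▸ blocks_typ _ : Blocks _ _).jt_pow_eq_zero_iff.1 (by rw [one_smul]; exact h1 ha) k hk
  have h5 := hd k hk
  interval_cases k
  exacts [⟨0, rfl⟩, ⟨1, rfl⟩]

end Cfsg.Agent.S2162
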