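import Cfsg.Statements.S2163
import Cfsg.Agent.Lib.GLC.Unip

set_option autoImplicit false
open Cfsg

namespace Cfsg.Agent.S2163

/-- Over a finite field of characteristic two and for n ≥ 3: for every ℓ with 1 ≤ ℓ and 2ℓ ≤ n, the matrix j_ℓ that is the identity plus the entries 1 in positions (n − ℓ + i, i) for i < ℓ (an identity block of size ℓ in the lower left corner) lies in SL_n(F), has order 2, and j_ℓ − 1 has rank ℓ. Together with the conjugacy criterion by rank, these matrices represent the conjugacy classes of involutions of SL_n(F). -/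
theorem result {F : Type*} [Field F] [Fintype F] [CharP F 2] {n : ℕ} (hn : 3 ≤ n) (ℓ : ℕ) (h1 : 1 ≤ ℓ) (h2 : 2 * ℓ ≤ n) :
    ∃ a : Matrix.SpecialLinearGroup (Fin n) F, (a : Matrix (Fin n) (Fin n) F) = 1 + Matrix.of (fun i j : Fin n => if j.val < ℓ ∧ i.val = j.val + (n - ℓ) then (1 : F) else 0) ∧ orderOf a = 2 ∧ ((a : Matrix (Fin n) (Fin n) F) - 1).rank = ℓ := by
  open Lib.GLC Matrix in
  set N : Matrix (Fin n) (Fin n) F := of fun i j => if j.val < ℓ ∧ i.val = j.val + (n - ℓ) then 1 else 0 with hN
  let A : Matrix (Fin n) (Fin ℓ) F := (1 : Matrix (Fin n) (Fin n) F).submatrix id fun k => ⟨k + (n - ℓ), by omega⟩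
  let B : Matrix (Fin ℓ) (Fin n) F := (1 : Matrix (Fin n) (Fin n) F).submatrix (fun k => ⟨k, by omega⟩) id
  have hAB : N = A * B := by
    ext i j
    simp only [hN, A, B, of_apply, mul_apply, submatrix_apply, id, one_apply, Fin.ext_iff]
    split_ifs with h
    · rw [Finset.sum_eq_single ⟨j, h.1⟩ (fun k _ hk => by rw [if_neg (fun e => hk (Fin.ext e)), mul_zero]) (by simp)]
      simp [h.2]
    · exact (Finset.sum_eq_zero fun k _ => by split_ifs <;> first | omega | simp).symm
  have hBA : B * A = 0 := by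
    ext i j
    simp only [A, B, mul_apply, submatrix_apply, id, one_apply, Fin.ext_iff]
    exact Finset.sum_eq_zero fun k _ => by split_ifs <;> first | omega | simp
  have hA : Aᵀ * A = 1 := by
    rw [transpose_submatrix, ← submatrix_mul _ _ _ _ _ Function.bijective_id, transpose_one, mul_one]
    exact submatrix_one _ fun i j h => Fin.ext (by simpa using h)
  have hB : B * Bᵀ = 1 := by
    rw [transpose_submatrix, ← submatrix_mul _ _ _ _ _ Function.bijective_id, transpose_one, mul_one]
    exact submatrix_one _ fun i j h => Fin.ext (by simpa using h)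
  have h0 : (1 + N - 1) ^ 2 = 0 := by
    rw [add_sub_cancel_left, sq, hAB, Matrix.mul_assoc, ← Matrix.mul_assoc B, hBA, Matrix.zero_mul, Matrix.mul_zero]
  have h3 : N.rank = ℓ := le_antisymm (hAB ▸ (rank_mul_le_left A B).trans A.rank_le_width) (by
    have := (rank_mul_le_right Aᵀ (N * Bᵀ)).trans (rank_mul_le_left N Bᵀ)
    rwa [hAB, Matrix.mul_assoc, hB, Matrix.mul_one, hA, rank_one, Fintype.card_fin, ← hAB] at this)
  have h4 := toLin'_sub_one_pow_eq_zero_iff.2 h0
  refine ⟨⟨1 + N, by rw [← LinearMap.det_toLin', det_eq_one_of_isNilpotent ⟨2, h4⟩]⟩, rfl, ?_, by simpa using h3⟩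
  refine (orderOf_toLin'_sl _).symm.trans (orderOf_eq_prime ((pow_char_pow_eq_one_iff 2 1).2 h4) fun e => ?_)
  rw [add_eq_left.1 ((toLin'_eq_smul_one_iff.1 (e.trans (one_smul F _).symm)).trans (one_smul F _)), rank_zero] at h3
  omega

end Cfsg.Agent.S2163
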