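import Cfsg.Statements.S2165
import Cfsg.Agent.Lib.Unitary.Transv

set_option autoImplicit false
open Cfsg

namespace Cfsg.Agent.S2165

open Cfsg.Lib.Unitary Matrix

/-- In SU_n(q), q even, n ≥ 3 (matrices of determinant 1 over the field with q² elements preserving Σ u_i v_i^q): for every ℓ with 1 ≤ ℓ and 2ℓ ≤ n, the permutation matrix of the involution of {0, …, n−1} exchanging i and n − ℓ + i for each i < ℓ lies in SU_n(q), has order 2, and differs from the identity by a matrix of rank ℓ. So every rank between 1 and n/2 occurs for involutions of SU_n(q). -/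
theorem result {F : Type*} [Field F] [Fintype F] [CharP F 2] {n q : ℕ} (hF : Fintype.card F = q ^ 2) (hn : 3 ≤ n) (ℓ : ℕ) (h1 : 1 ≤ ℓ) (h2 : 2 * ℓ ≤ n) :
    ∃ a : ↥(Cfsg.SU n F q), (((a : Matrix.SpecialLinearGroup (Fin n) F) : Matrix (Fin n) (Fin n) F) = Matrix.of (fun i j : Fin n => if (j.val < ℓ ∧ i.val = j.val + (n - ℓ)) ∨ (i.val < ℓ ∧ j.val = i.val + (n - ℓ)) ∨ (i = j ∧ ℓ ≤ i.val ∧ i.val < n - ℓ) then (1 : F) else 0)) ∧ orderOf a = 2 ∧ ((((a : Matrix.SpecialLinearGroup (Fin n) F) : Matrix (Fin n) (Fin n) F)) - 1).rank = ℓ := by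
  obtain ⟨σ, hσ⟩ := exists_isBar hF
  set P : Matrix (Fin n) (Fin n) F := Matrix.of (fun i j : Fin n => if (j.val < ℓ ∧ i.val = j.val + (n - ℓ)) ∨ (i.val < ℓ ∧ j.val = i.val + (n - ℓ)) ∨ (i = j ∧ ℓ ≤ i.val ∧ i.val < n - ℓ) then (1 : F) else 0) with hP
  let π : Fin n → Fin n := fun i => if h : i.val < ℓ then ⟨i + (n - ℓ), by omega⟩ else
    if h' : i.val < n - ℓ then i else ⟨i - (n - ℓ), by omega⟩
  have hπ : ∀ i, (π i).val = if i.val < ℓ then i + (n - ℓ) else if i.val < n - ℓ then i.val else
      i - (n - ℓ) := fun i => by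
    simp only [π]; split_ifs <;> rfl
  have hP' : ∀ i j, P i j = if π i = j then 1 else 0 := fun i j => by
    rw [hP, of_apply]
    refine if_congr ?_ rfl rfl
    simp only [Fin.ext_iff, hπ]
    have := i.2
    have := j.2
    split_ifs <;> omega
  have hππ : ∀ i, π (π i) = i := fun i => by
    have := i.2
    ext; simp only [hπ]; split_ifs <;> omega
  have hPP : P * P = 1 := by
    ext i j
    simp only [mul_apply, hP', one_apply, ite_mul, one_mul, zero_mul, Finset.sum_ite_eq,
      Finset.mem_univ, if_true, hππ]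
  have hT : (P.map σ)ᵀ = P := by
    ext i j
    simp only [transpose_apply, map_apply, hP', apply_ite σ, map_one, map_zero]
    exact if_congr ⟨fun h => by rw [← h, hππ], fun h => by rw [← h, hππ]⟩ rfl rfl
  have hdet : P.det = 1 := by
    have := congrArg det hPP
    rw [det_mul, det_one, mul_self_eq_one_iff, CharTwo.neg_eq, or_self] at this
    exact this
  let A : Matrix (Fin n) (Fin ℓ) F := Matrix.of fun i k => if i.val = k ∨ i.val = k + (n - ℓ) then 1 else 0
  have hA : P - 1 = A * Aᵀ := by
    ext i j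
    have hi := i.2
    have hj := j.2
    simp only [A, Matrix.sub_apply, hP', one_apply, mul_apply, transpose_apply, of_apply, Fin.ext_iff, hπ]
    by_cases h3 : i.val < ℓ
    · rw [Finset.sum_eq_single (⟨i, h3⟩ : Fin ℓ)]
      · simp only [true_or, if_true, one_mul]
        split_ifs <;> first | omega | simp [CharTwo.neg_eq]
      · intro b _ hb
        rw [if_neg, zero_mul]
        have := b.2
        simp only [ne_eq, Fin.ext_iff] at hb
        omega
      · simp
    by_cases h4 : i.val < n - ℓ
    · rw [Finset.sum_eq_zero]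
      · split_ifs <;> first | omega | simp
      · intro b _
        rw [if_neg, zero_mul]
        have := b.2
        omega
    · rw [Finset.sum_eq_single (⟨i - (n - ℓ), by omega⟩ : Fin ℓ)]
      · rw [if_pos (Or.inr (by simp only; omega)), one_mul]
        simp only
        split_ifs <;> first | omega | simp [CharTwo.neg_eq]
      · intro b _ hb
        rw [if_neg, zero_mul]
        have := b.2
        simp only [ne_eq, Fin.ext_iff] at hb
        omega
      · simp
  have hrank : (P - 1).rank = ℓ := by
    refine le_antisymm (hA ▸ (rank_mul_le_left _ _).trans (rank_le_width _)) ?_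
    have := rank_submatrix_le (P - 1) (fun k : Fin ℓ => (⟨k, by omega⟩ : Fin n))
      (fun k : Fin ℓ => (⟨k + (n - ℓ), by omega⟩ : Fin n))
    rwa [show (P - 1).submatrix _ _ = 1 from ?_, rank_one, Fintype.card_fin] at this
    ext i j
    have hi := i.2
    have hj := j.2
    simp only [submatrix_apply, Matrix.sub_apply, hP', one_apply, Fin.ext_iff, hπ]
    split_ifs <;> first | omega | simp
  refine ⟨⟨⟨P, hdet⟩, hσ.mem_SU_iff.mpr (by rw [hT, hPP])⟩, rfl, orderOf_eq_prime ?_ ?_, hrank⟩
  · exact Subtype.ext (Subtype.ext (by rw [pow_two]; exact hPP))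
  · intro h
    have : P = 1 := congrArg (fun x => x.1.1) h
    rw [this, sub_self, rank_zero] at hrank
    omega

end Cfsg.Agent.S2165
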