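import Cfsg.Statements.S2166
import Cfsg.Agent.Lib.Symp.Inv2

set_option autoImplicit false
open Cfsg

namespace Cfsg.Agent.S2166

/-- Conjugacy of involutions in the symplectic group Sp_{2m}(F), F a finite field of characteristic two, m ≥ 2 (Sp taken as the matrices A with A J Aᵀ = J, acting on column vectors, with the alternating form f(u, v) = u ⬝ (J v)). For an involution t write V(t) for the set of vectors v with f(v, t v) = 0 (a subspace). Two involutions a, b are conjugate in Sp_{2m}(F) exactly when a − 1 and b − 1 have the same rank and, in case that rank is even, V(a) and V(b) have the same number of elements. -/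
theorem result {F : Type*} [Field F] [Fintype F] [CharP F 2] {m : ℕ} (hm : 2 ≤ m) (a b : ↥(Matrix.symplecticGroup (Fin m) F)) (ha : orderOf a = 2) (hb : orderOf b = 2) :
    IsConj a b ↔ ((((a : ↥(Matrix.symplecticGroup (Fin m) F)) : Matrix (Fin m ⊕ Fin m) (Fin m ⊕ Fin m) F) - 1).rank = (((b : ↥(Matrix.symplecticGroup (Fin m) F)) : Matrix (Fin m ⊕ Fin m) (Fin m ⊕ Fin m) F) - 1).rank ∧
      (Even (((a : ↥(Matrix.symplecticGroup (Fin m) F)) : Matrix (Fin m ⊕ Fin m) (Fin m ⊕ Fin m) F) - 1).rank → Nat.card {v : Fin m ⊕ Fin m → F // Cfsg.sympForm m F v (Matrix.mulVec ((a : ↥(Matrix.symplecticGroup (Fin m) F)) : Matrix (Fin m ⊕ Fin m) (Fin m ⊕ Fin m) F) v) = 0} = Nat.card {v : Fin m ⊕ Fin m → F // Cfsg.sympForm m F v (Matrix.mulVec ((b : ↥(Matrix.symplecticGroup (Fin m) F)) : Matrix (Fin m ⊕ Fin m) (Fin m ⊕ Fin m) F) v) = 0})) := by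
  open Cfsg.Lib.Symp Matrix in
  have h1 := inv2_sp (ha ▸ pow_orderOf_eq_one a)
  have h2 := inv2_sp (hb ▸ pow_orderOf_eq_one b)
  simp only [sympForm_eq_bil, rank_sub_one, sp_isConj_iff]
  refine ⟨fun H => ⟨H.sim.sub_one.finrank_range, fun _ => ?_⟩, fun ⟨h3, h4⟩ =>
    h1.isim h2 rfl h3 fun he => ?_⟩
  · obtain ⟨e, e1, e2⟩ := H
    exact Nat.card_congr (e.toEquiv.subtypeEquiv fun v => by
      rw [← e1]; exact (congrArg (bil _ F (e v) · = 0) (e2 v)).to_iff)
  have key : ∀ {x y : symplecticGroup (Fin m) F}, Inv2 (bil _ F) (toLin' y.1) →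
      Nat.card {v // bil _ F v (x.1 *ᵥ v) = 0} = Nat.card {v // bil _ F v (y.1 *ᵥ v) = 0} →
      (∀ v, bil _ F v (toLin' x.1 v) = 0) → ∀ v, bil _ F v (toLin' y.1 v) = 0 := fun h e hx => by
    by_contra h0
    have := h.card_mul h0
    simp only [toLin'_apply] at this hx
    rw [← e, Nat.card_congr (Equiv.subtypeUnivEquiv hx), ← Module.natCard_eq_pow_finrank] at this
    exact (Finite.one_lt_card (α := F)).ne' ((Nat.mul_eq_left Nat.card_pos.ne').1 this)
  exact ⟨key h2 (h4 he), key h1 (h4 he).symm⟩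

end Cfsg.Agent.S2166
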