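import Cfsg.Statements.S2172
import Cfsg.Agent.Lib.Orth.CharTwo

set_option autoImplicit false
open Cfsg

namespace Cfsg.Agent.S2172

open Cfsg.Lib.Orth QuadraticMap

/-- Splitting of involution classes from O to Ω for the hyperbolic quadratic form Q = Σ x_i y_i in dimension 2m over a finite field F of characteristic two, m ≥ 4. Let t, s be involutions of the commutator subgroup Ω that are conjugate in the full isometry group O. If it is not the case that t − 1 has rank m and Q(v + t v) = 0 for every vector v, then t and s are conjugate by an element of Ω. If t − 1 has rank m and Q(v + t v) = 0 for all v, then t and s are conjugate by an element of Ω exactly when the intersection of the images of t − 1 and s − 1 has even dimension (so the class of t in O meets at most two classes of Ω). -/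
theorem result {F : Type*} [Field F] [Fintype F] [CharP F 2] {m : ℕ} (hm : 4 ≤ m) (t s : ↥(Cfsg.isometryGroup F (Cfsg.quadFormPlus m F))) (ht : orderOf t = 2) (hs : orderOf s = 2) (htO : t ∈ Cfsg.Omega F (Cfsg.quadFormPlus m F)) (hsO : s ∈ Cfsg.Omega F (Cfsg.quadFormPlus m F)) (hconj : IsConj t s) :
    (¬ (((((t : ↥(Cfsg.isometryGroup F (Cfsg.quadFormPlus m F))) : GL (Fin m ⊕ Fin m) F) : Matrix (Fin m ⊕ Fin m) (Fin m ⊕ Fin m) F) - 1).rank = m ∧ ∀ v : Fin m ⊕ Fin m → F, Cfsg.quadFormPlus m F (v + Matrix.mulVec (((t : ↥(Cfsg.isometryGroup F (Cfsg.quadFormPlus m F))) : GL (Fin m ⊕ Fin m) F) : Matrix (Fin m ⊕ Fin m) (Fin m ⊕ Fin m) F) v) = 0) →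
      ∃ g ∈ Cfsg.Omega F (Cfsg.quadFormPlus m F), g * t * g⁻¹ = s) ∧
    ((((((t : ↥(Cfsg.isometryGroup F (Cfsg.quadFormPlus m F))) : GL (Fin m ⊕ Fin m) F) : Matrix (Fin m ⊕ Fin m) (Fin m ⊕ Fin m) F) - 1).rank = m ∧ ∀ v : Fin m ⊕ Fin m → F, Cfsg.quadFormPlus m F (v + Matrix.mulVec (((t : ↥(Cfsg.isometryGroup F (Cfsg.quadFormPlus m F))) : GL (Fin m ⊕ Fin m) F) : Matrix (Fin m ⊕ Fin m) (Fin m ⊕ Fin m) F) v) = 0) →
      ((∃ g ∈ Cfsg.Omega F (Cfsg.quadFormPlus m F), g * t * g⁻¹ = s) ↔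
        Even (Module.finrank F ↥(LinearMap.range (Matrix.toLin' ((((t : ↥(Cfsg.isometryGroup F (Cfsg.quadFormPlus m F))) : GL (Fin m ⊕ Fin m) F) : Matrix (Fin m ⊕ Fin m) (Fin m ⊕ Fin m) F) - 1)) ⊓ LinearMap.range (Matrix.toLin' ((((s : ↥(Cfsg.isometryGroup F (Cfsg.quadFormPlus m F))) : GL (Fin m ⊕ Fin m) F) : Matrix (Fin m ⊕ Fin m) (Fin m ⊕ Fin m) F) - 1)))))) := by
  revert t s
  rw [← coe_qPlus]
  intro t s ht hs htO hsO hconj
  have hQ := nd_qPlus (F := F) m
  have hE : ¬ Exc (qPlus m F) := not_exc_of_five_le (by simp; omega)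
  have h2 : (2 : F) = 0 := CharTwo.two_eq_zero
  have hc : IsConj (isoEquiv (qPlus m F) t) (isoEquiv (qPlus m F) s) := (isoEquiv (qPlus m F)).toMonoidHom.map_isConj hconj
  have hL : ((((t : GL (Fin m ⊕ Fin m) F) : Matrix (Fin m ⊕ Fin m) (Fin m ⊕ Fin m) F) - 1).rank = m ∧ ∀ v : Fin m ⊕ Fin m → F, qPlus m F (v + Matrix.mulVec ((t : GL (Fin m ⊕ Fin m) F) : Matrix (Fin m ⊕ Fin m) (Fin m ⊕ Fin m) F) v) = 0) ↔ Lag (qPlus m F) (O.comm (isoEquiv (qPlus m F) t)) := by
    rw [lag_qPlus_iff, rank_sub_one_eq (Q := qPlus m F) t]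
    refine and_congr_right fun _ => ⟨fun h w hw => ?_, fun h v => h _ (O.mem_comm.2 ⟨v, ?_⟩)⟩
    · obtain ⟨y, rfl⟩ := O.mem_comm.1 hw
      rw [sub_eq_neg_add, neg_eq_of_two h2]
      exact h y
    · rw [sub_eq_neg_add, neg_eq_of_two h2]; rfl
  rw [hL, exists_omega_conj_iff (Q := qPlus m F) t s, range_toLin'_sub_one (Q := qPlus m F) t,
    range_toLin'_sub_one (Q := qPlus m F) s]
  refine ⟨fun h => exists_commutator_conj_of_not_lag hQ hE h2 ?_ h hc, fun h => ?_⟩
  · rw [← map_mul, ← pow_two, ← ht, pow_orderOf_eq_one, map_one]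
  · have h1 := (mem_omega_iff (Q := qPlus m F) t).1 htO
    rw [commutator_eq_ker_dickson hQ hE h2, MonoidHom.mem_ker, dickson_eq_one_iff] at h1
    rw [exists_commutator_conj_iff_of_lag hQ hE h2 h hc, psign_eq_one_iff,
      Nat.even_sub (Submodule.finrank_mono inf_le_left)]
    simp only [h1, true_iff]

end Cfsg.Agent.S2172
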