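import Cfsg.Statements.S2173
import Cfsg.Agent.Lib.Orth.CharTwo

set_option autoImplicit false
open Cfsg

namespace Cfsg.Agent.S2173

open Cfsg.Lib.Orth QuadraticMap

/-- For the quadratic form Σ x_i y_i + (z₁² + c z₁ z₂ + d z₂²) in dimension 2m with anisotropic binary part over a finite field F of characteristic two, m ≥ 4 (minus type): two involutions of the commutator subgroup Ω that are conjugate in the full isometry group O are conjugate by an element of Ω (no class of involutions of O inside Ω splits). -/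
theorem result {F : Type*} [Field F] [Fintype F] [CharP F 2] {m : ℕ} (hm : 4 ≤ m) (c d : F) (hcd : ∀ z₁ z₂ : F, z₁ ^ 2 + c * z₁ * z₂ + d * z₂ ^ 2 = 0 → z₁ = 0 ∧ z₂ = 0) (t s : ↥(Cfsg.isometryGroup F (Cfsg.quadFormMinus (m - 1) F c d))) (ht : orderOf t = 2) (hs : orderOf s = 2) (htO : t ∈ Cfsg.Omega F (Cfsg.quadFormMinus (m - 1) F c d)) (hsO : s ∈ Cfsg.Omega F (Cfsg.quadFormMinus (m - 1) F c d)) (hconj : IsConj t s) :
    ∃ g ∈ Cfsg.Omega F (Cfsg.quadFormMinus (m - 1) F c d), g * t * g⁻¹ = s := by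
  revert t s
  rw [← coe_qMinus]
  intro t s ht hs htO hsO hconj
  refine (exists_omega_conj_iff (Q := qMinus (m - 1) F c d) t s).2 ?_
  refine exists_commutator_conj_of_not_lag (nd_qMinus _ hcd) (not_exc_of_five_le (by simp; omega))
    CharTwo.two_eq_zero ?_ (fun h => ?_) ((isoEquiv (qMinus (m - 1) F c d)).toMonoidHom.map_isConj hconj)
  · rw [← map_mul, ← pow_two, orderOf_dvd_iff_pow_eq_one.1 ht.dvd, map_one]
  · have h1 := h.1.finrank_le_wittIndex
    have h2 := h.2
    rw [wittIndex_qMinus _ hcd] at h1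
    simp at h2
    omega

end Cfsg.Agent.S2173
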