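import Cfsg.Statements.S2177
import Cfsg.Agent.Lib.Chev.FoldG2
import Cfsg.Agent.Lib.Twisted.InvolInst

set_option autoImplicit false
open Cfsg

namespace Cfsg.Agent.S2177

/-- Conjugacy classes of involutions in the Chevalley group of type G₂ over a finite field F of characteristic two with at least four elements (the matrix group generated by the root elements x_r(t)). In this problem's root numbering for type G₂ (the Chevalley data module; p₁ = a short, p₂ = b long; roots indexed by coefficient vectors in increasing order) let 11 be the highest root 3a + 2b (long) and 9 the short root 2a + b; consider x_{3a+2b}(1) and x_{2a+b}(1). Then: each invertible matrix equal to one of these two products lies in the group and has order 2; every element of order 2 of the group is conjugate in the group to one of them; and no two of them are conjugate in the group (so, the two matrices being distinct, the group has exactly two conjugacy classes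 of involutions). -/
theorem result {F : Type*} [Field F] [Fintype F] [CharP F 2] (hF : 4 ≤ Fintype.card F) :
    (∀ y : GL Cfsg.Lie.chevG2.Idx F, ((y : GL Cfsg.Lie.chevG2.Idx F) : Matrix Cfsg.Lie.chevG2.Idx Cfsg.Lie.chevG2.Idx F) ∈ [Cfsg.Lie.chevG2.x F 11 1, Cfsg.Lie.chevG2.x F 9 1] → y ∈ Cfsg.Lie.chevG2.group F ∧ orderOf y = 2) ∧
    (∀ g ∈ Cfsg.Lie.chevG2.group F, orderOf g = 2 → ∃ y ∈ Cfsg.Lie.chevG2.group F, ((y : GL Cfsg.Lie.chevG2.Idx F) : Matrix Cfsg.Lie.chevG2.Idx Cfsg.Lie.chevG2.Idx F) ∈ [Cfsg.Lie.chevG2.x F 11 1, Cfsg.Lie.chevG2.x F 9 1] ∧ ∃ h ∈ Cfsg.Lie.chevG2.group F, h * g * h⁻¹ = y) ∧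
    (∀ y₁ ∈ Cfsg.Lie.chevG2.group F, ∀ y₂ ∈ Cfsg.Lie.chevG2.group F, ((y₁ : GL Cfsg.Lie.chevG2.Idx F) : Matrix Cfsg.Lie.chevG2.Idx Cfsg.Lie.chevG2.Idx F) ∈ [Cfsg.Lie.chevG2.x F 11 1, Cfsg.Lie.chevG2.x F 9 1] → ((y₂ : GL Cfsg.Lie.chevG2.Idx F) : Matrix Cfsg.Lie.chevG2.Idx Cfsg.Lie.chevG2.Idx F) ∈ [Cfsg.Lie.chevG2.x F 11 1, Cfsg.Lie.chevG2.x F 9 1] →
      (∃ h ∈ Cfsg.Lie.chevG2.group F, h * y₁ * h⁻¹ = y₂) → ((y₁ : GL Cfsg.Lie.chevG2.Idx F) : Matrix Cfsg.Lie.chevG2.Idx Cfsg.Lie.chevG2.Idx F) = ((y₂ : GL Cfsg.Lie.chevG2.Idx F) : Matrix Cfsg.Lie.chevG2.Idx Cfsg.Lie.chevG2.Idx F)) := by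
  open Cfsg.Lie Cfsg.Lib.Chev Cfsg.Lib.Chev.RootSys Cfsg.Lib.Chev.ChevSys Cfsg.Lib.Twisted Cfsg.Lib.St in
  obtain ⟨α, hα⟩ := Cfsg.Agent.S1081.result (F := F) (chevD4, [2, 1, 3, 0]) (by simp)
  obtain ⟨β, hβ⟩ := Cfsg.Agent.S1080.result (F := F) chevD4 (by simp) (RingEquiv.refl F)
  obtain ⟨S, hθ⟩ : ∃ S : Twist (CD4 F) symD4, ∀ i t, S.θ i t = t := by
    obtain ⟨S, hS⟩ := exists_twist checkedD4 symD4 (fun _ => RingHom.id F) (φ := fun _ t => t)
      (f := RingEquiv.refl F) (by change ∀ i : Fin 4, (πD4 i).val = _; decide) (fun _ _ => rfl) hα hβ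
    exact ⟨S, fun i t => hS ▸ rfl⟩
  obtain ⟨ψ, hψ⟩ := checkedD4.exists_fold (F := F) checkedG2 foG2 (checkedG2.noA1 (by simp))
    (kerDataG2 _).kerChr_eq_bot foG2_chk
  replace hψ := fun r => hψ ⟨0, by decide⟩ ⟨1, by decide⟩ r fun i hi => absurd (by
    revert i; decide) hi
  have h1 : ∀ (k : Fin 2) t, ψ ((checkedG2.gsys F).x (checkedG2.R.simple k) t) =
      xs (CD4 F) (![[0, 2, 3], [1]] k) fun _ => t := fun k t =>
    (hψ _ t).trans (foX_eq_xs _ _ (by revert k; decide +kernel) t)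
  have h2 : ∀ (k : Fin 2) t, ψ ((checkedG2.gsys F).x (checkedG2.R.neg (checkedG2.R.simple k)) t) =
      ys (CD4 F) (![[0, 2, 3], [1]] k) fun _ => t := fun k t =>
    (hψ _ t).trans (foX_eq_ys _ _ (by revert k; decide +kernel) t)
  have h3 := range_eq_fix (S := S) faithful_D4 adjoint_D4 (sysG_grp _ _) (checkedG2.gsys_grp F) hθ
    (by rw [symD4_orb, RD4_A]; decide) (n := 3) (m := 2) (by decide) (by rw [symD4_π]; decide)
    (fun c hc => (ker_D4 (M := Additive Fˣ) c ((tor_eq_one_iff _ faithful_D4).1 hc)).1)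
    (κ := Fin 2) (Equiv.swap 0 1) (by rw [symD4_orb]; decide) h1 h2
  have hT : S.IsTw S.Fix := ⟨faithful_D4, le_rfl, (sysG_grp _ _).ge.trans' le_top, fun _ => inf_le_right,
    Fin.forall_fin_two.2 ⟨⟨_, (Twist.ys_mem_Y (S := S) (by decide) orb0_D4 (by simp)
      fun i _ => (hθ i 1).symm).2, ys_one_ne_one faithful_D4 (by decide) (by decide),
      (Twist.ys_mem_Y (S := S) (by decide) orb0_D4 (by simp) fun i _ => (hθ i 1).symm).1⟩,
      ⟨_, (Twist.ys_mem_Y (S := S) (by decide) orb1_D4 orth_D4 fun i _ => (hθ i 1).symm).2,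
      ys_one_ne_one faithful_D4 (by decide) (by decide),
      (Twist.ys_mem_Y (S := S) (by decide) orb1_D4 orth_D4 fun i _ => (hθ i 1).symm).1⟩⟩⟩
  have h4 := faithful_D4.injective_of_UV (checkedG2.gsys_faithful F) (checkedG2.gsys_adjoint F)
    (checkedG2.gsys_grp F) (connG2 _) (ψ := ψ) (fun r hr t => hψ r t ▸ foX_mem_U _ _ (by
      rw [← checkedG2.isPosRoot_iff] at hr
      revert r
      decide +kernel) t) (i := (1 : Fin 2))
      (by rw [h2]; simpa [ys] using PreSys.x_mem_V _ (isPos_neg_iff.not.2 (by simp [isPos_simple])) _)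
      (by rw [h2]; exact ys_one_ne_one faithful_D4 (by decide) (by decide))
  have h : ∀ b ∈ [[], [23], [17, 20, 21]] ++ gensD4, checkedD4.xl F b ∈ S.Fix := fun b hb =>
    xl_mem checkedD4 hT (ρ := 0x17161115100d140f130e0c12050b090408030a0702060100) (fun _ => rfl)
      (by revert b; decide +kernel)
  have e0 : ψ (checkedG2.xl F []) = checkedD4.xl F [] := map_one ψ
  have e1 : ψ (checkedG2.xl F [11]) = checkedD4.xl F [23] := by
    have := hψ ⟨11, by decide⟩ 1
    rw [foX, show lget [] 11 foG2 = [(23, -1)] from rfl] at this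
    simp only [Checked.xl, Cfsg.Lib.BN.wp_cons, Cfsg.Lib.BN.wp_nil, mul_one]
    exact (congrArg ψ (xN_val checkedG2 ⟨11, by decide⟩ 1)).trans (this.trans (by simp [CharTwo.neg_eq]))
  have e2 : ψ (checkedG2.xl F [9]) = checkedD4.xl F [17, 20, 21] := by
    have := hψ ⟨9, by decide⟩ 1
    rw [foX, show lget [] 9 foG2 = [(17, 1), (20, -1), (21, -1)] from rfl] at this
    simp only [Checked.xl, Cfsg.Lib.BN.wp_cons, Cfsg.Lib.BN.wp_nil, mul_one]
    exact (congrArg ψ (xN_val checkedG2 ⟨9, by decide⟩ 1)).trans (this.trans (by simp [CharTwo.neg_eq]))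
  refine checkedG2.invol_classes (reps := [[11], [9]]) (fun t ht => ?_)
    (fun l hl => checkedG2.xl_mul_self (by revert l; decide +kernel)) ?_ (by simp)
  · obtain ⟨l, hl, ⟨g, hg⟩, e⟩ := exists_conj_xl checkedD4 hT (cs := csD4)
      (fun b hb => h b (List.mem_append_right _ hb)) (fun b hb => h b (List.mem_append_left _ hb))
      (by decide +kernel) (by decide +kernel) (t := ⟨ψ t, h3.le ⟨t, rfl⟩⟩)
      (Subtype.ext (by simp [← map_mul, ht]))
    obtain ⟨g, rfl⟩ := h3.ge hg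
    have e' : ∀ l', ψ (checkedG2.xl F l') = checkedD4.xl F l → IsConj t (checkedG2.xl F l') :=
      fun l' e' => isConj_iff.2 ⟨g, h4 (by simpa [e'] using e)⟩
    simp only [List.mem_cons, List.not_mem_nil, or_false] at hl
    rcases hl with rfl | rfl | rfl
    exacts [⟨_, by simp, e' _ e0⟩, ⟨_, by simp, e' _ e1⟩, ⟨_, by simp, e' _ e2⟩]
  · have := checkedD4.pairwise_of_rank (F := F) (L := rkD4) (by decide +kernel) (by decide +kernel)
    change ([[], [23], [17, 20, 21]] : List (List ℕ)).Pairwise _ at this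
    simp only [List.pairwise_cons, List.forall_mem_cons, ← e0, ← e1, ← e2] at this ⊢
    exact ⟨⟨mt ψ.map_isConj this.1.1, mt ψ.map_isConj this.1.2.1, by simp⟩,
      ⟨mt ψ.map_isConj this.2.1.1, by simp⟩, by simp⟩

end Cfsg.Agent.S2177
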