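import Cfsg.Statements.S2180
import Cfsg.Agent.Lib.Chev.InvolCent
import Cfsg.Agent.Lib.Chev.CertG2

set_option autoImplicit false
open Cfsg

namespace Cfsg.Agent.S2180

open Cfsg.Lib.Chev

/-- Centralizers of involutions in the Chevalley group G of type G₂ over a finite field F of characteristic two with at least four elements (this problem's root numbering for type G₂, from the Chevalley data module: a = p₁ short with index 7, b = p₂ long with index 6, −a = 4, −b = 5, 2a + b = 9, 3a + b = 10, 3a + 2b = 11; U generated by the positive root subgroups). For an element z of G with matrix x_{3a+2b}(1): the centralizer of z in G is generated by U and X_{−a}. For an element t of G with matrix x_{2a+b}(1): the centralizer of t in G is generated by X_{2a+b}, X_{3a+b}, X_{3a+2b}, X_b and X_{−b}. -/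
theorem result {F : Type*} [Field F] [Fintype F] [CharP F 2] (hF : 4 ≤ Fintype.card F) (z t : GL Cfsg.Lie.chevG2.Idx F) (hz : (z : Matrix Cfsg.Lie.chevG2.Idx Cfsg.Lie.chevG2.Idx F) = Cfsg.Lie.chevG2.x F 11 1) (ht : (t : Matrix Cfsg.Lie.chevG2.Idx Cfsg.Lie.chevG2.Idx F) = Cfsg.Lie.chevG2.x F 9 1) :
    Cfsg.Lie.chevG2.group F ⊓ Subgroup.centralizer {z} = Cfsg.Lie.chevG2.posUnipotent F ⊔ Cfsg.Lie.chevG2.rootSubgroup F 4 ∧
    Cfsg.Lie.chevG2.group F ⊓ Subgroup.centralizer {t} = Cfsg.Lie.chevG2.rootSubgroup F 9 ⊔ Cfsg.Lie.chevG2.rootSubgroup F 10 ⊔ Cfsg.Lie.chevG2.rootSubgroup F 11 ⊔ Cfsg.Lie.chevG2.rootSubgroup F 6 ⊔ Cfsg.Lie.chevG2.rootSubgroup F 5 := by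
  rw [checkedG2.posUnipotent_eq, checkedG2.rootSubgroup_eq' (r := 4) (by decide), checkedG2.rootSubgroup_eq' (r := 5) (by decide),
    checkedG2.rootSubgroup_eq' (r := 6) (by decide), checkedG2.rootSubgroup_eq' (r := 9) (by decide),
    checkedG2.rootSubgroup_eq' (r := 10) (by decide), checkedG2.rootSubgroup_eq' (r := 11) (by decide),
    checkedG2.centralizer_eq 2 (l := fl _ [11]) (Z := []) (J := fl _ [0])
      (S := [4, 6, 7, 8, 9, 10, 11]) (Γ := []) (fun _ => 1) (fun _ _ => 1)
      (by decide +kernel) (by decide +kernel) (by decide +kernel) (by decide +kernel)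
      (by decide +kernel) (by decide +kernel) [11] (by decide +kernel) (v := z)
      (by rw [hz]; simp),
    checkedG2.centralizer_eq 2 (l := fl _ [9]) (Z := fl _ [10, 11])
      (J := fl _ [1]) (S := [5, 6, 9, 10, 11])
      (Γ := (fl _ [7, 8]).zip (fl _ [10, 11])) (fun _ => 1) (fun _ _ => 1)
      (by decide +kernel) (by decide +kernel) (by decide +kernel) (by decide +kernel)
      (by decide +kernel) (by decide +kernel) [9] (by decide +kernel) (v := t)
      (by rw [ht]; simp)]
  simp only [PreSys.U, ← PreSys.XS_union]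
  constructor <;> refine congrArg _ (Set.ext ?_) <;> decide +kernel

end Cfsg.Agent.S2180
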