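import Cfsg.Statements.S2190
import Cfsg.Agent.Lib.Chev.OverE

set_option autoImplicit false
open Cfsg

namespace Cfsg.Agent.S2190

open Cfsg.Lib.Chev Cfsg.Lie

/-- Subfield subgroups of prime degree are maximal. Let K be a finite field with q^r elements, r a prime, q a power of the characteristic, and G the Chevalley group of type G₂, B₂, D₄, F₄, E₆, E₇ or E₈ over K (the matrix group generated by the root elements). Let M be the subgroup of G consisting of the matrices all of whose entries lie in the subfield with q elements (entries c with c^q = c). Then M is a proper subgroup of G and is maximal: every subgroup of G containing M is M or G. -/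
theorem result {K : Type*} [Field K] [Fintype K] (p : ℕ) [Fact p.Prime] [CharP K p] (D : Cfsg.Lie.ChevalleyDatum) (hD : D ∈ [Cfsg.Lie.chevG2, Cfsg.Lie.chevB2, Cfsg.Lie.chevD4, Cfsg.Lie.chevF4, Cfsg.Lie.chevE6, Cfsg.Lie.chevE7, Cfsg.Lie.chevE8]) (a r : ℕ) (ha : 1 ≤ a) (hr : r.Prime) (hK : Fintype.card K = (p ^ a) ^ r) (M : Subgroup (GL D.Idx K))
    (hM : ∀ g : GL D.Idx K, g ∈ M ↔ g ∈ D.group K ∧ ∀ i j : D.Idx, ((g : Matrix D.Idx D.Idx K) i j) ^ (p ^ a) = (g : Matrix D.Idx D.Idx K) i j) :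
    M ≠ D.group K ∧ ∀ H : Subgroup (GL D.Idx K), M ≤ H → H ≤ D.group K → H = M ∨ H = D.group K := by
  have hq : 1 < p ^ a := Nat.one_lt_pow (by omega) (Fact.out : p.Prime).one_lt
  rw [← Nat.card_eq_fintype_card] at hK
  have h0 := Lib.Twisted.card_fixed (K := K) hq.le (hK ▸ Nat.sub_one_dvd_pow_sub_one _ r)
  refine ⟨fun e => ?_, fun H h1 h2 => ?_⟩
  · obtain ⟨c, h⟩ := exists_checked hD
    obtain ⟨σ, h1, h2⟩ := h.exists_fieldHom (iterateFrobenius K p a)
    obtain ⟨i⟩ := Checked.nonempty_rank hD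
    rw [Nat.card_congr (Equiv.subtypeUnivEquiv (p := fun t => t ^ p ^ a = t) fun t =>
      (h.gsys_faithful K).x_inj ((h1 (h.R.simple i) t).symm.trans
        ((h2 _).2 ((hM _).1 (e.ge (Subtype.prop _))).2))), hK] at h0
    exact hr.ne_one (Nat.pow_right_injective hq (h0.trans (pow_one _).symm))
  have h3 : ∀ t : K, t ^ p ^ a = t → ∀ (g : GL D.Idx K) s,
      (g : Matrix D.Idx D.Idx K) = D.x K s t → g ∈ H :=
    fun t ht g s e => h1 ((hM g).2 (fix_entries hD (iterateFrobenius K p a) e ht))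
  obtain ⟨A, _, h4, h5⟩ := exists_subfield p hD h2 (h3 1 (one_pow _))
  obtain ⟨m, -, h6⟩ := exists_card_eq_pow_of_ringHom (Subfield.inclusion
    (S := (iterateFrobenius K p a).eqLocusField (RingHom.id K)) fun t ht => (h4 t).2 (h3 t ht))
  obtain ⟨n, -, h7⟩ := exists_card_eq_pow_of_ringHom A.subtype
  replace h6 : Nat.card A = (p ^ a) ^ m := h0 ▸ h6
  have h8 : ∀ t, t ^ (p ^ a) ^ m = t ↔ t ∈ A := fun t => by
    rw [← h6, pow_card_eq_iff A.subtype]
    simp
  rw [hK, h6, ← pow_mul (p ^ a)] at h7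
  rcases (Nat.dvd_prime hr).1 ⟨n, Nat.pow_right_injective hq h7⟩ with rfl | rfl
  · exact .inl (le_antisymm (fun g hg => (hM g).2 ⟨h2 hg, fun i j => by
      simpa using (h8 _).2 (h5 g hg i j)⟩) h1)
  · exact .inr (le_antisymm h2 ((Subgroup.closure_le _).2 fun g ⟨s, t, e⟩ => (h4 t).1 ((h8 t).1
      (by rw [← hK, Nat.card_eq_fintype_card, FiniteField.pow_card])) g s
        (e.trans (by rw [ChevalleyDatum.x, dif_pos s.2]))))

end Cfsg.Agent.S2190
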