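import Cfsg.Statements.S2194
import Cfsg.Agent.Lib.RK3.Main

set_option autoImplicit false
open Cfsg

namespace Cfsg.Agent.S2194

open Cfsg.Lib.RK3 MulAction in
/-- Primitive rank 3 actions of the projective special linear groups in dimension at least 5. Let G ≅ PSL_n(F), n ≥ 5, F a finite field with q elements, act faithfully and primitively on a finite set X so that a point stabilizer has exactly three orbits on X. Then X has as many points as there are 2-dimensional subspaces of F^n: |X|·(q² − 1)(q − 1) = (q^n − 1)(q^(n−1) − 1). (The action is in fact the one on the lines of the projective space, or on its subspaces of dimension n − 2; only the number of points is asserted here.) -/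
theorem result {G X : Type*} [Group G] [Finite G] [MulAction G X] [FaithfulSMul G X] [Fintype X] {F : Type*} [Field F] [Fintype F] (n : ℕ) (hn : 5 ≤ n) (e : G ≃* Matrix.ProjectiveSpecialLinearGroup (Fin n) F) (hprim : MulAction.IsPreprimitive G X) (x : X) (h3 : Nat.card (MulAction.orbitRel.Quotient ↥(MulAction.stabilizer G x) X) = 3) :
    Fintype.card X * ((Fintype.card F ^ 2 - 1) * (Fintype.card F - 1)) = (Fintype.card F ^ n - 1) * (Fintype.card F ^ (n - 1) - 1) := by
  let φ : SLn n F →* G := e.symm.toMonoidHom.comp (QuotientGroup.mk' _)
  have hφ : Function.Surjective φ := e.symm.surjective.comp (QuotientGroup.mk'_surjective _)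
  let _ : MulAction (SLn n F) X := MulAction.compHom X φ
  have hs : ∀ (g : SLn n F) (y : X), g • y = φ g • y := fun _ _ => rfl
  refine card_main hn ?_ x ?_
  · let f : X →ₑ[φ] X := ⟨id, fun _ _ => rfl⟩
    exact (isPreprimitive_congr (f := f) hφ Function.bijective_id).2 hprim
  · rw [← h3]
    have : orbitRel (stabilizer (SLn n F) x) X = orbitRel (stabilizer G x) X := by
      ext a b
      rw [orbitRel_apply, orbitRel_apply]
      constructor
      · rintro ⟨g, hg⟩
        exact ⟨⟨φ g, g.2⟩, hg⟩
      · rintro ⟨⟨g, h⟩, hg⟩
        obtain ⟨g, rfl⟩ := hφ g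
        exact ⟨⟨g, h⟩, hg⟩
    unfold orbitRel.Quotient
    rw [this]

end Cfsg.Agent.S2194
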