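import Cfsg.Statements.S2195
import Cfsg.Agent.Lib.R3S.Main
import Cfsg.Agent.Lib.Symp.Group

set_option autoImplicit false
open Cfsg

namespace Cfsg.Agent.S2195

/-- Primitive rank 3 actions of the projective symplectic groups in dimension at least 6 over fields of odd order. Let G ≅ PSp_{2k}(F), k ≥ 3, F a finite field with q elements, q odd, act faithfully and primitively on a finite set X so that a point stabilizer has exactly three orbits. Then X has as many points as the projective space of F^{2k}: |X|·(q − 1) = q^{2k} − 1. (The action is in fact the one on the points of the projective space, all of which are isotropic for the symplectic form; only the number of points is asserted here.) -/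
theorem result {G X : Type*} [Group G] [Finite G] [MulAction G X] [FaithfulSMul G X] [Fintype X] {F : Type*} [Field F] [Fintype F] (k : ℕ) (hk : 3 ≤ k) (hq : Odd (Fintype.card F)) (e : G ≃* Cfsg.PSp k F) (hprim : MulAction.IsPreprimitive G X) (x : X) (h3 : Nat.card (MulAction.orbitRel.Quotient ↥(MulAction.stabilizer G x) X) = 3) :
    Fintype.card X * (Fintype.card F - 1) = Fintype.card F ^ (2 * k) - 1 := by
  let B := Lib.Symp.bil (Fin k) F
  let φ : Lib.Symp.isom B →* G := e.symm.toMonoidHom.comp ((QuotientGroup.mk' _).comp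
    (Lib.Symp.spEquiv (Fin k) F).symm.toMonoidHom)
  have hφ : Function.Surjective φ := e.symm.surjective.comp
    ((QuotientGroup.mk'_surjective _).comp (Lib.Symp.spEquiv (Fin k) F).symm.surjective)
  letI : MulAction (Lib.Symp.isom B) X := MulAction.compHom X φ
  have s : Lib.R3S.Sy B k := ⟨Lib.Symp.bil_isAlt _ _, Lib.Symp.bil_nondegenerate _ _,
    by rw [Lib.Symp.finrank_std, Fintype.card_fin], hk, fun h => by
      have := FiniteField.even_card_of_char_two (F := F) (ringChar.eq_iff.2 (CharTwo.of_one_ne_zero_of_two_eq_zero one_ne_zero h))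
      rw [Nat.odd_iff] at hq
      omega⟩
  rw [← Nat.card_eq_fintype_card, ← Nat.card_eq_fintype_card]
  refine s.main x (fun y z => ?_) (h3 ▸ Nat.card_congr (Quotient.congr (Equiv.refl X) fun y z => ?_))
  · obtain ⟨g, hg⟩ := MulAction.exists_smul_eq G y z
    obtain ⟨g, rfl⟩ := hφ g
    exact ⟨g, hg⟩
  · constructor
    · rintro ⟨g, hg⟩
      exact ⟨⟨φ g.1, g.2⟩, hg⟩
    · rintro ⟨⟨g, m⟩, hg⟩
      obtain ⟨g, rfl⟩ := hφ g
      exact ⟨⟨g, m⟩, hg⟩

end Cfsg.Agent.S2195
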