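import Cfsg.Statements.S2196
import Cfsg.Agent.Lib.R3U.Main

set_option autoImplicit false
open Cfsg

namespace Cfsg.Agent.S2196

/-- Primitive rank 3 actions of the projective special unitary groups in dimension at least 6 with q ≥ 3. Let G ≅ PSU_n(q), n ≥ 6, q ≥ 3 (realised over the field with q² elements), act faithfully and primitively on a finite set X so that a point stabilizer has exactly three orbits. Then X has as many points as there are isotropic points of the unitary space: |X|·(q² − 1) = (q^n − (−1)^n)(q^(n−1) − (−1)^(n−1)), written with natural numbers as |X|·(q² − 1) = (q^n − 1)(q^(n−1) + 1) for n even and (q^n + 1)(q^(n−1) − 1) for n odd. -/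
theorem result {G X : Type*} [Group G] [Finite G] [MulAction G X] [FaithfulSMul G X] [Fintype X] {F : Type*} [Field F] [Fintype F] (n q : ℕ) (hn : 6 ≤ n) (hq : 3 ≤ q) (hF : Fintype.card F = q ^ 2) (e : G ≃* Cfsg.PSU n F q) (hprim : MulAction.IsPreprimitive G X) (x : X) (h3 : Nat.card (MulAction.orbitRel.Quotient ↥(MulAction.stabilizer G x) X) = 3) :
    (Even n → Fintype.card X * (q ^ 2 - 1) = (q ^ n - 1) * (q ^ (n - 1) + 1)) ∧
    (Odd n → Fintype.card X * (q ^ 2 - 1) = (q ^ n + 1) * (q ^ (n - 1) - 1)) := by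
  obtain ⟨σ, hσ⟩ := Lib.Unitary.exists_isBar hF
  let B := Lib.Unitary.stdForm σ (Fin n)
  let φ : Lib.Unitary.SUG B →* G := e.symm.toMonoidHom.comp ((QuotientGroup.mk' _).comp
    (hσ.suEquiv n).symm.toMonoidHom)
  have hφ : Function.Surjective φ := e.symm.surjective.comp
    ((QuotientGroup.mk'_surjective _).comp (hσ.suEquiv n).symm.surjective)
  letI : MulAction (Lib.Unitary.SUG B) X := MulAction.compHom X φ
  have s : Lib.R3U.Un σ B q n := ⟨hσ.isHerm, hσ, by simp, hn, hq⟩
  have : MulAction.IsPreprimitive (Lib.Unitary.SUG B) X :=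
    (MulAction.isPreprimitive_congr (φ := φ) hφ (f := ⟨id, fun _ _ => rfl⟩) Function.bijective_id).2 hprim
  have k := s.main x (h3 ▸ Nat.card_congr (Quotient.congr (Equiv.refl X) fun y z => by
    constructor
    · rintro ⟨g, hg⟩
      exact ⟨⟨φ g.1, g.2⟩, hg⟩
    · rintro ⟨⟨g, m⟩, hg⟩
      obtain ⟨g, rfl⟩ := hφ g
      exact ⟨⟨g, m⟩, hg⟩))
  obtain ⟨m, rfl⟩ : ∃ m, n = m + 3 := ⟨n - 3, by omega⟩
  have q1 : ∀ j, 1 ≤ q ^ j := fun j => Nat.one_le_pow _ _ (by omega)
  rw [Nat.card_eq_fintype_card, Lib.R3U.uu, Nat.add_sub_cancel] at k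
  refine ⟨fun h => ?_, fun h => ?_⟩ <;> zify [q1] <;> rw [show m + 3 - 1 = m + 2 from rfl]
  · rw [Odd.neg_pow (by grind)] at k
    linear_combination k
  · rw [Even.neg_pow (by grind)] at k
    linear_combination k

end Cfsg.Agent.S2196
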