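import Cfsg.Statements.S2205
import Cfsg.Agent.Lib.TT.PSq2
import Cfsg.Agent.Lib.Perm.Linked

set_option autoImplicit false
open Cfsg

namespace Cfsg.Agent.S2205

open MulAction Subgroup Cfsg.Lib.Perm Cfsg.Lib.BG Cfsg.Lib.TT Cfsg.Lib
open scoped Cfsg.Lib.Transfer Pointwise

section

variable {G Ω : Type*} [Group G] [MulAction G Ω] {p : ℕ} {a b c y z : Ω} {r : Ω → Set Ω}
  [Finite G] [Finite Ω] (h : Sys G p a r) (hp : p ≠ 2)
include h hp

theorem two (hb : b ≠ a) :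
    IsMultiplyPretransitive (bker G a r) (sub (bker G a r) (r b) (h.ker_mem b)) 2 :=
  ((h.tr_ker hb).dichotomy (h.card b hb ▸ h.pr)).resolve_left fun e => hp (h.caseA hb e).1

theorem exists_move (hb : b ≠ a) (hc : c ∈ r b) (h1 : c ≠ b) :
    ∃ k ∈ bker G a r ⊓ stabilizer G b, k • c ≠ c := by
  obtain ⟨y, hy, h2⟩ := Set.exists_ne_of_one_lt_ncard (s := r b \ {b}) (by
    rw [Set.ncard_diff_singleton_of_mem (h.mem b hb), h.card b hb]
    have := h.pr.two_le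
    omega) c
  obtain ⟨k, hk, rfl⟩ := (tr_of_two (two h hp hb) (h.mem b hb)).tr c ⟨hc, h1⟩ y hy
  exact ⟨k, hk, h2⟩

theorem exists_fix (hb : b ≠ a) (hc : c ≠ a) :
    ∃ e ∈ r b, bker G a r ⊓ stabilizer G c ≤ stabilizer G e := by
  have := Fact.mk h.pr
  obtain ⟨P, hP⟩ := Syl.exists (p := p) (stabilizer G a)
  obtain ⟨x, hx, rfl⟩ := ((h.tr_stab a).syl h.card_compl hP).tr b hb c hc
  have := Fintype.ofFinite (sub (bker G a r) (r b) (h.ker_mem b))
  have hn := h.norm_ker (hP.le hx)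
  obtain ⟨⟨σ, hσ⟩, -⟩ := Linked.feit (two h hp hb) ⟨b, h.mem b hb⟩
    (α := (bker G a r).normalizerMonoidHom ⟨x, hn⟩) (by
      obtain ⟨k, hk⟩ := (IsPGroup.iff_orderOf.1 hP.pgroup) ⟨x, hx⟩
      refine Odd.of_dvd_nat ?_ (orderOf_map_dvd ..)
      rw [orderOf_mk] at hk ⊢
      exact hk ▸ (h.pr.odd_of_ne_two hp).pow) ⟨b, h.mem b hb⟩ (by
      rw [← Nat.card_eq_fintype_card, show Nat.card (sub (bker G a r) (r b) (h.ker_mem b)) = p from
        h.card b hb, Nat.coprime_comm, h.pr.coprime_iff_not_dvd, Nat.card_coe_set_eq,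
        ← index_stabilizer]
      intro e
      obtain ⟨⟨⟨u, hu⟩, h1⟩, h2⟩ := exists_prime_orderOf_dvd_card' p ((e.trans (index_dvd_card _)).trans
        (card_map_dvd ..))
      rw [orderOf_mk, orderOf_mk] at h2
      obtain rfl := h.faith_ker hb hu fun c hc => fix_of_fix (S := zpowers u)
        (Inv.isPGroup_zpowers (k := 1) (by rw [pow_one, ← h2, pow_orderOf_eq_one]))
        (fun g hg => h.ker_mem b g (zpowers_le.2 hu hg)) (h.card b hb) (h.mem b hb)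
        (zpowers_le.2 (congrArg Subtype.val h1)) hc (mem_zpowers u)
      exact h.pr.one_lt.ne (orderOf_one.symm.trans h2))
  refine ⟨_, (σ ⟨b, h.mem b hb⟩).2, fun k hk => ?_⟩
  have := congrArg Subtype.val (hσ ⟨_, conj_mem_of_norm' hn hk.1⟩ ⟨b, h.mem b hb⟩)
  rw [show (⟨_, conj_mem_of_norm' hn hk.1⟩ : bker G a r) • (⟨b, h.mem b hb⟩ :
    sub (bker G a r) (r b) (h.ker_mem b)) = ⟨b, h.mem b hb⟩ from Subtype.ext
      (show (x⁻¹ * k * x) • b = b by rw [mul_smul, mul_smul, hk.2, inv_smul_smul])] at this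
  change (x * (x⁻¹ * k * x) * x⁻¹) • (σ ⟨b, h.mem b hb⟩ : Ω) = _ at this
  rwa [show x * (x⁻¹ * k * x) * x⁻¹ = k by group] at this

omit hp in
theorem stab_eq (hc : c ≠ a) (hy : y ≠ a) (e : bker G a r ⊓ stabilizer G c ≤ stabilizer G y) :
    bker G a r ⊓ stabilizer G c = bker G a r ⊓ stabilizer G y := by
  refine eq_of_le_of_card_le (le_inf inf_le_left e) (Nat.eq_of_mul_eq_mul_right h.pr.pos ?_).le
  conv_lhs => rw [← h.card y hy, ← (h.tr_ker hy).card (h.mem y hy)]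
  rw [← h.card c hc, ← (h.tr_ker hc).card (h.mem c hc)]

theorem uniq (hc : c ≠ a) (hy : y ≠ a) (e : bker G a r ⊓ stabilizer G c ≤ stabilizer G y)
    (e' : bker G a r ⊓ stabilizer G c ≤ stabilizer G z) (hz : z ∈ r y) : z = y :=
  not_not.1 fun h1 => let ⟨_, hk, h2⟩ := exists_move h hp hy hz h1; h2 (e' (stab_eq h hc hy e ▸ hk))

theorem sys : Sys G p a fun c => {y | bker G a r ⊓ stabilizer G c ≤ stabilizer G y} \ {a} where
  toDT := h.toDT
  pr := h.pr
  deg := h.deg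
  mem _ hx := ⟨fun _ e => e.2, hx⟩
  eq x y hx hy := by rw [stab_eq h hx hy.2 hy.1]
  nota _ e := e.2 rfl
  card x hx := by
    rw [← h.card_blks, ← Set.ncard_image_of_injOn (f := r) fun y hy z hz e =>
      uniq h hp hx hz.2 hz.1 hy.1 (e ▸ h.mem y hy.2)]
    congr 1
    refine (Set.image_mono fun y hy => hy.2).antisymm ?_
    rintro _ ⟨y, hy, rfl⟩
    obtain ⟨e, h1, h2⟩ := exists_fix h hp hy hx
    exact ⟨e, ⟨h2, h.ne h1⟩, h.eq y e hy h1⟩
  smul g hg x := by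
    have key : ∀ (g : G) (x y : Ω), g • a = a → bker G a r ⊓ stabilizer G x ≤ stabilizer G y →
        bker G a r ⊓ stabilizer G (g • x) ≤ stabilizer G (g • y) := fun g x y hg e k hk => by
      have := e (show g⁻¹ * k * g ∈ _ from ⟨conj_mem_of_norm' (h.norm_ker hg) hk.1,
        mem_stabilizer_iff.2 (by rw [mul_smul, mul_smul, hk.2, inv_smul_smul])⟩)
      rwa [mem_stabilizer_iff, mul_smul, mul_smul, inv_smul_eq_iff] at this
    ext y
    rw [Set.mem_smul_set_iff_inv_smul_mem]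
    refine and_congr ⟨fun e => ?_, fun e => ?_⟩
      (not_congr (inv_smul_eq_iff.trans (by rw [hg]; rfl)).symm)
    · simpa using key g⁻¹ _ _ (inv_smul_eq_iff.2 hg.symm) e
    · simpa using key g _ _ hg e

theorem trD (hb : b ≠ a) : Tr (stab2 G a b) (r b \ {b}) :=
  (tr_of_two (two h hp hb) (h.mem b hb)).mono (fun _ e => ⟨e.1.1, e.2⟩) fun g hg y hy =>
    ⟨h.smul_mem hg.1 (h.smul_eq' hg.1 hg.2) hy.1, (h.tr_stab b).mem g hg.2 y hy.2⟩

theorem card_diff (hb : b ≠ a) : (r b \ {b}).ncard = p - 1 ∧ 1 < p - 1 := by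
  rw [Set.ncard_diff_singleton_of_mem (h.mem b hb), h.card b hb]
  have := h.pr.two_le
  omega

theorem false : False := by
  have h' := sys h hp
  set r' := fun c : Ω => {y : Ω | bker G a r ⊓ stabilizer G c ≤ stabilizer G y} \ {a}
  obtain ⟨b, hb⟩ := Set.nonempty_of_ncard_ne_zero (h.card_compl ▸ pow_ne_zero 2 h.pr.ne_zero)
  obtain ⟨s, h2, h1⟩ := h.swap hb
  have hs := pairStab_le_norm (swap_mem_pairStab h1 h2)
  have hT : Tr (stab2 G a b) (s • (r b \ {b})) := ⟨fun g hg y hy => by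
      rw [Set.mem_smul_set_iff_inv_smul_mem] at hy ⊢
      simpa [mul_smul] using (trD h hp hb).mem _ (conj_mem_of_norm' hs hg) _ hy, by
    rintro _ ⟨y, hy, rfl⟩ _ ⟨z, hz, rfl⟩
    obtain ⟨g, hg, rfl⟩ := (trD h hp hb).tr y hy z hz
    exact ⟨_, conj_mem_of_norm hs hg, by simp [mul_smul]⟩⟩
  have key : ∀ {B : Set Ω}, Tr (stab2 G a b) B → ∀ c ∈ s • (r b \ {b}), c ∈ B →
      s • insert a (r b) = insert a (insert b B) := fun hB c h3 h4 => by
    rw [← Set.insert_diff_self_of_mem (h.mem b hb), Set.smul_set_insert, Set.smul_set_insert, h1, h2,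
      Set.insert_comm]
    congr 2
    refine Set.ext fun y => ⟨fun e => ?_, fun e => ?_⟩
    · obtain ⟨g, hg, rfl⟩ := hT.tr c h3 y e
      exact hB.mem g hg c h4
    · obtain ⟨g, hg, rfl⟩ := hB.tr c h4 y e
      exact hT.mem g hg c h3
  obtain ⟨h3, h4⟩ := card_diff h hp hb
  obtain ⟨x, hx⟩ := Set.nonempty_of_ncard_ne_zero (h3 ▸ (one_pos.trans h4).ne')
  have hc := Set.smul_mem_smul_set (a := s) hx
  have hca : s • x ≠ a := h2 ▸ (MulAction.injective s).ne hx.2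
  have hcb : s • x ≠ b := h1 ▸ (MulAction.injective s).ne (h.ne hx.1)
  generalize s • x = c at hc hca hcb
  by_cases h5 : c ∈ r b
  · exact hb (h1.symm.trans (h.no_move hb (by
      rw [key (trD h hp hb) c hc ⟨h5, hcb⟩, Set.insert_diff_self_of_mem (h.mem b hb)])))
  by_cases h6 : c ∈ r' b
  · obtain ⟨g, hg, rfl⟩ := (h'.tr_blk hb).tr b (h'.mem b hb) c h6
    have := key (trD h' hp hb) _ hc ⟨h6, hcb⟩
    rw [Set.insert_diff_self_of_mem (h'.mem b hb)] at this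
    have := h.no_move hb (g := s⁻¹ * g * s) (by
      rw [mul_smul, mul_smul, inv_smul_eq_iff, this, Set.smul_set_insert, hg.1, hg.2])
    rw [mul_smul, mul_smul, inv_smul_eq_iff, h1] at this
    exact hcb this
  obtain ⟨e, h7, h8⟩ := exists_fix h hp hca hb
  have hea := h.ne h7
  have h9 := h.eq c e hca h7
  have h10 : r e \ {e} = s • (r b \ {b}) := Set.eq_of_subset_of_ncard_le (fun y hy => by
    obtain ⟨k, hk, rfl⟩ := (tr_of_two (two h hp hea) (h.mem e hea)).tr c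
      ⟨h9 ▸ h.mem c hca, fun e => h6 ⟨Eq.symm e ▸ h8, hca⟩⟩ y hy
    rw [← stab_eq h hb hea h8] at hk
    exact hT.mem k ⟨hk.1.1, hk.2⟩ c hc) (by rw [Set.ncard_smul_set, h3, (card_diff h hp hea).1])
  obtain ⟨y, hy, h11⟩ := Set.exists_ne_of_one_lt_ncard ((card_diff h' hp hb).1 ▸ h4) e
  obtain ⟨d, hd, rfl⟩ := (trD h' hp hb).tr e ⟨⟨h8, hea⟩, fun e => h5 (e ▸ h9 ▸ h.mem c hca)⟩ y hy
  refine h11 (uniq h hp hb hea h8 hy.1.1 ?_)
  rw [h9]
  exact h.smul_mem hd.1 (h.smul_eq hca hd.1 (h9 ▸ (h10.ge (hT.mem d hd c hc)).1)) h7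

end

/-- A finite group acting faithfully and 2-transitively on a set with p² + 1 points, p a prime, is doubly primitive — a point stabilizer acts primitively on the remaining p² points — unless p = 2 and the group is the Frobenius group of order 20. -/
theorem result {G Ω : Type*} [Group G] [Finite G] [Fintype Ω] [MulAction G Ω] [FaithfulSMul G Ω] (p : ℕ) (hp : p.Prime) (hΩ : Fintype.card Ω = p ^ 2 + 1) (h2 : MulAction.IsMultiplyPretransitive G Ω 2) (a : Ω) :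
    MulAction.IsPreprimitive ↥(MulAction.stabilizer G a) ↥(SubMulAction.ofStabilizer G a) ∨ (p = 2 ∧ Nat.card G = 20) := by
  refine or_iff_not_imp_left.2 fun hn => ?_
  have h := DT.of h2
  have : IsPretransitive (stabilizer G a) (SubMulAction.ofStabilizer G a) := ⟨fun x y =>
    let ⟨g, hg, e⟩ := (h.tr_stab a).tr _ x.2 _ y.2; ⟨⟨g, hg⟩, Subtype.ext e⟩⟩
  obtain ⟨B, hB, h1⟩ : ∃ B : Set (SubMulAction.ofStabilizer G a), IsBlock (stabilizer G a) B ∧
    ¬ IsTrivialBlock B := by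
    by_contra! e
    exact hn ⟨e _⟩
  rw [← Nat.card_eq_fintype_card] at hΩ
  rw [IsTrivialBlock, not_or, Set.not_subsingleton_iff] at h1
  have h3 := hB.ncard_dvd_card h1.1.nonempty
  have h4 : Nat.card (SubMulAction.ofStabilizer G a) = p ^ 2 :=
    Nat.succ_injective ((SubMulAction.nat_card_ofStabilizer_add_one_eq G a).trans hΩ)
  obtain ⟨k, hk, h5⟩ := (Nat.dvd_prime_pow hp).1 (h4 ▸ h3)
  obtain rfl : k = 1 := by
    obtain rfl | rfl | rfl : k = 0 ∨ k = 1 ∨ k = 2 := by omega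
    · exact absurd (Set.one_lt_ncard_iff_nontrivial.2 h1.1) h5.not_gt
    · rfl
    · exact absurd ((Set.eq_univ_iff_ncard B).2 (h5.trans h4.symm)) h1.2
  obtain ⟨x₀, hx₀⟩ := h1.1.nonempty
  set C := Subtype.val '' B
  have h6 : ∀ g : G, g • a = a → ∀ x ∈ C, g • x ∈ C → ∀ y ∈ C, g • y ∈ C := by
    rintro g hg _ ⟨x, hx, rfl⟩ ⟨z, hz, e⟩ _ ⟨y, hy, rfl⟩
    exact ⟨(⟨g, hg⟩ : stabilizer G a) • y, isBlock_iff_smul_eq_of_mem.1 hB (g := ⟨g, hg⟩) hx
      ((Subtype.ext e : z = (⟨g, hg⟩ : stabilizer G a) • x) ▸ hz) ▸ Set.smul_mem_smul_set hy, rfl⟩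
  have h7 : ∀ (g : G) x, g • a = a → g • x ∈ C →
      {y | ∃ k : G, k • a = a ∧ k • x ∈ C ∧ k • y ∈ C} = g⁻¹ • C := fun g x hg hx => by
    ext y
    rw [Set.mem_inv_smul_set_iff]
    refine ⟨fun ⟨k, e1, e2, e3⟩ => ?_, fun e => ⟨g, hg, hx, e⟩⟩
    simpa [mul_smul] using h6 (g * k⁻¹) (mul_mem (s := stabilizer G a) hg (inv_mem e1)) _ e2
      (by simpa [mul_smul] using hx) _ e3
  have h8 : ∀ x, x ≠ a → ∃ g : G, g • a = a ∧ g • x ∈ C := fun x hx =>
    let ⟨g, hg, e⟩ := (h.tr_stab a).tr x hx _ x₀.2; ⟨g, hg, x₀, hx₀, e.symm⟩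
  have hS : Sys G p a fun x => {y | ∃ k : G, k • a = a ∧ k • x ∈ C ∧ k • y ∈ C} :=
    ⟨h, hp, hΩ, fun x hx => let ⟨g, e1, e2⟩ := h8 x hx; ⟨g, e1, e2, e2⟩,
      fun x y _ ⟨g, e1, e2, e3⟩ => (h7 g y e1 e3).trans (h7 g x e1 e2).symm,
      fun x ⟨g, e1, _, y, _, e3⟩ => y.2 (e3.trans e1), fun x hx => by
        obtain ⟨g, e1, e2⟩ := h8 x hx
        rw [h7 g x e1 e2, Set.ncard_smul_set, Set.ncard_image_of_injective _ Subtype.val_injective,
          h5, pow_one], fun g hg x => Set.ext fun y => by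
        rw [Set.mem_smul_set_iff_inv_smul_mem]
        exact ⟨fun ⟨k, e1, e2, e3⟩ => ⟨k * g, by rw [mul_smul, hg, e1], by rwa [mul_smul],
          by rwa [mul_smul, smul_inv_smul]⟩, fun ⟨k, e1, e2, e3⟩ => ⟨k * g⁻¹,
          mul_mem (s := stabilizer G a) e1 (inv_mem hg), by rwa [mul_smul, inv_smul_smul],
          by rwa [mul_smul]⟩⟩⟩
  by_cases e : p = 2
  · refine hS.caseA x₀.2 fun g _ y hy z hz hyz e1 e2 w hw => ?_
    have := Set.eq_of_subset_of_ncard_le (s := {y, z}) (by rintro _ (rfl | rfl); exacts [hy, hz])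
      ((hS.card _ x₀.2).trans (e.trans (Set.ncard_pair hyz).symm)).le
    obtain rfl | rfl : w ∈ ({y, z} : Set Ω) := this ▸ hw
    exacts [e1, e2]
  · exact (false hS e).elim

end Cfsg.Agent.S2205
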