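import Cfsg.Statements.S2207
import Cfsg.Agent.Lib.R3F.Main

set_option autoImplicit false
open Cfsg

namespace Cfsg.Agent.S2207

/-- Primitive rank 3 groups whose point stabilizer acts as a Frobenius group on one of its two non-trivial orbits. Let a finite group G of even order act faithfully and primitively on a finite set X so that the stabilizer of a point A has exactly three orbits, and suppose that on one of its non-trivial orbits I the stabilizer of A acts faithfully as a Frobenius group: transitively, some non-identity element fixing a point of I, and no non-identity element fixing two points of I. Then either G ≅ A₅ and X has 10 points (the action on unordered pairs), or G is solvable and has a normal subgroup of order 16 acting regularly on X. -/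
theorem result {G X : Type*} [Group G] [Finite G] [Fintype X] [MulAction G X] [FaithfulSMul G X] (heven : Even (Nat.card G)) (hprim : MulAction.IsPreprimitive G X) (A : X)
    (h3 : Nat.card (MulAction.orbitRel.Quotient ↥(MulAction.stabilizer G A) X) = 3) (B : X) (hBA : B ≠ A)
    (hfaith : ∀ g ∈ MulAction.stabilizer G A, (∀ h ∈ MulAction.stabilizer G A, g • (h • B) = h • B) → g = 1)
    (hfix : ∃ g ∈ MulAction.stabilizer G A, g ≠ 1 ∧ g • B = B)
    (hfrob : ∀ g ∈ MulAction.stabilizer G A, ∀ h ∈ MulAction.stabilizer G A, g • B = B → g • (h • B) = h • B → h • B ≠ B → g = 1) :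
    (Nonempty (G ≃* ↥(alternatingGroup (Fin 5))) ∧ Fintype.card X = 10) ∨
    (IsSolvable G ∧ ∃ N : Subgroup G, N.Normal ∧ Nat.card N = 16 ∧ ∀ x y : X, ∃! n : ↥N, (n : G) • x = y) := by
  obtain ⟨C⟩ := Cfsg.Lib.R3F.r3_make heven hprim A h3 B hBA hfaith hfix hfrob
  have hG := Cfsg.Lib.R3F.Ctx.card_G (C := C)
  have hX := Cfsg.Lib.R3F.Ctx.card_X (C := C)
  have hm := Cfsg.Lib.R3F.Ctx.m_dvd (C := C)
  have hm2 := Cfsg.Lib.R3F.Ctx.two_le_m (C := C)
  have : Nonempty X := ⟨A⟩
  have hnt : Nontrivial G := by
    obtain ⟨g, -, h, -⟩ := hfix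
    exact ⟨⟨g, 1, h⟩⟩
  have h16 : Fintype.card X = 16 → Group.IsSolvable G → IsSolvable G ∧ ∃ N : Subgroup G,
      N.Normal ∧ Nat.card N = 16 ∧ ∀ x y : X, ∃! n : ↥N, (n : G) • x = y := fun hc hs => by
    obtain ⟨M, hM⟩ := Cfsg.Lib.Core.exists_isMinNormal (G := G)
    have := hM.normal
    obtain ⟨h1, h2, p, d, -, -, h3, h4⟩ := Cfsg.Agent.S0547.result hprim M hM.ne_bot hM.min
    refine ⟨hs, M, hM.normal, by rw [h4, ← h3, Nat.card_eq_fintype_card, hc], fun x y => ?_⟩
    obtain ⟨n, hn⟩ := h1.exists_smul_eq x y
    refine ⟨n, hn, fun n' hn' => ?_⟩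
    have : n⁻¹ * n' ∈ MulAction.stabilizer M x := by
      rw [MulAction.mem_stabilizer_iff, mul_smul, inv_smul_eq_iff]
      exact hn'.trans hn.symm
    rw [h2 x, Subgroup.mem_bot] at this
    exact (inv_mul_eq_one.1 this).symm
  rcases Cfsg.Lib.R3F.Ctx.final (C := C) with ⟨h1, h2, h4⟩ | ⟨h1, h4⟩ | ⟨h1, h4⟩
  · rw [h1, h4] at hX
    rw [hX, h1, h2] at hG
    refine Or.inl ⟨?_, hX⟩
    have : IsSimpleGroup G := ⟨fun N hN => or_iff_not_imp_left.2 fun h0 => by
      obtain ⟨M, hM, hMN⟩ := Cfsg.Lib.Core.exists_isMinNormal_le hN h0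
      have := hM.normal
      have htr : MulAction.IsPretransitive M X :=
        MulAction.IsQuasiPreprimitive.isPretransitive_of_normal fun h => hM.ne_bot (by
          rw [eq_bot_iff]
          intro g hg
          exact eq_of_smul_eq_smul (α := X) fun x => by
            have : x ∈ MulAction.fixedPoints M X := h ▸ Set.mem_univ x
            rw [one_smul]; exact this ⟨g, hg⟩)
      have h10 : 10 ∣ Nat.card M := by
        have := (MulAction.stabilizer M A).index_dvd_card
        rwa [MulAction.index_stabilizer_of_transitive, Nat.card_eq_fintype_card, hX] at this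
      have hns : ¬ Group.IsSolvable M := fun hs => by
        obtain ⟨q, hq, hp⟩ := hM.exists_isPGroup hs
        have := Fact.mk hq
        obtain ⟨d, hd⟩ := IsPGroup.iff_card.1 hp
        rw [hd] at h10
        have a := (Nat.prime_dvd_prime_iff_eq Nat.prime_two hq).1
          (Nat.prime_two.dvd_of_dvd_pow (dvd_trans (by norm_num) h10))
        have b := (Nat.prime_dvd_prime_iff_eq Nat.prime_five hq).1
          (Nat.prime_five.dvd_of_dvd_pow (dvd_trans (by norm_num) h10))
        omega
      have h60 : Nat.card M ∣ 60 := by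
        have := M.card_subgroup_dvd_card
        rwa [hG] at this
      have hle := Nat.le_of_dvd (by norm_num) h60
      have : Nat.card M = 60 := by
        by_contra hne
        have : Nat.card M = 10 ∨ Nat.card M = 20 ∨ Nat.card M = 30 := by
          obtain ⟨d, hd⟩ := h10
          have : d ≤ 6 := by omega
          rw [hd] at h60 hne ⊢
          interval_cases d <;> omega
        rcases this with h | h | h
        · exact hns (Cfsg.Agent.S0144.result 2 5 1 1 Nat.prime_two Nat.prime_five h)
        · exact hns (Cfsg.Agent.S0144.result 2 5 2 1 Nat.prime_two Nat.prime_five h)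
        · have : IsZGroup M := IsZGroup.of_squarefree (by
            rw [h, show 30 = 2 * (3 * 5) by norm_num, Nat.squarefree_mul_iff, Nat.squarefree_mul_iff]
            exact ⟨by norm_num, Nat.prime_two.prime.squarefree, by norm_num,
              Nat.prime_three.prime.squarefree, Nat.prime_five.prime.squarefree⟩)
          exact hns inferInstance
      exact top_le_iff.1 ((Subgroup.eq_top_of_card_eq M (by rw [this, hG])).ge.trans hMN)⟩
    exact Cfsg.Agent.S0494.result hG
  · rw [h1, h4] at hX
    rw [h1] at hm
    have := Nat.le_of_dvd (by norm_num) hm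
    rw [hX, h1] at hG
    refine Or.inr (h16 hX ?_)
    generalize C.m = m at *
    interval_cases m
    · exact Cfsg.Agent.S0144.result 2 5 5 1 Nat.prime_two Nat.prime_five hG
    · omega
    · exact Cfsg.Agent.S0144.result 2 5 6 1 Nat.prime_two Nat.prime_five hG
  · rw [h1, h4] at hX
    rw [h1] at hm
    have := Nat.le_of_dvd (by norm_num) hm
    rw [hX, h1] at hG
    refine Or.inr (h16 hX ?_)
    generalize C.m = m at *
    interval_cases m <;> first
      | omega
      | exact Cfsg.Agent.S0144.result 2 3 5 2 Nat.prime_two Nat.prime_three hG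
      | exact Cfsg.Agent.S0144.result 2 3 6 2 Nat.prime_two Nat.prime_three hG
      | exact Cfsg.Agent.S0144.result 2 3 7 2 Nat.prime_two Nat.prime_three hG

end Cfsg.Agent.S2207
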