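import Cfsg.Statements.S2212
import Cfsg.Agent.Lib.BS.PGU

set_option autoImplicit false
open Cfsg

namespace Cfsg.Agent.S2212

open Subgroup Cfsg.Lib Cfsg.Lib.BS Cfsg.Lib.Unitary

/-- Characterization of the three-dimensional projective unitary groups over finite fields of characteristic two by the centralizer of an involution. Let q = 2^n > 2 and let PGU₃(q) be the quotient of the full unitary group of a non-degenerate Hermitian form in three variables over the field with q² elements by its centre. Let G be a finite group of even order in which all involutions are conjugate, the centralizer of an involution is isomorphic to the centralizer of an involution in PGU₃(q), and a Sylow 2-subgroup is not normal. Then G ≅ PGU₃(q). -/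
theorem result {G : Type*} [Group G] [Finite G] {F : Type*} [Field F] [Fintype F] [CharP F 2] (q : ℕ) (hq : 2 < q) (hF : Fintype.card F = q ^ 2)
    (heven : Even (Nat.card G)) (hconj : ∀ s t : G, orderOf s = 2 → orderOf t = 2 → IsConj s t)
    (hC : ∀ (x : G) (y : (↥(Cfsg.GU 3 F q) ⧸ Subgroup.center ↥(Cfsg.GU 3 F q))), orderOf x = 2 → orderOf y = 2 →
      Nonempty (↥(Subgroup.centralizer ({x} : Set G)) ≃* ↥(Subgroup.centralizer ({y} : Set (↥(Cfsg.GU 3 F q) ⧸ Subgroup.center ↥(Cfsg.GU 3 F q))))))
    (hS : ∀ P : Sylow 2 G, ¬ (P : Subgroup G).Normal) :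
    Nonempty (G ≃* (↥(Cfsg.GU 3 F q) ⧸ Subgroup.center ↥(Cfsg.GU 3 F q))) := by
  obtain ⟨σ, hσ⟩ := exists_isBar hF
  let e : (↥(Cfsg.GU 3 F q) ⧸ Subgroup.center ↥(Cfsg.GU 3 F q)) ≃*
      (diagAut : GU 3 F q →* MulAut (PSU 3 F q)).range :=
    (QuotientGroup.quotientMulEquivOfEq (ker_diagAut hF (by norm_num)).symm).trans
      (QuotientGroup.quotientKerEquivRange _)
  obtain ⟨e₀⟩ := nonempty_equiv_range hσ hq heven hconj (fun x hx => by
    obtain ⟨y, hy⟩ := e.surjective
      (toOver (inn_le_range_diagAut (F := F) (n := 3) (q := q)) (YY hσ 1 (map_one σ)))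
    obtain ⟨e₁⟩ := hC x y hx (by
      rw [← e.orderOf_eq, hy, orderOf_injective _ (toOver_inj hσ hq _), orderOf_YY])
    exact ⟨e₁.trans (subgroupEquivOf e fun g => by
      rw [mem_centralizer_singleton_iff, mem_centralizer_singleton_iff, ← hy, ← map_mul,
        ← map_mul, e.injective.eq_iff])⟩) hS
  exact ⟨e₀.trans e.symm⟩

end Cfsg.Agent.S2212
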