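import Cfsg.Statements.S2214
import Cfsg.Agent.Lib.Chev.SubFix

set_option autoImplicit false
open Cfsg

namespace Cfsg.Agent.S2214

open Cfsg.Lib.Chev

/-- Let k be an algebraically closed field of prime characteristic p, G the adjoint Chevalley group of type G₂, B₂, D₄, F₄, E₆, E₇ or E₈ over k (the matrix group generated by the root elements x_s(t), t ∈ k, acting on the Lie algebra), q = p^a with a ≥ 1, and K a subgroup of G containing every root element x_s(t) with t^q = t and consisting of matrices all of whose entries c satisfy c^q = c. Then the centralizer of K in G is trivial, and the normalizer of K in G is exactly the set of elements of G all of whose entries c satisfy c^q = c. -/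
theorem result {k : Type*} [Field k] [IsAlgClosed k] (p : ℕ) [Fact p.Prime] [CharP k p] (D : Cfsg.Lie.ChevalleyDatum) (hD : D ∈ [Cfsg.Lie.chevG2, Cfsg.Lie.chevB2, Cfsg.Lie.chevD4, Cfsg.Lie.chevF4, Cfsg.Lie.chevE6, Cfsg.Lie.chevE7, Cfsg.Lie.chevE8]) (a : ℕ) (ha : 1 ≤ a) (K : Subgroup (GL D.Idx k)) (hKG : K ≤ D.group k)
    (hLK : Subgroup.closure {g : GL D.Idx k | ∃ (s : ℕ) (t : k), t ^ (p ^ a) = t ∧ (g : Matrix D.Idx D.Idx k) = D.x k s t} ≤ K)
    (hKfix : ∀ g ∈ K, ∀ i j : D.Idx, ((g : Matrix D.Idx D.Idx k) i j) ^ (p ^ a) = (g : Matrix D.Idx D.Idx k) i j) :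
    D.group k ⊓ Subgroup.centralizer (K : Set (GL D.Idx k)) = ⊥ ∧
    ∀ g : GL D.Idx k, g ∈ D.group k → (g ∈ Subgroup.normalizer (K : Set (GL D.Idx k)) ↔ ∀ i j : D.Idx, ((g : Matrix D.Idx D.Idx k) i j) ^ (p ^ a) = (g : Matrix D.Idx D.Idx k) i j) := by
  obtain ⟨c, h⟩ := exists_checked hD
  rw [h.group_eq] at hKG ⊢
  have h1 : ∀ r t, iterateFrobenius k p a t = t → (h.sys k).x r t ∈ K := fun r t e =>
    hLK (Subgroup.subset_closure ⟨r, t, e, h.coe_x r t⟩)
  have h2 : ∀ g : GL D.Idx k, Matrix.GeneralLinearGroup.map (iterateFrobenius k p a) g = g ↔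
      ∀ i j, (g : Matrix D.Idx D.Idx k) i j ^ p ^ a = (g : Matrix D.Idx D.Idx k) i j := fun g =>
    Matrix.GeneralLinearGroup.ext_iff _ _
  refine ⟨eq_bot_iff.2 fun g hg => (h.faithful k).eq_one_of_comm (h.adjoint k) hg.1 fun r =>
    mul_inv_eq_iff_eq_mul.2 (hg.2 _ (h1 r 1 (map_one _))).symm, fun g hg => ?_⟩
  rw [← h2]
  refine (h.faithful k).mem_normalizer_iff_fix (h.adjoint k) (fun r t => Units.ext ?_)
    (h.strongComm k) hKG h1 (fun g hg => (h2 g).2 (hKfix g hg)) hg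
  rw [h.coe_x, h.x_eq, ← ChevTab.xA_map, ← h.x_eq, ← h.coe_x]
  rfl

end Cfsg.Agent.S2214
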