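import Cfsg.Statements.S2221
import Cfsg.Agent.Lib.Alt.SylDec3

set_option autoImplicit false
open Cfsg

namespace Cfsg.Agent.S2221

open Cfsg.Lib.Alt Cfsg.Lib.Alt.SylDec

/-- Direct decomposability of the Sylow 2-subgroups of the alternating groups. Let n ≥ 4 and let P be a Sylow 2-subgroup of the alternating group of degree n. Then P is the internal direct product of two nontrivial subgroups if and only if n = 4, n = 5, or n ≡ 2, 3 (mod 4) with 4⌊n/4⌋ not a power of 2. In the remaining cases (n ≡ 0, 1 (mod 4) with n ≥ 8, or n ≡ 2, 3 (mod 4) with 4⌊n/4⌋ a power of 2) P is directly indecomposable. -/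
theorem result (n : ℕ) (hn : 4 ≤ n)
    (P : Sylow 2 (alternatingGroup (Fin n))) :
    (∃ S₁ S₂ : Subgroup (alternatingGroup (Fin n)), S₁ ≠ ⊥ ∧ S₂ ≠ ⊥ ∧
        Cfsg.IsInternalDirectProduct S₁ S₂ (P : Subgroup (alternatingGroup (Fin n)))) ↔
      (n = 4 ∨ n = 5 ∨ ((n % 4 = 2 ∨ n % 4 = 3) ∧ ∀ r : ℕ, 4 * (n / 4) ≠ 2 ^ r)) := by
  obtain ⟨T, hT⟩ := P.exists_comap_subtype_eq
  obtain ⟨z, h⟩ := exists_st T
  have e : (P : Subgroup (alternatingGroup (Fin n))).map (alternatingGroup (Fin n)).subtype
      = ev T := by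
    rw [← hT, Subgroup.map_comap_eq, Subgroup.range_subtype, inf_comm]; rfl
  have h4 : ∀ (hc : s2 n = 8), (∀ g : Equiv.Perm (Fin n), Equiv.Perm.sign g = 1 → g ^ 4 = 1 →
      g * g = 1) → Dec (P : Subgroup (alternatingGroup (Fin n))) := fun hc hg => by
    have h1 := card_sylow_alt (by omega) P
    have h2 : Nat.card (P : Subgroup (alternatingGroup (Fin n))) = 4 := by omega
    refine dec_of_four h2 fun g hg' => Subtype.ext (hg g g.2 ?_)
    have := pow_card_eq_one' (x := (⟨g, hg'⟩ : (P : Subgroup (alternatingGroup (Fin n)))))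
    rw [h2] at this
    exact congrArg (fun x : (P : Subgroup (alternatingGroup (Fin n))) => x.1.1) this
  change Dec _ ↔ _
  by_cases h6 : 6 ≤ n
  · rw [← dec_map_iff _ (alternatingGroup (Fin n)).subtype_injective, e,
      h.dec_iff (by simpa using h6), Fintype.card_fin]
    constructor
    · exact fun k => Or.inr (Or.inr ⟨by omega, k.2⟩)
    · rintro (k | k | k)
      · omega
      · omega
      · exact ⟨by omega, k.2⟩
  · obtain rfl | rfl : n = 4 ∨ n = 5 := by omega
    · exact iff_of_true (h4 (by decide +kernel) sq_four) (Or.inl rfl)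
    · exact iff_of_true (h4 (by decide +kernel) sq_five) (Or.inr (Or.inl rfl))

end Cfsg.Agent.S2221
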