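import Cfsg.Statements.S2222
import Cfsg.Agent.Lib.Alt.SylNorm
import Cfsg.Agent.S3820

set_option autoImplicit false
open Cfsg

namespace Cfsg.Agent.S2222

section
open Subgroup Equiv Cfsg.Lib Cfsg.Lib.Transfer

theorem sylow_pron {G : Type*} [Group G] [Finite G] (P : Sylow 2 G) :
    IsPronormal (P : Subgroup G) := fun g => by
  obtain ⟨x, hx, e⟩ := FGS.exists_conj_sylow_eq_of_le (P := P) (Q := g • P)
    (H := (P : Subgroup G) ⊔ g ⋆ (P : Subgroup G)) le_sup_left
    ((FGS.smul_eq_iff_conj.1 rfl).symm.le.trans le_sup_right)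
  exact ⟨x, hx, (FGS.smul_eq_iff_conj.1 rfl).trans e.symm⟩

theorem prime_pron {G : Type*} [Group G] [Finite G] {H : Subgroup G} (h : H.index.Prime) :
    IsPronormal H := fun g => by
  have h1 : (H ⊔ g ⋆ H).index ∣ H.index := index_dvd_of_le le_sup_left
  rcases (Nat.dvd_prime h).1 h1 with h2 | h2
  · exact ⟨g, by rw [index_eq_one.1 h2]; exact mem_top g, rfl⟩
  · have h3 : H ⊔ g ⋆ H = H := by
      refine (eq_of_le_of_card_ge le_sup_left ?_).symm
      have a := (H ⊔ g ⋆ H).card_mul_index
      rw [h2, ← H.card_mul_index] at a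
      exact (Nat.eq_of_mul_eq_mul_right h.pos a).le
    refine ⟨1, one_mem _, ?_⟩
    have h4 : g ⋆ H = H := eq_of_le_of_card_ge (le_sup_right.trans h3.le)
      (card_map_of_injective (MulAut.conj g).injective).ge
    rw [h4]
    ext x
    simp

theorem norm_le {n : ℕ} (hn : 6 ≤ n) (P : Sylow 2 (alternatingGroup (Fin n))) :
    normalizer ((P : Subgroup (alternatingGroup (Fin n))) : Set (alternatingGroup (Fin n))) ≤ P := by
  intro g hg
  obtain ⟨T, hT⟩ := (P.isPGroup'.map (alternatingGroup (Fin n)).subtype).exists_le_sylow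
  have h1 : (T : Subgroup (Perm (Fin n))).subgroupOf (alternatingGroup (Fin n)) = P :=
    FGS.eq_sylow_of_le P (T.isPGroup'.comap_subtype) (map_le_iff_le_comap.1 hT)
  have h2 : (T : Subgroup (Perm (Fin n))) ⊓ alternatingGroup (Fin n) =
      (P : Subgroup (alternatingGroup (Fin n))).map (alternatingGroup (Fin n)).subtype := by
    rw [← h1, subgroupOf_map_subtype]
  obtain ⟨a, m, hm, e⟩ := Nat.exists_eq_two_pow_mul_odd (orderOf_pos g).ne'
  refine FGS.mem_sylow_of_mem_normalizer P (k := a) (Subtype.ext ?_) hg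
  refine Alt.SylNorm.alt_eq_one (by simpa using hn) T _ ?_ ?_
  · rw [Subgroup.orderOf_coe]
    refine hm.of_dvd_nat (orderOf_dvd_of_pow_eq_one ?_)
    rw [← pow_mul, ← e, pow_orderOf_eq_one]
  · have := le_normalizer_map (alternatingGroup (Fin n)).subtype ⟨_, pow_mem hg (2 ^ a), rfl⟩
    rw [← h2] at this
    convert this
    rfl
end

/-- In the alternating group of degree n ≥ 5 every subgroup H of odd index is pronormal: for every element g, the subgroups H and gHg⁻¹ are conjugate by an element of the subgroup they generate. -/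
theorem result (n : ℕ) (hn : 5 ≤ n)
    (H : Subgroup (alternatingGroup (Fin n))) (hH : Odd H.index) : Cfsg.IsPronormal H := by
  open Subgroup Cfsg.Lib in
  have h2 : ¬ 2 ∣ H.index := hH.not_two_dvd_nat
  obtain ⟨P, hP⟩ := FGS.exists_sylow_le_of_not_dvd_index h2
  rcases hn.eq_or_lt with rfl | hn
  · have h60 : Nat.card (alternatingGroup (Fin 5)) = 60 := by
      rw [nat_card_alternatingGroup]; simp [Nat.factorial]
    have h1 : H.index ∣ 15 := by
      have : H.index ∣ 2 ^ 2 * 15 := by have := H.index_dvd_card; rwa [h60] at this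
      exact (Nat.Coprime.pow_right 2 (Nat.coprime_two_right.2 hH)).dvd_of_dvd_mul_left this
    have h3 : H.index ≤ 15 := Nat.le_of_dvd (by norm_num) h1
    have h4 : H.index = 1 ∨ H.index = 3 ∨ H.index = 5 ∨ H.index = 15 := by
      generalize H.index = d at *
      interval_cases d <;> omega
    rcases h4 with h | h | h | h
    · rw [index_eq_one.1 h]
      exact fun g => ⟨g, mem_sup_left (mem_top g), rfl⟩
    · exact prime_pron (by rw [h]; exact Nat.prime_three)
    · exact prime_pron (by rw [h]; exact Nat.prime_five)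
    · have h5 := H.card_mul_index
      rw [h, h60] at h5
      rw [FGS.eq_sylow_of_le P (IsPGroup.of_card (n := 2) (by omega)) hP]
      exact sylow_pron P
  · refine (S3820.result _ H hP (sylow_pron P)).2 fun g hg => ⟨g, ?_, rfl⟩
    exact mem_sup_left (hP (norm_le hn P hg))

end Cfsg.Agent.S2222
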