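import Cfsg.Statements.S2225
import Cfsg.Agent.Lib.Pron.Main
import Cfsg.Agent.Lib.Pron.PSL2

set_option autoImplicit false
open Cfsg

namespace Cfsg.Agent.S2225

/-- Let F be a finite field and d = 2^w ≥ 2 a power of 2 such that PSL_d(F) is simple. Then every subgroup H of PSL_d(F) of odd index is pronormal: for every g, H and gHg⁻¹ are conjugate by an element of the subgroup they generate. -/
theorem result {F : Type*} [Field F] [Fintype F]
    (w : ℕ) (hw : 1 ≤ w) (hs : IsSimpleGroup (Matrix.ProjectiveSpecialLinearGroup (Fin (2 ^ w)) F))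
    (H : Subgroup (Matrix.ProjectiveSpecialLinearGroup (Fin (2 ^ w)) F)) (hH : Odd H.index) : Cfsg.IsPronormal H := by
  obtain ⟨w, rfl⟩ := Nat.exists_eq_add_of_le' hw
  by_cases h : (2 : F) = 0 ∨ 1 ≤ w
  swap
  · push Not at h
    obtain rfl : w = 0 := by omega
    refine Lib.Pron.isPronormal_psl (F := F) ?_ hH
    rw [Nat.card_eq_fintype_card, Nat.odd_iff]
    refine FiniteField.odd_card_of_char_ne_two fun e => h.1 ?_
    simpa [e] using ringChar.Nat.cast_ringChar (R := F)
  refine Lib.Pron.isPronormal_quot (σ := RingHom.id F) (.inl rfl) (w := w) (by simp) h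
    ((Lib.Unitary.glEquiv (Fin (2 ^ (w + 1))) F).toMonoidHom.comp Matrix.SpecialLinearGroup.toGL)
    ((Lib.Unitary.glEquiv _ F).injective.comp Matrix.SpecialLinearGroup.toGL_injective) ?_ ?_ hH
  · ext g
    obtain ⟨g, rfl⟩ := (Lib.Unitary.glEquiv _ F).surjective g
    rw [Lib.Unitary.mem_SUG, Lib.Unitary.det_glEquiv]
    refine ⟨?_, fun h => ⟨⟨g, congrArg Units.val h.2⟩, by ext1; rfl⟩⟩
    rintro ⟨x, hx⟩
    obtain rfl := (Lib.Unitary.glEquiv _ F).injective hx
    exact ⟨Lib.Pron.zero_mem_UG _, by simp⟩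
  · obtain ⟨f, hf⟩ := Lib.GLC.exists_blocks_of_finrank (F := F) (V := Fin (2 ^ (w + 1)) → F)
      (Lib.GLC.jt_monic 1 {Module.finrank F (Fin (2 ^ (w + 1)) → F)})
      (by rw [Lib.GLC.jt_map_natDegree]; simp)
    refine ⟨⟨LinearMap.toMatrix' f, by rw [LinearMap.det_toMatrix', hf.jt_det, one_pow]⟩, ?_⟩
    convert hf
    exact LinearMap.ext fun v => LinearMap.toMatrix'_mulVec f v

end Cfsg.Agent.S2225
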