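import Cfsg.Statements.S2226
import Cfsg.Agent.Lib.Pron.Main
import Cfsg.Agent.Lib.Unitary.Wall2

set_option autoImplicit false
open Cfsg

namespace Cfsg.Agent.S2226

/-- Let F be a finite field with q² elements and d = 2^w ≥ 4 a power of 2 such that the unitary group PSU_d(q) (realised over F) is simple. Then every subgroup H of PSU_d(q) of odd index is pronormal: for every g, H and gHg⁻¹ are conjugate by an element of the subgroup they generate. -/
theorem result {F : Type*} [Field F] [Fintype F] (q : ℕ)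
    (hF : Fintype.card F = q ^ 2) (w : ℕ) (hw : 2 ≤ w) (hs : IsSimpleGroup (Cfsg.PSU (2 ^ w) F q))
    (H : Subgroup (Cfsg.PSU (2 ^ w) F q)) (hH : Odd H.index) : Cfsg.IsPronormal H := by
  obtain ⟨σ, hσ⟩ := Lib.Unitary.exists_isBar hF
  obtain ⟨w, rfl⟩ := Nat.exists_eq_add_of_le' (show 1 ≤ w by omega)
  refine Lib.Pron.isPronormal_quot (.inr hσ.isHerm) (w := w) (by simp) (.inr (by omega))
    ((Lib.Unitary.SUG _).subtype.comp (hσ.suEquiv (2 ^ (w + 1))).toMonoidHom)
    (Subtype.val_injective.comp (hσ.suEquiv _).injective) ?_ ?_ hH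
  · rw [MonoidHom.range_comp, MonoidHom.range_eq_top.2 (hσ.suEquiv _).surjective,
      ← MonoidHom.range_eq_map, Subgroup.range_subtype]
  · obtain ⟨g, hg⟩ := hσ.exists_su_jt (n := 2 ^ (w + 1)) (d := {2 ^ (w + 1)}) (by simp)
    refine ⟨g, ?_⟩
    convert hg
    · ext v; simp
    · simp

end Cfsg.Agent.S2226
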