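import Cfsg.Statements.S2227
import Cfsg.Agent.Lib.E6T.CovE6
import Cfsg.Agent.S0256

set_option autoImplicit false
open Cfsg

namespace Cfsg.Agent.S2227

open Cfsg.Lib.E6T Cfsg.Lib.Chev Cfsg.Lib.Chev.RootSys Cfsg.Lib.Chev.PreSys Cfsg.Lib.Chev.ChevSys
  Cfsg.Lib.Alg Cfsg.Lib.Twisted Subgroup
open scoped MatrixGroups

theorem exists_alt {k : Type*} [Field k] [CharP k 2] {G : Type*} [Group G] {C : ChevSys RE6 k G}
    {T : ChevTab RE6} {φ : MulAut G} (h : C.Alg T 2 φ) (hA : T.Anti) :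
    ∃ α : alternatingGroup (Fin 8) →* G, Function.Injective α ∧
      (∀ r, RE6.InJ {i | i ∈ [2, 3, 4]} r → C.x r 1 ∈ α.range) ∧
      ∀ K : Subgroup G, (∀ r, RE6.InJ {i | i ∈ [2, 3, 4]} r → C.x r 1 ∈ K) → α.range ≤ K := by
  let j := ZMod.castHom (dvd_refl 2) k
  let X := realSL (ZMod 2) 3
  have c := (h.hMul.res h.comm j).ctRels (res_strongComm h.comm j) hA
    (by rw [RootSys.Laced, RE6_A]; decide)
  have hρ : ∀ a b : Fin 3, RE6.A (![2, 3, 4] a) (![2, 3, 4] b) = (rootA 3).A a b := by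
    simp only [A_A, RE6_A]; decide
  obtain ⟨α, h1, h2⟩ := X.faithful.exists_hom_laced_sc X.strongComm X.hMul (repA 3).anti
    (by simp only [RootSys.Laced, A_A]; decide) X.grp_eq (X.torus_injective (full_repA 3))
    (p := fun a t => C.x (RE6.simple (![2, 3, 4] a)) (j t))
    (m := fun a t => C.x (RE6.neg (RE6.simple (![2, 3, 4] a))) (j t))
    ⟨fun _ => c.rk1 _, fun a b e => c.comm _ _ ((hρ a b).trans e),
      fun a b e => c.bond _ _ ((hρ a b).trans e)⟩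
  obtain ⟨e⟩ := S0256.result (F := ZMod 2) (by simp)
  have h3 : center SL(4, ZMod 2) = ⊥ := by
    rw [X.center_eq, Subsingleton.elim (RootSys.kerChr _ _) ⊥, Subgroup.map_bot]
  let e' := (QuotientGroup.quotientBot.symm.trans
    (QuotientGroup.quotientMulEquivOfEq h3.symm)).trans e
  have := alternatingGroup.isSimpleGroup (α := Fin 8) (by simp)
  have h4 : (α.comp e'.symm.toMonoidHom).range = α.range := by
    rw [MonoidHom.range_comp, MonoidHom.range_eq_top.2 e'.symm.surjective, MonoidHom.range_eq_map]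
  have h5 : ∀ i ∈ ([2, 3, 4] : List (Fin 6)), ∃ a : Fin 3, ![2, 3, 4] a = i := by decide
  have h6 : ∀ r, RE6.InJ {i | i ∈ [2, 3, 4]} r → C.x r 1 ∈ α.range := fun r hr => by
    refine induction_inJ (p := fun r => C.x r 1 ∈ α.range) (fun i hi => ?_) (fun i hi r _ ih => ?_) hr
      <;> obtain ⟨a, rfl⟩ := h5 i hi
    · exact ⟨_, (h1 a 1).trans (by rw [map_one])⟩
    have h7 : C.n (RE6.simple (![2, 3, 4] a)) 1 ∈ α.range := by
      simpa [PreSys.n, CharTwo.neg_eq] using mul_mem (mul_mem (s := α.range) ⟨_, h1 a 1⟩ ⟨_, h2 a 1⟩)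
        ⟨_, h1 a 1⟩
    simpa [(C.acts_n_simple _).conj, unit_eq_one (C.η_sq _ _)] using
      mul_mem (mul_mem h7 ih) (inv_mem h7)
  refine ⟨α.comp e'.symm.toMonoidHom, (MonoidHom.ker_eq_bot_iff _).1
    ((MonoidHom.normal_ker _).eq_bot_or_eq_top.resolve_right fun e => ?_), h4 ▸ h6, fun K hK => ?_⟩
  · obtain ⟨a, ha⟩ := h4.ge (h6 _ (inJ_simple_iff.2 (show (2 : Fin 6) ∈ [2, 3, 4] by decide)))
    exact one_ne_zero (h.faithful.x_eq_one_iff.1 (ha.symm.trans (e.ge (mem_top a))))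
  have h7 : ∀ r, RE6.InJ {i | i ∈ [2, 3, 4]} r → ∀ t, C.x r (j t) ∈ K := fun r hr t => by
    obtain rfl | rfl : t = 0 ∨ t = 1 := by revert t; decide
    exacts [by simp, by simpa using hK r hr]
  have h8 : ∀ a : Fin 3, RE6.InJ {i | i ∈ [2, 3, 4]} (RE6.simple (![2, 3, 4] a)) := fun a =>
    inJ_simple_iff.2 (by revert a; decide)
  rw [h4, MonoidHom.range_eq_map, map_le_iff_le_comap, ← X.grp_eq]
  exact X.sys.grp_le_of_simple (fun a t => mem_comap.2 (h1 a t ▸ h7 _ (h8 a) t))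
    fun a t => mem_comap.2 (h2 a t ▸ h7 _ (h8 a).neg t)

theorem equiv_of_isConj {G : Type*} [Group G] {a b : G} (h : IsConj a b) :
    Nonempty (centralizer ({a} : Set G) ≃* centralizer ({b} : Set G)) := by
  obtain ⟨g, rfl⟩ := isConj_iff.1 h
  refine ⟨((MulAut.conj g).subgroupMap _).trans (MulEquiv.subgroupCongr (Subgroup.ext fun x =>
    mem_map_equiv.trans ?_))⟩
  rw [mem_centralizer_singleton_iff, mem_centralizer_singleton_iff, ← (MulAut.conj g).injective.eq_iff]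
  simp [mul_assoc]

/-- Words that conjugate the elements of order five to a standard one. -/
def tab : List (List (List (Fin 6))) :=
  [[[], [1, 3, 5, 4, 3, 2], [0, 2, 3, 1, 2, 4, 3, 5, 4, 3, 2], [2, 4, 3, 1, 2, 0, 3, 5, 4, 3, 2], [2, 0, 3, 2, 0, 4, 3, 1, 2, 3, 5, 4, 3, 2]],
   [[], [0, 1, 2, 3, 5], [2, 3, 4, 3, 1, 2, 0, 3, 2, 4, 5, 4, 3, 1], [1, 2, 4, 3, 1, 2, 5, 4, 3, 2, 0], [2, 0, 3, 2, 4, 3, 1, 5, 4]],
   [[0, 2, 3, 2, 4], [0, 1, 2, 3, 2, 5, 4, 3, 2, 0], [0, 2, 0, 3, 1, 2, 0, 4, 3, 5], [2, 0, 4, 3, 1, 2, 5, 4], [1, 3, 4, 3, 2, 5, 4, 3, 1]],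
   [[2, 4, 3, 2, 0], [0, 2, 0, 3, 1, 2, 0, 4, 3, 1, 2, 3, 4, 5, 4, 3, 1], [0, 2, 0, 3, 1, 4, 5, 4], [1, 2, 4, 3, 1, 5], [2, 0, 3, 2, 4, 3, 1, 2, 0, 3, 2, 5, 4, 3, 2, 0]],
   [[2, 0, 3, 2, 0, 4, 3, 2], [1, 2, 0, 5, 4], [0, 2, 0, 3, 1, 2, 0, 4, 3, 2, 5, 4, 3, 2, 0], [0, 1, 2, 3, 1, 2, 3, 4, 5, 4, 3, 1], [2, 0, 3, 2, 4, 3, 1, 2, 0, 3, 5]]]

theorem tab_chk : ∀ a < 5, ∀ b < 5, a = 0 ∧ b = 0 ∨
    ∀ i, ((5 : ℕ) : ℤ) ∣ mv (wr ((tab.getD a []).getD b [])) (fun i =>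
      (a : ℤ) * ![3, 0, 4, 4, 1, 0] i + (b : ℤ) * ![3, 4, 2, 3, 0, 1] i) i - ![3, 0, 4, 4, 1, 0] i := by
  decide +kernel

/-- In the twisted group ²E₆(2) all elements of order 5 are conjugate, and the centralizer of an element of order 5 is isomorphic to the direct product of a cyclic group of order 5 with the alternating group of degree 8. -/
theorem result {K : Type*} [Field K] [Fintype K] (hK : Fintype.card K = 4) :
    (∀ x y : ↥(Cfsg.Lie.twistedE6 K 2), orderOf x = 5 → orderOf y = 5 → IsConj x y) ∧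
      ∀ x : ↥(Cfsg.Lie.twistedE6 K 2), orderOf x = 5 →
        Nonempty (↥(Subgroup.centralizer ({x} : Set ↥(Cfsg.Lie.twistedE6 K 2))) ≃* (Multiplicative (ZMod 5) × ↥(alternatingGroup (Fin 8)))) := by
  obtain ⟨hc, hs, hQ⟩ := basic hK
  have : Finite (Cfsg.Lie.twistedE6 K 2) := Nat.finite_of_card_ne_zero (by simp [hc])
  have hp : Nat.Prime 5 := by decide
  have := Fact.mk hp
  obtain ⟨k, _, _, _, G, _, C, T, φ, σ₀, π₀, h, hA, hσ₀, hπ₀⟩ := exists_cov hK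
  obtain ⟨ξ, hξ⟩ := exists_order (k := k) (m := 5) (by decide)
  have conj : ∀ x y : ↥(Cfsg.Lie.twistedE6 K 2), orderOf x = 5 → orderOf y = 5 → IsConj x y := by
    obtain ⟨τ, π, h1, h2, h3⟩ := exists_type h hσ₀ hπ₀ [0, 1, 2, 0, 3, 1, 2, 0, 4, 3, 1, 2, 0, 5, 4, 3, 2, 0]
    obtain ⟨S, hS, hm⟩ := exists_sq h h1 h2 hp (by decide) hξ (y := ![3, 0, 4, 4, 1, 0])
      (z := ![3, 4, 2, 3, 0, 1]) (by decide +kernel) (by decide +kernel) (by decide +kernel)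
    have hy := vec_mem h h1 hξ (y := ![3, 0, 4, 4, 1, 0]) (by decide +kernel)
    suffices ∀ x, orderOf x = 5 → IsConj x (π ⟨_, hy⟩) from
      fun x y hx hy => (this x hx).trans (this y hy).symm
    intro x hx
    obtain ⟨g, hg⟩ := exists_conj_le hp hS (by rw [hc]; decide)
      (IsPGroup.of_card (G := zpowers x) (n := 1) (by simp [hx]))
    obtain ⟨a, ha, b, hb, h4, h5⟩ := (hm _).1 (hg (mem_map_of_mem _ (mem_zpowers x)))
    rcases tab_chk a ha b hb with ⟨rfl, rfl⟩ | e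
    · rw [(congrArg π (Subtype.ext (by simp [← Pi.one_def]))).trans (map_one π), eq_comm,
        map_eq_one_iff (MulAut.conj g).toMonoidHom (MulAut.conj g).injective] at h5
      simp [h5] at hx
    · exact (isConj_iff.2 ⟨g, h5.symm⟩).trans (isConj_of_word h hσ₀.st h3 h3 hξ h4 hy e)
  refine ⟨conj, fun x hx => ?_⟩
  obtain ⟨σ, π, hσ, hπ, -⟩ := exists_type h hσ₀ hπ₀ [0, 2, 3, 4, 5, 4, 3, 1, 2, 0, 3, 2, 4, 3, 1]
  have hy := vec_mem h hσ hξ (y := ![1, 3, 0, 4, 0, 1]) (by decide +kernel)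
  obtain ⟨e₀⟩ := equiv_of_isConj (conj _ _ hx (orderOf_vec h hπ hp (by decide) hξ hy (by decide)))
  refine Nonempty.map e₀.trans ?_
  obtain ⟨α, h1, h2, h3⟩ := exists_alt h hA
  have hJ : ∀ r, RE6.InJ {i | i ∈ [2, 3, 4]} r → gam [0, 2, 3, 4, 5, 4, 3, 1, 2, 0, 3, 2, 4, 3, 1] r = r := by
    rw [coe_gam]
    change ∀ r, (∀ i ∉ [2, 3, 4], al r i = 0) → _
    decide +kernel
  have hJ' : ∀ r, RE6.chr (fun i => ξ ^ ![1, 3, 0, 4, 0, 1] i) r = 1 → RE6.InJ {i | i ∈ [2, 3, 4]} r := by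
    have : ∀ r, ((5 : ℕ) : ℤ) ∣ evN r ![1, 3, 0, 4, 0, 1] → ∀ i ∉ [2, 3, 4], al r i = 0 := by
      decide +kernel
    exact fun r e => this r ((chr_eq_one hξ).1 e)
  have h4 : α.range ≤ fix σ := h3 _ fun r hr => by rw [mem_fix, hσ.x, hJ r hr, one_pow]
  have h5 : ∀ t, h.tor t ∈ fix σ → α.range ≤ centralizer {h.tor t} := fun t ht =>
    h3 _ fun r hr => h.hMul.le_centralizer t (mem_sup_right (C.x_mem (by
      have := hσ.aut.chr_mAct t r
      have h6 := congrArg (RE6.chr · r) (fix_tor h hσ ht)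
      rw [hJ r hr] at this
      rwa [chr_pow, this, sq, mul_eq_left] at h6) 1))
  set c : fix σ := ⟨_, hy⟩ with hc'
  have h6 : c ^ 5 = 1 :=
    Subtype.ext ((map_pow _ _ _).symm.trans ((congrArg _ (vec_pow hξ)).trans (map_one _)))
  let f : Multiplicative (ZMod 5) →* fix σ := .mk' (fun a => c ^ a.toAdd.val) fun a b => by
    rw [toAdd_mul, ZMod.val_add, ← pow_add, ← pow_eq_pow_mod _ h6]
  let α' := α.codRestrict _ fun a => h4 ⟨a, rfl⟩
  have h7 : ∀ a, Commute c (α' a) := fun a =>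
    Subtype.ext (mem_centralizer_singleton_iff.1 (h5 _ hy ⟨a, rfl⟩)).symm
  let β := π.comp (f.noncommCoprod α' fun a b => (h7 b).pow_left _)
  have hβ : ∀ a b, β (a, b) = π (f a * α' b) := fun _ _ => rfl
  have h8 : Function.Injective β := (injective_iff_map_eq_one β).2 fun ⟨a, b⟩ e => by
    have h9 : b = 1 := by
      refine (alternatingGroup.center_eq_bot (by simp)).le (mem_center_iff.2 fun s => h1 ?_)
      have h9 := Subtype.ext (p := (· ∈ fix σ)) (a1 := α' s * (f a * α' b))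
        (a2 := f a * α' b * α' s) (mem_center_iff.1 (hπ.cen _ e) _)
      rw [← mul_assoc, ← show f a * α' s = α' s * f a from ((h7 s).pow_left _).eq, mul_assoc,
        mul_assoc, mul_right_inj] at h9
      rw [map_mul, map_mul]
      exact congrArg Subtype.val h9
    subst h9
    have h9 : f a = 1 := by_contra fun h9 => hπ.ne_one (m := 5) (by decide)
      ((pow_right_comm c a.toAdd.val 5).trans (by rw [h6, one_pow])) h9 (by rwa [hβ, map_one, mul_one] at e)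
    have h10 : π c ^ a.toAdd.val = 1 := by rw [← map_pow]; exact (congrArg π h9).trans (map_one π)
    rw [← orderOf_dvd_iff_pow_eq_one, orderOf_vec h hπ hp (by decide) hξ hy (by decide)] at h10
    exact Prod.ext (Multiplicative.toAdd.injective ((ZMod.val_eq_zero _).1
      (Nat.eq_zero_of_dvd_of_lt h10 (ZMod.val_lt _)))) rfl
  refine ⟨(MulEquiv.subgroupCongr (le_antisymm (fun y e => ?_) ?_)).trans (β.ofInjective h8).symm⟩
  · obtain ⟨y, rfl⟩ := hπ.surj y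
    obtain ⟨a, ⟨a, rfl⟩, t, ht, b, ⟨b, rfl⟩, e1⟩ := exists_mul_of_comm h hσ hJ hJ' h2 h4 y.2
      (mul_inv_eq_iff_eq_mul.2 (congrArg Subtype.val (mul_inv_eq_iff_eq_mul.1 (hπ.conj_eq
        (mul_inv_eq_iff_eq_mul.2 (mem_centralizer_singleton_iff.1 e)) (by decide) h6 h6))).symm)
    have e2 : π (⟨_, ht⟩ ^ 5) = 1 := by
      refine hπ.map_central hQ ?_
      rw [coe_pow, ← map_pow, tor_mem_center h]
      exact fun r => (chr_pow _ _ _).trans (chr_pow_eq_one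
        (X := toM 6 6 [[2, 4, -5, 0, 0, 2], [2, 4, 0, -5, 0, 2], [-5, 0, 10, -5, 0, 0], [0, -5, -5, 10, -5, 0], [0, 0, 0, -5, 10, -5], [2, 4, 0, 0, -5, 2]])
        (by rw [coe_gam]; decide +kernel) t (fix_tor h hσ ht) r)
    have e3 : (t ^ 6) ^ 5 = 1 := by
      have : (t ^ 5) ^ 3 = 1 := h.inj (by simpa using congrArg Subtype.val (hπ.cube _ e2))
      rw [← pow_mul] at this ⊢
      rw [show 6 * 5 = 5 * 3 * 2 from rfl, pow_mul, this, one_pow]
    have e4 := mAct_congr (M := 1) (N := (.of fun i j => if j = 0 then ![1, 3, 0, 4, 0, 1] i else 0) +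
      .of (toM 6 6 [[0, 0, 0, 0, 0, 0], [1, 4, 0, 0, 0, 0], [1, 3, 1, 0, 0, 0], [3, 1, 0, 1, 0, 0], [4, 1, 0, 0, 1, 0], [4, 4, 0, 0, 0, 0]]) *
        ((2 : ℤ) • RE6.wM (gam [0, 2, 3, 4, 5, 4, 3, 1, 2, 0, 3, 2, 4, 3, 1]) - 1)) (by
          rw [wM_eq, coe_gam]; decide +kernel) e3
    simp only [mAct_add, mAct_mul, mAct_sub, mAct_smul, zpow_ofNat, mAct_one,
      fix_tor h hσ (map_pow h.tor t 6 ▸ pow_mem ht 6), div_self', map_one, mul_one] at e4
    obtain ⟨n, -, e5⟩ := (hξ ▸ IsPrimitiveRoot.orderOf ξ).eq_pow_of_mem_rootsOfUnity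
      ((mem_rootsOfUnity 5 _).2 (congrFun e3 0))
    have e6 : (⟨_, ht⟩ : fix σ) ^ 6 = c ^ n := Subtype.ext (by
      rw [coe_pow, coe_pow, ← map_pow, ← map_pow, e4]
      refine congrArg h.tor (funext fun i => ?_)
      rw [mAct_apply, Finset.prod_eq_single 0 (fun j _ e => by simp [e]) (by simp), Matrix.of_apply,
        if_pos rfl, ← e5, Pi.pow_apply, ← zpow_natCast, ← zpow_natCast, ← zpow_mul, ← zpow_mul,
        mul_comm])
    have e7 : ∀ a, π (α' a) ∈ β.range := fun a => ⟨(1, a), by rw [hβ, map_one, one_mul]⟩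
    rw [show y = α' a * ⟨_, ht⟩ * α' b from Subtype.ext e1, map_mul, map_mul]
    refine mul_mem (mul_mem (e7 a) ?_) (e7 b)
    rw [← one_mul (π _), ← e2, ← map_mul, ← pow_succ, e6, map_pow]
    exact pow_mem (show π c ∈ β.range from
      ⟨(.ofAdd 1, 1), by rw [hβ, map_one α', mul_one]; exact congrArg π (pow_one c)⟩) n
  · rintro _ ⟨⟨a, b⟩, rfl⟩
    exact mem_centralizer_singleton_iff.2
      ((((Commute.refl c).pow_right _).mul_right (h7 b)).map π).symm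

end Cfsg.Agent.S2227
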