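import Cfsg.Statements.S2231
import Cfsg.Agent.Lib.Unitary.QdTI
import Cfsg.Agent.Lib.PSL2.Structure

set_option autoImplicit false
open Cfsg

namespace Cfsg.Agent.S2231

/-- Let p be an odd prime and K a finite field of characteristic p. Then Qd(p) (the natural semidirect product of an elementary abelian group of order p² by SL₂(p)) is not involved in the projective special linear group PSL₂(K). -/
theorem result {p : ℕ} [Fact p.Prime] (hp : p ≠ 2) {K : Type*} [Field K] [Fintype K] [CharP K p] : ¬ Cfsg.Involves ↥(Cfsg.qd p) (Matrix.ProjectiveSpecialLinearGroup (Fin 2) K) := by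
  refine Lib.Unitary.SylowTI.not_involves_qd (fun P Q x hx hP hQ => ?_) hp
  obtain ⟨a, ha⟩ := Lib.PSL2.exists_sylow_eq_unipL p P
  obtain ⟨b, hb⟩ := Lib.PSL2.exists_sylow_eq_unipL p Q
  obtain rfl : a = b := by
    by_contra h
    exact hx (Subgroup.mem_bot.mp (Lib.PSL2.unipL_inf_unipL h ▸ ⟨ha ▸ hP, hb ▸ hQ⟩))
  exact Sylow.ext (ha.trans hb.symm)

end Cfsg.Agent.S2231
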