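import Cfsg.Statements.S2232
import Cfsg.Agent.Lib.Unitary.QdTI
import Cfsg.Agent.Lib.Unitary.U3

set_option autoImplicit false
open Cfsg

namespace Cfsg.Agent.S2232

/-- Let p be an odd prime, q a power of p and K a finite field with q² elements. Then Qd(p) (the natural semidirect product of an elementary abelian group of order p² by SL₂(p)) is not involved in the projective special unitary group PSU₃(q) realised over K. -/
theorem result {p : ℕ} [Fact p.Prime] (hp : p ≠ 2) {K : Type*} [Field K] [Fintype K] [CharP K p] (n : ℕ) (hn : 1 ≤ n) (hK : Fintype.card K = (p ^ n) ^ 2) : ¬ Cfsg.Involves ↥(Cfsg.qd p) (Cfsg.PSU 3 K (p ^ n)) := by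
  obtain ⟨σ, h⟩ := Lib.Unitary.exists_isBar hK
  exact (h.sylowTI_PSU p).not_involves_qd hp

end Cfsg.Agent.S2232
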