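import Cfsg.Statements.S2238
import Cfsg.Agent.Lib.Sz.TorusCount

set_option autoImplicit false
open Cfsg

namespace Cfsg.Agent.S2238

open Cfsg.Lib.Sz

theorem eq_of_dvd {m a b : ℕ} (hm : 1 ≤ m)
    (ha : a ∈ ({2 ^ (2 * m + 1) - 1, 2 ^ (2 * m + 1) + 2 ^ (m + 1) + 1, 2 ^ (2 * m + 1) - 2 ^ (m + 1) + 1} : Set ℕ))
    (hb : b ∈ ({2 ^ (2 * m + 1) - 1, 2 ^ (2 * m + 1) + 2 ^ (m + 1) + 1, 2 ^ (2 * m + 1) - 2 ^ (m + 1) + 1} : Set ℕ))
    (h : a ∣ b) : a = b ∧ Odd a := by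
  have h1 : 2 ^ (2 * m + 1) = 2 * 2 ^ m * 2 ^ m := by ring
  have h2 : 2 ^ (m + 1) = 2 * 2 ^ m := by ring
  have h3 : 2 ≤ 2 ^ m := Nat.pow_le_pow_right (n := 2) (i := 1) (by norm_num) hm
  rw [h1, h2] at ha hb
  obtain ⟨r, hr⟩ := Nat.exists_eq_add_of_le h3
  rw [hr] at ha hb
  have e1 : 2 * (2 + r) * (2 + r) - 1 = 2 * r ^ 2 + 8 * r + 7 := by
    rw [Nat.sub_eq_iff_eq_add (by nlinarith)]; ring
  have e2 : 2 * (2 + r) * (2 + r) + 2 * (2 + r) + 1 = 2 * r ^ 2 + 10 * r + 13 := by ring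
  have e3 : 2 * (2 + r) * (2 + r) - 2 * (2 + r) + 1 = 2 * r ^ 2 + 6 * r + 5 := by
    rw [show 2 * (2 + r) * (2 + r) = 2 * (2 + r) + (2 * r ^ 2 + 6 * r + 4) by ring, Nat.add_sub_cancel_left]
  rw [e1, e2, e3] at ha hb
  simp only [Set.mem_insert_iff, Set.mem_singleton_iff] at ha hb
  constructor
  · obtain ⟨k, hk⟩ := h
    have hs : r ≤ r ^ 2 := Nat.le_self_pow two_ne_zero r
    have hk3 : k < 3 := by
      by_contra hk3
      have : a * 3 ≤ a * k := Nat.mul_le_mul_left a (by omega)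
      rcases ha with rfl | rfl | rfl <;> rcases hb with hb | hb | hb <;> omega
    interval_cases k <;> rcases ha with rfl | rfl | rfl <;> rcases hb with hb | hb | hb <;> omega
  · rcases ha with rfl | rfl | rfl
    exacts [⟨r ^ 2 + 4 * r + 3, by ring⟩, ⟨r ^ 2 + 5 * r + 6, by ring⟩, ⟨r ^ 2 + 3 * r + 2, by ring⟩]

/-- The partition of the Suzuki group: with q = 2^(2m+1), m ≥ 1, r = 2^m and the Suzuki group realised as the stabiliser in SL₄ of the Suzuki–Tits ovoid, every non-identity element lies in exactly one subgroup that is either a Sylow 2-subgroup or a cyclic subgroup of order q − 1, q + 2r + 1 or q − 2r + 1. -/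
theorem result {F : Type*} [Field F] [Fintype F] {m : ℕ} (hm : 1 ≤ m) (hF : Fintype.card F = 2 ^ (2 * m + 1)) (g : ↥(Cfsg.Sz F m)) (hg : g ≠ 1) :
    ∃! U : Subgroup ↥(Cfsg.Sz F m), ((∃ P : Sylow 2 ↥(Cfsg.Sz F m), U = (P : Subgroup ↥(Cfsg.Sz F m))) ∨
      (IsCyclic ↥U ∧ Nat.card ↥U ∈ ({2 ^ (2 * m + 1) - 1, 2 ^ (2 * m + 1) + 2 ^ (m + 1) + 1, 2 ^ (2 * m + 1) - 2 ^ (m + 1) + 1} : Set ℕ))) ∧ g ∈ U := by
  have hq : Nat.card F = 2 ^ (2 * m + 1) := by rw [Nat.card_eq_fintype_card, hF]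
  generalize ovoidModel hm hF = M
  by_cases h : ∃ p, g ∈ M.Up p
  · obtain ⟨p, hp⟩ := h
    refine ⟨M.Up p, ⟨Or.inl ⟨M.sylow p, rfl⟩, hp⟩, ?_⟩
    rintro U ⟨⟨P, rfl⟩ | ⟨-, hU⟩, hgU⟩
    · obtain ⟨p', hp'⟩ := M.exists_sylow_eq P
      rw [hp'] at hgU ⊢
      rw [M.eq_of_mem_Up hp hg hgU.1]
    · exact absurd hp (M.not_mem_Up_of_odd hg
        ((eq_of_dvd hm hU hU dvd_rfl).2.of_dvd_nat (Subgroup.orderOf_dvd_natCard U hgU)) p)
  · have h1 : Nat.card (Subgroup.centralizer ({g} : Set (Cfsg.Sz F m))) ∈ ({2 ^ (2 * m + 1) - 1,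
        2 ^ (2 * m + 1) + 2 ^ (m + 1) + 1, 2 ^ (2 * m + 1) - 2 ^ (m + 1) + 1} : Set ℕ) := by
      rcases M.trichotomy g with h2 | ⟨x, μ, rfl⟩ | h2
      · exact absurd h2 h
      · left; rw [M.centralizer_conj_h x hg, card_map_conj, M.card_H, hq]
      · exact Or.inr (h2.card_centralizer hm hq)
    refine ⟨Subgroup.centralizer {g}, ⟨Or.inr ⟨M.isCyclic_centralizer (not_exists.1 h), h1⟩,
      Subgroup.mem_centralizer_singleton_iff.2 rfl⟩, ?_⟩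
    rintro U ⟨⟨P, rfl⟩ | ⟨hc, hU⟩, hgU⟩
    · obtain ⟨p', hp'⟩ := M.exists_sylow_eq P
      exact absurd ⟨p', hp' ▸ hgU⟩ h
    · have h2 : U ≤ Subgroup.centralizer {g} := fun u hu =>
        Subgroup.mem_centralizer_singleton_iff.2 (comm_of_isCyclic hc hu hgU)
      exact Subgroup.eq_of_le_of_card_ge h2 (eq_of_dvd hm hU h1 (Subgroup.card_dvd_of_le h2)).1.ge

end Cfsg.Agent.S2238
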