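import Cfsg.Statements.S2239
import Cfsg.Agent.Lib.Sz.Local

set_option autoImplicit false
open Cfsg

namespace Cfsg.Agent.S2239

open Cfsg.Lib.Sz

/-- Subfield subgroups of the Suzuki group: let q = 2^(2m+1) and s = 2^(2k+1) with m, k ≥ 1 and 2k+1 dividing 2m+1 (so q is a power of s), both groups realised as stabilisers in SL₄ of the Suzuki–Tits ovoid. Then Sz(q) has a subgroup isomorphic to Sz(s), and any two subgroups of Sz(q) isomorphic to Sz(s) are conjugate. -/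
theorem result {F : Type*} [Field F] [Fintype F] {m : ℕ} (hm : 1 ≤ m) (hF : Fintype.card F = 2 ^ (2 * m + 1)) {K : Type*} [Field K] [Fintype K] {k : ℕ} (hk : 1 ≤ k) (hK : Fintype.card K = 2 ^ (2 * k + 1)) (hdiv : 2 * k + 1 ∣ 2 * m + 1) :
    (∃ S : Subgroup ↥(Cfsg.Sz F m), Nonempty (↥S ≃* ↥(Cfsg.Sz K k))) ∧
    ∀ S₁ S₂ : Subgroup ↥(Cfsg.Sz F m), Nonempty (↥S₁ ≃* ↥(Cfsg.Sz K k)) → Nonempty (↥S₂ ≃* ↥(Cfsg.Sz K k)) →
      ∃ g : ↥(Cfsg.Sz F m), S₂ = S₁.map (MulAut.conj g).toMonoidHom := by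
  have hq : Nat.card F = 2 ^ (2 * m + 1) := by rw [Nat.card_eq_fintype_card, hF]
  have hs : Nat.card K = 2 ^ (2 * k + 1) := by rw [Nat.card_eq_fintype_card, hK]
  generalize ovoidModel hm hF = N
  constructor
  · obtain ⟨ι⟩ := exists_ringHom_of_dvd hs hq hdiv
    exact ⟨_, N.nonempty_sub_equiv (ovoidModel hk hK) ι⟩
  · rintro S₁ S₂ ⟨e₁⟩ ⟨e₂⟩
    obtain ⟨x, L, h1, rfl⟩ := N.exists_conj_sub_of_equiv (ovoidModel hk hK) (exists_ne_zero_ne_one hk hK)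
      (exists_ne_zero_ne_one hm hF) e₁
    obtain ⟨y, L', h2, rfl⟩ := N.exists_conj_sub_of_equiv (ovoidModel hk hK) (exists_ne_zero_ne_one hk hK)
      (exists_ne_zero_ne_one hm hF) e₂
    obtain rfl := subfield_eq_of_card_eq (h1.trans h2.symm)
    refine ⟨y * x⁻¹, ?_⟩
    rw [Subgroup.map_map]
    congr 1
    ext; simp [mul_assoc]

end Cfsg.Agent.S2239
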