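import Cfsg.Statements.S2240
import Cfsg.Agent.Lib.Sz.Local

set_option autoImplicit false
open Cfsg

namespace Cfsg.Agent.S2240

open Cfsg.Lib.Sz

/-- Elementary abelian TI-subgroups of the Suzuki group: let q = 2^(2m+1) with m ≥ 1, the group realised as the stabiliser in SL₄ of the Suzuki–Tits ovoid, and n ≥ 2. There is an elementary abelian 2-subgroup E of order 2^n that is a TI-subgroup (every conjugate of E meeting E nontrivially is E itself) if and only if n divides 2m + 1. -/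
theorem result {F : Type*} [Field F] [Fintype F] {m : ℕ} (hm : 1 ≤ m) (hF : Fintype.card F = 2 ^ (2 * m + 1)) (n : ℕ) (hn : 2 ≤ n) :
    (∃ E : Subgroup ↥(Cfsg.Sz F m), Cfsg.IsElementaryAbelian 2 E ∧ Nat.card ↥E = 2 ^ n ∧
      ∀ x : ↥(Cfsg.Sz F m), E ⊓ E.map (MulAut.conj x).toMonoidHom ≠ ⊥ → x ∈ Subgroup.normalizer (E : Set ↥(Cfsg.Sz F m))) ↔ n ∣ 2 * m + 1 := by
  have hq : Nat.card F = 2 ^ (2 * m + 1) := by rw [Nat.card_eq_fintype_card, hF]
  generalize ovoidModel hm hF = M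
  constructor
  · rintro ⟨E, ⟨-, h2⟩, hc, hTI⟩
    obtain ⟨x, hx⟩ := M.exists_le_conj_U (P := E) (IsPGroup.of_card hc)
    generalize M.conj x = M at hx
    have := M.charP
    have hZ : E ≤ M.Z := fun g hg => M.mem_Z_iff.2 ⟨M.U_le_B (hx hg), by rw [← sq, h2 g hg]⟩
    have hE : E ≠ ⊥ := by
      rintro rfl
      rw [Subgroup.card_bot] at hc
      have := Nat.pow_le_pow_right (n := 2) (by norm_num) hn
      omega
    obtain ⟨⟨z, hz⟩, hz1⟩ := Subgroup.ne_bot_iff_exists_ne_one.1 hE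
    obtain ⟨b0, rfl⟩ := hZ hz
    have hb0 : b0 ≠ 0 := by rintro rfl; exact hz1 (Subtype.ext M.u_zero)
    have key : ∀ c, c ≠ 0 → M.u 0 (c * b0) ∈ E → ∀ b, M.u 0 b ∈ E ↔ M.u 0 (c * b) ∈ E := by
      intro c hc hcE b
      obtain ⟨μ, hμ⟩ := M.exists_h_conj_Z hb0 (mul_ne_zero hc hb0)
      have h3 := hTI (M.h μ) (Subgroup.ne_bot_iff_exists_ne_one.2 ⟨⟨_, hcE, _, hz, hμ⟩, fun h => by
        simpa [M.u_eq_one, hc, hb0] using congrArg Subtype.val h⟩)
      rw [M.h_conj_u, M.u_inj] at hμ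
      rw [Subgroup.mem_normalizer_iff.1 h3, M.h_conj_u, mul_zero, mul_right_cancel₀ hb0 hμ.2]
    let K : Subfield F :=
      { carrier := {c | M.u 0 (c * b0) ∈ E}
        zero_mem' := by simp [E.one_mem]
        one_mem' := by simpa using hz
        add_mem' := fun {a b} ha hb => by
          have := E.mul_mem ha hb
          rwa [M.u_zero_mul_u_zero, ← add_mul] at this
        neg_mem' := fun {a} ha => by rwa [CharTwo.neg_eq]
        mul_mem' := fun {a b} ha hb => by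
          by_cases h : a = 0
          · simp [h, E.one_mem]
          · have := (key a h ha _).1 hb
            rwa [← mul_assoc] at this
        inv_mem' := fun a ha => by
          by_cases h : a = 0
          · simp [h, E.one_mem]
          · exact (key a h ha _).2 (by rwa [mul_inv_cancel_left₀ h]) }
    refine dvd_of_ringHom (K := K) (p := 2) ?_ hq K.subtype
    rw [← hc]
    refine Nat.card_congr (Equiv.ofBijective (fun c => ⟨M.u 0 (c * b0), c.2⟩) ⟨fun c d h => ?_, ?_⟩)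
    · exact Subtype.ext (mul_right_cancel₀ hb0 (M.u_inj.1 (Subtype.mk.inj h)).2)
    · rintro ⟨g, hg⟩
      obtain ⟨b, rfl⟩ := hZ hg
      exact ⟨⟨b / b0, show M.u 0 _ ∈ E by rwa [div_mul_cancel₀ _ hb0]⟩, by simp [hb0]⟩
  · intro hd
    have h1 := GaloisField.card 2 n (by omega)
    obtain ⟨ι⟩ := exists_ringHom_of_dvd h1 hq hd
    let E : Subgroup (Cfsg.Sz F m) :=
      { carrier := {g | ∃ b ∈ ι.fieldRange, g = M.u 0 b}
        one_mem' := ⟨0, zero_mem _, M.u_zero.symm⟩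
        mul_mem' := by
          rintro _ _ ⟨a, ha, rfl⟩ ⟨b, hb, rfl⟩
          exact ⟨_, add_mem ha hb, M.u_zero_mul_u_zero _ _⟩
        inv_mem' := by
          rintro _ ⟨a, ha, rfl⟩
          exact ⟨a, ha, by rw [M.u_inv]; simp⟩ }
    have hE : ∀ b, M.u 0 b ∈ E ↔ b ∈ ι.fieldRange := fun b =>
      ⟨fun ⟨c, hc, h⟩ => (M.u_inj.1 h).2 ▸ hc, fun h => ⟨b, h, rfl⟩⟩
    refine ⟨E, ⟨⟨⟨?_⟩⟩, ?_⟩, ?_, ?_⟩
    · rintro ⟨_, a, ha, rfl⟩ ⟨_, b, hb, rfl⟩
      exact Subtype.ext (M.u_zero_comm _ _ _)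
    · rintro _ ⟨a, -, rfl⟩
      rw [sq, M.u_zero_sq]
    · rw [← h1]
      refine (Nat.card_congr (Equiv.ofBijective (fun c => (⟨M.u 0 (ι c), _, ⟨c, rfl⟩, rfl⟩ : E))
        ⟨fun c d h => ?_, ?_⟩)).symm
      · exact ι.injective (M.u_inj.1 (Subtype.mk.inj h)).2
      · rintro ⟨_, _, ⟨c, rfl⟩, rfl⟩
        exact ⟨c, rfl⟩
    · intro x hx
      obtain ⟨⟨_, h2, _, ⟨b, hb, rfl⟩, rfl⟩, h3⟩ := Subgroup.ne_bot_iff_exists_ne_one.1 hx
      change x * M.u 0 b * x⁻¹ ∈ E at h2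
      have h4 : M.u 0 b ≠ 1 := fun h => h3 (Subtype.ext (by simp [h]))
      have hb0 : b ≠ 0 := by rintro rfl; exact h4 M.u_zero
      have h5 : x ∈ M.B := by
        obtain ⟨c, -, hc⟩ := h2
        exact M.mem_B_of_conj (M.u_mem_U 0 b) h4 (hc ▸ M.u_mem_B 0 c)
      obtain ⟨c, d, μ, rfl⟩ := M.mem_B'.1 h5
      have h6 : ∀ b, M.u c d * M.h μ * M.u 0 b * (M.u c d * M.h μ)⁻¹ = M.u 0 (M.σ μ * (μ : F) ^ 2 * b) := by
        intro b
        calc _ = M.u c d * (M.h μ * M.u 0 b * (M.h μ)⁻¹) * (M.u c d)⁻¹ := by group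
          _ = _ := by rw [M.h_conj_u, M.u_conj_u]; simp
      have h7 : M.σ μ * (μ : F) ^ 2 ∈ ι.fieldRange := by
        have := div_mem ((hE _).1 (h6 b ▸ h2)) hb
        rwa [mul_div_cancel_right₀ _ hb0] at this
      refine Subgroup.mem_normalizer_fintype ?_
      rintro _ ⟨a, ha, rfl⟩
      exact ⟨_, mul_mem h7 ha, h6 a⟩

end Cfsg.Agent.S2240
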