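import Cfsg.Statements.S2244
import Cfsg.Agent.Lib.WCU.Main

set_option autoImplicit false
open Cfsg

namespace Cfsg.Agent.S2244

open Cfsg.Lib.Chev Cfsg.Lib.WCU
set_option maxRecDepth 100000

/-- Weakly closed unipotent subgroups of Chevalley groups: let G be the Chevalley group of type G₂, B₂, D₄, F₄, E₆, E₇ or E₈ over a finite field F (the matrix group generated by the root elements), with |F| ≠ 2, and |F| ≠ 3 as well for the types G₂, B₂, D₄, F₄. Let U be the subgroup generated by the positive root subgroups. If X ≤ U is weakly closed in U with respect to G (every G-conjugate of X lying in U equals X), then X is the unipotent radical U_J of a standard parabolic subgroup for some set J of fundamental roots. -/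
theorem result {F : Type*} [Field F] [Fintype F] (D : Cfsg.Lie.ChevalleyDatum) (hD : D ∈ [Cfsg.Lie.chevG2, Cfsg.Lie.chevB2, Cfsg.Lie.chevD4, Cfsg.Lie.chevF4, Cfsg.Lie.chevE6, Cfsg.Lie.chevE7, Cfsg.Lie.chevE8])
    (h2 : Fintype.card F ≠ 2) (h3 : D ∈ [Cfsg.Lie.chevG2, Cfsg.Lie.chevB2, Cfsg.Lie.chevD4, Cfsg.Lie.chevF4] → Fintype.card F ≠ 3)
    (X : Subgroup (GL D.Idx F)) (hXU : X ≤ D.posUnipotent F)
    (hwc : ∀ g ∈ D.group F, X.map (MulAut.conj g).toMonoidHom ≤ D.posUnipotent F → X.map (MulAut.conj g).toMonoidHom = X) :
    ∃ J : Set ℕ, (∀ j ∈ J, j < D.rank) ∧ X = D.unipotentRadical F J := by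
  have h1 := Fintype.one_lt_card (α := F)
  simp only [List.mem_cons, List.not_mem_nil, or_false] at hD
  rcases hD with rfl | rfl | rfl | rfl | rfl | rfl | rfl
  · exact Checked.weakly_closed checkedG2 (n := 2) (by have := h3 (by simp); omega) (.inr le_rfl)
      (by decide +kernel) hXU hwc
  · exact Checked.weakly_closed checkedB2 (n := 2) (by have := h3 (by simp); omega) (.inr le_rfl)
      (by decide +kernel) hXU hwc
  · exact Checked.weakly_closed checkedD4 (n := 2) (by have := h3 (by simp); omega) (.inr le_rfl)
      (by decide +kernel) hXU hwc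
  · exact Checked.weakly_closed checkedF4 (n := 2) (by have := h3 (by simp); omega) (.inr le_rfl)
      (by decide +kernel) hXU hwc
  · have : ∀ r, checkedE6.R.ln r = 1 := by decide +kernel
    exact Checked.weakly_closed checkedE6 (n := 1) (by omega) (.inl fun r s => by rw [this, this])
      (by decide +kernel) hXU hwc
  · have : ∀ r, checkedE7.R.ln r = 1 := by decide +kernel
    exact Checked.weakly_closed checkedE7 (n := 1) (by omega) (.inl fun r s => by rw [this, this])
      (by decide +kernel) hXU hwc
  · have : ∀ r, checkedE8.R.ln r = 1 := by decide +kernel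
    exact Checked.weakly_closed checkedE8 (n := 1) (by omega) (.inl fun r s => by rw [this, this])
      (by decide +kernel) hXU hwc

end Cfsg.Agent.S2244
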