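import Cfsg.Statements.S2251
import Cfsg.Agent.Lib.Sz.Local

set_option autoImplicit false
open Cfsg

namespace Cfsg.Agent.S2251

open Cfsg.Lib.Sz

/-- The subgroups of the Suzuki group: with q = 2^(2m+1), m ≥ 1, r = 2^m and the group realised as the stabiliser in SL₄ of the Suzuki–Tits ovoid, every proper subgroup is contained in the normalizer of a Sylow 2-subgroup, or in the normalizer of a cyclic subgroup of order q − 1, q + 2r + 1 or q − 2r + 1, or in a subgroup isomorphic to a smaller Suzuki group Sz(s) with s = 2^(2k+1) ≥ 8 and 2k+1 a proper divisor of 2m+1. -/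
theorem result {F : Type*} [Field F] [Fintype F] {m : ℕ} (hm : 1 ≤ m) (hF : Fintype.card F = 2 ^ (2 * m + 1)) (M : Subgroup ↥(Cfsg.Sz F m)) (hM : M ≠ ⊤) :
    (∃ P : Sylow 2 ↥(Cfsg.Sz F m), M ≤ Subgroup.normalizer ((P : Subgroup ↥(Cfsg.Sz F m)) : Set ↥(Cfsg.Sz F m))) ∨
    (∃ U : Subgroup ↥(Cfsg.Sz F m), IsCyclic ↥U ∧ Nat.card ↥U ∈ ({2 ^ (2 * m + 1) - 1, 2 ^ (2 * m + 1) + 2 ^ (m + 1) + 1, 2 ^ (2 * m + 1) - 2 ^ (m + 1) + 1} : Set ℕ) ∧
      M ≤ Subgroup.normalizer (U : Set ↥(Cfsg.Sz F m))) ∨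
    (∃ (K : Type) (_ : Field K) (_ : Fintype K) (k : ℕ), 1 ≤ k ∧ k < m ∧ Fintype.card K = 2 ^ (2 * k + 1) ∧ 2 * k + 1 ∣ 2 * m + 1 ∧
      ∃ S : Subgroup ↥(Cfsg.Sz F m), Nonempty (↥S ≃* ↥(Cfsg.Sz K k)) ∧ M ≤ S) := by
  have hq : Nat.card F = 2 ^ (2 * m + 1) := by rw [Nat.card_eq_fintype_card, hF]
  generalize ovoidModel hm hF = N
  rcases N.isLocal_or_sub M with (⟨p, h⟩ | ⟨x, h⟩ | ⟨g, hg, h⟩) | ⟨x, K, hK, h⟩
  · exact Or.inl ⟨N.sylow p, by rwa [N.coe_sylow, N.normalizer_Up]⟩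
  · exact Or.inr (Or.inl ⟨_, isCyclic_map_conj N.isCyclic_H x,
      Or.inl (by rw [card_map_conj, N.card_H, hq]), h⟩)
  · exact Or.inr (Or.inl ⟨_, hg.isCyclic, Or.inr (hg.card_centralizer hm hq), h⟩)
  · obtain ⟨k, hk, hc⟩ := N.toTits.exists_card_subfield hK
    have := Fintype.ofFinite (GaloisField 2 (2 * k + 1))
    have := Fintype.ofFinite K
    have h1 : Fintype.card (GaloisField 2 (2 * k + 1)) = 2 ^ (2 * k + 1) := by
      rw [← Nat.card_eq_fintype_card, GaloisField.card 2 _ (by omega)]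
    have h2 := dvd_of_ringHom hc hq K.subtype
    refine Or.inr (Or.inr ⟨GaloisField 2 (2 * k + 1), inferInstance, inferInstance, k, hk, ?_, h1, h2, M, ?_,
      le_rfl⟩)
    · by_contra h3
      have h4 := Nat.le_of_dvd (by omega) h2
      obtain rfl : k = m := by omega
      rw [subfield_eq_top_of_card (K := K) (hq.trans hc.symm).le, N.sub_top] at h
      exact hM (h.trans (Subgroup.map_top_of_surjective _ (MulAut.conj x).surjective))
    · rw [h, ← N.conj_sub]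
      exact (N.conj x).nonempty_sub_equiv' (ovoidModel hk h1) K (FiniteField.ringEquivOfCardEq
        (h1.trans (hc.symm.trans Nat.card_eq_fintype_card)))

end Cfsg.Agent.S2251
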