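import Cfsg.Statements.S2254
import Cfsg.Agent.Lib.Alt.NilMax

set_option autoImplicit false
open Cfsg

namespace Cfsg.Agent.S2254

/-- Let n ≡ 3 (mod 4). Then every nilpotent subgroup of the symmetric group on n letters has order at most 3 times the order of a Sylow 2-subgroup of the symmetric group on n − 3 letters; the bound is attained by a nilpotent subgroup isomorphic to the direct product of such a Sylow 2-subgroup with a cyclic group of order 3; and any two nilpotent subgroups attaining the bound are conjugate. -/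
theorem result  (n : ℕ) (hn : n % 4 = 3)
    (P : Sylow 2 (Equiv.Perm (Fin (n - 3)))) :
    (∀ N : Subgroup (Equiv.Perm (Fin n)), Group.IsNilpotent N → Nat.card N ≤ 3 * Nat.card P) ∧
    (∃ M : Subgroup (Equiv.Perm (Fin n)), Group.IsNilpotent M ∧ Nat.card M = 3 * Nat.card P ∧
      Nonempty (M ≃* (↥(P : Subgroup (Equiv.Perm (Fin (n - 3)))) × Multiplicative (ZMod 3)))) ∧
    (∀ N₁ N₂ : Subgroup (Equiv.Perm (Fin n)), Group.IsNilpotent N₁ → Group.IsNilpotent N₂ →
      Nat.card N₁ = 3 * Nat.card P → Nat.card N₂ = 3 * Nat.card P →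
      ∃ g : Equiv.Perm (Fin n), N₂ = N₁.map (MulAut.conj g).toMonoidHom) := by
  have H : ∀ N : Subgroup (Equiv.Perm (Fin n)), Group.IsNilpotent N → Nat.card N ≤ 3 * Nat.card P :=
    fun N hN => by
    have := (Cfsg.Lib.Alt.card_nilpotent_le n N (Fin n) (by simp)).1
    rwa [Cfsg.Lib.Alt.nilS, if_pos hn, ← Cfsg.Lib.Alt.card_sylow_perm P] at this
  obtain ⟨k, hk⟩ := P.2.exists_card_eq
  refine ⟨H, ?_, fun N₁ N₂ a b c d => Cfsg.Lib.Alt.conj_of_max (hk ▸ H) (fun c d c1 d1 c2 d2 => ?_) a b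
    (hk ▸ c) (hk ▸ d)⟩
  · obtain ⟨m, rfl⟩ : ∃ m, n = m + 3 := ⟨n - 3, by omega⟩
    obtain ⟨f, hf, -⟩ := Cfsg.Lib.Alt.exists_prod_three m
    haveI := P.2.isNilpotent
    have e := MonoidHom.ofInjective (f := f.comp (P.1.subtype.prodMap (MonoidHom.id _)))
      (hf.comp (P.1.subtype_injective.prodMap Function.injective_id))
    exact ⟨_, Group.nilpotent_of_mulEquiv e, (Nat.card_congr e.toEquiv).symm.trans (by simp [mul_comm]),
      ⟨e.symm⟩⟩
  have h : Cfsg.Lib.Alt.s2 (n - 3) ≤ 2 * 2 ^ k := by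
    rw [← Cfsg.Lib.Alt.card_sylow_perm P, hk]
    omega
  exact Equiv.Perm.isConj_iff_cycleType_eq.2 ((Cfsg.Lib.Alt.isThreeCycle_of_dvd hn h c1 c2).trans
    (Cfsg.Lib.Alt.isThreeCycle_of_dvd hn h d1 d2).symm)

end Cfsg.Agent.S2254
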