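import Cfsg.Statements.S2255
import Cfsg.Agent.Lib.Alt.NilMax

set_option autoImplicit false
open Cfsg

namespace Cfsg.Agent.S2255

/-- Let n be a natural number not congruent to 3 modulo 4, with n ∉ {5, 6, 9}. Then every nilpotent subgroup of the alternating group on n letters has order at most the order of a Sylow 2-subgroup of the alternating group (so the nilpotent subgroups of largest order are exactly the Sylow 2-subgroups). -/
theorem result  (n : ℕ) (hn : n % 4 ≠ 3)
    (h5 : n ≠ 5) (h6 : n ≠ 6) (h9 : n ≠ 9)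
    (N : Subgroup (alternatingGroup (Fin n))) (hN : Group.IsNilpotent N)
    (P : Sylow 2 (alternatingGroup (Fin n))) :
    Nat.card N ≤ Nat.card P := by
  have := (Cfsg.Lib.Alt.card_nilpotent_le n N (Fin n) (by simp)).2 fun g => g.1.2
  by_cases h1 : n ≤ 1
  · rw [Cfsg.Lib.Alt.nilA, if_pos h1] at this
    have : 0 < Nat.card P := Nat.card_pos
    omega
  rw [Cfsg.Lib.Alt.nilA, if_neg h1, if_neg (by omega), if_neg h5, if_neg h6, if_neg h9,
    Cfsg.Lib.Alt.nilS, if_neg hn, ← Cfsg.Lib.Alt.card_sylow_alt (by omega) P] at this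
  omega

end Cfsg.Agent.S2255
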