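import Cfsg.Statements.S2256
import Cfsg.Agent.Lib.Alt.NilMax

set_option autoImplicit false
open Cfsg

namespace Cfsg.Agent.S2256

/-- Let n ≡ 3 (mod 4) with n ≥ 7. Then every nilpotent subgroup of the alternating group on n letters has order at most 3 times the order of a Sylow 2-subgroup of the alternating group on n − 3 letters; the bound is attained by a nilpotent subgroup isomorphic to the direct product of such a Sylow 2-subgroup with a cyclic group of order 3; and any two nilpotent subgroups of the alternating group attaining the bound are conjugate in it. -/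
theorem result  (n : ℕ) (hn : n % 4 = 3) (h7 : 7 ≤ n)
    (P : Sylow 2 (alternatingGroup (Fin (n - 3)))) :
    (∀ N : Subgroup (alternatingGroup (Fin n)), Group.IsNilpotent N → Nat.card N ≤ 3 * Nat.card P) ∧
    (∃ M : Subgroup (alternatingGroup (Fin n)), Group.IsNilpotent M ∧ Nat.card M = 3 * Nat.card P ∧
      Nonempty (M ≃* (↥(P : Subgroup (alternatingGroup (Fin (n - 3)))) × Multiplicative (ZMod 3)))) ∧
    (∀ N₁ N₂ : Subgroup (alternatingGroup (Fin n)), Group.IsNilpotent N₁ → Group.IsNilpotent N₂ →
      Nat.card N₁ = 3 * Nat.card P → Nat.card N₂ = 3 * Nat.card P →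
      ∃ g : alternatingGroup (Fin n), N₂ = N₁.map (MulAut.conj g).toMonoidHom) := by
  have hP := Cfsg.Lib.Alt.card_sylow_alt (by omega) P
  have H : ∀ N : Subgroup (alternatingGroup (Fin n)), Group.IsNilpotent N →
      Nat.card N ≤ 3 * Nat.card P := fun N hN => by
    have := (Cfsg.Lib.Alt.card_nilpotent_le n N (Fin n) (by simp)).2 fun g => g.1.2
    rw [Cfsg.Lib.Alt.nilA, if_neg (by omega), if_neg (by omega), if_neg (by omega), if_neg (by omega),
      if_neg (by omega), Cfsg.Lib.Alt.nilS, if_pos hn] at this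
    omega
  obtain ⟨k, hk⟩ := P.2.exists_card_eq
  refine ⟨H, ?_, fun N₁ N₂ a b c d => Cfsg.Lib.Alt.conj_of_max (hk ▸ H) (fun c d c1 d1 c2 d2 => ?_) a b
    (hk ▸ c) (hk ▸ d)⟩
  · obtain ⟨m, rfl⟩ : ∃ m, n = m + 3 := ⟨n - 3, by omega⟩
    obtain ⟨f, hf, hs⟩ := Cfsg.Lib.Alt.exists_prod_three m
    haveI := P.2.isNilpotent
    have e := MonoidHom.ofInjective (f := (f.comp (((alternatingGroup _).subtype.comp P.1.subtype).prodMap
      (MonoidHom.id _))).codRestrict (alternatingGroup _) fun x => (hs _).trans x.1.1.2)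
      fun a b k => (hf.comp (((alternatingGroup _).subtype_injective.comp P.1.subtype_injective).prodMap
        Function.injective_id)) (congrArg Subtype.val k)
    exact ⟨_, Group.nilpotent_of_mulEquiv e, (Nat.card_congr e.toEquiv).symm.trans (by simp [mul_comm]),
      ⟨e.symm⟩⟩
  have h : ∀ c : alternatingGroup (Fin n), orderOf c = 3 → 2 ^ k ∣ Nat.card (Subgroup.centralizer {c}) →
      c.1.IsThreeCycle := fun c c1 c2 => Cfsg.Lib.Alt.isThreeCycle_of_dvd hn (by rw [← hP, hk])
    ((Subgroup.orderOf_coe c).trans c1) (c2.trans ((Subgroup.card_subtype _ _).symm.dvd.trans (Subgroup.card_dvd_of_le (by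
      rintro _ ⟨x, hx, rfl⟩
      exact Subgroup.mem_centralizer_singleton_iff.2
        (congrArg Subtype.val (Subgroup.mem_centralizer_singleton_iff.1 hx))))))
  exact alternatingGroup.isThreeCycle_isConj (by simp; omega) (h c c1 c2) (h d d1 d2)

end Cfsg.Agent.S2256
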