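import Cfsg.Statements.S2257
import Cfsg.Agent.Lib.PSL2.Solub

set_option autoImplicit false
open Cfsg

namespace Cfsg.Agent.S2257

/-- Let G = PSL_2(F) with F a field of order q = 2^p, p prime, and for x ∈ G call the solubilizer of x the set of y ∈ G such that x and y generate a solvable subgroup. Then the solubilizer of an involution has 3q(q − 1) elements; that of a non-identity element of order dividing q − 1 has 2q(q − 1) elements; and that of a non-identity element of order dividing q + 1 has 2(q + 1) elements. -/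
theorem result (p : ℕ) (hp : p.Prime) {F : Type*} [Field F] [Fintype F]
    (hF : Fintype.card F = 2 ^ p) (x : Matrix.ProjectiveSpecialLinearGroup (Fin 2) F) :
    (orderOf x = 2 → Nat.card {y : Matrix.ProjectiveSpecialLinearGroup (Fin 2) F // Group.IsSolvable ↥(Subgroup.closure ({x, y} : Set (Matrix.ProjectiveSpecialLinearGroup (Fin 2) F)))} = 3 * 2 ^ p * (2 ^ p - 1)) ∧
    (x ≠ 1 → orderOf x ∣ 2 ^ p - 1 → Nat.card {y : Matrix.ProjectiveSpecialLinearGroup (Fin 2) F // Group.IsSolvable ↥(Subgroup.closure ({x, y} : Set (Matrix.ProjectiveSpecialLinearGroup (Fin 2) F)))} = 2 * 2 ^ p * (2 ^ p - 1)) ∧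
    (x ≠ 1 → orderOf x ∣ 2 ^ p + 1 → Nat.card {y : Matrix.ProjectiveSpecialLinearGroup (Fin 2) F // Group.IsSolvable ↥(Subgroup.closure ({x, y} : Set (Matrix.ProjectiveSpecialLinearGroup (Fin 2) F)))} = 2 * (2 ^ p + 1)) := by
  open Lib.PSL2 in
  have : CharP F 2 := charP_of_card_eq_prime_pow hF
  rw [← Nat.card_eq_fintype_card] at hF
  have hq : ¬ Odd (Nat.card F) := Nat.not_odd_iff_even.2 (even_iff_two_dvd.2 (char_dvd_card 2))
  have key : x ≠ 1 → Odd (orderOf x) → ∃ m, (m = Nat.card F - 1 ∨ m = Nat.card F + 1) ∧ orderOf x ∣ m ∧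
      (m = Nat.card F + 1 → (Sol x).ncard = 2 * m) ∧
      (m = Nat.card F - 1 → (Sol x).ncard = 2 * (Nat.card F * m)) := fun h1 h2 => by
    obtain ⟨a, b, m, h3, h4⟩ := exists_mem_torusL_of_coprime (AlgebraicClosure F) 2 h2.coprime_two_right
    exact ⟨m, h3.eq_or_eq, by simpa only [gcd_two_eq_of_even hq, Nat.div_one, one_mul] using
      (And.intro (h3.orderOf_dvdL h4) (ncard_sol_torus h3 h4 (fun e => h2.not_two_dvd_nat
        (orderOf_eq_prime ((sq x).trans e) h1).symm.dvd) (hq · |>.elim)))⟩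
  have h0 := two_le_card_field F
  have h3 : ∀ n, Odd n → n ∣ Nat.card F - 1 → n ∣ Nat.card F + 1 → n = 1 := fun n h1 h2 h3 =>
    h1.coprime_two_right.eq_one_of_dvd ((Nat.dvd_add_right h2).1 (by
      rwa [show _ + 2 = Nat.card F + 1 by omega]))
  rw [Nat.odd_iff] at hq
  rw [← hF]
  refine ⟨ncard_sol_invol_even, fun h1 h2 => ?_, fun h1 h2 => ?_⟩
  · have h4 := Odd.of_dvd_nat (Nat.odd_iff.2 (by omega)) h2
    obtain ⟨m, rfl | rfl, h5, -, h6⟩ := key h1 h4
    · exact (h6 rfl).trans (mul_assoc ..).symm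
    · exact (h1 (orderOf_eq_one_iff.1 (h3 _ h4 h2 h5))).elim
  · have h4 := Odd.of_dvd_nat (Nat.odd_iff.2 (by omega)) h2
    obtain ⟨m, rfl | rfl, h5, h6, -⟩ := key h1 h4
    · exact (h1 (orderOf_eq_one_iff.1 (h3 _ h4 h5 h2))).elim
    · exact h6 rfl

end Cfsg.Agent.S2257
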