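import Cfsg.Statements.S2258
import Cfsg.Agent.Lib.PSL2.Solub

set_option autoImplicit false
open Cfsg

namespace Cfsg.Agent.S2258

/-- Let G = PSL_2(F) with F a field of order q = 3^p, p an odd prime, and for x ∈ G call the solubilizer of x the set of y ∈ G such that x and y generate a solvable subgroup. Then the solubilizer of an involution has q(q + 1) elements; that of an element of order 3 has q(q + 5)/2 elements; that of an element of order neither 1 nor 2 dividing q − 1 has q(q − 1) elements; and that of an element of order neither 1 nor 2 dividing q + 1 has q + 1 elements. -/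
theorem result (p : ℕ) (hp : p.Prime) (hodd : Odd p) {F : Type*} [Field F] [Fintype F]
    (hF : Fintype.card F = 3 ^ p) (x : Matrix.ProjectiveSpecialLinearGroup (Fin 2) F) :
    (orderOf x = 2 → Nat.card {y : Matrix.ProjectiveSpecialLinearGroup (Fin 2) F // Group.IsSolvable ↥(Subgroup.closure ({x, y} : Set (Matrix.ProjectiveSpecialLinearGroup (Fin 2) F)))} = 3 ^ p * (3 ^ p + 1)) ∧
    (orderOf x = 3 → 2 * Nat.card {y : Matrix.ProjectiveSpecialLinearGroup (Fin 2) F // Group.IsSolvable ↥(Subgroup.closure ({x, y} : Set (Matrix.ProjectiveSpecialLinearGroup (Fin 2) F)))} = 3 ^ p * (3 ^ p + 5)) ∧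
    (x ≠ 1 → orderOf x ≠ 2 → orderOf x ∣ 3 ^ p - 1 → Nat.card {y : Matrix.ProjectiveSpecialLinearGroup (Fin 2) F // Group.IsSolvable ↥(Subgroup.closure ({x, y} : Set (Matrix.ProjectiveSpecialLinearGroup (Fin 2) F)))} = 3 ^ p * (3 ^ p - 1)) ∧
    (x ≠ 1 → orderOf x ≠ 2 → orderOf x ∣ 3 ^ p + 1 → Nat.card {y : Matrix.ProjectiveSpecialLinearGroup (Fin 2) F // Group.IsSolvable ↥(Subgroup.closure ({x, y} : Set (Matrix.ProjectiveSpecialLinearGroup (Fin 2) F)))} = 3 ^ p + 1) := by
  open Lib.PSL2 in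
  have : CharP F 3 := charP_of_card_eq_prime_pow hF
  rw [← Nat.card_eq_fintype_card] at hF
  have hq : Nat.card F % 8 = 3 := by
    obtain ⟨k, rfl⟩ := hodd
    rw [hF, pow_succ, pow_mul, Nat.mul_mod, Nat.pow_mod]
    simp
  have ho : Odd (Nat.card F) := Nat.odd_iff.2 (by omega)
  have h0 := char_dvd_card (F := F) 3
  have key : x ≠ 1 → orderOf x ≠ 2 → ¬ 3 ∣ orderOf x → ∃ m, (m = Nat.card F - 1 ∨ m = Nat.card F + 1) ∧
      orderOf x ∣ m / 2 ∧ (m = Nat.card F + 1 → 2 * (Sol x).ncard = 2 * m) ∧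
      (m = Nat.card F - 1 → 2 * (Sol x).ncard = 2 * (Nat.card F * m)) := fun h1 h2 h3 => by
    obtain ⟨a, b, m, h4, h5⟩ := exists_mem_torusL_of_coprime (AlgebraicClosure F) 3
      (Nat.prime_three.coprime_iff_not_dvd.2 h3).symm
    have h6 : x * x ≠ 1 := fun e => h2 (orderOf_eq_prime ((sq x).trans e) h1)
    refine ⟨m, h4.eq_or_eq, ?_⟩
    simpa only [gcd_two_eq_of_odd ho] using And.intro (h4.orderOf_dvdL h5)
      (ncard_sol_torus h4 h5 h6 fun _ V hV h7 => by
        obtain ⟨e⟩ := equiv_normalizer_four_psl_alt (.inl hq) hV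
        have := (alt_four_three (e ⟨x, h7⟩) 1 (by simpa [← map_mul] using h6)).1
        simp only [← map_pow, map_eq_one_iff _ e.injective, Subtype.ext_iff] at this
        exact h3 (orderOf_eq_prime this h1).symm.dvd)
  have h3 : ∀ n, n ∣ Nat.card F - 1 → n ∣ Nat.card F + 1 → n ∣ 2 := fun n h2 h3 =>
    (Nat.dvd_add_right h2).1 (by rwa [show _ + 2 = Nat.card F + 1 by omega])
  have h4 : x ≠ 1 → orderOf x ≠ 2 → ¬ orderOf x ∣ 2 := fun h1 h2 h =>
    ((Nat.dvd_prime Nat.prime_two).1 h).elim (mt orderOf_eq_one_iff.1 h1) h2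
  rw [← hF]
  refine ⟨ncard_sol_invol_three hq, ncard_sol_three hq, fun h1 h2 h5 => ?_, fun h1 h2 h5 => ?_⟩
  · obtain ⟨m, rfl | rfl, h6, -, h7⟩ := key h1 h2 fun e => by have := e.trans h5; omega
    · exact Nat.eq_of_mul_eq_mul_left two_pos (h7 rfl)
    · exact (h4 h1 h2 (h3 _ h5 (h6.trans (Nat.div_dvd_of_dvd (by omega))))).elim
  · obtain ⟨m, rfl | rfl, h6, h7, -⟩ := key h1 h2 fun e => by have := e.trans h5; omega
    · exact (h4 h1 h2 (h3 _ (h6.trans (Nat.div_dvd_of_dvd (by omega))) h5)).elim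
    · exact Nat.eq_of_mul_eq_mul_left two_pos (h7 rfl)

end Cfsg.Agent.S2258
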