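import Cfsg.Statements.S2259
import Cfsg.Agent.Lib.Sz.Classes

set_option autoImplicit false
open Cfsg

namespace Cfsg.Agent.S2259

open Cfsg.Lib.Sz MulAction

variable {F : Type*} [Field F] [Finite F] {G : Type*} [Group G] (M : Model F G)

/-- The solubilizer. -/
def Sol (x : G) : Set G := {y | Group.IsSolvable (Subgroup.closure ({x, y} : Set G))}

/-- The elements lying with `x` in the normaliser of a conjugate of `A`. -/
def S (A : Subgroup G) (x : G) : Set G :=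
  {y | ∃ c, x ∈ Subgroup.normalizer (A.map (MulAut.conj c).toMonoidHom : Set G) ∧
    y ∈ Subgroup.normalizer (A.map (MulAut.conj c).toMonoidHom : Set G)}

theorem closure_le_iff {x y : G} {X : Subgroup G} : Subgroup.closure ({x, y} : Set G) ≤ X ↔ x ∈ X ∧ y ∈ X := by
  rw [Subgroup.closure_le, Set.pair_subset_iff]; rfl

theorem mem_Sol (ht : ∃ t : F, t ≠ 0 ∧ t ≠ 1) {x y : G} : y ∈ Sol x ↔
    (∃ p : M.Pt, x • p = p ∧ y • p = p) ∨ y ∈ S M.H x ∨
      ∃ g, M.Ell g ∧ x ∈ Subgroup.normalizer (Subgroup.centralizer ({g} : Set G) : Set G) ∧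
        y ∈ Subgroup.normalizer (Subgroup.centralizer ({g} : Set G) : Set G) := by
  simp only [Sol, Set.mem_ofPred_eq, M.isSolvable_iff ht, Model.IsLocal, closure_le_iff]
  rfl

theorem ncard_S {A : Subgroup G} {n : ℕ} (T : IsTorus A n) {x : G} (hx : x ∈ M.U) (h1 : x ≠ 1) {x' : G}
    (hx' : x' ∈ Subgroup.normalizer (A : Set G)) (hc : IsConj x' x) :
    (S A x \ M.B).ncard = Nat.card (Subgroup.centralizer ({x} : Set G)) * (Nat.card A - 1) := by
  classical
  have := M.finite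
  have := Fintype.ofFinite G
  obtain ⟨c0, rfl⟩ := isConj_iff.1 hc
  have h4 : x' ^ 4 = 1 := by have := (M.mem_U_iff.1 hx).2; rwa [conj_pow, conj_eq_one_iff] at this
  have h1' : x' ≠ 1 := fun h => h1 (by simp [h])
  set x := c0 * x' * c0⁻¹ with hxdef
  have hs : {c | x ∈ Subgroup.normalizer (A.map (MulAut.conj c).toMonoidHom : Set G)}.ncard =
      Nat.card (Subgroup.centralizer ({x} : Set G)) * Nat.card A := by
    rw [← Nat.card_prod, ← Nat.card_coe_set_eq]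
    have h0 : ∀ p : Subgroup.centralizer ({x} : Set G) × A, (p.1 : G) * c0 * p.2 ∈
        {c | x ∈ Subgroup.normalizer (A.map (MulAut.conj c).toMonoidHom : Set G)} := by
      intro p
      rw [Set.mem_ofPred_eq, mem_normalizer_map_conj]
      have h2 := Subgroup.mem_centralizer_singleton_iff.1 p.1.2
      have : ((p.1 : G) * c0 * p.2)⁻¹ * x * (p.1 * c0 * p.2) = (p.2 : G)⁻¹ * x' * p.2 := by
        calc _ = (p.2 : G)⁻¹ * c0⁻¹ * (p.1 : G)⁻¹ * (x * p.1) * c0 * p.2 := by group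
          _ = _ := by rw [← h2]; simp only [x]; group
      rw [this]
      exact mul_mem (mul_mem (inv_mem (Subgroup.le_normalizer p.2.2)) hx') (Subgroup.le_normalizer p.2.2)
    refine (Nat.card_congr (Equiv.ofBijective (fun p => ⟨_, h0 p⟩) ⟨?_, ?_⟩)).symm
    · rintro ⟨z, a⟩ ⟨z', a'⟩ h
      have h2 : (z : G) * c0 * a = z' * c0 * a' := congrArg Subtype.val h
      have h3 := Subgroup.mem_centralizer_singleton_iff.1 (mul_mem (inv_mem z'.2) z.2)
      have h5 : (z' : G)⁻¹ * z = c0 * (a' * (a : G)⁻¹) * c0⁻¹ := by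
        calc _ = (z' : G)⁻¹ * (z * c0 * a) * (a : G)⁻¹ * c0⁻¹ := by group
          _ = _ := by rw [h2]; group
      rw [h5, hxdef, conj_mul, conj_mul, mul_left_inj, mul_right_inj] at h3
      have h6 := T.eq_one_of_commute (T.not_mem_of_pow_four h4 h1') (mul_mem a'.2 (inv_mem a.2)) h3.symm
      obtain rfl : a' = a := Subtype.ext (mul_inv_eq_one.1 h6)
      rw [show z = z' from Subtype.ext (mul_right_cancel (mul_right_cancel h2))]
    · rintro ⟨c, hc⟩
      rw [Set.mem_ofPred_eq, mem_normalizer_map_conj] at hc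
      obtain ⟨a, ha, h⟩ := M.exists_conj_of_isConj T h4 h1' hx' hc
        (isConj_iff.2 ⟨c⁻¹ * c0, by rw [hxdef]; group⟩)
      refine ⟨(⟨c * a * c0⁻¹, Subgroup.mem_centralizer_singleton_iff.2 ?_⟩, ⟨a⁻¹, inv_mem ha⟩),
        Subtype.ext (by simp)⟩
      calc c * a * c0⁻¹ * x = c * (a * x' * a⁻¹) * a * c0⁻¹ := by rw [hxdef]; group
        _ = _ := by rw [h]; group
  have key := Finset.card_mul_eq_card_mul
    (s := {c | x ∈ Subgroup.normalizer (A.map (MulAut.conj c).toMonoidHom : Set G)}.toFinset)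
    (t := (S A x \ M.B).toFinset) (m := n * Nat.card A - n) (n := n * Nat.card A)
    (fun c y => y ∈ Subgroup.normalizer (A.map (MulAut.conj c).toMonoidHom : Set G)) ?_ ?_
  · rw [← Set.ncard_eq_toFinset_card', ← Set.ncard_eq_toFinset_card', hs] at key
    have h2 : 0 < n * Nat.card A := Nat.mul_pos (by rcases T.n_eq with rfl | rfl <;> norm_num) Nat.card_pos
    refine Nat.eq_of_mul_eq_mul_right h2 ?_
    rw [← key, ← Nat.mul_sub_one]; ring
  · intro c hc
    rw [Set.mem_toFinset] at hc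
    have h2 := M.card_normalizer_inf_B (T.conj c) hx h1 hc
    have h3 := (T.conj c).card_norm
    rw [card_map_conj] at h3
    rw [← h3, ← h2, ← Set.ncard_coe_finset, ← SetLike.coe_sort_coe, ← SetLike.coe_sort_coe, Nat.card_coe_set_eq,
      Nat.card_coe_set_eq, ← Set.ncard_sdiff (by simp)]
    congr 1
    ext y
    simp only [Finset.coe_bipartiteAbove, Set.mem_toFinset, Set.mem_sdiff, SetLike.mem_coe, Set.mem_ofPred_eq,
      Subgroup.mem_inf]
    exact ⟨fun h => ⟨h.2, fun h' => h.1.2 h'.2⟩, fun h => ⟨⟨⟨c, hc, h.1⟩, fun h' => h.2 ⟨h.1, h'⟩⟩, h.1⟩⟩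
  · intro y hy
    rw [Set.mem_toFinset] at hy
    obtain ⟨⟨c, hc, hcy⟩, hB⟩ := hy
    have h2 : x * y * x⁻¹ * y⁻¹ ≠ 1 := fun h => hB (M.U_le_B (M.mem_U_of_commute hx h1 (by
      rw [mul_inv_eq_one, mul_inv_eq_iff_eq_mul] at h; exact h.symm)))
    rw [← T.card_norm, ← Set.ncard_coe_finset, ← SetLike.coe_sort_coe, Nat.card_coe_set_eq,
      ← Set.ncard_image_of_injective (Subgroup.normalizer (A : Set G) : Set G) (mul_right_injective c)]
    congr 1
    ext d
    simp only [Finset.coe_bipartiteBelow, Set.mem_toFinset, Set.mem_ofPred_eq, Set.image_mul_left,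
      Set.mem_preimage, SetLike.mem_coe, ← map_conj_eq_iff]
    constructor
    · rintro ⟨h3, h5⟩
      rw [← (T.conj c).cent _ ((T.conj c).commutator_mem hc hcy) h2,
        ← (T.conj d).cent _ ((T.conj d).commutator_mem h3 h5) h2]
    · intro h
      rw [h]; exact ⟨hc, hcy⟩

theorem disjoint_S {A A' : Subgroup G} {n n' : ℕ} (T : IsTorus A n) (T' : IsTorus A' n')
    (h : Nat.card A ≠ Nat.card A') {x : G} (hx : x ∈ M.U) (h1 : x ≠ 1) :
    Disjoint (S A x \ M.B) (S A' x \ M.B) := by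
  rw [Set.disjoint_left]
  rintro y ⟨⟨c, hc, hcy⟩, hB⟩ ⟨⟨d, hd, hdy⟩, -⟩
  have h2 : x * y * x⁻¹ * y⁻¹ ≠ 1 := fun h => hB (M.U_le_B (M.mem_U_of_commute hx h1 (by
    rw [mul_inv_eq_one, mul_inv_eq_iff_eq_mul] at h; exact h.symm)))
  apply h
  rw [← card_map_conj A c, ← card_map_conj A' d, ← (T.conj c).cent _ ((T.conj c).commutator_mem hc hcy) h2,
    ← (T'.conj d).cent _ ((T'.conj d).commutator_mem hd hdy) h2]

theorem ncard_Sol_U {m : ℕ} (hm : 1 ≤ m) (hq : Nat.card F = 2 ^ (2 * m + 1)) {x : G} (hx : x ∈ M.U)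
    (h1 : x ≠ 1) (hc : ∀ g, M.Ell g →
      ∃ x' ∈ Subgroup.normalizer (Subgroup.centralizer ({g} : Set G) : Set G), IsConj x' x) :
    (Sol x).ncard = Nat.card F ^ 2 * (Nat.card F - 1) + (S M.H x \ M.B).ncard +
      Nat.card (Subgroup.centralizer ({x} : Set G)) * (2 * Nat.card F) := by
  have := M.finite
  have := Fintype.ofFinite F
  have ht := exists_ne_zero_ne_one hm (Nat.card_eq_fintype_card.symm.trans hq)
  obtain ⟨g, k, hg, hk, cg, ck, hE⟩ := M.exists_tori hm hq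
  have h2 : Sol x = (((M.B : Set G) ∪ S M.H x \ M.B) ∪ S (Subgroup.centralizer {g}) x \ M.B) ∪
      S (Subgroup.centralizer {k}) x \ M.B := by
    have key : ∀ {g : G}, M.Ell g → ∀ y ∈ S (Subgroup.centralizer {g}) x, y ∈ Sol x := by
      rintro g hg y ⟨c, h3, h4⟩
      rw [← centralizer_conj] at h3 h4
      exact (mem_Sol M ht).2 (Or.inr (Or.inr ⟨_, hg.conj c, h3, h4⟩))
    have key2 : ∀ {g l y : G}, M.Ell g → l ∈ conjSet (Subgroup.centralizer {g}) →
        x ∈ Subgroup.normalizer (Subgroup.centralizer ({l} : Set G) : Set G) →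
        y ∈ Subgroup.normalizer (Subgroup.centralizer ({l} : Set G) : Set G) →
        y ∈ S (Subgroup.centralizer {g}) x := by
      intro g l y hg hl h3 h4
      obtain ⟨c, hc⟩ := hg.exists_map_eq hl
      refine ⟨c⁻¹, ?_⟩
      rw [← hc, map_conj_map_conj, inv_mul_cancel, mem_normalizer_map_conj, mem_normalizer_map_conj]
      simpa using ⟨h3, h4⟩
    ext y
    constructor
    · intro hy
      by_cases hB : y ∈ M.B
      · exact Or.inl (Or.inl (Or.inl hB))
      rcases (mem_Sol M ht).1 hy with ⟨p, h3, h4⟩ | h3 | ⟨l, hl, h3, h4⟩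
      · obtain rfl := M.eq_inf_of_mem_U hx h1 h3
        exact absurd h4 hB
      · exact Or.inl (Or.inl (Or.inr ⟨h3, hB⟩))
      · rcases hE.le hl with h5 | h5
        exacts [Or.inl (Or.inr ⟨key2 hg h5 h3 h4, hB⟩), Or.inr ⟨key2 hk h5 h3 h4, hB⟩]
    · rintro (((h | h) | h) | h)
      exacts [(mem_Sol M ht).2 (Or.inl ⟨_, M.U_le_B hx, h⟩), (mem_Sol M ht).2 (Or.inr (Or.inl h.1)),
        key hg y h.1, key hk y h.1]
  have h3 : 2 ^ (m + 1) ≤ 2 ^ (2 * m + 1) := Nat.pow_le_pow_right (by norm_num) (by omega)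
  have h4 : 2 ^ (m + 1) ≠ 0 := by positivity
  have h5 : Nat.card M.H ≠ Nat.card (Subgroup.centralizer ({k} : Set G)) := fun h => by
    have := Nat.eq_one_of_dvd_coprimes M.coprime_tori (M.card_H ▸ dvd_rfl) (h ▸ hk.card_centralizer_dvd)
    exact (M.isTorus_H ht).ne_bot (Subgroup.card_eq_one.1 this)
  have h6 : Nat.card M.H ≠ Nat.card (Subgroup.centralizer ({g} : Set G)) := by
    rw [cg, M.card_H, hq]
    exact ((Nat.sub_le _ _).trans_lt (Nat.lt_succ_of_le (Nat.le_add_right _ _))).ne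
  obtain ⟨x1, hx1, hc1⟩ := hc g hg
  obtain ⟨x2, hx2, hc2⟩ := hc k hk
  have TH := M.isTorus_H ht
  have Tg := hg.isTorus hm hq
  have Tk := hk.isTorus hm hq
  rw [h2, Set.ncard_union_eq, Set.ncard_union_eq, Set.ncard_union_eq, ncard_S M Tg hx h1 hx1 hc1,
    ncard_S M Tk hx h1 hx2 hc2, cg, ck, ← Nat.card_coe_set_eq, SetLike.coe_sort_coe, M.card_B, add_assoc,
    ← mul_add, hq]
  · congr 2; omega
  · exact Set.disjoint_sdiff_right
  · exact Set.disjoint_union_left.2 ⟨Set.disjoint_sdiff_right,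
      disjoint_S M TH Tg h6 hx h1⟩
  · exact Set.disjoint_union_left.2 ⟨Set.disjoint_union_left.2 ⟨Set.disjoint_sdiff_right,
      disjoint_S M TH Tk h5 hx h1⟩, disjoint_S M Tg Tk (by rw [cg, ck]; omega) hx h1⟩

include M in
theorem ncard_Sol_two {m : ℕ} (hm : 1 ≤ m) (hq : Nat.card F = 2 ^ (2 * m + 1)) {x : G} (hx : orderOf x = 2) :
    (Sol x).ncard = Nat.card F ^ 2 * (4 * Nat.card F - 3) := by
  have := Fintype.ofFinite F
  have ht := exists_ne_zero_ne_one hm (Nat.card_eq_fintype_card.symm.trans hq)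
  have h1 : x ≠ 1 := by rintro rfl; simp at hx
  have h2 : x * x = 1 := by rw [← sq, ← hx, pow_orderOf_eq_one]
  obtain ⟨c, hc⟩ := M.exists_mem_conj_U (g := x)
    (by rw [show (4 : ℕ) = 2 * 2 from rfl, pow_mul, sq x, h2, one_pow])
  generalize M.conj c = M at hc
  have key : ∀ {A : Subgroup G} {n : ℕ}, IsTorus A n →
      ∃ x' ∈ Subgroup.normalizer (A : Set G), IsConj x' x := fun T => by
    obtain ⟨z, hz, h3, h4⟩ := M.exists_sq_mem_normalizer T
    exact ⟨z, hz, M.isConj_of_sq h3 h4 h2 h1⟩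
  obtain ⟨z, hz, h3⟩ := key (M.isTorus_H ht)
  rw [ncard_Sol_U M hm hq hc h1 fun g hg => key (hg.isTorus hm hq), ncard_S M (M.isTorus_H ht) hc h1 hz h3,
    M.centralizer_of_mem_Z (M.mem_Z_iff.2 ⟨M.U_le_B hc, h2⟩) h1, M.card_U, M.card_H, ← mul_add, ← mul_add]
  have := Model.two_le_card (F := F)
  congr 1; omega

include M in
theorem ncard_Sol_four {m : ℕ} (hm : 1 ≤ m) (hq : Nat.card F = 2 ^ (2 * m + 1)) {x : G} (hx : orderOf x = 4) :
    (Sol x).ncard = Nat.card F ^ 2 * (Nat.card F + 3) := by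
  have := Fintype.ofFinite F
  have ht := exists_ne_zero_ne_one hm (Nat.card_eq_fintype_card.symm.trans hq)
  have h1 : x ≠ 1 := by rintro rfl; simp at hx
  obtain ⟨c, hc⟩ := M.exists_mem_conj_U (g := x) (hx ▸ pow_orderOf_eq_one x)
  generalize M.conj c = M at hc
  have h2 : S M.H x = ∅ := by
    rw [Set.eq_empty_iff_forall_notMem]
    rintro y ⟨c, hc', -⟩
    have := Subgroup.orderOf_dvd_natCard (Subgroup.normalizer _ ⊓ M.B) ⟨hc', M.U_le_B hc⟩
    rw [M.card_normalizer_inf_B ((M.isTorus_H ht).conj c) hc h1 hc', hx] at this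
    omega
  rw [ncard_Sol_U M hm hq hc h1 fun g hg => ?_, h2, Set.empty_sdiff, Set.ncard_empty]
  · obtain ⟨a, b, rfl⟩ := hc
    rw [M.card_centralizer_u (fun h => ?_)]
    · obtain ⟨r, hr⟩ : ∃ r, Nat.card F = r + 1 := ⟨_, (Nat.succ_pred_eq_of_pos Nat.card_pos).symm⟩
      rw [hr, Nat.add_sub_cancel]; ring
    · have := orderOf_dvd_of_pow_eq_one ((sq _).trans ((M.u_sq_eq_one (b := b)).2 h))
      rw [hx] at this
      omega
  · obtain ⟨y, hy, h3⟩ := M.exists_orderOf_four (hg.isTorus hm hq)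
    rcases M.isConj_or_of_orderOf hx h3 with h | h
    exacts [⟨y, hy, h.symm⟩, ⟨y⁻¹, inv_mem hy, h.symm⟩]

include M in
theorem ncard_Sol_H {m : ℕ} (hm : 1 ≤ m) (hq : Nat.card F = 2 ^ (2 * m + 1)) {x : G} (h1 : x ≠ 1)
    (hx : orderOf x ∣ Nat.card F - 1) : (Sol x).ncard = 2 * Nat.card F ^ 2 * (Nat.card F - 1) := by
  have := M.finite
  have := Fintype.ofFinite F
  have ht := exists_ne_zero_ne_one hm (Nat.card_eq_fintype_card.symm.trans hq)
  obtain ⟨c, μ, rfl⟩ := M.exists_conj_h_of_orderOf_dvd hx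
  rw [← M.conj_h] at h1 hx ⊢
  generalize M.conj c = M at h1 hx
  have ho := M.odd_card_sub_one.of_dvd_nat hx
  have h2 : Sol (M.h μ) = ((M.B : Set G) ∪ stabilizer G (M.pt 0 0)) ∪ (fun ν => M.h ν * M.w) '' Set.univ := by
    ext y
    rw [mem_Sol M ht]
    constructor
    · rintro (⟨p, h3, h4⟩ | ⟨c, h3, h4⟩ | ⟨g, hg, h3, -⟩)
      · rcases M.eq_of_mem_H (M.h_mem_H μ) h1 h3 with rfl | rfl
        exacts [Or.inl (Or.inl h4), Or.inl (Or.inr h4)]
      · have T := (M.isTorus_H ht).conj c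
        rw [← T.cent _ (T.mem_of_odd h3 ho) h1, M.centralizer_of_mem_H (M.h_mem_H μ) h1,
          M.mem_normalizer_H ht] at h4
        rcases h4 with h4 | ⟨ν, rfl⟩
        exacts [Or.inl (Or.inl (M.H_le_B h4)), Or.inr ⟨ν, trivial, rfl⟩]
      · exact absurd (M.h_smul_inf μ) (hg.of_mem ((hg.isTorus hm hq).mem_of_odd h3 ho) h1 _)
    · rintro ((h | h) | ⟨ν, -, rfl⟩)
      · exact Or.inl ⟨_, M.h_smul_inf μ, h⟩
      · exact Or.inl ⟨_, M.h_smul_zero μ, h⟩
      · refine Or.inr (Or.inl ⟨1, ?_, ?_⟩) <;> rw [mem_normalizer_map_conj, M.mem_normalizer_H ht]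
        · exact Or.inl ⟨μ, by simp⟩
        · exact Or.inr ⟨ν, by simp⟩
  have h3 := Set.ncard_union_add_ncard_inter (M.B : Set G) (stabilizer G (M.pt 0 0))
  have h4 : Nat.card (stabilizer G (M.pt 0 0)) = Nat.card M.B := by
    rw [← M.w_smul_inf, ← M.conj_B, Model.card_B, Model.card_B]
  rw [← Subgroup.coe_inf, Model.B, ← M.H_eq_inf, ← Model.B, ← Nat.card_coe_set_eq (M.H : Set G),
    ← Nat.card_coe_set_eq (M.B : Set G), ← Nat.card_coe_set_eq (stabilizer G _ : Set G)] at h3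
  simp only [SetLike.coe_sort_coe] at h3
  rw [h4, M.card_H, M.card_B] at h3
  rw [h2, Set.ncard_union_eq, Set.ncard_image_of_injective _ (fun ν ρ h => M.h_inj (mul_right_cancel h)),
    Set.ncard_univ, Nat.card_units, h3]
  · ring
  · rw [Set.disjoint_right]
    rintro _ ⟨ν, -, rfl⟩ (h | h)
    · exact M.pt_ne_inf 0 0 ((M.swap_iff.2 ⟨ν, rfl⟩).1.symm.trans h)
    · exact M.pt_ne_inf 0 0 (((M.swap_iff.2 ⟨ν, rfl⟩).2.symm.trans h).symm)

theorem ncard_Sol_ell {m : ℕ} (hm : 1 ≤ m) (hq : Nat.card F = 2 ^ (2 * m + 1)) {x : G} (hx : M.Ell x) :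
    (Sol x).ncard = 4 * Nat.card (Subgroup.centralizer ({x} : Set G)) := by
  have := M.finite
  have := Fintype.ofFinite F
  have ht := exists_ne_zero_ne_one hm (Nat.card_eq_fintype_card.symm.trans hq)
  have ho := M.odd_sq_add_one.of_dvd_nat hx.orderOf_dvd
  rw [← hx.card_normalizer hm hq, ← SetLike.coe_sort_coe, Nat.card_coe_set_eq]
  congr 1
  ext y
  rw [mem_Sol M ht]
  constructor
  · rintro (⟨p, h3, h4⟩ | ⟨c, h3, h4⟩ | ⟨g, hg, h3, h4⟩)
    · exact absurd h3 (hx p)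
    · have h5 := ((M.isTorus_H ht).conj c).mem_of_odd h3 ho
      rw [← M.conj_H, M.conj_H_eq] at h5
      exact absurd h5.1 (hx _)
    · rwa [hg.centralizer_eq ((hg.isTorus hm hq).mem_of_odd h3 ho) hx.ne_one]
  · exact fun h => Or.inr (Or.inr ⟨x, hx,
      Subgroup.le_normalizer (Subgroup.mem_centralizer_singleton_iff.2 rfl), h⟩)

/-- Let G be the Suzuki group Sz(q), q = 2^(2m+1) with 2m + 1 prime and m ≥ 1, realised inside Sp_4(F) for F the field of order q, write r = 2^(m+1) (so r² = 2q), and for x ∈ G call the solubilizer of x the set of y ∈ G such that x and y generate a solvable subgroup. Then the solubilizer of an involution has q²(4q − 3) elements; that of an element of order 4 has q²(q + 3) elements; that of a non-identity element of order dividing q − 1 has 2q²(q − 1) elements; that of a non-identity element of order dividing q + r + 1 has 4(q + r + 1) elements; and that of a non-identity element of order dividing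 q − r + 1 has 4(q − r + 1) elements. -/
theorem result {F : Type*} [Field F] [Fintype F] {m : ℕ} (hm : 1 ≤ m)
    (hp : (2 * m + 1).Prime) (hF : Fintype.card F = 2 ^ (2 * m + 1)) (x : ↥(Cfsg.Lie.Sz F (2 ^ (m + 1)))) :
    (orderOf x = 2 → Nat.card {y : ↥(Cfsg.Lie.Sz F (2 ^ (m + 1))) // Group.IsSolvable ↥(Subgroup.closure ({x, y} : Set (↥(Cfsg.Lie.Sz F (2 ^ (m + 1))))))} = (2 ^ (2 * m + 1)) ^ 2 * (4 * 2 ^ (2 * m + 1) - 3)) ∧
    (orderOf x = 4 → Nat.card {y : ↥(Cfsg.Lie.Sz F (2 ^ (m + 1))) // Group.IsSolvable ↥(Subgroup.closure ({x, y} : Set (↥(Cfsg.Lie.Sz F (2 ^ (m + 1))))))} = (2 ^ (2 * m + 1)) ^ 2 * (2 ^ (2 * m + 1) + 3)) ∧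
    (x ≠ 1 → orderOf x ∣ 2 ^ (2 * m + 1) - 1 →
      Nat.card {y : ↥(Cfsg.Lie.Sz F (2 ^ (m + 1))) // Group.IsSolvable ↥(Subgroup.closure ({x, y} : Set (↥(Cfsg.Lie.Sz F (2 ^ (m + 1))))))} = 2 * (2 ^ (2 * m + 1)) ^ 2 * (2 ^ (2 * m + 1) - 1)) ∧
    (x ≠ 1 → orderOf x ∣ 2 ^ (2 * m + 1) + 2 ^ (m + 1) + 1 → Nat.card {y : ↥(Cfsg.Lie.Sz F (2 ^ (m + 1))) // Group.IsSolvable ↥(Subgroup.closure ({x, y} : Set (↥(Cfsg.Lie.Sz F (2 ^ (m + 1))))))} = 4 * (2 ^ (2 * m + 1) + 2 ^ (m + 1) + 1)) ∧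
    (x ≠ 1 → orderOf x ∣ 2 ^ (2 * m + 1) - 2 ^ (m + 1) + 1 → Nat.card {y : ↥(Cfsg.Lie.Sz F (2 ^ (m + 1))) // Group.IsSolvable ↥(Subgroup.closure ({x, y} : Set (↥(Cfsg.Lie.Sz F (2 ^ (m + 1))))))} = 4 * (2 ^ (2 * m + 1) - 2 ^ (m + 1) + 1)) := by
  have hq : Nat.card F = 2 ^ (2 * m + 1) := by rw [Nat.card_eq_fintype_card, hF]
  generalize lieModel hF = M
  change (_ → (Sol x).ncard = _) ∧ (_ → (Sol x).ncard = _) ∧ (_ → _ → (Sol x).ncard = _) ∧
    (_ → _ → (Sol x).ncard = _) ∧ (_ → _ → (Sol x).ncard = _)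
  obtain ⟨g, k, hg, hk, cg, ck, -⟩ := M.exists_tori hm hq
  have hne : k ∉ conjSet (Subgroup.centralizer {g}) := fun h => by
    obtain ⟨y, hy⟩ := hg.exists_map_eq h
    have h3 : 2 ^ (m + 1) ≠ 0 := by positivity
    rw [← hy, card_map_conj, ck] at cg
    omega
  have hco := hg.coprime hk hne
  rw [cg, ck] at hco
  refine ⟨fun h => hq ▸ ncard_Sol_two M hm hq h, fun h => hq ▸ ncard_Sol_four M hm hq h,
    fun h1 h => hq ▸ ncard_Sol_H M hm hq h1 (hq ▸ h), fun h1 h => ?_, fun h1 h => ?_⟩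
  · have hx := M.ell_of_orderOf_dvd h1 (h.trans (cg ▸ hg.card_centralizer_dvd))
    rw [ncard_Sol_ell M hm hq hx, (hx.card_centralizer hm hq).resolve_right fun h2 => h1 ?_]
    exact orderOf_eq_one_iff.1 (Nat.eq_one_of_dvd_coprimes hco h
      (h2 ▸ Subgroup.orderOf_dvd_natCard _ (Subgroup.mem_centralizer_singleton_iff.2 rfl)))
  · have hx := M.ell_of_orderOf_dvd h1 (h.trans (ck ▸ hk.card_centralizer_dvd))
    rw [ncard_Sol_ell M hm hq hx, (hx.card_centralizer hm hq).resolve_left fun h2 => h1 ?_]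
    exact orderOf_eq_one_iff.1 (Nat.eq_one_of_dvd_coprimes hco
      (h2 ▸ Subgroup.orderOf_dvd_natCard _ (Subgroup.mem_centralizer_singleton_iff.2 rfl)) h)

end Cfsg.Agent.S2259
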