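import Cfsg.Statements.S2268

set_option autoImplicit false
open Cfsg

namespace Cfsg.Agent.S2268

/-- Let G be a finite group with an abelian Sylow p-subgroup P and let Q ≤ P. Then N_G(Q) = (N_G(Q) ∩ N_G(P))·C_G(Q), so that N_G(Q)/C_G(Q) is a homomorphic image of the subgroup (N_G(Q) ∩ N_G(P))/C_G(P) of N_G(P)/C_G(P); in particular the order of N_G(Q)/C_G(Q) divides the order of N_G(P)/C_G(P). -/
theorem result {G : Type*} [Group G] [Finite G] {p : ℕ} [Fact p.Prime]
    (P : Sylow p G) (hP : IsMulCommutative (P : Subgroup G)) (Q : Subgroup G) (hQ : Q ≤ (P : Subgroup G)) :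
    Subgroup.normalizer (Q : Set G) =
      (Subgroup.normalizer (Q : Set G) ⊓ Subgroup.normalizer ((P : Subgroup G) : Set G)) ⊔ Subgroup.centralizer (Q : Set G) ∧
    ((Subgroup.centralizer (Q : Set G)).subgroupOf (Subgroup.normalizer (Q : Set G))).index ∣ ((Subgroup.centralizer ((P : Subgroup G) : Set G)).subgroupOf (Subgroup.normalizer ((P : Subgroup G) : Set G))).index := by
  have hPC : (P : Subgroup G) ≤ Subgroup.centralizer (Q : Set G) := by
    intro x hx
    rw [Subgroup.mem_centralizer_iff]
    intro y hy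
    have := hP.is_comm.comm (⟨y, hQ hy⟩ : (P : Subgroup G)) ⟨x, hx⟩
    exact congrArg Subtype.val this
  have hCN : Subgroup.centralizer (Q : Set G) ≤ Subgroup.normalizer (Q : Set G) :=
    Subgroup.centralizer_le_normalizer _
  have h1 : Subgroup.normalizer (Q : Set G) = (Subgroup.normalizer (Q : Set G) ⊓
      Subgroup.normalizer ((P : Subgroup G) : Set G)) ⊔ Subgroup.centralizer (Q : Set G) := by
    refine le_antisymm ?_ (sup_le inf_le_left hCN)
    intro g hg
    have hgP : ((g • P : Sylow p G) : Subgroup G) ≤ Subgroup.centralizer (Q : Set G) := by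
      intro x hx
      rw [Sylow.coe_subgroup_smul, Subgroup.mem_pointwise_smul_iff_inv_smul_mem] at hx
      have hx' := hPC hx
      rw [Subgroup.mem_centralizer_iff] at hx' ⊢
      intro y hy
      have hy' : g⁻¹ * y * g ∈ Q := by
        have := (Subgroup.mem_normalizer_iff.1 (Subgroup.inv_mem _ hg) y).1 hy
        simpa using this
      have := hx' _ hy'
      simp only [MulAut.smul_def, ← map_inv, MulAut.conj_apply, inv_inv] at this
      calc y * x = g * (g⁻¹ * y * g * (g⁻¹ * x * g)) * g⁻¹ := by group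
        _ = x * y := by rw [this]; group
    obtain ⟨c, hc⟩ := MulAction.exists_smul_eq (Subgroup.centralizer (Q : Set G))
      ((g • P).subtype hgP) (P.subtype hPC)
    rw [Sylow.smul_subtype] at hc
    have hc' := Sylow.subtype_injective hc
    have hn : (c : G) * g ∈ Subgroup.normalizer ((P : Subgroup G) : Set G) := by
      exact Sylow.smul_eq_iff_mem_normalizer.1 (by rw [mul_smul]; exact hc')
    have : g = (c : G)⁻¹ * ((c : G) * g) := by group
    rw [this]
    exact Subgroup.mul_mem _ (Subgroup.mem_sup_right (Subgroup.inv_mem _ c.2))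
      (Subgroup.mem_sup_left ⟨Subgroup.mul_mem _ (hCN c.2) hg, hn⟩)
  refine ⟨h1, ?_⟩
  set N := Subgroup.normalizer (Q : Set G)
  set C := Subgroup.centralizer (Q : Set G)
  set NP := Subgroup.normalizer ((P : Subgroup G) : Set G)
  set CP := Subgroup.centralizer ((P : Subgroup G) : Set G)
  have hCPC : CP ≤ C := Subgroup.centralizer_le hQ
  have hCPN : CP ≤ NP := Subgroup.centralizer_le_normalizer _
  haveI : (C.subgroupOf N).Normal := Subgroup.normal_subgroupOf_centralizer_normalizer _
  have h2 : (C.subgroupOf N).index = C.relIndex (N ⊓ NP) := by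
    have htop : (N ⊓ NP).subgroupOf N ⊔ C.subgroupOf N = ⊤ := by
      rw [← Subgroup.subgroupOf_sup inf_le_left hCN, ← h1, Subgroup.subgroupOf_self]
    rw [← Subgroup.relIndex_top_right, ← htop, Subgroup.relIndex_sup_right,
      Subgroup.relIndex_subgroupOf inf_le_left]
  rw [h2]
  refine (Subgroup.relIndex_dvd_of_le_left _ hCPC).trans ?_
  exact Dvd.intro _ (Subgroup.relIndex_mul_relIndex CP (N ⊓ NP) NP
    (le_inf (hCPC.trans hCN) hCPN) inf_le_right)

end Cfsg.Agent.S2268
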