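import Cfsg.Statements.S2270
import Cfsg.Agent.Lib.Alt.RealSylow

set_option autoImplicit false
open Cfsg

namespace Cfsg.Agent.S2270

/-- Let n ≥ 3, p an odd prime, and P an abelian Sylow p-subgroup of the symmetric group S_n (with p dividing n!, so that P ≠ 1). Then N(P)/C(P) has even order. -/
theorem result (n : ℕ) (hn : 3 ≤ n) {p : ℕ} [Fact p.Prime] (hp : p ≠ 2) (hpn : p ≤ n)
    (P : Sylow p (Equiv.Perm (Fin n))) (hP : IsMulCommutative (P : Subgroup (Equiv.Perm (Fin n)))) :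
    2 ∣ ((Subgroup.centralizer ((P : Subgroup (Equiv.Perm (Fin n))) : Set (Equiv.Perm (Fin n)))).subgroupOf (Subgroup.normalizer ((P : Subgroup (Equiv.Perm (Fin n))) : Set (Equiv.Perm (Fin n))))).index := by
  have hdvd : p ∣ Nat.card (Equiv.Perm (Fin n)) := by
    rw [Nat.card_perm, Nat.card_eq_fintype_card, Fintype.card_fin]
    exact Nat.dvd_factorial (Fact.out : p.Prime).pos hpn
  obtain ⟨⟨x, hx⟩, hx1⟩ := (Subgroup.ne_bot_iff_exists_ne_one).1 (P.ne_bot_of_dvd_card hdvd)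
  refine Cfsg.Lib.Alt.two_dvd_automizer_of_real P hP hx
    (Equiv.Perm.isConj_iff_cycleType_eq.2 (Equiv.Perm.cycleType_inv x).symm) ?_
  intro h
  obtain ⟨k, hk⟩ := P.isPGroup' ⟨x, hx⟩
  have h2 : (⟨x, hx⟩ : (P : Subgroup (Equiv.Perm (Fin n)))) ^ 2 = 1 := by
    apply Subtype.ext
    change x ^ 2 = 1
    rw [sq]
    nth_rewrite 1 [← h]; simp
  have hc : Nat.Coprime 2 (p ^ k) :=
    ((Nat.coprime_primes Nat.prime_two Fact.out).2 (Ne.symm hp)).pow_right k
  apply hx1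
  have := pow_gcd_eq_one.2 ⟨h2, hk⟩
  rwa [hc, pow_one] at this

end Cfsg.Agent.S2270
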