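import Cfsg.Statements.S2280
import Cfsg.Agent.Lib.Linear.RegGen2
import Cfsg.Agent.Lib.Linear.Tens
import Cfsg.Agent.Lib.GLC.Unip

set_option autoImplicit false
open Cfsg

namespace Cfsg.Agent.S2280

open Matrix Cfsg.Lib.Linear Cfsg.Geo

theorem conj_tv_eq {ι : Type} [Fintype ι] [DecidableEq ι] {F : Type*} [Field F] {u : GL ι F}
    {x φ η : ι → F} (h1 : u.1 *ᵥ x = x) (h2 : ∀ y, η ⬝ᵥ (u.1 *ᵥ y) = η ⬝ᵥ y + φ ⬝ᵥ y)
    (h3 : η ⬝ᵥ x = 0) (h4 : φ ⬝ᵥ x = 0) :
    tvGL x η h3 * u * (tvGL x η h3)⁻¹ = u * tvGL x φ h4 := by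
  rw [mul_inv_eq_iff_eq_mul]
  refine GL_ext_mulVec fun y => ?_
  simp only [GL_mul_mulVec, tvGL_mulVec, mulVec_add, mulVec_smul, h1, h2, dotProduct_add,
    dotProduct_smul, h4]
  module

theorem le_of_map {ι : Type} [Fintype ι] [DecidableEq ι] {K F : Type*} [Field K] [Field F] [Finite F]
    (h3 : 3 ≤ Fintype.card ι) (f : K →+* F) (hf : ∀ (R : Subring F) a, f a ∈ R) {M : Subgroup (GL ι F)}
    (hM : specialLinear ι K ≤ M.comap (GeneralLinearGroup.map f)) {x φ : ι → K} (hx : x ≠ 0)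
    (hφ : φ ≠ 0) (h0 : φ ⬝ᵥ x = 0) {l : F} (hl : RingGen l) (ht : Tv M (f ∘ x) (l • f ∘ φ)) :
    specialLinear ι F ≤ M := by
  have h1 : ∀ i j : ι, i ≠ j → Tv M (Pi.single i 1) (Pi.single j 1) := fun i j hij => by
    have h2 : (Pi.single j 1 : ι → K) ⬝ᵥ Pi.single i 1 = 0 := by simp [hij]
    refine Tv.of_mulVec (hM (tvGL_mem_specialLinear _ _ h2)) (by simp [hij]) fun y => ?_
    rw [← vecMulVec_mulVec', ← one_mulVec y, mulVec_mulVec, mulVec_mulVec, ← add_mulVec]
    congr 1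
    ext a b
    simp [GeneralLinearGroup.map, vecMulVec_apply, Pi.single_apply, one_apply, apply_ite f]
  have h2 : ∀ i j : ι, i ≠ j → ∃ a, a ≠ 0 ∧ Tv M (Pi.single i 1) (Pi.single j (f a * l)) := by
    intro i j hij
    obtain ⟨g, hg, c, e, hc, he, h4, h5⟩ := exists_SL_flag_flag hx hφ h0
      (w := Pi.single i 1) (ψ := Pi.single j 1) (by simp) (by simp) (by simp [hij])
    refine ⟨c / e, div_ne_zero hc he, ?_⟩
    have h6 := ht.conj' (hM hg) (ψ := Pi.single j ((f e)⁻¹ * l)) fun y => by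
      have h7 : Pi.single j 1 ᵥ* (GeneralLinearGroup.map f g).1 = f e • f ∘ φ := funext fun k => by
        simpa using congrArg f (congrFun h5 k)
      rw [show (Pi.single j ((f e)⁻¹ * l) : ι → F) = ((f e)⁻¹ * l) • Pi.single j 1 by
        simp [← Pi.single_smul], smul_dotProduct, dotProduct_mulVec, h7, ← smul_dotProduct, smul_smul,
        mul_right_comm, inv_mul_cancel₀ ((map_ne_zero f).2 he), one_mul]
    rw [show (GeneralLinearGroup.map f g).1 *ᵥ (f ∘ x) = f c • Pi.single i 1 from funext fun k => by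
      have := congrArg f (congrFun h4 k)
      rw [RingHom.map_mulVec] at this
      simpa [Pi.single_apply, apply_ite f] using this] at h6
    simpa [← Pi.single_smul, div_eq_mul_inv, mul_assoc] using h6.of_smul_left ((map_ne_zero f).2 hc)
  refine specialLinear_le_of_single fun i j hij c => ?_
  obtain ⟨k, hk⟩ := exists_notMem_list [i, j] h3
  simp only [List.mem_cons, List.not_mem_nil, or_false, not_or] at hk
  obtain ⟨a, ha, h4⟩ := h2 k j hk.2
  have := mem_of_mulStab (A := tvCoef M (Pi.single i 1) (Pi.single j 1)) (hl _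
    (subring_mem_of_mul (hf _ a) ((map_ne_zero f).2 ha) fun c hc => by
      simpa [mem_tvCoef, ← Pi.single_smul, mul_comm] using (hc.comm_right (h1 j k (Ne.symm hk.2))
        (by simp [Ne.symm hk.1])).comm_right h4 (by simp [hij]))) (a := 1)
    (by simpa [mem_tvCoef] using h1 i j hij) one_ne_zero c
  simpa [mem_tvCoef, ← Pi.single_smul] using this


/-- Let F be a finite field and n ≥ 3. Then SL_n(F) is generated by three conjugate regular unipotent elements: there are u with u − 1 nilpotent and (u − 1)^(n−1) ≠ 0, and g, h, such that u, g u g⁻¹ and h u h⁻¹ generate SL_n(F). -/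
theorem result {F : Type*} [Field F] [Fintype F] (n : ℕ) (hn : 3 ≤ n) :
    ∃ u g h : Matrix.SpecialLinearGroup (Fin n) F, (IsNilpotent ((u : Matrix (Fin n) (Fin n) F) - 1) ∧ ((u : Matrix (Fin n) (Fin n) F) - 1) ^ (n - 1) ≠ 0) ∧
      Subgroup.closure ({u, g * u * g⁻¹, h * u * h⁻¹} : Set (Matrix.SpecialLinearGroup (Fin n) F)) = ⊤ := by
  obtain ⟨p, hp⟩ := CharP.exists F
  have : Fact p.Prime := ⟨CharP.char_is_prime F p⟩
  obtain ⟨u, g, ⟨h1, h2⟩, h3, h4, h5⟩ := regPair_of_prime (F := ZMod p)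
    (subring_eq_top_of_prime (by simpa using this.out)) hn
  obtain ⟨l, -, hl, -⟩ := exists_ringGen (F := F)
  let f := ZMod.castHom (dvd_refl p) F
  obtain ⟨k, rfl⟩ := Nat.exists_eq_add_of_le' hn
  simp only [Fintype.card_fin, Nat.add_succ_sub_one] at h2
  have h6 : (u.1 - 1) ^ (k + 3) = 0 := toLinAlgEquiv'.injective (by
    simpa using Cfsg.Lib.GLC.pow_finrank_eq_zero (h1.map toLinAlgEquiv'))
  obtain ⟨i, j, hij⟩ : ∃ i j, ((u.1 - 1) ^ (k + 2)) i j ≠ 0 := by
    by_contra h; push Not at h; exact h2 (Matrix.ext h)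
  have hN : ∀ m, ((GeneralLinearGroup.map f u).1 - 1) ^ m = ((u.1 - 1) ^ m).map f := fun m => by
    rw [← RingHom.mapMatrix_apply, map_pow, map_sub, map_one]; rfl
  have hd : ∀ g ∈ specialLinear (Fin (k + 3)) (ZMod p),
      GeneralLinearGroup.map f g ∈ specialLinear (Fin (k + 3)) F := fun g hg =>
    mem_specialLinear.2 (by
      rw [show (GeneralLinearGroup.map f g).1 = f.mapMatrix g.1 from rfl, ← RingHom.map_det,
        mem_specialLinear.1 hg, map_one])
  obtain ⟨N, hN'⟩ : ∃ N, N = (GeneralLinearGroup.map f u).1 - 1 := ⟨_, rfl⟩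
  have hu : (GeneralLinearGroup.map f u).1 = N + 1 := by simp [hN']
  rw [← hN'] at hN
  have n0 : N ^ (k + 3) = 0 := by rw [hN, h6]; simp
  have n1 : N ^ (k + 1) * N ^ (k + 2) = 0 := pow_add N _ _ ▸ pow_eq_zero_of_le (by omega) n0
  have n2 : N ^ (k + 2) * N ^ (k + 2) = 0 := pow_add N _ _ ▸ pow_eq_zero_of_le (by omega) n0
  have c := conj_tv_eq (u := GeneralLinearGroup.map f u) (x := N ^ (k + 2) *ᵥ Pi.single j 1)
    (φ := l • Pi.single i 1 ᵥ* N ^ (k + 2)) (η := l • Pi.single i 1 ᵥ* N ^ (k + 1))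
    (by rw [hu, add_mulVec, mulVec_mulVec, ← pow_succ', n0, zero_mulVec, zero_add, one_mulVec])
    (fun y => by
      rw [hu, add_mulVec, one_mulVec, dotProduct_add, add_comm, dotProduct_mulVec, smul_vecMul,
        vecMul_vecMul, ← pow_succ])
    (by rw [dotProduct_mulVec, smul_vecMul, vecMul_vecMul, n1]; simp)
    (by rw [dotProduct_mulVec, smul_vecMul, vecMul_vecMul, n2]; simp)
  obtain ⟨u', hu'⟩ := exists_toGL (hd u h3)
  obtain ⟨g', hg'⟩ := exists_toGL (hd g (mem_specialLinear.2 h4))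
  refine ⟨u', g', tvSL (N ^ (k + 2) *ᵥ Pi.single j 1) (l • Pi.single i 1 ᵥ* N ^ (k + 1))
    (by rw [dotProduct_mulVec, smul_vecMul, vecMul_vecMul, n1]; simp), ?_,
    closure_eq_top_of_GL fun M hM => ?_⟩
  · rw [show u'.1 - 1 = N by rw [hN', ← hu']; rfl]
    refine ⟨⟨_, n0⟩, fun h => hij (f.injective ?_)⟩
    simpa [hN] using congrFun (congrFun h i) j
  have m1 : GeneralLinearGroup.map f u ∈ M := hu' ▸ hM u' (by simp)
  have m2 := hM _ (.inr (.inr rfl))
  rw [map_mul, map_mul, map_inv, hu'] at m2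
  refine le_of_map (by simp) f (fun R a => by
      obtain ⟨a, rfl⟩ := ZMod.natCast_zmod_surjective a
      simp) (h5 _ m1 (by simpa [hu', hg'] using hM (g' * u' * g'⁻¹) (by simp)))
    (x := (u.1 - 1) ^ (k + 2) *ᵥ Pi.single j 1) (φ := Pi.single i 1 ᵥ* (u.1 - 1) ^ (k + 2))
    (fun h => hij (by simpa using congrFun h i)) (fun h => hij (by simpa using congrFun h j))
    (by rw [dotProduct_mulVec, vecMul_vecMul, ← pow_add, pow_eq_zero_of_le (by omega) h6]; simp)
    hl ?_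
  have m3 : Tv M _ _ := ⟨_, (M.mul_mem_cancel_left m1).1 (c ▸ m2)⟩
  convert m3 <;> ext a <;> simp [hN]

end Cfsg.Agent.S2280
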