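import Cfsg.Statements.S2286
import Cfsg.Agent.Lib.Pres.SL2

set_option autoImplicit false
open Cfsg

namespace Cfsg.Agent.S2286

/-- For every finite field F, SL_2(F) and PSL_2(F) have presentations with 3 generators and at most 9 relations; when F has characteristic 2, PSL_2(F) has a presentation with 3 generators and at most 5 relations. -/
theorem result {F : Type*} [Field F] [Fintype F] :
    (∃ rels : Finset (FreeGroup (Fin 3)), rels.card ≤ 9 ∧ Nonempty (PresentedGroup (↑rels : Set (FreeGroup (Fin 3))) ≃* Matrix.SpecialLinearGroup (Fin 2) F)) ∧ (∃ rels : Finset (FreeGroup (Fin 3)), rels.card ≤ 9 ∧ Nonempty (PresentedGroup (↑rels : Set (FreeGroup (Fin 3))) ≃* Matrix.ProjectiveSpecialLinearGroup (Fin 2) F)) ∧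
    (CharP F 2 → ∃ rels : Finset (FreeGroup (Fin 3)), rels.card ≤ 5 ∧ Nonempty (PresentedGroup (↑rels : Set (FreeGroup (Fin 3))) ≃* Matrix.ProjectiveSpecialLinearGroup (Fin 2) F)) := by
  obtain ⟨p, hp⟩ := CharP.exists F
  haveI : Fact p.Prime := ⟨CharP.char_is_prime F p⟩
  have h := (Cfsg.Lib.Pres.hasPres_SL2 (F := F) p).1
  refine ⟨h.mono (by omega), h.psl, fun h2 => ?_⟩
  refine ((Cfsg.Lib.Pres.hasPres_SL2 (F := F) 2).2 rfl).of_equiv
    ((QuotientGroup.quotientMulEquivOfEq ?_).trans QuotientGroup.quotientBot).symm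
  refine eq_bot_iff.2 fun s hs => (Cfsg.Lib.Root.mem_center_sl2 hs).elim id fun e => ?_
  rw [e]
  ext i j
  simp [CharTwo.neg_eq]

end Cfsg.Agent.S2286
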