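import Cfsg.Statements.S2331
import Cfsg.Agent.Lib.CharDeg.SL2Deg

set_option autoImplicit false
open Cfsg

namespace Cfsg.Agent.S2331

open Cfsg.Lib.GLTwo Cfsg.Lib.Char Cfsg.Lib.PSL2 in

/-- Over a finite field with q elements, q even, the special linear group SL₂ has exactly q + 1 conjugacy classes. -/
theorem result {F : Type*} [Field F] [Fintype F] [CharP F 2] :
    Nat.card (ConjClasses (Matrix.SpecialLinearGroup (Fin 2) F)) = Fintype.card F + 1 := by
  rw [← card_irr_eq_card_conjClasses, card_irr_SL2, if_neg]
  rw [← Nat.card_eq_fintype_card, ← ringChar_ne_two_iff_odd, ringChar.eq F 2]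
  simp

end Cfsg.Agent.S2331
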