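import Cfsg.Statements.S2336
import Cfsg.Agent.Lib.CharDeg.PermChar
import Cfsg.Agent.Lib.CharDeg.SLPairs

set_option autoImplicit false
open Cfsg

namespace Cfsg.Agent.S2336

open Cfsg.Lib.PermChar Cfsg.Lib.GLFlag Cfsg.Lib.Char Matrix Finset MulAction in

/-- Let F be a finite field with q elements and n ≥ 3. The permutation character of SL_n(F) on the non-zero vectors of F^n (the function sending a matrix to the number of non-zero vectors it fixes) is the sum of the principal character and q − 1 pairwise distinct irreducible complex characters. -/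
theorem result {F : Type*} [Field F] [Fintype F] [DecidableEq F] (n : ℕ) (hn : 3 ≤ n) :
    ∃ χ : Fin (Fintype.card F - 1) → (Matrix.SpecialLinearGroup (Fin n) F → ℂ),
      (∀ i, Cfsg.IsIrrCharacter (Matrix.SpecialLinearGroup (Fin n) F) (χ i)) ∧ Function.Injective χ ∧
      ∀ g : Matrix.SpecialLinearGroup (Fin n) F,
        (Nat.card {v : Fin n → F // v ≠ 0 ∧ (g : Matrix (Fin n) (Fin n) F).mulVec v = v} : ℂ) = 1 + ∑ i, χ i g := by
  classical
  let X : SubMulAction (Matrix.SpecialLinearGroup (Fin n) F) (Fin n → F) :=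
    ⟨{v | v ≠ 0}, fun g _ hv => (smul_ne_zero_iff_ne g).2 hv⟩
  let Φ : X → X → F := fun x y => if h : ∃ c : F, y.1 = c • x.1 then h.choose else 0
  have h1 : ∀ {x y : X} {c : F}, y.1 = c • x.1 → Φ x y = c := fun {x y c} h => by
    have h' : ∃ c : F, y.1 = c • x.1 := ⟨c, h⟩
    rw [show Φ x y = h'.choose from dif_pos h']
    exact smul_left_injective F x.2 (h'.choose_spec.symm.trans h)
  have h2 : ∀ {x y : X}, Φ x y ≠ 0 → y.1 = Φ x y • x.1 := fun {x y} h => by
    have h' : ∃ c : F, y.1 = c • x.1 := by_contra fun e => h (dif_neg e)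
    rw [h1 h'.choose_spec]; exact h'.choose_spec
  have h3 : ∀ {x y : X}, Φ x y = 0 → LinearIndependent F ![x.1, y.1] := fun {x y} h =>
    (LinearIndependent.pair_iff' x.2).2 fun c e => y.2 (by rw [← e, ← h1 e.symm, h, zero_smul])
  have h4 : ∀ x y x' y' : X, Φ x y = Φ x' y' →
      ∃ g : Matrix.SpecialLinearGroup (Fin n) F, g • x = x' ∧ g • y = y' := fun x y x' y' h => by
    by_cases e : Φ x y = 0
    · obtain ⟨g, hg⟩ := exists_SL_of_linearIndependent (by simp; omega) (h3 e) (h3 (h ▸ e))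
      exact ⟨g, Subtype.ext (hg 0), Subtype.ext (hg 1)⟩
    · obtain ⟨g, hg⟩ := exists_SL_of_linearIndependent (κ := Unit) (by simp; omega)
        (linearIndependent_unique_iff.2 x.2 : LinearIndependent F fun _ => x.1)
        (linearIndependent_unique_iff.2 x'.2 : LinearIndependent F fun _ => x'.1)
      refine ⟨g, Subtype.ext (hg ()), Subtype.ext ?_⟩
      change g.1 *ᵥ y.1 = _
      rw [h2 e, mulVec_smul, hg (), h, ← h2 (h ▸ e)]
  haveI : IsPretransitive (Matrix.SpecialLinearGroup (Fin n) F) X := ⟨fun x y =>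
    (h4 x x y y ((h1 (one_smul _ _).symm).trans (h1 (one_smul _ _).symm).symm)).imp fun _ h => h.1⟩
  let e : X := ⟨Pi.single ⟨0, by omega⟩ 1, show _ ≠ _ by simp⟩
  let sm : Fˣ → X → X := fun c x => ⟨c • x.1, (smul_ne_zero_iff_ne c).2 x.2⟩
  have h5 : ∀ c, ∃ y, Φ e y = c := fun c => by
    by_cases h : c = 0
    · refine ⟨⟨Pi.single ⟨1, by omega⟩ 1, show _ ≠ _ by simp⟩, (dif_neg fun ⟨c, hc⟩ => ?_).trans h.symm⟩
      simpa [e, Pi.single_apply, Fin.ext_iff] using congrFun hc ⟨1, by omega⟩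
    · exact ⟨sm (Units.mk0 c h) e, h1 rfl⟩
  have h6 : classInner (pc (Matrix.SpecialLinearGroup (Fin n) F) X) (pc _ X) = Fintype.card F := by
    rw [inner_pc_self e, ← Nat.card_eq_fintype_card]
    refine congrArg _ (Nat.card_congr (Equiv.ofBijective (Quotient.lift (Φ e) ?_) ⟨?_, ?_⟩))
    · rintro _ y ⟨g, rfl⟩
      have hg : g.1 • e.1 = e.1 := congrArg Subtype.val g.2
      by_cases h : Φ e y = 0
      · by_contra h'
        rw [h] at h'
        have := h2 h'
        rw [← hg, ← smul_comm] at this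
        exact h' ((h1 (smul_left_cancel g.1 this)).symm.trans h)
      · refine h1 ?_
        change g.1 • y.1 = _
        conv_lhs => rw [h2 h, smul_comm, hg]
    · rintro ⟨x⟩ ⟨y⟩ h
      obtain ⟨g, h1, h2⟩ := h4 e y e x h.symm
      exact Quotient.sound ⟨⟨g, h1⟩, h2⟩
    · exact fun c => (h5 c).imp' (Quotient.mk _) fun _ h => h
  let S : Fˣ → Matrix X X ℂ := fun c => of fun x y => if y = sm c x then 1 else 0
  have hS : ∀ c (M : Matrix X X ℂ) x y, (S c * M) x y = M (sm c x) y := fun c M x y => by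
    simp [S, mul_apply]
  have hS' : ∀ c (M : Matrix X X ℂ) x y, (M * S c) x y = M x (sm c⁻¹ y) := fun c M x y => by
    have : ∀ z, y = sm c z ↔ sm c⁻¹ y = z := fun z => by
      simp only [sm, Subtype.ext_iff, inv_smul_eq_iff]
    simp [S, mul_apply, this]
  have h7 : ∀ A : Matrix X X ℂ, Eqv (Matrix.SpecialLinearGroup (Fin n) F) A →
      A ∈ Submodule.span ℂ (insert (of fun _ _ => 1) (Set.range S)) := fun A hA => by
    obtain ⟨y₀, h0⟩ := h5 0
    have : A = A e y₀ • (of fun _ _ => 1) + ∑ c, (A e (sm c e) - A e y₀) • S c := by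
      ext x y
      simp only [Matrix.add_apply, Matrix.smul_apply, Matrix.sum_apply, S, of_apply, smul_eq_mul,
        mul_one, mul_ite, mul_zero]
      by_cases h : Φ x y = 0
      · obtain ⟨g, rfl, rfl⟩ := h4 e y₀ x y (h0.trans h.symm)
        rw [hA, sum_eq_zero fun c _ => if_neg fun e' => c.ne_zero
          ((h1 (congrArg Subtype.val e')).symm.trans h), add_zero]
      · obtain ⟨g, e1, e2⟩ := h4 e (sm (Units.mk0 _ h) e) x y (h1 rfl)
        rw [sum_eq_single (Units.mk0 _ h) (fun c _ hc => if_neg fun e' =>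
          hc (Units.ext (h1 (congrArg Subtype.val e')).symm)) (by simp),
          if_pos (Subtype.ext (h2 h)), ← hA g e (sm _ e), e1, e2, add_sub_cancel]
    rw [this]
    exact add_mem (Submodule.smul_mem _ _ (Submodule.subset_span (Or.inl rfl))) (sum_mem fun c _ =>
      Submodule.smul_mem _ _ (Submodule.subset_span (Or.inr ⟨c, rfl⟩)))
  have h8 : ∀ χ, IsIrrCharacter _ χ → classInner (pc (Matrix.SpecialLinearGroup (Fin n) F) X) χ = 0 ∨
      classInner (pc _ X) χ = 1 := fun χ hχ => by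
    rw [← character_permRep]
    refine inner_le_one_of_comm _ (fun S T hA hB => ?_) hχ
    obtain ⟨A, rfl⟩ := toLin'.surjective S
    obtain ⟨B, rfl⟩ := toLin'.surjective T
    rw [← eqv_iff] at hA hB
    change _ ∘ₗ _ = _ ∘ₗ _
    rw [← toLin'_mul, ← toLin'_mul]
    refine congrArg _ (Commute.span_left (fun A hA => Commute.span_right (fun B hB => ?_) _
      (h7 B hB)) _ (h7 A hA))
    rcases hA with rfl | ⟨c, rfl⟩ <;> rcases hB with rfl | ⟨d, rfl⟩
    · rfl
    · exact Matrix.ext fun x y => by rw [hS', hS]; rfl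
    · exact Matrix.ext fun x y => by rw [hS', hS]; rfl
    · exact Matrix.ext fun x y => by
        rw [hS, hS]; simp only [S, sm, of_apply, smul_comm c]
  let T : Finset (IrrCharacter (Matrix.SpecialLinearGroup (Fin n) F)) :=
    univ.filter fun χ => classInner (pc _ X) χ.1 = 1
  have hT : irrOne _ ∈ T := mem_filter.2 ⟨mem_univ _, inner_pc_one_of_trans e⟩
  have h9 : #(T.erase (irrOne _)) = Fintype.card F - 1 := by
    rw [card_erase_of_mem hT]
    refine congrArg (· - 1) (Nat.cast_injective (R := ℂ) ?_)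
    rw [← h6, (isCharacter_card_fixedBy X).isClassFunction.inner_eq_sum_irr, card_filter]
    push_cast
    exact sum_congr rfl fun χ _ => by rcases h8 _ χ.2 with h | h <;> (rw [h]; simp)
  let E := (equivFinOfCardEq h9).symm
  refine ⟨fun i => (E i).1, fun i => (E i).1.2, fun i j h =>
    E.injective (Subtype.ext (Subtype.ext h)), fun g => ?_⟩
  rw [E.sum_comp fun χ => χ.1.1 g, sum_coe_sort _ fun χ : IrrCharacter _ => χ.1 g,
    ← irrOne_apply g, add_sum_erase _ (fun χ : IrrCharacter _ => χ.1 g) hT, sum_filter,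
    Nat.card_congr (β := fixedBy X g) ⟨fun v => ⟨⟨v.1, v.2.1⟩, Subtype.ext v.2.2⟩,
      fun v => ⟨v.1.1, v.1.2, congrArg Subtype.val v.2⟩, fun _ => rfl, fun _ => rfl⟩]
  refine ((isCharacter_card_fixedBy X).isClassFunction.apply_eq_sum_irr g).trans
    (sum_congr rfl fun χ _ => ?_)
  rcases h8 _ χ.2 with h | h <;> (rw [h]; simp)

end Cfsg.Agent.S2336
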