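import Cfsg.Statements.S2337
import Cfsg.Agent.Lib.Sz.Simple
import Cfsg.Agent.Lib.Sz.Weights

set_option autoImplicit false
open Cfsg

namespace Cfsg.Agent.S2337

open Lib.Sz Module in
theorem aux {F : Type*} [Field F] [Finite F] {G : Type*} [Group G] (M : Lib.Sz.Model F G)
    {V : Type*} [AddCommGroup V] [Module ℂ V] [FiniteDimensional ℂ V]
    (ρ : Representation ℂ G V) (h : Function.Injective ρ) :
    ∃ d, Nat.card F ≤ 2 * d ^ 2 ∧ (Nat.card F - 1) * d ≤ finrank ℂ V := by
  classical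
  have := M.charP
  have hf : ∀ i j, ρ (M.u 0 i) * ρ (M.u 0 j) = ρ (M.u 0 j) * ρ (M.u 0 i) := fun i j => by
    rw [← map_mul, ← map_mul, M.u_zero_comm]
  obtain ⟨χ, h2, v, hv, h0⟩ := exists_wt_ne_one hf (i := 1) (n := 2)
    (fun e => one_ne_zero (M.u_eq_one.1 (h (e.trans (map_one ρ).symm))).2) (by norm_num)
    (by rw [← map_pow, sq, M.u_zero_sq, map_one])
  have hχ : ∀ i j, χ i * χ j = χ (i + j) := fun i j => wt_mul ρ hv h0 (M.u_zero_mul_u_zero i j)
  have hχ0 := wt_ne_zero ρ hv h0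
  have hs : ∀ {s t : F}, (∀ c, χ (s * c) = χ (t * c)) → s = t := eq_of_forall_char hχ hχ0 h2
  set W := wt (fun i => ρ (M.u 0 i)) χ
  refine ⟨finrank ℂ W, ?_, ?_⟩
  · have hW : ∀ a b, ∀ w ∈ W, ρ (M.u a b) w ∈ W := fun a b w hw =>
      apply_mem_wt ρ hw (s := id) fun i => M.u_zero_comm ..
    let T : F → F → End ℂ W := fun a b => (ρ (M.u a b)).restrict (hW a b)
    let β : F → F → ℂ := fun a c => χ (M.σ c * a + M.σ a * c)
    have h3 : ∀ a, T a 0 ∈ wt (fun c => LinearMap.mulLeftRight ℂ (T c 0, T c (M.σ c * c))) (β a) :=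
      fun a c => LinearMap.ext fun w => Subtype.ext (by
        change ρ _ (ρ _ (ρ _ w)) = _ • ρ _ w
        rw [← End.mul_apply, ← End.mul_apply, ← map_mul, ← map_mul, ← zero_add (M.σ c * c),
          ← M.u_inv, M.u_conj_u, ← map_smul, ← w.2, ← End.mul_apply, ← map_mul, M.u_mul_u]
        simp)
    have h4 : ∀ a, T a 0 ≠ 0 := fun a e => h0 (apply_injective ρ (M.u a 0)
      ((congrArg Subtype.val (LinearMap.congr_fun e ⟨v, hv⟩)).trans (map_zero _).symm))
    have h5 := card_le_finrank _ (J := Set.range β) Subtype.val_injective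
      fun ⟨_, a, rfl⟩ => ⟨_, h3 a, h4 a⟩
    rw [finrank_linearMap, ← sq] at h5
    have h6 : ∀ a a', β a = β a' → a ≠ a' → ∀ d, χ d = χ ((a + a')⁻¹ * M.σ d) := fun a a' e hne d => by
      have h7 : a + a' ≠ 0 := fun e => hne (CharTwo.add_eq_zero.1 e)
      have h8 := M.σ_ne_zero h7
      have h9 := congrFun e (d / M.σ (a + a'))
      refine mul_right_cancel₀ (hχ0 (M.σ (d / M.σ (a + a')) * a + M.σ a' * (d / M.σ (a + a')))) ?_
      rw [hχ, hχ]
      convert h9 using 1 <;> congr 1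
      · rw [map_add] at h8 ⊢
        field_simp
        linear_combination (d * M.σ a') * CharTwo.two_eq_zero (R := F)
      · rw [map_div₀, M.σσ]
        field_simp
        linear_combination (M.σ d * M.σ (a + a') * a) * CharTwo.two_eq_zero (R := F)
    have := Fintype.ofFinite F
    refine le_trans ?_ (Nat.mul_le_mul_left 2 h5)
    rw [Nat.card_eq_fintype_card, Nat.card_coe_set_eq, ← Set.image_univ, ← Finset.coe_univ,
      ← Finset.coe_image, Set.ncard_coe_finset]
    refine Finset.card_le_mul_card_image _ 2 fun y _ => by_contra fun hn => ?_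
    obtain ⟨a, b, c, ha, hb, hc, hab, hac, hbc⟩ := Finset.two_lt_card_iff.1 (not_le.1 hn)
    rw [Finset.mem_filter] at ha hb hc
    refine hbc (add_left_cancel (a := a) (inv_injective (hs fun e => ?_)))
    obtain ⟨d, rfl⟩ := M.σ_surj e
    rw [← h6 a b (ha.2.trans hb.2.symm) hab, ← h6 a c (ha.2.trans hc.2.symm) hac]
  · rw [← Nat.card_units]
    refine card_mul_le_finrank (fun i => ρ (M.u 0 i))
      (χ := fun (μ : Fˣ) i => χ (M.σ μ * (μ : F) ^ 2 * i))
      (fun μ ν e => Units.ext (M.σ_mul_sq_inj (hs (congrFun e)))) fun μ => ?_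
    refine LinearMap.finrank_le_finrank_of_injective (f := (ρ (M.h μ)⁻¹).restrict fun w hw =>
      apply_mem_wt ρ hw fun i => ?_) fun w w' e =>
        Subtype.ext (apply_injective ρ _ (congrArg Subtype.val e))
    rw [eq_inv_mul_iff_mul_eq, ← mul_assoc, M.h_conj_u, mul_zero]

/-- For the Suzuki group Sz(q), q = 2^(2m+1) with m ≥ 1 (realised inside Sp₄ over the field with q elements), every irreducible complex representation of degree at least 2 has degree at least 2^m·(q − 1). -/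
theorem result {F : Type*} [Field F] [Fintype F] (m : ℕ) (hm : 1 ≤ m) (hF : Fintype.card F = 2 ^ (2 * m + 1)) :
    (∀ (k : ℕ) (ρ : Representation ℂ (Cfsg.Lie.Sz F (2 ^ (m + 1))) (Fin k → ℂ)), ρ.IsIrreducible → 2 ≤ k → 2 ^ m * (2 ^ (2 * m + 1) - 1) ≤ k) := by
  intro k ρ h hk
  have := (Lib.Sz.lieModel hF).isSimpleGroup (Lib.Sz.exists_ne_zero_ne_one hm hF)
  obtain ⟨d, h1, h2⟩ := aux (Lib.Sz.lieModel hF) ρ
    (Lib.Sz.injective_of_isIrreducible h (by simpa using hk))
  rw [Nat.card_eq_fintype_card, hF] at h1 h2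
  have h3 : 2 ^ m ≤ d := by
    rw [pow_succ', mul_comm 2 m, pow_mul] at h1
    exact (Nat.pow_le_pow_iff_left two_ne_zero).1 (Nat.le_of_mul_le_mul_left h1 two_pos)
  rw [mul_comm]
  simpa using (Nat.mul_le_mul_left _ h3).trans h2

end Cfsg.Agent.S2337
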