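import Cfsg.Statements.S2338
import Cfsg.Agent.Lib.MD.G2E
import Cfsg.Agent.Lib.MD.Poly
import Cfsg.Agent.S1055
import Cfsg.Agent.S1059

set_option autoImplicit false
open Cfsg

namespace Cfsg.Agent.S2338

open Cfsg.Lib.MD Cfsg.Lib.MD.G2 Cfsg.Lib.Chev Cfsg.Lib.RepDeg Cfsg.Lib.CharDeg Cfsg.Lib.Char Cfsg.Lib.Sz

theorem arith {q k : ℕ} (hq : IsPrimePow q) (h9 : 9 ≤ q) (h1 : q ^ 4 + q ^ 2 ≤ k + 2)
    (h2 : k ≤ q ^ 4 + q ^ 2) : ¬ k ∣ q ^ 6 * (q ^ 2 - 1) * (q ^ 6 - 1) := fun h => by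
  have h4 : 81 ≤ q ^ 2 := Nat.pow_le_pow_left h9 2
  have h5 : ∀ n, 1 ≤ q ^ n := fun n => Nat.one_le_pow _ _ (by omega)
  rw [mul_assoc] at h
  have k1 : ∀ j, 0 < j → j < 3 → k + j = q ^ 4 + q ^ 2 → k ∣ j * ((q ^ 2 - 1) * (q ^ 6 - 1)) :=
    fun j h0 hj e => dvd_of_primePow (s := q ^ 3 + q) hq h0 (by omega) (by rw [e]; ring) h
  obtain e | e | e : k + 2 = q ^ 4 + q ^ 2 ∨ k + 1 = q ^ 4 + q ^ 2 ∨ k = q ^ 4 + q ^ 2 := by omega
  · have h6 := k1 2 two_pos (by omega) e
    zify [h5] at h6 e h4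
    have := Int.le_of_dvd (by omega) ((dvd_add_left h6).1 (show _ ∣ 18 * ((q : ℤ) ^ 2 - 1) + _ from
      ⟨2 * q ^ 4 - 4 * q ^ 2 + 8, by rw [eq_sub_of_add_eq e]; ring⟩))
    nlinarith
  · have h6 := k1 1 one_pos (by omega) e
    zify [h5] at h6 e h4
    have := Int.le_of_dvd (by omega) ((dvd_add_left h6).1 (show _ ∣ 6 * (q : ℤ) ^ 2 - 4 + _ from
      ⟨q ^ 4 - 2 * q ^ 2 + 3, by rw [eq_sub_of_add_eq e]; ring⟩))
    nlinarith
  · have h6 := (Nat.Coprime.pow_right 6 (show (q ^ 2 + 1).Coprime q by simp [sq])).dvd_of_dvd_mul_left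
      ((Dvd.intro_left (q ^ 2) (by rw [e]; ring)).trans h)
    zify [h5] at h6 h4
    have := Int.le_of_dvd (by omega) ((dvd_add_left h6.neg_right).1 (show _ ∣ (4 : ℤ) + _ from
      ⟨-q ^ 6 + 2 * q ^ 4 - 2 * q ^ 2 + 3, by ring⟩))
    omega

/-- Lower bounds for the degrees of non-linear irreducible complex representations of the Chevalley group of type G₂ over a finite field with q elements: the degree is at least q³ + 1 when q ≡ 1 (mod 3) and q > 4, at least q³ − 1 when q ≡ 2 (mod 3) and q > 2, and at least q⁴ + q² + 1 when q ≡ 0 (mod 3) and q > 3. -/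
theorem result {F : Type*} [Field F] [Fintype F] (k : ℕ) (ρ : Representation ℂ (Cfsg.Lie.chevG2.group F) (Fin k → ℂ)) (hρ : ρ.IsIrreducible) (hk : 2 ≤ k) :
    (Fintype.card F % 3 = 1 → 4 < Fintype.card F → Fintype.card F ^ 3 + 1 ≤ k) ∧
    (Fintype.card F % 3 = 2 → 2 < Fintype.card F → Fintype.card F ^ 3 - 1 ≤ k) ∧
    (Fintype.card F % 3 = 0 → 3 < Fintype.card F → Fintype.card F ^ 4 + Fintype.card F ^ 2 + 1 ≤ k) := by
  classical
  obtain ⟨ψ, hψ⟩ := exists_addChar_ne_one F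
  have hc := S1059.result (F := F) rfl
  have h0 : 1 < Fintype.card F := Fintype.one_lt_card
  have hfin : Finite (Cfsg.Lie.chevG2.group F) := Nat.finite_of_card_ne_zero (by
    rw [hc]
    exact mul_ne_zero (mul_ne_zero (by positivity) (Nat.sub_ne_zero_of_lt (Nat.one_lt_pow two_ne_zero h0)))
      (Nat.sub_ne_zero_of_lt (Nat.one_lt_pow (by simp) h0)))
  have hx : 2 < Fintype.card F → ρ (x 11 1) ≠ 1 := fun h e => by
    have := (S1055.result (F := F) (by
      by_contra! h1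
      exact h.not_ge ((Finset.card_le_card (show Finset.univ ⊆ ({0, 1} : Finset F) from fun a _ => by
        simpa [or_iff_not_imp_left] using h1 a)).trans Finset.card_le_two))).1
    exact one_ne_zero (faith.x_inj ((injective_of_isIrreducible hρ (by simpa using hk)
      (e.trans (map_one ρ).symm)).trans (x_zero 11).symm))
  have h3 : (3 : F) = 0 ↔ 3 ∣ Fintype.card F := by
    have := Fact.mk Nat.prime_three
    simpa [prime_dvd_char_iff_dvd_card] using (isUnit_iff_not_dvd_char F 3).not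
  have hq : IsPrimePow (Fintype.card F) := FiniteField.isPrimePow_card F
  have hd : k ∣ Nat.card (Cfsg.Lie.chevG2.group F) := (isIrrCharacter_character ρ).degree_dvd_card (by simp)
  rw [hc] at hd
  rw [← Nat.card_eq_fintype_card] at *
  refine ⟨fun h1 h2 => ?_, fun h1 h2 => ?_, fun h1 h2 => ?_⟩
  · by_contra! h4
    exact not_one_mod hψ (mt h3.1 (by omega)) h2 (hx (by omega)) (by rw [Module.finrank_fin_fun]; omega) h1
  · by_contra! h4
    obtain ⟨h5, h6⟩ := crit_bound hψ (mt h3.1 (by omega)) (by omega) (hx h2)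
      (by rw [Module.finrank_fin_fun]; omega)
    obtain ⟨m, hm⟩ := Nat.exists_eq_add_of_lt h6
    obtain ⟨q, hF⟩ := Nat.exists_eq_add_of_lt h0
    rw [hm, hF, Nat.add_sub_cancel, Module.finrank_fin_fun] at h5
    rw [hF] at h4
    ring_nf at h4 h5
    omega
  · have h9 : 9 ≤ Nat.card F := by
      have : ∀ m < 9, 3 < m → m % 3 = 0 → m = 6 := by decide
      by_contra! h4
      rw [this _ h4 h2 h1] at hq
      exact absurd hq (by decide +kernel)
    have h5 := bound_three hψ (h3.2 (by omega)) h9 (hx (by omega))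
    rw [Module.finrank_fin_fun] at h5
    by_contra! h4
    exact arith hq h9 h5 (by omega) hd

end Cfsg.Agent.S2338
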