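import Cfsg.Statements.S2339
import Cfsg.Agent.Lib.MD.DatE8
import Cfsg.Agent.Lib.MD.ArE8

set_option autoImplicit false
open Cfsg

namespace Cfsg.Agent.S2339

set_option maxRecDepth 100000

open Cfsg.Lib.MD Cfsg.Lib.Chev Cfsg.Lib.RepDeg Cfsg.Lib.CharDeg Cfsg.Lib.Char in

/-- For the Chevalley group of type E₈ over a finite field with q elements, every irreducible complex representation of degree at least 2 has degree at least q(q¹² + 1)(q¹⁰ + 1)(q⁶ + 1). -/
theorem result {F : Type*} [Field F] [Fintype F] (k : ℕ) (ρ : Representation ℂ (Cfsg.Lie.chevE8.group F) (Fin k → ℂ)) (hρ : ρ.IsIrreducible) (hk : 2 ≤ k) :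
    Fintype.card F * (Fintype.card F ^ 12 + 1) * (Fintype.card F ^ 10 + 1) * (Fintype.card F ^ 6 + 1) ≤ k := by
  have hl : ∀ r s, mE8.ln r = mE8.ln s := fun r s =>
    have h : ∀ r, mE8.ln r = 1 := by decide +kernel
    (h r).trans (h s).symm
  let C : ChevSys mE8 F (Cfsg.Lie.chevE8.group F) := checkedE8.gsys F
  have hF : C.Faithful := checkedE8.gsys_faithful F
  have hT : (show ChevTab mE8 from checkedE8.T).StrongComm C.x := checkedE8.gsys_strongComm F
  have htop : C.grp = ⊤ := checkedE8.gsys_grp F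
  obtain ⟨ψ, hψ⟩ := exists_addChar_ne_one F
  obtain ⟨r, t, h1⟩ := exists_x_ne_one htop (exists_ne_one ρ hρ (by simpa using hk))
  have h2 := RG.bound (S := chevRG hF hT hl (checkedE8.noA1 (by simp))) hψ combE8
    (fun r s k e _ => chev_gen hT hl r s k e) (lg_of hl r) h1 decE8 (fun β _ => lg_of hl β) sumE8
  have h3 : k ∣ Nat.card (Cfsg.Lie.chevE8.group F) :=
    (isIrrCharacter_character ρ).degree_dvd_card (by simp)
  have h4 := hF.card_grp_mul (checkedE8.gsys_adjoint F)
  rw [htop, Subgroup.card_top, Fintype.card_fin, Fintype.card_fin, Nat.card_eq_fintype_card (α := F)] at h4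
  have h5 := (h3.mul_left _).trans h4.dvd
  have h6 : 2 ≤ Fintype.card F := Fintype.one_lt_card
  erw [poinE8 checkedE8 (by omega)] at h5
  simp only [Module.finrank_fin_fun, Nat.card_eq_fintype_card] at h2
  by_contra! h7
  have hq : IsPrimePow (Fintype.card F) := FiniteField.isPrimePow_card F
  generalize Fintype.card F = q at *
  obtain ⟨q, rfl⟩ := Nat.exists_eq_add_of_le' h6
  refine arithE8 hq ?_ (by simpa [mul_assoc] using h7) h5
  rcases h2 with ⟨d, h8, h9⟩ | ⟨-, h8⟩
  · obtain ⟨e, rfl⟩ := Nat.exists_eq_add_of_le (Nat.le_of_mul_le_mul_left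
      (show (q + 2) * (2 * (q + 2) ^ 27) ≤ _ from le_of_eq_of_le (by ring) h8) (by omega))
    refine le_trans ?_ (Nat.add_le_add_right h9 8)
    rw [show q + 2 - 1 = q + 1 from rfl]
    ring_nf
    omega
  · refine le_trans (le_of_eq ?_) (Nat.add_le_add_right h8 8)
    rw [show q + 2 - 1 = q + 1 from rfl]
    simp only [dE8, List.map, List.sum_cons, List.sum_nil]
    ring

end Cfsg.Agent.S2339
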