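import Cfsg.Statements.S2341
import Cfsg.Agent.Lib.MD.TwE6

set_option autoImplicit false
open Cfsg

namespace Cfsg.Agent.S2341

open Cfsg.Lib.Twisted Cfsg.Lib.Char in

/-- For the twisted group ²E₆(q), realised over the field with q² elements (q a prime power), every irreducible complex representation of degree at least 2 has degree at least q(q⁶ − q³ + 1)(q⁴ + 1). -/
theorem result {K : Type*} [Field K] [Fintype K] (q : ℕ) (hq : IsPrimePow q) (hK : Fintype.card K = q ^ 2) :
    (∀ (k : ℕ) (ρ : Representation ℂ (Cfsg.Lie.twistedE6 K q) (Fin k → ℂ)), ρ.IsIrreducible → 2 ≤ k → q * (q ^ 6 - q ^ 3 + 1) * (q ^ 4 + 1) ≤ k) := by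
  intro k ρ hρ hk
  let e := (equivOfMap (Subgroup.subtype_injective _) (map_KE6 (K := K) (q := q))).symm
  exact Cfsg.Lib.MD.boundTE hq hK k (ρ.comp e.toMonoidHom)
    (isIrreducible_comp_surjective ρ _ e.surjective) hk

end Cfsg.Agent.S2341
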