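import Cfsg.Statements.S2342
import Cfsg.Agent.Lib.MD.TwD4

set_option autoImplicit false
open Cfsg

namespace Cfsg.Agent.S2342

open Cfsg.Lib.Twisted Cfsg.Lib.Char in

/-- For the twisted group ³D₄(q), realised over the field with q³ elements (q a prime power), every irreducible complex representation of degree at least 2 has degree at least q(q⁴ − q² + 1). -/
theorem result {K : Type*} [Field K] [Fintype K] (q : ℕ) (hq : IsPrimePow q) (hK : Fintype.card K = q ^ 3) :
    (∀ (k : ℕ) (ρ : Representation ℂ (Cfsg.Lie.twistedD4 K q) (Fin k → ℂ)), ρ.IsIrreducible → 2 ≤ k → q * (q ^ 4 - q ^ 2 + 1) ≤ k) := by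
  intro k ρ hρ hk
  let e := (equivOfMap (Subgroup.subtype_injective _) (map_KD4 (K := K) (q := q))).symm
  exact Cfsg.Lib.MD.boundTD hq hK k (ρ.comp e.toMonoidHom)
    (isIrreducible_comp_surjective ρ _ e.surjective) hk

end Cfsg.Agent.S2342
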