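import Cfsg.Statements.S2343
import Cfsg.Agent.Lib.Ree.Inst
import Cfsg.Agent.Lib.Ree.Orders
import Cfsg.Agent.Lib.Sz.Weights

set_option autoImplicit false
open Cfsg

namespace Cfsg.Agent.S2343

open Lib.Ree Lib.Sz Module in
theorem aux {K : Type*} [Field K] [Finite K] {G : Type*} [Group G] (M : Lib.Ree.Model K G)
    (hq : 3 < Nat.card K) {V : Type*} [AddCommGroup V] [Module ℂ V] [FiniteDimensional ℂ V]
    (ρ : Representation ℂ G V) (h : Function.Injective ρ) :
    Nat.card K ^ 2 - Nat.card K + 1 ≤ finrank ℂ V := by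
  classical
  have := M.finite
  let x : K × K → G := fun p => M.u 0 p.1 p.2
  have hx : ∀ i j, x i * x j = x (i + j) := fun i j => M.u_mul_zero ..
  have hf : ∀ i j, ρ (x i) * ρ (x j) = ρ (x j) * ρ (x i) := fun i j => by
    rw [← map_mul, ← map_mul, hx, hx, add_comm]
  have h1 : x (0, 1) ≠ 1 := fun e => one_ne_zero (M.u_eq_one.1 e).2.2
  obtain ⟨χ, h2, v, hv, h0⟩ := exists_wt_ne_one hf (i := (0, 1)) (n := 3)
    (fun e => h1 (h (e.trans (map_one ρ).symm))) (by norm_num)
    (by rw [← map_pow, ← M.orderOf_u h1, pow_orderOf_eq_one, map_one])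
  have hχ : ∀ i j, χ i * χ j = χ (i + j) := fun i j => wt_mul ρ hv h0 (hx i j)
  have hχ0 := wt_ne_zero ρ hv h0
  have hs : ∀ {s t : K}, (∀ c, χ (0, s * c) = χ (0, t * c)) → s = t :=
    eq_of_forall_char (χ := fun c => χ (0, c)) (fun a b => by simp [hχ]) (fun _ => hχ0 _) h2
  let s : Kˣ × K → K × K → K × K := fun j i =>
    (j.1 * M.ψ j.1 * i.1, j.1 ^ 2 * M.ψ j.1 * (i.2 + j.2 * i.1))
  have h3 : ∀ j, ∃ w ∈ wt (fun i => ρ (x i)) fun i => χ (s j i), w ≠ 0 := fun j =>
    ⟨_, apply_mem_wt ρ hv (g := (M.h j.1 * M.u j.2 0 0)⁻¹) fun i => by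
      rw [eq_inv_mul_iff_mul_eq, ← mul_assoc, mul_inv_rev, ← mul_assoc, mul_assoc (M.h _),
        mul_assoc (M.h _), M.u_conj, M.h_u]
      simp [x, s], fun e => h0 (apply_injective ρ _ (e.trans (map_zero _).symm))⟩
  have h4 : Function.Injective fun j i => χ (s j i) := by
    rintro ⟨l, a⟩ ⟨l', a'⟩ e
    have h5 : (l : K) ^ 2 * M.ψ l = l' ^ 2 * M.ψ l' := hs fun c => by
      simpa [s] using congrFun e (0, c)
    have h6 := M.ψ_ne_zero l'.ne_zero
    obtain rfl : l = l' := Units.ext (eq_of_div_eq_one (M.sq_mul_ψ_eq_one (by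
      rw [map_div₀, div_pow, div_mul_div_comm, h5, div_self (by simp [h6])])))
    obtain rfl : a = a' := mul_left_cancel₀ (show (l : K) ^ 2 * M.ψ l ≠ 0 by simp [h6])
      (hs fun b => mul_left_cancel₀ (hχ0 (l * M.ψ l * b, 0)) (by
        simpa [s, hχ, mul_assoc] using congrFun e (b, 0)))
    rfl
  have h5 : Nat.card (Kˣ × K) = Nat.card K ^ 2 - Nat.card K := by
    rw [Nat.card_prod, Nat.card_units, Nat.sub_mul, sq, one_mul]
  by_cases hW : wt (fun c => ρ (x (0, c))) 1 = ⊥
  swap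
  · obtain ⟨ψ, w, h6, h7, h8⟩ := exists_wt hf hW fun i w hw c => by
      rw [← End.mul_apply, hf, End.mul_apply, hw c, map_smul]
    have h9 : ∀ c, ψ (0, c) = 1 := fun c => smul_left_injective ℂ h7 ((h8 _).symm.trans (h6 c))
    rw [← h5, ← Finite.card_option]
    refine card_le_finrank (fun i => ρ (x i)) (χ := fun o => o.elim ψ fun j i => χ (s j i)) ?_ ?_
    · have key : ∀ j, ψ ≠ fun i => χ (s j i) := fun j e => h2 (by
        have h10 : (j.1 : K) ^ 2 * M.ψ j.1 ≠ 0 := by simp [M.ψ_ne_zero j.1.ne_zero]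
        have h11 := (congrFun e (0, ((j.1 : K) ^ 2 * M.ψ j.1)⁻¹)).symm
        simp only [s, h9, mul_zero, add_zero] at h11
        rwa [mul_inv_cancel₀ h10] at h11)
      rintro (_ | j) (_ | j') e
      exacts [rfl, absurd e (key _), absurd e.symm (key _), congrArg some (h4 e)]
    · rintro (_ | j)
      exacts [⟨w, h8, h7⟩, h3 j]
  have h6 := h5 ▸ card_le_finrank _ h4 h3
  have := Fintype.ofFinite K
  have h7 : ∑ c, ρ (x (0, c)) = 0 := LinearMap.ext fun w => (Submodule.eq_bot_iff _).1 hW _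
    fun c => by
      rw [← End.mul_apply, Finset.mul_sum, Pi.one_apply, one_smul]
      exact LinearMap.congr_fun (Fintype.sum_equiv (Equiv.addLeft c) _ _ fun d => by
        rw [← map_mul, hx]; simp) w
  have h8 : ρ.character M.a = 0 := by
    have h9 : ∀ c, LinearMap.trace ℂ V (ρ (x (0, c)) * ρ M.a) = ρ.character M.a := fun c => by
      rw [← ρ.char_conj M.a (M.u 0 0 (-c)), ← map_mul, mul_assoc, M.u_inv, M.a_mul_u, ← mul_assoc]
      simp only [neg_zero, map_zero, mul_zero, sub_zero, add_zero, neg_neg, M.u_mul_zero]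
      rw [show -c + -c = c by linear_combination (-c) * M.three]
      rfl
    have h10 := congrArg (LinearMap.trace ℂ V) (congrArg (· * ρ M.a) h7)
    rw [Finset.sum_mul, map_sum, Finset.sum_congr rfl fun c _ => h9 c] at h10
    simpa using h10
  obtain ⟨-, t, ht, -⟩ := M.exists_torQ hq
  have hW4 := M.isKleinFour_ext ht
  generalize M.ext (Subgroup.zpowers t) = W at hW4
  have := Fintype.ofFinite W
  have : Invertible (Nat.card W : ℂ) := invertibleOfNonzero (Nat.cast_ne_zero.2 Nat.card_pos.ne')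
  have h9 := Representation.card_inv_mul_sum_char_eq_finrank (ρ.comp W.subtype)
  rw [Finset.sum_eq_single 1 (fun g _ hg => ?_) (by simp), Representation.char_one, hW4.card_four,
    inv_mul_eq_iff_eq_mul₀ (by norm_num)] at h9
  · norm_cast at h9
    have h11 := M.card_mod
    have h12 : Nat.card K ^ 2 % 4 = 1 := by
      rw [Nat.pow_mod, show Nat.card K % 4 = 3 by omega]
    have := Nat.le_self_pow two_ne_zero (Nat.card K)
    omega
  · obtain ⟨y, hy⟩ := M.exists_conj_eq_a hq (Lib.Inv.k4_orderOf hW4 g.2 fun e => hg (Subtype.ext e))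
    rw [← h8, ← hy, ρ.char_conj]
    rfl

/-- For the Ree group ²G₂(q), q = 3^(2m+1) with m ≥ 1 (realised over the field with q elements), every irreducible complex representation of degree at least 2 has degree at least q² − q + 1. -/
theorem result {K : Type*} [Field K] [Fintype K] (m : ℕ) (hm : 1 ≤ m) (hK : Fintype.card K = 3 ^ (2 * m + 1)) :
    (∀ (k : ℕ) (ρ : Representation ℂ (Cfsg.Lie.twistedG2 K (3 ^ m)) (Fin k → ℂ)), ρ.IsIrreducible → 2 ≤ k → (3 ^ (2 * m + 1)) ^ 2 - 3 ^ (2 * m + 1) + 1 ≤ k) := by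
  obtain ⟨M, -⟩ := Lib.Ree.exists_model hK
  have hq := Lib.Ree.three_lt_card hm hK
  have := M.simple hq
  intro k ρ h hk
  rw [← hK, ← Nat.card_eq_fintype_card]
  simpa using aux M hq ρ (Lib.Sz.injective_of_isIrreducible h (by simpa using hk))

end Cfsg.Agent.S2343
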