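import Cfsg.Statements.S2344
import Cfsg.Agent.Lib.RepDeg.OMain

set_option autoImplicit false
open Cfsg

namespace Cfsg.Agent.S2344

/-- For a finite field F of odd order q > 3 and n ≥ 3, every irreducible complex representation of degree at least 2 of Ω_{2n+1}(F) (the commutator subgroup of the isometry group of the quadratic form x₀² + x₁y₁ + ⋯ + x_ny_n) has degree at least (q^{2n} − 1)/(q² − 1). -/
theorem result {F : Type*} [Field F] [Fintype F] (n : ℕ) (hn : 3 ≤ n) (hodd : Odd (Fintype.card F)) (h3 : 3 < Fintype.card F) :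
    (∀ (k : ℕ) (ρ : Representation ℂ (Cfsg.Omega F (Cfsg.quadFormOdd n F)) (Fin k → ℂ)), ρ.IsIrreducible → 2 ≤ k → (Fintype.card F ^ (2 * n) - 1) / (Fintype.card F ^ 2 - 1) ≤ k) := by
  intro k ρ hρ hk
  obtain ⟨m, rfl⟩ := Nat.exists_eq_add_of_le' hn
  have hQ := Cfsg.Lib.Orth.nd_qOdd (Cfsg.Lib.Orth.two_ne_zero_of_odd_card hodd) (m + 3)
  have := Cfsg.Lib.RepDeg.le_of_omega hQ (by simp; omega) (d := fun k =>
    (Nat.card F : ℤ) ^ (2 * (m + 3)) - 1 ≤ (Nat.card F ^ 2 - 1) * k) (fun M _ _ _ σ h1 h2 =>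
      Cfsg.Lib.RepDeg.min_odd (by simpa) hQ h1 (by simp; omega) h2) ρ hρ hk
  refine Nat.div_le_of_le_mul ?_
  zify [Nat.one_le_pow (2 * (m + 3)) _ (show 0 < Fintype.card F by omega),
    Nat.one_le_pow 2 _ (show 0 < Fintype.card F by omega)]
  simpa using this

end Cfsg.Agent.S2344
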