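import Cfsg.Statements.S2345
import Cfsg.Agent.Lib.RepDeg.OMain

set_option autoImplicit false
open Cfsg

namespace Cfsg.Agent.S2345

/-- For a finite field F with q > 3 elements and n ≥ 4, every irreducible complex representation of degree at least 2 of Ω⁺_{2n}(F) (the commutator subgroup of the isometry group of the hyperbolic quadratic form x₁y₁ + ⋯ + x_ny_n) has degree at least (q^n − 1)(q^{n−1} + q)/(q² − 1). -/
theorem result {F : Type*} [Field F] [Fintype F] (n : ℕ) (hn : 4 ≤ n) (h3 : 3 < Fintype.card F) :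
    (∀ (k : ℕ) (ρ : Representation ℂ (Cfsg.Omega F (Cfsg.quadFormPlus n F)) (Fin k → ℂ)), ρ.IsIrreducible → 2 ≤ k → (Fintype.card F ^ n - 1) * (Fintype.card F ^ (n - 1) + Fintype.card F) / (Fintype.card F ^ 2 - 1) ≤ k) := by
  intro k ρ hρ hk
  obtain ⟨m, rfl⟩ := Nat.exists_eq_add_of_le' (show 3 ≤ n by omega)
  have hQ := Cfsg.Lib.Orth.nd_qPlus (F := F) (m + 3)
  have := Cfsg.Lib.RepDeg.le_of_omega hQ (by simp; omega) (d := fun k =>
    ((Nat.card F : ℤ) ^ (m + 3) - 1) * (Nat.card F ^ (m + 2) + Nat.card F) ≤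
      (Nat.card F ^ 2 - 1) * k) (fun M _ _ _ σ h1 h2 =>
      Cfsg.Lib.RepDeg.min_plus (by simpa) m hQ h1 (by simp; omega)
        (Cfsg.Lib.Orth.wittIndex_qPlus _) h2) ρ hρ hk
  refine Nat.div_le_of_le_mul ?_
  zify [Nat.one_le_pow (m + 3) _ (show 0 < Fintype.card F by omega),
    Nat.one_le_pow 2 _ (show 0 < Fintype.card F by omega)]
  simpa using this

end Cfsg.Agent.S2345
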