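import Cfsg.Statements.S2347
import Cfsg.Agent.Lib.CharDeg.Weil
import Cfsg.Agent.Lib.Sz.Weights

set_option autoImplicit false
open Cfsg

namespace Cfsg.Agent.S2347

open Module Lib.Symp Lib.Sz in
theorem lower {F K : Type*} [Field F] [Field K] [Finite K] [Algebra F K] (h2 : (2 : K) ≠ 0)
    {G : Type*} [Group G] {B : LinearMap.BilinForm F (K × K)}
    (hB : ∀ u v, B u v = Algebra.trace F K (u.1 * v.2 - u.2 * v.1)) (e : isom B ≃* G)
    (hc : ∀ g ∈ Subgroup.center (isom B), g = 1 ∨ g = negOne B)
    {V : Type*} [AddCommGroup V] [Module ℂ V] [FiniteDimensional ℂ V]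
    (ρ : Representation ℂ G V) (hρ : ρ.ker ≤ Subgroup.center G) :
    (Nat.card K - 1) / 2 ≤ finrank ℂ V := by
  classical
  let x : K → isom B := fun s => ⟨
    { toFun := fun u => (u.1 + s * u.2, u.2)
      invFun := fun u => (u.1 - s * u.2, u.2)
      map_add' := fun u v => by ext <;> simp; ring
      map_smul' := fun c u => by ext <;> simp
      left_inv := fun u => by simp
      right_inv := fun u => by simp }, fun u v => by
        rw [hB, hB]; congr 1; simp; ring⟩
  let h : Kˣ → isom B := fun μ => ⟨
    { toFun := fun u => (μ * u.1, μ⁻¹ * u.2)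
      invFun := fun u => (μ⁻¹ * u.1, μ * u.2)
      map_add' := fun u v => by ext <;> simp [mul_add]
      map_smul' := fun c u => by ext <;> simp
      left_inv := fun u => by simp
      right_inv := fun u => by simp }, fun u v => by
        rw [hB, hB]; congr 1; simp; field_simp⟩
  have hx : ∀ s t, x s * x t = x (s + t) := fun s t => Subtype.ext (LinearEquiv.ext fun u => by
    change (u.1 + t * u.2 + s * u.2, u.2) = (u.1 + (s + t) * u.2, u.2)
    congr 1; ring)
  have hh : ∀ μ s, x s * h μ⁻¹ = h μ⁻¹ * x (μ ^ 2 * s) := fun μ s =>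
    Subtype.ext (LinearEquiv.ext fun u => by
      change (((μ⁻¹ : Kˣ) : K) * u.1 + s * (((μ⁻¹⁻¹ : Kˣ) : K) * u.2), ((μ⁻¹⁻¹ : Kˣ) : K) * u.2) =
        (((μ⁻¹ : Kˣ) : K) * (u.1 + μ ^ 2 * s * u.2), ((μ⁻¹⁻¹ : Kˣ) : K) * u.2)
      congr 1; simp; field_simp)
  let σ : isom B →* End ℂ V := ρ.comp e.toMonoidHom
  have hf : ∀ i j, σ (x i) * σ (x j) = σ (x j) * σ (x i) := fun i j => by
    rw [← map_mul, ← map_mul, hx, hx, add_comm]
  have hx1 : σ (x 1) ≠ 1 := fun h1 => by
    rcases hc _ ((mem_center_mulEquiv_iff e _).1 (hρ h1)) with h3 | h3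
    · have := congrArg (fun g : isom B => (g.1 (0, 1)).1) h3
      change (0 : K) + 1 * 1 = 0 at this
      simp at this
    · have := congrArg (fun g : isom B => (g.1 (0, 1)).2) h3
      change (1 : K) = -1 at this
      exact h2 (by linear_combination this)
  have := Finite.of_injective (fun g : isom B => (g.1 : K × K → K × K)) fun a b hab =>
    Subtype.ext (DFunLike.coe_injective hab)
  obtain ⟨χ, h3, v, hv, h0⟩ := exists_wt_ne_one hf hx1 (n := orderOf (x 1))
    (by exact_mod_cast (orderOf_pos _).ne') (by rw [← map_pow, pow_orderOf_eq_one, map_one])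
  have hχ : ∀ i j, χ i * χ j = χ (i + j) := fun i j => wt_mul σ hv h0 (hx i j)
  have h4 := card_le_finrank (fun i => σ (x i)) (J := (powMonoidHom 2 : Kˣ →* Kˣ).range)
    (χ := fun μ i => χ (μ.1 * i))
    (fun μ ν e => Subtype.ext (Units.ext
      (eq_of_forall_char hχ (wt_ne_zero σ hv h0) h3 (congrFun e))))
    (by
      rintro ⟨_, μ, rfl⟩
      refine ⟨σ (h μ⁻¹) v, ?_, fun e => h0 (apply_injective σ _ (e.trans (map_zero _).symm))⟩
      simpa using apply_mem_wt σ hv (hh μ))
  rw [IsCyclic.card_powMonoidHom_range, Nat.card_units] at h4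
  exact (Nat.div_le_div_left (Nat.gcd_le_right _ two_pos) (Nat.gcd_pos_of_pos_right _ two_pos)).trans h4

/-- Smallest degree of a non-linear irreducible complex representation of the symplectic group Sp_{2n} over a finite field of odd order q, n ≥ 2: every irreducible complex representation of degree at least 2 has degree at least (q^n − 1)/2, and there is an irreducible complex representation of exactly that degree (a Weil representation). -/
theorem result {F : Type*} [Field F] [Fintype F] [DecidableEq F] (n : ℕ) (hn : 2 ≤ n) (hodd : Odd (Fintype.card F)) :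
    (∀ (k : ℕ) (ρ : Representation ℂ (Matrix.symplecticGroup (Fin n) F) (Fin k → ℂ)), ρ.IsIrreducible → 2 ≤ k → (Fintype.card F ^ n - 1) / 2 ≤ k) ∧
    (∃ ρ : Representation ℂ (Matrix.symplecticGroup (Fin n) F) (Fin ((Fintype.card F ^ n - 1) / 2) → ℂ), ρ.IsIrreducible) := by
  have h2 : (2 : F) ≠ 0 := Lib.Symp.two_ne_zero_iff_odd_card.2 hodd
  have hq : 3 ≤ Fintype.card F := by
    have := Fintype.one_lt_card (α := F)
    obtain ⟨m, hm⟩ := hodd
    omega
  refine ⟨fun k ρ hρ hk => ?_, ?_⟩
  · obtain ⟨p, hp⟩ := CharP.exists F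
    have : Fact p.Prime := ⟨CharP.char_is_prime F p⟩
    have : NeZero n := ⟨by omega⟩
    let K := FiniteField.Extension F p n
    have hK : Module.finrank F K = n := FiniteField.finrank_extension F p n
    let B : LinearMap.BilinForm F (K × K) := LinearMap.mk₂ F
      (fun u v => Algebra.trace F K (u.1 * v.2 - u.2 * v.1))
      (fun a b c => by rw [← map_add]; congr 1; simp; ring)
      (fun a b c => by rw [← map_smul]; congr 1; simp [smul_sub])
      (fun a b c => by rw [← map_add]; congr 1; simp; ring)
      (fun a b c => by rw [← map_smul]; congr 1; simp [smul_sub])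
    have hB : ∀ u v, B u v = Algebra.trace F K (u.1 * v.2 - u.2 * v.1) := fun _ _ => rfl
    have hA : B.IsAlt := fun u => by rw [hB, mul_comm, sub_self, map_zero]
    have hN : B.Nondegenerate := hA.isRefl.nondegenerate_iff_separatingLeft.2 fun u hu => by
      refine Prod.ext ((traceForm_nondegenerate F K).1 _ fun y => ?_)
        ((traceForm_nondegenerate F K).1 _ fun y => ?_)
      · simpa [hB] using hu (0, y)
      · simpa [hB] using hu (y, 0)
    obtain ⟨e⟩ := Lib.Symp.nonempty_isom_equiv (l := Fin n) hA hN (by simp [hK, two_mul])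
    have h3 := lower (K := K) (by
      rw [← map_ofNat (algebraMap F K)]; exact (map_ne_zero _).2 h2) hB e
      (fun g hg => (Lib.Symp.mem_center_iff hA hN g).1 hg) ρ
      ((Lib.Symp.normal_sp_le_center_or ρ.ker).resolve_right fun h4 => by
        rw [Lib.Symp.commutator_sp_eq_top (Or.inr (Or.inl ⟨by simpa using hn,
          Lib.Symp.exists_ne_zero_ne_one (by simpa using hq)⟩))] at h4
        have : Nontrivial (Fin k → ℂ) := Module.nontrivial_of_finrank_pos (R := ℂ) (by simp; omega)
        obtain ⟨v, hv⟩ := exists_ne (0 : Fin k → ℂ)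
        rcases Lib.Char.eq_bot_or_top_of_isIrreducible ρ (ℂ ∙ v)
          (fun g w hw => by rwa [show ρ g = 1 from h4 trivial]) with h5 | h5
        · exact hv (Submodule.span_singleton_eq_bot.1 h5)
        · have := finrank_span_singleton (K := ℂ) hv
          rw [h5, finrank_top] at this
          simp at this
          omega)
    rw [FiniteField.natCard_extension, Nat.card_eq_fintype_card] at h3
    simpa using h3
  · have : Nonempty (Fin n) := ⟨⟨0, by omega⟩⟩
    obtain ⟨m, hm⟩ := hodd.pow (n := n)
    have h3 : 3 ≤ Fintype.card F ^ n := hq.trans (Nat.le_self_pow (by omega) _)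
    have h4 : (Fintype.card F ^ n - 1) / 2 = m := by omega
    refine Lib.CharDeg.exists_weil_irreducible h2 (ε := -1) (by simp) ?_ (by omega)
    rw [h4, Fintype.card_fin, ← Nat.cast_pow, hm]
    push_cast
    ring

end Cfsg.Agent.S2347
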