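import Cfsg.Statements.S2352
import Cfsg.Agent.Lib.Sz.Laws

set_option autoImplicit false
open Cfsg

namespace Cfsg.Agent.S2352

/-- A non-trivial law holds in only finitely many alternating groups: for every non-trivial element w of the free group on countably many generators there is N such that for all n ≥ N some substitution of elements of the alternating group of degree n into w is not the identity. -/
theorem result (w : FreeGroup ℕ) (hw : w ≠ 1) :
    ∃ N : ℕ, ∀ n : ℕ, N ≤ n → ∃ f : ℕ → alternatingGroup (Fin n), FreeGroup.lift f w ≠ 1 := by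
  obtain ⟨N, h⟩ := Cfsg.Lib.Sz.exists_law_SL2 hw
  obtain ⟨p, hN, hp⟩ := Nat.exists_infinite_primes N
  have := Fact.mk hp
  obtain ⟨f, hf⟩ := h (ZMod p) (by simpa)
  refine ⟨2 * Nat.card (Matrix.SpecialLinearGroup (Fin 2) (ZMod p)), fun n hn => ?_⟩
  obtain ⟨φ, hφ⟩ := Cfsg.Lib.Sz.exists_hom_alternating (Matrix.SpecialLinearGroup (Fin 2) (ZMod p)) hn
  refine ⟨fun i => φ (f i), fun e => hf ?_⟩
  rw [← FreeGroup.lift_unique (φ.comp (FreeGroup.lift f)) (by simp)] at e
  rw [hφ (e.trans φ.map_one.symm)]
  rfl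

end Cfsg.Agent.S2352
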