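import Cfsg.Statements.S2354
import Cfsg.Agent.Lib.Sz.Borel
import Cfsg.Agent.Lib.Sz.Instances

set_option autoImplicit false
open Cfsg

namespace Cfsg.Agent.S2354

open Polynomial Matrix

theorem deg {F : Type*} [Field F] {i j : ℕ} (h : i ≠ j) :
    (X ^ i + X ^ j : F[X]).Monic ∧ (X ^ i + X ^ j : F[X]).natDegree = max i j := by
  wlog hij : j < i generalizing i j
  · rw [add_comm, max_comm]; exact this h.symm (by omega)
  have h1 : (X ^ j : F[X]).natDegree < (X ^ i : F[X]).natDegree := by simpa using hij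
  exact ⟨(monic_X_pow i).add_of_left (degree_lt_degree h1),
    by rw [natDegree_add_eq_left_of_natDegree_lt h1, natDegree_X_pow, max_eq_left hij.le]⟩

theorem aux {F : Type*} [Field F] {G : Type*} [Group G] (M : Lib.Sz.Model F G) {e B : ℕ}
    (he : 2 ≤ e) (hσ : ∀ x, M.σ x = x ^ e) (L : List (ℕ × Bool)) (hL : FreeGroup.IsReduced L)
    (hB : ∀ l ∈ L, 2 * l.1 + 2 ≤ B) (j : ℕ) (hj : j ≤ B)
    (hj' : ∀ l ∈ L.head?, j ≠ 2 * l.1 + cond l.2 1 2) :
    ∃ V : Fin 4 → F[X], (∀ x, M.mat (M.u 0 (x ^ j) * FreeGroup.lift (fun i =>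
      M.u 0 (x ^ (2 * i + 1)) * M.w * M.u 0 (x ^ (2 * i + 2))) (FreeGroup.mk L)) *ᵥ ![1, 0, 0, 0] =
        fun i => (V i).eval x) ∧ V 0 ≠ 0 ∧ (∀ i, (V i).natDegree ≤ (V 0).natDegree) ∧
      (V 0).natDegree ≤ e * (B * L.length) ∧ (L ≠ [] → 0 < (V 0).natDegree) := by
  induction L generalizing j with
  | nil =>
    refine ⟨![1, 0, 0, 0], fun x => ?_, by simp, fun i => by fin_cases i <;> simp, by simp, by simp⟩
    rw [← FreeGroup.one_eq_mk, map_one, mul_one, M.mat_u]
    ext i
    fin_cases i <;> simp [Lib.Sz.Tits.uM]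
  | cons l L ih =>
    have h1 := hB l (by simp)
    obtain ⟨V, h2, h3, h4, h5, -⟩ := ih (hL.infix ⟨[l], [], by simp⟩) (fun l h => hB l (by simp [h]))
      (2 * l.1 + cond l.2 2 1) (by cases l.2 <;> simp <;> omega) fun l' h => by
        obtain ⟨L, rfl⟩ := List.head?_eq_some_iff.1 h
        have := (FreeGroup.isReduced_cons_cons.1 hL).1
        cases h1 : l.2 <;> cases h2 : l'.2 <;> simp_all <;> omega
    have h6 := hj' l (by simp)
    set s := 2 * l.1 + cond l.2 1 2 with hs
    have h7 : 0 < s ∧ s ≤ B := by rw [hs]; cases l.2 <;> simp <;> omega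
    obtain ⟨a1, a2⟩ := deg (F := F) h6
    obtain ⟨b1, b2⟩ := deg (F := F) (i := e * j) (j := e * s) fun h => h6 (by
      simpa [show e ≠ 0 by omega] using h)
    rw [← mul_max] at b2
    have h8 : max j s < e * max j s := lt_mul_left (by omega) he
    have h9 := fun i => (natDegree_mul_le (p := X ^ j + X ^ s)).trans (add_le_add a2.le (h4 i))
    have h10 : (V 3 + (X ^ j + X ^ s) * V 1 + (X ^ (e * j) + X ^ (e * s)) * V 0).natDegree =
        e * max j s + (V 0).natDegree := by
      rw [natDegree_add_eq_right_of_natDegree_lt, b1.natDegree_mul' h3, b2]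
      rw [b1.natDegree_mul' h3, b2]
      have := h4 3
      have := h9 1
      exact (natDegree_add_le _ _).trans_lt (by omega)
    refine ⟨![V 3 + (X ^ j + X ^ s) * V 1 + (X ^ (e * j) + X ^ (e * s)) * V 0,
      V 2 + (X ^ j + X ^ s) * V 0, V 1, V 0], fun x => ?_, fun h => ?_, fun i => ?_, ?_, fun _ => ?_⟩
    · have h11 : M.u 0 (x ^ j) * FreeGroup.lift (fun i => M.u 0 (x ^ (2 * i + 1)) * M.w *
          M.u 0 (x ^ (2 * i + 2))) (FreeGroup.mk (l :: L)) = M.u 0 (x ^ j + x ^ s) * (M.w *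
          (M.u 0 (x ^ (2 * l.1 + cond l.2 2 1)) * FreeGroup.lift (fun i => M.u 0 (x ^ (2 * i + 1)) *
            M.w * M.u 0 (x ^ (2 * i + 2))) (FreeGroup.mk L))) := by
        rw [FreeGroup.lift_mk, FreeGroup.lift_mk, ← M.u_zero_mul_u_zero, hs, List.map_cons]
        cases l.2 <;> simp [mul_assoc, M.u_inv]
      rw [h11, map_mul, map_mul, ← mulVec_mulVec, ← mulVec_mulVec, h2, M.mat_u, M.mat_w]
      ext i
      fin_cases i <;> simp [Lib.Sz.Tits.uM, Lib.Sz.wM, Lib.Sz.Tits.f, mulVec, dotProduct,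
        Fin.sum_univ_four, ← pow_mul, mul_comm e, map_add, hσ (x ^ _)]
    · rw [cons_val_zero] at h
      rw [h, natDegree_zero] at h10
      omega
    · rw [cons_val_zero, h10]
      have := h4 1
      have := h4 2
      have := h9 0
      fin_cases i
      · exact h10.le
      · exact (natDegree_add_le _ _).trans (by omega)
      all_goals simp only [Fin.reduceFinMk, cons_val]; omega
    · rw [cons_val_zero, h10, List.length_cons, Nat.mul_succ, mul_add, add_comm]
      exact add_le_add h5 (Nat.mul_le_mul_left _ (by omega))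
    · rw [cons_val_zero, h10]
      omega

/-- A non-trivial law holds in only finitely many Suzuki groups: for every non-trivial element w of the free group on countably many generators there is N such that for q = 2^(2m+1) with m ≥ N some substitution of elements of the Suzuki group over the field with q elements into w is not the identity. -/
theorem result (w : FreeGroup ℕ) (hw : w ≠ 1) :
    ∃ N : ℕ, ∀ (F : Type*) [Field F] [Fintype F] (m : ℕ), 1 ≤ m → N ≤ m →
      Fintype.card F = 2 ^ (2 * m + 1) →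
      ∃ f : ℕ → ↥(Cfsg.Lie.Sz F (2 ^ (m + 1))), FreeGroup.lift f w ≠ 1 := by
  obtain ⟨B, hB⟩ := (w.toWord.finite_toSet.image fun l => 2 * l.1 + 2).bddAbove
  refine ⟨B * w.toWord.length, fun F _ _ m hm hN hF => by_contra fun hn => ?_⟩
  obtain ⟨V, h1, -, -, h2, h3⟩ := aux (Lib.Sz.lieModel hF) (B := B)
    (Nat.pow_le_pow_right (n := 2) (i := 1) two_pos (by omega)) (Lib.Sz.lieModel_σ hF) w.toWord
    FreeGroup.isReduced_toWord (fun l h => hB ⟨l, h, rfl⟩) 0 B.zero_le
    fun l _ => by cases l.2 <;> simp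
  have h4 := h3 fun e => hw (FreeGroup.toWord_eq_nil_iff.1 e)
  have h5 : V 0 - 1 = 0 := eq_zero_of_natDegree_lt_card_of_eval_eq_zero _ Function.injective_id
    (fun x => by
      have := congrFun (h1 x) 0
      rw [FreeGroup.mk_toWord, not_not.1 (not_exists.1 hn _), mul_one, Lib.Sz.Model.mat_u] at this
      simp [← this, Lib.Sz.Tits.uM]) (by
      rw [← C_1, natDegree_sub_C, hF, show 2 * m + 1 = m + 1 + m by ring, pow_add]
      exact h2.trans_lt ((Nat.mul_lt_mul_left (by positivity)).2 (hN.trans_lt m.lt_two_pow_self)))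
  rw [sub_eq_zero.1 h5, natDegree_one] at h4
  exact h4.ne rfl

end Cfsg.Agent.S2354
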