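import Cfsg.Statements.S2355
import Cfsg.Agent.Lib.Sz.Laws
import Cfsg.Agent.Lib.Unitary.Gram
import Cfsg.Agent.Lib.Linear.Simple

set_option autoImplicit false
open Cfsg

namespace Cfsg.Agent.S2355

open Matrix

/-- Some value of the word is not central. -/
def NC (w : FreeGroup ℕ) (K : Type*) [Group K] : Prop :=
  ∃ f : ℕ → K, FreeGroup.lift f w ∉ Subgroup.center K

theorem lift_map {K L : Type*} [Group K] [Group L] (φ : K →* L) (f : ℕ → K) (w : FreeGroup ℕ) :
    FreeGroup.lift (fun i => φ (f i)) w = φ (FreeGroup.lift f w) :=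
  (FreeGroup.lift_unique (φ.comp (FreeGroup.lift f)) (by simp)).symm

theorem NC.map {w : FreeGroup ℕ} {K L : Type*} [Group K] [Group L] (h : NC w K) (φ : K →* L)
    (hφ : Function.Injective φ) : NC w L := by
  obtain ⟨f, hf⟩ := h
  refine ⟨fun i => φ (f i), fun h => hf (Subgroup.mem_center_iff.2 fun g => hφ ?_)⟩
  rw [lift_map] at h
  rw [map_mul, map_mul, Subgroup.mem_center_iff.1 h]

theorem NC.not_law {w : FreeGroup ℕ} {K G : Type*} [Group K] [Group G] (h : NC w K)
    (e : G ≃* K ⧸ Subgroup.center K) : ¬ ∀ f : ℕ → G, FreeGroup.lift f w = 1 := by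
  obtain ⟨f, hf⟩ := h
  intro hl
  have := hl fun i => (e.symm.toMonoidHom.comp (QuotientGroup.mk' _)) (f i)
  rw [lift_map] at this
  exact hf ((QuotientGroup.eq_one_iff _).1 (e.symm.injective (this.trans (map_one _).symm)))

theorem NC.commutator {w : FreeGroup ℕ} {K L : Type*} [Group K] [Group L] (h : NC w K)
    (hK : commutator K = ⊤) (φ : K →* L) (hφ : Function.Injective φ) : NC w (commutator L) :=
  h.map (φ.codRestrict _ fun x => ((Subgroup.map_commutator ⊤ ⊤ φ).le.trans
    (Subgroup.commutator_mono le_top le_top)) ⟨x, hK.ge (Subgroup.mem_top x), rfl⟩)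
    fun _ _ h => hφ (Subtype.mk.inj h)

theorem card_le {K G ι F : Type*} [Group K] [Group G] [Fintype ι] [Fintype F] {N d : ℕ}
    (e : G ≃* K ⧸ Subgroup.center K) (φ : K → Matrix ι ι F) (hφ : Function.Injective φ)
    (hF : Fintype.card F < N) (hd : Fintype.card ι ≤ d) : Nat.card G ≤ N ^ (d * d) := by
  haveI : Finite K := Finite.of_injective φ hφ
  rw [Nat.card_congr e.toEquiv]
  refine (Nat.card_le_card_of_surjective _ (QuotientGroup.mk'_surjective _)).trans
    ((Nat.card_le_card_of_injective φ hφ).trans ?_)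
  change Nat.card (ι → ι → F) ≤ _
  rw [Nat.card_fun, Nat.card_fun, ← pow_mul, Nat.card_eq_fintype_card, Nat.card_eq_fintype_card]
  exact (Nat.pow_le_pow_left hF.le _).trans
    (Nat.pow_le_pow_right (by omega) (Nat.mul_le_mul hd hd))

variable {F : Type} [Field F]

/-- Upper left block. -/
def blkL (α β : Type) [Fintype α] [Fintype β] [DecidableEq α] [DecidableEq β] :
    Matrix α α F →* Matrix (α ⊕ β) (α ⊕ β) F where
  toFun A := fromBlocks A 0 0 1
  map_one' := fromBlocks_one
  map_mul' A B := by simp [fromBlocks_multiply]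

/-- Lower right block. -/
def blkR (α β : Type) [Fintype α] [Fintype β] [DecidableEq α] [DecidableEq β] :
    Matrix β β F →* Matrix (α ⊕ β) (α ⊕ β) F where
  toFun A := fromBlocks 1 0 0 A
  map_one' := fromBlocks_one
  map_mul' A B := by simp [fromBlocks_multiply]

/-- Levi embedding. -/
def lev (m : ℕ) : Matrix.SpecialLinearGroup (Fin m) F →* Matrix (Fin m ⊕ Fin m) (Fin m ⊕ Fin m) F where
  toFun A := fromBlocks A.1 0 0 (A⁻¹).1ᵀ
  map_one' := by simp
  map_mul' A B := by simp [fromBlocks_multiply, adjugate_mul_distrib]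

theorem lev_inj (m : ℕ) : Function.Injective (lev (F := F) m) := fun _ _ h =>
  Subtype.ext (fromBlocks_inj.1 h).1

theorem lev_form (m : ℕ) (A : Matrix.SpecialLinearGroup (Fin m) F) (v : Fin m ⊕ Fin m → F) :
    ∑ i : Fin m, (lev m A *ᵥ v) (.inl i) * (lev m A *ᵥ v) (.inr i)
      = ∑ i : Fin m, v (.inl i) * v (.inr i) := by
  change (fun i => (fromBlocks A.1 0 0 (A⁻¹).1ᵀ *ᵥ v) (.inl i)) ⬝ᵥ
    (fun i => (fromBlocks A.1 0 0 (A⁻¹).1ᵀ *ᵥ v) (.inr i)) = (v ∘ .inl) ⬝ᵥ (v ∘ .inr)
  simp only [fromBlocks_mulVec, Sum.elim_inl, Sum.elim_inr, zero_mulVec, add_zero, zero_add]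
  change (A.1 *ᵥ (v ∘ .inl)) ⬝ᵥ ((A⁻¹).1ᵀ *ᵥ (v ∘ .inr)) = _
  have h : (A⁻¹).1 * A.1 = 1 := congrArg Subtype.val (inv_mul_cancel A)
  rw [dotProduct_comm, mulVec_transpose, ← dotProduct_mulVec, mulVec_mulVec, h, one_mulVec,
    dotProduct_comm]

/-- Block embedding of special linear groups. -/
def blk2 (k : ℕ) : Matrix.SpecialLinearGroup (Fin 2) F →* Matrix.SpecialLinearGroup (Fin (2 + k)) F where
  toFun A := ⟨reindexAlgEquiv F F finSumFinEquiv (blkL (Fin 2) (Fin k) A.1), by simp [blkL]⟩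
  map_one' := Subtype.ext (by simp)
  map_mul' A B := Subtype.ext ((congrArg _ (map_mul _ A.1 B.1)).trans (map_mul _ _ _))

theorem blk2_inj (k : ℕ) : Function.Injective (blk2 (F := F) k) := fun _ _ h =>
  Subtype.ext (fromBlocks_inj.1 ((reindexAlgEquiv F F finSumFinEquiv).injective
    (Subtype.mk.inj h))).1

theorem blk2_herm (k q : ℕ) (A : Matrix.SpecialLinearGroup (Fin 2) F) (hA : A ∈ SU 2 F q) :
    blk2 k A ∈ SU (2 + k) F q := by
  intro u v
  have h : ∀ u : Fin (2 + k) → F, (blk2 k A).1 *ᵥ u = Sum.elim (A.1 *ᵥ (u ∘ Fin.castAdd k))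
      (u ∘ Fin.natAdd 2) ∘ finSumFinEquiv.symm := by
    intro u
    change (fromBlocks A.1 0 0 1).submatrix finSumFinEquiv.symm finSumFinEquiv.symm *ᵥ u = _
    rw [submatrix_mulVec_equiv, fromBlocks_mulVec]
    simp [Function.comp_def]
  change ∑ i, ((blk2 k A).1 *ᵥ u) i * ((blk2 k A).1 *ᵥ v) i ^ q = ∑ i, u i * v i ^ q
  rw [h, h, Fin.sum_univ_add, Fin.sum_univ_add]
  simp only [Function.comp_apply, finSumFinEquiv_symm_apply_castAdd,
    finSumFinEquiv_symm_apply_natAdd, Sum.elim_inl, Sum.elim_inr]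
  exact congrArg (· + _) (hA (u ∘ Fin.castAdd k) (v ∘ Fin.castAdd k))

/-- Permutation matrices. -/
def pm (n : ℕ) : alternatingGroup (Fin n) →* Matrix.SpecialLinearGroup (Fin n) F where
  toFun σ := ⟨permMatrixHom σ.1, by
    have := Equiv.Perm.mem_alternatingGroup.1 σ.2
    simp [this]⟩
  map_one' := Subtype.ext (map_one _)
  map_mul' A B := Subtype.ext (map_mul permMatrixHom A.1 B.1)

theorem pm_mulVec (n : ℕ) (σ : alternatingGroup (Fin n)) (u : Fin n → F) :
    (pm (F := F) n σ).1 *ᵥ u = u ∘ ⇑(σ.1⁻¹) := permMatrix_mulVec _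

theorem pm_inj (n : ℕ) : Function.Injective (pm (F := F) n) := by
  rw [injective_iff_map_eq_one]
  intro σ h
  rw [← inv_eq_one]
  refine Subtype.ext (Equiv.ext fun i => ?_)
  have := congrFun (pm_mulVec (F := F) n σ (Pi.single i 1)) i
  rw [h] at this
  by_contra hne
  change ((1 : Matrix _ _ F) *ᵥ Pi.single i 1) i = (Pi.single i 1 : Fin n → F) (σ.1⁻¹ i) at this
  rw [one_mulVec, Pi.single_eq_same, Pi.single_eq_of_ne (show σ.1⁻¹ i ≠ i from hne)] at this
  exact one_ne_zero this

theorem pm_herm (n q : ℕ) (σ : alternatingGroup (Fin n)) : pm n σ ∈ SU n F q := by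
  intro u v
  change ∑ i, ((pm n σ).1 *ᵥ u) i * ((pm n σ).1 *ᵥ v) i ^ q = ∑ i, u i * v i ^ q
  rw [pm_mulVec, pm_mulVec]
  exact Equiv.sum_comp σ.1⁻¹ fun i => u i * v i ^ q

theorem NC.omega {w : FreeGroup ℕ} {m : ℕ} (h : NC w (Matrix.SpecialLinearGroup (Fin m) F)) (hm : 3 ≤ m)
    {ι : Type} [Fintype ι] [DecidableEq ι] (Q : (ι → F) → F)
    (μ : Matrix.SpecialLinearGroup (Fin m) F →* Matrix ι ι F) (hμ : Function.Injective μ)
    (hQ : ∀ A v, Q (μ A *ᵥ v) = Q v) : NC w (Omega F Q) :=
  h.commutator (Cfsg.Lib.Linear.commutator_SL_eq_top (Or.inl (by simpa using hm)))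
    (μ.toHomUnits.codRestrict (isometryGroup F Q) fun A u _ => hQ A u)
    fun _ _ h => hμ (congrArg Units.val (Subtype.mk.inj h))

/-- A non-trivial law is satisfied by only finitely many finite simple groups that are alternating or classical, up to isomorphism: for every non-trivial element w of the free group on countably many generators there is a bound N such that every alternating group of degree ≥ 5 and every simple classical group (linear, symplectic, unitary or orthogonal, in this problem's sense) in which w is a law has order at most N. -/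
theorem result (w : FreeGroup ℕ) (hw : w ≠ 1) :
    ∃ N : ℕ, ∀ (G : Type*) [Group G] [Finite G],
      (Cfsg.IsAlternating G ∨ Cfsg.IsPSL G ∨ Cfsg.IsPSp G ∨ Cfsg.IsPSU G ∨ Cfsg.IsPOmegaOdd G ∨
          Cfsg.IsPOmegaPlus G ∨ Cfsg.IsPOmegaMinus G) →
      (∀ f : ℕ → G, FreeGroup.lift f w = 1) → Nat.card G ≤ N := by
  obtain ⟨N, hN⟩ := Cfsg.Lib.Sz.exists_law_SL2.{0} hw
  have h2 : ∀ (F : Type) [Field F] [Fintype F], N ≤ Fintype.card F →
      NC w (Matrix.SpecialLinearGroup (Fin 2) F) := by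
    intro F _ _ h
    obtain ⟨f, hf⟩ := hN F h
    refine ⟨f, fun e => hf ?_⟩
    obtain ⟨r, -, hr⟩ := Matrix.SpecialLinearGroup.mem_center_iff.1 e
    simp [← hr]
  obtain ⟨M, hM⟩ : ∃ M, ∀ n, M ≤ n → NC w (alternatingGroup (Fin n)) := by
    obtain ⟨p, hp1, hp⟩ := Nat.exists_infinite_primes N
    have := Fact.mk hp
    refine ⟨2 * Nat.card (Matrix.SpecialLinearGroup (Fin 2) (ZMod p)), fun n hn => ?_⟩
    obtain ⟨φ, hφ⟩ := Cfsg.Lib.Sz.exists_hom_alternating
      (Matrix.SpecialLinearGroup (Fin 2) (ZMod p)) hn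
    exact (h2 (ZMod p) (by simpa)).map φ hφ
  have hSL : ∀ (F : Type) [Field F] [Fintype F] (n : ℕ), 2 ≤ n → ¬ (n < M ∧ Fintype.card F < N) →
      NC w (Matrix.SpecialLinearGroup (Fin n) F) := by
    intro F _ _ n hn h
    by_cases h1 : M ≤ n
    · exact (hM n h1).map _ (pm_inj n)
    · obtain ⟨k, rfl⟩ := Nat.exists_eq_add_of_le hn
      exact (h2 F (by omega)).map _ (blk2_inj k)
  refine ⟨max M.factorial ((N * N + N) ^ ((2 * M + 2) * (2 * M + 2))), fun G _ _ hG hl => ?_⟩
  rcases hG with ⟨n, -, ⟨e⟩⟩ | ⟨F, _, _, n, hn, -, ⟨e⟩⟩ | ⟨F, _, _, n, hn, -, ⟨e⟩⟩ |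
    ⟨F, _, _, n, q, hq, hn, -, ⟨e⟩⟩ | ⟨F, _, _, n, hn, -, ⟨e⟩⟩ | ⟨F, _, _, n, hn, ⟨e⟩⟩ |
    ⟨F, _, _, n, a, b, hn, -, ⟨e⟩⟩
  · by_cases h : M ≤ n
    · obtain ⟨f, hf⟩ := hM n h
      have := hl fun i => e.symm.toMonoidHom (f i)
      rw [lift_map] at this
      exact absurd (e.symm.injective (this.trans (map_one _).symm) ▸ one_mem _) hf
    · refine le_max_of_le_left ?_
      rw [Nat.card_congr e.toEquiv]
      refine (Subgroup.card_le_card_group _).trans ?_
      rw [Nat.card_perm, Nat.card_fin]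
      exact Nat.factorial_le (by omega)
  · by_cases h : n < M ∧ Fintype.card F < N
    · exact le_max_of_le_right (card_le e _ Subtype.val_injective (by omega) (by simp; omega))
    · exact absurd hl ((hSL F n hn h).not_law e)
  · by_cases h : n < M ∧ Fintype.card F < N
    · exact le_max_of_le_right (card_le e _ Subtype.val_injective (by omega) (by simp; omega))
    · refine absurd hl (((hSL F n hn h).map ((lev n).codRestrict (symplecticGroup (Fin n) F)
        fun A => ?_) fun _ _ h => lev_inj n (Subtype.mk.inj h)).not_law e)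
      rw [SymplecticGroup.mem_iff]
      change fromBlocks _ _ _ _ * fromBlocks _ _ _ _ * (fromBlocks _ _ _ _)ᵀ = fromBlocks _ _ _ _
      have h1 : A.1 * A.1.adjugate = 1 := by rw [mul_adjugate, A.2, one_smul]
      have h2 := congrArg transpose h1
      rw [transpose_mul, transpose_one] at h2
      simp [fromBlocks_multiply, fromBlocks_transpose, h1, h2]
  · by_cases h : n < M ∧ q < N
    · exact le_max_of_le_right (card_le e (fun x => x.1.1)
        (Subtype.val_injective.comp Subtype.val_injective) (by nlinarith) (by simp; omega))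
    refine absurd hl (NC.not_law ?_ e)
    by_cases h1 : M ≤ n
    · exact (hM n h1).map ((pm n).codRestrict _ (pm_herm n q))
        fun _ _ h => pm_inj n (Subtype.mk.inj h)
    · obtain ⟨k, rfl⟩ := Nat.exists_eq_add_of_le (show 2 ≤ n by omega)
      have hq' : IsPrimePow q := by
        have := Fintype.isPrimePow_card_of_field (α := F)
        rwa [hq, isPrimePow_pow_iff (by omega)] at this
      obtain ⟨p, j, hp, hj, rfl⟩ := (isPrimePow_nat_iff _).1 hq'
      have := Fact.mk hp
      have := Fintype.ofFinite (GaloisField p j)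
      have hc := GaloisField.card p j hj.ne'
      obtain ⟨e2⟩ := Cfsg.Lib.Unitary.nonempty_SU_two_equiv hq hc
      exact ((h2 (GaloisField p j) (by rw [← Nat.card_eq_fintype_card]; omega)).map
        e2.symm.toMonoidHom e2.symm.injective).map
        (((blk2 k).comp (Subgroup.subtype _)).codRestrict _ fun A => blk2_herm k _ A.1 A.2)
        fun _ _ h => Subtype.ext (blk2_inj k (Subtype.mk.inj h))
  · by_cases h : n < M ∧ Fintype.card F < N
    · exact le_max_of_le_right (card_le e (fun x => x.1.1.1) (Units.val_injective.comp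
        (Subtype.val_injective.comp Subtype.val_injective)) (by omega) (by simp; omega))
    · refine absurd hl (((hSL F n (by omega) h).omega hn _ ((blkR Unit _).comp (lev n))
        (fun _ _ h => lev_inj n (fromBlocks_inj.1 h).2.2.2) fun A v => ?_).not_law e)
      change (fromBlocks 1 0 0 (lev n A) *ᵥ v) (.inl ()) ^ 2 +
        ∑ i, (fromBlocks 1 0 0 (lev n A) *ᵥ v) (.inr (.inl i)) *
          (fromBlocks 1 0 0 (lev n A) *ᵥ v) (.inr (.inr i))
        = v (.inl ()) ^ 2 + ∑ i, v (.inr (.inl i)) * v (.inr (.inr i))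
      simp [fromBlocks_mulVec, lev_form]
  · by_cases h : n < M ∧ Fintype.card F < N
    · exact le_max_of_le_right (card_le e (fun x => x.1.1.1) (Units.val_injective.comp
        (Subtype.val_injective.comp Subtype.val_injective)) (by omega) (by simp; omega))
    · exact absurd hl (((hSL F n (by omega) h).omega (by omega) _ (lev n) (lev_inj n)
        (lev_form n)).not_law e)
  · by_cases h : n - 1 < M ∧ Fintype.card F < N
    · exact le_max_of_le_right (card_le e (fun x => x.1.1.1) (Units.val_injective.comp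
        (Subtype.val_injective.comp Subtype.val_injective)) (by omega) (by simp; omega))
    · refine absurd hl (((hSL F (n - 1) (by omega) h).omega (by omega) _
        ((blkL _ (Fin 2)).comp (lev _))
        (fun _ _ h => lev_inj _ (fromBlocks_inj.1 h).1) fun A v => ?_).not_law e)
      change ∑ i, (fromBlocks (lev _ A) 0 0 1 *ᵥ v) (.inl (.inl i)) *
          (fromBlocks (lev _ A) 0 0 1 *ᵥ v) (.inl (.inr i)) +
          ((fromBlocks (lev _ A) 0 0 1 *ᵥ v) (.inr 0) ^ 2 +
            a * (fromBlocks (lev _ A) 0 0 1 *ᵥ v) (.inr 0) * (fromBlocks (lev _ A) 0 0 1 *ᵥ v) (.inr 1)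
            + b * (fromBlocks (lev _ A) 0 0 1 *ᵥ v) (.inr 1) ^ 2)
        = ∑ i, v (.inl (.inl i)) * v (.inl (.inr i)) +
          (v (.inr 0) ^ 2 + a * v (.inr 0) * v (.inr 1) + b * v (.inr 1) ^ 2)
      simp [fromBlocks_mulVec, lev_form]

end Cfsg.Agent.S2355
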