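import Cfsg.Statements.S2360
import Cfsg.Agent.Lib.Unitary.Inv3
import Cfsg.Agent.Lib.Char.Column

set_option autoImplicit false
open Cfsg

namespace Cfsg.Agent.S2360

open Cfsg.Lib.Unitary Module

/-- Let q be odd, F the field with q² elements and S = SU_3(F) (determinant-one isometries of the standard Hermitian form). Then all involutions of S are conjugate; there are exactly q²(q²−q+1) of them; the centralizer of an involution has order q(q+1)(q²−1), the order of the full unitary group of degree 2; and for two distinct commuting involutions t and x there is exactly one further involution commuting with both. -/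
theorem result {F : Type*} [Field F] [Fintype F] {q : ℕ} (hq : Odd q)
    (hF : Fintype.card F = q ^ 2) (t : ↥(Cfsg.SU 3 F q)) (ht : t ≠ 1) (ht2 : t * t = 1) :
    (∀ x : ↥(Cfsg.SU 3 F q), x ≠ 1 → x * x = 1 → ∃ g : ↥(Cfsg.SU 3 F q), g * t * g⁻¹ = x) ∧
    Nat.card {x : ↥(Cfsg.SU 3 F q) // x ≠ 1 ∧ x * x = 1} = q ^ 2 * (q ^ 2 - q + 1) ∧
    Nat.card ↥(Subgroup.centralizer ({t} : Set ↥(Cfsg.SU 3 F q))) = q * (q + 1) * (q ^ 2 - 1) ∧
    ∀ x : ↥(Cfsg.SU 3 F q), x ≠ 1 → x * x = 1 → x ≠ t → Commute t x →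
      Nat.card {y : ↥(Cfsg.SU 3 F q) // y ≠ 1 ∧ y * y = 1 ∧ y ≠ t ∧ y ≠ x ∧ Commute t y ∧ Commute x y} = 1 := by
  classical
  obtain ⟨σ, hσ⟩ := exists_isBar hF
  have h := hσ.isHerm (ι := Fin 3)
  have hn : finrank F (Fin 3 → F) = 3 := by simp
  have h2 : (2 : F) ≠ 0 := fun h0 => by
    obtain ⟨k, rfl⟩ := hq
    have := hσ.cast_q
    simp [h0] at this
  let e := hσ.suEquiv 3
  obtain ⟨v, hv⟩ := exists_isI_of_inv h hn h2 e ht ht2
  have hv0 : v ≠ 0 := fun h0 => by simpa [h0] using hv.1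
  have hconj : ∀ x : ↥(Cfsg.SU 3 F q), x ≠ 1 → x * x = 1 →
      ∃ g : ↥(Cfsg.SU 3 F q), g * t * g⁻¹ = x := fun x hx hx2 => by
    obtain ⟨w, hw⟩ := exists_isI_of_inv h hn h2 e hx hx2
    obtain ⟨g, hg, hgv⟩ := h.exists_SUG_vec hn.ge hv0 (fun h0 => by simpa [h0] using hw.1)
      (hv.1.trans hw.1.symm)
    have := hv.conj (e.symm ⟨g, hg⟩)
    rw [e.apply_symm_apply, hgv] at this
    exact ⟨_, this.unique hw⟩
  have hcard : Nat.card {x : ↥(Cfsg.SU 3 F q) // x ≠ 1 ∧ x * x = 1} = q ^ 2 * (q ^ 2 - q + 1) := by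
    have := card_inv_mul h hn h2 hσ e (P := fun _ => True) (Q := fun _ => True) fun _ _ _ => Iff.rfl
    rw [card_unit_three h hn hσ] at this
    simpa using this
  refine ⟨hconj, hcard, ?_, fun x hx hx2 hxt hc => ?_⟩
  · have h3 := Cfsg.Lib.Char.card_filter_isConj t
    rw [← Fintype.card_subtype, ← Nat.card_eq_fintype_card, Nat.card_congr
      (Equiv.subtypeEquivRight (q := fun x => x ≠ 1 ∧ x * x = 1) fun x => ⟨fun hx => by
        obtain ⟨g, rfl⟩ := isConj_iff.1 hx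
        exact ⟨(hv.conj g).ne_one h hn h2, (hv.conj g).mul_self⟩,
      fun hx => isConj_iff.2 (hconj x hx.1 hx.2)⟩), hcard] at h3
    have h4 := (Subgroup.centralizer ({t} : Set ↥(Cfsg.SU 3 F q))).card_mul_index
    rw [← h3, Nat.card_congr e.toEquiv, h.card_SUG_three hσ hn] at h4
    refine Nat.eq_of_mul_eq_mul_right (show 0 < q ^ 2 * (q ^ 2 - q + 1) by
      have := hσ.two_le; positivity) (h4.trans ?_)
    obtain ⟨k, hk⟩ := Nat.exists_eq_add_of_le (Nat.le_self_pow two_ne_zero q)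
    have : q ^ 3 + 1 = (q + 1) * (q ^ 2 - q + 1) := by
      rw [pow_succ, hk, Nat.add_sub_cancel_left]; nlinarith
    rw [this]; ring
  · obtain ⟨w, hw⟩ := exists_isI_of_inv h hn h2 e hx hx2
    have hvw := ((hv.commute_iff h h2 hw).1 hc).resolve_left hxt.symm
    obtain ⟨u, hu, e1, e2⟩ := (exists_unit_perp_iff h hn hv.1 (fun h0 => by simpa [h0] using hw.1)
      hvw).2 (by simp [hw.1])
    obtain ⟨y, hy⟩ := exists_isI h hn e hu
    rw [Nat.card_eq_one_iff_exists]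
    refine ⟨⟨y, hy.ne_one h hn h2, hy.mul_self, (hv.ne_of_perp h2 hy e1).symm,
      (hw.ne_of_perp h2 hy e2).symm, (hv.commute_iff h h2 hy).2 (.inr e1),
      (hw.commute_iff h h2 hy).2 (.inr e2)⟩, ?_⟩
    rintro ⟨y', h1, h1', h3, h4, h5, h6⟩
    obtain ⟨u', hu'⟩ := exists_isI_of_inv h hn h2 e h1 h1'
    obtain ⟨c, hc⟩ := exists_smul_of_perp_two h hn hv.1 hw.1 hvw (fun h0 => by simp [h0] at hu)
      e1 e2 (((hv.commute_iff h h2 hu').1 h5).resolve_left h3.symm)
      (((hw.commute_iff h h2 hu').1 h6).resolve_left h4.symm)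
    exact Subtype.ext ((hc ▸ hu').unique (hy.smul (norm_of_eq_smul hu hu'.1 hc)))

end Cfsg.Agent.S2360
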