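import Cfsg.Statements.S2356
import Cfsg.Agent.Lib.Unitary.Inv3
import Cfsg.Agent.S2360

set_option autoImplicit false
open Cfsg

namespace Cfsg.Agent.S2356

open Cfsg.Lib.Unitary Module

/-- Let q be odd, F the field with q² elements, S = SU_3(F) (determinant-one isometries of the standard Hermitian form) and t an involution of S. Then: exactly q(q−1) involutions other than t commute with t; exactly q(q−2)(q²−1) involutions do not commute with t but commute with some involution commuting with t; exactly (q+1)(q²−1) involutions x do not commute with t and admit no involution commuting with both t and x; and every involution can be reached from t in at most three steps, each step going to an involution that commutes with the previous one (the commuting involution graph is connected of diameter 3). -/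
theorem result {F : Type*} [Field F] [Fintype F] {q : ℕ} (hq : Odd q)
    (hF : Fintype.card F = q ^ 2) (t : ↥(Cfsg.SU 3 F q)) (ht : t ≠ 1) (ht2 : t * t = 1) :
    Nat.card {x : ↥(Cfsg.SU 3 F q) // x ≠ 1 ∧ x * x = 1 ∧ x ≠ t ∧ Commute t x} = q * (q - 1) ∧
    Nat.card {x : ↥(Cfsg.SU 3 F q) // x ≠ 1 ∧ x * x = 1 ∧ ¬ Commute t x ∧
        ∃ y : ↥(Cfsg.SU 3 F q), y ≠ 1 ∧ y * y = 1 ∧ Commute t y ∧ Commute y x} = q * (q - 2) * (q ^ 2 - 1) ∧
    Nat.card {x : ↥(Cfsg.SU 3 F q) // x ≠ 1 ∧ x * x = 1 ∧ ¬ Commute t x ∧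
        ∀ y : ↥(Cfsg.SU 3 F q), y ≠ 1 → y * y = 1 → ¬ (Commute t y ∧ Commute y x)} = (q + 1) * (q ^ 2 - 1) ∧
    ∀ x : ↥(Cfsg.SU 3 F q), x ≠ 1 → x * x = 1 →
      ∃ y z : ↥(Cfsg.SU 3 F q), y ≠ 1 ∧ y * y = 1 ∧ z ≠ 1 ∧ z * z = 1 ∧
        Commute t y ∧ Commute y z ∧ Commute z x := by
  classical
  obtain ⟨σ, hσ⟩ := exists_isBar hF
  have h := hσ.isHerm (ι := Fin 3)
  have hn : finrank F (Fin 3 → F) = 3 := by simp
  have h2 : (2 : F) ≠ 0 := fun h0 => by
    obtain ⟨k, rfl⟩ := hq
    have := hσ.cast_q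
    simp [h0] at this
  let e := hσ.suEquiv 3
  obtain ⟨v, hv⟩ := exists_isI_of_inv h hn h2 e ht ht2
  have h1 : Nat.card {x : ↥(Cfsg.SU 3 F q) // x ≠ 1 ∧ x * x = 1 ∧ x ≠ t ∧ Commute t x} =
      q * (q - 1) := by
    have := card_inv_mul h hn h2 hσ e (P := fun x => x ≠ t ∧ Commute t x)
      (Q := fun w => stdForm σ _ v w = 0) fun x w hw => by
        rw [hv.commute_iff h h2 hw]
        exact ⟨fun h => h.2.resolve_left h.1.symm, fun h0 => ⟨(hv.ne_of_perp h2 hw h0).symm, .inr h0⟩⟩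
    rw [card_unit_perp h hn hσ hv.1] at this
    simpa using this
  have h3 : Nat.card {x : ↥(Cfsg.SU 3 F q) // x ≠ 1 ∧ x * x = 1 ∧ ¬ Commute t x ∧
      ∀ y : ↥(Cfsg.SU 3 F q), y ≠ 1 → y * y = 1 → ¬ (Commute t y ∧ Commute y x)} =
      (q + 1) * (q ^ 2 - 1) := by
    refine Nat.eq_of_mul_eq_mul_right (Nat.succ_pos q) ((card_inv_mul h hn h2 hσ e
      fun x w hw => ?_).trans (card_unit_deg h hn hσ hv.1))
    constructor
    · rintro ⟨hc, hy⟩
      refine ⟨((hv.not_commute_iff h h2 hw).1 hc).1, by_contra fun h0 => ?_⟩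
      obtain ⟨y, a, b, c⟩ := (hv.exists_common_iff h hn h2 hw hc).2 h0
      exact hy y a b c
    · rintro ⟨h4, h5⟩
      have hc : ¬ Commute t x := (hv.not_commute_iff h h2 hw).2 ⟨h4, fun h0 => by
        simp [h0, hw.1] at h5⟩
      exact ⟨hc, fun y a b c => (hv.exists_common_iff h hn h2 hw hc).1 ⟨y, a, b, c⟩ h5⟩
  refine ⟨h1, ?_, h3, fun x hx hx2 => ?_⟩
  · have h4 := (Cfsg.Agent.S2360.result hq hF t ht ht2).2.1
    simp only [Nat.card_eq_fintype_card, Fintype.card_subtype] at h1 h3 h4 ⊢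
    set S := Finset.univ.filter fun x : ↥(Cfsg.SU 3 F q) => x ≠ 1 ∧ x * x = 1
    have e1 := Finset.card_filter_add_card_filter_not (s := S) fun x => Commute t x
    have e2 := Finset.card_filter_add_card_filter_not (s := S.filter fun x => Commute t x)
      fun x => x ≠ t
    have e3 := Finset.card_filter_add_card_filter_not (s := S.filter fun x => ¬ Commute t x)
      fun x => ∃ y : ↥(Cfsg.SU 3 F q), y ≠ 1 ∧ y * y = 1 ∧ Commute t y ∧ Commute y x
    have e4 : ((S.filter fun x => Commute t x).filter fun x => ¬ x ≠ t) = {t} := by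
      ext x
      simp only [S, Finset.mem_filter, Finset.mem_univ, true_and, not_not, Finset.mem_singleton]
      exact ⟨fun h => h.2, by rintro rfl; exact ⟨⟨⟨ht, ht2⟩, .refl _⟩, rfl⟩⟩
    rw [e4, Finset.card_singleton] at e2
    simp only [S, Finset.filter_filter, and_assoc, not_exists, not_and] at e1 e2 e3 h1 h3 h4 ⊢
    simp only [and_comm (a := Commute t _) (b := _ ≠ t)] at e2
    rw [h1] at e2
    rw [h3] at e3
    rw [h4, ← e2, ← e3] at e1
    obtain ⟨k, rfl⟩ := Nat.exists_eq_add_of_le' hσ.two_le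
    have a1 : (k + 2) ^ 2 - 1 = k ^ 2 + 4 * k + 3 := Nat.sub_eq_of_eq_add (by ring)
    have a2 : (k + 2) ^ 2 - (k + 2) = k ^ 2 + 3 * k + 2 := Nat.sub_eq_of_eq_add (by ring)
    rw [a1, a2, show k + 2 - 1 = k + 1 from rfl] at e1
    rw [a1, Nat.add_sub_cancel]
    nlinarith
  · obtain ⟨w, hw⟩ := exists_isI_of_inv h hn h2 e hx hx2
    exact hv.exists_path h hn h2 hσ (by rintro rfl; exact absurd hq (by decide)) hw

end Cfsg.Agent.S2356
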