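import Cfsg.Statements.S2385
import Cfsg.Agent.Lib.Symp.WallT
import Cfsg.Agent.Lib.GLC.Ord2

set_option autoImplicit false
open Cfsg

namespace Cfsg.Agent.S2385

/-- In the symplectic group `Sp_{2n}(q)`, `q` a power of the prime `p`, the number of conjugacy classes of elements of order prime to `p` is `q^n`. -/
theorem result {F : Type*} [Field F] [Fintype F] {q : ℕ} (hq : Fintype.card F = q) (p : ℕ) [Fact p.Prime] [CharP F p] (n : ℕ) :
    Nat.card {c : ConjClasses ↥(Matrix.symplecticGroup (Fin n) F) //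
      ∃ g : ↥(Matrix.symplecticGroup (Fin n) F), ConjClasses.mk g = c ∧ (orderOf g).Coprime p} = q ^ n := by
  open Cfsg.Lib.Symp Cfsg.Lib.GLC Polynomial Matrix in
  rw [card_classes' (τ := fun g => g.1.charpoly) (q := fun P => P.natDegree = 2 * n ∧ P.coeff 0 = 1 ∧
    ∀ i ≤ 2 * n, P.coeff (2 * n - i) = P.coeff i) (h := fun a b => sp_isConj_iff_charpoly p)]
  · rw [← hq, ← Nat.card_eq_fintype_card, ← Nat.card_fin n, ← Nat.card_fun, Nat.card_fin]
    refine Nat.card_congr (.ofBijective (fun P j => P.1.coeff (j + 1)) ⟨fun P Q h => ?_, fun c => ?_⟩)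
    · have h1 : ∀ i ≤ n, P.1.coeff i = Q.1.coeff i := fun i hi => by
        rcases i with _ | i
        exacts [P.2.2.1.trans Q.2.2.1.symm, congrFun h ⟨i, hi⟩]
      refine Subtype.ext (Polynomial.ext fun i => ?_)
      rcases le_or_gt i (2 * n) with hi | hi
      · rcases le_total i n with h2 | h2
        · exact h1 i h2
        · rw [← P.2.2.2 i hi, ← Q.2.2.2 i hi, h1 _ (by omega)]
      · rw [coeff_eq_zero_of_natDegree_lt (P.2.1.trans_lt hi),
          coeff_eq_zero_of_natDegree_lt (Q.2.1.trans_lt hi)]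
    · let a : ℕ → F := fun j => if h : j - 1 < n ∧ j ≠ 0 then c ⟨j - 1, h.1⟩ else 1
      let P : F[X] := ∑ i ∈ .range (2 * n + 1), monomial i (a (min i (2 * n - i)))
      have hP : ∀ i, P.coeff i = if i < 2 * n + 1 then a (min i (2 * n - i)) else 0 := fun i => by
        simp [P, coeff_monomial]
      refine ⟨⟨P, natDegree_eq_of_le_of_coeff_ne_zero (natDegree_le_iff_coeff_eq_zero.2 fun i hi => by
        rw [hP, if_neg (by omega)]) (by simp [hP, a]), by simp [hP, a], fun i hi => ?_⟩,
        funext fun j => ?_⟩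
      · rw [hP, hP, if_pos (by omega), if_pos (by omega), Nat.sub_sub_self hi, min_comm]
      · simp only [hP]; rw [if_pos (by omega), min_eq_left (by omega)]; simp [a]
  refine fun P => ⟨fun ⟨h1, h2, h3⟩ => ?_, fun ⟨g, _, h⟩ => ?_⟩
  · have hP : P.Monic := by rw [Monic, leadingCoeff, h1, ← h2]; exact h3 0 (by omega)
    haveI := hP.finite_adjoinRoot
    obtain ⟨B, hB⟩ := exists_spE_cyc hP h2 (rdual_eq_of_coeff h2 (h1 ▸ h3)) (h1 ▸ even_two_mul n)
    obtain ⟨a, ha⟩ := hB.exists_sp (l := Fin n) (by simp [finrank_adjoinRoot, h1])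
    obtain ⟨k, m, h4, h5⟩ := Nat.exists_eq_pow_mul_and_not_dvd (orderOf_pos a).ne' p
      (Fact.out : p.Prime).ne_one
    refine ⟨a ^ Fintype.card F ^ k, .of_dvd_left (orderOf_dvd_of_pow_eq_one ?_)
      ((Nat.Prime.coprime_iff_not_dvd Fact.out).2 h4).symm, ?_⟩
    · rw [← pow_mul, ← orderOf_dvd_iff_pow_eq_one, h5, ← Nat.card_eq_fintype_card]
      exact mul_dvd_mul_right (pow_dvd_pow_of_dvd (char_dvd_card p) k) m
    · have : ∀ k, (a.1 ^ Fintype.card F ^ k).charpoly = a.1.charpoly := fun k => by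
        induction k with
        | zero => simp
        | succ k ih => rw [pow_succ, pow_mul, FiniteField.Matrix.charpoly_pow_card, ih]
      exact (this k).trans (by rw [← charpoly_toLin', ha.sim.charpoly_eq, charpoly_cyc hP])
  · have h1 := (spE_sp g).charpoly_coeff_zero
    have h2 := (spE_sp g).rdual_charpoly
    rw [charpoly_toLin', h] at h1 h2
    have h3 : P.natDegree = 2 * n := by simp [← h, two_mul]
    exact ⟨h3, h1, fun i hi => by simpa [h1, h3] using coeff_of_rdual_eq h2 (by simp [h1]) (h3 ▸ hi)⟩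

end Cfsg.Agent.S2385
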