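import Cfsg.Statements.S2386
import Cfsg.Agent.Lib.Unitary.Wall3

set_option autoImplicit false
open Cfsg

namespace Cfsg.Agent.S2386

/-- In the special unitary group `SU_n(q)` (matrices of determinant one over the field with `q²` elements preserving the standard Hermitian form), `q` a power of the prime `p`, the number of conjugacy classes of elements of order prime to `p` is `q^(n-1)`. -/
theorem result {F : Type*} [Field F] [Fintype F] {q : ℕ} (hF : Fintype.card F = q ^ 2) (p : ℕ) [Fact p.Prime] [CharP F p] (n : ℕ) (hn : 1 ≤ n) :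
    Nat.card {c : ConjClasses ↥(Cfsg.SU n F q) // ∃ g : ↥(Cfsg.SU n F q), ConjClasses.mk g = c ∧ (orderOf g).Coprime p} = q ^ (n - 1) := by
  open Lib.GLC Lib.Unitary Matrix Polynomial in
  obtain ⟨σ, hσ⟩ := exists_isBar hF
  obtain ⟨m, rfl⟩ : ∃ m, n = m + 1 := ⟨n - 1, by omega⟩
  have h1 : ∀ g : SU (m + 1) F q, (orderOf g).Coprime p ↔ Module.End.IsSemisimple (toLin' g.1.1) :=
    fun g => by
      rw [← Subgroup.orderOf_coe, ← orderOf_toLin'_sl]
      exact coprime_iff_isSemisimple p (isUnit_toLin'_gl (SpecialLinearGroup.toGL g.1))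
  have h0 : ∀ f : Matrix (Fin (m + 1)) (Fin (m + 1)) F,
      f.det = 1 ↔ f.charpoly.coeff 0 = (-1) ^ (m + 1) := fun f => by
    rw [det_eq_sign_charpoly_coeff, Fintype.card_fin]
    rcases neg_one_pow_eq_or F (m + 1) with h | h <;> simp [h, neg_eq_iff_eq_neg]
  refine (card_classes' (fun g : SU (m + 1) F q => (orderOf g).Coprime p)
    (fun g => g.1.1.charpoly) (fun P => (P.Monic ∧ P.natDegree = m + 1) ∧
    P.coeff 0 = (-1) ^ (m + 1) ∧ dual σ P = P) (fun a b ha hb => ⟨fun h => by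
      simpa using (sim_of_sl_isConj ((SU _ F q).subtype.map_isConj h)).charpoly_eq, fun h =>
      hσ.su_isConj_of_sim (sim_of_charpoly_eq ((h1 a).1 ha) ((h1 b).1 hb) (by simpa using h)) (by
        rw [detC_eq_top_of_isSemisimple ((h1 a).1 ha), hσ.map_barHom_top])⟩)
    fun P => ⟨fun ⟨⟨h2, h3⟩, h4, h5⟩ => ?_, ?_⟩).trans (hσ.card_selfDual m ?_)
  · obtain ⟨g, hg, rfl⟩ := hσ.exists_gu_semisimple h2 (by simp [h4]) h3 h5
    obtain ⟨s, rfl⟩ := hσ.exists_su_of_det ((h0 _).2 h4)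
    exact ⟨s, (h1 s).2 hg, rfl⟩
  · rintro ⟨g, -, rfl⟩
    exact ⟨⟨charpoly_monic _, by simp⟩, (h0 _).1 g.1.2, hσ.charpoly_gu (suToGU g)⟩
  · simp [← mul_pow]

end Cfsg.Agent.S2386
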