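import Cfsg.Statements.S2411
import Cfsg.Agent.Lib.Chev.Gen2Cl
import Cfsg.Agent.Lib.Chev.MinGrp

set_option autoImplicit false
open Cfsg

namespace Cfsg.Agent.S2411

open Cfsg.Lib.Chev

/-- The projective symplectic group `PSp_{2m}(q)` with `m ≥ 2` (and `q > 2` if `m = 2`) is generated by two of its elements. -/
theorem result {F : Type*} [Field F] [Fintype F] (m : ℕ) (hm : 2 ≤ m) (hF : m = 2 → 2 < Fintype.card F) :
    ∃ a b : Cfsg.PSp m F, Subgroup.closure ({a, b} : Set (Cfsg.PSp m F)) = ⊤ := by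
  classical
  refine (ChevSys.twoGen_C (realSp F m).strongComm (eucC m).noG2 (realSp F m).grp_eq hm rfl
    fun h => ?_).map (QuotientGroup.mk'_surjective _)
  obtain ⟨x, h1⟩ := Finset.exists_mem_notMem_of_card_lt_card (s := {0, 1}) (t := Finset.univ)
    (Finset.card_le_two.trans_lt (hF h))
  exact ⟨x, by simpa using h1⟩

end Cfsg.Agent.S2411
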