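import Cfsg.Statements.S2444
import Cfsg.Agent.Lib.Ore.Tail

set_option autoImplicit false
open Cfsg

namespace Cfsg.Agent.S2444

open Cfsg.Lib.Ore Matrix in

/-- In the special linear group SL(n,F) over a finite field F, with n ≥ 2 and (n, |F|) not (2,2) or (2,3), every element is a commutator a·b·a⁻¹·b⁻¹ of two elements of SL(n,F). -/
theorem result {F : Type*} [Field F] [Fintype F] (n : ℕ) (hn : 2 ≤ n) (hex : n = 2 → 4 ≤ Fintype.card F) :
    ∀ g : Matrix.SpecialLinearGroup (Fin n) F, ∃ a b : Matrix.SpecialLinearGroup (Fin n) F, g = a * b * a⁻¹ * b⁻¹ := by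
  classical
  intro g
  have key : ∀ (p : ℕ) [Fact p.Prime], Fintype.card F = p → (∀ g : SpecialLinearGroup (Fin n) (ZMod p),
      Comm (toLin' g.1)) → ∃ a b, g = a * b * a⁻¹ * b⁻¹ := fun p _ h1 h2 => by
    let e := ZMod.ringEquivOfPrime F Fact.out h1
    obtain ⟨a, b, h⟩ := (h2 (SpecialLinearGroup.map e.symm.toRingHom g)).sl
    refine ⟨SpecialLinearGroup.map e.toRingHom a, SpecialLinearGroup.map e.toRingHom b, ?_⟩
    rw [← map_inv, ← map_inv, ← map_mul, ← map_mul, ← map_mul, ← h]
    ext i j
    simp
  by_cases h4 : 4 ≤ Fintype.card F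
  · refine (comm_of_four (fun a b c => ?_) (by simp)).sl
    by_contra h
    have h1 : ({a, b, c} : Finset F) = Finset.univ := Finset.eq_univ_of_forall fun t => by
      by_contra h2
      exact h ⟨t, by simpa [not_or] using h2⟩
    have h3 := Finset.card_le_three (a := a) (b := b) (c := c)
    rw [h1, Finset.card_univ] at h3
    omega
  have h3 : 3 ≤ n := by
    by_contra h
    exact h4 (hex (by omega))
  have h2 : 1 < Fintype.card F := Fintype.one_lt_card
  rcases (show Fintype.card F = 2 ∨ Fintype.card F = 3 by omega) with h | h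
  · exact key 2 h fun g => comm_zmod_two (by simpa) (by simp)
  · exact key 3 h fun g => comm_zmod_three (by simpa) (by simp)

end Cfsg.Agent.S2444
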