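import Cfsg.Statements.S2446
import Cfsg.Agent.Lib.OreU.Main

set_option autoImplicit false
open Cfsg

namespace Cfsg.Agent.S2446



/-- In the special unitary group SU(n,q), n ≥ 3, realised over the field F with q² elements as the determinant-one isometries of the standard Hermitian form, and with (n,q) ≠ (3,2), every element is a commutator a·b·a⁻¹·b⁻¹ of two elements of SU(n,q). -/
theorem result {F : Type*} [Field F] [Fintype F] (n q : ℕ) (hn : 3 ≤ n) (hF : Fintype.card F = q ^ 2) (hex : ¬ (n = 3 ∧ q = 2)) :
    ∀ g : Cfsg.SU n F q, ∃ a b : Cfsg.SU n F q, g = a * b * a⁻¹ * b⁻¹ := by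
  exact fun g => Cfsg.Lib.OreU.isC_su hn hF hex g

end Cfsg.Agent.S2446
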