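import Cfsg.Statements.S2449
import Cfsg.Agent.Lib.OreC.Ev2

set_option autoImplicit false
open Cfsg

namespace Cfsg.Agent.S2449



/-- Let F be a finite field and n ≥ 4, and let Ω⁻(2n,F) be the commutator subgroup of the orthogonal group of the quadratic form given by n − 1 hyperbolic planes plus an anisotropic binary form z₁² + a z₁z₂ + b z₂². Then every element of Ω⁻(2n,F) is a commutator a·b·a⁻¹·b⁻¹ of two elements of Ω⁻(2n,F). -/
theorem result {F : Type*} [Field F] [Fintype F] (n : ℕ) (hn : 4 ≤ n) (a b : F)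
    (hab : ∀ z₁ z₂ : F, z₁ ^ 2 + a * z₁ * z₂ + b * z₂ ^ 2 = 0 → z₁ = 0 ∧ z₂ = 0) :
    ∀ g : Cfsg.Omega F (Cfsg.quadFormMinus (n - 1) F a b), ∃ x y : Cfsg.Omega F (Cfsg.quadFormMinus (n - 1) F a b), g = x * y * x⁻¹ * y⁻¹ := by
  exact Cfsg.Lib.OreC.omega_of_icg (Q := Cfsg.Lib.Orth.qMinus (n - 1) F a b)
    (Cfsg.Lib.OreC.icg_orth (Cfsg.Lib.Orth.nd_qMinus _ hab) (by simp; omega))

end Cfsg.Agent.S2449
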