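import Cfsg.Statements.S2450
import Cfsg.Agent.Lib.CharDeg.PSL2Prod

set_option autoImplicit false
open Cfsg

namespace Cfsg.Agent.S2450

open Cfsg.Lib.GLTwo Cfsg.Lib.Char Cfsg.Lib.PSL2 in

/-- The Arad–Herzog conjecture for PSL(2,q): let F be a finite field with q ≥ 4 elements. For any two non-identity elements a, b of PSL(2,F), the set of products of a conjugate of a with a conjugate of b is not a single conjugacy class. -/
theorem result {F : Type*} [Field F] [Fintype F] (h4 : 4 ≤ Fintype.card F)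
    (a b : Matrix.ProjectiveSpecialLinearGroup (Fin 2) F) (ha : a ≠ 1) (hb : b ≠ 1) (c : Matrix.ProjectiveSpecialLinearGroup (Fin 2) F) :
    {g : Matrix.ProjectiveSpecialLinearGroup (Fin 2) F | ∃ u v : Matrix.ProjectiveSpecialLinearGroup (Fin 2) F, g = (u * a * u⁻¹) * (v * b * v⁻¹)} ≠ {g | IsConj c g} := by
  intro H
  have key : ∀ s t s' t' : Matrix.SpecialLinearGroup (Fin 2) F, IsConj a (toL s) → IsConj b (toL t) →
      IsConj a (toL s') → IsConj b (toL t') → trs (s * t) ^ 2 = trs (s' * t') ^ 2 := by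
    have k1 : ∀ s t : Matrix.SpecialLinearGroup (Fin 2) F, IsConj a (toL s) → IsConj b (toL t) →
        trs (s * t) ^ 2 = tau (toP c) := by
      intro s t h1 h2
      obtain ⟨u, hu⟩ := isConj_iff.1 h1
      obtain ⟨v, hv⟩ := isConj_iff.1 h2
      have : IsConj c (toL (s * t)) := H.le ⟨u, v, by rw [hu, hv, map_mul]⟩
      rw [← tau_toL, tau_of_isConj (toP.map_isConj this)]
    intro s t s' t' h1 h2 h3 h4
    rw [k1 s t h1 h2, k1 s' t' h3 h4]
  obtain ⟨r, hr0, hr1⟩ := exists_ne_zero_sq_ne_one h4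
  have hsq : ∀ α : F, ∃ γ δ : F, γ ^ 2 ≠ α ^ 2 ∧ δ ^ 2 ≠ α ^ 2 ∧ γ ^ 2 ≠ δ ^ 2 := by
    intro α
    have h1 : (0 : F) ^ 2 ≠ 1 ^ 2 := by simp
    have h2 : (0 : F) ^ 2 ≠ r ^ 2 := by simpa using (pow_ne_zero 2 hr0).symm
    have h3 : (1 : F) ^ 2 ≠ r ^ 2 := by simpa [eq_comm] using hr1
    by_cases e : (0 : F) ^ 2 = α ^ 2
    · exact ⟨1, r, e ▸ h1.symm, e ▸ h2.symm, h3⟩
    · by_cases e' : (1 : F) ^ 2 = α ^ 2
      · exact ⟨0, r, e, e' ▸ h3.symm, h2⟩
      · exact ⟨0, 1, e, e', h1⟩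
  obtain ⟨s, rfl⟩ := toL_surjective a
  obtain ⟨t, rfl⟩ := toL_surjective b
  have hs : ¬ Scal (s : Matrix (Fin 2) (Fin 2) F) := fun e => ha (toL_eq_one_iff.2 (scal_sl_iff.1 e))
  have ht : ¬ Scal (t : Matrix (Fin 2) (Fin 2) F) := fun e => hb (toL_eq_one_iff.2 (scal_sl_iff.1 e))
  have hc : ∀ u s : Matrix.SpecialLinearGroup (Fin 2) F, IsConj (toL s) (toL (u * s * u⁻¹)) :=
    fun u s => toL.map_isConj (isConj_iff.2 ⟨u, rfl⟩)
  by_cases h1 : Reg s
  · obtain ⟨γ, δ, e1, e2, e3⟩ := hsq (trs s)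
    obtain ⟨u, hu⟩ := h1.exists_trs_mul ht e1
    obtain ⟨v, hv⟩ := h1.exists_trs_mul ht e2
    exact e3 (by rw [← hu, ← hv]; exact key _ _ _ _ (hc u s) (IsConj.refl _) (hc v s) (IsConj.refl _))
  by_cases h2 : Reg t
  · obtain ⟨γ, δ, e1, e2, e3⟩ := hsq (trs t)
    obtain ⟨u, hu⟩ := h2.exists_trs_mul hs e1
    obtain ⟨v, hv⟩ := h2.exists_trs_mul hs e2
    rw [trs_mul_comm] at hu hv
    exact e3 (by rw [← hu, ← hv]; exact key _ _ _ _ (IsConj.refl _) (hc u t) (IsConj.refl _) (hc v t))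
  have hun : ∀ s : Matrix.SpecialLinearGroup (Fin 2) F, ¬ Scal (s : Matrix (Fin 2) (Fin 2) F) →
      ¬ Reg s → ∃ x : F, x ≠ 0 ∧ IsConj (toL s) (toL (upper x)) := by
    intro s hs h
    by_cases h2 : (2 : F) = 0
    · rcases sl_cases s with e | ⟨x, hx, e | e⟩ | ⟨a, ha, e⟩ | e
      · exact (hs (scal_sl_iff.2 e)).elim
      · exact ⟨x, hx, toL.map_isConj e⟩
      · exact ⟨x, hx, toL_neg (upper x) ▸ toL.map_isConj e⟩
      · exact (h ((reg_dgs.2 ha).of_isConj e.symm)).elim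
      · refine (ell_iff.1 e 1 ?_).elim
        have h3 : trs s ^ 2 = 4 := not_not.1 h
        have h4 : trs s = 0 := pow_eq_zero_iff two_ne_zero |>.1 (by linear_combination h3 + 2 * h2)
        rw [trs_eq, h4, s.det_coe]
        linear_combination h2
    · rcases sl_cases s with e | ⟨x, hx, e | e⟩ | ⟨a, ha, e⟩ | e
      · exact (hs (scal_sl_iff.2 e)).elim
      · exact ⟨x, hx, toL.map_isConj e⟩
      · exact ⟨x, hx, toL_neg (upper x) ▸ toL.map_isConj e⟩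
      · exact (h ((reg_dgs.2 ha).of_isConj e.symm)).elim
      · exact (h (e.reg h2)).elim
  obtain ⟨x, hx, e1⟩ := hun s hs h1
  obtain ⟨y, hy, e2⟩ := hun t ht h2
  have k2 : ∀ ρ : F, ρ ≠ 0 → x * y * ρ ^ 2 = 4 := by
    intro ρ hρ
    let w : Matrix.SpecialLinearGroup (Fin 2) F := sl2 0 (-ρ⁻¹) ρ 0 (by field_simp; ring)
    have := key _ _ _ _ e1 e2 e1 (e2.trans (hc w _))
    obtain ⟨i1, i2, i3, i4⟩ := sl_inv_apply w
    simp only [trs, sl_mul_apply, i1, i2, i3, i4] at this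
    simp [w, hρ] at this
    refine mul_left_cancel₀ (mul_ne_zero (mul_ne_zero hx hy) (pow_ne_zero 2 hρ)) ?_
    linear_combination -this
  exact hr1 (mul_left_cancel₀ (mul_ne_zero hx hy) (by linear_combination k2 r hr0 - k2 1 one_ne_zero))

end Cfsg.Agent.S2450
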