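import Cfsg.Statements.S2455
import Cfsg.Agent.Lib.CharDeg.PSL2Prod

set_option autoImplicit false
open Cfsg

namespace Cfsg.Agent.S2455

open Cfsg.Lib.GLTwo Cfsg.Lib.Char Cfsg.Lib.PSL2 in

/-- A strong covering result in the direction of Thompson's conjecture (non-identity elements) for PSL(2,q), q odd: let F be a finite field of odd characteristic p with at least 5 elements and let x ∈ PSL(2,F) have order greater than 2 and not divisible by p (so x is not unipotent). Then every non-identity element of PSL(2,F) is a product of two conjugates of x. -/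
theorem result {F : Type*} [Field F] [Fintype F] (p : ℕ) [Fact p.Prime] [CharP F p] (hp : p ≠ 2) (h5 : 5 ≤ Fintype.card F)
    (x : Matrix.ProjectiveSpecialLinearGroup (Fin 2) F) (hx2 : 2 < orderOf x) (hxp : ¬ p ∣ orderOf x) : ∀ g : Matrix.ProjectiveSpecialLinearGroup (Fin 2) F, g ≠ 1 → ∃ u v : Matrix.ProjectiveSpecialLinearGroup (Fin 2) F, g = (u * x * u⁻¹) * (v * x * v⁻¹) := by
  have h2 := two_ne_zero_iff_odd.2 (odd_card_of_char_ne_two (F := F) p hp)
  have hp' : p.Prime := Fact.out
  obtain ⟨s, rfl⟩ := toL_surjective x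
  have hs : Reg s := reg_of_pow_ne h2 p fun e => by
    have h1 : orderOf (toL s) ∣ 2 * p := orderOf_dvd_of_pow_eq_one (by rw [← map_pow, e, map_one])
    have h3 := Nat.le_of_dvd two_pos
      (((Nat.Prime.coprime_iff_not_dvd hp').2 hxp).symm.dvd_of_dvd_mul_right h1)
    omega
  have hs0 : trs s ≠ 0 := fun e => by
    have h1 : orderOf (toL s) ∣ 2 := orderOf_dvd_of_pow_eq_one (by
      rw [← map_pow, sq, (mul_self_eq_neg_one_iff hs.not_scal).2 e, toL_neg, map_one])
    have h3 := Nat.le_of_dvd two_pos h1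
    omega
  intro g hg
  obtain ⟨h, rfl⟩ := toL_surjective g
  have key : ∀ h : Matrix.SpecialLinearGroup (Fin 2) F, toL h ≠ 1 → trs h ≠ 2 →
      ∃ u v, toL h = u * toL s * u⁻¹ * (v * toL s * v⁻¹) := by
    intro h hh e
    obtain ⟨u, v, e1⟩ := hs.exists_eq_mul hs0 (fun e => hh (toL_eq_one_iff.2 (scal_sl_iff.1 e))) e
    exact ⟨toL u, toL v, by simp only [e1, map_mul, map_inv]⟩
  by_cases e : trs h = 2
  · rw [← toL_neg] at hg ⊢
    refine key _ hg fun e' => mul_ne_zero h2 h2 ?_
    rw [trs_neg] at e'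
    linear_combination -e - e'
  · exact key h hg e

end Cfsg.Agent.S2455
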