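import Cfsg.Statements.S2456
import Cfsg.Agent.Lib.CharDeg.PSL2Prod

set_option autoImplicit false
open Cfsg

namespace Cfsg.Agent.S2456

open Cfsg.Lib.GLTwo Cfsg.Lib.Char Cfsg.Lib.PSL2 in

/-- A strong covering result in the direction of Thompson's conjecture (non-identity elements) for PSL(2,q), q even: let F be a finite field of characteristic 2 with q ≥ 4 elements and let x ∈ PSL(2,F) have order greater than 2 and not dividing q + 1. Then every non-identity element of PSL(2,F) is a product of two conjugates of x. -/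
theorem result {F : Type*} [Field F] [Fintype F] [CharP F 2] (h4 : 4 ≤ Fintype.card F)
    (x : Matrix.ProjectiveSpecialLinearGroup (Fin 2) F) (hx2 : 2 < orderOf x) (hxq : ¬ orderOf x ∣ Fintype.card F + 1) : ∀ g : Matrix.ProjectiveSpecialLinearGroup (Fin 2) F, g ≠ 1 → ∃ u v : Matrix.ProjectiveSpecialLinearGroup (Fin 2) F, g = (u * x * u⁻¹) * (v * x * v⁻¹) := by
  have h2 : (2 : F) = 0 := by exact_mod_cast CharP.cast_eq_zero F 2
  obtain ⟨s, rfl⟩ := toL_surjective x
  rw [orderOf_injective toL (toL_injective h2)] at hx2 hxq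
  have hu : ∀ y : F, upper y ^ 2 = 1 := upper_pow_char 2
  have hn : s ^ 2 ≠ 1 := fun e => by
    have := Nat.le_of_dvd two_pos (orderOf_dvd_of_pow_eq_one e)
    omega
  obtain ⟨a, ha, e⟩ : ∃ a : Fˣ, (a : F) ^ 2 ≠ 1 ∧ IsConj s (dgs a) := by
    rcases sl_cases s with (e | e) | ⟨y, -, e | e⟩ | e | e
    · exact (hn (by rw [e, one_pow])).elim
    · exact (hn (by rw [e, neg_one_sq])).elim
    · exact (hn (pow_eq_one_of_isConj e (hu y))).elim
    · exact (hn (pow_eq_one_of_isConj e (by rw [neg_sq, hu]))).elim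
    · exact e
    · exact (hxq (orderOf_dvd_of_pow_eq_one e.pow_card_add_one)).elim
  have hs : Reg s := (reg_dgs.2 ha).of_isConj e.symm
  have hs0 : trs s ≠ 0 := fun e => hs (by
    change trs s ^ 2 = 4
    rw [e]; linear_combination -2 * h2)
  intro g hg
  obtain ⟨h, rfl⟩ := toL_surjective g
  have hh : ¬ Scal (h : Matrix (Fin 2) (Fin 2) F) := fun e => hg (toL_eq_one_iff.2 (scal_sl_iff.1 e))
  suffices H : ∃ u v, h = u * s * u⁻¹ * (v * s * v⁻¹) by
    obtain ⟨u, v, e1⟩ := H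
    exact ⟨toL u, toL v, by simp only [e1, map_mul, map_inv]⟩
  by_cases e2 : trs h = 2
  · have e3 : bor1 a 0 * bor1 a⁻¹ (a⁻¹ : Fˣ) = upper 1 := by
      rw [bor1_mul, ← bor1_one]; simp
    obtain ⟨φ, e4, e5⟩ := exists_hom_of_trs (s := upper 1) (t := h)
      (fun e => by simpa using e.1) hh (by rw [e2]; simp [trs]; norm_num)
    have t1 : trs s = trs (bor1 a 0) := tr_of_isConj e
    obtain ⟨u, hu⟩ := isConj_iff.1 (hs.isConj_of_trs (t := φ (bor1 a 0)) (by rw [e5, t1]))
    obtain ⟨v, hv⟩ := isConj_iff.1 (hs.isConj_of_trs (t := φ (bor1 a⁻¹ (a⁻¹ : Fˣ)))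
      (by rw [e5, t1]; simp [trs, add_comm]))
    exact ⟨u, v, by rw [hu, hv, ← map_mul, e3, e4]⟩
  · exact hs.exists_eq_mul hs0 hh e2

end Cfsg.Agent.S2456
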