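import Cfsg.Statements.S2457
import Cfsg.Agent.Lib.Sz.Trace
import Cfsg.Agent.Lib.Sz.Instances

set_option autoImplicit false
open Cfsg

namespace Cfsg.Agent.S2457

/-- A strong covering result in the direction of Thompson's conjecture (non-identity elements) for the Suzuki groups: let q = 2^(2m+1) ≥ 8, F the field with q elements and Sz(q) the Suzuki group over F. For every element x of Sz(q) of order greater than 2, every non-identity element of Sz(q) is a product of two conjugates of x. -/
theorem result {F : Type*} [Field F] [Fintype F] (m : ℕ) (hm : 1 ≤ m) (hF : Fintype.card F = 2 ^ (2 * m + 1))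
    (x : Cfsg.Lie.Sz F (2 ^ (m + 1))) (hx2 : 2 < orderOf x) : ∀ g : Cfsg.Lie.Sz F (2 ^ (m + 1)), g ≠ 1 → ∃ u v : Cfsg.Lie.Sz F (2 ^ (m + 1)), g = (u * x * u⁻¹) * (v * x * v⁻¹) := by
  intro g hg
  exact ((Cfsg.Lib.Sz.lieModel hF).pr hm (Nat.card_eq_fintype_card.trans hF)
    (Cfsg.Lib.Sz.exists_ne_zero_ne_one hm hF) hx2 hg).exists

end Cfsg.Agent.S2457
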