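import Cfsg.Statements.S2458
import Cfsg.Agent.Lib.Ree.Sq

set_option autoImplicit false
open Cfsg

namespace Cfsg.Agent.S2458

open Cfsg.Lib.Ree Cfsg.Lib.St Cfsg.Lib.Chev Cfsg.Lib.Twisted

/-- A strong covering result in the direction of Thompson's conjecture (non-identity elements) for the small Ree groups: let q = 3^(2m+1) ≥ 27, K the field with q elements and ²G₂(q) the Ree group over K. For every element x of ²G₂(q) of order greater than 2 and not divisible by 3, every non-identity element of ²G₂(q) is a product of two conjugates of x. -/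
theorem result {K : Type*} [Field K] [Fintype K] (m : ℕ) (hm : 1 ≤ m) (hK : Fintype.card K = 3 ^ (2 * m + 1))
    (x : Cfsg.Lie.twistedG2 K (3 ^ m)) (hx2 : 2 < orderOf x) (hx3 : ¬ 3 ∣ orderOf x) : ∀ g : Cfsg.Lie.twistedG2 K (3 ^ m), g ≠ 1 → ∃ u v : Cfsg.Lie.twistedG2 K (3 ^ m), g = (u * x * u⁻¹) * (v * x * v⁻¹) := by
  intro g hg
  obtain ⟨M, ⟨T⟩⟩ := exists_model_tr hK
  obtain ⟨S, φ, ψ, h⟩ := exists_isG2 hK
  haveI := M.charP
  haveI := Fact.mk Nat.prime_three
  have L : LieP 3 (Cfsg.Lie.twistedG2 K (3 ^ m)) :=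
    (twLieP h.isTw (sysG_grp checkedG2 K) 3 (connG2 _) fun _ ha _ hb =>
      (sysG_adjoint checkedG2 K).hMul.H_comm ha hb).congr
        (equivOfMap (Subgroup.subtype_injective _) map_KG2)
  obtain ⟨_, _, h1, h2, rfl⟩ := Model.good T L (by
    rw [Nat.card_eq_fintype_card, hK]
    exact Nat.pow_le_pow_right three_pos (show 3 ≤ _ by omega)) (sq_eq_three_mul hK)
    ⟨hx3, fun h => hx2.not_ge (Nat.le_of_dvd two_pos h)⟩ hg
  obtain ⟨u, rfl⟩ := isConj_iff.1 h1
  obtain ⟨v, rfl⟩ := isConj_iff.1 h2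
  exact ⟨u, v, rfl⟩

end Cfsg.Agent.S2458
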