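import Cfsg.Statements.S2459
import Cfsg.Agent.Lib.GLC.Cyc

set_option autoImplicit false
open Cfsg

namespace Cfsg.Agent.S2459

open Lib.GLC Matrix Polynomial Module

theorem cp3 {F : Type*} [Field F] (M : Matrix (Fin 3) (Fin 3) F) : M.charpoly = X ^ 3 - C (M 0 0 + M 1 1 + M 2 2) * X ^ 2 +
    C (M 0 0 * M 1 1 - M 0 1 * M 1 0 + M 0 0 * M 2 2 - M 0 2 * M 2 0 + M 1 1 * M 2 2 - M 1 2 * M 2 1) * X - C M.det := by
  simp [charpoly, det_fin_three, charmatrix_apply]; ring

/-- A non-scalar matrix of determinant one is, up to a scalar, a product of two matrices with characteristic polynomial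
`(X ^ 2 - t X + 1) (X - 1)`. -/
theorem key {F : Type*} [Field F] (t : F) (M : Matrix (Fin 3) (Fin 3) F) (h1 : M.det = 1) (h2 : ∀ c : F, M ≠ c • 1) :
    ∃ (c : F) (A B : Matrix (Fin 3) (Fin 3) F), A.charpoly = (X ^ 2 - C t * X + 1) * (X - 1) ∧
      B.charpoly = (X ^ 2 - C t * X + 1) * (X - 1) ∧ Sim (toLin' (c • (A * B))) (toLin' M) := by
  have hm := minpoly.monic (LinearMap.isIntegral (toLin' M))
  have hd := minpoly.natDegree_pos (LinearMap.isIntegral (toLin' M))
  have h3 : (toLin' M).charpoly.natDegree = 3 := by simp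
  obtain ⟨Q, hQ⟩ := (toLin' M).minpoly_dvd_charpoly
  have hQ' := hm.of_mul_monic_left (hQ ▸ (toLin' M).charpoly_monic)
  have h4 := hm.natDegree_mul hQ'
  rw [← hQ, h3] at h4
  have hA : !![0, -1, 0; 1, t, 0; 0, 0, 1].charpoly = (X ^ 2 - C t * X + 1) * (X - 1) := by simp [cp3, det_fin_three]; ring
  obtain h5 | h5 | h5 : (minpoly F (toLin' M)).natDegree = 1 ∨ (minpoly F (toLin' M)).natDegree = 2 ∨
      (minpoly F (toLin' M)).natDegree = 3 := by omega
  · obtain ⟨c, hc⟩ := minpoly.natDegree_eq_one_iff.1 h5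
    exact (h2 c (toLin'_eq_smul_one_iff.1 (hc ▸ Algebra.algebraMap_eq_smul_one c))).elim
  · obtain ⟨a, rfl⟩ : ∃ a, Q = X - C a := ⟨-Q.coeff 0, by simpa using hQ'.eq_X_add_C (by omega)⟩
    obtain ⟨R, hR⟩ := dvd_iff_isRoot.2 (End.hasEigenvalue_iff_isRoot.1 ((End.hasEigenvalue_iff_isRoot_charpoly _ a).2
      (dvd_iff_isRoot.1 (hQ ▸ dvd_mul_left _ _))))
    have hR' := (monic_X_sub_C a).of_mul_monic_left (hR ▸ hm)
    obtain ⟨b, rfl⟩ : ∃ a, R = X - C a := ⟨-R.coeff 0, by
      simpa using hR'.eq_X_add_C (by rw [hR, (monic_X_sub_C a).natDegree_mul hR', natDegree_X_sub_C] at h5; omega)⟩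
    have h6 : a ^ 2 * b = 1 := by
      rw [← h1, det_eq_sign_charpoly_coeff, ← charpoly_toLin', hQ, hR]; simp; ring
    have h7 := hR ▸ minpoly.aeval F (toLin' M)
    have ha : a ≠ 0 := by rintro rfl; simp at h6
    rcases eq_or_ne a b with rfl | hab
    · refine ⟨a, !![0, -1, 1; 1, t, 0; 0, 0, 1], !![t, 1, 0; -1, 0, 0; 0, 0, 1], by simp [cp3, det_fin_three]; ring,
        by simp [cp3, det_fin_three]; ring, ?_⟩
      have : M = a • (a⁻¹ • M) := by simp [ha]
      rw [this, map_smul, map_smul]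
      have h8 : (toLin' (a⁻¹ • M) - 1) ^ 2 = 0 := by
        rw [← sq, aeval_X_sub_C_pow] at h7
        rw [← smul_eq_zero_iff_right (pow_ne_zero 2 ha), ← _root_.smul_pow, smul_sub, map_smul, smul_inv_smul₀ ha, h7]
      have h9 : ∀ N : Matrix (Fin 3) (Fin 3) F, (toLin' N - 1) ^ 2 = 0 → N ≠ 1 →
          finrank F (LinearMap.ker (toLin' N - 1)) = 2 := fun N h h' => by
        have h10 := Submodule.finrank_mono (LinearMap.range_le_ker_iff.2 (sq (toLin' N - 1) ▸ h))
        have h11 := (toLin' N - 1).finrank_range_add_finrank_ker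
        have h12 : finrank F (LinearMap.range (toLin' N - 1)) ≠ 0 := fun e => h' (toLin'.injective
          ((sub_eq_zero.1 (LinearMap.range_eq_bot.1 (Submodule.finrank_eq_zero.1 e))).trans toLin'_one.symm))
        rw [finrank_fin_fun] at h11
        omega
      have h10 : (toLin' (!![0, -1, 1; 1, t, 0; 0, 0, 1] * !![t, 1, 0; -1, 0, 0; 0, 0, 1]) - 1) ^ 2 = 0 :=
        toLin'_sub_one_pow_eq_zero_iff.2 (by ext i j; fin_cases i <;> fin_cases j <;> simp [sq, mul_apply, Fin.sum_univ_three])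
      refine (sim_of_sq_eq_zero h10 h8 rfl ((h9 _ h10 fun e => ?_).trans (h9 _ h8 fun e => h2 a (this.trans (by rw [e]))).symm)).smul a
      simpa using congrFun (congrFun e 0) 2
    · have hs : Squarefree ((X - C a) * (X - C b)) := ((separable_X_sub_C.mul separable_X_sub_C
        (isCoprime_X_sub_C_of_isUnit_sub (sub_ne_zero.2 hab).isUnit))).squarefree
      refine ⟨1, !![0, 0, b; a, 0, -(t + 1) / a; 0, a, t + 1], !![t + 1, 1, 0; -(t + 1), 0, 1; 1, 0, 0], ?_,
        by simp [cp3, det_fin_three]; ring, sim_of_charpoly_eq (End.isSemisimple_of_squarefree_aeval_eq_zero hs ?_)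
        (End.isSemisimple_of_squarefree_aeval_eq_zero hs h7) ?_⟩
      · have := congrArg C h6
        simp [cp3, det_fin_three, mul_div_cancel₀ _ ha, div_mul_cancel₀ _ ha] at this ⊢; linear_combination -this
      · rw [aeval_toLin', map_eq_zero_iff _ toLin'.injective]
        ext i j; fin_cases i <;> fin_cases j <;> simp [mul_apply, Fin.sum_univ_three, algebraMap_eq_diagonal] <;> ring
      · rw [hQ, hR, charpoly_toLin']; simp [cp3, det_fin_three]; ring
  · set a := M 0 0 + M 1 1 + M 2 2 - t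
    set b := a * t + t - (M 0 0 * M 1 1 - M 0 1 * M 1 0 + M 0 0 * M 2 2 - M 0 2 * M 2 0 + M 1 1 * M 2 2 - M 1 2 * M 2 1)
    refine ⟨1, _, !![1, a, b; 0, 0, -1; 0, 1, t], hA, by simp [cp3, det_fin_three]; ring, sim_of_cyclic
      (blocks_of_forall_invariant (v := ![1, 0, 0]) fun A h6 h7 => eq_top_iff.2 fun v _ => ?_)
      (blocks_of_minpoly (h5.trans (finrank_fin_fun F).symm)) ?_⟩
    · have h8 : ![0, 1, 0] ∈ A := by
        convert h7 _ h6; ext i; fin_cases i <;> simp [mulVec, dotProduct, Fin.sum_univ_three]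
      have h9 : ![0, 0, 1] ∈ A := by
        convert sub_mem (h7 _ h8) (A.smul_mem a h8); ext i; fin_cases i <;> simp [mulVec, dotProduct, Fin.sum_univ_three]
      convert add_mem (add_mem (A.smul_mem (v 0) h6) (A.smul_mem (v 1) h8)) (A.smul_mem (v 2) h9)
      ext i; fin_cases i <;> simp
    · rw [charpoly_toLin', charpoly_toLin', cp3 M, h1]; simp [cp3, det_fin_three, a, b]; ring

/-- A form of Thompson's conjecture for PSL(3,q), q > 2 (covering the non-identity elements), with a semisimple class: for F a finite field of characteristic p with more than 2 elements there is an element x of PSL(3,F) of order prime to p such that every non-identity element of PSL(3,F) is a product of two conjugates of x. -/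
theorem result {F : Type*} [Field F] [Fintype F] (p : ℕ) [Fact p.Prime] [CharP F p] (h3 : 3 ≤ Fintype.card F) :
    ∃ x : Matrix.ProjectiveSpecialLinearGroup (Fin 3) F, ¬ p ∣ orderOf x ∧ ∀ g : Matrix.ProjectiveSpecialLinearGroup (Fin 3) F, g ≠ 1 → ∃ u v : Matrix.ProjectiveSpecialLinearGroup (Fin 3) F, g = (u * x * u⁻¹) * (v * x * v⁻¹) := by
  obtain ⟨t, h1, h2⟩ : ∃ t : F, t ≠ 2 ∧ t ≠ -2 := by
    classical
    simpa using Finset.exists_mem_notMem_of_card_lt_card (s := {(2 : F), -2}) (t := .univ) (Finset.card_le_two.trans_lt h3)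
  have hs : Squarefree ((X ^ 2 - C t * X + 1) * (X - 1) : F[X]) := by
    refine (Separable.mul ⟨C (4 - t ^ 2)⁻¹ * 4, -C (4 - t ^ 2)⁻¹ * (2 * X - C t), ?_⟩ (separable_X_sub_C (x := 1))
      ⟨C (2 - t)⁻¹, -C (2 - t)⁻¹ * (X + 1 - C t), ?_⟩).squarefree
    · have := congrArg C (inv_mul_cancel₀ (a := 4 - t ^ 2) fun e => (mul_ne_zero (sub_ne_zero.2 h1) (sub_ne_zero.2 h2))
        (by linear_combination -e))
      simp [map_ofNat] at this ⊢; linear_combination this
    · have := congrArg C (inv_mul_cancel₀ (sub_ne_zero.2 h1.symm))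
      simp [map_ofNat] at this ⊢; linear_combination this
  have h4 : ∀ A : Matrix (Fin 3) (Fin 3) F, A.charpoly = (X ^ 2 - C t * X + 1) * (X - 1) → A.det = 1 ∧
      End.IsSemisimple (toLin' A) := fun A h => ⟨by simp [det_eq_sign_charpoly_coeff, h]; ring,
    End.isSemisimple_of_squarefree_aeval_eq_zero hs (by rw [← h, ← charpoly_toLin', LinearMap.aeval_self_charpoly])⟩
  have hA : !![0, -1, 0; 1, t, 0; 0, 0, 1].charpoly = (X ^ 2 - C t * X + 1) * (X - 1) := by simp [cp3, det_fin_three]; ring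
  let x : SpecialLinearGroup (Fin 3) F := ⟨_, (h4 _ hA).1⟩
  have h5 : ∀ A : Matrix (Fin 3) (Fin 3) F, A.charpoly = (X ^ 2 - C t * X + 1) * (X - 1) →
      ∃ u : SpecialLinearGroup (Fin 3) F, (u * x * u⁻¹).1 = A := fun A h => by
    obtain ⟨u, hu⟩ := isConj_iff.1 (sl_isConj_of_sim (a := x) (b := ⟨A, (h4 A h).1⟩) (sim_of_charpoly_eq (h4 _ hA).2 (h4 A h).2
      (by rw [charpoly_toLin', charpoly_toLin', h, hA])) (detC_eq_top_of_isSemisimple (h4 _ hA).2))
    exact ⟨u, congrArg Subtype.val hu⟩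
  refine ⟨x, fun h => (Nat.Prime.coprime_iff_not_dvd Fact.out).1 ((coprime_iff_isSemisimple p (isUnit_toLin'_gl
    (SpecialLinearGroup.toGL x))).2 (h4 _ hA).2).symm (orderOf_toLin'_sl x ▸ h.trans (orderOf_map_dvd (QuotientGroup.mk' _) x)), ?_⟩
  rintro ⟨g⟩ hg
  obtain ⟨c, A, B, h6, h7, h8⟩ := key t g.1 g.2 fun c e => hg ((QuotientGroup.eq_one_iff _).2 (sl_mem_center_iff.2 ⟨c, e⟩))
  obtain ⟨y, hy⟩ := isConj_iff_sim.2 h8
  obtain ⟨u, hu⟩ := h5 _ ((charpoly_units_conj y A).trans h6)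
  obtain ⟨v, hv⟩ := h5 _ ((charpoly_units_conj y B).trans h7)
  refine ⟨u, v, (QuotientGroup.eq.2 (sl_mem_center_iff.2 ⟨c, ?_⟩)).symm⟩
  have : g.1 = c • ((u * x * u⁻¹).1 * (v * x * v⁻¹).1) := by
    rw [hu, hv, ← (Units.mul_inv_eq_iff_eq_mul y).2 hy.eq]; simp [mul_assoc]
  refine (congrArg (_ * ·) this).trans ((Matrix.mul_smul ..).trans (congrArg (c • ·) ?_))
  exact congrArg Subtype.val (inv_mul_cancel (u * x * u⁻¹ * (v * x * v⁻¹)))

end Cfsg.Agent.S2459
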