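import Cfsg.Statements.S2460
import Cfsg.Agent.Lib.CC.Sp

set_option autoImplicit false
open Cfsg

namespace Cfsg.Agent.S2460

open Matrix SymplecticGroup Cfsg.Lib.CC
open scoped MatrixGroups

variable {F : Type*} [Field F]

theorem exists_irr [Fintype F] (h3 : 3 ≤ Fintype.card F) : ∃ τ d : F, τ ≠ 0 ∧ d ≠ 1 ∧ Irr τ d := by
  classical
  by_cases h2 : (2 : F) = 0
  · have hs : ¬ Function.Surjective fun x : F => x - x ^ 2 := fun h =>
      zero_ne_one (Finite.injective_iff_surjective.2 h (a₁ := (0 : F)) (a₂ := 1) (by simp))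
    obtain ⟨e, he⟩ := not_forall.1 hs
    have hi : Irr 1 e := fun x hx => he ⟨x, by linear_combination -hx⟩
    by_cases h1 : e = 1
    · obtain ⟨s, -, hs⟩ := Finset.exists_mem_notMem_of_card_lt_card
        (s := ({0, 1} : Finset F)) (t := Finset.univ) (Finset.card_le_two.trans_lt h3)
      simp only [Finset.mem_insert, Finset.mem_singleton, not_or] at hs
      refine ⟨1, s ^ 2 + s + 1, one_ne_zero, fun e => ?_, fun x hx => hi (x + s) ?_⟩
      · rcases mul_eq_zero.1 (show s * (s - 1) = 0 by linear_combination e - s * h2) with e | e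
        · exact hs.1 e
        · exact hs.2 (sub_eq_zero.1 e)
      · rw [h1]; linear_combination hx + (x * s - s) * h2
    · exact ⟨1, e, one_ne_zero, h1, hi⟩
  · obtain ⟨n, hn⟩ := FiniteField.exists_nonsquare (F := F) fun h => h2 (by
      have := (ringChar.spec F 2).2 (by rw [h]); exact_mod_cast this)
    refine ⟨2, 1 - n, h2, fun e => hn ⟨0, by linear_combination -e⟩, fun x hx => hn ⟨x - 1, ?_⟩⟩
    linear_combination -hx

theorem eq_zero_of_fix [Finite F] {τ d : F} (hi : Irr τ d) (hd : d ≠ 1) {M : M2 F} (hM : Cl τ d M)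
    (s : M2 F) (hs : sᵀ = s) (e : Mᵀ * s * M = s) : s = 0 := by
  obtain ⟨P, hP⟩ := hM.exists_sl hi
  set t := (P : M2 F)ᵀ * s * P with ht
  have e1 : (cpn τ d)ᵀ * t * cpn τ d = t := by
    rw [ht, ← Matrix.mul_assoc, ← Matrix.mul_assoc, ← transpose_mul, Matrix.mul_assoc, ← hP,
      transpose_mul]
    conv_rhs => rw [← e]
    simp only [Matrix.mul_assoc]
  have e2 : t 1 0 = t 0 1 := by
    have : tᵀ = t := by rw [ht, transpose_mul, transpose_mul, hs, transpose_transpose, Matrix.mul_assoc]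
    exact congrFun (congrFun this 0) 1
  have a := congrFun (congrFun e1 0) 0
  have b := congrFun (congrFun e1 0) 1
  have c := congrFun (congrFun e1 1) 1
  simp [cpn, Matrix.mul_apply, Fin.sum_univ_two, e2] at a b c
  have h0 : (1 - d) * ((1 - τ + d) * (1 + τ + d)) ≠ 0 :=
    mul_ne_zero (sub_ne_zero.2 hd.symm) (mul_ne_zero (by simpa using hi 1) (by simpa using hi (-1)))
  have hx : t 0 0 = 0 := by
    refine (mul_eq_zero.1 ?_).resolve_left h0
    linear_combination (-(1 + d)) * c + (2 * d * τ) * b + ((1 + d) * (τ ^ 2 - 1) - 2 * d * τ ^ 2) * a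
  have hy : t 0 1 = 0 := by
    refine (mul_eq_zero.1 ?_).resolve_left h0
    linear_combination (-τ) * c - (1 - d ^ 2 - τ ^ 2) * b + (-τ * d ^ 2) * a
  have h1 : t = 0 := by
    ext i j
    fin_cases i <;> fin_cases j <;> simp [hx, hy, e2, a]
  have hu : IsUnit (P : M2 F).det := by simp
  have := congrArg (fun x => ((P : M2 F)ᵀ)⁻¹ * x * (P : M2 F)⁻¹) (ht.symm.trans h1)
  simpa [Matrix.mul_assoc, mul_nonsing_inv _ hu, nonsing_inv_mul_cancel_left] using this

theorem exists_div [Finite F] {τ d : F} (hτ : τ ≠ 0) (hd : d ≠ 0) {l : M2 F} (h1 : l.det = 1)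
    (h : l = 1 ∨ (∀ c : F, l ≠ c • 1) ∧ l.trace ≠ 2) : ∃ A B, Cl τ d A ∧ Cl τ d B ∧ l * B = A := by
  rcases h with rfl | ⟨h, h2⟩
  · exact ⟨_, _, cl_cmp τ d, cl_cmp τ d, Matrix.one_mul _⟩
  · obtain ⟨A, B, hA, hB, e⟩ := exists_mul hτ d h h1 h2
    refine ⟨A, B.adjugate, hA, hB.adjugate, smul_right_injective _ hd ?_⟩
    simp only
    rw [← smul_mul_assoc, ← e, Matrix.mul_assoc, mul_adjugate, hB.2]; simp

/-- the element whose class is squared -/
noncomputable def M0 {τ d : F} (hi : Irr τ d) : GL (Fin 2) F :=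
  GeneralLinearGroup.mkOfDetNeZero (cpn τ d) (by rw [(cl_cmp τ d).2]; exact hi.ne_zero)

theorem isConj_L [Finite F] {τ d : F} (hi : Irr τ d) {M : GL (Fin 2) F} (hM : Cl τ d M.val) :
    IsConj (spL (M0 hi)) (spL M) := by
  obtain ⟨P, hP⟩ := hM.exists_sl hi
  refine spL.map_isConj (isConj_iff.2 ⟨Matrix.SpecialLinearGroup.toGL P, ?_⟩)
  rw [mul_inv_eq_iff_eq_mul]
  exact Units.ext hP.symm

theorem sq_of_good [Finite F] {τ d : F} (hτ : τ ≠ 0) (hd : d ≠ 1) (hi : Irr τ d) {g : Sp (Fin 2) F}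
    {l B C D : M2 F} (hg : g.1 = fromBlocks l B C D) (h1 : l.det = 1)
    (h : l = 1 ∨ (∀ c : F, l ≠ c • 1) ∧ l.trace ≠ 2) : Sq (spL (M0 hi)) g := by
  obtain ⟨X, Y, hX, hY, e⟩ := exists_div hτ hi.ne_zero h1 h
  let l' := GeneralLinearGroup.mkOfDetNeZero l (by rw [h1]; exact one_ne_zero)
  let X' := GeneralLinearGroup.mkOfDetNeZero X (by rw [hX.2]; exact hi.ne_zero)
  let Y' := GeneralLinearGroup.mkOfDetNeZero Y (by rw [hY.2]; exact hi.ne_zero)
  let Z' := GeneralLinearGroup.mkOfDetNeZero Yᵀ (by rw [hY.transpose.2]; exact hi.ne_zero)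
  obtain ⟨v, hv, u, hu, rfl⟩ := exists_decomp (A := l') hg
  have e1 : symJ _ F * spL Z' * (symJ _ F)⁻¹ = spL Y'⁻¹ := by
    refine sp_ext ((J_conj (spL_coe Z')).trans ?_)
    rw [spL_coe, inv_inv]
    simp [Z', Y', transpose_nonsing_inv]
  have e2 : spL l' = spL X' * (symJ _ F * spL Z' * (symJ _ F)⁻¹) := by
    rw [e1, ← map_mul, show l' = X' * Y'⁻¹ from eq_mul_inv_of_mul_eq (Units.ext e)]
  rw [e2]
  exact sq_core (isConj_L hi hX) ((isConj_L hi hY.transpose).trans (isConj_iff.2 ⟨_, rfl⟩))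
    (fpf_spL (eq_zero_of_fix hi hd hX)) (fpf_spL (eq_zero_of_fix hi hd hY.transpose)).J hv hu

/-- upper left blocks that can be handled -/
def Good (l : M2 F) : Prop := l.det = 1 ∧ (l = 1 ∨ l.trace ≠ 2 ∨ (2 : F) ≠ 0)

/-- the projection -/
abbrev π : Sp (Fin 2) F →* PSp 2 F := QuotientGroup.mk' _

theorem sq_π [Finite F] {τ d : F} (hτ : τ ≠ 0) (hd : d ≠ 1) (hi : Irr τ d) {g : Sp (Fin 2) F}
    {l B C D : M2 F} (hg : g.1 = fromBlocks l B C D) (h : Good l) : Sq (π (spL (M0 hi))) (π g) := by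
  have key : (-l = 1 ∨ (∀ c : F, -l ≠ c • 1) ∧ (-l).trace ≠ 2) → Sq (π (spL (M0 hi))) (π g) := by
    intro h'
    have := (sq_of_good hτ hd hi (g := ⟨-g.1, neg_mem g.2⟩) (l := -l) (B := -B) (C := -C) (D := -D)
      (by simp [hg, fromBlocks_neg]) (by rw [det_neg, h.1]; simp) h').map π
    convert this using 1
    refine QuotientGroup.eq.2 (mem_center_of_smul (a := -1) ?_)
    have : g⁻¹.1 * g.1 = 1 := by rw [← sp_mul, inv_mul_cancel]; rfl
    simp only [sp_mul, Matrix.mul_neg, this]; simp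
  by_cases h1 : ∀ c : F, l ≠ c • 1
  · by_cases h2 : l.trace = 2
    · have h3 : (2 : F) ≠ 0 := by
        rcases h.2 with e | e | e
        · exact absurd (by simp [e]) (h1 1)
        · exact absurd h2 e
        · exact e
      refine key (Or.inr ⟨fun c e => h1 (-c) (by rw [neg_smul, ← e, neg_neg]), fun e => ?_⟩)
      rw [trace_neg, h2] at e
      exact mul_ne_zero h3 h3 (by linear_combination -e)
    · exact (sq_of_good hτ hd hi hg h.1 (Or.inr ⟨h1, h2⟩)).map π
  · obtain ⟨c, hc⟩ := not_forall.1 h1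
    rw [not_not] at hc
    have := h.1
    rw [hc, det_smul, det_one, mul_one, Fintype.card_fin, sq_eq_one_iff] at this
    rcases this with rfl | rfl
    · exact (sq_of_good hτ hd hi hg h.1 (Or.inl (by simp [hc]))).map π
    · exact key (Or.inl (by simp [hc]))

theorem good_of_unit [Finite F] {A C : M2 F} (h : Aᵀ * C = Cᵀ * A) (hC : C.det ≠ 0) :
    ∃ s : M2 F, sᵀ = s ∧ Good (A + s * C) := by
  have hu : IsUnit C.det := hC.isUnit
  suffices ∃ s : M2 F, sᵀ = s ∧ Good (s * C) by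
    obtain ⟨s, hs, hg⟩ := this
    refine ⟨s - A * C⁻¹, ?_, by
      rwa [Matrix.sub_mul, nonsing_inv_mul_cancel_right _ _ hu, add_sub_cancel]⟩
    rw [transpose_sub, hs, transpose_mul, transpose_nonsing_inv]
    congr 1
    calc Cᵀ⁻¹ * Aᵀ = Cᵀ⁻¹ * (Aᵀ * C) * C⁻¹ := by
          rw [Matrix.mul_assoc, mul_nonsing_inv_cancel_right _ _ hu]
      _ = _ := by rw [h, nonsing_inv_mul_cancel_left _ _ (by simpa using hu)]
  have sym : ∀ x y z : F, (!![x, y; y, z] : M2 F)ᵀ = !![x, y; y, z] := fun x y z => by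
    ext i j; fin_cases i <;> fin_cases j <;> rfl
  by_cases h2 : (2 : F) = 0
  · obtain ⟨y, hy⟩ := exists_sq_eq h2 (-C.det⁻¹)
    have hd : ∀ x z : F, x * z = 0 → ((!![x, y; y, z] : M2 F) * C).det = 1 := fun x z e => by
      rw [det_mul, det_fin_two_of, e, ← sq, hy]; field_simp; simp
    have hy0 : y ≠ 0 := fun e => hC (by simpa [e] using hy.symm)
    by_cases h0 : C 0 0 = 0
    · by_cases h1 : C 1 1 = 0
      · by_cases h3 : C 1 0 = C 0 1
        · refine ⟨C⁻¹, ?_, by rw [nonsing_inv_mul _ hu]; exact ⟨det_one, Or.inl rfl⟩⟩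
          rw [transpose_nonsing_inv]
          congr 1
          ext i j; fin_cases i <;> fin_cases j <;> simp [h3]
        · refine ⟨_, sym 0 y 0, hd 0 0 (by simp), Or.inr (Or.inl fun e => h3 ?_)⟩
          simp [trace_fin_two, vecMul, dotProduct, Fin.sum_univ_two, h2, ← mul_add, hy0] at e
          linear_combination e - C 0 1 * h2
      · refine ⟨_, sym 0 y ((1 - y * (C 1 0 + C 0 1)) / C 1 1), hd _ _ (by simp),
          Or.inr (Or.inl fun e => ?_)⟩
        simp [trace_fin_two, vecMul, dotProduct, Fin.sum_univ_two, h1] at e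
        exact one_ne_zero (α := F) (by linear_combination e + h2)
    · refine ⟨_, sym ((1 - y * (C 1 0 + C 0 1)) / C 0 0) y 0, hd _ _ (by simp),
        Or.inr (Or.inl fun e => ?_)⟩
      simp [trace_fin_two, vecMul, dotProduct, Fin.sum_univ_two, h0] at e
      exact one_ne_zero (α := F) (by linear_combination e + h2)
  · refine ⟨_, sym 1 0 C.det⁻¹, ?_, Or.inr (Or.inr h2)⟩
    rw [det_mul, det_fin_two_of]; field_simp; simp

theorem good_of_col {A B C D : M2 F} (h : Aᵀ * D - Cᵀ * B = 1) (h0 : C 0 0 = 0) (h1 : C 1 0 = 0)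
    (hC : C ≠ 0) : ∃ s : M2 F, sᵀ = s ∧ Good (A + s * C) := by
  have key : ∀ x y : F, ∃ s : M2 F, sᵀ = s ∧ A + s * C = !![A 0 0, x; A 1 0, y] := by
    intro x y
    by_cases hp : C 0 1 = 0
    · have hr : C 1 1 ≠ 0 := fun e => hC (by ext i j; fin_cases i <;> fin_cases j <;> simp [*])
      refine ⟨!![0, (x - A 0 1) / C 1 1; (x - A 0 1) / C 1 1, (y - A 1 1) / C 1 1], ?_, ?_⟩ <;>
      ext i j <;> fin_cases i <;> fin_cases j <;> simp [vecMul, dotProduct, Fin.sum_univ_two, *]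
    · refine ⟨!![(x - A 0 1 - (y - A 1 1) / C 0 1 * C 1 1) / C 0 1, (y - A 1 1) / C 0 1;
        (y - A 1 1) / C 0 1, 0], ?_, ?_⟩ <;>
      ext i j <;> fin_cases i <;> fin_cases j <;> simp [vecMul, dotProduct, Fin.sum_univ_two, *]
  by_cases hb : A 1 0 = 0
  · have ha : A 0 0 ≠ 0 := fun e => by
      simpa [Matrix.mul_apply, Fin.sum_univ_two, *] using congrFun (congrFun h 0) 0
    obtain ⟨s, hs, e⟩ := key 0 (A 0 0)⁻¹
    refine ⟨s, hs, by rw [e]; simp [ha], ?_⟩
    by_cases h2 : A 0 0 = 1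
    · left; rw [e, h2, hb]; ext i j; fin_cases i <;> fin_cases j <;> simp
    · refine Or.inr (Or.inl fun e' => h2 ?_)
      rw [e, trace_fin_two_of] at e'
      field_simp at e'
      exact sub_eq_zero.1 (pow_eq_zero_iff two_ne_zero |>.1 (by linear_combination e'))
  · obtain ⟨s, hs, e⟩ := key ((A 0 0 * (1 - A 0 0) - 1) / A 1 0) (1 - A 0 0)
    refine ⟨s, hs, by rw [e]; simp [hb], Or.inr (Or.inl fun e' => ?_)⟩
    rw [e, trace_fin_two_of] at e'
    exact one_ne_zero (α := F) (by linear_combination -e')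

/-- some conjugate has a good upper left block -/
def Fine (g : Sp (Fin 2) F) : Prop := ∃ a : Sp (Fin 2) F, ∃ l B C D : M2 F,
  (a * g * a⁻¹).1 = fromBlocks l B C D ∧ Good l

theorem Fine.of_conj {g : Sp (Fin 2) F} (a : Sp (Fin 2) F) (h : Fine (a * g * a⁻¹)) : Fine g := by
  obtain ⟨b, l, B, C, D, e, h⟩ := h
  exact ⟨b * a, l, B, C, D, by rw [← e]; congr 1; group, h⟩

theorem fine_of_ne [Finite F] {g : Sp (Fin 2) F} {A B C D : M2 F} (hg : g.1 = fromBlocks A B C D)
    (hC : C ≠ 0) : Fine g := by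
  by_cases hd : C.det = 0
  · obtain ⟨v, hv, e⟩ := exists_mulVec_eq_zero_iff.2 hd
    obtain ⟨N, hN0, hN1⟩ : ∃ N : GL (Fin 2) F, N.val 0 0 = v 0 ∧ N.val 1 0 = v 1 := by
      by_cases h0 : v 0 = 0
      · have h1 : v 1 ≠ 0 := fun e => hv (by ext i; fin_cases i <;> simp [*])
        exact ⟨GeneralLinearGroup.mkOfDetNeZero !![v 0, 1; v 1, 0] (by simpa using h1), rfl, rfl⟩
      · exact ⟨GeneralLinearGroup.mkOfDetNeZero !![v 0, 0; v 1, 1] (by simpa using h0), rfl, rfl⟩
    refine Fine.of_conj (spL N⁻¹) ?_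
    have h1 := spL_conj N⁻¹ hg
    rw [inv_inv] at h1
    have h2 : ∀ i, (N.valᵀ * C * N.val) i 0 = 0 := fun i => by
      have e0 := congrFun e 0
      have e1 := congrFun e 1
      simp only [mulVec, dotProduct, Fin.sum_univ_two, Pi.zero_apply] at e0 e1
      simp only [Matrix.mul_apply, Fin.sum_univ_two, transpose_apply, hN0, hN1]
      linear_combination N.val 0 i * e0 + N.val 1 i * e1
    obtain ⟨s, hs, h⟩ := good_of_col (fromBlocks_mem_iff.1 (h1 ▸ Subtype.property _)).2.2 (h2 0) (h2 1)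
      fun e => hC (by
        have := congrArg (fun x => N⁻¹.valᵀ * x * N⁻¹.val) e
        simp only [← Matrix.mul_assoc, ← transpose_mul] at this
        simpa [Matrix.mul_assoc] using this)
    obtain ⟨B', D', e⟩ := U_conj h1 hs
    exact ⟨_, _, _, _, _, e, h⟩
  · obtain ⟨s, hs, h⟩ := good_of_unit (fromBlocks_mem_iff.1 (hg ▸ g.2)).1 hd
    obtain ⟨B', D', e⟩ := U_conj hg hs
    exact ⟨_, _, _, _, _, e, h⟩

theorem fine [Finite F] {g : Sp (Fin 2) F} (h : g ∉ Subgroup.center (Sp (Fin 2) F)) : Fine g := by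
  have hg := g.1.fromBlocks_toBlocks.symm
  set A := g.1.toBlocks₁₁
  set D := g.1.toBlocks₂₂
  by_cases hC : g.1.toBlocks₂₁ = 0
  · by_cases hB : g.1.toBlocks₁₂ = 0
    · rw [hB, hC] at hg
      by_contra hf
      have key : ∀ s : M2 F, sᵀ = s → s * A = D * s := fun s hs => by
        by_contra e
        exact hf (Fine.of_conj _ (fine_of_ne (V_conj hg hs) (sub_ne_zero.2 e)))
      have h1 : A = D := by simpa using key 1 (by simp)
      have h2 := key !![1, 0; 0, 0] (by ext i j; fin_cases i <;> fin_cases j <;> rfl)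
      have h3 := key !![0, 1; 1, 0] (by ext i j; fin_cases i <;> fin_cases j <;> rfl)
      rw [← h1] at h2 h3 hg
      have a := congrFun (congrFun h2 0) 1
      have b := congrFun (congrFun h2 1) 0
      have c := congrFun (congrFun h3 1) 0
      simp [Matrix.mul_apply, Fin.sum_univ_two] at a b c
      have : A = A 0 0 • 1 := by ext i j; fin_cases i <;> fin_cases j <;> simp [← b, a, c]
      refine h (mem_center_of_smul (a := A 0 0) ?_)
      rw [hg, ← fromBlocks_one, fromBlocks_smul, ← this, smul_zero]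
    · exact Fine.of_conj _ (fine_of_ne (J_conj hg) (neg_ne_zero.2 hB))
  · exact fine_of_ne hg hC

/-- A form of Thompson's conjecture for the simple groups PSp(4,q), q ≥ 3 (covering the non-identity elements), with a semisimple class: for F a finite field of characteristic p with at least 3 elements there is an element x of PSp(4,F) of order prime to p such that every non-identity element of PSp(4,F) is a product of two conjugates of x. -/
theorem result {F : Type*} [Field F] [Fintype F] (p : ℕ) [Fact p.Prime] [CharP F p] (h3 : 3 ≤ Fintype.card F) :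
    ∃ x : Cfsg.PSp 2 F, ¬ p ∣ orderOf x ∧ ∀ g : Cfsg.PSp 2 F, g ≠ 1 → ∃ u v : Cfsg.PSp 2 F, g = (u * x * u⁻¹) * (v * x * v⁻¹) := by
  obtain ⟨τ, d, hτ, hd, hi⟩ := exists_irr h3
  refine ⟨π (spL (M0 hi)), fun h => ?_, fun g hg => ?_⟩
  · refine not_dvd_orderOf (x := M0 hi) Fact.out (fun k e => Units.ext ?_)
      (h.trans ((orderOf_map_dvd π _).trans (orderOf_map_dvd spL _)))
    exact (cl_cmp τ d).pow_eq_one hi p (congrArg Units.val e)
  · obtain ⟨g, rfl⟩ := QuotientGroup.mk'_surjective _ g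
    obtain ⟨a, l, B, C, D, e, h⟩ := fine (g := g) fun h => hg ((QuotientGroup.eq_one_iff g).2 h)
    have := sq_π hτ hd hi e h
    rw [map_mul, map_mul, map_inv] at this
    exact this.of_conj _

end Cfsg.Agent.S2460
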