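import Cfsg.Statements.S2461
import Cfsg.Agent.Lib.CC.Even
import Cfsg.Agent.Lib.Twisted.G2
import Cfsg.Agent.Lib.St.LieDat
import Cfsg.Agent.Lib.Chev.Perfect

set_option autoImplicit false
open Cfsg

namespace Cfsg.Agent.S2461

open Cfsg.Lib.BN Cfsg.Lib.Chev Cfsg.Lib.Chev.RootSys Cfsg.Lib.Chev.ChevSys Cfsg.Lib.Twisted
open Cfsg.Lib.Root Cfsg.Lib.St Cfsg.Lib.CC Cfsg.Lie

/-- the data for computing in the Weyl group -/
noncomputable def keys : Keys (trivSym RG2) where
  A := [[2, -3], [-1, 2]]
  ws i := [i]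
  rep := id
  hA := by rw [RG2_A]; decide
  hws := by simp [trivSym]
  hneg := by change ∀ i : Fin 2, (actL _ [i] _).getD i.val 0 < 0; decide
  hrep _ := rfl

theorem orb (j i : Fin 2) : i ∈ [j] ↔ (trivSym RG2).orb i = j := by simp [trivSym]

theorem fJ_pos (r : Fin 12) : 0 < fJ ((trivSym RG2).J 1) (RG2.α r) → r ∈ [7, 8, 9, 10, 11] := by
  rw [fJ_pos_iff]
  change ((∀ i : Fin 2, 0 ≤ aN chevG2 certG2 r i) ∧
    ¬ ∀ i : Fin 2, ¬ i = 1 → aN chevG2 certG2 r i = 0) → _
  revert r
  decide +kernel

variable {F : Type*} [Field F]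

theorem comm {r s : Fin 12} (h : (r, s) ∈ [(9, 6), (9, 5), (11, 6), (10, 11)]) (t u : F) :
    Commute ((CG2 F).x r t) ((CG2 F).x s u) := by
  simpa [x_G2, Commute, SemiconjBy] using (xN_comm checkedG2 (r := r) (s := s) (L := [])
    (by revert r s; decide +kernel) t u).symm

theorem main [Fintype F] (p : ℕ) [Fact p.Prime] [CharP F p] (h3 : 3 ≤ Fintype.card F) :
    ∃ x : (⊤ : Subgroup (chevG2.group F)), ¬ p ∣ orderOf x ∧ ∀ g, g ≠ 1 → Sq x g := by
  classical
  obtain ⟨t, -, ht⟩ := Finset.exists_mem_notMem_of_card_lt_card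
    (s := ({0, 1} : Finset F)) (t := Finset.univ) (Finset.card_le_two.trans_lt h3)
  simp only [Finset.mem_insert, Finset.mem_singleton, not_or] at ht
  have := (isSimpleGroup_group (D := chevG2) (F := F) (by simp) fun _ => ⟨t, ht⟩).1
  have : IsSimpleGroup (⊤ : Subgroup (chevG2.group F)) := Subgroup.topEquiv.isSimpleGroup
  obtain ⟨L, e1, e2⟩ := exists_lev (a := 0) (b := 1) (isTw_triv faithful_G2 (sysG_grp checkedG2 F))
    (sysG_grp checkedG2 F) adjoint_G2 (by decide) (by decide) (orb 1) (RingHom.id F)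
    (fun t => iff_of_true rfl ⟨t, rfl⟩) (l := [0]) (by simp) (orb 0) (by simp) (keys.s_eq 0)
    fun g hg => (exists_eq_tor adjoint_G2 hg.1).elim fun c e => ⟨c, rfl, e.symm⟩
  by_cases h2 : (2 : F) = 0
  · obtain rfl := (two_eq_zero_iff p).1 h2
    obtain ⟨m, h4, h5, h6⟩ := exists_m checkedG2 L (ρ := 0x0b0a09080706050403020100) (J := [1])
      (l := [9]) (by change ∀ r : Fin 12, r.val = _; decide +kernel) (Set.ext fun i : Fin 2 => by
        change i = 1 ↔ i.val ∈ [1]; revert i; decide) w0_G2
      (fun (i : Fin 2) hi => by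
        obtain rfl : i = 1 := hi
        exact (congrFun (congrArg _ (s_single (orb 1))) _).trans (RG2.sref_simple 1))
      (by decide +kernel)
    obtain ⟨τ, hi⟩ := exists_irr (d := (1 : F)) one_ne_zero
    obtain ⟨t, rfl⟩ := Ne.isUnit ht.1
    have h7 : ∀ k, RG2.chr ![t ^ 2, t ^ 3] k = t ^ (2 * RG2.pair (RG2.simple 0) k +
        3 * RG2.pair (RG2.simple 1) k) := fun k => by
      simp [chr, Fin.prod_univ_two, zpow_add, zpow_mul]
    have h8 : t ^ (Fintype.card F + 1) = t ^ 2 := Units.ext (by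
      simp [pow_succ, FiniteField.pow_card])
    have h9 : RG2.chr ![t ^ 2, t ^ 3] (RG2.simple 1) = 1 := by
      rw [h7, pair_G2, pair_G2, simple_G2]; simp
    refine L.sq_two h2 h2 adjoint_G2 w0_G2 (fun e => ?_) h4 h5 h6 hi (cl_A₀ h2 τ)
      ⟨tor_mem _ _, trivial⟩ (L.commute_of_acts (acts_tor adjoint_G2 ![t ^ 2, t ^ 3])
        fun i hi => by obtain rfl : i = 1 := hi; exact ⟨rfl, h9⟩)
      (fpf_single L e1 e2 adjoint_G2 (orb 1) hi trivial h9 (r := 10) (s := 11) (by rw [sref_G2]; rfl)
        ?_ (by decide) (fun k hk e => ?_) (fun t u => ?_) (fun t u => ?_) (comm (by simp)) ?_)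
    · have := orderOf_dvd_of_pow_eq_one e
      rw [keys.orderOf_eq (k := 0) (l := 1) (m := 6) (by decide) (by decide +kernel)] at this
      omega
    · rw [fJ_pos_iff]
      change (∀ i : Fin 2, 0 ≤ aN chevG2 certG2 10 i) ∧
        ¬ ∀ i : Fin 2, ¬ i = 1 → aN chevG2 certG2 10 i = 0
      decide +kernel
    · have h10 : t ≠ 1 := fun e => ht.2 (congrArg Units.val e)
      rw [h7, ← zpow_natCast, ← zpow_mul, mul_comm, zpow_mul, zpow_natCast, h8, pair_G2, pair_G2] at e
      have := fJ_pos k hk
      simp only [List.mem_cons, List.not_mem_nil, or_false] at this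
      rcases this with rfl | rfl | rfl | rfl | rfl
      · exact absurd (eq_one_of_pow_two_pow 1 (by simpa using e)) h10
      · exact absurd (eq_one_of_pow_two_pow 1 (by simpa using e)) h10
      · exact absurd (eq_one_of_pow_two_pow 2 (by simpa [← pow_mul] using e)) h10
      · simp
      · simp
    · simpa [x_G2, simple_G2, CharTwo.neg_eq] using xN_comm checkedG2 (r := 10) (s := 6)
        (L := [(11, -1, 1, 1)]) (by decide +kernel) t u
    · rw [simple_G2]; exact comm (by simp) _ _
    · exact fun e => hi (RG2.chr ![t ^ 2, t ^ 3] 10) (by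
        linear_combination e - τ * RG2.chr ![t ^ 2, t ^ 3] 10 * h2)
  · refine sq_odd_single L e1 e2 p h2 adjoint_G2 w0_G2 (orb 1) (l := [0]) (by simp) (orb 0) (by simp)
      ?_ fun r hr h => ?_
    · simp only [pair_G2, simple_G2]; decide
    · obtain rfl : r = 9 := by
        have := fJ_pos r hr
        rw [pair_G2] at h
        clear hr
        revert r; decide
      refine ⟨by simp only [pair_G2]; decide, ?_, ?_⟩
      · rw [simple_G2]; exact comm (by simp)
      · rw [simple_G2, neg_G2]; exact comm (by simp)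

/-- A form of Thompson's conjecture for the simple Chevalley groups G₂(q), q ≥ 3 (covering the non-identity elements), with a semisimple class: for F a finite field of characteristic p with at least 3 elements there is an element x of the Chevalley group of type G₂ over F of order prime to p such that every non-identity element of that group is a product of two conjugates of x. -/
theorem result {F : Type*} [Field F] [Fintype F] (p : ℕ) [Fact p.Prime] [CharP F p] (h3 : 3 ≤ Fintype.card F) :
    ∃ x : Cfsg.Lie.chevG2.group F, ¬ p ∣ orderOf x ∧ ∀ g : Cfsg.Lie.chevG2.group F, g ≠ 1 → ∃ u v : Cfsg.Lie.chevG2.group F, g = (u * x * u⁻¹) * (v * x * v⁻¹) :=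
  transfer Subgroup.topEquiv.symm (main p h3)

end Cfsg.Agent.S2461
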