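import Cfsg.Statements.S2462
import Cfsg.Agent.Lib.CC.Even
import Cfsg.Agent.Lib.Twisted.AutE6D4
import Cfsg.Agent.Lib.Twisted.Transfer

set_option autoImplicit false
open Cfsg

namespace Cfsg.Agent.S2462

open Cfsg.Lib.BN Cfsg.Lib.Chev Cfsg.Lib.Chev.RootSys Cfsg.Lib.Chev.ChevSys Cfsg.Lib.Twisted
open Cfsg.Lib.Root Cfsg.Lib.St Cfsg.Lib.CC Cfsg.Lie

theorem w0 (r : Fin 24) : wJ RD4 Set.univ r = RD4.neg r := by
  rw [wJ_eq_of_key keysD4.hA (J := Set.univ) (l := [0, 1, 2, 3, 0, 1, 2, 3, 0, 1, 2, 3])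
    (fun _ _ => trivial) (fun i _ => by revert i; decide +kernel)]
  refine Fin.ext ((wp_val checkedD4 _ _).trans ?_)
  revert r
  decide +kernel

theorem pair_eq (i : Fin 4) (r : Fin 24) : RD4.pair (RD4.simple i) r = caN chevD4 i r :=
  ((caN_eq _ _ _).trans (checkedD4.cartan_eq i r)).symm

theorem fJ_pos (r : Fin 24) : 0 < fJ (symD4.J 0) (RD4.α r) ↔
    r ∈ [12, 13, 15, 16, 17, 18, 19, 20, 21, 22, 23] := by
  rw [fJ_pos_iff]
  change ((∀ i : Fin 4, 0 ≤ aN chevD4 certD4 r i) ∧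
    ¬ ∀ i : Fin 4, ¬ orbD4 i = 0 → aN chevD4 certD4 r i = 0) ↔ _
  revert r
  decide +kernel

theorem coef (r : Fin 24) (h : r ∈ [12, 13, 15, 16, 17, 18, 19, 20, 21, 22, 23]) :
    r = 22 ∨ r = 23 ∨ (RD4.α r 0, RD4.α r 2, RD4.α r 3) ∈
      [(1, 0, 0), (0, 1, 0), (0, 0, 1), (0, 1, 1), (1, 0, 1), (1, 1, 0)] := by
  change _ ∨ _ ∨ (aN chevD4 certD4 r 0, aN chevD4 certD4 r 2, aN chevD4 certD4 r 3) ∈ _
  revert r
  decide +kernel

theorem simple_one : RD4.simple 1 = 14 ∧ RD4.neg 14 = 9 := by decide +kernel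

variable {K : Type*} [Field K]

theorem comm {r s : Fin 24} (h : (r, s) ∈ [(17, 14), (20, 14), (21, 14), (17, 9), (20, 9), (21, 9),
    (23, 14), (22, 23)]) (t u : K) : Commute ((CD4 K).x r t) ((CD4 K).x s u) := by
  simpa [x_D4, Commute, SemiconjBy] using (xN_comm checkedD4 (r := r) (s := s) (L := [])
    (by revert r s; decide +kernel) t u).symm

theorem main [Fintype K] (p : ℕ) [Fact p.Prime] [CharP K p] {q : ℕ} (hq : IsPrimePow q)
    (hK : Fintype.card K = q ^ 3) :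
    ∃ x : KD4 K q, ¬ p ∣ orderOf x ∧ ∀ g, g ≠ 1 → Sq x g := by
  classical
  obtain ⟨S, hS⟩ := exists_twist_D4 hq hK
  have := (simple_D4 hK hS hq.two_le).1
  set E := (S.θ 1).eqLocusField (RingHom.id K)
  have := Fintype.ofFinite E
  have hc : Nat.card {t : K // t ^ q = t} = q :=
    card_fixed hq.one_lt.le (by rw [Nat.card_eq_fintype_card, hK]; exact Nat.sub_one_dvd_pow_sub_one q 3)
  have hE : Fintype.card E = q := by
    rw [← hc, ← Nat.card_eq_fintype_card]
    exact Nat.card_congr (Equiv.subtypeEquivRight fun t => by rw [← hS 1]; rfl)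
  obtain ⟨L, e1, e2⟩ := exists_lev (a := 1) (b := 0) (isTw_D4 hK hS) (sysG_grp checkedD4 K)
    adjoint_D4 (by decide) (by decide) orb0_D4 E.subtype
    (fun t => ⟨fun h => ⟨⟨t, h⟩, rfl⟩, fun ⟨e, h⟩ => h ▸ e.2⟩) (l := [0, 2, 3]) (by decide) orb1_D4
    orth_D4 (keysD4.s_eq 1) (H_inf_D4 hK hS).le
  by_cases h2 : (2 : K) = 0
  · obtain rfl := (two_eq_zero_iff p).1 h2
    have h2E : (2 : E) = 0 := CharTwo.two_eq_zero
    obtain ⟨m, h4, h5, h6⟩ := exists_m checkedD4 L
      (ρ := 0x17161115100d140f130e0c12050b090408030a0702060100) (J := [1]) (l := [17, 20, 21])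
      (fun _ => rfl) (Set.ext fun i : Fin 4 => by
        change orbD4 i = 0 ↔ i.val ∈ [1]; revert i; decide) w0
      (fun (i : Fin 4) hi => by
        obtain rfl : i = 1 := by simpa using (orb0_D4 i).2 hi
        exact (congrFun (congrArg _ (s_single orb0_D4)) _).trans (RD4.sref_simple 1))
      (by decide +kernel)
    obtain ⟨τ, hi⟩ := exists_irr (d := (1 : E)) one_ne_zero
    have h0 : ∀ u : Kˣ, ((u ^ q) ^ q) ^ q = u := fun u => Units.ext (by
      simp [← pow_mul, ← sq, ← pow_succ, pow_pow_eq_self hK])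
    obtain ⟨u, hu, hN⟩ : ∃ u : Kˣ, u ≠ 1 ∧ u * u ^ q * (u ^ q) ^ q = 1 := by
      obtain ⟨w, hw⟩ : ∃ w : K, w ^ q ≠ w := by
        by_contra! h
        rw [Nat.card_congr (Equiv.subtypeUnivEquiv h), Nat.card_eq_fintype_card, hK] at hc
        exact absurd hc (by simpa using (Nat.pow_lt_pow_right hq.one_lt (show 1 < 3 by decide)).ne')
      obtain ⟨w, rfl⟩ := Ne.isUnit (show w ≠ 0 by rintro rfl; exact hw (zero_pow hq.ne_zero))
      refine ⟨w ^ q / w, fun e => hw (by simpa using congrArg Units.val (div_eq_one.1 e)), ?_⟩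
      rw [div_pow, div_pow, h0]
      simp [div_mul_div_comm, mul_comm, mul_left_comm]
    have key : ∀ x : Kˣ, x * x ^ q * (x ^ q) ^ q = 1 → (x ^ 2) ^ (q + 1) = 1 → x = 1 := fun x e e' => by
      have : x ^ (q + 1) = 1 := eq_one_of_pow_two_pow 1 (by rwa [pow_one, ← pow_mul, mul_comm, pow_mul])
      rw [← pow_succ', this, one_mul] at e
      rw [← h0 x, e, one_pow]
    have k1 : (u ^ 2) ^ (q + 1) ≠ 1 := fun e => hu (key u hN e)
    have k2 : ((u ^ q) ^ 2) ^ (q + 1) ≠ 1 := fun e => hu (by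
      rw [← h0 u, key (u ^ q) (by rw [h0, ← hN]; ac_rfl) e]; simp)
    have k3 : (((u ^ q) ^ q) ^ 2) ^ (q + 1) ≠ 1 := fun e => hu (by
      rw [← h0 u, key ((u ^ q) ^ q) (by rw [h0, ← hN]; ac_rfl) e]; simp)
    set c : Fin 4 → Kˣ := ![u, 1, u ^ q, (u ^ q) ^ q] with hc
    have h9 : RD4.chr c (RD4.simple 1) = 1 := by
      rw [Lib.Twisted.chr_simple]
      simp [RD4_A, Fin.prod_univ_four, hc]
      rw [← mul_inv, ← mul_inv, hN, inv_one]
    have h7 : ∀ k, RD4.chr c k = (u ^ 2) ^ RD4.α k 0 * ((u ^ q) ^ 2) ^ RD4.α k 2 *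
        (((u ^ q) ^ q) ^ 2) ^ RD4.α k 3 := fun k => by
      rw [Lib.Twisted.chr_eq_prod, Fin.prod_univ_four, h9]
      simp [Lib.Twisted.chr_simple, RD4_A, Fin.prod_univ_four, hc]
    have hN2 : u ^ 2 * (u ^ q) ^ 2 * ((u ^ q) ^ q) ^ 2 = 1 := by rw [← mul_pow, ← mul_pow, hN, one_pow]
    have h8 : tor adjoint_D4 c ∈ KD4 K q :=
      ((H_inf_D4 hK hS).ge ⟨c, by simp [mem_TFix_D4 hS, h0, hc], rfl⟩).2
    refine L.sq_two h2E h2 adjoint_D4 w0 (fun e => ?_) h4 h5 h6 hi (cl_A₀ h2E τ)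
      ⟨tor_mem _ _, h8⟩ (L.commute_of_acts (acts_tor adjoint_D4 c) fun i hi => by
        obtain rfl : i = 1 := by simpa using (orb0_D4 i).2 hi
        exact ⟨rfl, h9⟩)
      (fpf_single L e1 e2 adjoint_D4 orb0_D4 hi h8 h9 (r := 22) (s := 23)
        (Fin.ext ((checkedD4.sref_val _ _).trans (by decide +kernel))) ((fJ_pos _).2 (by decide))
        (by decide) (fun k hk e => ?_) (fun t u => ?_) (fun t u => ?_) (comm (by simp)) ?_)
    · have := orderOf_dvd_of_pow_eq_one e
      rw [keysD4.orderOf_eq (k := 1) (l := 0) (m := 6) (by decide) (by decide +kernel)] at this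
      omega
    · rw [h7, hE] at e
      refine (coef k ((fJ_pos k).1 hk)).imp_right fun h => h.resolve_right fun h => ?_
      simp only [List.mem_cons, List.not_mem_nil, or_false, Prod.mk.injEq] at h
      rcases h with ⟨a, b, d⟩ | ⟨a, b, d⟩ | ⟨a, b, d⟩ | ⟨a, b, d⟩ | ⟨a, b, d⟩ | ⟨a, b, d⟩ <;>
        simp only [a, b, d, zpow_one, zpow_zero, mul_one, one_mul] at e
      exacts [k1 e, k2 e, k3 e,
        k1 (by rw [eq_inv_of_mul_eq_one_left ((mul_assoc _ _ _).symm.trans hN2), inv_pow, e, inv_one]),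
        k2 (by rw [eq_inv_of_mul_eq_one_right ((mul_right_comm _ _ _).trans hN2), inv_pow, e, inv_one]),
        k3 (by rw [eq_inv_of_mul_eq_one_right hN2, inv_pow, e, inv_one])]
    · simpa [x_D4, simple_one.1, CharTwo.neg_eq] using xN_comm checkedD4 (r := 22) (s := 14)
        (L := [(23, -1, 1, 1)]) (by decide +kernel) t u
    · rw [simple_one.1]; exact comm (by simp) _ _
    · have : RD4.α 22 0 = 1 ∧ RD4.α 22 2 = 1 ∧ RD4.α 22 3 = 1 := by
        change aN chevD4 certD4 22 0 = 1 ∧ aN chevD4 certD4 22 2 = 1 ∧ aN chevD4 certD4 22 3 = 1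
        decide +kernel
      rw [h7, this.1, this.2.1, this.2.2, zpow_one, zpow_one, zpow_one, hN2]
      refine fun e => hi.disc ?_
      have : τ = 0 := E.subtype.injective (by
        rw [map_zero, Units.val_one] at *; linear_combination e - h2)
      rw [this]; linear_combination -2 * h2E
  · refine sq_odd_single L e1 e2 p (fun e => h2 (congrArg E.subtype e)) adjoint_D4 w0 orb0_D4
      (l := [0, 2, 3]) (by decide) orb1_D4 orth_D4 ?_ fun r hr h => ?_
    · simp only [pair_simple_simple, RD4_A]; decide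
    · rw [fJ_pos] at hr
      simp only [pair_eq] at h ⊢
      have : r ∈ [17, 20, 21] ∧ Odd (∑ i : Fin 4 with i ∈ [0, 2, 3], caN chevD4 i r) := by
        revert r; decide +kernel
      refine ⟨this.2, ?_, ?_⟩
      · rw [simple_one.1]; exact comm (by have := this.1; clear * - this; revert r; decide)
      · rw [simple_one.1, simple_one.2]; exact comm (by have := this.1; clear * - this; revert r; decide)

/-- A form of Thompson's conjecture for the triality groups ³D₄(q) (covering the non-identity elements) with a semisimple class: for q a power of the prime p and K the field with q³ elements there is an element x of ³D₄(q) (realised over K) of order prime to p such that every non-identity element of ³D₄(q) is a product of two conjugates of x. -/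
theorem result {K : Type*} [Field K] [Fintype K] (p : ℕ) [Fact p.Prime] [CharP K p] (q : ℕ) (hq : IsPrimePow q) (hK : Fintype.card K = q ^ 3) :
    ∃ x : Cfsg.Lie.twistedD4 K q, ¬ p ∣ orderOf x ∧ ∀ g : Cfsg.Lie.twistedD4 K q, g ≠ 1 → ∃ u v : Cfsg.Lie.twistedD4 K q, g = (u * x * u⁻¹) * (v * x * v⁻¹) :=
  transfer (equivOfMap (Subgroup.subtype_injective _) map_KD4) (main p hq hK)

end Cfsg.Agent.S2462
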