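import Cfsg.Statements.S2463
import Cfsg.Agent.Lib.CC.F4
import Cfsg.Agent.Lib.CC.Tits

set_option autoImplicit false
open Cfsg

namespace Cfsg.Agent.S2463

theorem transfer_sub {A B : Type*} [Group A] [Group B] (H : Subgroup A) (e : B ≃* H)
    (h : ∃ x : H, ¬ 2 ∣ orderOf x ∧ ∀ g : H, g ≠ 1 → Lib.CC.Sq x g) :
    ∃ x : B, ¬ 2 ∣ orderOf x ∧ ∀ g : B, g ≠ 1 → Lib.CC.Sq x g :=
  Lib.CC.transfer e h

/-- A form of Thompson's conjecture for the simple groups of type ²F₄ (covering the non-identity elements) with a semisimple class: if M is a large Ree group ²F₄(2^(2m+1)) with m ≥ 1, or the Tits group, then there is an element x of M of odd order such that every non-identity element of M is a product of two conjugates of x. -/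
theorem result {M : Type*} [Group M] [Finite M] (hM : Cfsg.Lie.Iso2F4 M ∨ Cfsg.Lie.IsoTits M) :
    ∃ x : M, Odd (orderOf x) ∧ ∀ g : M, g ≠ 1 → ∃ u v : M, g = (u * x * u⁻¹) * (v * x * v⁻¹) := by
  have h : ∃ x : M, ¬ 2 ∣ orderOf x ∧ ∀ g : M, g ≠ 1 → Lib.CC.Sq x g := by
    rcases hM with hM | ⟨⟨e⟩⟩
    · exact Lib.CC.sq_2F4 hM
    · exact transfer_sub _ e Lib.CC.sq_Tits
  obtain ⟨x, h1, h2⟩ := h
  exact ⟨x, Nat.not_even_iff_odd.1 fun e => h1 (even_iff_two_dvd.1 e), h2⟩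

end Cfsg.Agent.S2463
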