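import Cfsg.Statements.S2466
import Cfsg.Agent.Lib.Alt.Spectrum

set_option autoImplicit false
open Cfsg

namespace Cfsg.Agent.S2466

/-- Adjacency of odd primes in the prime graph of the alternating groups: let r ≠ s be odd primes at most n. The alternating group of degree n has an element of order r·s if and only if r + s ≤ n. -/
theorem result (n r s : ℕ) (hr : r.Prime) (hs : s.Prime) (hr2 : r ≠ 2) (hs2 : s ≠ 2) (hrs : r ≠ s) (hrn : r ≤ n) (hsn : s ≤ n) :
    (r * s ∈ Set.range (orderOf : alternatingGroup (Fin n) → ℕ)) ↔ r + s ≤ n := by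
  open Cfsg.Lib.Alt in
  rw [mem_range_orderOf_alt_iff]
  have h2r := hr.two_le
  have h2s := hs.two_le
  constructor
  · rintro ⟨t, h1, h2, -, h4⟩
    obtain ⟨a, ha, hra⟩ := prime_dvd_multiset_lcm hr (t := t) (h4 ▸ Dvd.intro _ rfl)
    obtain ⟨b, hb, hsb⟩ := prime_dvd_multiset_lcm hs (t := t) (h4 ▸ Dvd.intro_left _ rfl)
    have ha2 := h2 a ha
    have hb2 := h2 b hb
    by_cases hab : a = b
    · subst hab
      have : r * s ∣ a := ((Nat.coprime_primes hr hs).2 hrs).mul_dvd_of_dvd_of_dvd hra hsb
      have h5 := Nat.le_of_dvd (by omega) this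
      have h6 : a ≤ t.sum := Multiset.single_le_sum (by simp) a ha
      nlinarith
    · have := add_le_multiset_sum ha hb hab
      have := Nat.le_of_dvd (by omega) hra
      have := Nat.le_of_dvd (by omega) hsb
      omega
  · intro h
    refine ⟨{r, s}, by simpa using h, by simp [h2r, h2s], ?_, ?_⟩
    · have h1 := hr.eq_two_or_odd.resolve_left hr2
      have h2 := hs.eq_two_or_odd.resolve_left hs2
      simp [Nat.even_iff]; omega
    · simp only [Multiset.insert_eq_cons, Multiset.lcm_cons, Multiset.lcm_singleton, normalize_eq]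
      exact ((Nat.coprime_primes hr hs).2 hrs).lcm_eq_mul

end Cfsg.Agent.S2466
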