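import Cfsg.Statements.S2467
import Cfsg.Agent.Lib.Alt.Spectrum

set_option autoImplicit false
open Cfsg

namespace Cfsg.Agent.S2467

/-- Adjacency of 2 and an odd prime in the prime graph of the alternating groups: let r be an odd prime at most n, with n ≥ 4. The alternating group of degree n has an element of order 2r if and only if r + 4 ≤ n. -/
theorem result (n r : ℕ) (hn : 4 ≤ n) (hr : r.Prime) (hr2 : r ≠ 2) (hrn : r ≤ n) :
    (2 * r ∈ Set.range (orderOf : alternatingGroup (Fin n) → ℕ)) ↔ r + 4 ≤ n := by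
  open Cfsg.Lib.Alt in
  rw [mem_range_orderOf_alt_iff]
  have h2r := hr.two_le
  have hodd := hr.eq_two_or_odd.resolve_left hr2
  constructor
  · rintro ⟨t, h1, h2, h3, h4⟩
    obtain ⟨b, hb, hrb⟩ := prime_dvd_multiset_lcm hr (t := t) (h4 ▸ Dvd.intro_left _ rfl)
    obtain ⟨a, ha, h2a⟩ := prime_dvd_multiset_lcm Nat.prime_two (t := t) (h4 ▸ Dvd.intro _ rfl)
    have key : ∀ t : Multiset ℕ, (∀ a ∈ t, ¬ 2 ∣ a) → Even (t.sum + t.card) := by
      intro t
      induction t using Multiset.induction_on with
      | empty => simp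
      | cons a t ih =>
        intro h
        have h5 := h a (Multiset.mem_cons_self _ _)
        have h6 := ih fun b hb => h b (Multiset.mem_cons_of_mem hb)
        rw [Multiset.sum_cons, Multiset.card_cons, Nat.even_iff] at *
        omega
    obtain ⟨t', rfl⟩ := Multiset.exists_cons_of_mem ha
    have h7 : ∃ c ∈ t', 2 ∣ c := by
      by_contra h
      push Not at h
      have := key t' h
      rw [Multiset.sum_cons, Multiset.card_cons, Nat.even_iff] at *
      omega
    obtain ⟨c, hc, h2c⟩ := h7
    obtain ⟨t'', rfl⟩ := Multiset.exists_cons_of_mem hc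
    simp only [Multiset.sum_cons, Multiset.mem_cons, forall_eq_or_imp] at h1 h2 hb
    have hcop : Nat.Coprime 2 r := (Nat.coprime_primes Nat.prime_two hr).2 (Ne.symm hr2)
    rcases hb with rfl | rfl | hb
    · have := Nat.le_of_dvd (by omega) (hcop.mul_dvd_of_dvd_of_dvd h2a hrb)
      omega
    · have := Nat.le_of_dvd (by omega) (hcop.mul_dvd_of_dvd_of_dvd h2c hrb)
      omega
    · have h6 : b ≤ t''.sum := Multiset.single_le_sum (by simp) b hb
      have := Nat.le_of_dvd (by have := h2.2.2 b hb; omega) hrb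
      omega
  · intro h
    refine ⟨{2, 2, r}, by simp; omega, by simp [h2r], ?_, ?_⟩
    · simp [Nat.even_iff]; omega
    · simp only [Multiset.insert_eq_cons, Multiset.lcm_cons, Multiset.lcm_singleton, normalize_eq]
      have hcop : Nat.Coprime 2 r := (Nat.coprime_primes Nat.prime_two hr).2 (Ne.symm hr2)
      change Nat.lcm 2 (Nat.lcm 2 r) = _
      rw [← Nat.lcm_assoc, Nat.lcm_self, hcop.lcm_eq_mul]

end Cfsg.Agent.S2467
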