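import Cfsg.Statements.S2471
import Cfsg.Agent.Lib.CharDeg.PSL2Prod

set_option autoImplicit false
open Cfsg

namespace Cfsg.Agent.S2471

open Cfsg.Lib.GLTwo Cfsg.Lib.Char Cfsg.Lib.PSL2 in

/-- In PSL(2,q) with q odd, the characteristic p is isolated from 2 in the prime graph: for F a finite field of odd characteristic p with at least 5 elements, PSL(2,F) has no element of order 2p. -/
theorem result {F : Type*} [Field F] [Fintype F] (p : ℕ) [Fact p.Prime] [CharP F p] (hp : p ≠ 2) (h5 : 5 ≤ Fintype.card F) (g : Matrix.ProjectiveSpecialLinearGroup (Fin 2) F) :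
    orderOf g ≠ 2 * p := by
  intro h
  have hp' : p.Prime := Fact.out
  rcases orderOf_psl p g with e | e | e
  · have := hp'.pos
    omega
  · rw [h] at e
    exact not_char_dvd_card_sub_one (F := F) p
      (((Dvd.intro_left 2 rfl).trans e).trans (Nat.div_dvd_of_dvd (Nat.gcd_dvd_right _ _)))
  · rw [h] at e
    refine not_char_dvd_card_add_one (F := F) p
      (((Dvd.intro_left 2 rfl).trans e).trans (Nat.div_dvd_of_dvd ?_))
    have := Nat.odd_iff.1 (odd_card_of_char_ne_two (F := F) p hp)
    exact (Nat.gcd_dvd_left _ _).trans (by omega)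

end Cfsg.Agent.S2471
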