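import Cfsg.Statements.S2474
import Cfsg.Agent.Lib.Orth.SpecBC

set_option autoImplicit false
open Cfsg

namespace Cfsg.Agent.S2474

open Cfsg.Lib Cfsg.Lib.Orth

/-- For q odd and n ≥ 3 the simple groups PΩ(2n+1,q) and PSp(2n,q) (which have the same order but different sets of element orders) have the same prime graph: for all distinct primes r, s, one of them has an element of order r·s if and only if the other does. -/
theorem result {F : Type*} [Field F] [Fintype F] (hodd : Odd (Fintype.card F)) (n : ℕ) (hn : 3 ≤ n) (r s : ℕ) (hr : r.Prime) (hs : s.Prime) (hrs : r ≠ s) :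
    (r * s ∈ Set.range (orderOf : Cfsg.POmega F (Cfsg.quadFormOdd n F) → ℕ)) ↔ (r * s ∈ Set.range (orderOf : Cfsg.PSp n F → ℕ)) := by
  have h2 : (2 : F) ≠ 0 := odd_card_iff.1 hodd
  rw [mem_range_pomega_iff h2 (by omega), mem_range_psp_iff]
  have key : ∀ l, l.Prime → l ≠ 2 → (SB F n (2 * l) ↔ SC F n (2 * l)) := fun l hl h => by
    have ho := hl.odd_of_ne_two h
    obtain ⟨m, rfl⟩ : ∃ m, n = m + 1 := ⟨n - 1, by omega⟩
    by_cases h1 : l ∣ cS F m
    · exact iff_of_true (sb_two_mul h2 hl ho h1) (sc_two_mul h2 (by omega) hl ho h1)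
    · haveI := Fact.mk hl
      exact sb_iff_sc_two ho (fun i h0 hi e => h1 (dvd_cS_of_orderOf h0 (by omega) e)) h2
        (fun e => h1 (dvd_cS_of_char hl (by omega) e)) (by omega)
  by_cases hr2 : r = 2
  · subst hr2; exact key s hs hrs.symm
  by_cases hs2 : s = 2
  · subst hs2; rw [mul_comm]; exact key r hr hrs
  by_cases h : (s : F) = 0
  · rw [mul_comm]
    refine sb_iff_sc_odd h2 (by omega) (hr.odd_of_ne_two hr2) (fun e => hrs ?_) hs
      (hs.odd_of_ne_two hs2)
    exact CharP.eq F ((CharP.charP_iff_prime_eq_zero hr).2 e) ((CharP.charP_iff_prime_eq_zero hs).2 h)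
  · exact sb_iff_sc_odd h2 (by omega) (hs.odd_of_ne_two hs2) h hr (hr.odd_of_ne_two hr2)

end Cfsg.Agent.S2474
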