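import Cfsg.Statements.S2478
import Cfsg.Agent.Lib.GLC.ClassNum

set_option autoImplicit false
open Cfsg

namespace Cfsg.Agent.S2478

/-- The number of conjugacy classes of GL(n,q): for F a finite field with q elements and n ≥ 1, the number k of conjugacy classes of GL(n,F) satisfies q^n − q^(n−1) ≤ k ≤ q^n. -/
theorem result {F : Type*} [Field F] [Fintype F] (n : ℕ) (hn : 1 ≤ n) :
    Fintype.card F ^ n - Fintype.card F ^ (n - 1) ≤ Nat.card (ConjClasses (Matrix.GeneralLinearGroup (Fin n) F)) ∧ Nat.card (ConjClasses (Matrix.GeneralLinearGroup (Fin n) F)) ≤ Fintype.card F ^ n := by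
  open Cfsg.Lib.GLC Polynomial Matrix in
  rw [← Nat.card_eq_fintype_card]
  obtain ⟨m, rfl⟩ := Nat.exists_eq_add_one_of_ne_zero (Nat.one_le_iff_ne_zero.1 hn)
  obtain ⟨q, hq⟩ := Nat.exists_eq_add_one_of_ne_zero (Nat.card_pos (α := F)).ne'
  constructor
  · choose g hg using fun P : {P : F[X] // (P.Monic ∧ P.natDegree = m + 1) ∧ P.coeff 0 ≠ 0} =>
      exists_gl_blocks (n := Fin (m + 1)) (μ := {P.1}) (by simpa using ⟨P.2.1.1, P.2.2⟩) (by simpa using P.2.1.2)
    refine le_trans ?_ (Nat.card_le_card_of_injective (fun P => ConjClasses.mk (g P)) fun P Q h => Subtype.ext ?_)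
    · rw [card_monic_coeff m (· ≠ 0), ← Nat.card_congr unitsEquivNeZero, Nat.card_units, hq]
      simp [pow_succ', add_mul]
    · simpa [(hg _).charpoly_eq] using (gl_isConj_iff_sim.1 (ConjClasses.mk_eq_mk_iff_isConj.1 h)).charpoly_eq
  · have := (card_Sq_MC (F := F) (m + 1) (m + 1)).1
    refine (Nat.card_le_card_of_injective (β := Sq natDegree (fun _ => MC (F := F)) (m + 1) (m + 1))
      (fun C => ⟨sq (typ (toLin' C.out.1)), mc_sq_typ (isUnit_toLin'_gl _), by
        simpa using sq_typ_mem (toLin' C.out.1) (j := m + 1) (by simp)⟩) fun C D h => ?_).trans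
      ((card_Sq_MC _ _).2.trans ?_)
    · rw [← C.out_eq, ← D.out_eq]
      exact Quotient.sound (gl_isConj_iff_typ.2 (eq_of_sq_eq (typ_pp _) (typ_pp _) (congrArg Subtype.val h)))
    · rw [hq]
      exact le_self_add.trans (cc_gl_le q _ _ m.succ_ne_zero)

end Cfsg.Agent.S2478
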