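import Cfsg.Statements.S2481
import Cfsg.Agent.Lib.GLC.SeqBound
import Cfsg.Agent.S2386
import Cfsg.Agent.Lib.Unitary.Wall4

set_option autoImplicit false
open Cfsg

namespace Cfsg.Agent.S2481

/-- The number of conjugacy classes of SU(n,q): for n ≥ 2, q a prime power and F the field with q² elements, the number k of conjugacy classes of SU(n,q) (the determinant-one isometries of the standard Hermitian form on F^n) satisfies q^(n−1) ≤ k ≤ 8.26·q^(n−1). -/
theorem result {F : Type*} [Field F] [Fintype F] (n q : ℕ) (hn : 2 ≤ n) (hF : Fintype.card F = q ^ 2) :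
    q ^ (n - 1) ≤ Nat.card (ConjClasses (Cfsg.SU n F q)) ∧ 100 * Nat.card (ConjClasses (Cfsg.SU n F q)) ≤ 826 * q ^ (n - 1) := by
  open Lib.GLC Lib.Unitary Matrix Polynomial Finset in
  classical
  obtain ⟨σ, hσ⟩ := exists_isBar hF
  obtain ⟨p, hp⟩ := CharP.exists F
  haveI := Fact.mk (CharP.char_is_prime F p)
  refine ⟨Cfsg.Agent.S2386.result hF p n (by omega) ▸ Nat.card_le_card_of_injective _ Subtype.val_injective, ?_⟩
  let M : F[X] → Prop := fun P => MC P ∧ dual σ P = P
  have h1 : ∀ P, M P → P.coeff 0 * σ (P.coeff 0) = 1 := fun P h => by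
    have := coeff_zero_dual (σ := σ) h.1.1
    rw [h.2] at this
    exact (congrArg (· * σ (P.coeff 0)) this).trans (inv_mul_cancel₀ (by simpa using h.1.2))
  let k : F[X] → normOne σ := fun P => if h : P.coeff 0 * σ (P.coeff 0) = 1 then
    ⟨.mk0 _ (left_ne_zero_of_mul_eq_one h), h⟩ else 1
  have hk : ∀ P, M P → ((k P).1 : F) = P.coeff 0 := fun P h => by simp only [k, dif_pos (h1 P h)]; rfl
  have h2 : ∀ d c, d ≠ 0 → Nat.card {P // (M P ∧ P.natDegree = d) ∧ k P = c} = q ^ (d - 1) := fun d c hd => by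
    obtain ⟨d, rfl⟩ := Nat.exists_eq_add_one_of_ne_zero hd
    refine (Nat.card_congr (Equiv.subtypeEquivRight fun P => ⟨fun h => ⟨⟨h.1.1.1.1, h.1.2⟩, by
      rw [← h.2, hk P h.1.1], h.1.1.2⟩, fun h => ?_⟩)).trans (hσ.card_selfDual d c.2)
    have : M P := ⟨⟨h.1.1, h.2.1 ▸ c.1.ne_zero⟩, h.2.2⟩
    exact ⟨⟨this, h.1.2⟩, Subtype.ext (Units.ext ((hk P this).trans h.2.1))⟩
  have h3 := card_Sq_le (deg := natDegree) (p := fun _ => M) (o := 1) (a := aN (q + 1) q)
    (fun _ _ h => eq_one_of_monic_natDegree_zero h.1.1) natDegree_one (fun _ => ⟨⟨monic_one, by simp⟩, map_one _⟩)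
    (fun _ => finite_natDegree _) (fun _ d => by
      rcases d with _ | d
      · exact card_natDegree_zero fun _ h => h.1.1
      have := Fintype.ofFinite (normOne σ)
      have := finite_natDegree M (d + 1)
      rw [← Nat.card_congr (Equiv.sigmaFiberEquiv fun P : {P // M P ∧ P.natDegree = d + 1} => k P), Nat.card_sigma,
        sum_congr rfl fun c _ => (Nat.card_congr (Equiv.subtypeSubtypeEquivSubtypeInter _ (k · = c))).trans
          (h2 _ c d.succ_ne_zero), sum_const, card_univ, ← Nat.card_eq_fintype_card, hσ.card_normOne]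
      rfl) n
  have := fun m => @Fintype.ofFinite _ (h3 m).1
  have h4 : ∀ (g : SU n F q) i, M (sq (typ (toLin' g.1.1)) i) := fun g i =>
    ⟨mc_sq_typ (hσ.sd_su g).1 i, (sq_map _ (typ_pp _) (fun φ e h1 h2 h3 h4 => by
      have := coeff_zero_ne_of_dvd (dvd_pow_self φ h3.ne') ((hσ.sd_su g).coeff_ne h4)
      exact ⟨monic_dual this, hσ.irreducible_dual h1 this h2⟩) i).symm.trans (congrArg (sq · i) (hσ.sd_su g).2)⟩
  have h5 := (card_mul_le_sum_sq k (finite_natDegree M) h2 (X := ConjClasses (SU n F q)) (fun C =>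
    ⟨sq (typ (toLin' C.out.1.1)), h4 _, by simpa using sq_typ_mem (toLin' C.out.1.1) (j := n) (by simp)⟩)
    (ζ := ⟨-1, by simp [mem_normOne]⟩ ^ n) (fun C => Subtype.ext (Units.ext (by
      simpa [hk _ (h4 _ _), C.out.1.2] using prod_coeff_sq (toLin' C.out.1.1) (j := n) (by simp)))) fun C =>
      (Nat.card_le_card_of_injective _ (Subtype.impEmbedding _ _ fun D hD => ⟨D.out, D.out_eq,
        sim_iff_typ_eq.2 (eq_of_sq_eq (typ_pp _) (typ_pp _) (congrArg Subtype.val hD)).symm⟩).injective).trans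
        ((hσ.card_su_classes_sim (by omega) C.out).trans_le (Subgroup.index_antitone (iSup₂_le fun i hi =>
          hσ.map_barHom_pow i ▸ Subgroup.map_mono ((le_iSup₂_of_le (f := fun i
            (_ : (sq (typ (toLin' C.out.1.1)) i).natDegree ≠ 0) => (powMonoidHom i : Fˣ →* Fˣ).range) i hi le_rfl).trans
            (pwr_le_detC _)))))).trans (sum_sq_le (o := 1) fun _ h => eq_one_of_monic_natDegree_zero h.1.1)
  rw [hσ.card_normOne] at h5
  refine Nat.le_of_mul_le_mul_right (le_trans ?_ (wt_gu_le hσ.two_le hn)) q.succ_pos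
  rw [mul_assoc]
  exact Nat.mul_le_mul_left _ (h5.trans (Nat.add_le_add (h3 n).2 (sum_le_sum fun g _ => Nat.mul_le_mul_left _ (h3 _).2)))

end Cfsg.Agent.S2481
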