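import Cfsg.Statements.S2482
import Cfsg.Agent.Lib.GLC.FENum
import Cfsg.Agent.S2385

set_option autoImplicit false
open Cfsg

namespace Cfsg.Agent.S2482

/-- The number of conjugacy classes of Sp(2n,q), q odd: for F a finite field of odd order q and n ≥ 1, the number k of conjugacy classes of Sp(2n,F) satisfies q^n ≤ k ≤ 10.8·q^n. -/
theorem result {F : Type*} [Field F] [Fintype F] (hodd : Odd (Fintype.card F)) (n : ℕ) (hn : 1 ≤ n) :
    Fintype.card F ^ n ≤ Nat.card (ConjClasses (Matrix.symplecticGroup (Fin n) F)) ∧ 5 * Nat.card (ConjClasses (Matrix.symplecticGroup (Fin n) F)) ≤ 54 * Fintype.card F ^ n := by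
  open Lib.GLC Lib.Symp Matrix in
  obtain ⟨p, hp⟩ := CharP.exists F
  haveI := Fact.mk (CharP.char_is_prime F p)
  refine ⟨Cfsg.Agent.S2385.result (F := F) rfl p n ▸ Nat.card_le_card_of_injective _ Subtype.val_injective, ?_⟩
  have h2 : (2 : F) ≠ 0 := mt Lib.Orth.ringChar_eq_two_iff.2 fun h => by
    simpa [FiniteField.even_card_iff_char_two.1 h] using Nat.odd_iff.1 hodd
  have hf := fun g : symplecticGroup (Fin n) F => (spE_sp g).fE h2
  obtain ⟨_, h⟩ := card_adm_le (V := Fin n ⊕ Fin n → F) h2 fun a => Odd (a + 1)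
  refine (Nat.mul_le_mul_left 5 ((Nat.card_le_card_of_injective (fun C => ⟨_, (hf C.out).adm⟩) fun C D e =>
    Quotient.out_equiv_out.1 (sp_isConj_iff.2 ((hf _).isim_of_dat (hf _) (congrArg Subtype.val e)))).trans h)).trans ?_
  have := Fintype.one_lt_card (α := F)
  simpa using cc_sp_le (show 3 ≤ Fintype.card F by grind) (n + n) n

end Cfsg.Agent.S2482
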