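import Cfsg.Statements.S2485
import Cfsg.Agent.Lib.PSL2.Structure

set_option autoImplicit false
open scoped Pointwise
open Cfsg

namespace Cfsg.Agent.S2485

open scoped MatrixGroups Pointwise in
open Cfsg.Lib.PSL2 in
theorem inf_dih_ne_bot {F K : Type*} [Field F] [Finite F] [Field K] [Algebra F K]
    {a b a₁ b₁ : P1 K} (h : TorusPair F a b (Nat.card F + 1))
    (h₁ : TorusPair F a₁ b₁ (Nat.card F + 1)) : dih F a b ⊓ dih F a₁ b₁ ≠ ⊥ := by
  have hne := h.ne
  have hx := h.ne_emb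
  obtain ⟨α, β, t, n, rfl, rfl, ht, hn, -, -⟩ := h.exists_coords
  obtain ⟨α₁, β₁, t₁, n₁, rfl, rfl, ht₁, hn₁, -, -⟩ := h₁.exists_coords
  obtain ⟨u, w, huw, e⟩ : ∃ u w : F, (u ≠ 0 ∨ w ≠ 0) ∧ u * (t - t₁) = w * (n - n₁) := by
    by_cases e : t - t₁ = 0
    · exact ⟨1, 0, .inl one_ne_zero, by rw [e]; ring⟩
    · exact ⟨n - n₁, t - t₁, .inr e, by ring⟩
  have hd : u * -u - (w * n - u * t) * w ≠ 0 := by
    intro e
    by_cases hw : w = 0
    · rw [hw] at e
      exact huw.elim (fun h => h (pow_eq_zero_iff two_ne_zero |>.1 (by linear_combination -e)))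
        (fun h => h hw)
    · have e1 : (algebraMap F K (u / w) - α) * (algebraMap F K (u / w) - β) = 0 := by
        have : (u / w) ^ 2 - t * (u / w) + n = 0 := by field_simp; linear_combination -e
        have e2 := congrArg (algebraMap F K) this
        simp only [map_add, map_sub, map_mul, map_pow, map_zero, ← ht, ← hn] at e2
        linear_combination e2
      rcases mul_eq_zero.1 e1 with e2 | e2
      · exact hx (pt (u / w)) (by rw [emb_pt, sub_eq_zero.1 e2])
      · exact h.symm.ne_emb (pt (u / w)) (by rw [emb_pt, sub_eq_zero.1 e2])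
  have key : ∀ (α β : K) (t₁ n₁ : F), α + β = algebraMap F K t₁ → α * β = algebraMap F K n₁ →
      u * (t - t₁) = w * (n - n₁) →
      toK K (Matrix.ProjGenLinGroup.mk (gl2 u (w * n - u * t) w (-u) hd)) • pt α = pt β := by
    intro α β t₁ n₁ ht hn e
    change (Matrix.ProjGenLinGroup.mk (Matrix.GeneralLinearGroup.map (algebraMap F K)
      (gl2 u (w * n - u * t) w (-u) hd)) : PGL(2, K)) • pt α = pt β
    rw [pgl_mk_smul, gl_smul_pt_eq_pt]
    have e2 := congrArg (algebraMap F K) e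
    simp only [map_sub, map_mul, ← ht, ← hn] at e2
    simp [Matrix.GeneralLinearGroup.map]
    linear_combination -e2
  have k1 := key α β t n ht hn (by ring)
  intro hb
  have : Matrix.ProjGenLinGroup.mk (gl2 u (w * n - u * t) w (-u) hd) ∈
      dih F (pt α) (pt β) ⊓ dih F (pt α₁) (pt β₁) :=
    ⟨.inr ⟨k1, key β α t n (by rw [add_comm, ht]) (by rw [mul_comm, hn]) (by ring)⟩,
      .inr ⟨key α₁ β₁ t₁ n₁ ht₁ hn₁ e, key β₁ α₁ t₁ n₁ (by rw [add_comm, ht₁])
        (by rw [mul_comm, hn₁]) e⟩⟩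
  rw [hb, Subgroup.mem_bot] at this
  rw [this, map_one, one_smul] at k1
  exact hne k1

open scoped MatrixGroups Pointwise in
open Cfsg.Lib.PSL2 in
theorem sylow_eq_dih {q k : ℕ} [Fact q.Prime] (hk : q + 1 = 2 ^ k) (hq : 7 ≤ q)
    (H : Sylow 2 PGL(2, ZMod q)) : ∃ a b : P1 (AlgebraicClosure (ZMod q)),
      TorusPair (ZMod q) a b (Nat.card (ZMod q) + 1) ∧ (H : Subgroup _) = dih (ZMod q) a b := by
  obtain ⟨j, hj⟩ := IsPGroup.iff_card.1 H.isPGroup'
  have hq2 : q ≠ 2 := by omega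
  obtain ⟨a, b, m, h, hle⟩ := exists_le_dih_of_coprime (AlgebraicClosure (ZMod q)) q
    (H := (H : Subgroup PGL(2, ZMod q)))
    (by rw [hj]; exact ((Nat.coprime_primes Nat.prime_two Fact.out).2 hq2.symm).pow_left _)
    (by
      rw [hj]; intro e
      exact absurd (Nat.prime_three.dvd_of_dvd_pow ((by norm_num : 3 ∣ 12).trans e)) (by norm_num))
  have h1 : 2 ^ (k + 1) ∣ Nat.card H := H.pow_dvd_card_of_pow_dvd_card (by
    rw [card_PGL2, Nat.card_zmod, sq_sub_one_eq, pow_succ', ← hk]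
    have := (Nat.Prime.eq_two_or_odd (Fact.out : q.Prime)).resolve_left hq2
    exact (Nat.mul_dvd_mul_right (by omega) _).mul_left _)
  have h2 := Subgroup.card_le_of_le hle
  have h3 := Nat.le_of_dvd Nat.card_pos h1
  have h4 := h.eq_or_eq
  rw [h.card_dih] at h2
  rw [pow_succ', ← hk] at h3
  rw [Nat.card_zmod] at h4
  obtain rfl : m = Nat.card (ZMod q) + 1 := by rw [Nat.card_zmod]; omega
  exact ⟨a, b, h, Subgroup.eq_of_le_of_card_ge hle (by rw [h.card_dih, Nat.card_zmod]; omega)⟩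

/-- Let q = 2^k − 1 ≥ 7 be a prime and let G = PGL(2,q), the general linear group of degree 2 over the field with q elements modulo its centre. Then any two Sylow 2-subgroups of G have a non-trivial intersection: for a Sylow 2-subgroup H and every x ∈ G, H ∩ H^x ≠ 1. -/
theorem result {q k : ℕ} [Fact q.Prime] (hk : q + 1 = 2 ^ k) (hq : 7 ≤ q)
    (H : Sylow 2 (GL (Fin 2) (ZMod q) ⧸ Subgroup.center (GL (Fin 2) (ZMod q))))
    (x : GL (Fin 2) (ZMod q) ⧸ Subgroup.center (GL (Fin 2) (ZMod q))) :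
    (H : Subgroup (GL (Fin 2) (ZMod q) ⧸ Subgroup.center (GL (Fin 2) (ZMod q)))) ⊓ MulAut.conj x • (H : Subgroup _) ≠ ⊥ := by
  obtain ⟨a, b, h, e⟩ := sylow_eq_dih hk hq H
  obtain ⟨a₁, b₁, h₁, e₁⟩ := sylow_eq_dih hk hq (x • H :)
  intro hb
  exact inf_dih_ne_bot h h₁ (by rw [← e, ← e₁]; exact hb)

end Cfsg.Agent.S2485
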