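import Cfsg.Statements.S2486
import Cfsg.Agent.Lib.CharDeg.FlagBruhat
import Cfsg.Agent.Lib.Linear.Unip

set_option autoImplicit false
open scoped Pointwise
open Cfsg

namespace Cfsg.Agent.S2486

open Cfsg.Lib Cfsg.Lib.GLFlag Cfsg.Lib.Linear Matrix Subgroup

theorem opp {n : ℕ} {F : Type*} [Field F] {g : GL (Fin n) F}
    (h : ∀ b ∈ upperTriangularGL n F, g⁻¹ * b * g ∈ upperTriangularGL n F → b = 1) :
    ∃ b ∈ upperTriangularGL n F, ∃ b' ∈ upperTriangularGL n F, g = b * pm F Fin.revPerm * b' := by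
  obtain ⟨b, hb, σ, b', hb', rfl⟩ := exists_bruhat g
  have h1 : StrictMono (Fin.rev ∘ σ) := fun i j hij => by
    rw [Function.comp, Function.comp, Fin.rev_lt_rev]
    refine lt_of_le_of_ne (not_lt.1 fun h2 => ?_) (σ.injective.ne hij.ne')
    let t : ∀ {i j : Fin n}, i < j → GL (Fin n) F := fun h =>
      SpecialLinearGroup.toGL (SpecialLinearGroup.transvection h.ne 1)
    have ht : ∀ {i j : Fin n} (h : i < j), t h ∈ upperTriangularGL n F := fun h =>
      blockTriangular_transvection (b := id) h.le 1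
    have h3 : t h2 * pm F σ = pm F σ * t hij := by
      ext k l
      rw [Units.val_mul, Units.val_mul, mul_pm_apply]
      change transvection (σ i) (σ j) (1 : F) k (σ l) =
        (((pm F σ).1 * transvection i j (1 : F) : Matrix (Fin n) (Fin n) F)) k l
      rw [transvection, transvection, mul_add, mul_one, Matrix.add_apply, Matrix.add_apply, pm_apply,
        one_apply]
      by_cases h5 : l = j
      · subst h5
        rw [mul_single_apply_same, pm_apply]
        simp [single_apply, eq_comm]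
      · rw [mul_single_apply_of_ne _ _ _ _ _ h5, single_apply_of_ne _ _ _ _ _
          (by simp [Ne.symm h5])]
        simp [eq_comm]
    have h4 := h (b * t h2 * b⁻¹) (mul_mem (mul_mem hb (ht h2)) (inv_mem hb)) (by
      rw [show (b * pm F σ * b')⁻¹ * (b * t h2 * b⁻¹) * (b * pm F σ * b') =
        b'⁻¹ * ((pm F σ)⁻¹ * (t h2 * pm F σ)) * b' by group, h3, inv_mul_cancel_left]
      exact mul_mem (mul_mem (inv_mem hb') (ht hij)) hb')
    rw [conj_eq_one_iff] at h4
    have h5 : transvection (σ i) (σ j) (1 : F) (σ i) (σ j) = (1 : Matrix (Fin n) (Fin n) F) (σ i) (σ j) :=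
      congrArg (fun m : GL (Fin n) F => m.1 (σ i) (σ j)) h4
    simp [transvection, h2.ne] at h5
  refine ⟨b, hb, b', hb', ?_⟩
  rw [show σ = Fin.revPerm from Equiv.ext fun i => Fin.rev_injective (by simpa using h1.apply_eq)]

theorem z2 : ∀ a : ZMod 2, a ≠ 0 → a = 1 := by decide

theorem upper_eq (n : ℕ) : upperTriangularGL n (ZMod 2) = unipGL (Fin.val : Fin n → ℕ) := by
  refine le_antisymm (fun g hg k l h => ?_) fun g hg => raises_zero_iff.1 (unipGL_le_parabGL _ hg)
  rcases (show l ≤ k from Nat.le_of_lt_succ h).lt_or_eq with h1 | rfl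
  · rw [Matrix.sub_apply, hg h1, one_apply_ne h1.ne', sub_zero]
  · have h2 := g.isUnit.map detMonoidHom
    rw [coe_detMonoidHom, det_of_upperTriangular hg, IsUnit.prod_univ_iff] at h2
    rw [Matrix.sub_apply, one_apply_eq, sub_eq_zero]
    exact z2 _ (h2 l).ne_zero

/-- Let n ≥ 4 and let G be a finite group with a normal subgroup N of index 2 isomorphic to SL(n,2) and with trivial centralizer in G (so G is the extension of the simple group L_n(2) by its inverse-transpose automorphism, its full automorphism group). Then any two Sylow 2-subgroups of G have a non-trivial intersection: for a Sylow 2-subgroup H and every x ∈ G, H ∩ H^x ≠ 1. -/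
theorem result {G : Type*} [Group G] [Finite G] {n : ℕ} (hn : 4 ≤ n) (N : Subgroup G) [N.Normal]
    (e : N ≃* Matrix.SpecialLinearGroup (Fin n) (ZMod 2)) (hidx : N.index = 2)
    (hC : Subgroup.centralizer (N : Set G) = ⊥)
    (H : Sylow 2 G) (x : G) :
    (H : Subgroup G) ⊓ MulAut.conj x • (H : Subgroup G) ≠ ⊥ := by
  have : Fact (Nat.Prime 2) := ⟨Nat.prime_two⟩
  let e' : N ≃* GL (Fin n) (ZMod 2) := e.trans (MulEquiv.ofBijective SpecialLinearGroup.toGL
    ⟨SpecialLinearGroup.toGL_injective, fun g => ⟨⟨g, z2 _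
      (g.isUnit.map detMonoidHom).ne_zero⟩, Units.ext rfl⟩⟩)
  let ι : GL (Fin n) (ZMod 2) →* G := N.subtype.comp e'.symm.toMonoidHom
  have hι : Function.Injective ι := N.subtype_injective.comp e'.symm.injective
  have hs : ∀ g ∈ N, ∃ a, ι a = g := fun g hg => ⟨e' ⟨g, hg⟩, by simp [ι]⟩
  have hN : ∀ a, ι a ∈ N := fun a => (e'.symm a).2
  obtain ⟨H0, hH0⟩ := ((sylowGL n (ZMod 2) 2).isPGroup'.map ι).exists_le_sylow
  have hB : (H0 : Subgroup G).comap ι = upperTriangularGL n (ZMod 2) := by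
    rw [upper_eq, ← coe_sylowGL n 2]
    exact (sylowGL n (ZMod 2) 2).is_maximal' (H0.isPGroup'.comap_of_injective ι hι)
      (map_le_iff_le_comap.1 hH0)
  have hB' : ∀ a, a ∈ upperTriangularGL n (ZMod 2) ↔ ι a ∈ H0 := fun a => by rw [← hB]; rfl
  obtain ⟨h, hh, hhN⟩ : ∃ h ∈ H0, h ∉ N := by
    by_contra! h1
    exact H0.not_dvd_index (hidx.symm.dvd.trans (index_dvd_of_le h1))
  have hG : ∀ P : Sylow 2 G, ∃ a, P = ι a • H0 := fun P => by
    obtain ⟨y, rfl⟩ := MulAction.exists_smul_eq G H0 P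
    by_cases hy : y ∈ N
    · obtain ⟨a, rfl⟩ := hs y hy
      exact ⟨a, rfl⟩
    · obtain ⟨a, ha⟩ := hs (y * h) ((mul_mem_iff_of_index_two hidx).2 (iff_of_false hy hhN))
      exact ⟨a, by rw [ha, mul_smul, Sylow.smul_eq_iff_mem_normalizer.2 (le_normalizer hh)]⟩
  obtain ⟨a, rfl⟩ := hG H
  obtain ⟨c, hc⟩ := hG (x • ι a • H0)
  rw [← Sylow.coe_subgroup_smul, hc]
  intro h0
  have h1 : ∀ y ∈ H0, (ι (a⁻¹ * c))⁻¹ * y * ι (a⁻¹ * c) ∈ H0 → y = 1 := fun y hy hy' => by
    have h2 : ι a * y * (ι a)⁻¹ ∈ (⊥ : Subgroup G) := h0 ▸ ⟨smul_mem_pointwise_smul _ _ _ hy, by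
      have := smul_mem_pointwise_smul _ (MulAut.conj (ι c)) _ hy'
      rwa [show MulAut.conj (ι c) • ((ι (a⁻¹ * c))⁻¹ * y * ι (a⁻¹ * c)) = ι a * y * (ι a)⁻¹ by
        simp [mul_assoc]] at this⟩
    simpa using h2
  generalize a⁻¹ * c = g at h1
  obtain ⟨g', hg'⟩ := hs (h * ι g * h⁻¹) (Normal.conj_mem inferInstance _ (hN g) h)
  obtain ⟨b, hb, b', hb', e1⟩ := opp (g := g) fun b hb h2 => hι (by
    rw [map_one]; exact h1 _ ((hB' b).1 hb) (by simpa using (hB' _).1 h2))
  obtain ⟨d, hd, d', hd', e2⟩ := opp (g := g') fun b hb h2 => hι (by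
    have h3 := h1 (h⁻¹ * ι b * h) (mul_mem (mul_mem (inv_mem hh) ((hB' b).1 hb)) hh) (by
      have h4 := mul_mem (mul_mem (inv_mem hh) ((hB' _).1 h2)) hh
      simpa [hg', mul_assoc] using h4)
    simpa [mul_eq_one_iff_eq_inv, inv_mul_eq_iff_eq_mul] using h3)
  have h2 : g' = d * b⁻¹ * g * (b'⁻¹ * d') := by rw [e1, e2]; group
  have h3 := h1 ((ι (d * b⁻¹))⁻¹ * h) (mul_mem (inv_mem ((hB' _).1 (mul_mem hd (inv_mem hb)))) hh) (by
    rw [show (ι g)⁻¹ * ((ι (d * b⁻¹))⁻¹ * h) * ι g = (ι g)⁻¹ * (ι (d * b⁻¹))⁻¹ * (h * ι g * h⁻¹) * h by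
      group, ← hg', h2]
    simpa [mul_assoc] using mul_mem ((hB' _).1 (mul_mem (inv_mem hb') hd')) hh)
  exact hhN (inv_mul_eq_one.1 h3 ▸ hN _)

end Cfsg.Agent.S2486
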