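import Cfsg.Statements.S2487
import Cfsg.Agent.Lib.Orth.SymTwo

set_option autoImplicit false
open scoped Pointwise
open Cfsg

namespace Cfsg.Agent.S2487

open Cfsg.Lib Cfsg.Lib.Orth Module Subgroup QuadraticMap

theorem isPGroup_fixer {F V : Type*} [Field F] [AddCommGroup V] [Module F V] [FiniteDimensional F V]
    [Fintype F] (hF : Fintype.card F = 2) {Q : QuadraticForm F V} (hQ : ND Q) (hs : osign Q = 1)
    {W : Submodule F V} (hW : TS Q W) (hd : finrank F V = 2 * finrank F W + 2) :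
    IsPGroup 2 (fixer Q W) := fun x => by
  have h2 := two_eq_zero_of_card hF
  obtain ⟨a, k, hk, e⟩ := Nat.exists_eq_two_pow_mul_odd (orderOf_pos x).ne'
  refine ⟨a, Subtype.ext ?_⟩
  have h1 : (x ^ 2 ^ a).1 ^ k = 1 := by rw [← coe_pow, ← pow_mul, ← e, pow_orderOf_eq_one, coe_one]
  have h3 := (x ^ 2 ^ a).2
  generalize (x ^ 2 ^ a).1 = y at h1 h3
  have S := O.isOSum_comm_fix (by obtain ⟨j, rfl⟩ := hk; simp [h2]) h1
  obtain ⟨b, c, h4⟩ := S.exists_split (Commute.refl y)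
  obtain ⟨-, rfl⟩ := S.of_sumMap_eq h4
  have h5 : b ^ k = 1 := by
    rw [← h4, S.sumMap_pow] at h1; exact (S.sumMap_eq_one.1 h1).1
  have h6 : finrank F W ≤ wittIndex (Q.restrict (O.fix y)) := by
    have hle : W ≤ O.fix y := fun w hw => O.mem_fix.2 (h3 w hw)
    rw [← (Submodule.comapSubtypeEquivOfLe hle).finrank_eq]
    exact TS.finrank_le_wittIndex fun w hw => hW _ hw
  have h7 := two_mul_wittIndex_le (S.nd_right hQ)
  have h8 := S.finrank_add
  have h9 := even_finrank_of_two_eq_zero (S.nd_left hQ) h2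
  have h0 := S.osign_eq hQ h9 (even_finrank_of_two_eq_zero (S.nd_right hQ) h2)
  rw [← h4, coe_one, S.sumMap_eq_one, and_iff_left rfl]
  by_cases h : finrank F (O.comm y) = 0
  · haveI := finrank_zero_iff.1 h
    exact O.ext fun _ => Subsingleton.elim _ _
  obtain ⟨j, hj⟩ := h9
  rw [hs, osign_eq_one_iff.2 (by omega : 2 * wittIndex (Q.restrict (O.fix y)) = _), mul_one, eq_comm,
    osign_eq_one_iff] at h0
  have := card_O_plus (m := 0) (S.nd_left hQ) (by omega) (by omega)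
  rw [Nat.card_eq_fintype_card (α := F), hF] at this
  exact (pow_eq_one_iff_of_coprime (Nat.coprime_two_left.2 hk)).1
    ⟨(show _ = 2 from this) ▸ pow_card_eq_one', h5⟩

theorem aux {F V G : Type*} [Field F] [AddCommGroup V] [Module F V] [FiniteDimensional F V]
    [Fintype F] (hF : Fintype.card F = 2) {Q : QuadraticForm F V} (hQ : ND Q) (hs : osign Q = 1)
    {m : ℕ} (hm : 4 ≤ m) (hV : finrank F V = 2 * m) [Group G] (e : G ≃* O Q) (H H' : Sylow 2 G) :
    (H : Subgroup G) ⊓ H' ≠ ⊥ := by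
  haveI := Finite.of_equiv _ e.symm.toEquiv
  obtain ⟨W₀, h1, h2⟩ := exists_ts_finrank_eq (Q := Q) (k := m - 1) (by
    have := osign_eq_one_iff.1 hs; omega)
  obtain ⟨P₀, h3⟩ := ((isPGroup_fixer hF hQ hs h1 (by omega)).map e.symm.toMonoidHom).exists_le_sylow
  have key : ∀ P : Sylow 2 G, ∃ W : Submodule F V,
      finrank F W = m - 1 ∧ ∀ g ∈ fixer Q W, e.symm g ∈ P := fun P => by
    obtain ⟨g, rfl⟩ := MulAction.exists_smul_eq G P₀ P
    refine ⟨W₀.map (e g).1.toLinearMap, (LinearEquiv.finrank_map_eq _ _).trans h2, fun y hy => ?_⟩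
    refine mem_pointwise_smul_iff_inv_smul_mem.2 (h3 ⟨(e g)⁻¹ * y * e g, fun w hw => ?_, by simp⟩)
    rw [O.mul_apply, O.mul_apply, hy ((e g).1 w) ⟨w, hw, rfl⟩, ← O.mul_apply, inv_mul_cancel,
      O.one_apply]
  obtain ⟨W, h4, h5⟩ := key H
  obtain ⟨W', h6, h7⟩ := key H'
  have h8 : ∀ g ∈ genIn _ (perp Q (W ⊔ W')), g ≠ 1 → (H : Subgroup G) ⊓ H' ≠ ⊥ :=
    fun g hg h1 h => h1 (e.symm.map_eq_one_iff.1 ((eq_bot_iff_forall _).1 h _
      ⟨h5 g fun w hw => genIn_perp_le_fixer _ hg w (Submodule.mem_sup_left hw),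
        h7 g fun w hw => genIn_perp_le_fixer _ hg w (Submodule.mem_sup_right hw)⟩))
  by_cases h : ∃ v ∈ perp Q (W ⊔ W'), Q v ≠ 0
  · obtain ⟨v, hv, h0⟩ := h
    exact h8 _ (refl_mem_genIn hv) (refl_ne_one hQ h0)
  push Not at h
  have h9 := finrank_add_finrank_perp hQ (W ⊔ W')
  have := Submodule.finrank_sup_add_finrank_inf_eq W W'
  obtain ⟨v, hv⟩ := exists_linearIndependent_of_le_finrank (R := F)
    (M := perp Q (W ⊔ W')) (n := 2) (by omega)
  obtain ⟨y, hy⟩ := exists_polar_eq_of_linearIndependent hQ (hv.map' _ (Submodule.ker_subtype _)) ![0, 1]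
  refine h8 _ (eich_mem_genIn (v 0).2 (v 1).2) fun h0 => hv.ne_zero 0 ?_
  have := congrArg (fun g : O Q => g.1 y) h0
  simp only [eich_apply_of_perp (h _ (v 0).2) (TS.polar_eq h (v 0).2 (v 1).2) (hy 0),
    show polar Q (v 1).1 y = 1 from hy 1] at this
  simpa using this

/-- Let m ≥ 4 and let G be the full isometry group of the hyperbolic quadratic form x₁y₁ + ⋯ + x_m y_m on the 2m-dimensional space over the field with 2 elements (the orthogonal group O⁺(2m,2), which contains Ω⁺(2m,2) with index 2). Then any two Sylow 2-subgroups of G have a non-trivial intersection: for a Sylow 2-subgroup H and every x ∈ G, H ∩ H^x ≠ 1. -/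
theorem result {F : Type*} [Field F] [Fintype F] (hF : Fintype.card F = 2) {m : ℕ} (hm : 4 ≤ m)
    (H : Sylow 2 (Cfsg.isometryGroup F (Cfsg.quadFormPlus m F)))
    (x : Cfsg.isometryGroup F (Cfsg.quadFormPlus m F)) :
    (H : Subgroup (Cfsg.isometryGroup F (Cfsg.quadFormPlus m F))) ⊓ MulAut.conj x • (H : Subgroup _) ≠ ⊥ := by
  exact aux hF (nd_qPlus m) (osign_qPlus m) hm (by simp [two_mul]) (isoEquiv (qPlus m F)) H (x • H)

end Cfsg.Agent.S2487
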