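import Cfsg.Statements.S2488
import Cfsg.Agent.Lib.T2.Dih8
import Cfsg.Agent.Lib.PGroup.Basic

set_option autoImplicit false
open scoped Pointwise
open Cfsg

namespace Cfsg.Agent.S2488

open Equiv Subgroup

set_option maxRecDepth 100000 in
theorem cnt : ((Finset.univ.filter fun y : Perm (Fin 6) => y * y = 1).filter fun y =>
      Perm.sign y = 1 ∧ (swap 0 1 * swap 4 5 * y) ^ 5 = 1).card = 17 ∧
    ((Finset.univ.filter fun y : Perm (Fin 6) => y * y = 1).filter fun y =>
      Perm.sign y = 1 ∧ ¬(swap 0 1 * swap 4 5 * y) ^ 5 = 1).card = 29 := by decide +kernel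

theorem exists_conj (α : alternatingGroup (Fin 6)) (hα : orderOf α = 2) :
    ∃ c : Perm (Fin 6), c * (α : Perm (Fin 6)) * c⁻¹ = swap 0 1 * swap 4 5 := by
  have hct : (swap 0 1 * swap 4 5 : Perm (Fin 6)).cycleType = {2, 2} := by decide
  have hct' : (α : Perm (Fin 6)).cycleType = {2, 2} := by
    have ho : orderOf (α : Perm (Fin 6)) = 2 := by rw [Subgroup.orderOf_coe, hα]
    obtain ⟨n, hn⟩ := Perm.cycleType_prime_order (ho ▸ Nat.prime_two)
    rw [ho] at hn
    have h1 := Perm.sum_cycleType_le (α : Perm (Fin 6))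
    have h2 := Perm.mem_alternatingGroup.1 α.2
    rw [Perm.sign_of_cycleType, hn] at h2
    rw [hn] at h1 ⊢
    simp only [Multiset.sum_replicate, smul_eq_mul, Fintype.card_fin] at h1
    have : n ≤ 2 := by omega
    interval_cases n
    · revert h2; decide
    · rfl
    · revert h2; decide
  exact isConj_iff.1 (Perm.isConj_iff_cycleType_eq.2 (hct'.trans hct.symm))

/-- Let G be a finite group with a normal subgroup N of index 4 isomorphic to the alternating group of degree 6 and with trivial centralizer in G (so G is the full automorphism group of A₆). Then any two Sylow 2-subgroups of G have a non-trivial intersection: for a Sylow 2-subgroup H and every x ∈ G, H ∩ H^x ≠ 1. -/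
theorem result {G : Type*} [Group G] [Finite G] (N : Subgroup G) [N.Normal]
    (e : N ≃* alternatingGroup (Fin 6)) (hidx : N.index = 4)
    (hC : Subgroup.centralizer (N : Set G) = ⊥)
    (H : Sylow 2 G) (x : G) :
    (H : Subgroup G) ⊓ MulAut.conj x • (H : Subgroup G) ≠ ⊥ := by
  intro hbot
  have hN : Nat.card N = 360 := by
    rw [Nat.card_congr e.toEquiv, nat_card_alternatingGroup, Nat.card_eq_fintype_card, Fintype.card_fin]; rfl
  have hG : Nat.card G = 1440 := by rw [← N.card_mul_index, hN, hidx]
  have hH : Nat.card H = 32 := by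
    rw [H.card_eq_multiplicity, hG, show 1440 = 2 ^ 5 * 45 by norm_num, Nat.factorization_mul (by norm_num) (by norm_num),
      Nat.Prime.factorization_pow Nat.prime_two, Finsupp.add_apply, Nat.factorization_eq_zero_of_not_dvd (n := 45) (by norm_num)]
    simp
  have key : ∀ K : Subgroup G, Nat.card K ≤ 4 * Nat.card (K ⊓ N : Subgroup G) := fun K => by
    have h1 := Nat.le_of_dvd (by omega) (relIndex_dvd_index_of_normal N K)
    have h2 := (N.subgroupOf K).card_mul_index
    rw [← inf_subgroupOf_right, Nat.card_congr (subgroupOfEquivOfLe inf_le_right).toEquiv, inf_subgroupOf_right,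
      inf_comm] at h2
    rw [← h2, mul_comm, ← hidx]; exact Nat.mul_le_mul_right _ h1
  obtain ⟨z, hz, hzc, hz2⟩ := Lib.PGroup.exists_mem_centralizer_orderOf_eq (p := 2) (N := (H : Subgroup G) ⊓ N)
    (H.2.to_le inf_le_left) H.2 ((le_inf le_normalizer (by rw [normalizer_eq_top]; exact le_top)).trans inf_normalizer_le_normalizer_inf)
    fun h => by have := key H; rw [h, card_bot, hH] at this; omega
  let w : N := ⟨x * z * x⁻¹, Normal.conj_mem inferInstance z hz.2 x⟩
  have hw : orderOf (e w) = 2 := by
    rw [e.orderOf_eq, ← Subgroup.orderOf_coe, ← hz2]; exact (MulAut.conj x).orderOf_eq z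
  have hC : MulAut.conj x • (H : Subgroup G) = centralizer {(w : G)} := by
    refine eq_of_le_of_card_ge ?_ ?_
    · rintro _ ⟨h, hh, rfl⟩
      rw [mem_centralizer_singleton_iff]
      change x * h * x⁻¹ * (x * z * x⁻¹) = x * z * x⁻¹ * (x * h * x⁻¹)
      rw [conj_mul, conj_mul, hzc h hh]
    · obtain ⟨f⟩ := Lib.T2.alt_six_centralizer _ hw
      have h1 : Nat.card (centralizer ({w} : Set N)) = 8 := by
        rw [Nat.card_congr ((Lib.T2.centralizerEquiv e w).trans f).toEquiv, DihedralGroup.nat_card]
      have h2 : (centralizer ({w} : Set N)).map N.subtype = centralizer {(w : G)} ⊓ N := by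
        ext y
        simp only [mem_map, mem_inf, mem_centralizer_singleton_iff]
        exact ⟨by rintro ⟨y, hy, rfl⟩; exact ⟨congrArg Subtype.val hy, y.2⟩, fun h => ⟨⟨y, h.2⟩, Subtype.ext h.1, rfl⟩⟩
      have h3 := key (centralizer {(w : G)})
      rw [← h2, card_map_of_injective N.subtype_injective, h1] at h3
      rw [show Nat.card (MulAut.conj x • (H : Subgroup G) : Subgroup G) = Nat.card H from
        card_map_of_injective (MulAut.conj x).injective, hH]
      exact h3
  let z' : N := ⟨z, hz.2⟩
  obtain ⟨c, hc⟩ := exists_conj (e z') (by rw [e.orderOf_eq, ← Subgroup.orderOf_coe, hz2])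
  let F : N →* Perm (Fin 6) := (MulAut.conj c).toMonoidHom.comp ((alternatingGroup (Fin 6)).subtype.comp e.toMonoidHom)
  have hF : Function.Injective F := (MulAut.conj c).injective.comp (Subtype.val_injective.comp e.injective)
  let f : H → Perm (Fin 6) := fun h => F (MulAut.conjNormal (h : G) w)
  have hf : Function.Injective f := fun a b h => by
    have h1 : (a : G) * w * (a : G)⁻¹ = b * w * (b : G)⁻¹ := congrArg Subtype.val (hF h)
    have h2 : (b : G)⁻¹ * a ∈ (H : Subgroup G) ⊓ MulAut.conj x • (H : Subgroup G) := ⟨(H : Subgroup G).mul_mem ((H : Subgroup G).inv_mem b.2) a.2, by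
      rw [hC]
      refine mem_centralizer_singleton_iff.2 ?_
      calc (b : G)⁻¹ * a * w = (b : G)⁻¹ * (a * w * (a : G)⁻¹) * a := by group
        _ = _ := by rw [h1]; group⟩
    rw [hbot, mem_bot, inv_mul_eq_one] at h2
    exact Subtype.ext h2.symm
  have f1 : ∀ h, f h * f h = 1 := fun h => by
    rw [← map_mul, ← map_mul, ← pow_two, show w ^ 2 = 1 from e.injective (by rw [map_pow, ← hw, pow_orderOf_eq_one, map_one]),
      map_one, map_one]
  have f2 : ∀ h, Perm.sign (f h) = 1 := fun h => by
    change Perm.sign (c * (e (MulAut.conjNormal (h : G) w) : Perm (Fin 6)) * c⁻¹) = 1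
    rw [map_mul, map_mul, Perm.mem_alternatingGroup.1 (e _).2]; simp
  have f3 : ∀ h, (swap 0 1 * swap 4 5 * f h) ^ 5 = 1 ↔ (z' * w) ^ 5 = 1 := fun h => by
    have h1 : MulAut.conjNormal (h : G) z' = z' := Subtype.ext (by
      change (h : G) * z * (h : G)⁻¹ = z
      rw [hzc h h.2, mul_inv_cancel_right])
    rw [← hc, show c * (e z' : Perm (Fin 6)) * c⁻¹ = F z' from rfl, ← map_mul, ← map_pow, ← h1, ← map_mul, ← map_pow,
      map_eq_one_iff F hF, MulEquiv.map_eq_one_iff, h1]
  classical
  have := Fintype.ofFinite H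
  rw [Nat.card_eq_fintype_card, ← Finset.card_univ, ← Finset.card_image_of_injective _ hf] at hH
  by_cases h5 : (z' * w) ^ 5 = 1
  · have := Finset.card_le_card (s := Finset.univ.image f) (t := (Finset.univ.filter fun y : Perm (Fin 6) =>
      y * y = 1).filter fun y => Perm.sign y = 1 ∧ (swap 0 1 * swap 4 5 * y) ^ 5 = 1) fun y hy => by
        obtain ⟨h, -, rfl⟩ := Finset.mem_image.1 hy
        simp only [Finset.mem_filter, Finset.mem_univ, f1, f2, f3, h5, and_self]
    rw [hH, cnt.1] at this; omega
  · have := Finset.card_le_card (s := Finset.univ.image f) (t := (Finset.univ.filter fun y : Perm (Fin 6) =>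
      y * y = 1).filter fun y => Perm.sign y = 1 ∧ ¬(swap 0 1 * swap 4 5 * y) ^ 5 = 1) fun y hy => by
        obtain ⟨h, -, rfl⟩ := Finset.mem_image.1 hy
        simp only [Finset.mem_filter, Finset.mem_univ, f1, f2, f3, h5, and_self, not_false_eq_true]
    rw [hH, cnt.2] at this; omega

end Cfsg.Agent.S2488
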