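import Cfsg.Statements.S2493
import Cfsg.Agent.Lib.Alt.Mult
import Cfsg.Agent.Lib.Alt.TwoInv

set_option autoImplicit false
open Cfsg

namespace Cfsg.Agent.S2493

open Subgroup Equiv Equiv.Perm Cfsg.Lib.Alt Cfsg.Lib.Pres Cfsg.Lib.Alt.TwoInv
open scoped commutatorElement

section
variable {Ω : Type} [Fintype Ω] [DecidableEq Ω] {G : Type*} [Group G] {σ : G →* alternatingGroup Ω} {z : G}

theorem sq_eq (hperf : commutator G = ⊤) (hs : Function.Surjective σ) (hc : σ.ker ≤ center G)
    (hz : z ∈ σ.ker) (hz1 : z ≠ 1) (hk : ∀ y ∈ σ.ker, y = 1 ∨ y = z) {x : G} {a b c d : Ω}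
    (h : [a, b, c, d].Nodup) (hx : tau σ x = swap a b * swap c d) : x * x = z := by
  have hzz : z * z = 1 := (hk _ (mul_mem hz hz)).resolve_right (by simpa using hz1)
  refine (hk _ (Subtype.ext (show tau σ _ = 1 by rw [map_mul, hx, (dbl h).1]))).resolve_left fun e => hz1 ?_
  obtain ⟨φ, hφ⟩ := exists_section hs hc (fun y hy => by
    rcases hk y hy with rfl | rfl
    · simp
    · rw [sq, hzz]) (x := x) (by rw [sq, e]) (by rw [hx, cycleType_invol (dbl h).1, (dbl h).2]; rfl)
  have p4 : ∀ x : G, ∃ w ∈ center G, x = φ (σ x) * w := fun x =>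
    ⟨(φ (σ x))⁻¹ * x, hc (by simp [MonoidHom.mem_ker, hφ]), by simp⟩
  have p5 : commutator G ≤ φ.range := by
    rw [commutator_def, commutator_le]
    intro x _ y _
    obtain ⟨z, hz, hx⟩ := p4 x
    obtain ⟨w, hw, hy⟩ := p4 y
    refine ⟨⁅σ x, σ y⁆, ?_⟩
    rw [map_commutatorElement]
    nth_rewrite 2 [hx, hy]
    have a := mem_center_iff.1 hz
    have b := mem_center_iff.1 hw
    simp only [commutatorElement_def, mul_inv_rev, mul_assoc]
    rw [← mul_assoc w, ← b z⁻¹, mul_assoc, ← mul_assoc w, ← b, mul_assoc, mul_inv_cancel_left,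
      ← mul_assoc z, ← a, mul_assoc, mul_inv_cancel_left]
  obtain ⟨π, rfl⟩ := p5 (hperf ▸ mem_top z)
  rw [← hφ π, show σ (φ π) = 1 from hz, map_one]

omit [Fintype Ω] in
theorem comm_id {p q r s : Ω} (h : [p, q, r, s].Nodup) :
    ⁅swap q r * swap q s, swap p q * swap r s⁆ = swap p r * swap q s := by
  simp only [List.nodup_cons, List.mem_cons, List.not_mem_nil, or_false, not_or] at h
  ext x
  obtain ⟨⟨h1, h2, h3⟩, ⟨h4, h5⟩, h6, -⟩ := h
  have := Ne.symm h1; have := Ne.symm h2; have := Ne.symm h3; have := Ne.symm h4; have := Ne.symm h5; have := Ne.symm h6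
  simp only [commutatorElement_def, mul_inv_rev, swap_inv, mul_apply]
  by_cases a : x = p; · simp [swap_apply_def, *]
  by_cases b : x = q; · simp [swap_apply_def, *]
  by_cases c : x = r; · simp [swap_apply_def, *]
  by_cases d : x = s <;> simp [swap_apply_def, *]

theorem exists_anti (hperf : commutator G = ⊤) (hs : Function.Surjective σ) (hc : σ.ker ≤ center G)
    (hz : z ∈ σ.ker) (hz1 : z ≠ 1) (hk : ∀ y ∈ σ.ker, y = 1 ∨ y = z) {x : G} (hx : Good (tau σ x)) :
    ∃ y, y * x⁻¹ * y⁻¹ = x⁻¹ * z := by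
  obtain ⟨-, p, q, r, s, h, h1, h2, h3, h4⟩ := hx
  have hzz : z * z = 1 := (hk _ (mul_mem hz hz)).resolve_right (by simpa using hz1)
  have h' := h
  simp only [List.nodup_cons, List.mem_cons, List.not_mem_nil, or_false, not_or] at h'
  obtain ⟨v, hv⟩ := lift_of_sign hs (g := swap p q * swap r s) (by simp [h'])
  obtain ⟨y, hy⟩ := lift_of_sign hs (g := swap p r * swap q s) (by simp [h'])
  have a1 := sq_eq hperf hs hc hz hz1 hk h hv
  have a2 := sq_eq hperf hs hc hz hz1 hk (by simp; grind) hy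
  have a3 := sq_eq hperf hs hc hz hz1 hk (x := v * y) (a := p) (b := s) (c := q) (d := r) (by simp; grind)
    (by rw [map_mul, hv, hy, ← dbl_mul (a := p) (b := s) (c := q) (d := r) (by simp; grind), swap_comm s r,
      swap_comm s q])
  have c := mem_center_iff.1 (hc hz)
  have a4 : y * v⁻¹ = v⁻¹ * z * y := by
    have e1 : v⁻¹ = v * z := by rw [inv_eq_iff_mul_eq_one, ← mul_assoc, a1, hzz]
    have e2 : v * y = z * y⁻¹ * v⁻¹ := by rw [← a3]; group
    have e3 : y⁻¹ = y * z := by rw [inv_eq_iff_mul_eq_one, ← mul_assoc, a2, hzz]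
    rw [e1, mul_assoc v, hzz, mul_one, e2, e3, e1, ← mul_assoc z, ← c y, mul_assoc y z z, hzz, mul_one]
  have a5 : Commute y (x * v) := by
    refine commute_lift hs hc (S := {p, q, r, s}) (T := {p, q, r, s}ᶜ) (fun _ h k => k h) ?_ ⟨?_, fun w hw => ?_⟩
    · rw [hy, ← comm_id h]
      refine commutator_mem_commutator ⟨by simp [h'], fun w hw => ?_⟩ ⟨by simp [h'], fun w hw => ?_⟩ <;>
      · simp only [Set.mem_insert_iff, Set.mem_singleton_iff, not_or] at hw
        simp only [mul_apply, swap_apply_def]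
        grind
    · exact (σ (x * v)).2
    · simp only [Set.mem_compl_iff, Set.mem_insert_iff, Set.mem_singleton_iff, not_not] at hw
      rw [map_mul, hv]
      simp only [mul_apply, swap_apply_def]
      grind
  refine ⟨y, ?_⟩
  have a6 : x⁻¹ = v * (x * v)⁻¹ := by group
  have a7 : y * v = v * z * y := by
    have e1 : v = v⁻¹ * z := by rw [← a1]; group
    rw [e1, ← mul_assoc, a4, mul_assoc _ y, c y, ← mul_assoc]
  rw [a6, ← mul_assoc, a7, mul_assoc _ y, a5.inv_right.eq, mul_assoc, mul_inv_cancel_right, mul_assoc, ← c,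
    mul_assoc]
end

/-- Let n ≥ 5 and let G be a finite perfect group whose centre has order 2 with G/Z(G) isomorphic to the alternating group of degree n (the double cover of the alternating group). Then every element of G is a commutator. -/
theorem result {G : Type*} [Group G] [Finite G] (hperf : commutator G = ⊤) {n : ℕ} (hn : 5 ≤ n)
    (hZ : Nat.card (Subgroup.center G) = 2) (e : G ⧸ Subgroup.center G ≃* alternatingGroup (Fin n))
    (g : G) :
    ∃ a b : G, a * b * a⁻¹ * b⁻¹ = g := by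
  let σ : G →* alternatingGroup (Fin n) := e.toMonoidHom.comp (QuotientGroup.mk' _)
  have hs : Function.Surjective σ := e.surjective.comp (QuotientGroup.mk'_surjective _)
  have hker : σ.ker = center G := by
    ext x; simp [σ, MonoidHom.mem_ker]
  obtain ⟨⟨z, hz⟩, hz1, hu⟩ := (Nat.card_eq_two_iff' (1 : center G)).1 hZ
  have hz1' : z ≠ 1 := fun h => hz1 (Subtype.ext h)
  have hk : ∀ y ∈ σ.ker, y = 1 ∨ y = z := fun y hy => by
    by_contra! k
    exact k.2 (congrArg Subtype.val (hu ⟨y, hker ▸ hy⟩ fun h => k.1 (congrArg Subtype.val h)))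
  obtain ⟨a, π, ha, hg⟩ := exists_good (by simpa using hn) (g := tau σ g) (σ g).2
  obtain ⟨x, rfl⟩ := lift_of_sign hs ha.1
  obtain ⟨b, hb⟩ : ∃ b, tau σ g = tau σ x * (tau σ b * (tau σ x)⁻¹ * (tau σ b)⁻¹) := by
    rcases Int.units_eq_one_or (sign π) with s | s
    · obtain ⟨b, rfl⟩ := lift_of_sign hs s
      exact ⟨b, hg⟩
    · obtain ⟨-, p, q, r, t, h, h1, h2, -, -⟩ := ha
      have hpq : p ≠ q := by simp at h; grind
      obtain ⟨b, hb⟩ := lift_of_sign hs (g := π * swap p q) (by simp [s, hpq])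
      have : tau σ x * swap p q = swap p q * tau σ x := by
        rw [mul_swap_eq_swap_mul, h1, h2, swap_comm]
      refine ⟨b, ?_⟩
      rw [hb, hg, mul_inv_rev, mul_assoc π (swap p q), (Commute.inv_right (a := swap p q) this.symm).eq]
      group
  obtain ⟨y, hy⟩ := exists_anti hperf hs hker.le (hker ▸ hz) hz1' hk ha
  rcases hk _ (mem_ker_of_eq (x := x * b * x⁻¹ * b⁻¹) (y := g) (by simp [hb, mul_assoc])) with k | k
  · exact ⟨x, b, inv_mul_eq_one.1 k⟩
  · refine ⟨x, b * y, ?_⟩
    rw [inv_mul_eq_iff_eq_mul.1 k, mul_assoc _ b⁻¹, mem_center_iff.1 hz, ← mul_assoc _ z, mul_assoc _ x⁻¹ z, ← hy]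
    group

end Cfsg.Agent.S2493
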