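import Cfsg.Statements.S2495
import Cfsg.Agent.Lib.GLC.Ord2

set_option autoImplicit false
open Cfsg

namespace Cfsg.Agent.S2495

/-- Let q be an odd prime power, n ≥ 4 even, and L = PSL(n,q). Then L has an element of order q^(n/2) + 1 if and only if the 2-part of n exceeds the 2-part of q − 1. -/
theorem result {F : Type*} [Field F] [Fintype F] {q : ℕ} (hF : Fintype.card F = q) (hodd : Odd q)
    {n : ℕ} (hn : 4 ≤ n) (heven : Even n) :
    (∃ g : Matrix.ProjectiveSpecialLinearGroup (Fin n) F, orderOf g = q ^ (n / 2) + 1) ↔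
      padicValNat 2 (q - 1) < padicValNat 2 n := by
  open Lib.GLC Matrix Polynomial Module in
  rw [← Nat.card_eq_fintype_card] at hF
  obtain ⟨m, rfl⟩ := heven.two_dvd
  haveI : Nonempty (Fin (2 * m)) := ⟨⟨0, by omega⟩⟩
  obtain ⟨p, _, hp⟩ : ∃ p, CharP F p ∧ p.Prime := ⟨_, ringChar.charP F, CharP.char_is_prime F _⟩
  haveI := Fact.mk hp
  have h1 : 1 < q := hF ▸ Finite.one_lt_card
  have h2 : q ^ (2 * m) - 1 = (q ^ m + 1) * (q ^ m - 1) := by rw [← Nat.sq_sub_sq, pow_mul', one_pow]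
  have h3 : q ^ m + 1 ∣ (q ^ (2 * m) - 1) / (q - 1) / (2 * m).gcd (q - 1) ↔ padicValNat 2 (q - 1) < padicValNat 2 (2 * m) := by
    rw [Nat.dvd_div_iff_mul_dvd ((geom_modEq h1 _).gcd_eq ▸ Nat.gcd_dvd_left ..), h2,
      Nat.mul_div_assoc _ (Nat.sub_one_dvd_pow_sub_one q m), mul_comm, Nat.mul_dvd_mul_iff_left (by positivity),
      ((geom_modEq h1 m).of_dvd (Nat.gcd_dvd_right ..)).dvd_iff dvd_rfl, padicValNat.mul two_ne_zero (by omega),
      padicValNat_self, add_comm, Nat.lt_succ_iff]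
    refine ⟨fun h => not_lt.1 fun h' => pow_succ_padicValNat_not_dvd (p := 2) (n := m) (by omega) ((Nat.dvd_gcd ?_
      ((pow_dvd_pow 2 h').trans pow_padicValNat_dvd)).trans h), fun h => ?_⟩
    · rw [pow_succ']; exact Nat.mul_dvd_mul_left 2 pow_padicValNat_dvd
    · refine (Nat.factorization_prime_le_iff_dvd (Nat.gcd_ne_zero_left (by omega)) (by omega)).1 fun r hr => ?_
      rw [Nat.factorization_gcd (by omega) (by omega), Finsupp.inf_apply, Nat.factorization_mul two_ne_zero (by omega)]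
      rcases eq_or_ne r 2 with rfl | h4
      · exact inf_le_right.trans (by simpa only [Nat.factorization_def _ hr] using h)
      · exact inf_le_left.trans (by simp [Nat.prime_two.factorization, h4.symm])
  rw [Nat.mul_div_cancel_left _ two_pos, ← h3]
  refine ⟨?_, fun h => mem_range_orderOf_iff.2 (exists_psl_singer.imp fun _ h' => by rwa [h', Fintype.card_fin, hF])⟩
  rintro ⟨⟨g⟩, hg⟩
  obtain ⟨r, hr, h4⟩ := zsigmondy (n := 2 * m) h1 (by omega) (by rintro ⟨rfl, -⟩; exact absurd hodd (by decide)) (by omega)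
  have h5 : r ∣ q ^ m + 1 := (hr.dvd_mul.1 (h2 ▸ (dvd_pow_sub_one_iff (by omega)).2 h4.dvd)).resolve_right fun h => by
    have := Nat.le_of_dvd (by omega) (h4 ▸ (dvd_pow_sub_one_iff (by omega)).1 h)
    omega
  have hb := blocks_typ (toLin' g.1)
  obtain ⟨φ, e, h6, h7, h8, h9, -, h10⟩ := exists_block_of_prime_dvd p (isUnit_toLin'_gl (SpecialLinearGroup.toGL g)) hr
    (by rintro rfl; exact hr.one_lt.ne' (Nat.dvd_one.1 ((Nat.dvd_add_right ((hF ▸ char_dvd_card r).trans
      (dvd_pow_self q (by omega)))).1 h5))) (h5.trans (hg ▸ orderOf_psl_dvd g))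
  have h11 := Nat.le_of_dvd h7.natDegree_pos (h4 ▸ hF ▸ h10)
  have h12 := (mul_natDegree_le hb h9).trans_eq (finrank_fin_fun F)
  obtain rfl : e = 1 := by nlinarith
  rw [eq_singleton_of_le hb (typ_pp _) h9 (by simpa using h11)] at hb
  have := orderOf_psl_dvd_of_blocks p (t := 0) hb h6 h7 le_rfl
  rw [Fintype.card_fin, hF, pow_zero, mul_one] at this
  exact hg ▸ this

end Cfsg.Agent.S2495
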