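import Cfsg.Statements.S2503
import Cfsg.Agent.Lib.CharDeg.PSL2Prod

set_option autoImplicit false
open Cfsg

namespace Cfsg.Agent.S2503

open Cfsg.Lib.GLTwo Cfsg.Lib.Char Cfsg.Lib.PSL2 in

/-- Let F be a finite field with q = 2^t ≥ 4 elements and L = PSL(2,F). Then L has a cyclic subgroup A of order q + 1 and an elementary abelian 2-subgroup B of order q such that L = ABA: every element of L is a product a·b·a' with a, a' ∈ A and b ∈ B. -/
theorem result {F : Type*} [Field F] [Fintype F]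
    (h2 : 2 ∣ Fintype.card F) (h4 : 4 ≤ Fintype.card F) :
    ∃ A B : Subgroup (Matrix.ProjectiveSpecialLinearGroup (Fin 2) F),
      IsCyclic A ∧ Nat.card A = Fintype.card F + 1 ∧ IsMulCommutative B ∧ (∀ b ∈ B, b * b = 1) ∧
        Nat.card B = Fintype.card F ∧
        ∀ g : Matrix.ProjectiveSpecialLinearGroup (Fin 2) F, ∃ a ∈ A, ∃ b ∈ B, ∃ c ∈ A, g = a * b * c := by
  have hodd : ¬ Odd (Nat.card F) := by
    rw [Nat.card_eq_fintype_card, Nat.not_odd_iff_even, even_iff_two_dvd]; exact h2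
  have h0 : (2 : F) = 0 := by_contra fun e => hodd (two_ne_zero_iff_odd.1 e)
  have hc : ringChar F = 2 := by_contra fun e => hodd (ringChar_ne_two_iff_odd.1 e)
  have hsq := fun x : F => FiniteField.isSquare_of_char_two hc x
  obtain ⟨s₀, hs₀⟩ := exists_ell_orderOf (F := F)
  obtain ⟨τ, hτ⟩ : ∃ τ, τ = trs s₀ := ⟨_, rfl⟩
  let s : Matrix.SpecialLinearGroup (Fin 2) F := sl2 0 (-1) 1 τ (by simp)
  have hs : Ell (s : Matrix (Fin 2) (Fin 2) F) := (ell_congr (by rw [trs_eq, trs_eq]; simp [s, trs, hτ])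
    (by rw [s₀.det_coe, s.det_coe])).1 (ell_of_orderOf hs₀)
  have hQ : ∀ x y : F, x ^ 2 + τ * x * y + y ^ 2 = 0 → x = 0 ∧ y = 0 := by
    intro x y e
    by_cases hy : y = 0
    · rw [hy] at e
      exact ⟨pow_eq_zero_iff two_ne_zero |>.1 (by linear_combination e), hy⟩
    · refine (ell_iff.1 hs (-x / y) ?_).elim
      rw [trs_eq, s.det_coe]
      simp only [trs, s]
      simp
      field_simp
      linear_combination e
  have hr : Reg s := fun e => by
    simp [s] at e
    have : τ = 0 := pow_eq_zero_iff two_ne_zero |>.1 (by linear_combination e + 2 * h0)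
    exact one_ne_zero (hQ 1 1 (by rw [this]; linear_combination h0)).1
  have hinj := toL_injective h0
  refine ⟨(Subgroup.centralizer {s}).map toL, (uniS F).map toL, ?_, ?_, ?_, ?_, ?_, fun g => ?_⟩
  · haveI := hr.centralizer_cases.1
    exact isCyclic_of_surjective _ (toL.subgroupMap_surjective _)
  · rw [Subgroup.card_map_of_injective hinj, hs.card_centralizer_sl]
  · refine ⟨⟨?_⟩⟩
    rintro ⟨_, x, hx, rfl⟩ ⟨_, y, hy, rfl⟩
    exact Subtype.ext (by
      change toL x * toL y = toL y * toL x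
      rw [← map_mul, ← map_mul, comm_uniS x hx y hy])
  · rintro _ ⟨_, ⟨x, rfl⟩, rfl⟩
    rw [← map_mul, upper_mul, show x + x = 0 by linear_combination x * h0, upper_zero, map_one]
  · rw [Subgroup.card_map_of_injective hinj, card_uniS, Nat.card_eq_fintype_card]
  · obtain ⟨g, rfl⟩ := toL_surjective g
    obtain ⟨t, ht⟩ : ∃ t, t = g * s * g⁻¹ := ⟨_, rfl⟩
    have h1 : t 0 0 + t 1 1 = τ := by rw [ht, tr_conj]; simp [s]
    obtain ⟨x, y, hxy, e⟩ : ∃ x y : F, (x ≠ 0 ∨ y ≠ 0) ∧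
        (t 1 0 - 1) * x ^ 2 = (t 0 1 + 1) * y ^ 2 := by
      obtain ⟨u, hu⟩ := hsq (t 1 0 - 1)
      obtain ⟨v, hv⟩ := hsq (t 0 1 + 1)
      by_cases h : u = 0
      · exact ⟨1, 0, .inl one_ne_zero, by rw [hu, h]; ring⟩
      · exact ⟨v, u, .inr h, by rw [hu, hv]; ring⟩
    obtain ⟨r, hr'⟩ := hsq (x ^ 2 + τ * x * y + y ^ 2)
    have hr0 : r ≠ 0 := fun e => by
      have := hQ x y (by rw [hr', e, mul_zero])
      tauto
    let a : Matrix.SpecialLinearGroup (Fin 2) F := sl2 (x / r) (-(y / r)) (y / r) (x / r + τ * (y / r))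
      (by field_simp; linear_combination hr')
    have ha : a ∈ Subgroup.centralizer {s} := by
      rw [Subgroup.mem_centralizer_singleton_iff]
      apply sl_ext <;> simp only [sl_mul_apply] <;> simp [a, s] <;> ring
    obtain ⟨t', ht'⟩ : ∃ t', t' = a⁻¹ * t * a := ⟨_, rfl⟩
    have h3 : t' 0 0 + t' 1 1 = τ := by
      have := tr_conj a⁻¹ t
      rwa [inv_inv, ← ht', h1] at this
    have h5 : t' 1 0 = 1 := by
      obtain ⟨i1, i2, i3, i4⟩ := sl_inv_apply a
      rw [ht']
      simp only [sl_mul_apply, i3, i4]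
      simp [a]
      field_simp
      linear_combination e + hr' + x * y * h1 - x * y * t 0 0 * h0
    have h6 := sl_det t'
    have h7 : upper (t' 0 0) * s = t' * upper (t' 0 0) := by
      apply sl_ext <;> simp only [sl_mul_apply] <;> simp [s, h5]
      · linear_combination h6 - t' 0 0 * h3 + t' 0 1 * h5
      · exact h3.symm
    refine ⟨toL a, ⟨a, ha, rfl⟩, toL (upper (t' 0 0)), ⟨_, ⟨_, rfl⟩, rfl⟩,
      toL ((upper (t' 0 0))⁻¹ * a⁻¹ * g), ⟨_, ?_, rfl⟩, by simp only [← map_mul]; group⟩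
    rw [SetLike.mem_coe, Subgroup.mem_centralizer_singleton_iff]
    generalize upper (t' 0 0) = b at h7
    calc b⁻¹ * a⁻¹ * g * s = b⁻¹ * (t' * b) * (b⁻¹ * a⁻¹ * g) := by rw [ht', ht]; group
      _ = _ := by rw [← h7]; group

end Cfsg.Agent.S2503
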