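import Cfsg.Statements.S2506
import Cfsg.Agent.Lib.Alt.AbMax

set_option autoImplicit false
open scoped Pointwise
open Cfsg

namespace Cfsg.Agent.S2506

/-- In the alternating group of any degree, any two abelian subgroups of the largest possible order (among abelian subgroups) are conjugate. -/
theorem result (n : ℕ)
    (A B : Subgroup (alternatingGroup (Fin n))) (hA : IsMulCommutative A) (hB : IsMulCommutative B)
    (hAmax : ∀ C : Subgroup (alternatingGroup (Fin n)), IsMulCommutative C → Nat.card C ≤ Nat.card A)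
    (hBmax : ∀ C : Subgroup (alternatingGroup (Fin n)), IsMulCommutative C → Nat.card C ≤ Nat.card B) :
    ∃ g : alternatingGroup (Fin n), B = MulAut.conj g • A := by
  obtain ⟨⟨C, hC, h1⟩, h2⟩ := Cfsg.Lib.Alt.isGreatest_abA n
  have a : Nat.card A = Cfsg.Lib.Alt.abA n := (h2 ⟨A, hA, rfl⟩).antisymm (h1 ▸ hAmax C hC)
  have b : Nat.card B = Cfsg.Lib.Alt.abA n := (h2 ⟨B, hB, rfl⟩).antisymm (h1 ▸ hBmax C hC)
  by_cases h3 : n < 3
  · have : Cfsg.Lib.Alt.abA n = 1 := by interval_cases n <;> rfl
    rw [this, Subgroup.card_eq_one] at a b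
    exact ⟨1, by simp [a, b]⟩
  by_cases h5 : n = 5
  · subst h5
    haveI := Fact.mk Nat.prime_five
    have : (Nat.card (alternatingGroup (Fin 5))).factorization 5 = 1 := by
      rw [nat_card_alternatingGroup, Nat.card_eq_fintype_card, Fintype.card_fin]
      decide +kernel
    obtain ⟨g, hg⟩ := MulAction.exists_smul_eq (alternatingGroup (Fin 5))
      (Sylow.ofCard (p := 5) A (by rw [this, a]; rfl)) (Sylow.ofCard (p := 5) B (by rw [this, b]; rfl))
    exact ⟨g, (congrArg Sylow.toSubgroup hg).symm⟩
  exact Cfsg.Lib.Alt.max_conj (by simp; omega) (by simpa) A B (by simpa) (by simpa)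

end Cfsg.Agent.S2506
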