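import Cfsg.Statements.S2507
import Cfsg.Agent.Lib.CharDeg.PSL2Prod

set_option autoImplicit false
open Cfsg

namespace Cfsg.Agent.S2507

open Cfsg.Lib.GLTwo Cfsg.Lib.Char Cfsg.Lib.PSL2 in

/-- Let F be a finite field with q = 2^f ≥ 4 elements. The conjugacy class sizes of PSL(2,F) are exactly 1, q(q − 1), q² − 1 and q(q + 1). -/
theorem result {F : Type*} [Field F] [Fintype F]
    (h2 : 2 ∣ Fintype.card F) (h4 : 4 ≤ Fintype.card F) :
    Set.range (fun g : (Matrix.ProjectiveSpecialLinearGroup (Fin 2) F) => (Subgroup.centralizer ({g} : Set (Matrix.ProjectiveSpecialLinearGroup (Fin 2) F))).index) =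
      {1, Fintype.card F * (Fintype.card F - 1), Fintype.card F ^ 2 - 1, Fintype.card F * (Fintype.card F + 1)} := by
  have hodd : ¬ Odd (Nat.card F) := by
    rw [Nat.card_eq_fintype_card, Nat.not_odd_iff_even, even_iff_two_dvd]; exact h2
  have h0 : (2 : F) = 0 := by_contra fun e => hodd (two_ne_zero_iff_odd.1 e)
  have hi : ∀ s : Matrix.SpecialLinearGroup (Fin 2) F, (Subgroup.centralizer {toL s}).index =
      (Subgroup.centralizer {s}).index := fun s => index_centralizer_toL (.inl h0)
  have i1 : ∀ x : F, x ≠ 0 → (Subgroup.centralizer {upper x}).index = Fintype.card F ^ 2 - 1 := by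
    intro x hx
    refine index_of_card_eq (k := Fintype.card F) (by rw [card_centralizer_upper hx,
      card_units_sq_eq_one' h0, one_mul, Nat.card_eq_fintype_card]) ?_
    rw [card_sq_sub_one]; ring
  have i2 : ∀ a : Fˣ, (a : F) ^ 2 ≠ 1 → (Subgroup.centralizer {dgs a}).index =
      Fintype.card F * (Fintype.card F + 1) := fun a ha =>
    index_of_card_eq (card_centralizer_dgs ha) (by ring)
  have i3 : ∀ s : Matrix.SpecialLinearGroup (Fin 2) F, Ell (s : Matrix (Fin 2) (Fin 2) F) →
      (Subgroup.centralizer {s}).index = Fintype.card F * (Fintype.card F - 1) := fun s hs =>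
    index_of_card_eq hs.card_centralizer_sl rfl
  ext n
  constructor
  · rintro ⟨g, rfl⟩
    obtain ⟨s, rfl⟩ := toL_surjective g
    simp only
    rcases sl_cases s with e | ⟨x, hx, e | e⟩ | ⟨a, ha, e⟩ | e
    · rw [toL_eq_one_iff.2 e]
      left
      simp
    · rw [hi, index_centralizer_eq_of_isConj e, i1 x hx]; simp
    · rw [hi, index_centralizer_eq_of_isConj e, centralizer_neg, i1 x hx]; simp
    · rw [hi, index_centralizer_eq_of_isConj e, i2 a ha]; simp
    · rw [hi, i3 s e]; simp
  · rintro (rfl | rfl | rfl | rfl)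
    · exact ⟨1, by simp⟩
    · obtain ⟨s, hs⟩ := exists_ell_orderOf (F := F)
      exact ⟨toL s, (hi s).trans (i3 s (ell_of_orderOf hs))⟩
    · exact ⟨toL (upper 1), (hi _).trans (i1 1 one_ne_zero)⟩
    · obtain ⟨r, h1, h3⟩ := exists_ne_zero_sq_ne_one h4
      exact ⟨toL (dgs (Units.mk0 r h1)), (hi _).trans (i2 _ h3)⟩

end Cfsg.Agent.S2507
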