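import Cfsg.Statements.S2508
import Cfsg.Agent.Lib.CharDeg.PSL2Prod

set_option autoImplicit false
open Cfsg

namespace Cfsg.Agent.S2508

open Cfsg.Lib.GLTwo Cfsg.Lib.Char Cfsg.Lib.PSL2 in

/-- Let F be a finite field with q elements, q odd and q ≥ 7. If q ≡ 1 (mod 4) the conjugacy class sizes of PSL(2,F) are exactly 1, (q² − 1)/2, q(q + 1)/2, q(q − 1) and q(q + 1); if q ≡ 3 (mod 4) they are exactly 1, (q² − 1)/2, q(q − 1)/2, q(q + 1) and q(q − 1). -/
theorem result {F : Type*} [Field F] [Fintype F]
    (hodd : ¬ 2 ∣ Fintype.card F) (h7 : 7 ≤ Fintype.card F) :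
    (Fintype.card F % 4 = 1 →
      Set.range (fun g : (Matrix.ProjectiveSpecialLinearGroup (Fin 2) F) => (Subgroup.centralizer ({g} : Set (Matrix.ProjectiveSpecialLinearGroup (Fin 2) F))).index) =
        {1, (Fintype.card F ^ 2 - 1) / 2, Fintype.card F * (Fintype.card F + 1) / 2,
          Fintype.card F * (Fintype.card F - 1), Fintype.card F * (Fintype.card F + 1)}) ∧
    (Fintype.card F % 4 = 3 →
      Set.range (fun g : (Matrix.ProjectiveSpecialLinearGroup (Fin 2) F) => (Subgroup.centralizer ({g} : Set (Matrix.ProjectiveSpecialLinearGroup (Fin 2) F))).index) =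
        {1, (Fintype.card F ^ 2 - 1) / 2, Fintype.card F * (Fintype.card F - 1) / 2,
          Fintype.card F * (Fintype.card F + 1), Fintype.card F * (Fintype.card F - 1)}) := by
  have hq : Fintype.card F % 2 = 1 := by omega
  have h2 : (2 : F) ≠ 0 := two_ne_zero_iff_odd.2 (by rw [Nat.card_eq_fintype_card, Nat.odd_iff, hq])
  have hi : ∀ s : Matrix.SpecialLinearGroup (Fin 2) F, trs s ≠ 0 →
      (Subgroup.centralizer {toL s}).index = (Subgroup.centralizer {s}).index :=
    fun s h => index_centralizer_toL (.inr h)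
  have i1 : ∀ x : F, x ≠ 0 → (Subgroup.centralizer {toL (upper x)}).index =
      (Fintype.card F ^ 2 - 1) / 2 := by
    intro x hx
    rw [hi _ (by simp only [trs]; simp; rwa [one_add_one_eq_two])]
    refine index_of_card_eq (k := 2 * Fintype.card F) (by rw [card_centralizer_upper hx,
      card_units_sq_eq_one h2, Nat.card_eq_fintype_card]) ?_
    have : 2 ∣ Fintype.card F ^ 2 - 1 := by
      rw [card_sq_sub_one]; exact Dvd.dvd.mul_left (by omega) _
    rw [← mul_assoc, Nat.div_mul_cancel this, card_sq_sub_one]; ring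
  have i2 : ∀ s : Matrix.SpecialLinearGroup (Fin 2) F,
      Nat.card (Subgroup.centralizer {s}) = Fintype.card F - 1 →
      (Subgroup.centralizer {s}).index = Fintype.card F * (Fintype.card F + 1) := fun s hs =>
    index_of_card_eq hs (by ring)
  have i3 : ∀ s : Matrix.SpecialLinearGroup (Fin 2) F,
      Nat.card (Subgroup.centralizer {s}) = Fintype.card F + 1 →
      (Subgroup.centralizer {s}).index = Fintype.card F * (Fintype.card F - 1) := fun s hs =>
    index_of_card_eq hs rfl
  have i4 : ∀ s : Matrix.SpecialLinearGroup (Fin 2) F, trs s = 0 →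
      (Fintype.card F % 4 = 1 → (Subgroup.centralizer {toL s}).index =
        Fintype.card F * (Fintype.card F + 1) / 2) ∧
      (Fintype.card F % 4 = 3 → (Subgroup.centralizer {toL s}).index =
        Fintype.card F * (Fintype.card F - 1) / 2) := by
    intro s hs
    have hr := reg_of_trs_zero h2 hs
    have e1 := (mul_self_eq_neg_one_iff hr.not_scal).2 hs
    have e2 : orderOf s = 2 ^ 2 := orderOf_eq_prime_pow
      (by rw [pow_one, sq, e1]; exact sl_neg_one_ne_one h2)
      (by rw [show 2 ^ (1 + 1) = 2 * 2 from rfl, pow_mul, sq s, e1, neg_one_sq])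
    have e3 := Subgroup.orderOf_dvd_natCard _ (self_mem_centralizer s)
    have e4 := two_mul_index_centralizer_toL h2 hs
    rw [e2] at e3
    rcases hr.centralizer_cases.2 with e | e
    · rw [i2 s e] at e4
      rw [e] at e3
      constructor <;> omega
    · rw [i3 s e] at e4
      rw [e] at e3
      constructor <;> omega
  have htr : ∀ s : Matrix.SpecialLinearGroup (Fin 2) F, 4 < orderOf s → s ^ 2 ≠ 1 ∧ trs s ≠ 0 := by
    intro s hs
    have e1 : s ^ 2 ≠ 1 := fun e => by
      have := Nat.le_of_dvd two_pos (orderOf_dvd_of_pow_eq_one e)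
      omega
    refine ⟨e1, fun e => ?_⟩
    have e2 := (mul_self_eq_neg_one_iff fun e' => e1 (by
      rcases scal_sl_iff.1 e' with rfl | rfl <;> simp)).2 e
    have := Nat.le_of_dvd (by norm_num) (orderOf_dvd_of_pow_eq_one (x := s) (n := 2 * 2)
      (by rw [pow_mul, sq s, e2, neg_one_sq]))
    omega
  have j1 : ∃ g : Matrix.ProjectiveSpecialLinearGroup (Fin 2) F,
      (Subgroup.centralizer {g}).index = Fintype.card F * (Fintype.card F - 1) := by
    obtain ⟨s, hs⟩ := exists_ell_orderOf (F := F)
    exact ⟨toL s, (hi s (htr s (by omega)).2).trans (i3 s (ell_of_orderOf hs).card_centralizer_sl)⟩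
  have j2 : ∃ g : Matrix.ProjectiveSpecialLinearGroup (Fin 2) F,
      (Subgroup.centralizer {g}).index = Fintype.card F * (Fintype.card F + 1) := by
    obtain ⟨a, ha⟩ := exists_dgs_orderOf (F := F)
    obtain ⟨e1, e2⟩ := htr (dgs a) (by omega)
    refine ⟨toL (dgs a), (hi _ e2).trans (i2 _ (card_centralizer_dgs fun e => e1 ?_))⟩
    rw [← map_pow, show a ^ 2 = 1 from Units.ext e, map_one]
  have w0 : trs (sl2 (0 : F) (-1) 1 0 (by simp)) = 0 := by simp [trs]
  have hc : ∀ g : Matrix.ProjectiveSpecialLinearGroup (Fin 2) F,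
      (Subgroup.centralizer {g}).index = 1 ∨
      (Subgroup.centralizer {g}).index = (Fintype.card F ^ 2 - 1) / 2 ∨
      (∃ s, trs s = 0 ∧ g = toL s) ∨
      (Subgroup.centralizer {g}).index = Fintype.card F * (Fintype.card F - 1) ∨
      (Subgroup.centralizer {g}).index = Fintype.card F * (Fintype.card F + 1) := by
    intro g
    obtain ⟨s, rfl⟩ := toL_surjective g
    by_cases h0 : trs s = 0
    · exact .inr (.inr (.inl ⟨s, h0, rfl⟩))
    rcases sl_cases s with e | ⟨x, hx, e | e⟩ | ⟨a, ha, e⟩ | e
    · rw [toL_eq_one_iff.2 e]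
      left
      simp
    · rw [index_centralizer_eq_of_isConj (toL.map_isConj e), i1 x hx]; simp
    · rw [index_centralizer_eq_of_isConj (toL.map_isConj e), toL_neg, i1 x hx]; simp
    · rw [hi s h0, index_centralizer_eq_of_isConj e, i2 _ (card_centralizer_dgs ha)]; simp
    · rw [hi s h0, i3 s e.card_centralizer_sl]; simp
  refine ⟨fun h => ?_, fun h => ?_⟩
  · ext n
    constructor
    · rintro ⟨g, rfl⟩
      simp only
      rcases hc g with e | e | ⟨s, e, rfl⟩ | e | e
      · simp [e]
      · simp [e]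
      · rw [(i4 s e).1 h]; simp
      · simp [e]
      · simp [e]
    · rintro (rfl | rfl | rfl | rfl | rfl)
      · exact ⟨1, by simp⟩
      · exact ⟨_, i1 1 one_ne_zero⟩
      · exact ⟨_, (i4 _ w0).1 h⟩
      · exact j1
      · exact j2
  · ext n
    constructor
    · rintro ⟨g, rfl⟩
      simp only
      rcases hc g with e | e | ⟨s, e, rfl⟩ | e | e
      · simp [e]
      · simp [e]
      · rw [(i4 s e).2 h]; simp
      · simp [e]
      · simp [e]
    · rintro (rfl | rfl | rfl | rfl | rfl)
      · exact ⟨1, by simp⟩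
      · exact ⟨_, i1 1 one_ne_zero⟩
      · exact ⟨_, (i4 _ w0).2 h⟩
      · exact j2
      · exact j1

end Cfsg.Agent.S2508
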