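import Cfsg.Statements.S2509
import Cfsg.Agent.Lib.Pron.SpH

set_option autoImplicit false
open Cfsg

namespace Cfsg.Agent.S2509

/-- Let G be a finite direct product of groups PSp_{2m_i}(F_i) (the symplectic group on a 2m_i-dimensional space modulo its centre), where each m_i is a power of 2 (m_i = 1, giving PSL₂, is allowed), each F_i is a finite field of odd order, and each factor PSp_{2m_i}(F_i) is a simple group. Then every subgroup H of G of odd index is pronormal in G: for every g ∈ G the subgroups H and gHg⁻¹ are conjugate by an element of the subgroup they generate. -/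
theorem result {t : ℕ}
    (m : Fin t → ℕ) (F : Fin t → Type*) [∀ i, Field (F i)] [∀ i, Fintype (F i)]
    (hm : ∀ i, ∃ k : ℕ, m i = 2 ^ k) (hodd : ∀ i, Odd (Fintype.card (F i)))
    (hs : ∀ i, IsSimpleGroup (Cfsg.PSp (m i) (F i)))
    (H : Subgroup (Π i, Cfsg.PSp (m i) (F i))) (hH : Odd H.index) : Cfsg.IsPronormal H := by
  haveI : ∀ i, NeZero (2 : F i) := fun i => ⟨fun h => by
    have := FiniteField.even_card_iff_char_two.1
      (CharP.ringChar_of_prime_eq_zero Nat.prime_two (by exact_mod_cast h))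
    rw [Nat.odd_iff.1 (hodd i)] at this
    exact one_ne_zero this⟩
  have hg : ∀ i, Lib.Pron.Sp.Good2 (Lib.Pron.Sp.UM (Fin (m i)) (F i)) := fun i => by
    obtain ⟨k, hk⟩ := hm i
    rw [hk]
    exact Lib.Pron.Sp.good_UM (F i) k
  choose φ hφ using fun i => Lib.Pron.Sp.exists_sp (I := Fin (m i)) (F := F i)
  let ψ : (∀ i, Lib.Pron.Sp.UM (Fin (m i)) (F i)) →* ∀ i, Cfsg.PSp (m i) (F i) :=
    MonoidHom.pi fun i => ((QuotientGroup.mk' _).comp (φ i)).comp (Pi.evalMonoidHom _ i)
  have hψ : Function.Surjective ψ := fun y => by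
    choose x hx using fun i => ((QuotientGroup.mk'_surjective _).comp (hφ i).2) (y i)
    exact ⟨x, funext hx⟩
  exact Lib.Pron.Sp.pron_of_comap ψ hψ (Lib.Pron.Sp.pron_pi hg
    (by rwa [Subgroup.index_comap_of_surjective _ hψ]))

end Cfsg.Agent.S2509
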