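import Cfsg.Statements.S2510
import Cfsg.Agent.Lib.GLC.Ord

set_option autoImplicit false
open Cfsg

namespace Cfsg.Agent.S2510

/-- Let F be a finite field with q = p^a elements, n ≥ 2 (with q ≥ 4 when n = 2), L = PSL(n, F), and let r be a prime dividing q − 1 and not dividing n. Then for every m the direct product L × L × L × (ℤ/r)^m has the same set of element orders as L × L × L; and if n − 1 ≠ p^j for every j ≥ 0 (so never when n = 2, since 1 = p^0), then already L × L × (ℤ/r)^m has the same set of element orders as L × L. -/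
theorem result {F : Type*} [Field F] [Fintype F] (p a n r m : ℕ) (hp : p.Prime) (ha : 1 ≤ a) (hF : Fintype.card F = p ^ a)
    (hn : 2 ≤ n) (hn2 : n = 2 → 4 ≤ Fintype.card F) (hr : r.Prime) (hrq : r ∣ Fintype.card F - 1) (hrn : ¬ r ∣ n) :
    Set.range (orderOf : Matrix.ProjectiveSpecialLinearGroup (Fin n) F × Matrix.ProjectiveSpecialLinearGroup (Fin n) F × Matrix.ProjectiveSpecialLinearGroup (Fin n) F × Multiplicative (Fin m → ZMod r) → ℕ) =
      Set.range (orderOf : Matrix.ProjectiveSpecialLinearGroup (Fin n) F × Matrix.ProjectiveSpecialLinearGroup (Fin n) F × Matrix.ProjectiveSpecialLinearGroup (Fin n) F → ℕ) ∧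
    ((¬ ∃ j : ℕ, n - 1 = p ^ j) →
      Set.range (orderOf : Matrix.ProjectiveSpecialLinearGroup (Fin n) F × Matrix.ProjectiveSpecialLinearGroup (Fin n) F × Multiplicative (Fin m → ZMod r) → ℕ) =
        Set.range (orderOf : Matrix.ProjectiveSpecialLinearGroup (Fin n) F × Matrix.ProjectiveSpecialLinearGroup (Fin n) F → ℕ)) := by
  open Lib.GLC Matrix Polynomial Module in
  haveI := Fact.mk hp
  haveI : CharP F p := (CharP.charP_iff_prime_eq_zero hp).2
    (eq_zero_of_pow_eq_zero (n := a) (by rw [← Nat.cast_pow, ← hF, FiniteField.cast_card_eq_zero]))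
  rw [← Nat.card_eq_fintype_card] at hF hrq
  obtain ⟨ζ, hζ, h1⟩ := exists_orderOf_eq hrq
  have hB : ∀ (g : SpecialLinearGroup (Fin n) F) (μ ν : Multiset F[X]), Blocks (toLin' g.1) (μ + ν) →
      (μ.map natDegree).sum ≠ 0 → (ν.map natDegree).sum ≠ 0 → ∃ x : ProjectiveSpecialLinearGroup (Fin n) F,
      orderOf (g : ProjectiveSpecialLinearGroup (Fin n) F) ∣ orderOf x ∧ r ∣ orderOf x := fun g μ ν h hμ hν => by
    by_cases h2 : r ∣ orderOf (g : ProjectiveSpecialLinearGroup (Fin n) F)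
    · exact ⟨g, dvd_rfl, h2⟩
    obtain ⟨z, h3, h4⟩ := exists_psl_commute h (a := ζ ^ (ν.map natDegree).sum) (b := ζ⁻¹ ^ (μ.map natDegree).sum) hμ hν
      (by rw [← pow_mul, ← pow_mul, mul_comm (μ.map natDegree).sum, ← mul_pow, mul_inv_cancel₀ hζ, one_pow])
    have h5 : ∀ k, orderOf z ∣ k ↔ r ∣ k := fun k => by
      have := h.finrank_eq
      rw [finrank_fin_fun, Multiset.map_add, Multiset.sum_add, add_comm] at this
      rw [h4, inv_pow, inv_pow, ← mul_eq_one_iff_eq_inv₀ (by simp [hζ]), ← mul_pow, ← pow_add, ← this, ← pow_mul,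
        ← orderOf_dvd_iff_pow_eq_one, h1, hr.dvd_mul, or_iff_right hrn]
    obtain rfl : orderOf z = r := Nat.dvd_antisymm ((h5 _).2 dvd_rfl) ((h5 _).1 dvd_rfl)
    exact ⟨z * g, by simp [h3.orderOf_mul_eq_mul_orderOf_of_coprime ((Nat.Prime.coprime_iff_not_dvd hr).2 h2)]⟩
  obtain ⟨K, _, _, _, h2, h3⟩ := exists_ext F (n := n) (by omega)
  have h4 : Nat.card F - 1 ∣ Nat.card K - 1 := h3 ▸ Nat.sub_one_dvd_pow_sub_one _ _
  obtain ⟨y, hy, h5⟩ := exists_orderOf_eq (Nat.div_dvd_of_dvd h4)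
  obtain ⟨σ, hσ⟩ := exists_sl_sim (n := Fin n) (f := Algebra.lmul F K y)
    (norm_eq_one_iff.2 (h5 ▸ pow_orderOf_eq_one y)) (by simp [h2])
  have h6 : (orderOf (σ : ProjectiveSpecialLinearGroup (Fin n) F)).Coprime p := by
    refine Nat.Coprime.coprime_dvd_left ((orderOf_psl_dvd_iff.2 ⟨1, hσ.pow_eq_smul_one_iff.2 (lmul_pow_eq_smul_one_iff.2
      (by rw [map_one, pow_orderOf_eq_one]))⟩).trans (h5 ▸ Nat.div_dvd_of_dvd h4)) ?_
    rw [h3, hF, ← pow_mul]
    exact (Nat.coprime_self_sub_left (Nat.one_le_pow _ _ hp.pos)).2 (by simp) |>.coprime_dvd_right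
      (dvd_pow_self p (by positivity))
  have hA : ∀ x : ProjectiveSpecialLinearGroup (Fin n) F, (∃ x' : ProjectiveSpecialLinearGroup (Fin n) F,
      orderOf x ∣ orderOf x' ∧ r ∣ orderOf x') ∨ ∀ t N, n ≤ p ^ t → orderOf (σ : ProjectiveSpecialLinearGroup (Fin n) F) ∣ N → p ^ t ∣ N → orderOf x ∣ N := by
    rintro ⟨g⟩
    haveI : Nontrivial (Fin n → F) := nontrivial_of_finrank_pos (by rw [finrank_fin_fun]; omega)
    obtain ⟨P, hP⟩ := Multiset.exists_mem_of_ne_zero (typ_ne_zero (toLin' g.1))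
    obtain ⟨ν, e⟩ := Multiset.exists_cons_of_mem hP
    have hb := blocks_typ (toLin' g.1)
    rcases ν.empty_or_exists_mem with rfl | ⟨Q, hQ⟩
    swap
    · exact .inl (hB g {P} ν (e ▸ hb :) (by simpa using (typ_pp _ P hP).natDegree_pos.ne') fun h =>
        (typ_pp _ Q (e ▸ Multiset.mem_cons_of_mem hQ)).natDegree_pos.ne'
          (Multiset.sum_eq_zero_iff.1 h _ (Multiset.mem_map_of_mem _ hQ)))
    refine .inr fun t N ht h7 h8 => Dvd.dvd.trans ?_ ((h6.pow_right t).mul_dvd_of_dvd_of_dvd h7 h8)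
    obtain ⟨φ, k, h9, h10, h11, rfl⟩ := typ_pp _ P hP
    rw [e] at hb
    have h12 : n = k * φ.natDegree := by simpa using hb.finrank_eq
    obtain ⟨b, rfl⟩ := exists_minpoly_eq (K := K) h9 h10 (by rw [h2, h12]; exact dvd_mul_left _ _)
    haveI := NeZero.mk (orderOf_pos_iff.2 (isOfFinOrder_iff_isUnit.2 hy.isUnit)).ne'
    obtain ⟨i, -, rfl⟩ := (IsPrimitiveRoot.orderOf y).eq_pow_of_pow_eq_one (ξ := b) (h5 ▸ norm_eq_one_iff.1 (by
      rw [← det_eq_norm hb (by simp [h2]), LinearMap.det_toLin', g.2]))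
    obtain ⟨c, hc⟩ := (orderOf_psl_dvd_iff (g := σ)).1 dvd_rfl
    refine orderOf_psl_dvd_iff.2 ⟨_, hb.pow_eq_smul_one_iff.2 fun P hP => Multiset.mem_singleton.1 hP ▸
      pow_dvd_X_pow_mul p (c := c ^ i) (minpoly_dvd_iff.2 ?_) ((Nat.le_mul_of_pos_right k h10.natDegree_pos).trans (h12 ▸ ht))⟩
    rw [pow_right_comm, lmul_pow_eq_smul_one_iff.1 (hσ.pow_eq_smul_one_iff.1 hc), map_pow]
  have hU : ∀ (g : SpecialLinearGroup (Fin n) F) d k, Blocks (toLin' g.1) (jt 1 d) → k ∈ d →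
      p ^ Nat.clog p k ∣ orderOf (g : ProjectiveSpecialLinearGroup (Fin n) F) := fun g d k h hk =>
    let ⟨_, hc⟩ := (orderOf_psl_dvd_iff (g := g)).1 dvd_rfl
    h.pow_clog_dvd p (isUnit_toLin'_gl (SpecialLinearGroup.toGL g)) (irreducible_X_sub_C 1) (Multiset.mem_map_of_mem _ hk) hc
  obtain ⟨u, hu⟩ := exists_sl_jt (F := F) (n := Fin n) (d := {n}) (by simp)
  obtain ⟨w, hw⟩ := exists_sl_jt (F := F) (n := Fin n) (d := {n - 1, 1}) (by simp; omega)
  obtain ⟨z, h7, h8⟩ := hB w {(X - C 1) ^ (n - 1)} {(X - C 1) ^ 1} hw (by simp [-map_one]; omega) (by simp [-map_one])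
  have h9 := hU u _ n hu (by simp)
  have h10 := (hU w _ (n - 1) hw (by simp)).trans h7
  have h11 : ∀ v : Multiplicative (Fin m → ZMod r), orderOf v ∣ r := fun v =>
    orderOf_dvd_of_pow_eq_one (Multiplicative.toAdd.injective (funext fun i => by simp))
  have h12 : ∀ {G H : Type _} [Group G] [Group H] [Finite H], (∀ x : G, ∃ y : H, orderOf x ∣ orderOf y) →
      Set.range (orderOf : G → ℕ) ⊆ Set.range (orderOf : H → ℕ) := by
    rintro G H _ _ _ h _ ⟨x, rfl⟩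
    obtain ⟨y, hy⟩ := h x
    exact ⟨_, orderOf_pow_orderOf_div (orderOf_pos y).ne' hy⟩
  have l := @Nat.dvd_lcm_left
  have r := @Nat.dvd_lcm_right
  refine ⟨(h12 fun ⟨a, b, c, v⟩ => ?_).antisymm fun _ ⟨⟨a, b, c⟩, h⟩ => ⟨(a, b, c, 1), by simpa [Prod.orderOf_mk] using h⟩,
    fun hj => (h12 fun ⟨a, b, v⟩ => ?_).antisymm fun _ ⟨⟨a, b⟩, h⟩ => ⟨(a, b, 1), by simpa [Prod.orderOf_mk] using h⟩⟩
  all_goals simp only [Prod.orderOf_mk, Nat.lcm_dvd_iff, Prod.exists]
  · have ht := Nat.le_pow_clog hp.one_lt n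
    rcases hA a with ⟨x, h, h'⟩ | ha
    · exact ⟨x, b, c, h.trans (l ..), (l ..).trans (r ..), (r ..).trans (r ..), (h11 v).trans (h'.trans (l ..))⟩
    rcases hA b with ⟨x, h, h'⟩ | hb
    · exact ⟨x, a, c, (l ..).trans (r ..), h.trans (l ..), (r ..).trans (r ..), (h11 v).trans (h'.trans (l ..))⟩
    rcases hA c with ⟨x, h, h'⟩ | hc
    · exact ⟨x, a, b, (l ..).trans (r ..), (r ..).trans (r ..), h.trans (l ..), (h11 v).trans (h'.trans (l ..))⟩
    have := h9.trans ((l _ (orderOf z)).trans (r (orderOf (σ : ProjectiveSpecialLinearGroup (Fin n) F)) _))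
    exact ⟨σ, u, z, ha _ _ ht (l ..) this, hb _ _ ht (l ..) this, hc _ _ ht (l ..) this,
      (h11 v).trans (h8.trans ((r ..).trans (r ..)))⟩
  · have ht : n ≤ p ^ Nat.clog p (n - 1) := by
      have := (Nat.le_pow_clog hp.one_lt (n - 1)).lt_of_ne fun e => hj ⟨_, e⟩
      omega
    rcases hA a with ⟨x, h, h'⟩ | ha
    · exact ⟨x, b, h.trans (l ..), r .., (h11 v).trans (h'.trans (l ..))⟩
    rcases hA b with ⟨x, h, h'⟩ | hb
    · exact ⟨x, a, r .., h.trans (l ..), (h11 v).trans (h'.trans (l ..))⟩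
    exact ⟨σ, z, ha _ _ ht (l ..) (h10.trans (r ..)), hb _ _ ht (l ..) (h10.trans (r ..)), (h11 v).trans (h8.trans (r ..))⟩

end Cfsg.Agent.S2510
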