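import Cfsg.Statements.S2511
import Cfsg.Agent.Lib.Unitary.Wall5

set_option autoImplicit false
open Cfsg

namespace Cfsg.Agent.S2511

open Lib.GLC Lib.Unitary Matrix Polynomial Module in
theorem exists_singer {F : Type*} [Field F] {q n : ℕ} {σ : F →+* F} (hσ : IsBar q σ) (hn : 2 ≤ n) :
    ∃ s : PSU n F q, (orderOf s).Coprime q ∧ ∀ (g : SU n F q) (φ : F[X]) (e : ℕ), φ.Monic →
      Irreducible φ → φ.coeff 0 ≠ 0 → (dual σ φ = φ ∧ Blocks (toLin' g.1.1) {φ ^ e}) ∨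
      Blocks (toLin' g.1.1) {φ ^ e, dual σ φ ^ e} →
      ∃ c, φ ∣ X ^ orderOf s - C c ∧ dual σ φ ∣ X ^ orderOf s - C c := by
  have := hσ.finite
  have hq := hσ.two_le
  have hpow : ∀ {K : Type} [Field K] [Finite K] {y b : K}, y ≠ 0 → b ^ orderOf y = 1 →
      ∃ i, y ^ i = b := fun {K} _ _ y b hy hb => by
    haveI := NeZero.mk (orderOf_pos_iff.2 (isOfFinOrder_iff_isUnit.2 hy.isUnit)).ne'
    obtain ⟨i, -, h⟩ := (IsPrimitiveRoot.orderOf y).eq_pow_of_pow_eq_one hb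
    exact ⟨i, h⟩
  rcases n.even_or_odd with ⟨l, hl⟩ | hodd
  · obtain ⟨K, _, _, _, h2, h3⟩ := hσ.exists_ext (n := l) (by omega)
    obtain ⟨t, ht⟩ : Nat.card F - 1 ∣ Nat.card K - 1 := by
      rw [h3, hσ.card, pow_mul]; exact Nat.sub_one_dvd_pow_sub_one _ _
    have h4 : ∀ b : K, b ≠ 0 → (LinearMap.det ((Algebra.lmul F K b).prodMap
        (Algebra.lmul F K (b ^ q)⁻¹)) = 1 ↔ b ^ (t * (q - 1)) = 1) := fun b hb => by
      have h0 : Algebra.norm F b ≠ 0 := Algebra.norm_ne_zero_iff.2 hb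
      rw [LinearMap.det_prodMap, ← Algebra.norm_apply, ← Algebra.norm_apply, Algebra.norm_inv,
        hσ.norm_pow_q, mul_inv_eq_one₀ (by simpa using h0), eq_comm, hσ.fixed_iff h0,
        ← (algebraMap F K).injective.eq_iff, map_pow, FiniteField.algebraMap_norm_eq_pow, ht,
        Nat.mul_div_cancel_left _ (Nat.sub_pos_of_lt Finite.one_lt_card), map_one, pow_mul]
    have h5 : t * (q - 1) ∣ Nat.card K - 1 := ⟨q + 1, by rw [ht, hσ.card_sub_one]; ring⟩
    obtain ⟨y, hy, h6⟩ := exists_orderOf_eq h5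
    obtain ⟨s, hs⟩ := hσ.exists_su_sim (n := n) (hσ.sd_lmul_prodMap hy) (by simp [h2, hl])
      ((h4 y hy).2 (h6 ▸ pow_orderOf_eq_one y))
    refine ⟨s, ?_, fun g φ e h7 h8 h0 h => ?_⟩
    · refine Nat.Coprime.coprime_dvd_left (((hσ.orderOf_psu_dvd_iff hn).2 ⟨1, ?_⟩).trans
        (h6 ▸ h5)) ?_
      · rw [hs.pow_eq_smul_one_iff, prodMap_pow_eq_smul_one_iff, lmul_pow_eq_smul_one_iff,
          lmul_pow_eq_smul_one_iff]
        simp [pow_right_comm y q]
      · rw [h3]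
        exact ((Nat.coprime_self_sub_left (Nat.one_le_pow _ _ (by omega))).2
          (by simp)).coprime_dvd_right (dvd_pow_self q (by omega))
    obtain ⟨j, h9, h10⟩ : ∃ j, j * φ.natDegree = l ∧
        (toLin' g.1.1).charpoly = φ ^ j * dual σ φ ^ j := by
      rcases h with ⟨h, hb⟩ | hb
      · have h9 : n = e * φ.natDegree := by simpa using hb.finrank_eq
        obtain ⟨j, rfl⟩ := (Nat.even_mul.1 (h9 ▸ (⟨l, hl⟩ : Even n))).resolve_right
          (Nat.not_even_iff_odd.2 (hσ.odd_of_dual_eq h7 h8 h0 h).1)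
        exact ⟨j, by rw [add_mul] at h9; omega, by rw [hb.charpoly_eq, h, ← pow_add]; simp⟩
      · have h9 := hb.finrank_eq
        simp [natDegree_dual h0] at h9
        exact ⟨e, by omega, by rw [hb.charpoly_eq]; simp⟩
    obtain ⟨b, rfl⟩ := exists_minpoly_eq (K := K) h7 h8 ⟨j, by rw [h2, ← h9, mul_comm]⟩
    have hb : b ≠ 0 := fun e => h0 (by simp [e])
    obtain ⟨i, rfl⟩ := hpow (b := b) hy (h6 ▸ (h4 b hb).1 (by
      obtain ⟨j1, e1, hb1⟩ := blocks_lmul' (F := F) b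
      obtain ⟨j2, e2, hb2⟩ := blocks_lmul' (F := F) (b ^ q)⁻¹
      rw [← hσ.dual_minpoly hb] at e2 hb2
      rw [natDegree_dual h0] at e2
      obtain rfl := Nat.eq_of_mul_eq_mul_right h8.natDegree_pos (e1.trans (h2.trans h9.symm))
      obtain rfl := Nat.eq_of_mul_eq_mul_right h8.natDegree_pos (e2.trans (h2.trans h9.symm))
      refine Eq.trans ?_ g.1.2
      rw [LinearMap.det_eq_sign_charpoly_coeff, (hb1.prodMap hb2).charpoly_eq,
        ← LinearMap.det_toLin', LinearMap.det_eq_sign_charpoly_coeff, h10]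
      simp [h2, hl]))
    obtain ⟨c, hc⟩ := (hσ.orderOf_psu_dvd_iff hn (g := s)).1 dvd_rfl
    rw [hs.pow_eq_smul_one_iff, prodMap_pow_eq_smul_one_iff, lmul_pow_eq_smul_one_iff,
      lmul_pow_eq_smul_one_iff] at hc
    refine ⟨c ^ i, ?_, ?_⟩
    · rw [minpoly_dvd_iff, pow_right_comm, hc.1, map_pow]
    · rw [hσ.dual_minpoly hb, minpoly_dvd_iff, pow_right_comm y, ← inv_pow _ i, pow_right_comm,
        hc.2, map_pow]
  · obtain ⟨K, _, _, _, h2, h3⟩ := hσ.exists_ext (n := n) (by omega)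
    obtain ⟨m, hm⟩ : q + 1 ∣ q ^ n + 1 := by simpa using hodd.nat_add_dvd_pow_add_pow q 1
    obtain ⟨l, rfl⟩ := hodd
    obtain ⟨u, hu⟩ : Nat.card F - 1 ∣ q ^ (2 * l) - 1 := by
      rw [hσ.card, pow_mul]; exact Nat.sub_one_dvd_pow_sub_one _ _
    have h4 : Nat.card K - 1 = (Nat.card F - 1) * (m * ((q + 1) * (u * q) + 1)) := by
      have := Nat.sq_sub_sq (q ^ (2 * l + 1)) 1
      rw [one_pow] at this
      rw [h3, mul_comm 2, pow_mul, this, hm, pow_succ,
        Nat.eq_add_of_sub_eq (Nat.one_le_pow _ _ (by omega)) hu, hσ.card_sub_one]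
      obtain ⟨r, rfl⟩ := Nat.exists_eq_add_of_le' hq
      rw [show r + 2 - 1 = r + 1 from rfl, Nat.sub_eq_of_eq_add
        (c := (r + 1) * ((r + 2 + 1) * (u * (r + 2)) + 1)) (by ring)]
      ring
    have h5 : ∀ b : K, Algebra.norm F b = 1 ↔ (b ^ m) ^ ((q + 1) * (u * q) + 1) = 1 := fun b => by
      rw [norm_eq_one_iff, h4, Nat.mul_div_cancel_left _ (Nat.sub_pos_of_lt Finite.one_lt_card),
        pow_mul]
    obtain ⟨y, hy, h6⟩ := exists_orderOf_eq (K := K) (m := m)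
      (h4 ▸ (dvd_mul_right _ _).mul_left _)
    have h7 : y ^ m = 1 := h6 ▸ pow_orderOf_eq_one y
    obtain ⟨s, hs⟩ := hσ.exists_su_sim (hσ.sd_lmul (a := y) (odd_two_mul_add_one l) (by
      rw [hm, mul_comm, pow_mul, h7, one_pow])) h2 ((h5 y).2 (by rw [h7, one_pow]))
    refine ⟨s, ?_, fun g φ e h8 h9 h0 h => ?_⟩
    · refine Nat.Coprime.coprime_dvd_left (((hσ.orderOf_psu_dvd_iff hn).2 ⟨1, ?_⟩).trans
        (Dvd.intro_left _ hm.symm)) ?_
      · rw [hs.pow_eq_smul_one_iff, lmul_pow_eq_smul_one_iff, h7, map_one]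
      · simp [pow_succ]
    rcases h with ⟨h, hb⟩ | hb
    swap
    · have h9 := hb.finrank_eq
      simp [natDegree_dual h0] at h9
      omega
    have h10 : 2 * l + 1 = e * φ.natDegree := by simpa using hb.finrank_eq
    obtain ⟨b, rfl⟩ := exists_minpoly_eq (K := K) h8 h9 ⟨e, by rw [h2, h10, mul_comm]⟩
    have h11 := (hσ.odd_of_dual_minpoly_eq (fun e => h0 (by simp [e])) h).2
    obtain ⟨i, rfl⟩ := hpow (b := b) hy (by
      have h12 := (h5 b).1 (by rw [← det_eq_norm hb (by simp [h2]), LinearMap.det_toLin', g.1.2])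
      obtain ⟨v, hv⟩ : q ^ (minpoly F b).natDegree + 1 ∣ q ^ (2 * l + 1) + 1 := by
        simpa [← pow_mul, h10, mul_comm e] using (Nat.odd_mul.1
          (h10 ▸ odd_two_mul_add_one l)).1.nat_add_dvd_pow_add_pow (q ^ (minpoly F b).natDegree) 1
      have h13 : (b ^ m) ^ (q + 1) = 1 := by
        rw [← pow_mul, mul_comm, ← hm, hv, pow_mul, h11, one_pow]
      rwa [pow_succ, pow_mul, h13, one_pow, one_mul, ← h6] at h12)
    obtain ⟨c, hc⟩ := (hσ.orderOf_psu_dvd_iff hn (g := s)).1 dvd_rfl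
    rw [hs.pow_eq_smul_one_iff, lmul_pow_eq_smul_one_iff] at hc
    refine ⟨c ^ i, ?_⟩
    rw [h, and_self, minpoly_dvd_iff, pow_right_comm, hc, map_pow]

/-- Let F be a finite field with q² elements, q = p^a, n ≥ 3 with (n, q) ≠ (3, 2), L = PSU(n, q) realised over F, and let r be a prime dividing q + 1 and not dividing n. Then for every m the direct product L × L × L × (ℤ/r)^m has the same set of element orders as L × L × L; and if n − 1 is not a power of p, then already L × L × (ℤ/r)^m has the same set of element orders as L × L. -/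
theorem result {F : Type*} [Field F] [Fintype F] (p a n q r m : ℕ) (hp : p.Prime) (ha : 1 ≤ a) (hq : q = p ^ a) (hF : Fintype.card F = q ^ 2)
    (hn : 3 ≤ n) (hn3 : ¬ (n = 3 ∧ q = 2)) (hr : r.Prime) (hrq : r ∣ q + 1) (hrn : ¬ r ∣ n) :
    Set.range (orderOf : Cfsg.PSU n F q × Cfsg.PSU n F q × Cfsg.PSU n F q × Multiplicative (Fin m → ZMod r) → ℕ) = Set.range (orderOf : Cfsg.PSU n F q × Cfsg.PSU n F q × Cfsg.PSU n F q → ℕ) ∧
    ((¬ ∃ j : ℕ, n - 1 = p ^ j) →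
      Set.range (orderOf : Cfsg.PSU n F q × Cfsg.PSU n F q × Multiplicative (Fin m → ZMod r) → ℕ) = Set.range (orderOf : Cfsg.PSU n F q × Cfsg.PSU n F q → ℕ)) := by
  open Lib.GLC Lib.Unitary Matrix Polynomial Module in
  obtain ⟨σ, hσ⟩ := exists_isBar hF
  haveI := Fact.mk hp
  haveI : CharP F p := (CharP.charP_iff_prime_eq_zero hp).2
    (eq_zero_of_pow_eq_zero (n := a) (by rw [← Nat.cast_pow, ← hq, hσ.cast_q]))
  obtain ⟨ζ, hζ', h1⟩ := hσ.exists_normOne_orderOf hrq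
  have hζ := left_ne_zero_of_mul_eq_one hζ'
  have hB : ∀ (g : SU n F q) (μ ν : Multiset F[X]), Blocks (toLin' g.1.1) (μ + ν) →
      μ.map (dual σ) = μ → ν.map (dual σ) = ν → (μ.map natDegree).sum ≠ 0 →
      (ν.map natDegree).sum ≠ 0 → ∃ x : PSU n F q,
      orderOf (g : PSU n F q) ∣ orderOf x ∧ r ∣ orderOf x := fun g μ ν h hμ' hν' hμ hν => by
    by_cases h2 : r ∣ orderOf (g : PSU n F q)
    · exact ⟨g, dvd_rfl, h2⟩
    obtain ⟨z, h3, h4⟩ := hσ.exists_psu_commute h hμ' hν' (a := ζ ^ (ν.map natDegree).sum)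
      (b := ζ⁻¹ ^ (μ.map natDegree).sum) (by rw [map_pow, ← mul_pow, hζ', one_pow])
      (by rw [map_pow, ← mul_pow, map_inv₀, ← mul_inv, hζ', inv_one, one_pow]) hμ hν
      (by rw [← pow_mul, ← pow_mul, mul_comm (μ.map natDegree).sum, ← mul_pow, mul_inv_cancel₀ hζ,
        one_pow])
    have h5 : ∀ k, orderOf z ∣ k ↔ r ∣ k := fun k => by
      have := h.finrank_eq
      rw [finrank_fin_fun, Multiset.map_add, Multiset.sum_add, add_comm] at this
      rw [h4, inv_pow, inv_pow, ← mul_eq_one_iff_eq_inv₀ (by simp [hζ]), ← mul_pow, ← pow_add,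
        ← this, ← pow_mul, ← orderOf_dvd_iff_pow_eq_one, h1, hr.dvd_mul, or_iff_right hrn]
    obtain rfl : orderOf z = r := Nat.dvd_antisymm ((h5 _).2 dvd_rfl) ((h5 _).1 dvd_rfl)
    exact ⟨z * g, by simp [h3.orderOf_mul_eq_mul_orderOf_of_coprime
      ((Nat.Prime.coprime_iff_not_dvd hr).2 h2)]⟩
  obtain ⟨s, h6, hs⟩ := exists_singer hσ (n := n) (by omega)
  replace h6 := (hσ.coprime_q p h6).symm
  have hA : ∀ x : PSU n F q, (∃ x' : PSU n F q, orderOf x ∣ orderOf x' ∧ r ∣ orderOf x') ∨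
      ∀ t N, n ≤ p ^ t → orderOf s ∣ N → p ^ t ∣ N → orderOf x ∣ N := fun x => by
    obtain ⟨g, rfl⟩ := QuotientGroup.mk_surjective x
    haveI : Nontrivial (Fin n → F) := nontrivial_of_finrank_pos (by rw [finrank_fin_fun]; omega)
    obtain ⟨P, hP⟩ := Multiset.exists_mem_of_ne_zero (typ_ne_zero (toLin' g.1.1))
    have hg := hσ.sd_su g
    have hb := blocks_typ (toLin' g.1.1)
    have hpp := typ_pp (toLin' g.1.1)
    have h0 := hg.coeff_ne hP
    have hP0 := (hpp P hP).natDegree_pos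
    obtain ⟨ν, hν, e⟩ := hσ.exists_split hg.2 hP (hpp P hP).monic h0
    by_cases hν0 : (ν.map natDegree).sum = 0
    swap
    · rcases e with ⟨h, e⟩ | ⟨-, e⟩
      · exact .inl (hB g _ ν (e ▸ hb :) (by simp [h]) hν (by simpa using hP0.ne') hν0)
      · exact .inl (hB g _ ν (e ▸ hb :) (map_dual_right (μ := ν) (by
          rw [add_comm, ← e, hg.2]) hν) hν (by simp; omega) hν0)
    obtain rfl := eq_zero_of_sum_natDegree (ν := ν) (fun R hR => hpp R (by
      rcases e with ⟨-, e⟩ | ⟨-, e⟩ <;> simp [e, hR])) hν0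
    refine .inr fun t N ht h7 h8 => Dvd.dvd.trans ?_ ((h6.pow_right t).mul_dvd_of_dvd_of_dvd h7 h8)
    obtain ⟨φ, k, h9, h10, h11, rfl⟩ := hpp P hP
    have h12 := coeff_zero_ne_of_dvd (dvd_pow_self φ h11.ne') h0
    have h13 : k ≤ p ^ t := (Nat.le_mul_of_pos_right k h10.natDegree_pos).trans
      ((mul_natDegree_le hb hP).trans (by simpa using ht))
    simp only [add_zero, map_pow] at e
    obtain ⟨c, h14, h15⟩ := hs g φ k h9 h10 h12 (by
      rcases e with ⟨e1, e⟩ | ⟨-, e⟩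
      exacts [.inl ⟨(hσ.dual_pow_eq_iff h9 h10 h12 h11).1 (by rw [map_pow, e1]), e ▸ hb⟩,
        .inr (e ▸ hb)])
    refine (hσ.orderOf_psu_dvd_iff (by omega)).2 ⟨_, hb.pow_eq_smul_one_iff.2 fun R hR =>
      (?_ : R ∣ X ^ (orderOf s * p ^ t) - C (c ^ p ^ t))⟩
    obtain rfl | rfl : R = φ ^ k ∨ R = dual σ φ ^ k := by
      rcases e with ⟨-, e⟩ | ⟨-, e⟩
      · exact .inl (by simpa [e] using hR)
      · simpa [e] using hR
    exacts [pow_dvd_X_pow_mul p h14 h13, pow_dvd_X_pow_mul p h15 h13]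
  have hU : ∀ (g : SU n F q) d k, Blocks (toLin' g.1.1) (jt 1 d) → k ∈ d →
      p ^ Nat.clog p k ∣ orderOf (g : PSU n F q) := fun g d k h hk =>
    let ⟨_, hc⟩ := (hσ.orderOf_psu_dvd_iff (by omega) (g := g)).1 dvd_rfl
    h.pow_clog_dvd p (hσ.sd_su g).1 (irreducible_X_sub_C 1) (Multiset.mem_map_of_mem _ hk) hc
  obtain ⟨u, hu⟩ := hσ.exists_su_jt (n := n) (d := {n}) (by simp)
  obtain ⟨w, hw⟩ := hσ.exists_su_jt (n := n) (d := {n - 1, 1}) (by simp; omega)
  obtain ⟨z, h7, h8⟩ := hB w (jt 1 {n - 1}) (jt 1 {1}) hw (map_dual_jt (by simp) _)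
    (map_dual_jt (by simp) _) (by simp [jt_map_natDegree]; omega) (by simp [jt_map_natDegree])
  have h9 := hU u _ n hu (by simp)
  have h10 := (hU w _ (n - 1) hw (by simp)).trans h7
  have h11 : ∀ v : Multiplicative (Fin m → ZMod r), orderOf v ∣ r := fun v =>
    orderOf_dvd_of_pow_eq_one (Multiplicative.toAdd.injective (funext fun i => by simp))
  have h12 : ∀ {G H : Type _} [Group G] [Group H] [Finite H], (∀ x : G, ∃ y : H, orderOf x ∣ orderOf y) →
      Set.range (orderOf : G → ℕ) ⊆ Set.range (orderOf : H → ℕ) := by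
    rintro G H _ _ _ h _ ⟨x, rfl⟩
    obtain ⟨y, hy⟩ := h x
    exact exists_orderOf_of_dvd hy
  have l := @Nat.dvd_lcm_left
  have r := @Nat.dvd_lcm_right
  refine ⟨(h12 fun ⟨a, b, c, v⟩ => ?_).antisymm fun _ ⟨⟨a, b, c⟩, h⟩ => ⟨(a, b, c, 1), by simpa [Prod.orderOf_mk] using h⟩,
    fun hj => (h12 fun ⟨a, b, v⟩ => ?_).antisymm fun _ ⟨⟨a, b⟩, h⟩ => ⟨(a, b, 1), by simpa [Prod.orderOf_mk] using h⟩⟩
  all_goals simp only [Prod.orderOf_mk, Nat.lcm_dvd_iff, Prod.exists]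
  · have ht := Nat.le_pow_clog hp.one_lt n
    rcases hA a with ⟨x, h, h'⟩ | ha
    · exact ⟨x, b, c, h.trans (l ..), (l ..).trans (r ..), (r ..).trans (r ..), (h11 v).trans (h'.trans (l ..))⟩
    rcases hA b with ⟨x, h, h'⟩ | hb
    · exact ⟨x, a, c, (l ..).trans (r ..), h.trans (l ..), (r ..).trans (r ..), (h11 v).trans (h'.trans (l ..))⟩
    rcases hA c with ⟨x, h, h'⟩ | hc
    · exact ⟨x, a, b, (l ..).trans (r ..), (r ..).trans (r ..), h.trans (l ..), (h11 v).trans (h'.trans (l ..))⟩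
    have := h9.trans ((l _ (orderOf z)).trans (r (orderOf s) _))
    exact ⟨s, u, z, ha _ _ ht (l ..) this, hb _ _ ht (l ..) this, hc _ _ ht (l ..) this,
      (h11 v).trans (h8.trans ((r ..).trans (r ..)))⟩
  · have ht : n ≤ p ^ Nat.clog p (n - 1) := by
      have := (Nat.le_pow_clog hp.one_lt (n - 1)).lt_of_ne fun e => hj ⟨_, e⟩
      omega
    rcases hA a with ⟨x, h, h'⟩ | ha
    · exact ⟨x, b, h.trans (l ..), r .., (h11 v).trans (h'.trans (l ..))⟩
    rcases hA b with ⟨x, h, h'⟩ | hb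
    · exact ⟨x, a, r .., h.trans (l ..), (h11 v).trans (h'.trans (l ..))⟩
    exact ⟨s, z, ha _ _ ht (l ..) (h10.trans (r ..)), hb _ _ ht (l ..) (h10.trans (r ..)), (h11 v).trans (h8.trans (r ..))⟩

end Cfsg.Agent.S2511
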