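import Cfsg.Statements.S2512
import Cfsg.Agent.Lib.GLC.Spec
import Cfsg.Agent.Lib.GLC.SpAdj
import Cfsg.Agent.Lib.Symp.Elus

set_option autoImplicit false
open Cfsg

namespace Cfsg.Agent.S2512

open Lib.GLC Lib.GLC.Homocyc Lib.Symp Matrix Polynomial Module

section
variable {F : Type*} [Field F] [Finite F] {n k l : ℕ}

theorem dvd_two_mul (g : symplecticGroup (Fin n) F) : orderOf g ∣ orderOf (g : PSp n F) * 2 := by
  have h1 := pow_orderOf_eq_one (g : PSp n F)
  rw [← QuotientGroup.mk_pow, QuotientGroup.eq_one_iff, mem_center_sp_iff] at h1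
  refine orderOf_dvd_of_pow_eq_one ?_
  rcases h1 with h1 | h1 <;> rw [pow_mul, h1]
  exacts [one_pow 2, Subtype.ext (by simp [pow_two])]

theorem exists_two (h2 : (2 : F) ≠ 0) (x : symplecticGroup (Fin k) F)
    (y : symplecticGroup (Fin l) F) (hk : 0 < k) (hl : 0 < l) (h : k + l = n) :
    ∃ z : PSp n F, 2 ∣ orderOf z ∧ ∀ a, Odd a → a ∣ (orderOf x).lcm (orderOf y) → a ∣ orderOf z := by
  subst h
  obtain ⟨ψ, hψ⟩ := exists_sp_emb (F := F) k l
  have h3 : ∀ a, Odd a → a ∣ (orderOf x).lcm (orderOf y) → a ∣ orderOf (ψ (x, y) : PSp (k + l) F) :=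
    fun a ha h => by
      rw [← Prod.orderOf_mk, ← orderOf_injective ψ hψ] at h
      exact ha.coprime_two_right.dvd_of_dvd_mul_right (h.trans (dvd_two_mul _))
  by_cases h4 : 2 ∣ orderOf (ψ (x, y) : PSp (k + l) F)
  · exact ⟨_, h4, h3⟩
  haveI := Fin.pos_iff_nonempty.1 hk
  haveI := Fin.pos_iff_nonempty.1 hl
  have hn : ∀ {m}, negOneSp (Fin m) F ^ 2 = 1 := Subtype.ext (by simp [pow_two])
  have hc : ∀ {m} (t : symplecticGroup (Fin m) F), t * negOneSp _ F = negOneSp _ F * t := fun t =>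
    Subgroup.mem_center_iff.1 ((mem_center_sp_iff _).2 (.inr rfl)) t
  obtain ⟨i, h5, h6, h7⟩ : ∃ i, i ^ 2 = 1 ∧ Commute (x, y) i ∧ (ψ i : PSp (k + l) F) ≠ 1 := by
    by_contra! H
    have e1 := H (negOneSp _ F, 1) (by simp [hn]) (Prod.ext (hc x) (by simp))
    have e2 := H (1, negOneSp _ F) (by simp [hn]) (Prod.ext (by simp) (hc y))
    rw [QuotientGroup.eq_one_iff, mem_center_sp_iff, map_eq_one_iff _ hψ] at e1 e2
    simp only [Prod.mk_eq_one, negOneSp_eq_one_iff, h2, false_and, and_false, false_or] at e1 e2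
    exact h2 (negOneSp_eq_one_iff.1 (congrArg Prod.fst (hψ (e1.trans e2.symm))))
  have h8 : orderOf (ψ i : PSp (k + l) F) = 2 := orderOf_eq_prime (by
    rw [← QuotientGroup.mk_pow, ← map_pow, h5, map_one, QuotientGroup.mk_one]) h7
  refine ⟨ψ (x, y) * ψ i, ?_⟩
  have h9 : Commute (ψ (x, y) : PSp (k + l) F) (ψ i) := (h6.map ψ).map (QuotientGroup.mk' _)
  rw [h9.orderOf_mul_eq_mul_orderOf_of_coprime
    (h8 ▸ ((Nat.Prime.coprime_iff_not_dvd Nat.prime_two).2 h4).symm)]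
  exact ⟨h8 ▸ dvd_mul_left _ _, fun a ha h => (h3 a ha h).mul_right _⟩

theorem exists_torus (hk : 0 < k) (b : Bool) :
    ∃ x : symplecticGroup (Fin k) F, tN (Nat.card F) (k, b) ∣ orderOf x := by
  cases b
  swap
  · exact exists_sp_order_odd hk.ne' dvd_rfl
  have hq := Finite.one_lt_card (α := F)
  have h1 := orderOf_dvd_two_mul (j := k) (by omega : 0 < Nat.card F) (.inl rfl) dvd_rfl
  refine exists_sp_order_even hk.ne' dvd_rfl ?_
  obtain ⟨c, hc⟩ := h1
  have h0 : 0 < orderOf (Nat.card F : ZMod (Nat.card F ^ k + 1)) :=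
    Nat.pos_of_ne_zero fun e => by rw [e] at hc; omega
  have h2 := Nat.le_of_dvd (Nat.sub_pos_of_lt (Nat.one_lt_pow h0.ne' hq))
    ((dvd_pow_sub_one_iff (r := Nat.card F ^ k + 1) (by omega : 0 < Nat.card F)).2 dvd_rfl)
  have h3 := (Nat.pow_lt_pow_iff_right hq).1 (show Nat.card F ^ k < Nat.card F ^
    orderOf (Nat.card F : ZMod (Nat.card F ^ k + 1)) by omega)
  change orderOf (Nat.card F : ZMod (Nat.card F ^ k + 1)) = _
  rcases c with - | - | c <;> [omega; omega; nlinarith]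

theorem exists_unip (k : ℕ) : ∃ x : symplecticGroup (Fin k) F, UU F (2 * k) (orderOf x) := by
  obtain ⟨x, hx⟩ := (occ_single (P := (X - C 1 : F[X]) ^ (2 * k)) ((monic_X_sub_C _).pow _)
    (by simp [coeff_zero_eq_eval_zero]) (by rw [map_pow, rdual_X_sub_C (one_mul 1)])
    (by simp)).exists_sp (l := Fin k) (by simp [-map_one])
  exact ⟨x, hx.pow_eq_one_iff.1 (by rw [← orderOf_toLin'_sp, pow_orderOf_eq_one]) _ (by simp)⟩

theorem key (h2 : (2 : F) ≠ 0) (p : ℕ) [Fact p.Prime] [CharP F p] (x : PSp n F) :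
    (∃ x' : PSp n F, orderOf x ∣ orderOf x' ∧ 2 ∣ orderOf x') ∨ ∀ t N, 2 * n ≤ p ^ t →
      (∀ b, Odd (tN (Nat.card F) (n, b) / 2) → tN (Nat.card F) (n, b) / 2 ∣ N) → p ^ t ∣ N →
      orderOf x ∣ N := by
  classical
  rcases (orderOf x).even_or_odd with h | ha
  · exact .inl ⟨x, dvd_rfl, h.two_dvd⟩
  obtain ⟨g, hg⟩ := (mem_range_psp (.inl ha)).1 ⟨x, rfl⟩
  obtain ⟨g, hg⟩ := mem_range_orderOf_iff.2 ⟨g, hg⟩
  generalize orderOf x = a at *
  subst hg
  have hb := blocks_typ (toLin' g.1)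
  have hd : ∀ m, orderOf g ∣ m ↔ ∀ P ∈ typ (toLin' g.1), P ∣ X ^ m - 1 := fun m => by
    rw [← hb.pow_eq_one_iff, ← orderOf_toLin'_sp, orderOf_dvd_iff_pow_eq_one]
  have hV : ((typ (toLin' g.1)).map natDegree).sum = 2 * n := by
    rw [← hb.finrank_eq]; simp [two_mul]
  have hT := (spE_sp g).spT
  have hC := cl_sp g
  obtain ⟨d, ρ, e, h3, h4⟩ := exists_split (typ_pp (toLin' g.1)) 1
  rw [e] at hd hV hT hC
  clear e hb
  have h5 : ∀ P ∈ ρ, P.eval 1 ≠ 0 ∧ P.eval (-1) ≠ 0 := fun P hP => ⟨h4 P hP, fun h => h2 (by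
    have := eval_eq_zero_of_dvd_of_eval_eq_zero ((hd _).1 dvd_rfl P (by simp [hP])) h
    simp only [eval_sub, eval_pow, eval_X, eval_one, ha.neg_one_pow] at this
    linear_combination -this)⟩
  rcases eq_or_ne ρ 0 with rfl | h0
  · refine .inr fun t N ht _ hN => Dvd.dvd.trans ((hd _).2 fun P hP => ?_) hN
    rw [add_zero, jt_map_natDegree] at hV
    rw [add_zero] at hP
    obtain ⟨a, ha, rfl⟩ := Multiset.mem_map.1 hP
    exact (uu_iff p (pow_ne_zero _ (Fact.out : p.Prime).ne_zero)).2 (by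
      rw [padicValNat.prime_pow]; exact ((Multiset.le_sum_of_mem ha).trans hV.le).trans ht)
  obtain ⟨o, ν, ⟨j, b⟩, e, rfl, hν, ho, hj, h6, h7, -⟩ := (hC.of_jt (one_mul 1)).exists_orb h0 h5
  dsimp only at hj h6
  rw [add_left_comm] at hd hV hT hC
  by_cases h8 : jt 1 d + ν = 0
  swap
  · have h9 : SpT o := ⟨?_, fun c hc k hk => ?_⟩
    rotate_left
    · have := (Cl.of_jt (add_left_comm o _ _ ▸ hC) (one_mul 1)).2
      rwa [Multiset.map_add, hν.2, add_left_inj] at this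
    · rw [Multiset.count_eq_zero_of_notMem fun h => ?_]
      · exact Even.zero
      have := h5 _ (Multiset.mem_add.2 (.inl h))
      rcases mul_self_eq_one_iff.1 hc with rfl | rfl <;> simp [hk.pos.ne'] at this
    have h10 := (hT.of_add h9).occ fun P hP => hC.1 P (Multiset.mem_add.2 (.inr hP))
    rw [Multiset.map_add, Multiset.sum_add, h6] at hV
    obtain ⟨P, hP⟩ := Multiset.exists_mem_of_ne_zero h8
    have := (hC.1 P (Multiset.mem_add.2 (.inr hP))).1.natDegree_pos.trans_le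
      (Multiset.le_sum_of_mem (Multiset.mem_map_of_mem natDegree hP))
    obtain ⟨x, hx⟩ := (h9.occ fun P hP => hC.1 P (Multiset.mem_add.2 (.inl hP))).exists_sp
      (l := Fin (j * (e + 1))) (by simpa using h6)
    obtain ⟨y, hy⟩ := h10.exists_sp (l := Fin (n - j * (e + 1)))
      (by rw [Fintype.card_fin]; omega)
    obtain ⟨z, h11, h12⟩ := exists_two h2 x y (by positivity) (by omega)
      (by omega : _ = n)
    refine .inl ⟨z, h12 _ ha ((hd _).2 fun P hP => (Multiset.mem_add.1 hP).elim (fun hP => ?_)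
      fun hP => ?_), h11⟩
    · exact hx.pow_eq_one_iff.1 (orderOf_dvd_iff_pow_eq_one.1
        (orderOf_toLin'_sp x ▸ Nat.dvd_lcm_left ..)) P hP
    · exact hy.pow_eq_one_iff.1 (orderOf_dvd_iff_pow_eq_one.1
        (orderOf_toLin'_sp y ▸ Nat.dvd_lcm_right ..)) P hP
  rw [h8, add_zero] at hd hV
  obtain ⟨w, hx⟩ := exists_torus (F := F) hj b
  rcases eq_or_ne e 0 with rfl | he
  · obtain rfl : j = n := by omega
    obtain ⟨m, hm⟩ := (tN_parity (F := F) (x := (j, b)) hj).2 h2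
    have h9 : orderOf g ∣ m := ha.coprime_two_right.dvd_of_dvd_mul_right ((hd _).2 fun P hP => by
      obtain ⟨ψ, -, rfl, h⟩ := h7 P hP
      rwa [zero_add, pow_one, mul_two, ← hm])
    have h10 : tN (Nat.card F) (j, b) / 2 = m := by omega
    rcases m.even_or_odd with h | h
    · have : m ∣ orderOf (w : PSp j F) := Nat.dvd_of_mul_dvd_mul_right two_pos
        (by rw [mul_two, ← hm]; exact hx.trans (dvd_two_mul w))
      exact .inl ⟨w, h9.trans this, h.two_dvd.trans this⟩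
    · refine .inr fun t N _ hN _ => h9.trans ?_
      have := hN b
      rw [h10] at this
      exact this h
  obtain ⟨y, hy⟩ := exists_unip (F := F) (j * e)
  have h9 : 0 < e := Nat.pos_of_ne_zero he
  obtain ⟨z, h11, h12⟩ := exists_two h2 w y hj (by positivity) (by nlinarith : _ = n)
  refine .inl ⟨z, h12 _ ha ((hd _).2 fun P hP => ?_), h11⟩
  obtain ⟨ψ, h13, rfl, h⟩ := h7 P hP
  exact UU.pow_dvd (UU.mono (dvd_X_pow_sub_one_of_dvd hy (Nat.dvd_lcm_right ..)) (by nlinarith)) h13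
    (dvd_X_pow_sub_one_of_dvd h (hx.trans (Nat.dvd_lcm_left ..)))

end

/-- Let F be a finite field of odd order q = p^a, n ≥ 2 (with q ≥ 3 automatic), and L = PSp(2n, F). Then for every m the direct product L × L × L × (ℤ/2)^m has the same set of element orders as L × L × L; and if 2n − 1 is not a power of p, then already L × L × (ℤ/2)^m has the same set of element orders as L × L. -/
theorem result {F : Type*} [Field F] [Fintype F] (p a n m : ℕ) (hp : p.Prime) (ha : 1 ≤ a) (hF : Fintype.card F = p ^ a) (hodd : Odd (Fintype.card F))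
    (hn : 2 ≤ n) :
    Set.range (orderOf : Cfsg.PSp n F × Cfsg.PSp n F × Cfsg.PSp n F × Multiplicative (Fin m → ZMod 2) → ℕ) = Set.range (orderOf : Cfsg.PSp n F × Cfsg.PSp n F × Cfsg.PSp n F → ℕ) ∧
    ((¬ ∃ j : ℕ, 2 * n - 1 = p ^ j) →
      Set.range (orderOf : Cfsg.PSp n F × Cfsg.PSp n F × Multiplicative (Fin m → ZMod 2) → ℕ) = Set.range (orderOf : Cfsg.PSp n F × Cfsg.PSp n F → ℕ)) := by
  haveI := Fact.mk hp
  haveI : CharP F p := (CharP.charP_iff_prime_eq_zero hp).2 (eq_zero_of_pow_eq_zero (n := a) (by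
    rw [← Nat.cast_pow, ← hF, Nat.cast_card_eq_zero]))
  have hp2 : Odd p := (Nat.odd_pow_iff (by omega)).1 (hF ▸ hodd)
  have h2 : (2 : F) ≠ 0 := fun h => (Nat.not_even_iff_odd.2 hp2) (((Nat.prime_dvd_prime_iff_eq hp
    Nat.prime_two).1 ((CharP.cast_eq_zero_iff F p 2).1 h)) ▸ even_two)
  have hA := key (n := n) h2 p
  obtain ⟨s, hs⟩ : ∃ s : PSp n F, ∀ b, Odd (tN (Nat.card F) (n, b) / 2) →
      tN (Nat.card F) (n, b) / 2 ∣ orderOf s := by
    have h1 : ∀ b, ∃ s : PSp n F, Odd (tN (Nat.card F) (n, b) / 2) →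
        tN (Nat.card F) (n, b) / 2 ∣ orderOf s := fun b => by
      obtain ⟨x, hx⟩ := exists_torus (F := F) (k := n) (by omega) b
      exact ⟨x, fun h => h.coprime_two_right.dvd_of_dvd_mul_right ((Nat.div_dvd_of_dvd
        ((tN_parity (x := (n, b)) (by omega : 0 < n)).2 h2).two_dvd).trans (hx.trans (dvd_two_mul x)))⟩
    obtain ⟨s, hs⟩ := h1 true
    obtain ⟨s', hs'⟩ := h1 false
    by_cases h : Odd (tN (Nat.card F) (n, true) / 2)
    · refine ⟨s, fun b hb => ?_⟩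
      cases b
      · obtain ⟨c, hc⟩ := (Nat.card_eq_fintype_card (α := F) ▸ hodd).pow (n := n)
        simp only [tN, hc, Nat.odd_iff] at h hb
        simp at h hb
        omega
      · exact hs hb
    · exact ⟨s', fun b hb => by cases b; exacts [hs' hb, absurd hb h]⟩
  have hU : ∀ k (g : symplecticGroup (Fin k) F), UU F (2 * k) (orderOf g) →
      p ^ Nat.clog p (2 * k) ∣ orderOf g := fun k g h =>
    pow_clog_dvd_of_dvd p (irreducible_X_sub_C (1 : F)) one_ne_zero h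
  obtain ⟨u, hu⟩ := exists_unip (F := F) n
  obtain ⟨w, hw⟩ := exists_unip (F := F) (n - 1)
  obtain ⟨z, h8, h7⟩ := exists_two h2 w (1 : symplecticGroup (Fin 1) F) (by omega) one_pos
    (by omega : _ = n)
  have h9 : _ ∣ orderOf (u : PSp n F) :=
    hp2.pow.coprime_two_right.dvd_of_dvd_mul_right ((hU _ u hu).trans (dvd_two_mul u))
  have h10 := h7 _ hp2.pow ((hU _ w hw).trans (Nat.dvd_lcm_left ..))
  have h11 : ∀ v : Multiplicative (Fin m → ZMod 2), orderOf v ∣ 2 := fun v =>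
    orderOf_dvd_of_pow_eq_one (Multiplicative.toAdd.injective (funext fun i => by
      simp [CharTwo.two_eq_zero]))
  have h12 : ∀ {G H : Type _} [Group G] [Group H] [Finite H], (∀ x : G, ∃ y : H, orderOf x ∣ orderOf y) →
      Set.range (orderOf : G → ℕ) ⊆ Set.range (orderOf : H → ℕ) := by
    rintro G H _ _ _ h _ ⟨x, rfl⟩
    exact mem_range_orderOf_iff.2 (h x)
  have l := @Nat.dvd_lcm_left
  have r := @Nat.dvd_lcm_right
  have hs' : ∀ k b, Odd (tN (Nat.card F) (n, b) / 2) →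
      tN (Nat.card F) (n, b) / 2 ∣ (orderOf s).lcm k := fun k b h => (hs b h).trans (l ..)
  refine ⟨(h12 fun ⟨a, b, c, v⟩ => ?_).antisymm fun _ ⟨⟨a, b, c⟩, h⟩ => ⟨(a, b, c, 1), by simpa [Prod.orderOf_mk] using h⟩,
    fun hj => (h12 fun ⟨a, b, v⟩ => ?_).antisymm fun _ ⟨⟨a, b⟩, h⟩ => ⟨(a, b, 1), by simpa [Prod.orderOf_mk] using h⟩⟩
  all_goals simp only [Prod.orderOf_mk, Nat.lcm_dvd_iff, Prod.exists]
  · have ht := Nat.le_pow_clog hp.one_lt (2 * n)
    rcases hA a with ⟨x, h, h'⟩ | ha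
    · exact ⟨x, b, c, h.trans (l ..), (l ..).trans (r ..), (r ..).trans (r ..), (h11 v).trans (h'.trans (l ..))⟩
    rcases hA b with ⟨x, h, h'⟩ | hb
    · exact ⟨x, a, c, (l ..).trans (r ..), h.trans (l ..), (r ..).trans (r ..), (h11 v).trans (h'.trans (l ..))⟩
    rcases hA c with ⟨x, h, h'⟩ | hc
    · exact ⟨x, a, b, (l ..).trans (r ..), (r ..).trans (r ..), h.trans (l ..), (h11 v).trans (h'.trans (l ..))⟩
    have := h9.trans ((l _ (orderOf z)).trans (r (orderOf s) _))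
    exact ⟨s, u, z, ha _ _ ht (hs' _) this, hb _ _ ht (hs' _) this, hc _ _ ht (hs' _) this,
      (h11 v).trans (h8.trans ((r ..).trans (r ..)))⟩
  · have ht : 2 * n ≤ p ^ Nat.clog p (2 * (n - 1)) := by
      have h3 := Nat.le_pow_clog hp.one_lt (2 * (n - 1))
      have h4 : 2 * n - 1 ≠ p ^ Nat.clog p (2 * (n - 1)) := fun e => hj ⟨_, e⟩
      obtain ⟨c, hc⟩ := hp2.pow (n := Nat.clog p (2 * (n - 1)))
      omega
    rcases hA a with ⟨x, h, h'⟩ | ha
    · exact ⟨x, b, h.trans (l ..), r .., (h11 v).trans (h'.trans (l ..))⟩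
    rcases hA b with ⟨x, h, h'⟩ | hb
    · exact ⟨x, a, r .., h.trans (l ..), (h11 v).trans (h'.trans (l ..))⟩
    exact ⟨s, z, ha _ _ ht (hs' _) (h10.trans (r ..)), hb _ _ ht (hs' _) (h10.trans (r ..)), (h11 v).trans (h8.trans (r ..))⟩

end Cfsg.Agent.S2512
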