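import Cfsg.Statements.S2513
import Cfsg.Agent.Lib.GLC.Ord

set_option autoImplicit false
open Cfsg

namespace Cfsg.Agent.S2513

/-- Let F be the field with two elements, n ≥ 2, L = PSL(n, F) and k₀ = ⌊(n + 3)/2⌋. Then for every k ≥ k₀ the direct product of k copies of L has the same set of element orders as the direct product of k₀ copies of L. -/
theorem result {F : Type*} [Field F] [Fintype F] (hF : Fintype.card F = 2) (n k : ℕ) (hn : 2 ≤ n) (hk : (n + 3) / 2 ≤ k) :
    Set.range (orderOf : (Fin k → Matrix.ProjectiveSpecialLinearGroup (Fin n) F) → ℕ) = Set.range (orderOf : (Fin ((n + 3) / 2) → Matrix.ProjectiveSpecialLinearGroup (Fin n) F) → ℕ) := by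
  open Lib.GLC Matrix Polynomial Module in
  have h1 : ∀ a : F, a ≠ 0 → a = 1 := fun a ha => by simpa [hF] using FiniteField.pow_card_sub_one_eq_one a ha
  have hF' : Nat.card F = 2 := Nat.card_eq_fintype_card.trans hF
  haveI : CharP F 2 := (CharP.charP_iff_prime_eq_zero Nat.prime_two).2 (hF ▸ FiniteField.cast_card_eq_zero F)
  have hs : ∀ i, ∃ g : ProjectiveSpecialLinearGroup (Fin n) F, 1 ≤ i → i ≤ n → 2 ^ i - 1 ∣ orderOf g := fun i => by
    by_cases hi : 1 ≤ i ∧ i ≤ n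
    swap
    · exact ⟨1, fun h h' => (hi ⟨h, h'⟩).elim⟩
    obtain ⟨K, _, _, _, h2, h3⟩ := exists_ext F (n := i) (by omega)
    obtain ⟨a, ha, h4⟩ := exists_orderOf_eq (K := K) dvd_rfl
    obtain ⟨g, hg⟩ := exists_psl_dvd_orderOf (n := Fin n) ((Algebra.lmul F K a).prodMap (1 : End F (Fin (n - i) → F)))
      (by simp [h2, hi.2]) (by rw [LinearMap.det_prodMap, map_one, mul_one]; exact h1 _ (Algebra.norm_ne_zero_iff.2 ha))
      (m := 2 ^ i - 1) fun k c h => by
        have h5 := lmul_pow_eq_smul_one_iff.1 (prodMap_pow_eq_smul_one_iff.1 h).1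
        rw [h1 c fun e => pow_ne_zero k ha (by rw [h5, e, map_zero]), map_one] at h5
        rw [← hF', ← h3, ← h4]
        exact orderOf_dvd_of_pow_eq_one h5
    exact ⟨g, fun _ _ => hg⟩
  choose s hs using hs
  obtain ⟨u, hu⟩ := exists_sl_jt (F := F) (n := Fin n) (d := {n}) (by simp)
  let x : Fin ((n + 3) / 2) → ProjectiveSpecialLinearGroup (Fin n) F := fun j => if j.1 = 0 then u else s (n + 1 - j)
  have h2 : ∀ j, orderOf (x j) ∣ orderOf x := fun j => orderOf_map_dvd (Pi.evalMonoidHom _ j) x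
  obtain ⟨c, hc⟩ := (orderOf_psl_dvd_iff (g := u)).1 (h2 ⟨0, by omega⟩)
  obtain ⟨m, hm⟩ := hu.pow_clog_dvd 2 (isUnit_toLin'_gl (SpecialLinearGroup.toGL u)) (irreducible_X_sub_C 1) (e := n)
    (by simp [jt]) hc
  have hx : ∀ g : ProjectiveSpecialLinearGroup (Fin n) F, orderOf g ∣ orderOf x := by
    rintro ⟨g⟩
    refine hm ▸ mul_comm m _ ▸ orderOf_psl_dvd_iff.2 ⟨_, pow_eq_smul_one_of_typ 2 (c := 1) fun φ e h3 h4 h5 h6 => ?_⟩
    have h7 := (mul_natDegree_le (blocks_typ _) h6).trans_eq (finrank_fin_fun F)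
    have h8 := h4.natDegree_pos
    refine ⟨?_, (Nat.le_mul_of_pos_right e h8).trans (h7.trans (Nat.le_pow_clog one_lt_two n))⟩
    have h9 := (Nat.le_mul_of_pos_left _ h5).trans h7
    obtain ⟨i, h10, h11, h12⟩ : ∃ i, φ.natDegree ∣ i ∧ i ≤ n ∧ n < 2 * i := ⟨_, dvd_mul_right _ _, Nat.mul_div_le n _, by
      have := Nat.mod_lt n h8
      have := Nat.div_add_mod n φ.natDegree
      have := Nat.le_mul_of_pos_right φ.natDegree (Nat.div_pos h9 h8)
      omega⟩
    have h13 := h2 ⟨n + 1 - i, by omega⟩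
    simp only [x, if_neg (show n + 1 - i ≠ 0 by omega), show n + 1 - (n + 1 - i) = i by omega] at h13
    have h14 := (Nat.Coprime.pow_right _ (Nat.coprime_two_right.2 (Nat.Even.sub_odd Nat.one_le_two_pow
      ((Nat.even_pow' (by omega)).2 even_two) odd_one))).dvd_of_dvd_mul_left (hm ▸ (hs i (by omega) h11).trans h13)
    refine (dvd_X_pow_card_sub_one h4 (fun e => ?_) h10).trans (hF' ▸ dvd_pow_sub_one_of_dvd h14)
    exact (blocks_typ _).isUnit_iff.1 (isUnit_toLin'_gl (SpecialLinearGroup.toGL g)) _ h6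
      (by simp [coeff_zero_eq_eval_zero] at e ⊢; exact ⟨e, h5.ne'⟩)
  ext m
  constructor
  · rintro ⟨y, rfl⟩
    exact ⟨_, orderOf_pow_orderOf_div (orderOf_pos x).ne' (orderOf_dvd_of_pow_eq_one
      (funext fun j => orderOf_dvd_iff_pow_eq_one.1 (hx (y j))))⟩
  · rintro ⟨y, rfl⟩
    refine ⟨fun j => if h : j.1 < (n + 3) / 2 then y ⟨j, h⟩ else 1, orderOf_eq_orderOf_iff.2 fun l =>
      ⟨fun h => funext fun j => by simpa using congrFun h ⟨j, by omega⟩, fun h => funext fun j => ?_⟩⟩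
    simp only [Pi.pow_apply]
    split_ifs with h'
    exacts [congrFun h _, one_pow _]

end Cfsg.Agent.S2513
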