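import Mathlib
import Cfsg.Statements.S2514

set_option autoImplicit false
open Cfsg

namespace Cfsg.Agent.S2514

theorem exists_max {G : Type*} [Group G] [Finite G] (g : G) :
    ∃ n : ℕ, (n ∈ Set.range (orderOf : G → ℕ) ∧
      ∀ m ∈ Set.range (orderOf : G → ℕ), n ∣ m → m = n) ∧ orderOf g ∣ n := by
  obtain ⟨x, hx, hmax⟩ := Set.exists_max_image {x : G | orderOf g ∣ orderOf x} orderOf
    (Set.toFinite _) ⟨g, dvd_refl _⟩
  refine ⟨orderOf x, ⟨⟨x, rfl⟩, ?_⟩, hx⟩
  rintro _ ⟨y, rfl⟩ h
  exact le_antisymm (hmax y (dvd_trans hx h)) (Nat.le_of_dvd (orderOf_pos y) h)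

theorem exists_of_dvd {G : Type*} [Group G] [Finite G] {n d : ℕ}
    (hn : n ∈ Set.range (orderOf : G → ℕ)) (hd : d ∣ n) : ∃ x : G, orderOf x = d := by
  obtain ⟨y, rfl⟩ := hn
  exact ⟨y ^ (orderOf y / d), orderOf_pow_orderOf_div (orderOf_pos y).ne' hd⟩

/-- For a finite group X write μ(X) for the set of element orders of X that are maximal under divisibility. Let G and H be finite groups and k ≥ 1 such that μ(H) ⊆ μ(G) and μ(G) has fewer than k elements outside μ(H). Then the direct product of k copies of G has the same set of element orders as the direct product of k − 1 copies of G with H. -/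
theorem result {G H : Type*} [Group G] [Finite G] [Group H] [Finite H] (k : ℕ) (hk : 1 ≤ k)
    (hsub : {n : ℕ | n ∈ Set.range (orderOf : H → ℕ) ∧ ∀ m ∈ Set.range (orderOf : H → ℕ), n ∣ m → m = n} ⊆ {n : ℕ | n ∈ Set.range (orderOf : G → ℕ) ∧ ∀ m ∈ Set.range (orderOf : G → ℕ), n ∣ m → m = n})
    (hfew : ({n : ℕ | n ∈ Set.range (orderOf : G → ℕ) ∧ ∀ m ∈ Set.range (orderOf : G → ℕ), n ∣ m → m = n} \ {n : ℕ | n ∈ Set.range (orderOf : H → ℕ) ∧ ∀ m ∈ Set.range (orderOf : H → ℕ), n ∣ m → m = n}).ncard < k) :
    Set.range (orderOf : (Fin k → G) → ℕ) = Set.range (orderOf : (Fin (k - 1) → G) × H → ℕ) := by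
  obtain ⟨j, rfl⟩ : ∃ j, k = j + 1 := ⟨k - 1, by omega⟩
  change Set.range (orderOf : (Fin (j + 1) → G) → ℕ) = Set.range (orderOf : (Fin j → G) × H → ℕ)
  have key : ∀ (x : Fin (j + 1) → G) (i : Fin (j + 1)) (h : H), orderOf h = orderOf (x i) →
      orderOf ((fun l => x (i.succAbove l), h) : (Fin j → G) × H) = orderOf x := by
    intro x i h hh
    rw [orderOf_eq_orderOf_iff] at hh ⊢
    intro n
    rw [Prod.ext_iff, funext_iff, funext_iff, Fin.forall_iff_succAbove i]
    simp only [Prod.pow_fst, Prod.pow_snd, Pi.pow_apply, Prod.fst_one, Prod.snd_one, Pi.one_apply,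
      hh n]
    exact and_comm
  ext N
  constructor
  · rintro ⟨x, rfl⟩
    choose m hm hdvd using fun i => exists_max (x i)
    by_cases hH : ∃ i, m i ∈ {n : ℕ | n ∈ Set.range (orderOf : H → ℕ) ∧
        ∀ m ∈ Set.range (orderOf : H → ℕ), n ∣ m → m = n}
    · obtain ⟨i, hi⟩ := hH
      obtain ⟨h, hh⟩ := exists_of_dvd hi.1 (hdvd i)
      exact ⟨_, key x i h hh⟩
    · push Not at hH
      set S := {n : ℕ | n ∈ Set.range (orderOf : G → ℕ) ∧
          ∀ m ∈ Set.range (orderOf : G → ℕ), n ∣ m → m = n} \
        {n : ℕ | n ∈ Set.range (orderOf : H → ℕ) ∧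
          ∀ m ∈ Set.range (orderOf : H → ℕ), n ∣ m → m = n}
      have hS : S.Finite := (Set.finite_range (orderOf : G → ℕ)).subset fun n hn => hn.1.1
      have hninj : ¬ Function.Injective m := by
        intro hinj
        have h1 : (Set.range m).ncard ≤ S.ncard :=
          Set.ncard_le_ncard (by rintro _ ⟨i, rfl⟩; exact ⟨hm i, hH i⟩) hS
        rw [Set.ncard_range_of_injective hinj] at h1
        simp at h1
        omega
      obtain ⟨a, b, hab, hne⟩ := Function.not_injective_iff.1 hninj
      obtain ⟨y, hy⟩ := exists_of_dvd (hm a).1 (Nat.lcm_dvd (hdvd a) (hab ▸ hdvd b))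
      classical
      let x' : Fin (j + 1) → G := Function.update (Function.update x a y) b 1
      have h1 : orderOf x' = orderOf x := by
        rw [orderOf_eq_orderOf_iff]
        intro n
        have hy' : y ^ n = 1 ↔ x a ^ n = 1 ∧ x b ^ n = 1 := by
          simp only [← orderOf_dvd_iff_pow_eq_one, hy, Nat.lcm_dvd_iff]
        simp only [funext_iff, Pi.pow_apply, Pi.one_apply]
        constructor
        · intro h l
          have ha := h a
          simp only [x', Function.update_of_ne hne, Function.update_self] at ha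
          by_cases hla : l = a
          · rw [hla]; exact (hy'.1 ha).1
          · by_cases hlb : l = b
            · rw [hlb]; exact (hy'.1 ha).2
            · have := h l
              simpa only [x', Function.update_of_ne hla, Function.update_of_ne hlb] using this
        · intro h l
          by_cases hlb : l = b
          · simp [x', hlb]
          · by_cases hla : l = a
            · simp only [x', hla, Function.update_of_ne hne, Function.update_self]
              exact hy'.2 ⟨h a, h b⟩
            · simpa only [x', Function.update_of_ne hla, Function.update_of_ne hlb] using h l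
      exact ⟨_, (key x' b 1 (by simp [x'])).trans h1⟩
  · rintro ⟨⟨y, h⟩, rfl⟩
    obtain ⟨m, hm, hd⟩ := exists_max h
    obtain ⟨g, hg⟩ := exists_of_dvd (hsub hm).1 hd
    refine ⟨Fin.cons g y, ?_⟩
    rw [← key (Fin.cons g y) 0 h (by simpa using hg.symm)]
    rfl

end Cfsg.Agent.S2514
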