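import Cfsg.Statements.S2515
import Cfsg.Agent.Lib.Ree.Spec

set_option autoImplicit false
open Cfsg

namespace Cfsg.Agent.S2515

/-- Let q = 3^α with α ≥ 3 odd. There is a finite group H having a non-trivial normal 3-subgroup and whose element orders maximal under divisibility are exactly 6, 9, q − 1 and (q + 1)/2. -/
theorem result (α : ℕ) (hα : 3 ≤ α) (hodd : Odd α) :
    ∃ (H : Type) (_ : Group H) (_ : Fintype H), (∃ P : Subgroup H, P.Normal ∧ P ≠ ⊥ ∧ IsPGroup 3 ↥P) ∧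
      {n : ℕ | n ∈ Set.range (orderOf : H → ℕ) ∧ ∀ m ∈ Set.range (orderOf : H → ℕ), n ∣ m → m = n} = ({6, 9, 3 ^ α - 1, (3 ^ α + 1) / 2} : Set ℕ) := by
  have hK : Nat.card (GaloisField 3 α) = 3 ^ α := GaloisField.card 3 α (by omega)
  have h8 : 3 ^ α % 24 = 3 := by
    obtain ⟨k, rfl⟩ := hodd
    clear hK hα
    induction k with
    | zero => rfl
    | succ k ih => rw [show 2 * (k + 1) + 1 = 2 * k + 1 + 2 by ring, pow_add, Nat.mul_mod, ih]; rfl
  have h27 : 27 ≤ 3 ^ α := Nat.pow_le_pow_right (n := 3) (i := 3) (by norm_num) hα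
  obtain ⟨d, f, h1, h2, h3⟩ := Lib.Ree.exists_cusp (K := GaloisField 3 α) (by omega)
  refine ⟨Lib.Spec.CuspExt (GaloisField 3 α) d, inferInstance, Fintype.ofFinite _,
    ⟨SemidirectProduct.rightHom.ker, inferInstance, fun e => h2 ?_, ?_⟩, ?_⟩
  · exact congrArg (fun x => x.left.toAdd.1) (Subgroup.mem_bot.1 (e.le
      (SemidirectProduct.rightHom_inl (Multiplicative.ofAdd ⟨f, h1⟩))))
  · rw [← SemidirectProduct.range_inl_eq_ker_rightHom]
    rintro ⟨_, x, rfl⟩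
    refine ⟨1, Subtype.ext ?_⟩
    rw [pow_one, Subgroup.coe_pow, ← map_pow, Subgroup.coe_one, map_eq_one_iff _
      SemidirectProduct.inl_injective]
    ext y
    simp [show (3 : GaloisField 3 α) = 0 from CharP.cast_eq_zero _ 3]
  rw [hK] at h3
  rw [show Set.range orderOf = _ from h3]
  generalize 3 ^ α = q at h8 h27
  have key : ∀ n ∈ ({6, 9, q - 1, (q + 1) / 2} : Set ℕ),
      ∀ m ∈ ({6, 9, q - 1, (q + 1) / 2} : Set ℕ), n ∣ m → m = n := by
    have h4 : ¬ (q + 1) / 2 ∣ q - 1 := fun h => by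
      have := Nat.le_of_dvd two_pos ((Nat.dvd_add_right h).1 (Dvd.intro 2 (by omega) :
        (q + 1) / 2 ∣ q - 1 + 2))
      omega
    rintro _ (rfl | rfl | rfl | rfl) _ (rfl | rfl | rfl | rfl) h <;>
      first | rfl | exact absurd h h4 | omega | (have := Nat.le_of_dvd (by omega) h; omega)
  have h5 : ∀ n, (n ∣ 6 ∨ n ∣ 9 ∨ n ∣ q - 1 ∨ n ∣ (q + 1) / 2) ↔
      ∃ m ∈ ({6, 9, q - 1, (q + 1) / 2} : Set ℕ), n ∣ m := by simp
  ext n
  simp only [Set.mem_ofPred_eq, h5]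
  refine ⟨fun ⟨⟨m, hm, h⟩, h'⟩ => h' m ⟨m, hm, dvd_rfl⟩ h ▸ hm, fun hn => ⟨⟨n, hn, dvd_rfl⟩, ?_⟩⟩
  rintro m ⟨k, hk, h⟩ h'
  exact Nat.dvd_antisymm (key n hn k hk (h'.trans h) ▸ h) h'

end Cfsg.Agent.S2515
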