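import Cfsg.Statements.S2516

set_option autoImplicit false
open Cfsg

namespace Cfsg.Agent.S2516

/-- Let F be a field of characteristic p > 0, V a non-zero finite-dimensional F-vector space, G a finite group and ρ a representation of G on V; form the semidirect product V ⋊ G. For g ∈ G of order k, the coset Vg contains an element of order pk if and only if the minimal polynomial of ρ(g) does not divide 1 + X + ⋯ + X^(k−1). -/
theorem result {F : Type*} [Field F] (p : ℕ) [Fact p.Prime] [CharP F p] {V : Type*} [AddCommGroup V] [Module F V] [FiniteDimensional F V] [Nontrivial V]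
    {G : Type*} [Group G] [Finite G] (ρ : Representation F G V) (g : G) :
    (∃ x : Multiplicative V ⋊[(MulAutMultiplicative V).symm.toMonoidHom.comp
        ((DistribMulAction.toAddAut ((V →ₗ[F] V)ˣ) V).comp ρ.asGroupHom)] G,
        x.right = g ∧ orderOf x = p * orderOf g) ↔
      ¬ (minpoly F (ρ g) ∣ ∑ i ∈ Finset.range (orderOf g), (Polynomial.X : Polynomial F) ^ i) := by
  have hp : p.Prime := Fact.out
  set φ := (MulAutMultiplicative V).symm.toMonoidHom.comp
    ((DistribMulAction.toAddAut ((V →ₗ[F] V)ˣ) V).comp ρ.asGroupHom) with hφ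
  have hact : ∀ (a : G) (v : Multiplicative V), φ a v = Multiplicative.ofAdd (ρ a v.toAdd) :=
    fun a v => rfl
  have hpow : ∀ (x : Multiplicative V ⋊[φ] G) (n : ℕ), (x ^ n).left =
      Multiplicative.ofAdd ((∑ i ∈ Finset.range n, (ρ x.right) ^ i) x.left.toAdd) := by
    intro x n
    induction n with
    | zero => simp
    | succ n ih =>
      have hr : (x ^ n).right = x.right ^ n := map_pow SemidirectProduct.rightHom x n
      rw [pow_succ, SemidirectProduct.mul_left, ih, hact, Finset.sum_range_succ, hr, map_pow,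
        LinearMap.add_apply, ofAdd_add]
  have hiff : (minpoly F (ρ g) ∣ ∑ i ∈ Finset.range (orderOf g), (Polynomial.X : Polynomial F) ^ i)
      ↔ (∑ i ∈ Finset.range (orderOf g), (ρ g) ^ i) = 0 := by
    rw [minpoly.dvd_iff]
    simp [map_sum]
  rw [hiff]
  have hk := orderOf_pos g
  have hr : ∀ (x : Multiplicative V ⋊[φ] G) (n : ℕ), (x ^ n).right = x.right ^ n :=
    fun x n => map_pow SemidirectProduct.rightHom x n
  constructor
  · rintro ⟨x, rfl, hx⟩ h0
    have h1 : x ^ orderOf x.right = 1 := by
      ext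
      · rw [hpow, h0]; rfl
      · rw [hr, pow_orderOf_eq_one]; rfl
    have h2 := Nat.le_of_dvd hk (orderOf_dvd_of_pow_eq_one h1)
    rw [hx] at h2
    have := hp.two_le
    nlinarith
  · intro h0
    obtain ⟨v, hv⟩ : ∃ v, (∑ i ∈ Finset.range (orderOf g), (ρ g) ^ i) v ≠ 0 := by
      by_contra h
      push Not at h
      exact h0 (LinearMap.ext h)
    refine ⟨⟨Multiplicative.ofAdd v, g⟩, rfl, ?_⟩
    set x : Multiplicative V ⋊[φ] G := ⟨Multiplicative.ofAdd v, g⟩
    set w := (∑ i ∈ Finset.range (orderOf g), (ρ g) ^ i) v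
    have h1 : x ^ orderOf g = SemidirectProduct.inl (Multiplicative.ofAdd w) := by
      ext
      · rw [hpow]; rfl
      · rw [hr]; exact pow_orderOf_eq_one g
    have h2 : orderOf (x ^ orderOf g) = p := by
      rw [h1, orderOf_injective _ SemidirectProduct.inl_injective]
      refine orderOf_eq_prime ?_ (by simpa using hv)
      rw [← ofAdd_nsmul, ← Nat.cast_smul_eq_nsmul F, CharP.cast_eq_zero, zero_smul]; rfl
    have h3 : orderOf g ∣ orderOf x := orderOf_map_dvd SemidirectProduct.rightHom x
    have hfin : IsOfFinOrder x := by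
      rw [isOfFinOrder_iff_pow_eq_one]
      refine ⟨orderOf g * p, Nat.mul_pos hk hp.pos, ?_⟩
      rw [pow_mul, ← h2, pow_orderOf_eq_one]
    rw [orderOf_pow_of_dvd hk.ne' h3] at h2
    rw [← h2, Nat.div_mul_cancel h3]

end Cfsg.Agent.S2516
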