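import Cfsg.Statements.S2519
import Cfsg.Agent.S2520

set_option autoImplicit false
open Cfsg

namespace Cfsg.Agent.S2519

open Cfsg.Lib.Oct

theorem antichain {p q : ℕ} (hp : p.Prime) (h1 : p ∣ q) (h2 : 5 ≤ q) {x y : ℕ}
    (hx : x ∈ ({p * (q + 1), p * (q - 1), q ^ 2 - 1, q ^ 2 + q + 1, q ^ 2 - q + 1, p ^ 2} : Set ℕ))
    (hy : y ∈ ({p * (q + 1), p * (q - 1), q ^ 2 - 1, q ^ 2 + q + 1, q ^ 2 - q + 1, p ^ 2} : Set ℕ)) (h : x ∣ y) :
    x = y := by
  obtain ⟨r, rfl⟩ := Nat.exists_eq_add_of_le' h2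
  have e1 : (r + 5) ^ 2 - 1 = (r + 5) * (r + 4) + (r + 4) := Nat.sub_eq_of_eq_add (by ring)
  have e2 : (r + 5) ^ 2 - (r + 5) = (r + 5) * (r + 4) := Nat.sub_eq_of_eq_add (by ring)
  have hp1 := hp.one_lt
  have h3 := Nat.le_of_dvd (by simp) h1
  have n1 : ∀ {k}, p ∣ k → ¬ p ∣ k + 1 := fun h h' => hp1.ne' (Nat.dvd_one.1 ((Nat.dvd_add_right h).1 h'))
  have n2 : ¬ p ∣ r + 4 := fun h => n1 h h1
  have n3 := n1 (h1.mul_right (r + 4))
  have n4 : ¬ p ∣ (r + 5) * (r + 4) + (r + 4) := fun h => n2 ((Nat.dvd_add_right (h1.mul_right _)).1 h)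
  have n5 := n1 (dvd_add (dvd_pow h1 two_ne_zero) h1)
  have c : ∀ {x y}, ¬ p ∣ x → x ∣ p * y → 0 < y → x ≤ y := fun h h' =>
    fun h0 => Nat.le_of_dvd h0 (((Nat.Prime.coprime_iff_not_dvd hp).2 h).symm.dvd_of_dvd_mul_left h')
  have c' : ∀ {x y}, x ∣ y → x < y → 2 * x ≤ y := by rintro x _ ⟨_ | _ | k, rfl⟩ h <;> nlinarith
  simp only [e1, e2, show r + 5 - 1 = r + 4 from rfl, sq p, Set.mem_insert_iff, Set.mem_singleton_iff] at hx hy
  have n6 := n1 h1
  by_contra hne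
  rcases hx with rfl | rfl | rfl | rfl | rfl | rfl <;> rcases hy with rfl | rfl | rfl | rfl | rfl | rfl <;>
  first
  | exact hne rfl
  | exact absurd ((dvd_mul_right p _).trans h) ‹_›
  | exact absurd (Nat.dvd_of_mul_dvd_mul_left hp.pos h) ‹_›
  | (have := c ‹_› h (by omega); nlinarith)
  | (have := Nat.le_of_dvd (by omega) (Nat.dvd_of_mul_dvd_mul_left hp.pos h); omega)
  | (have := c' (Nat.dvd_of_mul_dvd_mul_left hp.pos h) (by omega); omega)
  | (have := c n2 ((Nat.dvd_of_mul_dvd_mul_left hp.pos h).mul_right 1) one_pos; omega)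
  | (have := Nat.le_of_dvd (by positivity) h; nlinarith)
  | (have := c' h (by nlinarith); nlinarith)

/-- Let F be a finite field of odd order q = p^a ≥ 5. The element orders of the Chevalley group G₂(F) that are maximal under divisibility are exactly p(q + 1), p(q − 1), q² − 1, q² + q + 1, q² − q + 1, together with p² when p is 3 or 5. -/
theorem result {F : Type*} [Field F] [Fintype F] (p a : ℕ) (hp : p.Prime) (hp2 : p ≠ 2) (ha : 1 ≤ a) (hF : Fintype.card F = p ^ a) (hq5 : 5 ≤ Fintype.card F) :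
    {n : ℕ | n ∈ Set.range (orderOf : ↥(Cfsg.Lie.chevG2.group F) → ℕ) ∧ ∀ m ∈ Set.range (orderOf : ↥(Cfsg.Lie.chevG2.group F) → ℕ), n ∣ m → m = n} =
      ({p * (p ^ a + 1), p * (p ^ a - 1), p ^ (2 * a) - 1, p ^ (2 * a) + p ^ a + 1, p ^ (2 * a) - p ^ a + 1} : Set ℕ) ∪
        (if p = 3 ∨ p = 5 then ({p ^ 2} : Set ℕ) else ∅) := by
  have := S2520.charP_of_card hp hF
  have := Fact.mk hp
  rw [mul_comm 2 a, pow_mul, ← hF, ← Nat.card_eq_fintype_card]
  rw [← Nat.card_eq_fintype_card] at hq5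
  generalize hS : (_ ∪ _ : Set ℕ) = S
  have h1 : S ⊆ Set.range (orderOf : Lie.chevG2.group F → ℕ) := by
    simp only [← hS, Set.union_subset_iff, Set.insert_subset_iff, Set.singleton_subset_iff, mem_range_iff]
    refine ⟨⟨has_mul_add F p, has_mul_sub F p, has_sq_sub_one F, has_sq_add F, has_sq_sub F⟩, ?_⟩
    split_ifs with h
    · rw [Set.singleton_subset_iff, mem_range_iff]
      rcases h with rfl | rfl
      · exact (exists_reg 3 (j := 1) (by decide) 0 3 (by decide)).imp fun _ h => h.symm.dvd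
      · exact (exists_reg 5 (j := 1) (by decide) 1 3 (by decide)).imp fun _ h => h.symm.dvd
    · simp
  have h2 : ∀ n ∈ Set.range (orderOf : Lie.chevG2.group F → ℕ), ∃ m ∈ S, n ∣ m := fun n hn => by
    rcases S2520.dvd_of_mem p hn with h | h | h | h | h | h | h
    · by_cases h3 : p = 3 ∨ p = 5
      · exact ⟨_, by simp [← hS, h3], h 2 (by rcases h3 with rfl | rfl <;> simp)⟩
      · refine ⟨p * (Nat.card F + 1), by simp [← hS], .mul_right (pow_one p ▸ h 1 (.inr ⟨hp2, ?_⟩)) _⟩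
        by_contra! h4
        rw [pow_one] at h4
        interval_cases p <;> simp_all (config := {decide := true})
    · exact ⟨_, by simp [← hS], h⟩
    · exact ⟨_, by simp [← hS], h⟩
    · exact ⟨_, by simp [← hS], h⟩
    · exact ⟨_, by simp [← hS], h⟩
    · exact ⟨_, by simp [← hS], h⟩
    · exact absurd h.1 hp2
  have h3 : ∀ x ∈ S, ∀ y ∈ S, x ∣ y → x = y := fun x hx y hy =>
    antichain hp (Lib.GLC.char_dvd_card p) hq5 (by rw [← hS] at hx; split_ifs at hx <;> simp at hx ⊢ <;> tauto)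
      (by rw [← hS] at hy; split_ifs at hy <;> simp at hy ⊢ <;> tauto)
  refine Set.Subset.antisymm (fun n ⟨h4, h5⟩ => ?_) fun n hn => ⟨h1 hn, fun m hm h => ?_⟩
  · obtain ⟨m, hm, h⟩ := h2 n h4
    exact h5 m (h1 hm) h ▸ hm
  · obtain ⟨k, hk, h'⟩ := h2 m hm
    exact Nat.dvd_antisymm (h3 n hn k hk (h.trans h') ▸ h') h

end Cfsg.Agent.S2519
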