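import Cfsg.Statements.S2522
import Cfsg.Agent.Lib.Ore.Top
import Cfsg.Agent.Lib.GLC.Jordan

set_option autoImplicit false
open Cfsg

namespace Cfsg.Agent.S2522

open Cfsg.Lib.GLC Cfsg.Lib.Ore Matrix Polynomial in

/-- Let K be a field with at least four elements (finite or infinite), n ≥ 3, and J ∈ GL(n, K) the regular unipotent matrix (ones on the diagonal and the superdiagonal, zeros elsewhere). Then every non-scalar g ∈ GL(n, K) with det g = 1 is a product of two GL(n, K)-conjugates of J. -/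
theorem result {K : Type*} [Field K] (hK : 4 ≤ Cardinal.mk K) (n : ℕ) (hn : 3 ≤ n) (J g : GL (Fin n) K)
    (hJ : ∀ i j : Fin n, (J : Matrix (Fin n) (Fin n) K) i j = if i = j then 1 else if j.val = i.val + 1 then 1 else 0)
    (hg : ¬ ∃ c : K, (g : Matrix (Fin n) (Fin n) K) = c • (1 : Matrix (Fin n) (Fin n) K))
    (hdet : (g : Matrix (Fin n) (Fin n) K).det = 1) :
    ∃ x y : GL (Fin n) K, g = (x * J * x⁻¹) * (y * J * y⁻¹) := by
  classical
  have hF : ∀ a b c : K, ∃ t, t ≠ a ∧ t ≠ b ∧ t ≠ c := fun a b c => by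
    by_contra h
    have h1 : ({a, b, c} : Finset K) = (Set.univ : Set K) := Set.eq_univ_of_forall fun t => by
      by_contra h2
      exact h ⟨t, by simpa [not_or] using h2⟩
    rw [← Cardinal.mk_univ, ← h1, Finset.coe_sort_coe, Cardinal.mk_coe_finset] at hK
    have h2 : 4 ≤ ({a, b, c} : Finset K).card := by exact_mod_cast hK
    have h3 := Finset.card_le_three (a := a) (b := b) (c := c)
    omega
  haveI : Nonempty (Fin n) := ⟨⟨0, by omega⟩⟩
  have hn' : Module.finrank K (Fin n → K) = n := by simp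
  have hJ' : Blocks (toLin' J.1) {(X - 1) ^ Module.finrank K (Fin n → K)} := by
    have : J.1 = reindex Fin.revPerm Fin.revPerm (jordanBlock n K) := by
      ext i j
      have h1 : ((i.rev : ℕ) = j.rev) ↔ i = j := by rw [Fin.val_inj, Fin.rev_inj]
      have h2 : ((i.rev : ℕ) = j.rev + 1) ↔ (j : ℕ) = i + 1 := by
        rw [Fin.val_rev, Fin.val_rev]
        omega
      rw [hJ]
      exact (if_congr h1 rfl (if_congr h2 rfl rfl)).symm
    rw [this, hn']
    exact (sim_reindex _ _).blocks (blocks_jordanBlock n)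
  obtain ⟨c, h1, h2⟩ := fac_unipotent (S := toLin' g.1) hF (by omega)
    (fun c e => hg ⟨c, toLin'_eq_smul_one_iff.1 e⟩) (by rwa [LinearMap.det_toLin'])
  obtain ⟨c, rfl⟩ := toLin'.surjective c
  obtain ⟨c, rfl⟩ : IsUnit c := by
    rw [Matrix.isUnit_iff_isUnit_det, ← LinearMap.det_toLin', (h1.sim hJ').det_eq, LinearMap.det_toLin']
    exact (Matrix.isUnit_iff_isUnit_det _).1 J.isUnit
  have h3 := blocks_inv (d := toLin' (c⁻¹).1) (by
    rw [Module.End.mul_eq_comp, ← toLin'_mul, Units.inv_mul, toLin'_one, Module.End.one_eq_id]) h1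
  rw [Module.End.mul_eq_comp, ← toLin'_mul, ← Units.val_mul] at h2
  obtain ⟨x, hx⟩ := isConj_iff.1 (gl_isConj_iff_sim.2 (hJ'.sim h2))
  obtain ⟨y, hy⟩ := isConj_iff.1 (gl_isConj_iff_sim.2 (hJ'.sim h3))
  exact ⟨x, y, by rw [hx, hy, mul_inv_cancel_right]⟩

end Cfsg.Agent.S2522
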