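import Cfsg.Statements.S2523
import Cfsg.Agent.Lib.CC.TClass
import Cfsg.Agent.Lib.Chev.SpinOmega

set_option autoImplicit false
open Cfsg

namespace Cfsg.Agent.S2523

open Cfsg.Lib Cfsg.Lib.CC Cfsg.Lib.Chev Cfsg.Lib.Chev.ChevSys Cfsg.Lie

theorem transfer {A B : Type*} [Group A] [Group B] (e : B ≃* A) (h : ∃ c : A, ∀ g, Sq c g) :
    ∃ c : B, ∀ g, Sq c g :=
  let ⟨c, h⟩ := h
  ⟨e.symm c, fun g => by simpa using (h (e g)).map e.symm.toMonoidHom⟩

theorem sq_quot {ι Φ : Type} [Fintype ι] [DecidableEq ι] [Fintype Φ] [Nonempty ι] {R : RootSys ι Φ}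
    {F A B : Type*} [Field F] [Finite F] [Group A] [Group B] {C : ChevSys R F A} {T : ChevTab R}
    (h : TD R) (hq : 9 ≤ Nat.card F) (hF : C.Faithful) (htop : C.grp = ⊤) (hc : R.Conn)
    (hT : T.StrongComm C.x) (hT' : T.Anti) (e : B ≃* A ⧸ Subgroup.center A) :
    ∃ c : B, ∀ g, Sq c g := by
  have h1 := map_grp_eq htop (QuotientGroup.mk'_surjective (Subgroup.center A))
  have : Group.IsPerfect A := ⟨eq_top_iff.2 (htop ▸ grp_le_commutator hT (.inl (by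
    simpa using exists_ne_of_card (F := F) (n := 3) (by omega) [0, 1, -1] le_rfl)))⟩
  exact transfer e (h.sq hq (hF.map_of_central htop (QuotientGroup.ker_mk' _).le) h1 hc
    (adjoint_of_center h1 (Group.IsPerfect.center_quotient_center_eq_bot _)) (hT.map _) hT')

theorem sq_checked {D : ChevalleyDatum} {c : Cert} (h : Checked D c) (hD : D ∈ types) (h' : TD h.R)
    {F B : Type*} [Field F] [Finite F] [Group B] (hq : 9 ≤ Nat.card F) (e : B ≃* D.group F) :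
    ∃ c : B, ∀ g, Sq c g :=
  have : Nonempty (Fin D.rank) := ⟨⟨0, two_pos.trans_le (two_le_rank hD)⟩⟩
  transfer e (h'.sq hq (h.gsys_faithful F) (h.gsys_grp F) (h.conn hD) (h.gsys_adjoint F)
    (h.gsys_strongComm F) h.anti)

/-- Let F be a finite field with at least 9 elements and let G be one of PSL(n, F) (n ≥ 2), PSp(2m, F) (m ≥ 2), PΩ(2m+1, F) (m ≥ 3, here q odd), PΩ⁺(2m, F) (m ≥ 4), or the Chevalley group of type G₂, F₄, E₆, E₇ or E₈ over F. Then G is the square of one of its conjugacy classes (Thompson's conjecture on products of conjugacy classes, not his conjecture on class sizes): there is a conjugacy class C of G with C·C = G, i.e. every element of G is a product of two elements of C. -/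
theorem result {F : Type*} [Field F] [Fintype F] (hF : 9 ≤ Fintype.card F) {G : Type*} [Group G] [Finite G]
    (hG : (∃ n : ℕ, 2 ≤ n ∧ Nonempty (G ≃* Matrix.ProjectiveSpecialLinearGroup (Fin n) F)) ∨
      (∃ m : ℕ, 2 ≤ m ∧ Nonempty (G ≃* Cfsg.PSp m F)) ∨
      (∃ m : ℕ, 3 ≤ m ∧ Odd (Fintype.card F) ∧ Nonempty (G ≃* Cfsg.POmega F (Cfsg.quadFormOdd m F))) ∨
      (∃ m : ℕ, 4 ≤ m ∧ Nonempty (G ≃* Cfsg.POmega F (Cfsg.quadFormPlus m F))) ∨
      Nonempty (G ≃* ↥(Cfsg.Lie.chevG2.group F)) ∨ Nonempty (G ≃* ↥(Cfsg.Lie.chevF4.group F)) ∨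
      Nonempty (G ≃* ↥(Cfsg.Lie.chevE6.group F)) ∨ Nonempty (G ≃* ↥(Cfsg.Lie.chevE7.group F)) ∨ Nonempty (G ≃* ↥(Cfsg.Lie.chevE8.group F))) :
    ∃ c : G, ∀ g : G, ∃ x y : G, g = (x * c * x⁻¹) * (y * c * y⁻¹) := by
  rw [← Nat.card_eq_fintype_card] at hF
  rcases hG with ⟨n, hn, ⟨e⟩⟩ | ⟨n, hn, ⟨e⟩⟩ | ⟨n, hn, ho, ⟨e⟩⟩ | ⟨n, hn, ⟨e⟩⟩ | ⟨⟨e⟩⟩ | ⟨⟨e⟩⟩ |
    ⟨⟨e⟩⟩ | ⟨⟨e⟩⟩ | ⟨⟨e⟩⟩
  · obtain ⟨n, rfl⟩ := Nat.exists_eq_add_of_le' hn
    exact sq_quot (td_A (by omega)) hF (realSL F (n + 1)).faithful (realSL F _).grp_eq (conn_A _)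
      (realSL F _).strongComm (MinRep.anti _) e
  · obtain ⟨n, rfl⟩ := Nat.exists_eq_add_of_le' hn
    exact sq_quot (td_C hn) hF (realSp F (n + 2)).faithful (realSp F _).grp_eq (conn_C _)
      (realSp F _).strongComm (MinRep.anti _) e
  · obtain ⟨n, rfl⟩ := Nat.exists_eq_add_of_le' hn
    obtain ⟨S, h1, h2, -, h3, -⟩ := exists_omega_B F (n := n + 3) (by omega) fun h2 =>
      Nat.not_even_iff_odd.2 ho (Nat.even_iff.2 (FiniteField.even_card_of_char_two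
        (ringChar.eq_iff.2 ((CharP.charP_iff_prime_eq_zero Nat.prime_two).2 h2))))
    exact sq_quot (td_B hn) hF h1 h2 (conn_B _) h3 (MinRep.anti _)
      (e.trans (Orth.pomegaEquiv (Orth.qOdd _ F)))
  · obtain ⟨n, rfl⟩ := Nat.exists_eq_add_of_le' hn
    obtain ⟨S, h1, h2, -, h3, -⟩ := exists_omega_D F (n := n + 4) (by omega) (by omega)
    exact sq_quot (td_D _ hn) hF h1 h2 (conn_D _ (by omega)) h3 (MinRep.anti _)
      (e.trans (Orth.pomegaEquiv (Orth.qPlus _ F)))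
  · exact sq_checked checkedG2 (by simp) td_G2 hF e
  · exact sq_checked checkedF4 (by simp) td_F4 hF e
  · exact sq_checked checkedE6 (by simp) td_E6 hF e
  · exact sq_checked checkedE7 (by simp) td_E7 hF e
  · exact sq_checked checkedE8 (by simp) td_E8 hF e

end Cfsg.Agent.S2523
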