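import Cfsg.Statements.S2524
import Cfsg.Agent.Lib.Weil.Main
import Cfsg.Agent.Lib.CharDeg.Weil
import Cfsg.Agent.Lib.Char.Orthogonality

set_option autoImplicit false
open Cfsg

namespace Cfsg.Agent.S2524

open Cfsg.Lib.Weil Cfsg.Lib.Symp Cfsg.Lib.Char Cfsg.Lib.CharDeg Module Matrix

/-- Let F be a finite field of odd order q and G = Sp(2n, F) with n ≥ 2. Then G has exactly four irreducible complex characters of degree (q^n + 1)/2 or (q^n − 1)/2 (two of each), and every other non-principal irreducible character has degree at least (q^n − 1)(q^n − q)/(2(q + 1)). -/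
theorem result {F : Type*} [Field F] [Fintype F] (hodd : Odd (Fintype.card F)) (n : ℕ) (hn : 2 ≤ n) :
    Nat.card {χ : Cfsg.IrrCharacter ↥(Matrix.symplecticGroup (Fin n) F) // (χ : ↥(Matrix.symplecticGroup (Fin n) F) → ℂ) 1 = (((Fintype.card F) ^ n + 1 : ℕ) : ℂ) / 2} = 2 ∧
    Nat.card {χ : Cfsg.IrrCharacter ↥(Matrix.symplecticGroup (Fin n) F) // (χ : ↥(Matrix.symplecticGroup (Fin n) F) → ℂ) 1 = (((Fintype.card F) ^ n - 1 : ℕ) : ℂ) / 2} = 2 ∧
    ∀ χ : Cfsg.IrrCharacter ↥(Matrix.symplecticGroup (Fin n) F),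
      (χ : ↥(Matrix.symplecticGroup (Fin n) F) → ℂ) 1 ≠ 1 →
      (χ : ↥(Matrix.symplecticGroup (Fin n) F) → ℂ) 1 ≠ (((Fintype.card F) ^ n + 1 : ℕ) : ℂ) / 2 →
      (χ : ↥(Matrix.symplecticGroup (Fin n) F) → ℂ) 1 ≠ (((Fintype.card F) ^ n - 1 : ℕ) : ℂ) / 2 →
      (((Fintype.card F) ^ n - 1 : ℕ) : ℝ) * (((Fintype.card F) ^ n - Fintype.card F : ℕ) : ℝ) / (2 * ((Fintype.card F : ℕ) + 1 : ℝ)) ≤ ‖(χ : ↥(Matrix.symplecticGroup (Fin n) F) → ℂ) 1‖ := by
  classical
  have h2 : (2 : F) ≠ 0 := two_ne_zero_iff_odd_card.2 hodd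
  obtain ⟨ψ, hψ⟩ := exists_addChar_ne_one F
  obtain ⟨ν, hν⟩ := FiniteField.exists_nonsquare (F := F) fun e => h2 (by
    simpa [e] using ringChar.Nat.cast_ringChar (R := F))
  have hA := bil_isAlt (Fin n) F
  have hB := bil_nondegenerate (Fin n) F
  let φ := (spEquiv (Fin n) F).symm
  have := Finite.of_equiv _ φ.symm.toEquiv
  have hL : Lag (bil (Fin n) F) (lagInl (Fin n) F) := ⟨fun v => ⟨fun hv w hw => lagInl_isotropic w hw v hv,
    fun h => mem_lagInl.2 fun i => by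
      simpa [bil_single_inl_left] using h (Pi.single (.inl i) 1) (mem_lagInl.2 (by simp))⟩, fun f => by
    obtain ⟨h, h1, h0⟩ := (Submodule.ne_bot_iff _).1 (LinearMap.ker_ne_bot_of_finrank_lt
      (f := ((bil (Fin n) F).flip f).domRestrict (lagInl (Fin n) F)) (by simpa [finrank_lagInl]))
    exact ⟨h, h.2, by simpa using h0, h1⟩⟩
  obtain ⟨e, he, h0, -⟩ := hL.two 0
  obtain ⟨f, hf⟩ := exists_bilin_eq_one hB h0
  have hq : 3 ≤ Fintype.card F := by
    have := Fintype.one_lt_card (α := F)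
    obtain ⟨m, hm⟩ := hodd
    omega
  have hq1 := Nat.pow_le_pow_right (n := Fintype.card F) (by omega) hn
  obtain ⟨d, hd⟩ : Odd (Fintype.card F ^ n) := hodd.pow
  have hq2 : 3 * Fintype.card F ≤ 2 * d + 1 := by nlinarith
  have hb := fun (k : ℕ) (ρ : Representation ℂ (symplecticGroup (Fin n) F) (Fin k → ℂ)) =>
    bound_of_not_R1 (hA := hA) (ρ := ρ.comp φ.toMonoidHom) hB hψ h2 hL
  simp only [finrank_lagInl, Fintype.card_fin, finrank_fin_fun, hd] at hb ⊢
  have hi := fun (k : ℕ) (ρ : Representation ℂ (symplecticGroup (Fin n) F) (Fin k → ℂ)) (h : ρ.IsIrreducible) =>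
    isIrreducible_comp_surjective ρ φ.toMonoidHom φ.surjective
  let S := {χ : IrrCharacter (symplecticGroup (Fin n) F) | ∃ (k : ℕ) (ρ : Representation ℂ _ (Fin k → ℂ)),
    ρ.IsIrreducible ∧ ρ.character = χ ∧ 2 ≤ k ∧ R1 hA (ρ.comp φ.toMonoidHom) ψ}
  have hS : S.ncard ≤ 4 := by
    choose k ρ h1 h3 h4 h5 using fun χ : S => χ.2
    choose s h6 h7 using fun χ : S => exists_inv (hA := hA) hB hψ (hi _ _ (h1 χ)) (by simpa using h4 χ) h0 hν
    refine (Nat.card_le_card_of_injective s fun χ χ' h => Subtype.ext (Subtype.ext ?_)).trans_eq (by simp)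
    obtain ⟨y, hy, h8⟩ := h6 χ
    obtain ⟨w, hw, h9⟩ := h6 χ'
    have := (h5 χ).char_eq hB hψ h2 hL he (f := -f) (by simp [← hA.neg_eq e f] at hf ⊢; simp [← hf])
      (by split_ifs; exacts [one_ne_zero, by rintro rfl; simp at hν]) (h5 χ') (hi _ _ (h1 χ)) (hi _ _ (h1 χ'))
      hy h8 (h ▸ hw) h9 (h7 χ) (h ▸ h7 χ')
    rw [← h3, ← h3]
    exact funext fun g => by simpa [character_comp] using congrFun this (φ.symm g)
  have k1 : ∀ k : ℕ, k = d ∨ k = d + 1 → 2 ≤ k ∧ ∀ ρ : Representation ℂ (symplecticGroup (Fin n) F) (Fin k → ℂ),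
      R1 hA (ρ.comp φ.toMonoidHom) ψ := fun k hk => ⟨by omega, fun ρ => by_contra fun h => by
    have := hb k ρ h
    obtain ⟨c, hc⟩ := Nat.exists_eq_add_of_le (show Fintype.card F ≤ 2 * d + 1 by omega)
    rw [Nat.add_sub_cancel, hc, Nat.add_sub_cancel_left] at this
    have h3 := Nat.mul_le_mul_left d (show Fintype.card F + 3 ≤ c by omega)
    have h4 := Nat.mul_le_mul_left (Fintype.card F + 1) (show k ≤ d + 1 by omega)
    nlinarith⟩
  have k2 : ∀ k : ℕ, k = d ∨ k = d + 1 → {χ : IrrCharacter (symplecticGroup (Fin n) F) | χ.1 1 = k} ⊆ S := by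
    rintro k hk ⟨_, m, ρ, hρ, rfl⟩ (h : _ = _)
    obtain rfl : m = k := by simpa using h
    exact ⟨m, ρ, hρ, rfl, (k1 m hk).1, (k1 m hk).2 ρ⟩
  have k3 : ∀ k : ℕ, k = d ∨ k = d + 1 → 1 < {χ : IrrCharacter (symplecticGroup (Fin n) F) | χ.1 1 = k}.ncard :=
    fun k hk => by
    have : Nonempty (Fin n) := ⟨⟨0, by omega⟩⟩
    obtain ⟨ρ, hρ⟩ : ∃ ρ : Representation ℂ (symplecticGroup (Fin n) F) (Fin k → ℂ), ρ.IsIrreducible := by
      have h3 : (Fintype.card F : ℂ) ^ n = 2 * d + 1 := by exact_mod_cast hd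
      rcases hk with rfl | rfl
      · exact exists_weil_irreducible h2 (ε := -1) (by simp) (by simp [h3]) (by omega)
      · exact exists_weil_irreducible h2 (ε := 1) (by simp) (by simp [h3]; ring) (by omega)
    obtain ⟨α, hα⟩ := exists_twist hB hψ h2 hL ((k1 k hk).2 ρ) (hi _ _ hρ) (by simpa using (k1 k hk).1) hν
    refine (Set.one_lt_ncard (Set.toFinite _)).2 ⟨⟨_, (isIrrCharacter_character ρ).comp_equiv
      (φ.symm.trans (α.trans φ))⟩, by simp, ⟨_, isIrrCharacter_character ρ⟩, by simp, fun h => hα ?_⟩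
    exact funext fun g => by simpa [character_comp] using congrFun (congrArg Subtype.val h) (φ g)
  have k4 := Set.ncard_union_eq (s := {χ : IrrCharacter (symplecticGroup (Fin n) F) | χ.1 1 = (d : ℕ)})
    (t := {χ | χ.1 1 = (d + 1 : ℕ)}) (Set.disjoint_left.2 fun χ (h : _ = _) (h' : _ = _) => by simp [h] at h')
  have k5 := Set.union_subset (k2 d (.inl rfl)) (k2 _ (.inr rfl))
  have k6 := Set.ncard_le_ncard k5
  have k7 := k3 d (.inl rfl)
  have k8 := k3 _ (.inr rfl)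
  have e1 : ((2 * d + 1 + 1 : ℕ) : ℂ) / 2 = (d + 1 : ℕ) := by push_cast; ring
  have e2 : ((2 * d + 1 - 1 : ℕ) : ℂ) / 2 = d := by simp
  rw [e1, e2]
  refine ⟨le_antisymm (Nat.le_of_add_le_add_left ((k4.ge.trans (k6.trans hS)).trans (Nat.add_le_add_right k7 2))) k8,
    le_antisymm (Nat.le_of_add_le_add_right ((k4.ge.trans (k6.trans hS)).trans (Nat.add_le_add_left k8 2))) k7, ?_⟩
  rintro ⟨_, m, ρ, hρ, rfl⟩ h1 h3 h4
  have h5 : ¬ R1 hA (ρ.comp φ.toMonoidHom) ψ := fun h => by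
    have := finrank_pos_of_isIrreducible ρ
    exact ((Set.eq_of_subset_of_ncard_le k5 (by omega)).ge (show (⟨_, m, ρ, hρ, rfl⟩ : IrrCharacter _) ∈ S from
      ⟨m, ρ, hρ, rfl, by simp at this h1; omega, h⟩)).elim h4 h3
  change _ ≤ ‖ρ.character 1‖
  rw [div_le_iff₀ (by positivity), Representation.char_one, finrank_fin_fun, Complex.norm_natCast, mul_comm (m : ℝ)]
  exact_mod_cast hb m ρ h5

end Cfsg.Agent.S2524
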