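import Cfsg.Statements.S2525
import Cfsg.Agent.Lib.Chev.PGF4
import Cfsg.Agent.S1062

set_option autoImplicit false
open Cfsg

namespace Cfsg.Agent.S2525

open Cfsg.Lib.Chev Cfsg.Lib.Chev.WF4 Cfsg.Lib.Alg

theorem z3 : ∀ y : ZMod 3, y ≠ 0 → y ^ 4 - y ^ 2 + 1 ≠ 0 := by decide

theorem cls {r : ℕ} [Fact r.Prime] (h2 : r ≠ 2) {x : ZMod r} (hx : x ≠ 0) :
    (x ^ 4 + x ^ 3 - x - 1 = 0 ↔ orderOf x = 1 ∨ orderOf x = 2 ∨ orderOf x = 3) ∧
    (x ^ 4 - 1 = 0 ↔ orderOf x = 1 ∨ orderOf x = 2 ∨ orderOf x = 4) ∧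
    (x ^ 4 - x ^ 3 + x - 1 = 0 ↔ orderOf x = 1 ∨ orderOf x = 2 ∨ orderOf x = 6) ∧
    (x ^ 4 + 1 = 0 ↔ orderOf x = 8) ∧ (x ^ 4 - x ^ 2 + 1 = 0 ↔ orderOf x = 12) := by
  have hp : r.Prime := Fact.out
  have h0 : (2 : ZMod r) ≠ 0 := fun e =>
    h2 ((Nat.prime_dvd_prime_iff_eq hp Nat.prime_two).1 ((ZMod.natCast_eq_zero_iff 2 r).1 e))
  have hd : ∀ m, x ^ m = 1 ↔ orderOf x ∣ m := fun m => orderOf_dvd_iff_pow_eq_one.symm
  have hb : ∀ m, 0 < m → x ^ m = 1 → orderOf x ≤ m := fun m hm e => Nat.le_of_dvd hm ((hd m).1 e)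
  have d1 := hd 1
  have d2 := hd 2
  have d3 := hd 3
  have d4 := hd 4
  have d6 := hd 6
  have d8 := hd 8
  have d12 := hd 12
  refine ⟨⟨fun h => ?_, fun h => ?_⟩, ⟨fun h => ?_, fun h => ?_⟩, ⟨fun h => ?_, fun h => ?_⟩,
    ⟨fun h => ?_, fun h => ?_⟩, ⟨fun h => ?_, fun h => ?_⟩⟩
  · rcases mul_eq_zero.1 (show (x + 1) * (x ^ 3 - 1) = 0 by linear_combination h) with e | e
    · have e' : x ^ 2 = 1 := by linear_combination (x - 1) * e
      have := (Nat.dvd_prime Nat.prime_two).1 (d2.1 e')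
      omega
    · have := (Nat.dvd_prime Nat.prime_three).1 (d3.1 (sub_eq_zero.1 e))
      omega
  · rcases h with h | h | h
    · linear_combination (x ^ 2 + x + 1) * d2.2 (by simp [h])
    · linear_combination (x ^ 2 + x + 1) * d2.2 (by simp [h])
    · linear_combination (x + 1) * d3.2 (by simp [h])
  · have e := sub_eq_zero.1 h
    have := hb 4 (by norm_num) e
    have := d4.1 e
    generalize orderOf x = m at *
    interval_cases m <;> omega
  · exact sub_eq_zero.2 (d4.2 (by rcases h with h | h | h <;> simp [h]))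
  · rcases mul_eq_zero.1 (show (x - 1) * (x ^ 3 + 1) = 0 by linear_combination h) with e | e
    · exact Or.inl (Nat.dvd_one.1 (d1.1 (by linear_combination e)))
    · have e' : x ^ 6 = 1 := by linear_combination (x ^ 3 - 1) * e
      have h3 : ¬ orderOf x ∣ 3 := fun h3 => h0 (by linear_combination e - d3.2 h3)
      have := hb 6 (by norm_num) e'
      have := d6.1 e'
      generalize orderOf x = m at *
      interval_cases m <;> simp_all
  · rcases h with h | h | h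
    · linear_combination (x ^ 2 - x + 1) * d2.2 (by simp [h])
    · linear_combination (x ^ 2 - x + 1) * d2.2 (by simp [h])
    · rcases mul_eq_zero.1 (show (x ^ 3 - 1) * (x ^ 3 + 1) = 0 by
        linear_combination d6.2 (by simp [h])) with e | e
      · have := d3.1 (sub_eq_zero.1 e)
        simp [h] at this
      · linear_combination (x - 1) * e
  · have e' : x ^ 8 = 1 := by linear_combination (x ^ 4 - 1) * h
    have h3 : ¬ orderOf x ∣ 4 := fun h3 => h0 (by linear_combination h - d4.2 h3)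
    have := hb 8 (by norm_num) e'
    have h4 := d8.1 e'
    clear d1 d2 d3 d4 d6 d8 d12 hd hb
    generalize orderOf x = m at *
    interval_cases m <;> simp at h3 h4 ⊢
  · rcases mul_eq_zero.1 (show (x ^ 4 - 1) * (x ^ 4 + 1) = 0 by
      linear_combination d8.2 (by simp [h])) with e | e
    · have := d4.1 (sub_eq_zero.1 e)
      simp [h] at this
    · exact e
  · have e6 : x ^ 6 + 1 = 0 := by linear_combination (x ^ 2 + 1) * h
    have e' : x ^ 12 = 1 := by linear_combination (x ^ 6 - 1) * e6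
    have h3 : ¬ orderOf x ∣ 6 := fun h3 => h0 (by linear_combination e6 - d6.2 h3)
    have h4 : ¬ orderOf x ∣ 4 := fun h4 => by
      have e4 := d4.2 h4
      have e3 : ((3 : ℕ) : ZMod r) = 0 := by
        push_cast
        linear_combination (x ^ 2 + 2) * h - (x ^ 2 + 1) * e4
      obtain rfl := (Nat.prime_dvd_prime_iff_eq hp Nat.prime_three).1
        ((ZMod.natCast_eq_zero_iff 3 r).1 e3)
      exact z3 x hx h
    have := hb 12 (by norm_num) e'
    have h5 := d12.1 e'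
    clear d1 d2 d3 d4 d6 d8 d12 hd hb
    generalize orderOf x = m at *
    interval_cases m <;> simp at h3 h4 h5 ⊢
  · have e : (x ^ 6 - 1) * ((x ^ 2 + 1) * (x ^ 4 - x ^ 2 + 1)) = 0 := by
      linear_combination d12.2 (by simp [h])
    rcases mul_eq_zero.1 e with e | e
    · have := d6.1 (sub_eq_zero.1 e)
      simp [h] at this
    rcases mul_eq_zero.1 e with e | e
    · have := d4.1 (by linear_combination (x ^ 2 - 1) * e)
      simp [h] at this
    · exact e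

theorem cls' {r n : ℕ} (hr : r.Prime) (h2 : r ≠ 2) {e : ℕ}
    (he : orderOf (((2 ^ n : ℕ)) : ZMod r) = e) :
    ((r : ℤ) ∣ fq (1, 0, -1, -1) (2 ^ n) ↔ e = 1 ∨ e = 2 ∨ e = 3) ∧
    ((r : ℤ) ∣ fq (0, 0, 0, -1) (2 ^ n) ↔ e = 1 ∨ e = 2 ∨ e = 4) ∧
    ((r : ℤ) ∣ fq (-1, 0, 1, -1) (2 ^ n) ↔ e = 1 ∨ e = 2 ∨ e = 6) ∧
    ((r : ℤ) ∣ fq (0, 0, 0, 1) (2 ^ n) ↔ e = 8) ∧ ((r : ℤ) ∣ fq (0, -1, 0, 1) (2 ^ n) ↔ e = 12) := by
  have := Fact.mk hr
  have hx : (((2 ^ n : ℕ)) : ZMod r) ≠ 0 := fun e => h2 ((Nat.prime_dvd_prime_iff_eq hr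
    Nat.prime_two).1 (hr.dvd_of_dvd_pow ((ZMod.natCast_eq_zero_iff _ r).1 e)))
  obtain ⟨h1, h3, h4, h5, h6⟩ := cls h2 hx
  rw [he] at h1 h3 h4 h5 h6
  rw [← h1, ← h3, ← h4, ← h5, ← h6]
  simp only [← ZMod.intCast_zmod_eq_zero_iff_dvd, fq]
  generalize 2 ^ n = q
  push_cast
  refine ⟨?_, ?_, ?_, ?_, ?_⟩ <;> exact Eq.congr_left (by ring)

theorem vals {r n : ℕ} (hr : r.Prime) (h2 : r ≠ 2) {e : ℕ}
    (he : orderOf (((2 ^ n : ℕ)) : ZMod r) = e) (h : r ∣ (2 ^ n) ^ 24 * ((2 ^ n) ^ 2 - 1) *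
      ((2 ^ n) ^ 6 - 1) * ((2 ^ n) ^ 8 - 1) * ((2 ^ n) ^ 12 - 1)) :
    e = 1 ∨ e = 2 ∨ e = 3 ∨ e = 4 ∨ e = 6 ∨ e = 8 ∨ e = 12 := by
  have key : ∀ m, r ∣ (2 ^ n) ^ m - 1 → e ∣ m := fun m hm => by
    rw [← he, orderOf_dvd_iff_pow_eq_one, ← Nat.cast_pow, ← Nat.cast_one (R := ZMod r), eq_comm,
      ZMod.natCast_eq_natCast_iff]
    exact (Nat.modEq_iff_dvd' (Nat.one_le_pow _ _ (by positivity))).2 hm
  simp only [hr.dvd_mul] at h
  have h8 : e ∣ 8 ∨ e ∣ 12 := by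
    rcases h with (((h | h) | h) | h) | h
    · exact absurd ((Nat.prime_dvd_prime_iff_eq hr Nat.prime_two).1
        (hr.dvd_of_dvd_pow (hr.dvd_of_dvd_pow h))) h2
    · exact Or.inl ((key _ h).trans (by norm_num))
    · exact Or.inr ((key _ h).trans (by norm_num))
    · exact Or.inl (key _ h)
    · exact Or.inr (key _ h)
  have : e ≤ 12 := h8.elim (fun h => (Nat.le_of_dvd (by norm_num) h).trans (by norm_num))
    (Nat.le_of_dvd (by norm_num))
  interval_cases e <;> omega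


/-- Let F be a finite field with q = 2^n elements and G = F₄(F). For an odd prime r let e(r, q) be the multiplicative order of q modulo r. Two distinct primes r, s dividing the order of G are non-adjacent in the prime graph of G (no element of order rs) if and only if, up to swapping r and s, either r = 2 and e(s, q) ∈ {8, 12}, or r, s are both odd with k = e(r, q) < l = e(s, q) and one of: l ∈ {8, 12}; l = 6 and k ∈ {3, 4}; l = 4 and k = 3. -/
theorem result {F : Type*} [Field F] [Fintype F] (n : ℕ) (hn : 1 ≤ n) (hF : Fintype.card F = 2 ^ n)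
    (r s : ℕ) (hr : r.Prime) (hs : s.Prime) (hrs : r ≠ s) (hrG : r ∣ Nat.card ↥(Cfsg.Lie.chevF4.group F)) (hsG : s ∣ Nat.card ↥(Cfsg.Lie.chevF4.group F)) :
    (¬ ∃ x : ↥(Cfsg.Lie.chevF4.group F), orderOf x = r * s) ↔
      ((r = 2 ∧ orderOf ((Fintype.card F : ℕ) : ZMod s) ∈ ({8, 12} : Finset ℕ)) ∨ (s = 2 ∧ orderOf ((Fintype.card F : ℕ) : ZMod r) ∈ ({8, 12} : Finset ℕ)) ∨
       (r ≠ 2 ∧ s ≠ 2 ∧
         ((orderOf ((Fintype.card F : ℕ) : ZMod r) < orderOf ((Fintype.card F : ℕ) : ZMod s) ∧ (orderOf ((Fintype.card F : ℕ) : ZMod s) ∈ ({8, 12} : Finset ℕ) ∨ (orderOf ((Fintype.card F : ℕ) : ZMod s) = 6 ∧ orderOf ((Fintype.card F : ℕ) : ZMod r) ∈ ({3, 4} : Finset ℕ)) ∨ (orderOf ((Fintype.card F : ℕ) : ZMod s) = 4 ∧ orderOf ((Fintype.card F : ℕ) : ZMod r) = 3))) ∨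
          (orderOf ((Fintype.card F : ℕ) : ZMod s) < orderOf ((Fintype.card F : ℕ) : ZMod r) ∧ (orderOf ((Fintype.card F : ℕ) : ZMod r) ∈ ({8, 12} : Finset ℕ) ∨ (orderOf ((Fintype.card F : ℕ) : ZMod r) = 6 ∧ orderOf ((Fintype.card F : ℕ) : ZMod s) ∈ ({3, 4} : Finset ℕ)) ∨ (orderOf ((Fintype.card F : ℕ) : ZMod r) = 4 ∧ orderOf ((Fintype.card F : ℕ) : ZMod s) = 3)))))) := by
  have : CharP F 2 := charP_of_card_eq_prime_pow hF
  have hF' : Nat.card F = 2 ^ n := by rw [Nat.card_eq_fintype_card, hF]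
  obtain ⟨φ, hφ⟩ := algF4 (AlgebraicClosure F) 2 (exists_pow_pow_eq F 2)
  obtain ⟨e, -⟩ := hφ.exists_equiv (algebraMap F _) hF' (checkedF4.noA1 (by simp))
    (checkedF4.gsys_strongComm F) (checkedF4.gsys_faithful F) (checkedF4.gsys_adjoint F)
    (checkedF4.gsys_grp F) (kerDataF4 _).kerChr_eq_bot
  have key : ∀ m, (∃ x : ↥(Cfsg.Lie.chevF4.group F), orderOf x = m) ↔
      ∃ x : fix (φ ^ n), orderOf x = m := fun m =>
    ⟨fun ⟨x, hx⟩ => ⟨e.symm x, by rw [e.symm.orderOf_eq, hx]⟩,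
      fun ⟨x, hx⟩ => ⟨e x, by rw [e.orderOf_eq, hx]⟩⟩
  have hA := isCartanF4 checkedF4
  rw [S1062.result hF] at hrG hsG
  rw [key, hF]
  have two : ∀ t, t.Prime → t ≠ 2 → t ∣ (2 ^ n) ^ 24 * ((2 ^ n) ^ 2 - 1) *
      ((2 ^ n) ^ 6 - 1) * ((2 ^ n) ^ 8 - 1) * ((2 ^ n) ^ 12 - 1) →
      ((¬ ∃ x : fix (φ ^ n), orderOf x = 2 * t) ↔
        orderOf (((2 ^ n : ℕ)) : ZMod t) ∈ ({8, 12} : Finset ℕ)) := fun t ht h2 hd => by
    rw [order_mul_p_iff (Φ := Fin Lie.chevF4.nroots) hA hφ hn ht h2]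
    obtain ⟨h1, h3, h4, -, -⟩ := cls' (n := n) ht h2 rfl
    have := vals ht h2 rfl hd
    simp only [pO, List.mem_cons, List.not_mem_nil, or_false, exists_eq_or_imp, exists_eq_left,
      h1, h3, h4, Finset.mem_insert, Finset.mem_singleton]
    omega
  by_cases hr2 : r = 2
  · subst hr2
    rw [two s hs hrs.symm hsG]
    simp [hrs.symm]
  by_cases hs2 : s = 2
  · subst hs2
    rw [mul_comm, two r hr hr2 hrG]
    simp [hr2]
  rw [order_mul_iff (Φ := Fin Lie.chevF4.nroots) hA hφ hn hr hs hrs hr2 hs2]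
  obtain ⟨a1, a2, a3, a4, a5⟩ := cls' (n := n) hr hr2 rfl
  obtain ⟨b1, b2, b3, b4, b5⟩ := cls' (n := n) hs hs2 rfl
  have h1 := vals hr hr2 rfl hrG
  have h2 := vals hs hs2 rfl hsG
  simp only [pE, List.mem_cons, List.not_mem_nil, or_false, exists_eq_or_imp, exists_eq_left,
    a1, a2, a3, a4, a5, b1, b2, b3, b4, b5, Finset.mem_insert, Finset.mem_singleton, hr2, hs2,
    false_and, false_or, ne_eq, not_false_eq_true, true_and]
  generalize orderOf (((2 ^ n : ℕ)) : ZMod r) = a at *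
  generalize orderOf (((2 ^ n : ℕ)) : ZMod s) = b at *
  rcases h1 with rfl | rfl | rfl | rfl | rfl | rfl | rfl <;>
    rcases h2 with rfl | rfl | rfl | rfl | rfl | rfl | rfl <;> decide

end Cfsg.Agent.S2525
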