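import Cfsg.Statements.S2556
import Cfsg.Agent.Lib.Sz.SylAut
import Cfsg.Agent.Lib.Sz.Instances

set_option autoImplicit false
open Cfsg

namespace Cfsg.Agent.S2556

/-- Let S be a Sylow 2-subgroup of the Suzuki group Sz(q), q = 2ⁿ with n = 2m + 1 ≥ 3 (realised as 4 × 4 matrices over the field with q elements). Then the largest normal 2-subgroup of the automorphism group of S is elementary abelian of order 2^(n²), and the automorphism group of S has order 2^(n²) · n · (q − 1). -/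
theorem result {S : Type*} [Group S] [Finite S] (m : ℕ) (hm : 1 ≤ m)
    {F : Type*} [Field F] [Fintype F] (hF : Fintype.card F = 2 ^ (2 * m + 1))
    (P : Sylow 2 ↥(Cfsg.Lie.Sz F (2 ^ (m + 1)))) (hS : Nonempty (S ≃* ↥(P : Subgroup ↥(Cfsg.Lie.Sz F (2 ^ (m + 1)))))) :
    Cfsg.IsElementaryAbelian 2 (Cfsg.pCore 2 (MulAut S)) ∧ Nat.card ↥(Cfsg.pCore 2 (MulAut S)) = 2 ^ ((2 * m + 1) ^ 2) ∧
      Nat.card (MulAut S) = 2 ^ ((2 * m + 1) ^ 2) * ((2 * m + 1) * (2 ^ (2 * m + 1) - 1)) := by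
  have := Cfsg.Lib.Sz.charP_of_card hF
  let M := Cfsg.Lib.Sz.lieModel hF
  let θ : F ≃+* F := RingEquiv.ofBijective M.σ (Finite.injective_iff_bijective.1 M.σ.injective)
  obtain ⟨e₁⟩ := hS
  obtain ⟨e₂⟩ := M.nonempty_sylow_equiv (θ := θ) (fun _ => rfl) P
  have e := MulAut.congr (e₁.trans e₂)
  have h1 : θ ≠ 1 := fun h => by
    obtain ⟨t, h0, h1⟩ := Cfsg.Lib.Sz.exists_ne_zero_ne_one hm hF
    exact (M.σ_eq_self (RingEquiv.congr_fun h t)).elim h0 h1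
  have h2 := Cfsg.Lib.Linear.card_ringAut (p := 2) hF
  have h3 : Odd (Nat.card (F ≃+* F)) := by rw [h2]; exact odd_two_mul_add_one m
  have h4 : Function.Injective fun x => θ x * x := fun _ _ h => M.σ_mul_self_inj h
  have h5 : Nat.card F = 2 ^ (2 * m + 1) := Nat.card_eq_fintype_card.trans hF
  have h6 := Cfsg.Lib.Sz.SU.pCore_aut h4 h1 h3 M.even_card
  refine ⟨?_, ?_, ?_⟩
  · rw [← Cfsg.Lib.Core.comap_pCore_equiv e, h6]
    obtain ⟨h1, h2⟩ := Cfsg.Lib.Sz.SU.cenAut_elem h4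
    refine ⟨⟨⟨fun a b => Subtype.ext (e.injective ?_)⟩⟩, fun a ha => e.injective ?_⟩
    · simpa only [Subgroup.coe_mul, map_mul] using congrArg Subtype.val (h1.1.1 ⟨e a, a.2⟩ ⟨e b, b.2⟩)
    · simpa using h2 _ ha
  · rw [Cfsg.Lib.Core.card_pCore_congr e, h6, Cfsg.Lib.Sz.SU.card_cenAut h4 h5]
  · rw [Nat.card_congr e.toEquiv, ← (Cfsg.Lib.Sz.SU.cenAut θ).card_mul_index,
      Cfsg.Lib.Sz.SU.card_cenAut h4 h5, Cfsg.Lib.Sz.SU.index_cenAut h1 h3, h2, h5]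

end Cfsg.Agent.S2556
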