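import Cfsg.Statements.S2557
import Cfsg.Agent.Lib.Symp.Even4

set_option autoImplicit false
open Cfsg

namespace Cfsg.Agent.S2557

/-- The number of conjugacy classes of Sp(2n,q), q even: for F a finite field of even order q and n ≥ 1, the number k of conjugacy classes of Sp(2n,F) satisfies q^n ≤ k ≤ 15.2·q^n. -/
theorem result {F : Type*} [Field F] [Fintype F] (heven : Even (Fintype.card F)) (n : ℕ) (hn : 1 ≤ n) :
    Fintype.card F ^ n ≤ Nat.card (ConjClasses (Matrix.symplecticGroup (Fin n) F)) ∧
      5 * Nat.card (ConjClasses (Matrix.symplecticGroup (Fin n) F)) ≤ 76 * Fintype.card F ^ n := by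
  have h2 : (2 : F) = 0 := Lib.Orth.ringChar_eq_two_iff.1 (FiniteField.even_card_iff_char_two.2 (Nat.even_iff.1 heven))
  rw [← Nat.card_eq_fintype_card]
  exact ⟨Lib.Symp.pow_le_card_sp_classes n, Lib.Symp.card_sp_classes_le h2 n⟩

end Cfsg.Agent.S2557
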