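import Cfsg.Statements.S2559
import Cfsg.Agent.Lib.Symp.Even5

set_option autoImplicit false
open Cfsg

namespace Cfsg.Agent.S2559

/-- The number of conjugacy classes of the full orthogonal groups O⁺(2n,q) and O⁻(2n,q), q even, 2n ≥ 4: for F a finite field of even order q and n ≥ 2, the number k of conjugacy classes of the isometry group of the hyperbolic quadratic form Σ xᵢyᵢ on F^{2n}, and likewise of the elliptic form Σ xᵢyᵢ + (z₁² + a z₁z₂ + b z₂²) with anisotropic binary part, satisfies q^n/2 ≤ k ≤ 15·q^n. -/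
theorem result {F : Type*} [Field F] [Fintype F] (heven : Even (Fintype.card F)) (n : ℕ) (hn : 2 ≤ n) (a b : F) (hab : ∀ z₁ z₂ : F, z₁ ^ 2 + a * z₁ * z₂ + b * z₂ ^ 2 = 0 → z₁ = 0 ∧ z₂ = 0) :
    (Fintype.card F ^ n ≤ 2 * Nat.card (ConjClasses ↥(Cfsg.isometryGroup F (Cfsg.quadFormPlus n F))) ∧
      Nat.card (ConjClasses ↥(Cfsg.isometryGroup F (Cfsg.quadFormPlus n F))) ≤ 15 * Fintype.card F ^ n) ∧
    (Fintype.card F ^ n ≤ 2 * Nat.card (ConjClasses ↥(Cfsg.isometryGroup F (Cfsg.quadFormMinus (n - 1) F a b))) ∧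
      Nat.card (ConjClasses ↥(Cfsg.isometryGroup F (Cfsg.quadFormMinus (n - 1) F a b))) ≤ 15 * Fintype.card F ^ n) := by
  open Lib.Orth Lib.Symp in
  have h2 : (2 : F) = 0 := ringChar_eq_two_iff.1 (FiniteField.even_card_iff_char_two.2 (Nat.even_iff.1 heven))
  rw [← Nat.card_eq_fintype_card]
  exact ⟨⟨pow_le_card_iso_classes h2 (nd_qPlus n) hn (by simp [two_mul]),
      card_iso_classes_le h2 (nd_qPlus n) (by simp [two_mul])⟩,
    pow_le_card_iso_classes h2 (nd_qMinus (n - 1) hab) hn (by simp; omega),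
      card_iso_classes_le h2 (nd_qMinus (n - 1) hab) (by simp; omega)⟩

end Cfsg.Agent.S2559
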