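import Cfsg.Statements.S2560
import Cfsg.Agent.Lib.GLC.OmNum

set_option autoImplicit false
open Cfsg

namespace Cfsg.Agent.S2560

/-- The number of conjugacy classes of Ω(2n+1,q), q odd, n ≥ 2: for F a finite field of odd order q, the number k of conjugacy classes of the commutator subgroup of the isometry group of the quadratic form x₀² + Σ xᵢyᵢ on F^{2n+1} satisfies q^n/2 ≤ k ≤ 7.3·q^n. -/
theorem result {F : Type*} [Field F] [Fintype F] (hodd : Odd (Fintype.card F)) (n : ℕ) (hn : 2 ≤ n) :
    Fintype.card F ^ n ≤ 2 * Nat.card (ConjClasses ↥(Cfsg.Omega F (Cfsg.quadFormOdd n F))) ∧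
      10 * Nat.card (ConjClasses ↥(Cfsg.Omega F (Cfsg.quadFormOdd n F))) ≤ 73 * Fintype.card F ^ n := by
  open Lib.Orth in
  have h2 : (2 : F) ≠ 0 := mt ringChar_eq_two_iff.2 fun h => by
    simpa [FiniteField.even_card_iff_char_two.1 h] using Nat.odd_iff.1 hodd
  have := card_commutator_classes (nd_qOdd h2 n) (show 1 ≤ n by omega) (finrank_qOdd n)
  rw [← Lib.GLC.card_conjClasses_congr (commutatorCongr (isoEquiv _)), Nat.card_eq_fintype_card] at this
  exact ⟨this.1, (mul_assoc 2 5 _).trans_le ((Nat.mul_le_mul_left 2 this.2).trans (by omega))⟩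

end Cfsg.Agent.S2560
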