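import Cfsg.Statements.S2578
import Cfsg.Agent.Lib.GLC.Proj

set_option autoImplicit false
open Cfsg

namespace Cfsg.Agent.S2578

/-- Regular unipotent classes of SL_n(q): for n ≥ 2 over the field with q elements, the matrices u of determinant one with (u − 1)^n = 0 and rank(u − 1) = n − 1 form a single GL_n(q)-class which splits into exactly gcd(n, q − 1) conjugacy classes of SL_n(q). -/
theorem result {F : Type*} [Field F] [Fintype F] {q : ℕ} (hF : Fintype.card F = q) {n : ℕ} (hn : 2 ≤ n) : Nat.card {C : ConjClasses (Matrix.SpecialLinearGroup (Fin n) F) // ∃ u : Matrix.SpecialLinearGroup (Fin n) F, ConjClasses.mk u = C ∧ ((u : Matrix (Fin n) (Fin n) F) - 1) ^ n = 0 ∧ ((u : Matrix (Fin n) (Fin n) F) - 1).rank = n - 1} = Nat.gcd n (q - 1) := by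
  open Lib.GLC Matrix in
  haveI : Nonempty (Fin n) := ⟨⟨0, by omega⟩⟩
  obtain ⟨a, ha⟩ := exists_sl_jt (F := F) (n := Fin n) (d := {n}) (by simp)
  have h1 := card_sl_classes_sim a
  rw [detC_of_blocks_singleton (c := 1) (k := n) ha (by omega), IsCyclic.index_powMonoidHom_range,
    Lib.Linear.card_units_field, hF, Nat.gcd_comm] at h1
  rw [← h1]
  refine Nat.card_congr (Equiv.subtypeEquivRight fun C => exists_congr fun u => and_congr_right fun _ =>
    ⟨fun h => ha.sim (by simpa [jt] using blocks_regular h.1 (by simpa using h.2)), fun h => ?_⟩)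
  have h2 := h.symm.blocks ha
  have h3 := h2.jt_finrank_ker_one (by simp; omega)
  have h4 := rank_add_finrank_ker (u.1 - 1)
  rw [toLin'_sub_one, ← one_smul F (1 : Module.End F _), h3] at h4
  exact ⟨by simpa [toLin'_sub_one_pow_eq_zero_iff] using h2.jt_pow_eq_zero_iff (k := n), by simp at h4; omega⟩

end Cfsg.Agent.S2578
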