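import Cfsg.Statements.S2648
import Cfsg.Agent.Lib.Wr.SL
import Cfsg.Agent.Lib.Orth.Semis
import Cfsg.Agent.Lib.FGS.LinDer
import Cfsg.Agent.S4014

set_option autoImplicit false
open Cfsg

namespace Cfsg.Agent.S2648

open Cfsg.Lib Subgroup Module

universe v

theorem low {F : Type v} [Field F] [Finite F] (hq : Odd (Nat.card F)) (k : ℕ) :
    ∃ (P : Type v) (_ : Group P) (_ : Finite P) (V : Type v) (_ : AddCommGroup V) (_ : Module F V)
      (_ : FiniteDimensional F V) (B : LinearMap.BilinForm F V) (ρ : Representation F P V),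
      IsPGroup 2 P ∧ finrank F V = 2 * 2 ^ k ∧ B.IsAlt ∧ B.Nondegenerate ∧
      (∀ g x y, B (ρ g x) (ρ g y) = B x y) ∧ Function.Injective ρ ∧ derivedSeries P (k + 1) ≠ ⊥ := by
  classical
  induction k with
  | zero =>
    have := Fintype.ofFinite F
    have h2 : (2 : F) ≠ 0 := Symp.two_ne_zero_iff_odd_card.2 (Nat.card_eq_fintype_card (α := F) ▸ hq)
    let j : Matrix.symplecticGroup (Fin 1) F := ⟨Matrix.J _ _, SymplecticGroup.J_mem _ _⟩
    have hj : j ^ 2 = Symp.negOneSp _ _ := Subtype.ext (by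
      rw [sq]; exact Matrix.J_squared _ _)
    have hn : Symp.negOneSp (Fin 1) F ^ 2 = 1 := Subtype.ext (by simp)
    obtain ⟨S, hS⟩ := (show IsPGroup 2 (zpowers j) from IsPGroup.iff_card.2 (by
      rw [Nat.card_zpowers]
      obtain ⟨k, -, hk⟩ := (Nat.dvd_prime_pow Nat.prime_two (m := 2)).1 (orderOf_dvd_of_pow_eq_one (x := j)
        (by rw [show 2 ^ 2 = 2 * 2 from rfl, pow_mul, hj, hn]))
      exact ⟨k, hk⟩)).exists_le_sylow
    let ρ : Representation F (S : Subgroup (Matrix.symplecticGroup (Fin 1) F)) (Fin 1 ⊕ Fin 1 → F) :=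
      (Matrix.toLinAlgEquiv' (R := F) (n := Fin 1 ⊕ Fin 1)).toMonoidHom.comp
        ((Submonoid.subtype _).comp (Subgroup.subtype _))
    refine ⟨(S : Subgroup (Matrix.symplecticGroup (Fin 1) F)), inferInstance, inferInstance,
      Fin 1 ⊕ Fin 1 → F, _, _, inferInstance, Symp.bil _ F, ρ,
      S.2, by simp, Symp.bil_isAlt _ _, Symp.bil_nondegenerate _ _, fun g x y => ?_,
      fun a b h => Subtype.ext (Subtype.ext (Matrix.toLinAlgEquiv'.injective h)), fun h => ?_⟩
    · exact Symp.bil_mulVec g.1 x y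
    have := (Wr.sylEA_sp hq 1).pow_mem S ⟨j, hS (mem_zpowers j)⟩
    rw [zero_add, derivedSeries_one] at h
    rw [h, mem_bot] at this
    exact h2 (Symp.negOneSp_eq_one_iff.1 (hj.symm.trans (congrArg Subtype.val this)))
  | succ k ih =>
    obtain ⟨P, _, _, V, _, _, _, B, ρ, h1, h2, hA, hB, hρ, h3, h4⟩ := ih
    let Q := Multiplicative (ZMod 2)
    let σ : Representation F (P ≀ᵣ Q) (Q → V) :=
      { toFun := fun w => LinearMap.pi fun x => (ρ (w.left x)).comp (LinearMap.proj (w.right⁻¹ * x))
        map_one' := by ext f x; simp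
        map_mul' := fun a b => by
          ext f x y
          have : (a.right * b.right)⁻¹ * y = b.right⁻¹ * (a.right⁻¹ * y) := by rw [mul_inv_rev, mul_assoc]
          simp only [LinearMap.comp_apply, LinearMap.pi_apply, Module.End.mul_apply, LinearMap.proj_apply,
            RegularWreathProduct.mul_left, RegularWreathProduct.mul_right, Pi.mul_apply, map_mul, this] }
    let C : LinearMap.BilinForm F (Q → V) := ∑ i, B.comp (.proj i) (.proj i)
    have hC : ∀ x y, C x y = ∑ i, B (x i) (y i) := fun x y => by simp [C, LinearMap.sum_apply]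
    have hCA : C.IsAlt := fun x => by simp [hC, hA.self_eq_zero]
    obtain ⟨n, hn⟩ := h1.exists_card_eq
    have cQ : Nat.card Q = 2 := by simp [Q]
    refine ⟨P ≀ᵣ Q, _, inferInstance, Q → V, _, _, inferInstance, C, σ,
      .of_card (n := n * 2 + 1) (by rw [RegularWreathProduct.card, hn, cQ, pow_succ _ (n * 2), pow_mul]), ?_, hCA,
      hCA.isRefl.nondegenerate_iff_separatingLeft.2 fun x hx => funext fun i => hB.1 _ fun y => ?_,
      fun g x y => ?_, (injective_iff_map_eq_one _).2 fun w hw => ?_, S4014.wreath _ h4⟩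
    · rw [Module.finrank_pi_fintype, Finset.sum_const, Finset.card_univ, ← Nat.card_eq_fintype_card, cQ, h2,
        smul_eq_mul]; ring
    · have := hx (Pi.single i y)
      rwa [hC, Finset.sum_eq_single i (by simp +contextual) (by simp), Pi.single_eq_same] at this
    · rw [hC, hC, ← Equiv.sum_comp (Equiv.mulLeft g.right⁻¹) fun i => B (x i) (y i)]
      exact Finset.sum_congr rfl fun i _ => hρ _ _ _
    · have k1 : ∀ (f : Q → V) x, ρ (w.left x) (f (w.right⁻¹ * x)) = f x := fun f x =>
        congrFun (LinearMap.congr_fun hw f) x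
      have : Nontrivial V := Module.nontrivial_of_finrank_pos (R := F) (h2 ▸ by positivity)
      obtain ⟨v, hv⟩ := exists_ne (0 : V)
      have k2 : w.right = 1 := by_contra fun n => hv (by simpa [n] using (k1 (Pi.single 1 v) 1).symm)
      refine RegularWreathProduct.ext (funext fun x => h3 (LinearMap.ext fun v => ?_)) k2
      simpa using k1 (fun _ => v) x


/-- Let q be odd, F a field with q elements and n ≥ 1. A Sylow 2-subgroup R of the symplectic group Sp_{2n}(F) has derived length exactly k + 1, where 2^k ≤ 2n < 2^{k+1}: the (k+1)-st term of its derived series is trivial and the k-th is not. -/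
theorem result {F : Type*} [Field F] [Fintype F] [DecidableEq F] (q : ℕ) (hF : Fintype.card F = q) (hq : Odd q) (n : ℕ) (hn : 1 ≤ n) (R : Sylow 2 ↥(Matrix.symplecticGroup (Fin n) F)) : derivedSeries ↥(R : Subgroup ↥(Matrix.symplecticGroup (Fin n) F)) (Nat.log 2 (2 * n) + 1) = ⊥ ∧ derivedSeries ↥(R : Subgroup ↥(Matrix.symplecticGroup (Fin n) F)) (Nat.log 2 (2 * n)) ≠ ⊥ := by
  have hq' : Odd (Nat.card F) := by rwa [Nat.card_eq_fintype_card, hF]
  constructor
  · refine eq_bot_iff.2 fun g hg => Subtype.ext (Subtype.ext (Matrix.toLinAlgEquiv'.injective ?_))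
    rw [OneMemClass.coe_one, OneMemClass.coe_one, map_one]
    refine FGS.derived_linear (K := F) R.2 (Matrix.toLinAlgEquiv'.toMonoidHom.comp
      ((Submonoid.subtype _).comp (Subgroup.subtype _))) ?_ hg
    simpa [two_mul] using Nat.lt_pow_succ_log_self one_lt_two (2 * n)
  obtain ⟨P, _, _, V, _, _, _, B, ρ, h1, h2, hA, hB, hρ, h3, h4⟩ := low hq' (Nat.log 2 n)
  have h5 : 2 ^ Nat.log 2 n ≤ n := Nat.pow_log_le_self _ (by omega)
  let l := Fin (n - 2 ^ Nat.log 2 n)
  obtain ⟨e⟩ := Symp.nonempty_isom_equiv (l := Fin n) (Orth.isAlt_bilProd hA (Symp.bil_isAlt l F))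
    (Orth.nondegenerate_bilProd hA (Symp.bil_isAlt l F) hB (Symp.bil_nondegenerate l F)) (by simp [h2, l]; omega)
  let f₀ : P →* Symp.isom (Orth.bilProd B (Symp.bil l F)) := MonoidHom.codRestrict
    ((LinearMap.GeneralLinearGroup.generalLinearEquiv F _).toMonoidHom.comp
      (ρ.prod (Representation.trivial F P _)).toHomUnits) _ fun g x y => by
        rw [Orth.bilProd_apply, Orth.bilProd_apply]
        exact congrArg (· + _) (hρ g x.1 y.1)
  let f := e.toMonoidHom.comp f₀
  have hf : Function.Injective f := fun x y h => h3 (LinearMap.ext fun v =>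
    congrArg (fun g : Symp.isom _ => (g.1 (v, 0)).1) (e.injective h))
  obtain ⟨S, hS⟩ := (h1.of_surjective _ f.rangeRestrict_surjective).exists_le_sylow
  let g := (S.equiv R).toMonoidHom.comp (f.codRestrict S fun x => hS ⟨x, rfl⟩)
  intro h
  have := map_derivedSeries_le_derivedSeries g (Nat.log 2 n + 1)
  rw [mul_comm, Nat.log_mul_base one_lt_two (by omega)] at h
  rw [h, le_bot_iff, map_eq_bot_iff_of_injective _ ((S.equiv R).injective.comp fun a b h =>
    hf (congrArg Subtype.val h))] at this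
  exact h4 this

end Cfsg.Agent.S2648
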