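import Cfsg.Statements.S2687
import Cfsg.Agent.Lib.Bal.Uni
import Cfsg.Agent.S0827

set_option autoImplicit false
open Cfsg

namespace Cfsg.Agent.S2687

open Cfsg.Lib Cfsg.Lib.Unitary Cfsg.Lib.Bal

/-- A criterion for the failure of local balance in almost simple groups with unitary socle. Let F be a finite field of characteristic r with q² elements and K = PSU_n(q) (n ≥ 3, the central quotient of the determinant-one isometries of the standard Hermitian form) simple. Let A be a group of automorphisms of K containing all inner automorphisms, and β ∈ A an automorphism of prime order p ≠ r that is not inner-diagonal (not induced by conjugation by a matrix of the general unitary group). Then the largest normal subgroup of C_A(β) of order prime to p is nontrivial if and only if β is the composite of an inner-diagonal automorphism with the automorphism induced by a field automorphism of F applied entrywise and p does not divide the number of fixed points of β on K.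 -/
theorem result
    (F : Type*) [Field F] [Fintype F] (r : ℕ) [Fact r.Prime] [CharP F r] (q : ℕ) (hF : Fintype.card F = q ^ 2)
    (n : ℕ) (hn : 3 ≤ n) (hK : IsSimpleGroup (Cfsg.PSU n F q))
    (𝒢 : Subgroup (MulAut (Cfsg.PSU n F q))) (hinn : ∀ k : Cfsg.PSU n F q, MulAut.conj k ∈ 𝒢)
    (p : ℕ) [Fact p.Prime] (hpr : p ≠ r) (β : MulAut (Cfsg.PSU n F q)) (hβ : β ∈ 𝒢) (hord : orderOf β = p)
    (hnot : ¬ Cfsg.IsInnerDiagonalAutPSU β) :
    Cfsg.pPrimeCore p ↥(𝒢 ⊓ Subgroup.centralizer {β}) ≠ ⊥ ↔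
      ((∃ γ φ : MulAut (Cfsg.PSU n F q), Cfsg.IsInnerDiagonalAutPSU γ ∧ (∃ σ : F ≃+* F, Cfsg.IsFieldAutPSUOf σ φ) ∧ β = φ.trans γ) ∧
        Nat.Coprime p (Nat.card ↥(MonoidHom.eqLocus β.toMonoidHom (MonoidHom.id (Cfsg.PSU n F q))))) := by
  obtain ⟨σ, hσ⟩ := exists_isBar hF
  have hZ := center_eq_bot_of_simple hK
  have hp : p.Prime := Fact.out
  have h32 : ¬ (n = 3 ∧ q = 2) := by
    rintro ⟨rfl, rfl⟩
    obtain ⟨N, hN, h1, -⟩ := Cfsg.Agent.S0827.result (F := F) hF
    have h2 := hσ.card_PSU_three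
    rcases hN.eq_bot_or_eq_top with rfl | rfl
    · simp at h1
    · rw [Subgroup.card_top] at h1
      rw [h1] at h2
      norm_num at h2
  obtain ⟨g, τ, rfl⟩ := aut_PSU_decomp hF hn h32 β
  have hτ : τ ≠ 1 := fun h => hnot (isInnerDiagonalAutPSU_iff.2 ⟨g, by simp [h]⟩)
  obtain ⟨θ, h1, h2⟩ := exists_autType hF hn h32
  have ho : orderOf τ = p := orderOf_eq_prime (by
    have := congrArg θ (hord ▸ pow_orderOf_eq_one (diagAut g * fieldAut τ))
    rwa [map_pow, map_mul, h1.ge ⟨g, rfl⟩, h2, one_mul, map_one] at this) hτ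
  rcases hp.eq_two_or_odd' with rfl | hodd
  · obtain ⟨s, hs⟩ := exists_bar_equiv hσ
    haveI := hσ.finite
    have hφ : ∀ x, σ x = x ↔ x ∈ (fixedField σ).subtype.range := fun x => by simp
    obtain ⟨P, M, δ, h⟩ := exists_isGr_of_graph hσ hs hφ hn
      (isGraphAutClassPSU_iff.2 ⟨hn, g, τ, ho ▸ even_two, rfl⟩) hord
    have h2F : (2 : fixedField σ) ≠ 0 := fun h => hpr ((Nat.prime_dvd_prime_iff_eq Fact.out
      Nat.prime_two).1 ((CharP.cast_eq_zero_iff _ r 2).1 h)).symm
    rcases h.isSymm_or_isAlt hσ.invol hφ with hM | hM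
    · obtain ⟨j, hj⟩ := exists_dat_symm h2F (by simpa) hM
      exact core_iff_isGr hσ hs hφ hn h32 hZ hinn h hj _
    · obtain ⟨j, hj⟩ := exists_dat_alt h2F (by simpa) hM
      exact core_iff_isGr hσ hs hφ hn h32 hZ hinn h hj _
  obtain ⟨a, -, ha⟩ := hσ.isConjUnder_of_pow_eq_one hn (g := g) (ho ▸ hodd)
    (by rw [ho, ← hord, pow_orderOf_eq_one])
  have := core_iff_fieldAut hσ hn hpr h32 hZ hinn ho hodd a (R := ∃ γ φ,
    Cfsg.IsInnerDiagonalAutPSU γ ∧ (∃ σ, Cfsg.IsFieldAutPSUOf σ φ) ∧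
      diagAut g * fieldAut τ = φ.trans γ)
    ⟨_, _, isInnerDiagonalAutPSU_iff.2 ⟨g, rfl⟩, ⟨τ, isFieldAutPSUOf_iff.2 rfl⟩, rfl⟩
  rwa [← ha] at this

end Cfsg.Agent.S2687
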