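import Cfsg.Statements.S2688
import Cfsg.Agent.Lib.LB.Cv

set_option autoImplicit false
open Cfsg

namespace Cfsg.Agent.S2688

open Cfsg.Lib Cfsg.Lib.Chev Cfsg.Lib.LB Cfsg.Lib.HB Cfsg.Lib.KO Cfsg.Lib.Twisted Equiv

theorem eq_one_of_wk {ι Φ : Type} [Fintype ι] [DecidableEq ι] {R : RootSys ι Φ} {A : ι → ι → ℤ}
    (hA : R.A = A) (k : ℕ) (h : ∀ a b, wk A k a = wk A k b → a = b) (π : Perm ι)
    (h1 : ∀ i j, R.A (π i) (π j) = R.A i j) : π = 1 :=
  Equiv.ext fun i => by
    subst hA
    refine h _ _ ?_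
    clear h
    induction k generalizing i with
    | zero => rfl
    | succ k ih =>
      simp only [wk]
      rw [← Equiv.sum_comp π]
      simp only [h1 _, show ∀ j, wk R.A k (π j) = wk R.A k j from ih]
      rfl

/-- A criterion for the failure of local balance in almost simple groups whose socle is one of the Chevalley groups of type G₂, B₂, D₄, F₄, E₆, E₇, E₈ (realised as the explicit matrix group generated by root elements over a finite field F of characteristic r, assumed simple). Let A be a group of automorphisms of that group K containing all inner automorphisms, and β ∈ A an automorphism of prime order p ≠ r that is not inner-diagonal (not induced by conjugation by an element of K times a diagonal automorphism). Then the largest normal subgroup of C_A(β) of order prime to p is nontrivial if and only if β is the composite of an inner-diagonal automorphism with an entrywise field automorphism and p does not divide the number of fixed points of β on K. -/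
theorem result (D : Cfsg.Lie.ChevalleyDatum)
    (hD : D ∈ [Cfsg.Lie.chevG2, Cfsg.Lie.chevB2, Cfsg.Lie.chevD4, Cfsg.Lie.chevF4, Cfsg.Lie.chevE6, Cfsg.Lie.chevE7, Cfsg.Lie.chevE8])
    (F : Type*) [Field F] [Fintype F] (r : ℕ) [Fact r.Prime] [CharP F r] (hK : IsSimpleGroup ↥(D.group F))
    (𝒢 : Subgroup (MulAut (↥(D.group F)))) (hinn : ∀ k : ↥(D.group F), MulAut.conj k ∈ 𝒢)
    (p : ℕ) [Fact p.Prime] (hpr : p ≠ r) (β : MulAut (↥(D.group F))) (hβ : β ∈ 𝒢) (hord : orderOf β = p)
    (hnot : ¬ D.IsInnerDiagonalAutOn (D.group F) β) :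
    Cfsg.pPrimeCore p ↥(𝒢 ⊓ Subgroup.centralizer {β}) ≠ ⊥ ↔
      ((∃ γ φ : MulAut ↥(D.group F), D.IsInnerDiagonalAutOn (D.group F) γ ∧ Cfsg.Lie.IsEntrywiseFieldAutOn (D.group F) φ ∧
          β = φ.trans γ) ∧
        Nat.Coprime p (Nat.card ↥(MonoidHom.eqLocus β.toMonoidHom (MonoidHom.id (↥(D.group F)))))) := by
  obtain ⟨m, hm, hF⟩ := Cfsg.Lib.KI.exists_card_eq (p := r) F
  rw [Nat.card_eq_fintype_card] at hF
  have ho : p ≠ 2 → Odd p := (Fact.out : p.Prime).odd_of_ne_two
  have := Checked.nonempty_rank hD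
  have hD' := hD
  simp only [List.mem_cons, List.not_mem_nil, or_false] at hD'
  rcases hD' with rfl | rfl | rfl | rfl | rfl | rfl | rfl
  · obtain ⟨X, h1, h2⟩ := ext_G2' hm hF
    exact chev_main _ hD hm hF h1 h2 hpr (fun e _ => rig_G2 (ho e)) (hg_of_rigid (R := RG2) X.alg
      X.conn (by rw [RG2_A]; decide +kernel)) hinn hord hnot
  · obtain ⟨X, h1, h2⟩ := ext_B2 hm hF
    have hA := IsCartan.A_eq (n := 2) (isCartanB2 checkedB2)
    exact chev_main _ hD hm hF h1 h2 hpr (fun e _ => rig_of_wk (ι := Fin 2) (ho e) hA 0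
      (by decide +kernel)) (hg_of_rigid (ι := Fin 2) X.alg X.conn (by rw [hA]; decide +kernel))
      hinn hord hnot
  · obtain ⟨X, h1, h2⟩ := ext_D4 hm hF
    exact chev_main _ hD hm hF h1 h2 hpr (fun e e' => rig_D4 (ho e)
      ((Nat.coprime_primes Fact.out Nat.prime_three).2 e') RD4_A) (hg_D4 X.alg X.conn RD4_A
      (rep_mod _ hD h1 embD4E8_chk (laced_of_ln (IsD4.ln RD4_A))) hpr hm) hinn hord hnot
  · obtain ⟨X, h1, h2⟩ := ext_F4 hm hF (.refl _)
    exact chev_main _ hD hm hF h1 h2 hpr (fun e _ => rig_F4 (ho e)) (hg_of_rigid (R := RF4) X.alg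
      X.conn (by rw [RF4_A]; decide +kernel)) hinn hord hnot
  · obtain ⟨X, h1, h2⟩ := ext_E6 hm hF (.refl _)
    exact chev_main _ hD hm hF h1 h2 hpr (fun e _ => rig_E6 (ho e)) (hg_two (R := RE6) X.alg X.conn
      (rep_mod _ hD h1 embE6E8_chk (laced_of_ln ln_E6)) hpr hm ln_E6 (π₁ := πE6) (by decide)
      (by rw [Ty, RE6_A]; decide +kernel) (by rw [RE6_A]; decide +kernel)) hinn hord hnot
  · obtain ⟨X, h1, h2⟩ := ext_E7 hm hF (.refl _)
    exact chev_main _ hD hm hF h1 h2 hpr (fun e _ => rig_E7 (ho e)) (hg_of_rigid X.alg X.conn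
      (eq_one_of_wk (IsCartan.A_eq (n := 7) (isCartanE7 _)) 3 (by decide +kernel))) hinn hord hnot
  · obtain ⟨X, h1, h2⟩ := ext_E8 hm hF (.refl _)
    exact chev_main _ hD hm hF h1 h2 hpr (fun e _ => rig_E8 (ho e)) (hg_of_rigid X.alg X.conn
      (eq_one_of_wk (IsCartan.A_eq (n := 8) (isCartanE8 _)) 3 (by decide +kernel))) hinn hord hnot

end Cfsg.Agent.S2688
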