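import Cfsg.Statements.S2730
import Cfsg.Agent.Lib.Bal.Twist
import Cfsg.Agent.Lib.Symp.Isog
import Cfsg.Agent.Lib.Symp.Descent

set_option autoImplicit false
open Cfsg

namespace Cfsg.Agent.S2730

open Cfsg.Lib Cfsg.Lib.Symp Cfsg.Lib.Linear Matrix Subgroup

theorem mapGSp_spToGSp_tvSp {F K : Type*} [Field F] [Field K] {m : ℕ} (φ : K →+* F)
    (v : Fin m ⊕ Fin m → K) (a : K) :
    mapGSp φ (spToGSp (tvSp v a)) = spToGSp (tvSp (φ ∘ v) (φ a)) :=
  Subtype.ext (Units.ext (by
    ext i j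
    have := congrFun (J_map (l := Fin m) φ ▸ map_mulVec_comp φ (J (Fin m) K) v) j
    simp [mapGSp_coe, tvMat, Matrix.one_apply, vecMulVec_apply, apply_ite φ, this]))

theorem mult_mapGSp {F K : Type*} [Field F] [Field K] {m : ℕ} [NeZero m] (φ : K →+* F)
    (l : Cfsg.GSp m K) : mult (mapGSp φ l) = Units.map φ (mult l) := Units.ext <| by
  obtain ⟨u, v, h⟩ := exists_bil_eq_one (m := m) (F := K)
  have := mult_spec (mapGSp φ l) (φ ∘ u) (φ ∘ v)
  have e : ∀ v, (mapGSp φ l).1.1 *ᵥ (φ ∘ v) = φ ∘ (l.1.1 *ᵥ v) := map_mulVec_comp φ l.1.1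
  rw [e, e, bil_comp, bil_comp, mult_spec, h, map_one, mul_one, mul_one] at this
  exact this.symm

/-- A criterion for the failure of local balance in almost simple groups whose socle is a projective symplectic group PSp_{2m}(F) (m ≥ 2, (2m, |F|) ≠ (4, 2)). Let F be a finite field of characteristic r and K the (simple) group in question; let A be a group of automorphisms of K containing all inner automorphisms, and x ∈ A an automorphism of prime order p ≠ r that is not inner-diagonal (not induced by a conformal symplectic matrix). Then the largest normal subgroup of C_A(x) of order prime to p is nontrivial if and only if x is a field automorphism of K (conjugate under Aut(K) to a non-identity standard field automorphism) and p does not divide the number of fixed points of x on K. -/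
theorem result {F : Type*} [Field F] [Fintype F] {r : ℕ} [Fact r.Prime] [CharP F r] {m : ℕ} (hm : 2 ≤ m) (hs : m = 2 → 3 ≤ Fintype.card F) (hK : IsSimpleGroup (Cfsg.PSp m F)) (A : Subgroup (MulAut (Cfsg.PSp m F))) (hinn : ∀ k : Cfsg.PSp m F, MulAut.conj k ∈ A) {p : ℕ} [Fact p.Prime] (hpr : p ≠ r) (x : MulAut (Cfsg.PSp m F)) (hxA : x ∈ A) (hord : orderOf x = p) (hnot : ¬ Cfsg.IsInnerDiagonalAutPSp x) :
    Cfsg.pPrimeCore p ↥(A ⊓ Subgroup.centralizer {x}) ≠ ⊥ ↔ (Cfsg.IsFieldAutClassPSp x ∧ Nat.Coprime p (Nat.card ↥(MonoidHom.eqLocus x.toMonoidHom (MonoidHom.id (Cfsg.PSp m F))))) := by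
  haveI : NeZero m := ⟨by omega⟩
  haveI : Nontrivial (Fin m ⊕ Fin m) := ⟨⟨.inl 0, .inr 0, by simp⟩⟩
  have hp : p.Prime := Fact.out
  have hT : ∀ y : MulAut (Cfsg.PSp m F), ¬ (m = 2 ∧ r = 2) → y ∈ gammaSp m F := fun y h =>
    (gammaSp_eq_top hm fun h2 h0 => h ⟨h2, (Nat.prime_dvd_prime_iff_eq Fact.out Nat.prime_two).1
      ((CharP.cast_eq_zero_iff F r 2).1 h0)⟩).ge (mem_top y)
  have hx : x ∈ gammaSp m F := by
    by_contra h
    obtain ⟨rfl, rfl⟩ := not_not.1 (mt (hT x) h)
    obtain ⟨k, hk⟩ := hp.odd_of_ne_two hpr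
    have := pow_mem (mul_self_mem_of_index_two index_gammaSp_two x) (k + 1)
    rw [← pow_two, ← pow_mul, mul_add, mul_one, add_assoc _ 1 1 |>.symm, ← hk, pow_succ, ← hord,
      pow_orderOf_eq_one, one_mul] at this
    exact h this
  obtain ⟨g, σ, rfl⟩ := hx
  have hσ : σ ≠ 1 := fun h => hnot (isInnerDiagonalAutPSp_iff.2 ⟨g, by simp [h]⟩)
  have hcm := fieldAutSp_mul_innDiagSp (m := m) σ
  have h1 := mul_pow_eq_nrm _ hcm g p
  rw [← hord, pow_orderOf_eq_one, hord, ← map_pow] at h1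
  have ho : orderOf σ = p := orderOf_eq_prime (innDiagSp_mul_fieldAutSp_eq_one h1.symm).2 hσ
  have tw := isTwist_fieldAutSp (m := m) σ
  rw [ho] at tw
  obtain ⟨k, hk⟩ := tw.exists_conj (g := g) (hord ▸ pow_orderOf_eq_one _)
  rw [hk]
  have hφ : ∀ x, σ x = x ↔ x ∈ (fixField σ).subtype.range := fun x => by simp
  letI := Fintype.ofFinite (fixField σ)
  obtain ⟨e⟩ := tw.nonempty_centralizer_equiv _ (range_mapGSp hφ) _ (mapGSp_mem_range_scalarGSp _)
  refine Bal.core_ne_bot_iff_twist (r := r) (Bal.center_eq_bot_of_simple hK) hinn tw inn_le_range_innDiagSp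
    ((mapGSp (fixField σ).subtype).comp spToGSp) (fun l => (range_mapGSp hφ).le ⟨_, rfl⟩)
    (fun l => innDiagSp_mem_inn_iff.2 ⟨1, by simp [mult_mapGSp]⟩) (fun k hk l => ?_) ?_
    (by rw [Nat.card_congr e.toEquiv]; exact card_PGSp.dvd) ((Nat.coprime_primes hp Fact.out).2 hpr)
    (eq_top_of_tvSp_mem _ fun v c => subset_closure (tvSp_pow_char r v c))
    (fun N _ => normal_sp_le_center_or N) (fun h => ?_) (fun n hn => ?_) _
    (isFieldAutClassPSp_iff.2 ⟨(innDiagSp k)⁻¹, σ, hσ, by group⟩)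
  · obtain ⟨k, rfl⟩ := (range_mapGSp hφ).ge hk
    exact ⟨conjSp k l, by simp [spToGSp_conjSp]⟩
  · ext l
    rw [MonoidHom.mem_ker, MonoidHom.comp_apply, ← MonoidHom.mem_ker, tw.ker, MonoidHom.comp_apply,
      ← mapGSp_mem_range_scalarGSp, mem_subgroupOf, scalars_eq_center]
    refine ⟨fun h => mem_center_iff.2 fun y => spToGL_injective ?_, fun h => ?_⟩
    · simpa using mem_center_iff.1 h (spToGL y)
    · rcases (mem_center_sp_iff l).1 h with rfl | rfl
      exacts [by simp, mem_center_iff.2 fun y => Units.ext (by simp)]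
  · exact tvSp_mk_ne_one (v := Pi.single (Sum.inl 0) 1) (by simp) one_ne_zero
      ((QuotientGroup.eq_one_iff _).2 (h.ge (mem_top _)))
  have h3 : ∀ v : Fin m ⊕ Fin m → fixField σ, n (tvSp ((fixField σ).subtype ∘ v) 1 :
      symplecticGroup (Fin m) F) = (tvSp ((fixField σ).subtype ∘ v) 1 :
      symplecticGroup (Fin m) F) := fun v => by
    have := hn (tvSp v 1)
    rw [MonoidHom.comp_apply, mapGSp_spToGSp_tvSp, innDiagSp_spToGSp, map_one] at this
    exact Bal.apply_eq_of_commute (Bal.center_eq_bot_of_simple hK) this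
  have hn' : n ∈ gammaSp m F := by
    by_contra h
    obtain ⟨rfl, rfl⟩ := not_not.1 (mt (hT n) h)
    exact h (mem_gammaSp_of_tvSp le_rfl (by intro e; simpa using congrFun e (.inl 0)) (h3 1))
  obtain ⟨g, τ, rfl⟩ := hn'
  obtain ⟨⟨u, hu⟩, h4⟩ := Bal.scalar_of_fix_rat (φ := (fixField σ).subtype) (σ := (τ : F →+* F))
    (g := g.1) fun v hv => by
      have e := h3 v
      rw [MulAut.mul_apply, fieldAutSp_mk, innDiagSp_mk, fieldSp_tvSp,
        conjSp_tvSp g (mult_spec g)] at e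
      obtain ⟨c, -, hc, -⟩ := tvSp_eq_tvSp (fun e => hv (funext fun i => by simpa using congrFun e i))
        one_ne_zero ((centerPFree_sp r).eq_of_mk_eq (tvSp_pow_char r _ _) (tvSp_pow_char r _ _) e).symm
      exact ⟨c, hc⟩
  rw [show g = scalarGSp u from Subtype.ext hu, innDiagSp_scalarGSp, one_mul, ← map_pow, ← ho,
    Bal.pow_orderOf_eq_one_of_fix fun x hx => h4 ⟨x, hx⟩, map_one]

end Cfsg.Agent.S2730
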