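import Cfsg.Statements.S2731
import Cfsg.Agent.Lib.Orth.Balance

set_option autoImplicit false
open Cfsg

namespace Cfsg.Agent.S2731

open Cfsg.Lib Cfsg.Lib.Orth Cfsg.Lib.Orth.Gam

/-- A criterion for the failure of local balance in almost simple groups whose socle is an odd-dimensional orthogonal group Ω_{2m+1}(F) (m ≥ 3, |F| odd; the form x₀² + Σ xᵢ yᵢ). Let F be a finite field of characteristic r and K the (simple) group in question; let A be a group of automorphisms of K containing all inner automorphisms, and x ∈ A an automorphism of prime order p ≠ r that is not inner-diagonal (not induced by a similarity of the form). Then the largest normal subgroup of C_A(x) of order prime to p is nontrivial if and only if x is a field automorphism of K (conjugate under Aut(K) to a non-identity standard field automorphism) and p does not divide the number of fixed points of x on K. -/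
theorem result {F : Type*} [Field F] [Fintype F] {r : ℕ} [Fact r.Prime] [CharP F r] (hodd : Odd (Fintype.card F)) {m : ℕ} (hm : 3 ≤ m) (hK : IsSimpleGroup (Cfsg.POmega F (Cfsg.quadFormOdd m F))) (A : Subgroup (MulAut (Cfsg.POmega F (Cfsg.quadFormOdd m F)))) (hinn : ∀ k : Cfsg.POmega F (Cfsg.quadFormOdd m F), MulAut.conj k ∈ A) {p : ℕ} [Fact p.Prime] (hpr : p ≠ r) (x : MulAut (Cfsg.POmega F (Cfsg.quadFormOdd m F))) (hxA : x ∈ A) (hord : orderOf x = p) (hnot : ¬ Cfsg.IsInnerDiagonalAutPOmegaOdd m x) :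
    Cfsg.pPrimeCore p ↥(A ⊓ Subgroup.centralizer {x}) ≠ ⊥ ↔ (Cfsg.IsFieldAutClassPOmega (Cfsg.quadFormOdd m F) x ∧ Nat.Coprime p (Nat.card ↥(MonoidHom.eqLocus x.toMonoidHom (MonoidHom.id (Cfsg.POmega F (Cfsg.quadFormOdd m F)))))) := by
  have h2 := two_ne_zero_of_odd_card hodd
  have hQ := nd_qOdd h2 m
  have hs := range_rhoM_odd h2 hm
  obtain ⟨g, rfl⟩ := hs.ge (Subgroup.mem_top x)
  obtain ⟨ψ, h1, -, h3, h4⟩ := exists_pow_eq_one_of_rho (ker_rhoM hQ (not_exc_of_two_ne_zero h2)
    (by simp; omega)) hord fun h => hnot (isSimilarityInduced_iff.2 ⟨g, h, rfl⟩)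
  rw [← h1]
  have hσ := qOdd_comp (ψ.σ : F →+* F) m
  obtain ⟨k, -, hk⟩ := lang_odd hQ (by simp [add_comm, ← two_mul]) h4 (ψ' := field ψ.σ hσ)
    (mul_inv_cancel ψ.σ) (field_pow_orderOf hσ)
  have hP : IsFieldAutClassPOmega (qOdd m F) (rhoM (qOdd m F) ψ) := ⟨rhoM _ k, _, ψ.σ,
      fun h => (Fact.out : p.Prime).one_lt.ne (by rw [← h3, h]; exact orderOf_one.symm),
      (isFieldAut_iff hσ).2 rfl, by rw [hk, map_mul, map_mul, map_inv]⟩
  have hpF : (p : F) ≠ 0 := fun h => hpr ((Nat.prime_dvd_prime_iff_eq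
    Fact.out Fact.out).1 ((CharP.cast_eq_zero_iff F r p).1 h)).symm
  exact core_ne_bot_iff_field hQ (by simp; omega) hs hinn hpF h3 h4 hP

end Cfsg.Agent.S2731
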