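import Cfsg.Statements.S2732
import Cfsg.Agent.Lib.LB.Four
import Cfsg.Agent.Lib.Bal.Orth
import Cfsg.Agent.Lib.Orth.Split
import Cfsg.Agent.Lib.Orth.Triality
import Cfsg.Agent.S1082

set_option autoImplicit false
open Cfsg

namespace Cfsg.Agent.S2732

open Cfsg.Lib Cfsg.Lib.Orth Cfsg.Lib.Orth.Gam

theorem field_class {F : Type*} [Field F] [Finite F] {m : ℕ} (hm : 4 ≤ m) {g : Gam (qPlus m F)}
    {p : ℕ} [hp : Fact p.Prime] (ho : Odd p) (hord : orderOf (rhoM _ g) = p) (hσ : g.σ ≠ 1) :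
    IsFieldAutClassPOmega (qPlus m F) (rhoM _ g) := by
  have hQ := nd_qPlus (F := F) m
  have : NeZero m := ⟨by omega⟩
  obtain ⟨ψ, h1, h2, h3, h4⟩ := exists_pow_eq_one_of_rho (ker_rhoM hQ (not_exc_of_five_le
    (by simp; omega)) (by simp; omega)) hord hσ
  have h5 := qPlus_comp (ψ.σ : F →+* F) m
  have D := formDataField h5 (qPlus_comp (Linear.fixField ψ.σ).subtype m) fun a => a.2
  obtain ⟨U, hU, -⟩ := D.exists_lag_plus
  have h6 := congrArg (lsign hQ hU) h4
  rw [map_pow, map_one, h3, Int.units_pow_eq_pow_mod_two, Nat.odd_iff.1 ho, pow_one] at h6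
  obtain ⟨k, -, hk⟩ := lang_even hQ (even_finrank_plus m) h4 (ψ' := field ψ.σ h5)
    (mem_GOz.2 ⟨mul_inv_cancel ψ.σ, by
      rw [dl_eq_lsign hQ hU (mul_inv_cancel ψ.σ), map_mul, map_inv, h6, D.lsign_plus]
      rfl⟩) (field_pow_orderOf h5)
  exact ⟨rhoM _ k, _, ψ.σ, h2.trans_ne hσ, (isFieldAut_iff h5).2 rfl,
    by rw [hk, map_mul, map_mul, map_inv, h1]⟩

theorem exists_typ {F : Type*} {ι : Type} [Field F] [Finite F] [Fintype ι] [DecidableEq ι]
    {Q : QuadraticForm F (ι → F)} (S : TriData Q) :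
    ∃ χ : MulAut (POmega F Q) →* DihedralGroup 3 × (F ≃+* F), Function.Surjective χ ∧
      (∀ y, χ y = 1 → y ∈ (GOz S.nd S.even).map (rhoM Q)) ∧ (∀ y, χ (MulAut.conj y) = 1) ∧
      ∀ σ, ∃ g : Gam Q, g.σ = σ ∧ χ (rhoM Q g) = (1, σ) := by
  let c := MulAut.congr (pomegaEquiv Q)
  have h0 : ∀ g, c (rhoM _ g) = rho _ g := fun g => by
    ext
    simp [c, rhoM_apply]
  refine ⟨S.typ.comp c.toMonoidHom, S.typ_surjective.comp c.surjective, fun y h => ?_,
    fun y => S.ker_typ.ge (S.inn_le_D ⟨pomegaEquiv _ y, by ext; simp [c]⟩),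
    fun σ => ⟨_, S.fa_σ σ, (congrArg S.typ (h0 _)).trans (S.typ_fa σ)⟩⟩
  obtain ⟨g, h, e⟩ := S.ker_typ.le h
  exact ⟨g, h, c.injective ((h0 g).trans e)⟩

set_option maxHeartbeats 1600000 in
theorem core {F : Type*} [Field F] [Fintype F] {r : ℕ} [Fact r.Prime] [CharP F r] {m : ℕ}
    (hm : 4 ≤ m) {A : Subgroup (MulAut (POmega F (qPlus m F)))} (hinn : ∀ k, MulAut.conj k ∈ A)
    {p : ℕ} [Fact p.Prime] (hpr : p ≠ r) {x : MulAut (POmega F (qPlus m F))} (hord : orderOf x = p)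
    (hnot : x ∉ (GOz (nd_qPlus m) (even_finrank_plus m)).map (rhoM (qPlus m F))) :
    pPrimeCore p ↥(A ⊓ Subgroup.centralizer {x}) ≠ ⊥ ↔ IsFieldAutClassPOmega (qPlus m F) x ∧
      p.Coprime (Nat.card (MonoidHom.eqLocus x.toMonoidHom (MonoidHom.id _))) := by
  have hQ := nd_qPlus (F := F) m
  have hp : p.Prime := Fact.out
  have hpF : (p : F) ≠ 0 := fun h => hpr ((Nat.prime_dvd_prime_iff_eq
    Fact.out hp).1 ((CharP.cast_eq_zero_iff F r p).1 h)).symm
  have hZ := center_pomega hQ (by simp; omega)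
  rcases hm.eq_or_lt with rfl | h5
  · obtain ⟨e⟩ := S1082.result (F := F)
    obtain ⟨χ, h0, h1, h2, h5⟩ := exists_typ (zornData F)
    obtain ⟨h2, h3, h4⟩ := LB.main_D4 (Y := POmega F (qPlus 4 F)) e.symm hpr
      IsCyclic.isMulCommutative.is_comm.comm h0 h2 hZ hord (mt (h1 x) hnot)
    refine Bal.core_ne_bot_iff hZ hinn h2 h3 fun h => ?_
    obtain ⟨h6, h7⟩ := h4 h
    have h8 : (χ x).1 = 1 := by
      rw [← pow_one (χ x).1, ← (Nat.Coprime.mul_right ((Nat.coprime_primes hp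
        Nat.prime_two).2 h6) ((Nat.coprime_primes hp Nat.prime_three).2 h7) :), pow_gcd_eq_one]
      refine ⟨?_, (by decide : ∀ d : DihedralGroup 3, d ^ (2 * 3) = 1) _⟩
      rw [← Prod.pow_fst, ← map_pow, ← hord, pow_orderOf_eq_one, map_one, Prod.fst_one]
    obtain ⟨f, h9, h10⟩ := h5 (χ x).2
    obtain ⟨g, h11, e⟩ := h1 (x * (rhoM _ f)⁻¹) (by
      rw [map_mul, map_inv, mul_inv_eq_one, h10]
      exact Prod.ext h8 rfl)
    obtain rfl : rhoM _ (g * f) = x := by rw [map_mul, e, inv_mul_cancel_right]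
    refine field_class le_rfl (hp.odd_of_ne_two h6) hord fun e => hnot (h1 _ (Prod.ext h8 ?_))
    rwa [mul_σ, (mem_GOz.1 h11).1, one_mul, h9] at e
  have : NeZero m := ⟨by omega⟩
  have hs := range_rhoM_plus (F := F) h5
  obtain ⟨g, rfl⟩ := hs.ge (Subgroup.mem_top x)
  by_cases hσ : g.σ = 1
  · exact Bal.core_iff_graph hQ (even_finrank_plus m) (by simp; omega) hinn hpF hσ
      (fun h => hnot ⟨g, mem_GOz.2 ⟨hσ, h⟩, rfl⟩) hord (fun _ n _ _ => hs.ge (Subgroup.mem_top n)) _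
  obtain ⟨ψ, h1, -, h3, h4⟩ := exists_pow_eq_one_of_rho (ker_rhoM hQ (not_exc_of_five_le
    (by simp; omega)) (by simp; omega)) hord hσ
  rcases hp.eq_two_or_odd' with rfl | ho
  · have h6 := LB.dvd_card hZ hord (Nat.card_congr (pomegaEquiv (qPlus m F)).toEquiv ▸
      two_dvd_card_pcom hQ (by exact_mod_cast hpF) (by simp; omega))
    rw [← Bal.card_eqLocus hZ, ← not_not (a := _ ∣ _), ← hp.coprime_iff_not_dvd] at h6
    exact (h1 ▸ core_ne_bot_iff_field hQ (by simp; omega) hs hinn hpF h3 h4 trivial).trans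
      ⟨fun h => (h6 h.2).elim, fun h => (h6 h.2).elim⟩
  exact h1 ▸ core_ne_bot_iff_field hQ (by simp; omega) hs hinn hpF h3 h4
    (h1 ▸ field_class hm ho hord hσ)

/-- A criterion for the failure of local balance in almost simple groups whose socle is a plus-type orthogonal group PΩ⁺_{2m}(F) (m ≥ 4; the form Σ xᵢ yᵢ). Let F be a finite field of characteristic r and K the (simple) group in question; let A be a group of automorphisms of K containing all inner automorphisms, and x ∈ A an automorphism of prime order p ≠ r that is not inner-diagonal (not induced by a similarity preserving the two classes of maximal totally singular subspaces). Then the largest normal subgroup of C_A(x) of order prime to p is nontrivial if and only if x is a field automorphism of K (conjugate under Aut(K) to a non-identity standard field automorphism) and p does not divide the number of fixed points of x on K. -/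
theorem result {F : Type*} [Field F] [Fintype F] {r : ℕ} [Fact r.Prime] [CharP F r] {m : ℕ} (hm : 4 ≤ m) (hK : IsSimpleGroup (Cfsg.POmega F (Cfsg.quadFormPlus m F))) (A : Subgroup (MulAut (Cfsg.POmega F (Cfsg.quadFormPlus m F)))) (hinn : ∀ k : Cfsg.POmega F (Cfsg.quadFormPlus m F), MulAut.conj k ∈ A) {p : ℕ} [Fact p.Prime] (hpr : p ≠ r) (x : MulAut (Cfsg.POmega F (Cfsg.quadFormPlus m F))) (hxA : x ∈ A) (hord : orderOf x = p) (hnot : ¬ Cfsg.IsInnerDiagonalAutPOmegaPlus m x) :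
    Cfsg.pPrimeCore p ↥(A ⊓ Subgroup.centralizer {x}) ≠ ⊥ ↔ (Cfsg.IsFieldAutClassPOmega (Cfsg.quadFormPlus m F) x ∧ Nat.Coprime p (Nat.card ↥(MonoidHom.eqLocus x.toMonoidHom (MonoidHom.id (Cfsg.POmega F (Cfsg.quadFormPlus m F)))))) := by
  exact core hm hinn hpr hord (mt isInnerDiagonalAutPOmegaPlus_iff.2 hnot)

end Cfsg.Agent.S2732
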