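import Cfsg.Statements.S2733
import Cfsg.Agent.Lib.Bal.Orth
import Cfsg.Agent.Lib.Orth.Split

set_option autoImplicit false
open Cfsg

namespace Cfsg.Agent.S2733

open Cfsg.Lib Cfsg.Lib.Orth Cfsg.Lib.Orth.Gam

theorem isFieldAutClass_of_formData {F K : Type*} [Field F] [Finite F] [Field K] [Finite K]
    {φ : K →+* F} {m : ℕ} {a b : F} (hab : Aniso a b) {ψ : Gam (qMinus m F a b)} (hσ : ψ.σ ≠ 1)
    {a₀ b₀ : K} (h₀ : Aniso a₀ b₀) (D : FormData ψ φ (qMinus m K a₀ b₀)) :
    IsFieldAutClassPOmegaMinus m (a := a) (b := b) (rhoM (qMinus m F a b) ψ) := by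
  have hd : 4 * φ b₀ - φ a₀ ^ 2 ≠ 0 := by
    have := (map_ne_zero φ).2 (disc_ne_zero_of_anisotropic h₀)
    rwa [map_sub, map_mul, map_pow, map_ofNat] at this
  have hw := wittIndex_sim D.e D.hc D.Q'_minus
  rw [wittIndex_qMinus m hab, wittIndex_congr (qMinus_equivalent _ _ _),
    wittIndex_qPlus_prod (nd_qBin' hd), add_eq_left, wittIndex_eq_zero_iff,
    anisotropic_qBin_iff] at hw
  obtain ⟨κ, hκ⟩ := rhoM_congr D.e D.hc D.Q'_minus
  have h : ∀ v, qMinus m F (φ a₀) (φ b₀) (ψ.σ ∘ v) = ψ.σ (qMinus m F (φ a₀) (φ b₀) v) := fun v => by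
    have := qMinus_comp (ψ.σ : F →+* F) m (φ a₀) (φ b₀) v
    rwa [RingHom.coe_coe, D.σ_φ, D.σ_φ] at this
  have h5 : Gam.congr D.e D.hc D.Q'_minus (field ψ.σ h) = ψ := by
    refine ext' rfl ?_ fun v => ?_
    · have := ψ.map_Q (D.e (φ ∘ Pi.single (.inr 0) 1))
      rw [D.fix, D.map_Q] at this
      simp [qMinus_apply] at this
      rw [congr_c, field_c, field_σ, Units.val_one, mul_one, mul_inv_eq_iff_eq_mul₀
        ((map_ne_zero _).2 D.hc)]
      exact this
    · obtain ⟨v, rfl⟩ := D.e.surjective v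
      rw [congr_T', field_T, D.T_e]
  have h6 := hκ (field ψ.σ h)
  rw [h5] at h6
  have h7 : (κ.trans (rhoM _ ψ)).trans κ.symm = rhoM _ (field ψ.σ h) := MulEquiv.ext fun y => by
    rw [h6]; simp [MulAut.congr]
  exact ⟨_, _, κ.symm, ψ.σ, hw, hσ, D.σ_φ _, D.σ_φ _, (isFieldAut_iff h).2 h7⟩

set_option maxHeartbeats 1600000 in
/-- A criterion for the failure of local balance in almost simple groups whose socle is a minus-type orthogonal group PΩ⁻_{2m+2}(F) (m ≥ 3; the form Σ xᵢ yᵢ + z₁² + a z₁ z₂ + b z₂² with anisotropic binary part). Let F be a finite field of characteristic r and K the (simple) group in question; let A be a group of automorphisms of K containing all inner automorphisms, and x ∈ A an automorphism of prime order p ≠ r that is not inner-diagonal (not induced by a class-preserving similarity, classes read over a quadratic extension). Then the largest normal subgroup of C_A(x) of order prime to p is nontrivial if and only if x is a field automorphism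 of K (conjugate under Aut(K) to a non-identity standard field automorphism) and p does not divide the number of fixed points of x on K. -/
theorem result {F : Type*} [Field F] [Fintype F] {r : ℕ} [Fact r.Prime] [CharP F r] {m : ℕ} (hm : 3 ≤ m) (a b : F) (hab : (∀ z₁ z₂ : F, z₁ ^ 2 + a * z₁ * z₂ + b * z₂ ^ 2 = 0 → z₁ = 0 ∧ z₂ = 0)) (hK : IsSimpleGroup (Cfsg.POmega F (Cfsg.quadFormMinus m F a b))) (A : Subgroup (MulAut (Cfsg.POmega F (Cfsg.quadFormMinus m F a b)))) (hinn : ∀ k : Cfsg.POmega F (Cfsg.quadFormMinus m F a b), MulAut.conj k ∈ A) {p : ℕ} [Fact p.Prime] (hpr : p ≠ r) (x : MulAut (Cfsg.POmega F (Cfsg.quadFormMinus m F a b))) (hxA : x ∈ A) (hord : orderOf x = p) (hnot : ¬ Cfsg.IsInnerDiagonalAutPOmegaMinus m a b x) :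
    Cfsg.pPrimeCore p ↥(A ⊓ Subgroup.centralizer {x}) ≠ ⊥ ↔ (Cfsg.IsFieldAutClassPOmegaMinus m x ∧ Nat.Coprime p (Nat.card ↥(MonoidHom.eqLocus x.toMonoidHom (MonoidHom.id (Cfsg.POmega F (Cfsg.quadFormMinus m F a b)))))) := by
  have hQ := nd_qMinus m hab
  have hs := range_rhoM_minus hm hab
  obtain ⟨g, rfl⟩ := hs.ge (Subgroup.mem_top x)
  have hpF : (p : F) ≠ 0 := fun h => hpr ((Nat.prime_dvd_prime_iff_eq
    Fact.out Fact.out).1 ((CharP.cast_eq_zero_iff F r p).1 h)).symm
  by_cases hσ : g.σ = 1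
  · have hd : dl hQ g ≠ 1 := fun h =>
      hnot ((isInnerDiagonalAutPOmegaMinus_iff hab).2 ⟨g, mem_GOz.2 ⟨hσ, h⟩, rfl⟩)
    have := Bal.core_iff_graph hQ (even_finrank_minus m) (by simp; omega) hinn hpF hσ hd hord
      (fun _ n _ _ => hs.ge (Subgroup.mem_top n))
      (IsFieldAutClassPOmegaMinus m (a := a) (b := b) (rhoM (qMinus m F a b) g))
    exact this
  obtain ⟨ψ, h1, h2, h3, h4⟩ := exists_pow_eq_one_of_rho (ker_rhoM hQ (not_exc_of_five_le
    (by simp; omega)) (by simp; omega)) hord hσ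
  obtain ⟨b₀, hb₀⟩ := exists_aniso_one (Linear.fixField ψ.σ)
  obtain ⟨D⟩ := nonempty_formData_minus hQ (m := m) (by simp [two_mul]) h4 (mem_range_fixField _)
    (fun U hU => absurd hU (not_lag_qMinus hab U)) hb₀
  have := core_ne_bot_iff_field hQ (by simp; omega) hs hinn hpF h3 h4
    (isFieldAutClass_of_formData hab (h2.trans_ne hσ) hb₀ D)
  rw [h1] at this
  exact this

end Cfsg.Agent.S2733
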