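import Cfsg.Statements.S2905
import Cfsg.Agent.Lib.PLocal.PMin

set_option autoImplicit false
open Cfsg

set_option linter.unusedVariables false
open Cfsg.Lib

namespace Cfsg.Agent.S2905

/-- Let P be a finite p-minimal group (a Sylow p-subgroup S is not normal and lies in a unique maximal subgroup M of P) and let F be the normal core of M. Then: every subnormal subgroup N of P contained in M satisfies N ∩ S ≤ O_p(P); if O^p(P) has a normal Sylow p-subgroup then the order of P has at most two prime divisors; every normal subgroup N of P either contains O^p(P) or is contained in F; and O^p(P)F ⧸ F is a minimal normal subgroup of P ⧸ F. -/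
theorem result {P : Type*} [Group P] [Finite P] {p : ℕ} [Fact p.Prime] (hP : Cfsg.IsPMinimal p P) (S : Sylow p P) (M : Subgroup P) (hM : IsCoatom M) (hSM : (S : Subgroup P) ≤ M) [hF : M.normalCore.Normal] : (∀ N : Subgroup P, N.IsSubnormal → N ≤ M → N ⊓ (S : Subgroup P) ≤ Cfsg.pCore p P) ∧ ((∀ T : Sylow p ↥(Cfsg.pResidual p P), (T : Subgroup ↥(Cfsg.pResidual p P)).Normal) → (Nat.card P).primeFactors.card ≤ 2) ∧ (∀ N : Subgroup P, N.Normal → Cfsg.pResidual p P ≤ N ∨ N ≤ M.normalCore) ∧ (∀ N : Subgroup P, N.Normal → M.normalCore ≤ N → N ≤ Cfsg.pResidual p P ⊔ M.normalCore → N = M.normalCore ∨ N = Cfsg.pResidual p P ⊔ M.normalCore) ∧ M.normalCore < Cfsg.pResidual p P ⊔ M.normalCore := by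
  open Subgroup Transfer PLocal in
  have h := pMin_top_of_isPMinimal hP S hM hSM
  have h3 : ∀ N : Subgroup P, N.Normal → pResidual p P ≤ N ∨ N ≤ M.normalCore := by
    intro N hN
    rcases h.res_le_or_le (N := N) le_top (by rw [normalizer_eq_top]; exact le_top) with h1 | h1
    · exact Or.inl (by rwa [Loc.res_top] at h1)
    · exact Or.inr (normal_le_normalCore.mpr h1)
  have h4 : ¬ pResidual p P ≤ M := Loc.res_top (G := P) (p := p) ▸ h.not_res_le
  refine ⟨fun N hN hNM => ?_, fun hT => ?_, h3, fun N hN h1 h2 => ?_, ?_⟩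
  · exact Loc.core_top (G := P) (p := p) ▸ h.inf_le_core_of_subnormalIn hNM (Core.subnormalIn_top.mpr hN)
  · set R := pResidual p P with hR
    obtain ⟨T⟩ : Nonempty (Sylow p R) := inferInstance
    have hTR := Core.pCore_eq_sylow_of_normal T (hT T)
    let O := pCore p P
    let f := QuotientGroup.mk' O
    have hOM : O ≤ M := (Core.pCore_le_sylow S).trans hSM
    have hRc : (Nat.card (R.map f)).Coprime p := by
      rw [Core.card_map_mk'_eq_relIndex, Core.coprime_iff_not_dvd, ← inf_relIndex_right,
        ← Core.pCoreOf_eq_inf_of_normal, hTR]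
      exact not_dvd_relIndex_map_sylow T
    have h' := h.map f (by rw [QuotientGroup.ker_mk']; exact inf_le_right.trans hOM) (by
      intro hn
      apply h.not_normal
      have h5 : ((S : Subgroup P).map f).comap f = S := by
        rw [Core.comap_map_mk']; exact sup_eq_left.mpr (Core.pCore_le_sylow S)
      rw [← h5]
      exact le_trans (map_le_iff_le_comap.mp hn) (le_normalizer_comap f))
    have hn : (R.map f).Normal := Subgroup.Normal.map inferInstance f (QuotientGroup.mk'_surjective O)
    obtain ⟨q, Q, hq, -, hQ, hSQ, hsup⟩ := h'.exists_sylow_sup_eq (K := R.map f) (map_mono le_top) hRc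
      (by rw [normalizer_eq_top]; exact le_top) (by
        rw [Core.map_mk'_le_map_mk'_iff, sup_eq_left.mpr hOM]; exact h4)
    have := Fact.mk hq
    obtain ⟨a, ha⟩ := IsPGroup.iff_card.mp hQ
    obtain ⟨b, hb⟩ := IsPGroup.iff_card.mp h'.pgroup
    obtain ⟨c, hc⟩ := Core.card_pCore_eq_pow (G := P) p
    have h6 := Coprime.card_sup_dvd hSQ
    rw [hsup, ha, hb, Subgroup.map_top_of_surjective _ (QuotientGroup.mk'_surjective O),
      Subgroup.card_top] at h6
    have h7 : Nat.card P ∣ q ^ a * p ^ b * p ^ c := by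
      rw [Subgroup.card_eq_card_quotient_mul_card_subgroup O, hc]
      exact mul_dvd_mul_right h6 _
    refine le_trans (Finset.card_le_card (t := {q, p}) fun r hr => ?_) Finset.card_le_two
    have hr' := Nat.prime_of_mem_primeFactors hr
    have := (Nat.dvd_of_mem_primeFactors hr).trans h7
    rw [mul_assoc, ← pow_add, hr'.dvd_mul] at this
    rcases this with h8 | h8
    · simp [(Nat.prime_dvd_prime_iff_eq hr' hq).mp (hr'.dvd_of_dvd_pow h8)]
    · simp [(Nat.prime_dvd_prime_iff_eq hr' Fact.out).mp (hr'.dvd_of_dvd_pow h8)]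
  · rcases h3 N hN with h5 | h5
    · exact Or.inr (le_antisymm h2 (sup_le h5 h1))
    · exact Or.inl (le_antisymm h5 h1)
  · exact right_lt_sup.mpr fun h5 => h4 (h5.trans M.normalCore_le)

end Cfsg.Agent.S2905
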