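import Cfsg.Statements.S2906
import Cfsg.Agent.Lib.PLocal.PMin
import Cfsg.Agent.Lib.Loc.PClosed

set_option autoImplicit false
open Cfsg

set_option linter.unusedVariables false
open Cfsg.Lib

namespace Cfsg.Agent.S2906

/-- Let P be a finite p-minimal group with O_p(P) = 1, S a Sylow p-subgroup of P and K a component of P. Then O^p(P) = F*(P) = E(P) is generated by the S-conjugates of K, and the subgroup K·N_S(K) is again p-minimal. -/
theorem result {P : Type*} [Group P] [Finite P] {p : ℕ} [Fact p.Prime] (hP : Cfsg.IsPMinimal p P) (hOp : Cfsg.pCore p P = ⊥) (S : Sylow p P) (K : Subgroup P) (hK : Cfsg.IsComponent K) : Cfsg.pResidual p P = Cfsg.generalizedFittingSubgroup P ∧ Cfsg.generalizedFittingSubgroup P = Cfsg.layer P ∧ Cfsg.layer P = ⨆ s : ↥(S : Subgroup P), K.map (MulAut.conj (s : P)).toMonoidHom ∧ Cfsg.IsPMinimal p ↥(K ⊔ ((S : Subgroup P) ⊓ Subgroup.normalizer (K : Set P))) := by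
  open Subgroup Transfer PLocal in
  obtain ⟨M, h⟩ := (isPMinimal_iff_top S).mp hP
  have hO : pCoreOf p (⊤ : Subgroup P) = ⊥ := Loc.core_top.trans hOp
  have hKK := Comp.isComponent_commutator_self hK
  have hKns : ∀ N : Subgroup P, Group.IsNilpotent N → ¬ K ≤ N := fun N hN =>
    Comp.qs_not_le_of_isSolvable hK.2 inferInstance
  have hKM : ¬ K ≤ M := by
    intro hKM
    obtain ⟨F, h1, h2, h3⟩ := h.exists_normal_of_subnormalIn hKM (Core.subnormalIn_top.mpr hK.1)
    have h4 := h.inf_le_core h2 h3
    rw [hO, le_bot_iff] at h4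
    have := Core.normal_of_top_le_normalizer h3
    exact hKns F (h.isNilpotent_of_coprime h2 h3 (card_coprime_of_normal_inf_sylow_eq_bot F S h4)) h1
  set E := ⨆ s : ↥(S : Subgroup P), K.map (MulAut.conj (s : P)).toMonoidHom with hE
  have hKE : K ≤ E := Core.le_iSup_conj K S
  have hSE : (S : Subgroup P) ≤ normalizer (E : Set P) := Core.le_normalizer_iSup_conj K S
  have hEL : E ≤ layer P := iSup_le fun s => Comp.le_layer (Comp.isComponent_map_conj hK s)
  have hRE : pResidual p P ≤ E := by
    rcases h.res_le_or_le (N := E) le_top hSE with h1 | h1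
    · rwa [Loc.res_top] at h1
    · exact absurd (hKE.trans h1) hKM
  have hLR : layer P ≤ pResidual p P :=
    Loc.res_top (G := P) (p := p) ▸ Loc.le_res_of_perfect Comp.commutator_layer_self le_top
  have hFR : fittingSubgroup P ≤ pResidual p P :=
    (Core.fittingSubgroup_le_pPrimeCore hOp).trans
      (Loc.res_top (G := P) (p := p) ▸ Loc.le_res_of_coprime le_top (Core.pPrimeCore_coprime p P))
  have hLE : layer P = E := le_antisymm (hLR.trans hRE) hEL
  have hFL : generalizedFittingSubgroup P = layer P :=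
    sup_eq_left.mpr (hFR.trans (hRE.trans hEL))
  refine ⟨le_antisymm (hRE.trans (hEL.trans le_sup_left)) (sup_le hLR hFR), hFL, hLE, ?_⟩
  set T := (S : Subgroup P) ⊓ normalizer (K : Set P) with hT
  have hTK : T ≤ normalizer (K : Set P) := inf_le_right
  have hTp : IsPGroup p T := S.isPGroup'.to_le inf_le_left
  have hSK : ¬ p ∣ (S : Subgroup P).relIndex K :=
    (Core.subnormalIn_top.mpr hK.1).not_dvd_relIndex h.syl
  have hTK' : T ⊓ K = (S : Subgroup P) ⊓ K := by
    rw [hT, inf_assoc, inf_eq_right.mpr le_normalizer]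
  have hTi : ¬ p ∣ T.relIndex (K ⊔ T) := by
    rw [Coprime.relIndex_sup_right_of_le_normalizer hTK, ← inf_relIndex_right, hTK',
      inf_relIndex_right]
    exact hSK
  refine (isPMinimal_iff le_sup_right hTp hTi).mpr ⟨(K ⊔ T) ⊓ M, hTp, hTi,
    le_inf le_sup_right (inf_le_left.trans h.le),
    inf_lt_left.mpr fun h1 => hKM (le_sup_left.trans h1), fun U hTU hU => ?_, fun hn => ?_⟩
  · refine le_inf hU.le ?_
    have hUeq : U = (U ⊓ K) ⊔ T := by
      have := Core.sup_inf_of_le_normalizer hTU hTK
      rw [sup_comm T K, inf_eq_right.mpr hU.le] at this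
      rw [sup_comm, inf_comm]; exact this
    rw [hUeq]
    refine sup_le ?_ (inf_le_left.trans h.le)
    by_contra hUM
    set Y := ⨆ s : ↥(S : Subgroup P), (s : P) ⋆ (U ⊓ K) with hY
    have hUY : U ⊓ K ≤ Y := Core.le_iSup_conj (U ⊓ K) (S : Subgroup P)
    have hRY : pResidual p P ≤ Y := by
      rcases h.res_le_or_le (N := Y) le_top (Core.le_normalizer_iSup_conj (U ⊓ K) (S : Subgroup P)) with h1 | h1
      · rwa [Loc.res_top] at h1
      · exact absurd (hUY.trans h1) hUM
    have hYD : Y ≤ (U ⊓ K) ⊔ centralizer (K : Set P) := by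
      refine iSup_le fun s => ?_
      by_cases hs : (s : P) ∈ normalizer (K : Set P)
      · have : (s : P) ∈ normalizer ((U ⊓ K : Subgroup P) : Set P) :=
          Core.le_normalizer_inf (hTU.trans le_normalizer) hTK ⟨s.2, hs⟩
        rw [conj_eq_self_iff.mpr this]
        exact le_sup_left
      · refine le_sup_of_le_right ((conj_mono _ inf_le_right).trans ?_)
        rw [← Subgroup.commutator_eq_bot_iff_le_centralizer]
        exact Comp.isComponent_commutator_eq_bot_of_ne (Comp.isComponent_map_conj hK s) hK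
          fun h1 => hs (conj_eq_self_iff.mp h1)
    have hKD : K ≤ (U ⊓ K) ⊔ centralizer (K : Set P) :=
      (Comp.le_layer hK).trans (hLR.trans (hRY.trans hYD))
    have h1 : (U ⊓ K) ⊔ (centralizer (K : Set P) ⊓ K) = K := by
      rw [← Core.sup_inf_of_le_normalizer inf_le_right
        (Core.le_normalizer_centralizer (inf_le_right.trans le_normalizer))]
      exact inf_eq_right.mpr hKD
    have h2 := Comp.commutator_le_of_sup_centralizer inf_le_right inf_le_left h1
    rw [hKK] at h2
    have h3 : K ≤ U := h2.le.trans 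
      ((Coprime.commutator_le_of_le_normalizer le_normalizer).trans inf_le_left)
    exact hU.not_ge (sup_le h3 hTU)
  · have h1 : K ≤ normalizer ((T ⊓ K : Subgroup P) : Set P) :=
      Core.le_normalizer_inf (le_sup_left.trans hn) le_normalizer
    have h2 := Core.le_pCore_of_isSubnormal
      ((Core.SubnormalIn.of_le_normalizer inf_le_right h1).isSubnormal hK.1) (hTp.to_le inf_le_left)
    rw [hOp, le_bot_iff, hTK'] at h2
    have hKc : (Nat.card K).Coprime p := by
      rw [Core.coprime_iff_not_dvd, ← Core.card_inf_mul_relIndex (S : Subgroup P) K, h2]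
      simpa using hSK
    have h3 := Core.le_pPrimeCore_of_isSubnormal hK.1 hKc
    obtain ⟨q, Q, hq, hQK, hQ, hSQ, hsup⟩ := h.exists_sylow_sup_eq (K := pPrimeCore p P) le_top
      (Core.pPrimeCore_coprime p P) (by rw [normalizer_eq_top]; exact le_top)
      fun h4 => hKM (h3.trans h4)
    have := Fact.mk hq
    have h4 : pResidualOf p (⊤ : Subgroup P) ≤ Q := by
      rw [← hsup, sup_comm, Loc.res_sup_of_isPGroup h.pgroup hSQ]
      exact Loc.res_le p Q
    exact hKns Q hQ.isNilpotent ((Loc.le_res_of_perfect hKK le_top).trans h4)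

end Cfsg.Agent.S2906
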