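import Cfsg.Statements.S2907
import Cfsg.Agent.Lib.PGroup.Commutator
import Cfsg.Agent.Lib.PGroup.Basic
import Cfsg.Agent.Lib.Core.Basic

set_option autoImplicit false
open Cfsg

set_option linter.unusedVariables false
open Cfsg.Lib
open scoped commutatorElement

namespace Cfsg.Agent.S2907

/-- Let X be a finite semi-extraspecial p-group and x an element of X outside the centre. Then the index of C_X(x) in X equals the order of Z(X), and the commutators [x, y], y ∈ X, form exactly the centre Z(X). -/
theorem result {X : Type*} [Group X] [Finite X] {p : ℕ} [Fact p.Prime] (hX : Cfsg.IsSemiExtraspecial p X) (x : X) (hx : x ∉ Subgroup.center X) : (Subgroup.centralizer ({x} : Set X)).index = Nat.card ↥(Subgroup.center X) ∧ {z : X | ∃ y : X, z = x * y * x⁻¹ * y⁻¹} = (Subgroup.center X : Set X) := by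
  open Subgroup in
  obtain ⟨⟨hp, -, hcomm⟩, hY⟩ := hX
  have hc : ∀ a b : X, ⁅a, b⁆ ∈ center X := fun a b =>
    hcomm ▸ commutator_mem_commutator (mem_top a) (mem_top b)
  let φ : X →* X := MonoidHom.mk' (fun y => ⁅x, y⁆) fun a b =>
    PGroup.commutator_mul_right_of_commute (mem_center_iff.mp (hc _ _) _)
  have hker : φ.ker = centralizer ({x} : Set X) := by
    ext y
    rw [MonoidHom.mem_ker, mem_centralizer_singleton_iff]
    exact commutatorElement_eq_one_iff_mul_comm.trans eq_comm
  have hle : φ.range ≤ center X := by rintro _ ⟨y, rfl⟩; exact hc _ _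
  have hrange : φ.range = center X := by
    by_contra hne
    have h1 : φ.range.subgroupOf (center X) ≠ ⊤ := fun h =>
      hne (le_antisymm hle (subgroupOf_eq_top.mp h))
    obtain ⟨M, hM, hle'⟩ := Core.exists_coatom_ge h1
    obtain ⟨hn, hE⟩ := hY (M.map (center X).subtype) (map_subtype_le M)
      (by rwa [Core.subgroupOf_map_subtype_self])
    set Y := M.map (center X).subtype with hYdef
    have h2 : (center X).map (QuotientGroup.mk' Y) ≤ center (X ⧸ Y) := by
      rintro _ ⟨z, hz, rfl⟩
      refine mem_center_iff.mpr fun w => ?_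
      obtain ⟨w, rfl⟩ := QuotientGroup.mk'_surjective Y w
      rw [← map_mul, ← map_mul, mem_center_iff.mp hz w]
    have h3 : (center X).map (QuotientGroup.mk' Y) = center (X ⧸ Y) := by
      refine Core.eq_of_le_of_card_eq h2 ?_
      rw [hE.2, Core.card_map_mk'_eq_relIndex, Core.relIndex_map_subtype]
      exact PGroup.index_eq_of_isCoatom (hp.to_subgroup _) hM
    have h4 : QuotientGroup.mk' Y x ∈ center (X ⧸ Y) := by
      refine mem_center_iff.mpr fun w => ?_
      obtain ⟨w, rfl⟩ := QuotientGroup.mk'_surjective Y w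
      refine (commutatorElement_eq_one_iff_mul_comm.mp ?_).symm
      rw [← map_commutatorElement]
      exact (QuotientGroup.eq_one_iff _).mpr ⟨⟨_, hc x w⟩, hle' ⟨w, rfl⟩, rfl⟩
    rw [← h3, ← mem_comap, Core.comap_map_mk', sup_eq_left.mpr (map_subtype_le M)] at h4
    exact hx h4
  refine ⟨by rw [← hker, index_ker, hrange], ?_⟩
  rw [← hrange]
  ext z
  exact ⟨fun ⟨y, hy⟩ => ⟨y, hy.symm⟩, fun ⟨y, hy⟩ => ⟨y, hy.symm⟩⟩

end Cfsg.Agent.S2907
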