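import Cfsg.Statements.S2908
import Cfsg.Agent.Lib.Coprime.Nilpotent
import Cfsg.Agent.Lib.Core.PPrimeCore

set_option autoImplicit false
open Cfsg

set_option linter.unusedVariables false
open Cfsg.Lib

namespace Cfsg.Agent.S2908

/-- Let P be a p-subgroup of a finite group, normalized by a p-subgroup A and by a subgroup B of order prime to p that commutes elementwise with A. If [P, B] ≤ [P, A], then B centralizes P. -/
theorem result {G : Type*} [Group G] [Finite G] {p : ℕ} [Fact p.Prime] (P A B : Subgroup G) (hP : IsPGroup p ↥P) (hA : IsPGroup p ↥A) (hB : ¬ p ∣ Nat.card ↥B) (hnA : A ≤ Subgroup.normalizer (P : Set G)) (hnB : B ≤ Subgroup.normalizer (P : Set G)) (hAB : ⁅A, B⁆ = ⊥) (hcomm : ⁅P, B⁆ ≤ ⁅P, A⁆) : ⁅P, B⁆ = ⊥ := by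
  open Subgroup in
  have hBc : (Nat.card B).Coprime (Nat.card P) :=
    Coprime.coprime_card_of_isPGroup hP (Core.coprime_iff_not_dvd.mpr hB)
  have hAB' : A ≤ centralizer (B : Set G) := commutator_eq_bot_iff_le_centralizer.mp hAB
  have hBA : B ≤ normalizer (A : Set G) :=
    (le_centralizer_iff.mp hAB').trans (centralizer_le_normalizer _)
  set Q := ⁅P, B⁆ with hQ
  have hQP : Q ≤ P := Coprime.commutator_le_of_le_normalizer hnB
  have hPQ : P ≤ normalizer (Q : Set G) := normalizer_commutator_ge_left P B
  have hAQ : A ≤ normalizer (Q : Set G) :=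
    Core.le_normalizer_commutator hnA (hAB'.trans (centralizer_le_normalizer _))
  have hBQ : B ≤ normalizer (Q : Set G) := Core.le_normalizer_commutator hnB le_normalizer
  by_contra hne
  have hlt := PGroup.commutator_lt (hP.to_le hQP) (PGroup.isPGroup_sup_of_le_normalizer hP hA hnA)
    (sup_le hPQ hAQ) hne
  set R := ⁅Q, P ⊔ A⁆ with hR
  set C := P ⊓ centralizer (B : Set G) with hC
  have hPR : P ≤ normalizer (R : Set G) :=
    Core.le_normalizer_commutator hPQ (le_sup_left.trans le_normalizer)
  have hBR : B ≤ normalizer (R : Set G) :=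
    Core.le_normalizer_commutator hBQ (Core.le_normalizer_sup hnB hBA)
  have h1 : Q ⊔ C = P := Coprime.commutator_sup_centralizer hnB hBc
    (Or.inr (Coprime.isSolvable_of_isPGroup hP))
  have h2 : ⁅Q ⊔ C, A⁆ ≤ R ⊔ C := by
    refine Core.commutator_sup_le ?_ (le_sup_right.trans le_normalizer)
      ((commutator_mono le_rfl le_sup_right).trans le_sup_left) (le_sup_of_le_right ?_)
    · refine Coprime.le_normalizer_of_commutator_le (K := P)
        (sup_le (hlt.le.trans hQP) inf_le_left) ?_
      rw [Subgroup.commutator_comm]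
      exact (commutator_mono le_rfl le_sup_left).trans le_sup_left
    · exact Coprime.commutator_le_of_le_normalizer (Core.le_normalizer_inf hnA
        (Core.le_normalizer_centralizer (hAB'.trans (centralizer_le_normalizer _))))
  rw [h1] at h2
  have h3 : ⁅Q, B⁆ ≤ ⁅R ⊔ C, B⁆ := commutator_mono (hcomm.trans h2) le_rfl
  rw [Coprime.commutator_sup_of_le_centralizer (inf_le_left.trans hPR) inf_le_right, hQ,
    Coprime.commutator_commutator_eq' hnB hBc] at h3
  exact hlt.not_ge (h3.trans (Coprime.commutator_le_of_le_normalizer hBR))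

end Cfsg.Agent.S2908
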