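import Cfsg.Statements.S2909
import Cfsg.Agent.Lib.Coprime.Generation
import Cfsg.Agent.S2908
import Cfsg.Agent.Lib.PGroup.Omega

set_option autoImplicit false
open Cfsg

set_option linter.unusedVariables false
open Cfsg.Lib

namespace Cfsg.Agent.S2909

/-- Let p be a prime, E a normal p-subgroup of the finite group G, and U a non-cyclic elementary abelian p-subgroup of G such that either C_E(U) = C_E(u) for every nontrivial u ∈ U, or [E, U] = [E, ⟨u⟩] for every nontrivial u ∈ U. If R is a subgroup of order prime to p normalized by U, then [R, U] centralizes E. -/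
theorem result {G : Type*} [Group G] [Finite G] {p : ℕ} [Fact p.Prime] (E : Subgroup G) [E.Normal] (hE : IsPGroup p ↥E) (U : Subgroup G) (hU : Cfsg.IsElementaryAbelian p U) (hnc : ¬ IsCyclic ↥U) (hcond : (∀ u ∈ U, u ≠ 1 → E ⊓ Subgroup.centralizer (U : Set G) = E ⊓ Subgroup.centralizer ({u} : Set G)) ∨ (∀ u ∈ U, u ≠ 1 → ⁅E, U⁆ = ⁅E, Subgroup.zpowers u⁆)) (R : Subgroup G) (hR : ¬ p ∣ Nat.card ↥R) (hRU : U ≤ Subgroup.normalizer (R : Set G)) : ⁅R, U⁆ ≤ Subgroup.centralizer (E : Set G) := by
  open Subgroup in
  have hUp := PGroup.elemAb_isPGroup hU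
  have hRc : (Nat.card R).Coprime p := Core.coprime_iff_not_dvd.mpr hR
  have hcop : (Nat.card U).Coprime (Nat.card R) := Core.coprime_card_of_isPGroup hUp hRc
  have hE' : ∀ H : Subgroup G, H ≤ normalizer (E : Set G) := fun H => by
    rw [normalizer_eq_top]; exact le_top
  let N := centralizer (E : Set G)
  rw [Core.commutator_le_iff_map_mk', commutator_eq_bot_iff_le_centralizer, map_le_iff_le_comap]
  refine Coprime.le_of_forall_centralizer_le hU.1 hnc hRU hcop fun u hu hu1 => ?_
  rw [← map_le_iff_le_comap, ← commutator_eq_bot_iff_le_centralizer,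
    ← Core.commutator_le_iff_map_mk']
  set D := R ⊓ centralizer ({u} : Set G) with hD
  have hUu : U ≤ centralizer (zpowers u : Set G) :=
    (PGroup.elemAb_le_centralizer hU).trans (centralizer_le (SetLike.coe_subset_coe.mpr
      (zpowers_le.mpr hu)))
  have hUD : U ≤ normalizer (D : Set G) := by
    rw [hD, ← Core.centralizer_zpowers]
    exact Core.le_normalizer_inf hRU (Core.le_normalizer_centralizer
      (hUu.trans (centralizer_le_normalizer _)))
  set B := ⁅D, U⁆ with hB
  have hBD : B ≤ D := Coprime.commutator_le_of_le_normalizer hUD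
  have hBB : ⁅B, U⁆ = B := Coprime.commutator_commutator_eq' hUD
    (Core.coprime_card_of_isPGroup hUp (Core.coprime_of_le inf_le_left hRc))
  have hBc : (Nat.card B).Coprime p := Core.coprime_of_le (hBD.trans inf_le_left) hRc
  have hBu : B ≤ centralizer (zpowers u : Set G) := by
    rw [Core.centralizer_zpowers]; exact hBD.trans inf_le_right
  have hup : IsPGroup p (zpowers u) := hUp.to_le (zpowers_le.mpr hu)
  rcases hcond with h | h
  · refine Coprime.p_times_q hup hBc hE (le_centralizer_iff.mp hBu) (hE' _) (hE' _) ?_
    have h1 : E ⊓ centralizer (zpowers u : Set G) ≤ centralizer (U : Set G) := by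
      rw [Core.centralizer_zpowers, ← h u hu hu1]; exact inf_le_right
    have h2 : B ≤ normalizer ((E ⊓ centralizer (zpowers u : Set G) : Subgroup G) : Set G) :=
      Core.le_normalizer_inf (hE' _)
        (Core.le_normalizer_centralizer (hBu.trans (centralizer_le_normalizer _)))
    rw [le_centralizer_iff, ← commutator_eq_bot_iff_le_centralizer, ← hBB]
    refine commutator_commutator_eq_bot_of_rotate ?_ ?_
    · rw [Subgroup.commutator_comm U, commutator_eq_bot_iff_le_centralizer.mpr h1, commutator_bot_left]
    · exact commutator_eq_bot_iff_le_centralizer.mpr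
        ((Coprime.commutator_le_of_le_normalizer h2).trans h1)
  · rw [← commutator_eq_bot_iff_le_centralizer, Subgroup.commutator_comm]
    refine Cfsg.Agent.S2908.result E (zpowers u) B hE hup (Core.coprime_iff_not_dvd.mp hBc)
      (hE' _) (hE' _) (commutator_eq_bot_iff_le_centralizer.mpr (le_centralizer_iff.mp hBu)) ?_
    have h2 : B ≤ normalizer ((⁅E, zpowers u⁆ : Subgroup G) : Set G) :=
      Core.le_normalizer_commutator (hE' _) (hBu.trans (centralizer_le_normalizer _))
    rw [Subgroup.commutator_comm E B, ← hBB]
    refine Core.three_subgroups h2 ?_ (normalizer_commutator_ge_left _ _) ?_ ?_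
    · rw [← h u hu hu1]; exact normalizer_commutator_ge_right _ _
    · rw [Subgroup.commutator_comm U, h u hu hu1]
      exact Coprime.commutator_le_of_le_normalizer h2
    · rw [← h u hu hu1]
      exact commutator_mono (commutator_le_left _ _) le_rfl

end Cfsg.Agent.S2909
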