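import Cfsg.Statements.S2912
import Cfsg.Agent.Lib.PGroup.ExtraRep

set_option autoImplicit false
open Cfsg

namespace Cfsg.Agent.S2912

open Subgroup Cfsg.Lib

/-- Let p and r be distinct primes, let E be an extraspecial subgroup of order p^(2w+1) of a finite group, and let A be an elementary abelian r-subgroup normalized by E on which E acts faithfully (C_E(A) = 1). If n ≥ 1 is least with p dividing rⁿ − 1 (the smallest dimension of a faithful representation of a group of order p over the field with r elements), then the order of A is at least r^(n·p^w). -/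
theorem result {G : Type*} [Group G] [Finite G] {p r : ℕ} [Fact p.Prime] [hr : Fact r.Prime] (hpr : p ≠ r) (E A : Subgroup G) (w : ℕ) (hE : Cfsg.IsExtraspecial p ↥E) (hEcard : Nat.card ↥E = p ^ (2 * w + 1)) (hA : Cfsg.IsElementaryAbelian r A) (hnorm : E ≤ Subgroup.normalizer (A : Set G)) (hfaith : E ⊓ Subgroup.centralizer (A : Set G) = ⊥) (n : ℕ) (hn : 1 ≤ n) (hdiv : p ∣ r ^ n - 1) (hmin : ∀ k : ℕ, 1 ≤ k → p ∣ r ^ k - 1 → n ≤ k) : r ^ (n * p ^ w) ≤ Nat.card ↥A := by
  have hZ := hE.2
  obtain ⟨z, hz⟩ := (ne_bot_iff_exists_ne_one (H := center E)).1 fun h => by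
    rw [h, card_bot] at hZ
    exact (Fact.out : p.Prime).one_lt.ne hZ
  have hi : (center E).index = p ^ (2 * w) := by
    have := (center E).card_mul_index
    rw [hZ, hEcard, pow_succ'] at this
    exact Nat.eq_of_mul_eq_mul_left (Fact.out : p.Prime).pos this
  refine @PGroup.pow_le_card_of_aut E _ _ p r _ _ A
    { (inferInstance : Group A) with mul_comm := hA.1.is_comm.comm } _
    (fun x => Subtype.ext (hA.2 x x.2)) hpr hE.1.1 hE.1.2.2.le hZ w n hi hmin z z.2
    (A.normalizerMonoidHom.comp (inclusion hnorm)) fun h => hz ?_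
  have h1 : inclusion hnorm z ∈ A.normalizerMonoidHom.ker := h
  rw [normalizerMonoidHom_ker] at h1
  have h2 : ((z : E) : G) ∈ E ⊓ centralizer (A : Set G) := ⟨(z : E).2, h1⟩
  rw [hfaith, mem_bot] at h2
  exact Subtype.ext (Subtype.ext h2)

end Cfsg.Agent.S2912
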