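import Cfsg.Statements.S2924
import Cfsg.Agent.Lib.Sig.Core3

set_option autoImplicit false
open Cfsg

namespace Cfsg.Agent.S2924

open Subgroup Cfsg.Lib Cfsg.Lib.BG Cfsg.Lib.Sig
open scoped Cfsg.Lib.Transfer

/-- Let X be a finite group and Y an elementary abelian 2-subgroup of X of order at least 8 such that C_X(x) has no components (E(C_X(x)) = 1) for every nontrivial x ∈ Y, and F*(C_X(z)) = O₂(C_X(z)) for some nontrivial z ∈ Y. Then the subgroup generated by the cores O(C_X(y)), y ∈ Y nontrivial, has odd order and is normalized by N_X(Y). -/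
theorem result {X : Type*} [Group X] [Finite X] (Y : Subgroup X) (hY : Cfsg.IsElementaryAbelian 2 Y) (h8 : 8 ≤ Nat.card ↥Y) (hE : ∀ x ∈ Y, x ≠ 1 → Cfsg.layer ↥(Subgroup.centralizer ({x} : Set X)) = ⊥) (hz : ∃ z ∈ Y, z ≠ 1 ∧ Cfsg.generalizedFittingSubgroup ↥(Subgroup.centralizer ({z} : Set X)) = Cfsg.pCore 2 ↥(Subgroup.centralizer ({z} : Set X))) : Odd (Nat.card ↥(⨆ y : {y : X // y ∈ Y ∧ y ≠ 1}, (Cfsg.oddCore ↥(Subgroup.centralizer ({(y : X)} : Set X))).map (Subgroup.centralizer ({(y : X)} : Set X)).subtype)) ∧ Subgroup.normalizer (Y : Set X) ≤ Subgroup.normalizer ((⨆ y : {y : X // y ∈ Y ∧ y ≠ 1}, (Cfsg.oddCore ↥(Subgroup.centralizer ({(y : X)} : Set X))).map (Subgroup.centralizer ({(y : X)} : Set X)).subtype : Subgroup X) : Set X) := by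
  obtain ⟨z, hz, hz1, hF⟩ := hz
  obtain ⟨hL, hO⟩ := Comp.genFitting_eq_pCore_iff_pLayer.1 hF
  have hp : ∀ a ∈ Y, IsPGroup 2 (zpowers a) := fun a ha =>
    (elab_pgroup hY).to_le (zpowers_le.2 ha)
  have hc : ∀ a ∈ Y, ∀ b ∈ Y, a ∈ 𝐂[b] := fun a ha b hb => cent_le_cent1 hb (abelian_cent hY.1 ha)
  have hn : ∀ a ∈ Y, z ∈ 𝐍(centralizerPPrimeCore 2 a) := fun a ha =>
    core_eq (p := 2) a ▸ (pcore_nml _ _).norm (hc z hz a ha)
  have hi : ∀ a ∈ Y, ∀ k ∈ centralizerPPrimeCore 2 a, z * k * z⁻¹ = k⁻¹ := fun a ha =>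
    Perm.inv_of_fpf_involution (by rw [← sq]; exact hY.2 z hz) (hn a ha) fun k hk e => by
      have := core_inf_le hL (hp a ha) (hc a ha z hz) ⟨hk, mem_cent1.2 e.symm⟩
      rwa [centralizerPPrimeCore, hO, Subgroup.map_bot, mem_bot] at this
  have hθ := core_functor (p := 2) hY.1 (fun a _ _ => sol_of_two' (core_p' a))
    fun a ha _ b hb hb1 => by
      rw [core_eq b]
      refine le_p'core_of_cent (hE b hb hb1) inf_le_right ((core_p' a).of_le inf_le_left)
        (core_inf_le_cent (hp a ha) (hc a ha b hb)) (le_cent_iff.2 fun d hd u hu => ?_)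
      have h1 := conj_mem_of_norm ((pcore_nml _ _).norm hd.2) hu
      rw [← core_eq] at hu h1
      have h2 := hi b hb _ h1
      rw [show z * (d * u * d⁻¹) * z⁻¹ = z * d * z⁻¹ * (z * u * z⁻¹) * (z * d * z⁻¹)⁻¹ by group,
        hi a ha d hd.1, hi b hb u hu] at h2
      have h3 : d ^ 2 ^ 1 ∈ 𝐂[u] := by
        rw [mem_cent1]
        have h4 := inv_injective (h2.symm.trans (show _ = (d⁻¹ * u * d)⁻¹ by group))
        calc d ^ 2 ^ 1 * u = d * (d * u * d⁻¹) * d := by rw [pow_one, sq]; group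
          _ = u * d ^ 2 ^ 1 := by rw [h4, pow_one, sq]; group
      exact mem_cent1.1 (Comp.mem_of_pow_mem_of_coprime h3
        (Comp.coprime_orderOf_of_mem (core_p' a).coprime_p hd.1))
  change Odd (Nat.card (signalizerClosure Y (centralizerPPrimeCore 2))) ∧
    𝐍(Y) ≤ 𝐍(signalizerClosure Y (centralizerPPrimeCore 2))
  refine ⟨odd_iff_two'.2 (mem_p' (closure_mem_two hY h8 hθ)), fun n hn => norm_of_conj_eq ?_⟩
  rw [closure_conj fun a _ _ => core_conj n a, conj_eq_of_norm hn]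

end Cfsg.Agent.S2924
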