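import Cfsg.Statements.S2925
import Cfsg.Agent.Lib.Comp.Component
import Cfsg.Agent.Lib.Core.Subnormal
import Cfsg.Agent.Lib.Core.PiSeparable

set_option autoImplicit false
open Cfsg

namespace Cfsg.Agent.S2925

open Subgroup Cfsg.Lib Cfsg.Lib.Core Cfsg.Lib.Comp Cfsg.Lib.Transfer

theorem result {X : Type*} [Group X] [Finite X] (K : Subgroup X) (hK : Cfsg.IsComponent K) (T : Sylow 2 X) (Y : Subgroup X) (hYT : Y ≤ (T : Subgroup X)) (hYn : (Y.subgroupOf (T : Subgroup X)).Normal) (hYab : IsMulCommutative ↥Y) (hnot : ¬ Y ≤ Subgroup.normalizer (K : Set X)) (P : Sylow 2 (↥K ⧸ Subgroup.center ↥K)) : IsMulCommutative ↥(P : Subgroup (↥K ⧸ Subgroup.center ↥K)) := by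
  obtain ⟨y, hy, hyn⟩ := SetLike.not_le_iff_exists.1 hnot
  have hn := (normal_subgroupOf_iff_le_normalizer hYT).1 hYn
  have hc : ⁅K, y ⋆ K⁆ = ⊥ := isComponent_commutator_eq_bot_of_ne hK (isComponent_map_conj hK y)
    fun e => hyn (conj_eq_self_iff.1 e.symm)
  have hc' : ∀ a ∈ K, ∀ b ∈ K, Commute a (y * b * y⁻¹) := fun a ha b hb =>
    (commutator_eq_bot_iff_le_centralizer.1 hc ha _ (conj_mem_conj.2 hb)).symm
  have key : ∀ r ∈ K, ∀ s ∈ K, r ∈ (T : Subgroup X) → s ∈ (T : Subgroup X) →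
      ∀ k ∈ K, Commute k (r * s * r⁻¹ * s⁻¹) := fun r hr s hs hrT hsT k hk => by
    have h1 : ∀ r ∈ (T : Subgroup X), r * (y * r⁻¹ * y⁻¹) ∈ Y := fun r hr => by
      have := mul_mem ((mem_normalizer_iff.1 (hn hr) y).1 hy) (inv_mem hy)
      simpa [mul_assoc] using this
    have h2 : r * (y * r⁻¹ * y⁻¹) * (s * (y * s⁻¹ * y⁻¹)) = s * (y * s⁻¹ * y⁻¹) * (r * (y * r⁻¹ * y⁻¹)) :=
      setLike_mul_comm (h1 r hrT) (h1 s hsT)
    have h3 : r * s * (y * (r⁻¹ * s⁻¹) * y⁻¹) = s * r * (y * (s⁻¹ * r⁻¹) * y⁻¹) := by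
      have e1 := (hc' s hs _ (inv_mem hr)).eq
      have e2 := (hc' r hr _ (inv_mem hs)).eq
      calc r * s * (y * (r⁻¹ * s⁻¹) * y⁻¹) = r * (s * (y * r⁻¹ * y⁻¹)) * (y * s⁻¹ * y⁻¹) := by group
        _ = r * (y * r⁻¹ * y⁻¹) * (s * (y * s⁻¹ * y⁻¹)) := by rw [e1]; group
        _ = s * ((y * s⁻¹ * y⁻¹) * r) * (y * r⁻¹ * y⁻¹) := by rw [h2]; group
        _ = _ := by rw [← e2]; group
    have h4 : (s * r)⁻¹ * (r * s) = y * (s⁻¹ * r⁻¹ * (r⁻¹ * s⁻¹)⁻¹) * y⁻¹ := by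
      have : r * s = s * r * (y * (s⁻¹ * r⁻¹) * y⁻¹) * (y * (r⁻¹ * s⁻¹) * y⁻¹)⁻¹ := by rw [← h3]; group
      rw [this]; group
    have h5 : ∀ k ∈ K, Commute k ((s * r)⁻¹ * (r * s)) := fun k hk => h4 ▸ hc' k hk _
      (mul_mem (mul_mem (inv_mem hs) (inv_mem hr)) (inv_mem (mul_mem (inv_mem hr) (inv_mem hs))))
    have e : r * s * r⁻¹ * s⁻¹ = (s * r)⁻¹ * (r * s) := by
      have := (h5 _ (mul_mem hs hr)).eq
      calc r * s * r⁻¹ * s⁻¹ = (s * r * ((s * r)⁻¹ * (r * s))) * (s * r)⁻¹ := by group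
        _ = _ := by rw [this]; group
    exact e ▸ h5 k hk
  set f := QuotientGroup.mk' (center K)
  have hf : Function.Surjective f := QuotientGroup.mk'_surjective _
  have hi : ¬ 2 ∣ (((T : Subgroup X).subgroupOf K).map f).index := fun h =>
    (subnormalIn_top.2 hK.1).not_dvd_relIndex (T := T) (by rw [relIndex_top_right]; exact T.not_dvd_index)
      (h.trans (index_map_dvd _ hf))
  obtain ⟨g, hg⟩ := exists_conj_le_of_not_dvd_index hi P.isPGroup'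
  refine ⟨⟨fun a b => Subtype.ext ?_⟩⟩
  obtain ⟨r, hr, ea⟩ := hg (conj_mem_conj.2 a.2)
  obtain ⟨s, hs, eb⟩ := hg (conj_mem_conj.2 b.2)
  have h6 : f r * f s = f s * f r := by
    have : f (r * s * r⁻¹ * s⁻¹) = 1 := (QuotientGroup.eq_one_iff _).2
      (mem_center_iff.2 fun k => Subtype.ext (key r r.2 s s.2 hr hs k k.2))
    rw [← mul_inv_eq_one]
    simpa [mul_assoc] using this
  rw [ea, eb] at h6
  show (a : K ⧸ center K) * b = b * a
  have h7 : g * (a * b) * g⁻¹ = g * (b * a) * g⁻¹ := by simpa [mul_assoc] using h6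
  simpa using h7

end Cfsg.Agent.S2925
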