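import Cfsg.Statements.S2928
import Cfsg.Agent.Lib.Alt.QsOver2

set_option autoImplicit false
open Cfsg

namespace Cfsg.Agent.S2928

/-- Let n ≥ 8 and let H be a subgroup of the symmetric group of degree n whose generalized Fitting subgroup F*(H) is quasisimple. If H contains a Sylow 2-subgroup of the alternating group of degree n, then F*(H) is isomorphic to an alternating group of degree m for some m ∈ {n − 3, n − 2, n − 1, n}. -/
theorem result (n : ℕ) (hn : 8 ≤ n) (H : Subgroup (Equiv.Perm (Fin n))) (hF : Cfsg.IsQuasisimple ↥(Cfsg.generalizedFittingSubgroup ↥H)) (hS : ∃ P : Sylow 2 ↥(alternatingGroup (Fin n)), ((P : Subgroup ↥(alternatingGroup (Fin n))).map (alternatingGroup (Fin n)).subtype) ≤ H) : ∃ m : ℕ, (m = n - 3 ∨ m = n - 2 ∨ m = n - 1 ∨ m = n) ∧ Nonempty (↥(Cfsg.generalizedFittingSubgroup ↥H) ≃* ↥(alternatingGroup (Fin m))) := by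
  obtain ⟨P, hP⟩ := hS
  haveI : Nontrivial (Fin n) := Fin.nontrivial_iff_two_le.2 (by omega)
  have h0 : 2 ^ 6 ∣ Nat.card (alternatingGroup (Fin n)) := by
    have h := two_mul_nat_card_alternatingGroup (α := Fin n)
    have h' : 2 * 2 ^ 6 ∣ n.factorial :=
      (show _ ∣ Nat.factorial 8 by decide).trans (Nat.factorial_dvd_factorial hn)
    rw [Nat.card_perm, Nat.card_fin] at h
    exact Nat.dvd_of_mul_dvd_mul_left two_pos (h ▸ h')
  obtain ⟨h1, h2⟩ := Lib.Alt.qs_of_full_two hF Lib.Comp.centralizer_genFitting_le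
    ((Lib.Alt.full_of_sylow_alt P).mono hP) (by simpa using hn)
    ((P.pow_dvd_card_of_pow_dvd_card h0).trans
      ((Subgroup.card_subtype _ _).symm.dvd.trans (Subgroup.card_dvd_of_le hP)))
  have h3 := Set.ncard_add_ncard_compl (Lib.Alt.mv (generalizedFittingSubgroup H) (Fin n))
  rw [Nat.card_fin] at h3
  exact ⟨_, by omega, h2⟩

end Cfsg.Agent.S2928
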