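import Cfsg.Statements.S2929
import Cfsg.Agent.Lib.Alt.QsOver2

set_option autoImplicit false
open Cfsg

namespace Cfsg.Agent.S2929

/-- Let n ≥ 5 and let H be a subgroup of the symmetric group of degree n whose generalized Fitting subgroup F*(H) is quasisimple. If H contains a Sylow 3-subgroup of the symmetric group, then F*(H) is isomorphic to an alternating group of degree m for some m ∈ {n − 2, n − 1, n}. -/
theorem result (n : ℕ) (hn : 5 ≤ n) (H : Subgroup (Equiv.Perm (Fin n))) (hF : Cfsg.IsQuasisimple ↥(Cfsg.generalizedFittingSubgroup ↥H)) (hS : ∃ P : Sylow 3 (Equiv.Perm (Fin n)), (P : Subgroup (Equiv.Perm (Fin n))) ≤ H) : ∃ m : ℕ, (m = n - 2 ∨ m = n - 1 ∨ m = n) ∧ Nonempty (↥(Cfsg.generalizedFittingSubgroup ↥H) ≃* ↥(alternatingGroup (Fin m))) := by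
  haveI := Fact.mk Nat.prime_three
  obtain ⟨P, hP⟩ := hS
  obtain ⟨h1, h2⟩ := Lib.Alt.qs_of_full_three hF Lib.Comp.centralizer_genFitting_le
    ((Lib.Alt.full_of_sylow_perm P).mono hP)
  have h3 := Set.ncard_add_ncard_compl (Lib.Alt.mv (generalizedFittingSubgroup H) (Fin n))
  rw [Nat.card_fin] at h3
  exact ⟨_, by omega, h2⟩

end Cfsg.Agent.S2929
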