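import Cfsg.Statements.S2937
import Cfsg.Agent.Lib.PMin.Small

set_option autoImplicit false
open Cfsg

namespace Cfsg.Agent.S2937

open Subgroup Cfsg.Lie Cfsg.Lib.St Cfsg.Lib.Chev Cfsg.Lib.Twisted Cfsg.Lib.PMin

theorem zmod_two : ∀ t : ZMod 2, t = 0 ∨ t = 1 := by decide

theorem main_one {X : Type*} [Group X] [Finite X] (hX : IsPMinimal 3 X) {K : Subgroup X} [K.Normal]
    (hK : IsChevSimple 3 K) {G : Type*} [Group G] [Finite G] (L : LieP 3 G) (h : Subsingleton L.ι)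
    {N : Subgroup G} [N.Normal] (e : K ≃* N) (hN : Nat.card N = 504) (U : Sylow 3 K) :
    IsCoatom (normalizer (((U : Subgroup K).map K.subtype : Subgroup X) : Set X)) := by
  have := (simple_of_chev hK).1
  have := e.symm.isSimpleGroup
  refine (main hX e L.S.pU.comap_subtype (not_dvd_inf L)
    (onePS L (eq_top_congr hK e) fun h1 => ?_) U).1
  rcases (normalizer_eq_top_iff.1 h1).eq_bot_or_eq_top with h2 | h2
  · exact not_dvd_inf (N := N) L (by rw [h2, index_bot, hN]; decide)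
  · obtain ⟨n, hn⟩ := (L.S.pU.comap_subtype (K := N)).exists_card_eq
    rw [show L.S.U.comap _ = ⊤ from h2, card_top, hN] at hn
    exact absurd (Nat.prime_two.dvd_of_dvd_pow (n := n) (by rw [← hn]; decide)) (by decide : ¬ 2 ∣ 3)

theorem card_triv {ι Φ : Type} [Fintype ι] [DecidableEq ι] {R : RootSys ι Φ} [Fintype Φ]
    {G : Type*} [Group G] {C : ChevSys R (ZMod 2) G} (hF : C.Faithful) (k : ι) :
    (Nat.card ((trivTwist C).X k) + 1).Prime := by
  rw [Twist.card_X_one (S := trivTwist C) (i := k) (fun _ => List.mem_singleton) hF,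
    Nat.card_congr (Equiv.subtypeUnivEquiv fun _ => by rfl), Nat.card_zmod]
  exact Nat.prime_three

/-- Let X be a finite p-minimal group whose generalized Fitting subgroup K = F*(X) is a simple group of Lie type in characteristic p, and let U be a Sylow p-subgroup of K. Then N_X(U) is a maximal subgroup of X, and either K has Lie rank one (K ≅ PSL₂(pᵉ), PSU₃(pᵉ), a Suzuki group for p = 2, or a Ree group or PSL₂(8) for p = 3), or p = 2, K ≠ X and K is isomorphic to PSL₃(2ᵉ) or to PSp₄(2ᵉ) (e ≥ 2) or to the alternating group of degree 6. -/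
theorem result {X : Type*} [Group X] [Finite X] {p : ℕ} [Fact p.Prime] (hX : Cfsg.IsPMinimal p X) (hK : Cfsg.IsChevSimple p ↥(Cfsg.generalizedFittingSubgroup X)) (U : Sylow p ↥(Cfsg.generalizedFittingSubgroup X)) : IsCoatom (Subgroup.normalizer (((U : Subgroup ↥(Cfsg.generalizedFittingSubgroup X)).map (Cfsg.generalizedFittingSubgroup X).subtype : Subgroup X) : Set X)) ∧ (Cfsg.IsLieRankOneChar p ↥(Cfsg.generalizedFittingSubgroup X) ∨ (p = 2 ∧ Cfsg.generalizedFittingSubgroup X ≠ ⊤ ∧ ((∃ (F : Type) (_ : Field F) (_ : Fintype F) (_ : CharP F 2), Nonempty (↥(Cfsg.generalizedFittingSubgroup X) ≃* Matrix.ProjectiveSpecialLinearGroup (Fin 3) F)) ∨ (∃ (F : Type) (_ : Field F) (_ : Fintype F) (_ : CharP F 2), 4 ≤ Fintype.card F ∧ Nonempty (↥(Cfsg.generalizedFittingSubgroup X) ≃* Cfsg.PSp 2 F)) ∨ Nonempty (↥(Cfsg.generalizedFittingSubgroup X) ≃* ↥(alternatingGroup (Fin 6)))))) := by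
  have hs := (simple_of_chev hK).1
  have bad : (∃ D : LieDat p (generalizedFittingSubgroup X), Bad D) → False := fun ⟨D, h⟩ =>
    h.not_tr (main hX (.refl _) D.lieP.S.pU D.lieP.S.not_dvd (liePS D.lieP) U).2.1
  have : Subsingleton (ZMod 2)ˣ := inferInstance
  rcases id hK with h | ⟨rfl, ⟨⟨e⟩⟩ | ⟨F, _, _, h, ⟨e⟩⟩ | ⟨⟨e⟩⟩⟩ | ⟨rfl, F, _, _, h, ⟨e⟩⟩
  · obtain ⟨L⟩ := nonempty_lieP h
    refine ⟨(main hX (.refl _) L.S.pU L.S.not_dvd (liePS L) U).1, ?_⟩
    rcases h with ⟨F, _, _, _, n, h, h', ⟨e⟩⟩ | ⟨F, _, _, _, n, h, h', ⟨e⟩⟩ |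
      ⟨F, _, _, _, n, q, hF, h, h', ⟨e⟩⟩ | h | h | h |
      ⟨F, _, _, _, ⟨h, ⟨e⟩⟩ | ⟨⟨e⟩⟩ | ⟨⟨e⟩⟩ | ⟨⟨e⟩⟩ | ⟨⟨e⟩⟩⟩ | h | h | ⟨rfl, h⟩ | ⟨h1, h⟩
    · obtain ⟨n, rfl⟩ := Nat.exists_eq_add_of_le' h
      rcases n with _ | _ | n
      · exact .inl (.inl ⟨F, _, _, ‹_›, h' rfl, ⟨e⟩⟩)
      · obtain ⟨D, hD⟩ := rank_PSL (p := p) e
        obtain ⟨rfl, h1⟩ := main_rank_two hX D hD
        exact .inr ⟨rfl, h1, .inl ⟨F, _, ‹_›, ‹_›, ⟨e⟩⟩⟩
      · exact (bad (bad_of_rank (rank_PSL e) (by omega))).elim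
    · obtain ⟨n, rfl⟩ := Nat.exists_eq_add_of_le' h
      rcases n with _ | n
      · obtain ⟨D, hD⟩ := rank_PSp (p := p) e
        obtain ⟨rfl, h1⟩ := main_rank_two hX D hD
        have := FiniteField.even_card_of_char_two (ringChar.eq F 2)
        have := h' rfl
        exact .inr ⟨rfl, h1, .inr (.inl ⟨F, _, _, ‹_›, by omega, ⟨e⟩⟩)⟩
      · exact (bad (bad_of_rank (rank_PSp e) (by omega))).elim
    · obtain ⟨n, rfl⟩ := Nat.exists_eq_add_of_le' h
      rcases eq_or_ne n 0 with rfl | hn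
      · exact .inl (.inr (.inl ⟨F, _, _, ‹_›, q, hF, fun h => h' ⟨rfl, h⟩, ⟨e⟩⟩))
      · exact (bad (bad_PSU hF hn e)).elim
    · exact (bad (bad_POmegaOdd h)).elim
    · exact (bad (bad_POmegaPlus h)).elim
    · exact (bad (bad_POmegaMinus h)).elim
    · obtain ⟨rfl, -⟩ := main_rank_two hX ((dG2 p F).congr e) (Fintype.card_fin _)
      have := e.symm.isSimpleGroup
      exact (not_tr_G2 F (main hX e (dG2 2 F).lieP.S.pU (dG2 2 F).lieP.S.not_dvd _ U).2.1).elim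
    iterate 4 exact (bad (bad_group (by simp) e (by decide))).elim
    · exact (bad (bad_E6D4 h)).elim
    · exact .inl (.inr (.inr (.inl h)))
    · exact (bad (bad_2F4 h)).elim
    · exact .inl (.inr (.inr (.inr ⟨h1, .inl h⟩)))
  · obtain ⟨e'⟩ := Cfsg.Agent.S0247.result (F := ZMod 2) (ZMod.card 2)
    obtain ⟨h1, h2, -⟩ := @main_two _ _ _ _ _ _ _ hX hK ((LieDat.ofChev (realSp (ZMod 2) 2).sys
      (realSp _ _).faithful (realSp _ _).grp_eq (conn_C _) (realSp _ _).hMul).congr e'.symm)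
      (Fintype.card_fin _) this _ alternatingGroup.index_eq_two e
      (card_triv (ι := Fin 2) (realSp _ _).faithful) U
    exact ⟨h1, .inr ⟨rfl, h2, .inr (.inr ⟨e⟩)⟩⟩
  · obtain ⟨e'⟩ := Lib.Tits.nonempty_G2_two (ZMod.card 2) h
    obtain ⟨x, k, y, h1, h2, h3, h4, h5, h6⟩ := top_G2 (ZMod 2)
    obtain ⟨h7, h8⟩ := (h4 _).2 ⟨1, rfl⟩
    refine (h3 ((@main_two _ _ _ _ _ _ _ hX hK (dG2 2 (ZMod 2)) (Fintype.card_fin _) this _
      index_G22 (e.trans e'.symm) (card_triv (ι := Fin chevG2.rank) (checkedG2.gsys_faithful _)) U).2.2.2 k _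
      (center_U_G22 h7 h8) (h1 1) h7 (fun g hg => mem_centralizer_singleton_iff.1
        ((dG2 2 (ZMod 2)).lieP.T.P_le (Set.subset_univ _) (M := centralizer {x 1}) (fun b hb =>
          mem_centralizer_singleton_iff.2 (h8 b (@B_le_U _ _ _ this _ hb))) ?_ hg)) fun u hu => ?_)).elim
    · rintro _ rfl
      exact ⟨y, mem_centralizer_singleton_iff.2 (h6 1), h5⟩
    · obtain ⟨t, rfl⟩ := (h4 u).1 hu
      rcases zmod_two t with rfl | rfl
      exacts [.inl h2, .inr rfl]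
  · have h1 := (@main_two _ _ _ _ _ _ _ hX hK Lib.Tits.DT (Fintype.card_fin 2) this _
      Lib.Tits.index_TT e (fun k : Fin 2 => by
        rw [show Nat.card (Lib.Tits.DT.S.X k) = _ from Lib.Tits.hF.cardX k]
        revert k; decide) U).2.2.1 (0 : Fin 2) (1 : Fin 2)
    exact absurd ((Lib.Tits.hF.cardX 0).symm.trans (h1.trans (Lib.Tits.hF.cardX 1))) (by decide)
  · refine ⟨?_, .inl (.inr (.inr (.inr ⟨rfl, .inr ⟨F, _, _, h, ⟨e⟩⟩⟩)))⟩
    obtain ⟨e'⟩ := Lib.Tits.nonempty_ree_three h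
    obtain ⟨S, φ, ψ, h⟩ := exists_isG2 (K := ZMod 3) (m := 0) (by simp)
    let D : LieDat 3 (twistedG2 (ZMod 3) 1) := LieDat.ofTw checkedG2 (connG2 _) h.isTw
      (equivOfMap (subtype_injective _) map_KG2)
    have := D.finite
    exact main_one hX hK D.lieP (inferInstanceAs (Subsingleton (Fin 1))) (e.trans e'.symm)
      Lib.Tits.card_ree_three U

end Cfsg.Agent.S2937
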