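import Cfsg.Statements.S2939
import Cfsg.Agent.Lib.PLocal.SylChain

set_option autoImplicit false
open Cfsg

set_option linter.unusedVariables false
open Cfsg.Lib

namespace Cfsg.Agent.S2939

/-- Let p be a prime dividing the order of the finite group G and 𝓕 a family of subgroups of G closed under conjugation, with conjugates taken as X^g = g⁻¹Xg. Then 𝓕 controls Sylow p-intersections in G (any two distinct Sylow p-subgroups S and T with S ∩ T ≠ 1 are joined by a chain S = S₀, S₁, …, Sₙ = T of Sylow p-subgroups where, for each i, some member Xᵢ of 𝓕 meets both S_{i-1} and Sᵢ in Sylow p-subgroups of Xᵢ, satisfies S ∩ T ≤ Sᵢ ∩ Xᵢ, and contains an element xᵢ with Sᵢ^{xᵢ} = S_{i-1}) if and only if 𝓕 strongly controls p-fusion in G (whenever A is a subset of a Sylow p-subgroup S, A contains an element other than 1, and A^g ⊆ S, the element g factorises as g = y₁⋯yₙy with y ∈ N_G(S) and each yᵢ in a member Yᵢ of 𝓕 that meets S in a Sylow p-subgroup of Yᵢ, with A^{y₁⋯yᵢ}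 ⊆ S ∩ Yᵢ for each i). -/
theorem result {G : Type*} [Group G] [Finite G] {p : ℕ} [Fact p.Prime] (hdiv : p ∣ Nat.card G) (𝓕 : Set (Subgroup G)) (h𝓕 : Cfsg.IsNormalSet 𝓕) : Cfsg.ControlsSylowIntersections p 𝓕 ↔ Cfsg.FamilyStronglyControlsFusion p 𝓕 := by
  open Subgroup Transfer PLocal in
  have hsub : ∀ (A : Set G) (h : G) (S Y : Subgroup G),
      conjRight h A ⊆ (S : Set G) ∩ (Y : Set G) ↔ ∀ a ∈ A, a ∈ h ⋆ S ∧ a ∈ h ⋆ Y := by
    intro A h S Y
    simp only [conjRight, Set.image_subset_iff, Set.subset_def, Set.mem_preimage, mem_conj,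
      Set.mem_inter_iff, SetLike.mem_coe, Set.mem_image, forall_exists_index, and_imp,
      forall_apply_eq_imp_iff₂]
  rw [controlsSylowIntersections_iff]
  constructor
  · intro h S A g hA ⟨a, ha, ha1⟩ hg
    have hD : ∀ x ∈ A, x ∈ (S : Subgroup G) ⊓ g ⋆ (S : Subgroup G) := fun x hx =>
      ⟨hA hx, mem_conj.2 (hg ⟨x, hx, rfl⟩)⟩
    let r : G → G → Prop := fun u v => ∃ Y ∈ sylowMembers p 𝓕 (S : Subgroup G), u⁻¹ * v ∈ Y ∧
      conjRight v A ⊆ (S : Set G) ∩ (Y : Set G)
    have key : ∀ T, Relation.ReflTransGen (SylStep p 𝓕 ((S : Subgroup G) ⊓ g ⋆ (S : Subgroup G)))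
        S T → ∃ v, T = v ⋆ (S : Subgroup G) ∧ Relation.ReflTransGen r 1 v := by
      intro T hT
      induction hT with
      | refl => exact ⟨1, (conj_one _).symm, .refl⟩
      | tail _ h ih =>
        obtain ⟨v, rfl, ih⟩ := ih
        obtain ⟨X, hX, x, hx, h1, rfl, h2, h3⟩ := h
        refine ⟨x * v, conj_conj _ _ _, ih.tail ⟨v⁻¹ ⋆ X, (mem_sylowMembers_iff S.isPGroup').2
          ⟨IsNormalSet.conj_mem h𝓕 hX _, by rwa [← relIndex_conj v, conj_inv_conj]⟩, ?_, ?_⟩⟩
        · rw [mem_conj]; simpa [mul_assoc] using hx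
        · refine (hsub _ _ _ _).2 fun y hy => ⟨conj_conj x v _ ▸ h2 (hD y hy), ?_⟩
          rw [← conj_conj, conj_inv_conj, conj_eq_self_of_mem hx]
          exact h3 (hD y hy)
    obtain ⟨v, e, hv⟩ : ∃ v, g ⋆ (S : Subgroup G) = v ⋆ (S : Subgroup G) ∧
        Relation.ReflTransGen r 1 v := by
      refine key _ ?_
      rcases eq_or_ne (S : Subgroup G) (g ⋆ (S : Subgroup G)) with e | hne
      · rw [← e]
      · exact h _ _ (sylIn_top S) ((sylIn_top S).conj_mem trivial) hne
          fun e => ha1 (by have := hD a ha; rwa [e] at this)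
    obtain ⟨n, c, h0, hl, hc⟩ := Loc.exists_chain_of_reflTransGen hv
    choose Y hY hy hAY using hc
    have hp : ∀ i : Fin (n + 1), ((List.ofFn fun i : Fin n => (c i.castSucc)⁻¹ * c i.succ).take
        i.val).prod = c i := fun i => by
      have := congrFun (Fin.partialProd_left_inv c) i
      rwa [h0, one_smul] at this
    refine ⟨n, Y, fun i => (c i.castSucc)⁻¹ * c i.succ, v⁻¹ * g, conj_eq_self_iff.1 (by
      rw [← conj_conj, e, inv_conj_conj]), fun i => ⟨hY i, hy i⟩, ?_, fun i => ?_⟩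
    · have := hp (Fin.last n)
      rw [Fin.val_last, List.take_of_length_le (by simp), hl] at this
      rw [this]; group
    · have := hp i.succ
      rw [Fin.val_succ] at this
      rw [this]
      exact hAY i
  · intro h S' T hS hT hne hb
    obtain ⟨g, -, rfl⟩ := hS.exists_conj hT
    obtain ⟨S, rfl⟩ := sylIn_top_iff.1 hS
    obtain ⟨n, Y, y, y₀, hy₀, hY, e, hA⟩ := h S ((S : Subgroup G) ⊓ g ⋆ (S : Subgroup G) : Subgroup G) g
      (fun x hx => hx.1) (by
        by_contra! h
        exact hb (eq_bot_iff.2 h)) (by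
        rintro _ ⟨x, hx, rfl⟩
        exact mem_conj.1 hx.2)
    have := Loc.reflTransGen_of_chain (r := SylStep p 𝓕 ((S : Subgroup G) ⊓ g ⋆ (S : Subgroup G)))
      (fun i => Fin.partialProd y i ⋆ (S : Subgroup G)) (fun i => ?_) (Fin.last n)
    · have e2 : Fin.partialProd y (Fin.last n) = (List.ofFn y).prod := by
        rw [Fin.partialProd, Fin.val_last, List.take_of_length_le (by simp)]
      have e3 : (List.ofFn y).prod ⋆ (S : Subgroup G) = g ⋆ (S : Subgroup G) := by
        rw [e, ← conj_conj, conj_eq_self_iff.2 hy₀]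
      rwa [Fin.partialProd_zero, conj_one, e2, e3] at this
    have h1 := (hsub _ _ _ _).1 (hA i)
    change ∀ a ∈ (S : Subgroup G) ⊓ g ⋆ (S : Subgroup G), a ∈ Fin.partialProd y i.succ ⋆ _ ∧
      a ∈ Fin.partialProd y i.succ ⋆ _ at h1
    obtain ⟨h2, h3⟩ := hY i
    rw [mem_sylowMembers_iff S.isPGroup'] at h2
    refine ⟨Fin.partialProd y i.castSucc ⋆ Y i, IsNormalSet.conj_mem h𝓕 h2.1 _,
      _, conj_mem_conj.2 h3, by rw [relIndex_conj]; exact h2.2, ?_, fun a ha => (h1 a ha).1,
      fun a ha => ?_⟩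
    · rw [conj_conj, Fin.partialProd_succ, inv_mul_cancel_right]
    · have := (h1 a ha).2
      rwa [Fin.partialProd_succ, ← conj_conj, conj_eq_self_of_mem h3] at this

end Cfsg.Agent.S2939
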