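import Cfsg.Statements.S2955
import Cfsg.Agent.Lib.PLocal.SylChain

set_option autoImplicit false
open Cfsg

set_option linter.unusedVariables false
open Cfsg.Lib

namespace Cfsg.Agent.S2955

/-- Let p be a prime dividing the order of the finite group G and 𝓕 a conjugation-closed family of subgroups that controls Sylow p-intersections in G. Suppose the Sylow p-subgroups of G are chain-connected: any two of them are joined by a chain of Sylow p-subgroups, consecutive ones distinct with nontrivial intersection, all containing the intersection of the two ends (equivalently, the graph on the Sylow p-subgroups whose edges are the distinct pairs meeting nontrivially is connected). Then for every Sylow p-subgroup S, G is generated by N_G(S) together with the members of 𝓕 that meet S in a Sylow p-subgroup of themselves. -/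
theorem result {G : Type*} [Group G] [Finite G] (p : ℕ) [Fact p.Prime] (hdiv : p ∣ Nat.card G)
    (𝓕 : Set (Subgroup G)) (h𝓕 : Cfsg.IsNormalSet 𝓕) (hc : Cfsg.ControlsSylowIntersections p 𝓕)
    (hconn : Cfsg.IsSylowChainConnected p G) (S : Sylow p G) :
    (⨆ X ∈ Cfsg.sylowMembers p 𝓕 (S : Subgroup G), X) ⊔ Subgroup.normalizer ((S : Subgroup G) : Set G) = ⊤ := by
  open Subgroup Transfer PLocal in
  set K := (⨆ X ∈ Cfsg.sylowMembers p 𝓕 (S : Subgroup G), X) ⊔ normalizer ((S : Subgroup G) : Set G)
    with hK
  have step : ∀ D A B : Subgroup G, Relation.ReflTransGen (SylStep p 𝓕 D) A B →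
      (∃ k ∈ K, A = k ⋆ (S : Subgroup G)) → ∃ k ∈ K, B = k ⋆ (S : Subgroup G) := by
    intro D A B h hA
    induction h with
    | refl => exact hA
    | tail _ h ih =>
      obtain ⟨k, hk, rfl⟩ := ih
      obtain ⟨X, hX, x, hx, h1, rfl, -⟩ := h
      have h2 : k⁻¹ ⋆ X ∈ sylowMembers p 𝓕 (S : Subgroup G) :=
        (mem_sylowMembers_iff S.isPGroup').2 ⟨IsNormalSet.conj_mem h𝓕 hX _, by
          rwa [← relIndex_conj k, conj_inv_conj]⟩
      have h3 : k⁻¹ * x * k ∈ K := mem_sup_left ((le_iSup₂ (f := fun X _ => X) _ h2) (by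
        rw [mem_conj]; simpa [mul_assoc] using hx))
      refine ⟨x * k, ?_, conj_conj _ _ _⟩
      have := K.mul_mem hk h3
      simpa [mul_assoc] using this
  refine eq_top_iff.2 fun g _ => ?_
  obtain ⟨n, c, h0, hl, -, h⟩ := hconn S (g • S)
  have h1 : ∀ i, ∃ k ∈ K, (c i : Subgroup G) = k ⋆ (S : Subgroup G) := by
    intro i
    induction i using Fin.induction with
    | zero => exact ⟨1, one_mem _, by rw [h0, conj_one]⟩
    | succ i ih =>
      exact step _ _ _ (controlsSylowIntersections_iff.1 hc _ _ (sylIn_top _) (sylIn_top _)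
        (fun e => (h i).1 (Sylow.ext e)) (h i).2) ih
  obtain ⟨k, hk, e⟩ := h1 (Fin.last n)
  rw [hl, coe_smul_sylow] at e
  have h2 : k⁻¹ * g ∈ K := mem_sup_right (conj_eq_self_iff.1 (by rw [← conj_conj, e, inv_conj_conj]))
  simpa using K.mul_mem hk h2

end Cfsg.Agent.S2955
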