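import Cfsg.Statements.S2956
import Cfsg.Agent.Lib.PLocal.SylChain

set_option autoImplicit false
open Cfsg

set_option linter.unusedVariables false
open Cfsg.Lib

namespace Cfsg.Agent.S2956

/-- Let p be a prime dividing the order of the finite group G, and f an assignment to every p-subgroup P of a set f(P) of subgroups of P, each normalized by N_G(P), compatible with conjugation, such that for P ≠ 1 the members of f(P) are nontrivial. Let 𝓕 be the family of the normalizers N_G(F) of the members F of f(S) over the Sylow p-subgroups S of G, and 𝓕' the family of the maximal p-local subgroups M of G that are singular for f (the corresponding family of normalizers inside M does not control Sylow p-intersections in M). Then 𝓕 ∪ 𝓕' controls Sylow p-intersections in G. -/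
theorem result {G : Type*} [Group G] [Finite G] (p : ℕ) [Fact p.Prime] (hdiv : p ∣ Nat.card G)
    (f : Subgroup G → Set (Subgroup G)) (hf : Cfsg.IsNormalizerFunctor p f)
    (hf1 : ∀ P : Subgroup G, IsPGroup p ↥P → P ≠ ⊥ → ∀ F ∈ f P, F ≠ ⊥)
    (𝓕 𝓕' : Set (Subgroup G)) (h𝓕 : 𝓕 = Cfsg.functorFamily p f ⊤)
    (h𝓕' : 𝓕' = {M | Cfsg.IsMaximalPLocal p M ∧ ¬ Cfsg.IsFunctorRegular p f M}) :
    Cfsg.ControlsSylowIntersections p (𝓕 ∪ 𝓕') := by
  open Subgroup Transfer PLocal in
  subst h𝓕
  refine controlsSylowIntersections_iff.2 ?_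
  suffices W : ∀ D : Subgroup G, D ≠ ⊥ → ∀ S T : Subgroup G, SylIn p S ⊤ → SylIn p T ⊤ → D ≤ S →
      D ≤ T → Relation.ReflTransGen (SylStep p (functorFamily p f ⊤ ∪ 𝓕') D) S T from
    fun S T hS hT _ hb => W _ hb S T hS hT inf_le_left inf_le_right
  intro D
  induction D using WellFoundedGT.induction with
  | ind D ih =>
  intro hD
  have IH : ∀ E S T : Subgroup G, D < E → SylIn p S ⊤ → SylIn p T ⊤ → E ≤ S → E ≤ T →
      Relation.ReflTransGen (SylStep p (functorFamily p f ⊤ ∪ 𝓕') D) S T :=
    fun E S T h hS hT h1 h2 => SylStep.rtg_mono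
      (ih E h (ne_bot_of_gt h) S T hS hT h1 h2) subset_rfl h.le
  -- the inner induction, on the order of a Sylow subgroup of a `p`-local subgroup
  have Q : ∀ (k : ℕ) (M A B S T : Subgroup G), IsPLocal p M → A ≤ M → B ≤ M → D < A → D < B →
      SylIn p S ⊤ → SylIn p T ⊤ → A ≤ S → B ≤ T →
      (∀ R : Subgroup G, SylIn p R M → Nat.card S - Nat.card R ≤ k) →
      Relation.ReflTransGen (SylStep p (functorFamily p f ⊤ ∪ 𝓕') D) S T := by
    intro k
    induction k using Nat.strong_induction_on with
    | _ k ihk =>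
    intro M₀ A B S T hM₀ hA hB hDA hDB hS hT hAS hBT hk
    obtain ⟨M, hM₀M, hM⟩ := Finite.exists_le_maximal (p := IsPLocal p) hM₀
    obtain ⟨R₀, hAR₀, hR₀⟩ := exists_sylIn_ge (hS.2.1.to_le hAS) hA
    have hk₀ : Nat.card S - Nat.card R₀ ≤ k := hk R₀ hR₀
    obtain ⟨R, hR₀R, hR⟩ := exists_sylIn_ge hR₀.2.1 (hR₀.1.trans hM₀M)
    have hkR : Nat.card S - Nat.card R ≤ k := by
      have := card_le_of_le hR₀R
      omega
    have hAR := hAR₀.trans hR₀R
    obtain ⟨R', hBR, hR'⟩ := exists_sylIn_ge (hT.2.1.to_le hBT) (hB.trans hM₀M)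
    obtain ⟨S', hRS, hS'⟩ := exists_sylIn_ge hR.2.1 (le_top (a := R))
    refine (IH A S S' hDA hS hS' hAS (hAR.trans hRS)).trans ?_
    by_cases hreg : IsFunctorRegular p f M
    · have big : ∀ C, SylIn p C M → D ≤ C → D < C := fun C hC h => lt_of_le_of_ne h fun e => by
        have h1 := card_lt_of_lt (hDA.trans_le hAR)
        rw [hR.card_eq hC, ← e] at h1
        exact lt_irrefl _ h1
      have hfam : ∀ X ∈ functorFamily p f M, X ≤ M := fun _ hX => by
        obtain ⟨_, -, _, -, rfl⟩ := mem_functorFamily_iff.1 hX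
        exact inf_le_left
      have chain : ∀ C, Relation.ReflTransGen (SylStep p (functorFamily p f M) D) R C →
          ∀ U, SylIn p U ⊤ → C ≤ U →
            Relation.ReflTransGen (SylStep p (functorFamily p f ⊤ ∪ 𝓕') D) S' U := by
        intro C h
        induction h with
        | refl => exact fun U hU h => IH R S' U (hDA.trans_le hAR) hS' hU hRS h
        | @tail C C' h1 h2 ih =>
          intro U hU hCU
          have hC := SylStep.rtg_sylIn h1 hfam hR
          have hDC := big C hC (SylStep.rtg_le h1 (hDA.le.trans hAR))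
          have hC' := h2.sylIn hfam hC
          obtain ⟨V, hCV, hV⟩ := exists_sylIn_ge hC.2.1 (le_top (a := C))
          refine (ih V hV hCV).trans ?_
          by_cases hfull : Nat.card S ≤ Nat.card C
          · have h3 : SylIn p C ⊤ := hS.of_card_le hC.2.1 le_top hfull
            have h4 : SylIn p C' ⊤ := hS.of_card_le hC'.2.1 le_top (hfull.trans (hC.card_eq hC').le)
            rw [← h3.eq_of_le hV.2.1 le_top hCV, ← h4.eq_of_le hU.2.1 le_top hCU]
            exact SylStep.rtg_mono (SylStep.rtg_functorFamily_of_le hf le_top (.single h2) hC.1 h3)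
              Set.subset_union_left le_rfl
          obtain ⟨P, hP, F, hF, h3, h4, x, -, hxF, rfl⟩ := h2.exists_of_functorFamily hf hC
          have hP1 : P ≠ ⊥ := by
            rintro rfl
            have := card_lt_of_lt ((bot_lt_iff_ne_bot.2 hD).trans hDC)
            rw [hC.card_eq hP] at this
            exact lt_irrefl _ this
          have hFP := (hf P hP.2.1).1 F hF
          have hloc : IsPLocal p (normalizer (F : Set G)) :=
            ⟨F, hP.2.1.to_le hFP.1, hf1 P hP.2.1 hP1 F hF, rfl⟩
          obtain ⟨P', hPP, hP'⟩ := exists_sylIn_ge hP.2.1 (le_top (a := P))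
          have hlt : P < P' := lt_of_le_of_ne hPP fun e =>
            hfull (by rw [hS.card_eq hP', ← e, hC.card_eq hP])
          have hlt' := lt_inf_normalizer_of_lt hP'.2.1 hlt
          have hc1 := card_lt_of_lt hlt'
          have hc2 := hR.card_eq hP
          have hc3 := hV.card_eq hS
          have hc4 := hC.card_eq hP
          refine ihk (k - 1) (by omega) _ C (x ⋆ C) V U hloc h3 ?_ hDC (big _ hC' h4) hV hU hCV hCU ?_
          · rw [← conj_eq_self_of_mem hxF]; exact conj_mono _ h3
          · intro Y hY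
            have := hY.card_le hP'.2.1.to_inf_left (inf_le_right.trans hFP.2)
            omega
      obtain ⟨T', hRT, hT'⟩ := exists_sylIn_ge hR'.2.1 (le_top (a := R'))
      refine (chain R' ?_ T' hT' hRT).trans (IH B T' T hDB hT' hT (hBR.trans hRT) hBT)
      have hD' := le_inf (hDA.le.trans hAR) (hDB.le.trans hBR)
      rcases eq_or_ne R R' with rfl | hne
      · exact .refl
      exact SylStep.rtg_mono (isFunctorRegular_iff.1 hreg R R' hR hR' hne
        fun e => hD (eq_bot_iff.2 (e ▸ hD'))) subset_rfl hD'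
    · obtain ⟨m, hm, e⟩ := hR.exists_conj hR'
      have hS'' : SylIn p (m ⋆ S') ⊤ := hS'.conj_mem trivial
      have hB' : B ≤ m ⋆ S' := hBR.trans (e ▸ conj_mono _ hRS)
      refine .head ⟨M, Or.inr ?_, m, hm, ?_, rfl, hDB.le.trans hB', hDA.le.trans (hAR.trans hR.1)⟩
        (IH B _ T hDB hS'' hT hB' hBT)
      · rw [h𝓕']
        exact ⟨⟨hM.prop, fun N hN h => (hM.eq_of_le hN h).symm⟩, hreg⟩
      · exact fun h => hR.2.2 (h.trans (relIndex_dvd_of_le_left M hRS))
  intro S T hS hT hDS hDT
  rcases eq_or_ne S T with rfl | hne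
  · exact .refl
  rcases (le_inf hDS hDT).eq_or_lt with e | hlt
  swap
  · exact IH _ S T hlt hS hT inf_le_left inf_le_right
  have h1 : D < S := lt_of_le_of_ne hDS fun h =>
    hne (hS.eq_of_le hT.2.1 le_top (h ▸ hDT))
  have h2 : D < T := lt_of_le_of_ne hDT fun h =>
    hne (hT.eq_of_le hS.2.1 le_top (h ▸ hDS)).symm
  exact Q (Nat.card S) (normalizer (D : Set G)) _ _ S T ⟨D, hS.2.1.to_le hDS, hD, rfl⟩ inf_le_right
    inf_le_right (lt_inf_normalizer_of_lt hS.2.1 h1) (lt_inf_normalizer_of_lt hT.2.1 h2) hS hT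
    inf_le_left inf_le_left fun _ _ => Nat.sub_le _ _

end Cfsg.Agent.S2956
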