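import Cfsg.Statements.S2957
import Cfsg.Agent.Lib.PLocal.SylChain

set_option autoImplicit false
open Cfsg

set_option linter.unusedVariables false
open Cfsg.Lib

namespace Cfsg.Agent.S2957

/-- Let p be a prime dividing the order of the finite group G, f an equivariant assignment of a set of subgroups f(P) of P to every p-subgroup P, each normalized by N_G(P), and S a Sylow p-subgroup. If G = G₁G₂ for subgroups G₁, G₂ both containing S and both regular for f (in each Gᵢ, the family of normalizers in Gᵢ of the members of f(P), P a Sylow p-subgroup of Gᵢ, controls Sylow p-intersections), then G itself is regular for f. -/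
theorem result {G : Type*} [Group G] [Finite G] (p : ℕ) [Fact p.Prime] (hdiv : p ∣ Nat.card G)
    (f : Subgroup G → Set (Subgroup G)) (hf : Cfsg.IsNormalizerFunctor p f) (S : Sylow p G)
    (G₁ G₂ : Subgroup G) (h₁ : (S : Subgroup G) ≤ G₁) (h₂ : (S : Subgroup G) ≤ G₂)
    (hprod : ∀ g : G, ∃ g₁ ∈ G₁, ∃ g₂ ∈ G₂, g = g₁ * g₂)
    (hr₁ : Cfsg.IsFunctorRegular p f G₁) (hr₂ : Cfsg.IsFunctorRegular p f G₂) :
    Cfsg.IsFunctorRegular p f ⊤ := by
  open Subgroup Transfer PLocal in
  refine isFunctorRegular_iff.2 fun A B hA hB hne hb => ?_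
  obtain ⟨a, -, rfl⟩ := (sylIn_top S).exists_conj hA
  obtain ⟨b, -, rfl⟩ := (sylIn_top S).exists_conj hB
  obtain ⟨U, hU, h3, h4⟩ := exists_sylIn_top_of_factorization (sylIn_top S) h₁ h₂ hprod a b
    (D := a ⋆ (S : Subgroup G) ⊓ b ⋆ (S : Subgroup G)) hA.2.1.to_inf_left
    (inf_le_inf (conj_mono _ h₁) (conj_mono _ h₂))
  have key : ∀ M A B D : Subgroup G, IsFunctorRegular p f M → SylIn p A ⊤ → SylIn p B ⊤ → A ≤ M →
      B ≤ M → D ≠ ⊥ → D ≤ A → D ≤ B →
      Relation.ReflTransGen (SylStep p (functorFamily p f ⊤) D) A B := by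
    intro M A B D hM hA hB hAM hBM hD hDA hDB
    rcases eq_or_ne A B with rfl | hne
    · exact .refl
    have := isFunctorRegular_iff.1 hM A B (hA.of_le hAM le_top) (hB.of_le hBM le_top) hne
      (fun e => hD (eq_bot_iff.2 (e ▸ le_inf hDA hDB)))
    exact SylStep.rtg_mono (SylStep.rtg_functorFamily_of_le hf le_top this hAM hA) subset_rfl
      (le_inf hDA hDB)
  exact (key _ _ _ _ (IsFunctorRegular.conj hf hr₁ a) hA hU (conj_mono _ h₁) (h4.trans inf_le_left)
    hb inf_le_left h3).trans (key _ _ _ _ (IsFunctorRegular.conj hf hr₂ b) hU hB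
      (h4.trans inf_le_right) (conj_mono _ h₂) hb h3 inf_le_right)

end Cfsg.Agent.S2957
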