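import Cfsg.Statements.S2958
import Cfsg.Agent.Lib.Transfer.SylowIn
import Cfsg.Agent.Lib.Core.Basic
-- import your own Cfsg.Agent.* helpers here

set_option autoImplicit false
open Cfsg

namespace Cfsg.Agent.S2958

/-- Let X, A, B be subgroups of a group G such that G is generated by the conjugates of X and every conjugate of X is contained in A or in B. Then A = G or B = G. -/
theorem result {G : Type*} [Group G] (X A B : Subgroup G) (hgen : (⨆ g : G, X.map (MulAut.conj g).toMonoidHom) = ⊤) (hcover : ∀ g : G, X.map (MulAut.conj g).toMonoidHom ≤ A ∨ X.map (MulAut.conj g).toMonoidHom ≤ B) : A = ⊤ ∨ B = ⊤ := by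
  open Cfsg.Lib.Transfer in
  by_cases hA : ∀ g : G, g ⋆ X ≤ A
  · exact Or.inl (top_le_iff.1 (hgen ▸ iSup_le hA))
  right
  push Not at hA
  obtain ⟨g₀, hg₀⟩ := hA
  open Cfsg.Lib.Transfer in
  set B₀ : Subgroup G := ⨆ g : {g : G // ¬ g ⋆ X ≤ A}, (g : G) ⋆ X with hB₀
  have h1 : B₀ ≤ B := iSup_le fun g => (hcover g).resolve_left g.2
  have h2 : A ≤ Subgroup.normalizer (B₀ : Set G) := by
    open Cfsg.Lib.Transfer in
    have key : ∀ a ∈ A, a ⋆ B₀ ≤ B₀ := fun a ha => by
      rw [hB₀, Subgroup.map_iSup]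
      refine iSup_le fun g => ?_
      rw [conj_conj]
      refine le_iSup (fun g : {g : G // ¬ g ⋆ X ≤ A} => (g : G) ⋆ X) ⟨a * g, fun h => g.2 ?_⟩
      rw [← conj_conj, conj_le_iff_le_inv_conj, conj_eq_self_of_mem (A.inv_mem ha)] at h
      exact h
    open Cfsg.Lib.Transfer in
    exact fun a ha => conj_eq_self_iff.1 (le_antisymm (key a ha)
      (le_conj_iff_inv_conj_le.2 (key _ (A.inv_mem ha))))
  have h3 : B₀.Normal := by
    refine Cfsg.Lib.Core.normal_of_top_le_normalizer (hgen ▸ iSup_le fun g => ?_)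
    open Cfsg.Lib.Transfer in
    by_cases h : g ⋆ X ≤ A
    · exact h.trans h2
    · open Cfsg.Lib.Transfer in
      exact (le_iSup (fun g : {g : G // ¬ g ⋆ X ≤ A} => (g : G) ⋆ X) ⟨g, h⟩).trans
        Subgroup.le_normalizer
  refine top_le_iff.1 (le_trans (hgen ▸ iSup_le fun g => ?_) h1)
  open Cfsg.Lib.Transfer in
  have h4 := conj_mono (g * g₀⁻¹) (le_iSup (fun g : {g : G // ¬ g ⋆ X ≤ A} => (g : G) ⋆ X) ⟨g₀, hg₀⟩)
  open Cfsg.Lib.Transfer in
  rwa [conj_conj, inv_mul_cancel_right, ← hB₀, conj_eq_self_of_normal _ B₀] at h4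

end Cfsg.Agent.S2958
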