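import Cfsg.Statements.S2962
import Cfsg.Agent.Lib.Inv.ZStarElt
import Cfsg.Agent.Lib.PF.Main
import Cfsg.Agent.Lib.BG.Hall
import Cfsg.Agent.Lib.PGroup.Basic
import Cfsg.Agent.Lib.Core.PPrimeCore

set_option autoImplicit false
open Cfsg

namespace Cfsg.Agent.S2962

open Subgroup Cfsg.Lib Cfsg.Lib.BG
open scoped commutatorElement

/-- Let G be a finite group with G = QN, where N is a normal subgroup of G and Q is a non-abelian 2-subgroup with Q ∩ N = 1. Suppose that some nontrivial element t of Z(Q) ∩ [Q, Q] satisfies C_N(Q) = C_N(t). Then [N, Q] is solvable of odd order. -/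
theorem result {G : Type*} [Group G] [Finite G] (N Q : Subgroup G) [N.Normal] (hG : Q ⊔ N = ⊤) (hQ : IsPGroup 2 ↥Q) (hQna : ¬ IsMulCommutative ↥Q) (hdisj : Q ⊓ N = ⊥) (t : G) (ht1 : t ≠ 1) (htZ : t ∈ Q ⊓ Subgroup.centralizer (Q : Set G)) (htQ : t ∈ ⁅Q, Q⁆) (hC : N ⊓ Subgroup.centralizer (Q : Set G) = N ⊓ Subgroup.centralizer ({t} : Set G)) : Group.IsSolvable ↥⁅N, Q⁆ ∧ Odd (Nat.card ↥⁅N, Q⁆) := by
  obtain ⟨S, hQS⟩ := hQ.exists_le_sylow
  have hC' : ∀ x ∈ N, x * t = t * x → ∀ u ∈ Q, u * x = x * u := fun x hx h =>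
    (hC.ge ⟨hx, mem_centralizer_singleton_iff.2 h⟩).2
  have hT : (S : Subgroup G) ⊓ N ≤ 𝐂(Q) := by
    by_contra hn
    have := pgroup_nil S.isPGroup'
    obtain ⟨x, hx, hx1, hx2⟩ := PGroup.exists_mem_not_mem_commutator_mem (S := S)
      (M := (S : Subgroup G) ⊓ N ⊓ 𝐂(Q)) inf_le_left (norm_inf le_normalizer le_normalizer_of_normal)
      fun h => hn (h.trans inf_le_right)
    have h1 := PGroup.mem_normalizer_of_commutator_mem fun m hm => hx2 m hm.1.1
    have h2 : ⁅zpowers x, Q⁆ ≤ 𝐂(Q) := commutator_le.2 fun y hy u hu => by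
      obtain ⟨k, rfl⟩ := mem_powers_iff_mem_zpowers.2 hy
      exact (PGroup.commutator_pow_left_mem h1 (hx2 u (hQS hu)) k).2
    have h3 := commutator_eq_bot_iff_le_centralizer.2 h2
    have h4 := commutator_commutator_eq_bot_of_rotate (H₁ := Q) (H₂ := Q) (H₃ := zpowers x)
      (by rwa [commutator_comm Q]) h3
    exact hx1 ⟨hx, fun u hu => hC' x hx.2
      (commutator_eq_bot_iff_le_centralizer.1 h4 htQ x (mem_zpowers x)) u hu⟩
  have hN : N.Normal := inferInstance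
  have hiso : Inv.IsoElt 2 t := by
    refine Inv.isoElt_of_sylow S (hQS htZ.1) fun g hg => ?_
    obtain ⟨n, hn, q, hq, rfl⟩ := (mem_sup_left_norm (N := N) (H := Q) le_normalizer_of_normal).1
      (by rw [sup_comm, hG]; exact mem_top g)
    have e : n * q * t * (n * q)⁻¹ = n * t * n⁻¹ := by
      rw [mul_assoc n, htZ.2 q hq]; group
    rw [e] at hg ⊢
    have h1 : n * t * n⁻¹ * t⁻¹ ∈ 𝐂(Q) := hT <| mem_inf.2 ⟨mul_mem hg (inv_mem (hQS htZ.1)), by
      rw [mul_assoc, mul_assoc, ← mul_assoc t]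
      exact mul_mem hn (hN.conj_mem _ (inv_mem hn) t)⟩
    have h2 : n * t * n⁻¹ ∈ 𝐂(Q) := by simpa using mul_mem h1 htZ.2
    have hcN : ∀ u : G, u⁻¹ * (n⁻¹ * u * n) ∈ N := fun u => by
      have := mul_mem (hN.conj_mem' _ (inv_mem hn) u) hn
      rwa [mul_assoc, mul_assoc, ← mul_assoc n⁻¹] at this
    have h3 : ∀ u ∈ Q, ∀ v ∈ Q, Commute v (u⁻¹ * (n⁻¹ * u * n)) := fun u hu => by
      refine hC' _ (hcN u) (Commute.mul_left (Commute.inv_left (htZ.2 u hu)) ?_)
      have := h2 u hu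
      calc n⁻¹ * u * n * t = n⁻¹ * (u * (n * t * n⁻¹)) * n := by group
        _ = t * (n⁻¹ * u * n) := by rw [this]; group
    have h4 : ∀ u ∈ Q, ∀ v ∈ Q, Commute (n⁻¹ * v * n) (u⁻¹ * (n⁻¹ * u * n)) := by
      intro u hu v hv
      have h5 : Commute u (n⁻¹ * t * n) := by
        have := Commute.mul_right (htZ.2 u hu) (h3 t htZ.1 u hu)
        rwa [mul_inv_cancel_left] at this
      have h6 : Commute (n⁻¹ * u * n) (n⁻¹ * t * n) := by
        simpa using Commute.conj (htZ.2 u hu) n⁻¹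
      have h7 := (h5.inv_left.mul_left h6).conj n
      have h8 := Commute.conj (hC' _ (hN.conj_mem _ (hcN u) n) (by simpa [mul_assoc] using h7.eq)
        v hv) n⁻¹
      simpa [mul_assoc] using h8
    have h5 : ⁅Q, Q⁆ ≤ 𝐂[n] := commutator_le.2 fun a ha b hb => by
      have h6 := (h4 a ha b hb).eq
      have h7 := (h3 b hb a ha).eq
      refine mem_centralizer_singleton_iff.2 ?_
      have h8 : n⁻¹ * ⁅a, b⁆ * n = ⁅a, b⁆ := by
        calc n⁻¹ * ⁅a, b⁆ * n = a * (a⁻¹ * (n⁻¹ * a * n) * (n⁻¹ * b * n)) *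
              (a⁻¹ * (n⁻¹ * a * n))⁻¹ * a⁻¹ * (n⁻¹ * b * n)⁻¹ := by
              rw [commutatorElement_def]; group
          _ = a * b * (b⁻¹ * (n⁻¹ * b * n)) * a⁻¹ * (n⁻¹ * b * n)⁻¹ := by rw [← h6]; group
          _ = a * b * a⁻¹ * (a * (b⁻¹ * (n⁻¹ * b * n))) * a⁻¹ * (n⁻¹ * b * n)⁻¹ := by group
          _ = ⁅a, b⁆ := by rw [h7, commutatorElement_def]; group
      rw [← h8, ← mul_assoc, ← mul_assoc, mul_inv_cancel, one_mul, h8]
    rw [← mem_centralizer_singleton_iff.1 (h5 htQ), mul_inv_cancel_right]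
  have hGN : IsPGroup 2 (G ⧸ N) := by
    refine hQ.of_surjective ((QuotientGroup.mk' N).comp Q.subtype) fun y => ?_
    obtain ⟨g, rfl⟩ := QuotientGroup.mk'_surjective N y
    obtain ⟨q, hq, n, hn, rfl⟩ := (mem_sup_right_norm (N := N) (H := Q) le_normalizer_of_normal).1
      (by rw [hG]; exact mem_top g)
    exact ⟨⟨q, hq⟩, by simp [hn]⟩
  have hO : (Nat.card (oddCore G)).Coprime 2 := Nat.coprime_two_right.2 (Core.odd_card_oddCore G)
  have hOn : (oddCore G).Normal := inferInstance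
  have hle : ⁅N, Q⁆ ≤ oddCore G := commutator_le.2 fun g hg u hu => by
    obtain ⟨a, ha, c, hc, rfl⟩ := hiso.exists_mul g
    have h1 : a ∈ N := Transfer.pResidual_le_of_isPGroup_quotient N hGN
      (Transfer.mem_pResidual_of_coprime (Transfer.subgroup_card_coprime_iff.1 hO a ha))
    have h2 := hC' c ((mul_mem_cancel_left h1).1 hg) (mem_centralizer_singleton_iff.1 hc) u hu
    have := mul_mem ha (hOn.conj_mem _ (inv_mem ha) u)
    convert this using 1
    rw [commutatorElement_def, mul_assoc a, ← h2]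
    group
  have hodd : Odd (Nat.card ↥⁅N, Q⁆) :=
    (Nat.coprime_two_right.1 hO).of_dvd_nat (card_dvd_of_le hle)
  exact ⟨PF.isSolvable_of_odd _ hodd, hodd⟩

end Cfsg.Agent.S2962
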