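import Cfsg.Statements.S2963

set_option autoImplicit false
open Cfsg

namespace Cfsg.Agent.S2963

open Equiv MulAction
open scoped Pointwise

theorem top_of_swap {n : ℕ} {M : Subgroup (Perm (Fin n))} {x y : Fin n} (hy : y ≠ x)
    (h1 : stabilizer (Perm (Fin n)) x ≤ M) (h2 : swap x y ∈ M) : M = ⊤ := by
  have k1 : ∀ a b : Fin n, a ≠ x → b ≠ x → swap a b ∈ M := fun a b ha hb =>
    h1 (by simpa using swap_apply_of_ne_of_ne ha.symm hb.symm)
  have k2 : ∀ z : Fin n, z ≠ x → swap x z ∈ M := fun z hz => by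
    have := M.mul_mem (M.mul_mem (k1 y z hy hz) h2) (M.inv_mem (k1 y z hy hz))
    rwa [← swap_apply_apply, swap_apply_left, swap_apply_of_ne_of_ne hy.symm hz.symm] at this
  rw [eq_top_iff, ← Perm.closure_isSwap, Subgroup.closure_le]
  rintro _ ⟨a, b, hab, rfl⟩
  by_cases ha : a = x
  · subst ha; exact k2 b (Ne.symm hab)
  by_cases hb : b = x
  · subst hb; rw [swap_comm]; exact k2 a ha
  exact k1 a b ha hb

/-- Let n be odd. If the symmetric group of degree n is a minimal parabolic group for the prime 2, that is, a Sylow 2-subgroup is not normal and lies in exactly one maximal subgroup, then n = 2^m + 1 for some natural number m. -/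
theorem result (n : ℕ) (hn : Odd n) (h : Cfsg.IsPMinimal 2 (Equiv.Perm (Fin n))) : ∃ m : ℕ, n = 2 ^ m + 1 := by
  classical
  obtain ⟨S⟩ : Nonempty (Sylow 2 (Perm (Fin n))) := inferInstance
  obtain ⟨hnn, M, ⟨hM, -⟩, hu⟩ := h S
  obtain ⟨x, hx⟩ := S.isPGroup'.nonempty_fixed_point_of_prime_not_dvd_card (Fin n) (by
    rw [Nat.card_eq_fintype_card, Fintype.card_fin]
    exact fun e => Nat.not_even_iff_odd.2 hn (even_iff_two_dvd.2 e))
  have le : ∀ K : Subgroup (Perm (Fin n)), K ≠ ⊤ → (S : Subgroup _) ≤ K → K ≤ M := fun K h1 h2 => by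
    obtain ⟨N, hN, hKN⟩ := (eq_top_or_exists_le_coatom K).resolve_left h1
    exact hu N ⟨hN, h2.trans hKN⟩ ▸ hKN
  obtain ⟨a, ha⟩ : ∃ a : Fin n, a ≠ x := by
    by_contra! e
    have : Subsingleton (Fin n) := ⟨fun a b => (e a).trans (e b).symm⟩
    exact hnn (Subsingleton.elim (S : Subgroup (Perm (Fin n))) ⊤ ▸ inferInstance)
  have hxo : x ∉ orbit S a := by
    rintro ⟨s, hs⟩
    exact ha ((MulAction.injective s) (hs.trans (hx s).symm))
  have h1 : stabilizer (Perm (Fin n)) x ≤ M := le _ (fun e => ha (by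
    have := e.ge (Subgroup.mem_top (swap x a))
    simpa using this)) fun s hs => hx ⟨s, hs⟩
  have h2 : stabilizer (Perm (Fin n)) (orbit S a) ≤ M := by
    refine le _ (fun e => hxo ?_) fun s hs => smul_orbit (⟨s, hs⟩ : S) a
    have := e.ge (Subgroup.mem_top (swap x a))
    rw [mem_stabilizer_iff] at this
    rw [← this]
    exact ⟨a, mem_orbit_self a, by simp⟩
  have h3 : ∀ y, y ≠ x → y ∈ orbit S a := fun y hy => by
    by_contra hy'
    refine hM.1 (top_of_swap hy h1 (h2 ?_))
    rw [mem_stabilizer_iff]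
    ext z
    rw [Set.mem_smul_set_iff_inv_smul_mem]
    by_cases h1 : z = x
    · simp [h1, hxo, hy']
    by_cases h2 : z = y
    · simp [h2, hxo, hy']
    simp [swap_apply_of_ne_of_ne h1 h2]
  obtain ⟨m, hm⟩ := S.isPGroup'.card_orbit a
  refine ⟨m, ?_⟩
  have : orbit S a = {x}ᶜ := Set.ext fun y => ⟨fun hy e => hxo (e ▸ hy), h3 y⟩
  rw [this, Nat.card_coe_set_eq, Set.ncard_compl, Set.ncard_singleton, Nat.card_eq_fintype_card,
    Fintype.card_fin] at hm
  have := hn.pos
  omega

end Cfsg.Agent.S2963
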