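import Cfsg.Statements.S2979
import Cfsg.Agent.Lib.CS.Five

set_option autoImplicit false
open Cfsg
open Subgroup Cfsg.Lib.BG Cfsg.Lib.Transfer Cfsg.Lib.Loc Cfsg.Lib.PLocal Cfsg.Lib.PU Cfsg.Lib.CGT Cfsg.Lib.CS

namespace Cfsg.Agent.S2979

/-- The local C*(G,T)-Theorem. Let G be a finite group of characteristic p (C_G(O_p(G)) ≤ O_p(G)), p prime, T a Sylow p-subgroup, and suppose G ≠ C*(G,T), the subgroup generated by C_G(Ω₁(Z(T))) and the normalizers of the nontrivial characteristic subgroups of the Baumann subgroup B(T). Then G has a set of B(T)-blocks with the block structure: it is closed under conjugation, distinct members commute, G = C*(G,T)·⟨blocks⟩, every B(T)-block outside C*(G,T) lies in a member, C*(G,T) meets the product of the blocks in the product of its intersections with them, and each block E has E/O_p(E) ≅ SL₂(pᵐ) with pᵐ > 3 and C*(G,T) ∩ E = N_E(T ∩ E), or p = 2, E/O₂(E) alternating of degree 2m+1 with C*(G,T) ∩ E mapping onto an alternating group of degree 2m, or p = 3, E/O₃(E) quaternion of order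 8 with C*(G,T) ∩ E mapping onto its centre. -/
theorem result {G : Type*} [Group G] [Finite G] {p : ℕ} [Fact p.Prime] (hG : Subgroup.centralizer (Cfsg.pCore p G : Set G) ≤ Cfsg.pCore p G) (T : Sylow p G) (hne : Cfsg.cStarOf p (T : Subgroup G) ≠ ⊤) : ∃ 𝓑 : Set (Subgroup G), Cfsg.HasBaumannBlockStructure p (T : Subgroup G) 𝓑 := by
  exact ⟨_, CT.structure ⟨isChP_top.2 hG, sylIn_top T⟩⟩

end Cfsg.Agent.S2979
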