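import Cfsg.Statements.S2981
import Cfsg.Agent.Lib.CGT.Star
-- import your own Cfsg.Agent.* helpers here

set_option autoImplicit false
open Cfsg

namespace Cfsg.Agent.S2981

open Subgroup Cfsg.Lib Cfsg.Lib.BG Cfsg.Lib.PLocal Cfsg.Lib.CGT Cfsg.Lib.Loc

/-- The local C**(G,T)-Theorem for minimal parabolic groups. Let G be a finite p-minimal group (a Sylow p-subgroup T is not normal and lies in exactly one maximal subgroup) of characteristic p (C_G(O_p(G)) ≤ O_p(G)), and suppose G ≠ C**(G,T), the subgroup generated by C_G(Ω₁(Z(T))) and N_G(J(T)) (J(T) generated by the elementary abelian p-subgroups of T of largest order). Put V = Ω₁(Z(O_p(G))) and C = C_G(V). Then there are subgroups E₁, …, E_r of G containing C such that: J(G)TC = G and the E_i C/C form an internal direct product equal to J(G)C/C; any two of the E_i are conjugate by an element of T; V = C_V(⟨E_i⟩)·∏[V, E_i] with [V, E_i, E_j] = 1 for i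 ≠ j; for some n ≥ 1, each E_i/C is isomorphic to SL₂(pⁿ), or p = 2 and to the symmetric group of degree 2ⁿ + 1; and E_i acts on [V, E_i]/C_{[V,E_i]}(E_i) as the natural two-dimensional SL₂(pⁿ)-module, respectively as the symmetric group of degree 2ⁿ+1 on its even-weight permutation module. -/
theorem result {G : Type*} [Group G] [Finite G] {p : ℕ} [Fact p.Prime] (hmin : Cfsg.IsPMinimal p G) (hG : Subgroup.centralizer (Cfsg.pCore p G : Set G) ≤ Cfsg.pCore p G) (T : Sylow p G) (hne : Cfsg.cStarStarOf p (T : Subgroup G) ≠ ⊤) : ∃ (r : ℕ) (E : Fin r → Subgroup G), (∀ i, Subgroup.centralizer (Cfsg.omegaOneCenter p (Cfsg.pCore p G) : Set G) ≤ E i) ∧ Cfsg.thompsonSubgroup p G ⊔ (T : Subgroup G) ⊔ Subgroup.centralizer (Cfsg.omegaOneCenter p (Cfsg.pCore p G) : Set G) = ⊤ ∧ (⨆ i, E i) = Cfsg.thompsonSubgroup p G ⊔ Subgroup.centralizer (Cfsg.omegaOneCenter p (Cfsg.pCore p G) : Set G) ∧ (∀ i j, i ≠ j → ⁅E i, E j⁆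 ≤ Subgroup.centralizer (Cfsg.omegaOneCenter p (Cfsg.pCore p G) : Set G)) ∧ (∀ i, E i ⊓ (⨆ j ∈ {j | j ≠ i}, E j) ≤ Subgroup.centralizer (Cfsg.omegaOneCenter p (Cfsg.pCore p G) : Set G)) ∧ (∀ i j, ∃ t ∈ (T : Subgroup G), (E i).map (MulAut.conj t).toMonoidHom = E j) ∧ (Cfsg.omegaOneCenter p (Cfsg.pCore p G) ⊓ Subgroup.centralizer ((⨆ i, E i : Subgroup G) : Set G)) ⊔ (⨆ i, ⁅Cfsg.omegaOneCenter p (Cfsg.pCore p G), E i⁆) = Cfsg.omegaOneCenter p (Cfsg.pCore p G) ∧ (∀ i j, i ≠ j → ⁅⁅Cfsg.omegaOneCenter p (Cfsg.pCore p G), E i⁆, E j⁆ = ⊥) ∧ ∀ i, ∃ n : ℕ, 1 ≤ n ∧ ((∃ (F : Type) (_ : Field F) (_ : Fintype F), Fintype.card F = p ^ n ∧ (∃ _ : ((Subgroup.centralizer (Cfsg.omegaOneCenter p (Cfsg.pCore p G) : Set G)).subgroupOf (E i)).Normal, Nonempty (↥(E i) ⧸ (Subgroup.centralizer (Cfsg.omegaOneCenter p (Cfsg.pCore p G) : Set G)).subgroupOf (E i) ≃* Matrix.SpecialLinearGroup (Fin 2) F)) ∧ Cfsg.ActsAsSL2OnSection F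 ⊤ (E i) ⁅Cfsg.omegaOneCenter p (Cfsg.pCore p G), E i⁆ (⁅Cfsg.omegaOneCenter p (Cfsg.pCore p G), E i⁆ ⊓ Subgroup.centralizer ((E i : Subgroup G) : Set G))) ∨ (p = 2 ∧ (∃ _ : ((Subgroup.centralizer (Cfsg.omegaOneCenter p (Cfsg.pCore p G) : Set G)).subgroupOf (E i)).Normal, Nonempty (↥(E i) ⧸ (Subgroup.centralizer (Cfsg.omegaOneCenter p (Cfsg.pCore p G) : Set G)).subgroupOf (E i) ≃* Equiv.Perm (Fin (2 ^ n + 1)))) ∧ Cfsg.ActsAsOddPermModuleOnSection (2 ^ n + 1) ⊤ (E i) ⁅Cfsg.omegaOneCenter p (Cfsg.pCore p G), E i⁆ (⁅Cfsg.omegaOneCenter p (Cfsg.pCore p G), E i⁆ ⊓ Subgroup.centralizer ((E i : Subgroup G) : Set G)))) := by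
  obtain ⟨M, h⟩ := (isPMinimal_iff_top T).1 hmin
  set V := omegaOneCenter p (pCore p G)
  have : V.Normal := Core.normal_of_top_le_normalizer
    (le_normalizer_of_normal.trans (normalizer_le_normalizer_oz _))
  obtain ⟨W, _, _, d, hd⟩ := exists_dict' (oz_elemAb (p := p) (pCore p G)).1 (MonoidHom.id G)
    Function.injective_id le_normalizer_of_normal
  have h1 := h.uniq _ (le_sup_of_le_left (le_centralizer_oz _)) (lt_top_iff_ne_top.2 hne)
  have h2 : omegaOneCenter p (T : Subgroup G) ≤ V := le_oz (oz_elemAb _) ((oz_le_centralizer _).trans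
    ((cent_anti (Core.pCore_le_sylow T)).trans hG))
      ((oz_le_centralizer _).trans (cent_anti (Core.pCore_le_sylow T)))
  obtain ⟨r, E, hE, h3⟩ := d.fam hd h (oz_elemAb _) ((oz_le _).trans (Core.pCore_le_sylow T))
    (Core.pCoreOf_top.le.trans (le_centralizer_oz _))
    ((cent_anti (le_inf h2 (oz_le_centralizer _))).trans (le_sup_left.trans h1))
    fun e => h.not_le ((normalizer_eq_top _).ge.trans (le_sup_right.trans h1))
  obtain ⟨a1, a2, a3, a4, a5, a6, a7, a8⟩ := hE.out toImg_surj toImg_smul d img_faith rfl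
  rw [d.ker_eq hd] at a1 a2
  simp only [hd, Subgroup.map_id] at a1 a2 a3 a4 a5 a6 a7 a8
  refine ⟨r, _, fun i => d.ker_eq hd ▸ ker_le_comap _ _, ?_, a3.trans h3, a1, a2, a5, a6, a7,
    fun i => (a8 i).imp fun n hn => ⟨hn.1, ?_⟩⟩
  · rw [sup_right_comm, ← h3, ← a3, a4]
    exact MonoidHom.range_eq_top.2 Function.surjective_id
  exact hn.2.imp (fun ⟨F, _, _, h1, ⟨ρ, h2, h3⟩, h4⟩ => ⟨F, _, _, h1, ⟨inferInstance,
    ⟨(QuotientGroup.quotientMulEquivOfEq h3.symm).trans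
      (QuotientGroup.quotientKerEquivOfSurjective ρ h2)⟩⟩, h4⟩)
    fun ⟨h1, ⟨ρ, h2, h3⟩, h4⟩ => ⟨h1, ⟨inferInstance,
      ⟨(QuotientGroup.quotientMulEquivOfEq h3.symm).trans
        (QuotientGroup.quotientKerEquivOfSurjective ρ h2)⟩⟩, h4⟩

end Cfsg.Agent.S2981
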