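import Cfsg.Statements.S2982
import Cfsg.Agent.Lib.CS.Six

set_option autoImplicit false
open Cfsg
open Cfsg.Lib Subgroup Cfsg.Lib.BG Cfsg.Lib.Transfer Cfsg.Lib.Loc Cfsg.Lib.PLocal Cfsg.Lib.PU Cfsg.Lib.CGT Cfsg.Lib.CS

namespace Cfsg.Agent.S2982

/-- Pushing up for minimal parabolic groups. Let G be a finite p-minimal group (a Sylow p-subgroup T is not normal and lies in exactly one maximal subgroup) of characteristic p (C_G(O_p(G)) ≤ O_p(G)). Suppose that no nontrivial characteristic subgroup of the Baumann subgroup B(T) is normal in G and that Ω₁(Z(T)) is not normal in G. Then G has a set of B(T)-blocks with the block structure of the local C*(G,T)-Theorem, every block E with E/O_p(E) alternating of degree 2m+1 (p = 2) has 2m+1 = 2ⁿ+1, and C*(G,T) = (C*(G,T) ∩ ⟨blocks⟩)·T. -/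
theorem result {G : Type*} [Group G] [Finite G] {p : ℕ} [Fact p.Prime] (hmin : Cfsg.IsPMinimal p G) (hG : Subgroup.centralizer (Cfsg.pCore p G : Set G) ≤ Cfsg.pCore p G) (T : Sylow p G) (hchar : ∀ C : Subgroup G, C ≤ Cfsg.baumannSubgroupOf p (T : Subgroup G) → C ≠ ⊥ → (C.subgroupOf (Cfsg.baumannSubgroupOf p (T : Subgroup G))).Characteristic → ¬ C.Normal) (hz : ¬ (Cfsg.omegaOneCenter p (T : Subgroup G)).Normal) : ∃ 𝓑 : Set (Subgroup G), Cfsg.HasBaumannBlockStructure p (T : Subgroup G) 𝓑 ∧ (∀ E ∈ 𝓑, ∀ m : ℕ, Nonempty (↥E ⧸ Cfsg.pCore p ↥E ≃* ↥(alternatingGroup (Fin (2 * m + 1)))) → ∃ n : ℕ, 2 * m + 1 = 2 ^ n + 1) ∧ Cfsg.cStarOf p (T : Subgroup G) = (Cfsg.cStarOf p (T : Subgroup G) ⊓ sSup 𝓑) ⊔ (T : Subgroup G) := by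
  have c : CT p (T : Subgroup G) := ⟨isChP_top.2 hG, sylIn_top T⟩
  obtain ⟨-, M, ⟨h1, h2⟩, h3⟩ := hmin T
  have k : ∀ H, (T : Subgroup G) ≤ H → H ≠ ⊤ → H ≤ M := fun H h4 h5 =>
    ((eq_top_or_exists_le_coatom H).resolve_left h5).elim fun N e => h3 N ⟨e.1, h4.trans e.2⟩ ▸ e.2
  have h : Sit p T M := ⟨c.chp, c.syl, k _ (cent_symm (oz_le_centralizer _)) fun e =>
    hz (Core.normal_of_top_le_normalizer (e.ge.trans (centralizer_le_normalizer _))), fun C h4 h5 h6 => k _
      (((le_norm _).trans (normalizer_le_baum _)).trans (map_subgroupOf_eq_of_le h4 ▸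
        Core.normalizer_le_normalizer_map_subtype _)) fun e =>
          hchar C h4 h5 h6 (Core.normal_of_top_le_normalizer e.ge)⟩
  refine ⟨_, c.structure, fun E hE m ⟨φ⟩ => h.pow h1.1 hE.1 hE.2.1 (fun l e => ?_) φ, ?_⟩
  · have h4 : (T : Subgroup G) ≤ 𝐍(closure (Om T l)) := fun t ht => norm_of_conj_eq (by
      rw [om_map (MulAut.conj t).injective, conj_eq_self_of_mem ht])
    exact le_sup_left.trans (k _ le_sup_right fun e' => e (cent_symm (hE.2.1.res.ge.trans ((res_mono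
      (le_top.trans (e'.ge.trans (sup_comm _ _).le))).trans ((res_sup_of_isPGroup c.syl.2.1
        (norm_cent h4)).le.trans (Loc.res_le _ _))))))
  · have := c.sit.normal_blks
    have h0 : cStarOf p T ≤ M := sup_le h.cz (iSup_le fun C => h.ch _ C.2.1 C.2.2.1 C.2.2.2)
    have h6 := c.sit.sup_blks
    generalize sSup (blks p (T : Subgroup G) (cStarOf p (T : Subgroup G))) = K at *
    have h4 : K ⊔ T = ⊤ := by_contra fun e => h1.1 (top_unique
      (h6.ge.trans (sup_le h0 (le_sup_left.trans (k (K ⊔ T) le_sup_right e)))))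
    have h5 := modular_right (N := K) c.sit.le le_normalizer_of_normal
    rwa [h4, top_inf_eq, inf_comm] at h5

end Cfsg.Agent.S2982
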