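import Cfsg.Statements.S2986
import Cfsg.Agent.Lib.CS.Sub
import Cfsg.Agent.Lib.CS.Conv

set_option autoImplicit false
open Cfsg
open Subgroup Cfsg.Lib.BG Cfsg.Lib.Loc Cfsg.Lib.PLocal Cfsg.Lib.PU Cfsg.Lib.CS

namespace Cfsg.Agent.S2986

/-- Let G be a finite group of characteristic p (C_G(O_p(G)) ≤ O_p(G)). If E and F are subnormal subgroups of G each of which is a B(T)-block of G for some Sylow p-subgroup T of G (possibly different ones), then E = F or [E, F] = 1. -/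
theorem result {G : Type*} [Group G] [Finite G] {p : ℕ} [Fact p.Prime] (hG : Subgroup.centralizer (Cfsg.pCore p G : Set G) ≤ Cfsg.pCore p G) (E F : Subgroup G) (hE : ∃ T : Sylow p G, Cfsg.IsBaumannBlock p (T : Subgroup G) E) (hF : ∃ T : Sylow p G, Cfsg.IsBaumannBlock p (T : Subgroup G) F) (hEs : E.IsSubnormal) (hFs : F.IsSubnormal) : E = F ∨ ⁅E, F⁆ = ⊥ := by
  obtain ⟨T, h⟩ := hE
  obtain ⟨T', h'⟩ := hF
  exact (CT.eq_or_cent ⟨isChP_top.2 hG, sylIn_top T'⟩ (blk_iff.1 h').1 hFs ⟨isChP_top.2 hG, sylIn_top T⟩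
    (blk_iff.1 h).1 hEs).imp_right comm_eq_bot_iff.2

end Cfsg.Agent.S2986
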