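import Cfsg.Statements.S2987
import Cfsg.Agent.Lib.CS.Sub
import Cfsg.Agent.Lib.CS.Conv

set_option autoImplicit false
open Cfsg
open Subgroup Cfsg.Lib.BG Cfsg.Lib.Transfer Cfsg.Lib.Loc Cfsg.Lib.PLocal Cfsg.Lib.PU Cfsg.Lib.CGT Cfsg.Lib.CS

namespace Cfsg.Agent.S2987

/-- Let G be a finite group of characteristic p (C_G(O_p(G)) ≤ O_p(G)) and E a subnormal subgroup of G which is a B(T)-block for some Sylow p-subgroup T of G. Then E is a normal subgroup of the Baumann subgroup B(G) (generated by the B(T) over all Sylow p-subgroups T), E is a B(T')-block for every Sylow p-subgroup T' of G, and every subgroup F that is a B(T')-block for some Sylow p-subgroup T' satisfies F ≤ E or [F, E] = 1. -/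
theorem result {G : Type*} [Group G] [Finite G] {p : ℕ} [Fact p.Prime] (hG : Subgroup.centralizer (Cfsg.pCore p G : Set G) ≤ Cfsg.pCore p G) (E : Subgroup G) (hE : ∃ T : Sylow p G, Cfsg.IsBaumannBlock p (T : Subgroup G) E) (hEs : E.IsSubnormal) : E ≤ Cfsg.baumannSubgroup p G ∧ Cfsg.baumannSubgroup p G ≤ Subgroup.normalizer (E : Set G) ∧ (∀ T' : Sylow p G, Cfsg.IsBaumannBlock p (T' : Subgroup G) E) ∧ ∀ F : Subgroup G, (∃ T' : Sylow p G, Cfsg.IsBaumannBlock p (T' : Subgroup G) F) → F ≤ E ∨ ⁅F, E⁆ = ⊥ := by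
  obtain ⟨T, h⟩ := hE
  have c : ∀ T : Sylow p G, CT p (T : Subgroup G) := fun T => ⟨isChP_top.2 hG, sylIn_top T⟩
  have h1 := (blk_iff.1 h).1
  have k : ∀ {S}, CT p S → baum p S ≤ baumannSubgroup p G := fun c' => by
    obtain ⟨P, rfl⟩ := sylIn_top_iff.1 c'.syl
    exact le_iSup (fun T : Sylow p G => baumannSubgroupOf p (T : Subgroup G)) P
  refine ⟨h1.comm.ge.trans (commutator_le.2 fun x _ b hb => mul_mem (k ((c T).conj x)
    ((conj_baum x _).le (conj_mem_conj.2 hb))) (inv_mem (k (c T) hb))),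
    iSup_le fun T' => (c T).baum_le_norm h1 hEs (c T'), fun T' => ?_, fun F ⟨T', hF⟩ =>
      ((c T).le_or_cent h1 hEs (c T') (blk_iff.1 hF).1).imp_right comm_eq_bot_iff.2⟩
  have h2 := (c T).blk_of_sn h1 hEs (c T')
  exact blk_iff.2 ⟨h2, mt comm_eq_bot_iff.1 ((c T').not_le_cent_oz h2 hEs)⟩

end Cfsg.Agent.S2987
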