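import Cfsg.Statements.S2988
import Cfsg.Agent.Lib.PU.GNExc

set_option autoImplicit false
universe u
open scoped Pointwise
open Cfsg

set_option linter.unusedVariables false
open Cfsg.Lib

namespace Cfsg.Agent.S2988

/-- Let p be a prime and S a nontrivial finite p-group. Write J(S) for the subgroup generated by the abelian subgroups of S of largest order (the large abelian subgroups) and J̃(S) = C_S(Z(J(S))). Unless S satisfies all of the following conditions — S is non-abelian; J(S) = S; Z(S) and Φ(S) are elementary abelian; Φ(S) ≤ Z(S) if p = 2, Φ(S) ≤ Z₂(S) if p = 3, and Φ(S) ≤ Z(S) with S of exponent p if p > 3; some large abelian subgroup is elementary abelian; and for all large abelian subgroups A, B and all subgroups Q of S one has |A|² = |S|·|Z(S)| ≥ |Q|·|Z(Q)| and ⟨A, B⟩ = AB = C_S(A ∩ B) — there exist nontrivial characteristic subgroups S₁ ≤ Z(S) and S₂ ≤ J̃(S) of S, S₂ characteristic in J̃(S), such that whenever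 S is embedded as a Sylow p-subgroup of a finite group G in the basic pushing-up situation, the image of S₁ or of S₂ is normal in G. -/
theorem result {p : ℕ} [Fact p.Prime] (S : Type u) [Group S] [Finite S] [Nontrivial S] (hS : IsPGroup p S) (hexc : ¬ (¬ IsMulCommutative S ∧ Cfsg.thompsonSubgroupA S = ⊤ ∧ Cfsg.IsElementaryAbelian p (Subgroup.center S) ∧ Cfsg.IsElementaryAbelian p (frattini S) ∧ (p = 2 → frattini S ≤ Subgroup.center S) ∧ (p = 3 → frattini S ≤ Subgroup.upperCentralSeries S 2) ∧ (3 < p → frattini S ≤ Subgroup.center S ∧ Monoid.exponent S = p) ∧ (∃ A ∈ Cfsg.maxAbelianSubgroups S, Cfsg.IsElementaryAbelian p A) ∧ (∀ A ∈ Cfsg.maxAbelianSubgroups S, ∀ B ∈ Cfsg.maxAbelianSubgroups S, ∀ Q : Subgroup S, Nat.card ↥A ^ 2 = Nat.card S * Nat.card ↥(Subgroup.center S) ∧ Nat.card ↥Q * Nat.card ↥(Subgroup.center ↥Q) ≤ Nat.card S * Nat.card ↥(Subgroup.center S) ∧ ((A ⊔ B : Subgroup S) : Set S) = (A : Set S) * (B : Set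 S) ∧ A ⊔ B = Subgroup.centralizer ((A ⊓ B : Subgroup S) : Set S)))) : ∃ S₁ S₂ : Subgroup S, S₁ ≠ ⊥ ∧ S₂ ≠ ⊥ ∧ S₁.Characteristic ∧ S₂.Characteristic ∧ S₁ ≤ Subgroup.center S ∧ S₂ ≤ Subgroup.centralizer ((Cfsg.thompsonSubgroupA S ⊓ Subgroup.centralizer (Cfsg.thompsonSubgroupA S : Set S) : Subgroup S) : Set S) ∧ (S₂.subgroupOf (Subgroup.centralizer ((Cfsg.thompsonSubgroupA S ⊓ Subgroup.centralizer (Cfsg.thompsonSubgroupA S : Set S) : Subgroup S) : Set S))).Characteristic ∧ ∀ (G : Type u) [Group G] [Finite G] (P : Subgroup G) (e : S ≃* ↥P), Cfsg.IsPushingUpSituation p P → ((S₁).map ((P.subtype).comp (e : S ≃* ↥P).toMonoidHom)).Normal ∨ ((S₂).map ((P.subtype).comp (e : S ≃* ↥P).toMonoidHom)).Normal := by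
  open Subgroup Transfer PLocal PU in
  suffices ∃ S₁ S₂ : Subgroup S, IsPair p S₁ S₂ by
    obtain ⟨S₁, S₂, k⟩ := this
    have ⟨h1, h2, h3, h4, h5, h6, h7, _⟩ := k
    exact ⟨S₁, S₂, h1, h2, h3, h4, h5, h6, h7, fun G _ _ => k.situation G⟩
  rcases exists_isPair_or hS with ⟨S₁, S₂, k, -⟩ | ⟨⟨hJ, hm⟩, h1, h2, h3, h4, h5, h6, h7, h8⟩
  · exact ⟨S₁, S₂, k⟩
  refine ⟨_, _, isPair_phi hS hJ fun h => hexc ⟨h1, h2, h3, h4, h5, h6, h7, ?_, h8⟩⟩
  obtain ⟨Q, hQ, e⟩ := exists_mz p S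
  have h1 := (le_iSup (fun Q : {Q : Subgroup S // IsMinimalCentrallyLarge Q ∧
    Nat.card ↥(omegaOneCenter p Q) = maxOmegaCenterOfMinimalCL p S} =>
    (frattini ↥Q.1).map Q.1.subtype) ⟨Q, hQ, e⟩).trans h.le
  rw [PGroup.map_subtype_frattini_le_iff (hS.to_subgroup Q), le_bot_iff] at h1
  exact ⟨Q, hm Q hQ, (hm Q hQ).1, h1.2⟩

end Cfsg.Agent.S2988
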