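import Cfsg.Statements.S2989
import Cfsg.Agent.Lib.PU.CL
import Cfsg.Agent.Lib.PGroup.RankTwo

set_option autoImplicit false
open Cfsg

set_option linter.unusedVariables false
open Cfsg.Lib

namespace Cfsg.Agent.S2989

/-- Let G be a finite group and S a Sylow p-subgroup of G in the basic pushing-up situation (G ≠ 1, C_G(O_p(G)) ≤ O_p(G), S lies in a unique maximal subgroup of G, and some quotient of G is isomorphic to PSL₂ over a field of order a power of p), and suppose that S centralizes Z(J(S)), where J(S) is generated by the abelian subgroups of S of largest order (that is, J̃(S) = C_S(Z(J(S))) = S). Call a subgroup R of S centrally large if |R|·|Z(R)| is as large as possible among subgroups of S, and let S_Φ be the subgroup generated by the Frattini subgroups Φ(Q) of those minimal centrally large subgroups Q of S whose Ω₁(Z(Q)) has the largest order among minimal centrally large subgroups. Then Z(S) or S_Φ is normal in G; and if S_Φ = 1, the minimal centrally large subgroups of S are exactly the abelian subgroups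 of S of largest order, and at least one of them is elementary abelian. -/
theorem result {G : Type*} [Group G] [Finite G] {p : ℕ} [Fact p.Prime] (S : Subgroup G) (hE : Cfsg.IsPushingUpSituation p S) (hJ : S ≤ Subgroup.centralizer (Cfsg.centerThompsonAOf S : Set G)) : ((S ⊓ Subgroup.centralizer (S : Set G)).Normal ∨ ((Cfsg.frattiniOfMinimalCLJoin p ↥S).map S.subtype).Normal) ∧ (Cfsg.frattiniOfMinimalCLJoin p ↥S = ⊥ → (∀ Q : Subgroup ↥S, Cfsg.IsMinimalCentrallyLarge Q ↔ Q ∈ Cfsg.maxAbelianSubgroups ↥S) ∧ ∃ A ∈ Cfsg.maxAbelianSubgroups ↥S, Cfsg.IsElementaryAbelian p A) := by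
  open Subgroup Transfer PLocal PU in
  obtain ⟨-, ⟨S, rfl⟩, hE₁, hE₂, K, _, F, _, _, n, hF, hE₃⟩ := hE
  have := charP_of_card_eq hF
  obtain ⟨M, hM, -⟩ := exists_hyp_of_psl S hE₁ hE₂ (hE₃.some.toMonoidHom.comp (QuotientGroup.mk' K))
    (hE₃.some.surjective.comp (QuotientGroup.mk'_surjective K))
  refine ⟨?_, fun h => ?_⟩
  · by_cases hZ : (S : Subgroup G) ⊓ centralizer ((S : Subgroup G) : Set G) ≤ center G
    · exact Or.inl (PGroup.normal_of_le_center hZ)
    rw [map_frattiniOfMinimalCLJoin]
    exact Or.inr (hM.hypZ hZ hJ).normal_phiJoin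
  obtain ⟨Q, hQ, hm⟩ := exists_mz p (S : Subgroup G)
  have h1 := (le_iSup (fun Q : {Q : Subgroup (S : Subgroup G) // IsMinimalCentrallyLarge Q ∧
    Nat.card ↥(omegaOneCenter p Q) = maxOmegaCenterOfMinimalCL p (S : Subgroup G)} =>
    (frattini ↥Q.1).map Q.1.subtype) ⟨Q, hQ, hm⟩).trans h.le
  rw [PGroup.map_subtype_frattini_le_iff (S.isPGroup'.to_subgroup Q), le_bot_iff] at h1
  have := le_centralizer_iff_isMulCommutative.1 (commutator_eq_bot_iff_le_centralizer.1 h1.1)
  exact ⟨Loc.IsMinimalCentrallyLarge.iff_mem_maxAbelian hQ, Q,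
    (Loc.IsMinimalCentrallyLarge.iff_mem_maxAbelian hQ Q).1 hQ, this, h1.2⟩

end Cfsg.Agent.S2989
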