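import Cfsg.Statements.S2990
import Cfsg.Agent.Lib.PU.CL
import Cfsg.Agent.Lib.PGroup.RankTwo

set_option autoImplicit false
open Cfsg

set_option linter.unusedVariables false
open Cfsg.Lib

namespace Cfsg.Agent.S2990

/-- Let G be a finite group and S a Sylow p-subgroup of G in the basic pushing-up situation (G ≠ 1, C_G(O_p(G)) ≤ O_p(G), S lies in a unique maximal subgroup of G, and some quotient of G is isomorphic to PSL₂ over a field of order a power of p), and suppose that S centralizes Z(J(S)), where J(S) is generated by the abelian subgroups of S of largest order (that is, J̃(S) = C_S(Z(J(S))) = S). Call a subgroup R of S centrally large if |R|·|Z(R)| is as large as possible among subgroups of S, let Q be a minimal centrally large subgroup of S and let S_MCL be the subgroup generated by all minimal centrally large subgroups of S. Then the derived subgroup [Q, Q] is characteristic in S; Z(S) ∩ [Q, Q] or S_MCL is normal in G; and if [Q, Q] = 1, the minimal centrally large subgroups of S are exactly the abelian subgroups of S of largest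 order. -/
theorem result {G : Type*} [Group G] [Finite G] {p : ℕ} [Fact p.Prime] (S : Subgroup G) (hE : Cfsg.IsPushingUpSituation p S) (hJ : S ≤ Subgroup.centralizer (Cfsg.centerThompsonAOf S : Set G)) (Q : Subgroup ↥S) (hQ : Cfsg.IsMinimalCentrallyLarge Q) : (⁅Q, Q⁆).Characteristic ∧ (((S ⊓ Subgroup.centralizer (S : Set G)) ⊓ (⁅Q, Q⁆).map S.subtype).Normal ∨ ((Cfsg.minimalCentrallyLargeJoin ↥S).map S.subtype).Normal) ∧ (⁅Q, Q⁆ = ⊥ → ∀ R : Subgroup ↥S, Cfsg.IsMinimalCentrallyLarge R ↔ R ∈ Cfsg.maxAbelianSubgroups ↥S) := by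
  open Subgroup Transfer PLocal PU in
  obtain ⟨-, ⟨S, rfl⟩, hE₁, hE₂, K, _, F, _, _, n, hF, hE₃⟩ := hE
  have := charP_of_card_eq hF
  obtain ⟨M, hM, -⟩ := exists_hyp_of_psl S hE₁ hE₂ (hE₃.some.toMonoidHom.comp (QuotientGroup.mk' K))
    (hE₃.some.surjective.comp (QuotientGroup.mk'_surjective K))
  refine ⟨characteristic_iff_map_eq.2 fun e => ?_, ?_, fun h => ?_⟩
  · rw [map_commutator]
    exact Loc.IsMinimalCentrallyLarge.commutator_eq (mclIn_top.1 (by
      have := (MCLIn.map (f := e.toMonoidHom) e.injective).2 (mclIn_top.2 hQ)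
      rwa [map_top_of_surjective _ e.surjective] at this)) hQ
  · by_cases hZ : (S : Subgroup G) ⊓ centralizer ((S : Subgroup G) : Set G) ≤ center G
    · exact Or.inl (PGroup.normal_of_le_center (inf_le_left.trans hZ))
    rw [map_commutator, map_minimalCentrallyLargeJoin]
    exact ((hM.hypZ hZ hJ).le_center_or (mclIn_map_subtype.2 hQ)).imp_left PGroup.normal_of_le_center
  · have := le_centralizer_iff_isMulCommutative.1 (commutator_eq_bot_iff_le_centralizer.1 h)
    exact Loc.IsMinimalCentrallyLarge.iff_mem_maxAbelian hQ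

end Cfsg.Agent.S2990
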