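import Cfsg.Statements.S2999
import Cfsg.Agent.Lib.PLocal.SL2Rec

set_option autoImplicit false
open Cfsg

set_option linter.unusedVariables false
open Cfsg.Lib

namespace Cfsg.Agent.S2999

/-- Let p be a prime and let P and V be subgroups of a finite group with V elementary abelian, P normalizing V and acting faithfully on it (P ∩ C(V) = 1). Suppose P is p-minimal (a Sylow p-subgroup T of P is not normal and lies in a unique maximal subgroup M of P) and A ≤ T is an elementary abelian subgroup such that: |V/C_V(A)| ≤ |A| while |A₀|·|C_V(A₀)| < |A|·|C_V(A)| for every nontrivial proper subgroup A₀ of A; [C_V(T), P] ≠ 1; and P = ⟨A, xAx⁻¹⟩ for every x ∈ P outside M. Then, with q = |A|, there is a field F with q elements such that P ≅ SL₂(F), C_V(A) = [V, A]·C_V(P), and P acts on V/C_V(P) as SL₂(F) on its natural two-dimensional module. -/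
theorem result {G : Type*} [Group G] [Finite G] {p : ℕ} [Fact p.Prime] (V P : Subgroup G) (hV : Cfsg.IsElementaryAbelian p V) (hPV : P ≤ Subgroup.normalizer (V : Set G)) (hfaith : P ⊓ Subgroup.centralizer (V : Set G) = ⊥) (hmin : Cfsg.IsPMinimal p ↥P) (T : Sylow p ↥P) (M : Subgroup ↥P) (hM : IsCoatom M) (hTM : (T : Subgroup ↥P) ≤ M) (A : Subgroup G) (hAT : A ≤ ((T : Subgroup ↥P).map P.subtype)) (hAel : Cfsg.IsElementaryAbelian p A) (hi : Nat.card ↥V ≤ Nat.card ↥A * Nat.card ↥(V ⊓ Subgroup.centralizer ((A : Subgroup G) : Set G)) ∧ ∀ A₀ : Subgroup G, A₀ ≤ A → A₀ ≠ ⊥ → A₀ ≠ A → Nat.card ↥A₀ * Nat.card ↥(V ⊓ Subgroup.centralizer ((A₀ : Subgroup G) : Set G)) < Nat.card ↥A * Nat.card ↥(V ⊓ Subgroup.centralizer ((A : Subgroup G) : Set G))) (hii : ⁅(V ⊓ Subgroup.centralizer ((((T : Subgroup ↥P).map P.subtype) : Subgroup G) : Set G)), P⁆ ≠ ⊥) (hiii : ∀ x : ↥P, x ∉ M → A ⊔ A.map (MulAut.conj (x : G)).toMonoidHom = P) : ∃ (F : Type) (_ : Field F) (_ : Fintype F),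 Fintype.card F = Nat.card ↥A ∧ Nonempty (↥P ≃* Matrix.SpecialLinearGroup (Fin 2) F) ∧ (V ⊓ Subgroup.centralizer ((A : Subgroup G) : Set G)) = ⁅V, A⁆ ⊔ (V ⊓ Subgroup.centralizer ((P : Subgroup G) : Set G)) ∧ Cfsg.ActsAsSL2OnSection F ⊤ P V (V ⊓ Subgroup.centralizer ((P : Subgroup G) : Set G)) := by
  open Subgroup Transfer PLocal in
  set T' := (T : Subgroup P).map P.subtype with hT'
  have hT'p : IsPGroup p T' := T.isPGroup'.map _
  have hT'P : T' ≤ P := map_subtype_le _
  have hAP : A ≤ P := hAT.trans hT'P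
  have hAV := hAP.trans hPV
  let M' := M.map P.subtype
  have hgen : ∀ x ∈ P, x ∉ M' → P ≤ A ⊔ x ⋆ A := fun x hx hx' =>
    (hiii ⟨x, hx⟩ fun h => hx' ⟨_, h, rfl⟩).ge
  have hPM : ¬ P ≤ M' := fun h => hM.1 (eq_top_iff.2 fun x _ => by
    obtain ⟨y, hy, e⟩ := h x.2
    exact Subtype.ext e ▸ hy)
  have huniq : ∀ K, T' ≤ K → K < P → K ≤ M' := fun K h1 h2 => by
    obtain ⟨N, hN, h3⟩ := (eq_top_or_exists_le_coatom (K.subgroupOf P)).resolve_left
      fun e => h2.not_ge (subgroupOf_eq_top.1 e)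
    rw [(hmin T).2.unique ⟨hN, (map_le_iff_le_comap.1 h1).trans h3⟩ ⟨hM, hTM⟩] at h3
    rw [← map_subgroupOf_eq_of_le h2.le]
    exact map_mono h3
  obtain ⟨x, hx, hxM⟩ := SetLike.not_le_iff_exists.1 hPM
  have hii' : ¬ V ⊓ centralizer (T' : Set G) ≤ centralizer (P : Set G) := fun h =>
    hii (commutator_eq_bot_iff_le_centralizer.2 h)
  have hnt : ∀ W : Subgroup G, V ⊓ centralizer (T' : Set G) ≤ W → P ≤ normalizer (W : Set G) →
      ¬ A ≤ centralizer (W : Set G) := fun W h1 h2 h3 => hii' (h1.trans (le_centralizer_iff.1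
    ((hgen x hx hxM).trans (sup_le h3 (by
      rw [← conj_eq_self_iff.2 (h2 hx), ← conj_centralizer]; exact conj_mono _ h3)))))
  have hAC := hnt V inf_le_left hPV
  have hmax : ∀ B ≤ A, offMeasure V B ≤ offMeasure V A := fun B hB => by
    rcases eq_or_ne B ⊥ with rfl | h0
    · refine le_trans ?_ hi.1
      rw [offMeasure, card_bot, one_mul]
      exact card_le_of_le inf_le_left
    rcases eq_or_ne B A with rfl | h1
    · exact le_rfl
    exact (hi.2 B hB h0 h1).le
  have hVp : IsPGroup p V := fun v => ⟨1, Subtype.ext (by simpa using hV.2 v v.2)⟩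
  have hquad : ⁅⁅V, A⁆, A⁆ = ⊥ := by
    obtain ⟨h1, h2⟩ := replacement_of_max hV.1 hAV (by
      rw [commutator_eq_bot_iff_le_centralizer.2 (le_centralizer_iff_isMulCommutative.2 hAel.1)]
      exact bot_le) hmax le_rfl
    have h3 := commutator_replacement_ne_bot hVp hV.1 hAV
      (fun a ha => ⟨1, by rw [pow_one, hAel.2 a ha]; exact one_mem _⟩) le_rfl h1
      (fun e => hAC (le_centralizer_iff.1 (commutator_eq_bot_iff_le_centralizer.1 e)))
    by_contra hne
    refine (hi.2 _ inf_le_left (fun e => h3 (by rw [e, commutator_bot_right])) fun e => hne ?_).ne h2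
    exact commutator_eq_bot_iff_le_centralizer.2 (le_centralizer_iff.1 (inf_eq_left.1 e))
  have hOT : pCoreOf p P ≤ T' := map_mono ((Core.pCore_isPGroup p P).le_sylow_of_normal T)
  have hgen' : ∀ a ∈ A, a ∉ pCoreOf p P → ∃ g ∈ P, P ≤ zpowers a ⊔ g ⋆ A := fun a ha ha' => by
    obtain ⟨g, hg, h1⟩ := exists_conj_not_mem_of_unique_maximal hT'p hT'P hPM huniq (hAT ha) ha'
    have h2 := conj_mono g (hgen _ (mul_mem (mul_mem (inv_mem hg) (hAP ha)) hg)
      fun h => h1 (mem_conj.2 h))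
    rw [conj_eq_self_of_mem hg, conj_sup, conj_conj, ← mul_assoc, mul_inv_cancel_left,
      ← conj_conj] at h2
    refine ⟨g, hg, h2.trans (sup_le le_sup_right ?_)⟩
    rw [← conj_eq_self_of_mem (mem_sup_left (mem_zpowers a) : a ∈ zpowers a ⊔ g ⋆ A)]
    exact conj_mono _ le_sup_right
  set V₀ := V ⊓ centralizer (pCoreOf p P : Set G) with hV₀
  have hPV₀ : P ≤ normalizer (V₀ : Set G) := (le_inf hPV ((Core.le_normalizer_pCoreOf p P).trans
    (normalizer_le_normalizer_centralizer' _))).trans inf_normalizer_le_normalizer_inf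
  have hTV₀ : V ⊓ centralizer (T' : Set G) ≤ V₀ := inf_le_inf_left _ (centralizer_le hOT)
  have hne : ∀ W : Subgroup G, V ⊓ centralizer (T' : Set G) ≤ W →
      ¬ W ⊓ centralizer (A : Set G) ≤ centralizer (P : Set G) := fun W h1 h2 =>
    hii' ((le_inf h1 (inf_le_right.trans (centralizer_le hAT))).trans h2)
  have h0 : RankOne V₀ P A := ⟨PGroup.isMulCommutative_of_le inf_le_left hV.1, hPV₀, hAP,
    eq_bot_iff.2 (hquad ▸ commutator_mono (commutator_mono inf_le_left le_rfl) le_rfl),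
    fun a ha ha' => (hgen' a ha fun h => ha' (le_centralizer_iff.1 inf_le_right h)).imp
      fun g hg => ⟨hg.1, hg.2.trans le_sup_left⟩,
    relIndex_le_of_offMeasure_max hV.1 inf_le_left hmax, hne _ hTV₀, hnt _ hTV₀ hPV₀⟩
  have hA₀ : A ⊓ centralizer (V₀ : Set G) = ⊥ := by
    by_contra hb
    have h1 := hi.2 _ inf_le_left hb fun e => h0.nontriv (inf_eq_left.1 e)
    have h2 : V ⊓ centralizer (A : Set G) ⊔ V₀ ≤
        V ⊓ centralizer ((A ⊓ centralizer (V₀ : Set G) : Subgroup G) : Set G) :=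
      sup_le (inf_le_inf_left _ (centralizer_le inf_le_left))
        (le_inf inf_le_left (le_centralizer_iff.1 inf_le_right))
    have h3 := card_le_of_le h2
    rw [← card_mul_relIndex (le_sup_left (a := V ⊓ centralizer (A : Set G))),
      PGroup.relIndex_sup_of_le_normalizer (le_normalizer_of_comm hV.1 inf_le_left inf_le_left),
      ← inf_relIndex_right, inf_right_comm, inf_eq_right.2 (inf_le_left : V₀ ≤ V), inf_comm V₀,
      inf_relIndex_right, h0.relIndex_eq] at h3
    have h4 := PGroup.card_inf_mul_relIndex (centralizer (V₀ : Set G)) A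
    rw [inf_comm] at h4
    rw [← h4, mul_assoc] at h1
    have h5 := lt_of_mul_lt_mul_left h1 (Nat.zero_le _)
    rw [mul_comm] at h5
    omega
  have h1 : RankOne V P A := ⟨hV.1, hPV, hAP, hquad,
    fun a ha ha' => (hgen' a ha fun h => ha' (by
      have : a ∈ A ⊓ centralizer (V₀ : Set G) := ⟨ha, le_centralizer_iff.1 inf_le_right h⟩
      rw [hA₀, mem_bot] at this
      exact this ▸ one_mem _)).imp fun g hg => ⟨hg.1, hg.2.trans le_sup_left⟩,
    relIndex_le_of_offMeasure_max hV.1 le_rfl hmax, hne _ inf_le_left, hAC⟩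
  obtain ⟨F, _, _, n, hA, -⟩ := h1.exists_natSec (h1.centTI (hAT.trans (map_mono hTM)) hPM
    fun x hx hx' => (hgen x hx hx').trans le_sup_left) hx ((hgen x hx hxM).trans le_sup_left)
  have hO : pCore p P = ⊥ := by
    have h2 := h1.eq_of_invariant inf_le_left hPV₀
      (inf_le_inf_left _ (centralizer_le (map_subtype_le _))) fun h => hii' (hTV₀.trans h)
    rw [← Subgroup.map_eq_bot_iff_of_injective _ P.subtype_injective, eq_bot_iff, ← hfaith]
    exact le_inf (map_subtype_le _) (le_centralizer_iff.1 (h2.ge.trans inf_le_right))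
  refine ⟨F, inferInstance, inferInstance, ?_,
    ⟨MulEquiv.ofBijective _ ⟨n.injective hV.2 hfaith hO, n.ρ_surj⟩⟩, h1.inf_centralizer_eq, n.actsAs⟩
  have h6 : centralizer (V : Set G) ⊓ A = ⊥ :=
    eq_bot_iff.2 (hfaith ▸ (le_inf (inf_le_right.trans hAP) inf_le_left))
  rw [← Nat.card_eq_fintype_card, h1.card_eq n hA, ← inf_relIndex_right, h6, relIndex_bot_left]

end Cfsg.Agent.S2999
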