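import Cfsg.Statements.S3000
import Cfsg.Agent.Lib.CGT.Fam
-- import your own Cfsg.Agent.* helpers here

set_option autoImplicit false
open Cfsg

namespace Cfsg.Agent.S3000

open Subgroup Cfsg.Lib Cfsg.Lib.BG Cfsg.Lib.PLocal Cfsg.Lib.CGT

/-- Let p be a prime and let P and V be subgroups of a finite group with V elementary abelian, P normalizing V and acting faithfully on it (P ∩ C(V) = 1). Suppose P is p-minimal (a Sylow p-subgroup T of P is not normal and lies in a unique maximal subgroup M of P), O_p(P) = 1, C_P(C_V(T)) ≤ M, and P has a best offender on V: a subgroup A not centralizing V, with A/C_A(V) elementary abelian, such that |B|·|C_V(B)| ≤ |A|·|C_V(A)| for every subgroup B of A. Then there are subgroups E₁, …, E_r of P (r ≥ 1), pairwise commuting and forming with T a product P = (E₁ × ⋯ × E_r)T (internal direct product of the E_i), any two of which are conjugate by an element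 of T, such that V = C_V(E₁⋯E_r)·∏[V, E_i] with [V, E_i, E_j] = 1 for i ≠ j, and for each i there is n ≥ 1 with either E_i ≅ SL₂(pⁿ) acting on [V, E_i]/C_{[V,E_i]}(E_i) as on its natural two-dimensional module, or p = 2 and E_i isomorphic to the symmetric group of degree 2ⁿ + 1 acting on [V, E_i]/C_{[V,E_i]}(E_i) as on its even-weight permutation module. -/
theorem result {G : Type*} [Group G] [Finite G] {p : ℕ} [Fact p.Prime] (V P : Subgroup G) (hV : Cfsg.IsElementaryAbelian p V) (hPV : P ≤ Subgroup.normalizer (V : Set G)) (hfaith : P ⊓ Subgroup.centralizer (V : Set G) = ⊥) (hmin : Cfsg.IsPMinimal p ↥P) (T : Sylow p ↥P) (M : Subgroup ↥P) (hM : IsCoatom M) (hTM : (T : Subgroup ↥P) ≤ M) (hOp : Cfsg.pCore p ↥P = ⊥) (hoff : ∃ A : Subgroup G, A ≤ P ∧ ¬ A ≤ Subgroup.centralizer (V : Set G) ∧ Cfsg.IsBestOffenderOn p V A) (hCT : P ⊓ Subgroup.centralizer ((V ⊓ Subgroup.centralizer ((((T : Subgroup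 ↥P).map P.subtype) : Subgroup G) : Set G)) : Set G) ≤ M.map P.subtype) : ∃ (r : ℕ) (E : Fin r → Subgroup G), 1 ≤ r ∧ (∀ i, E i ≤ P) ∧ (∀ i j, i ≠ j → ⁅E i, E j⁆ = ⊥) ∧ (∀ i, E i ⊓ (⨆ j ∈ {j | j ≠ i}, E j) = ⊥) ∧ (⨆ i, E i) ⊔ ((T : Subgroup ↥P).map P.subtype) = P ∧ (∀ i j, ∃ t ∈ ((T : Subgroup ↥P).map P.subtype), (E i).map (MulAut.conj t).toMonoidHom = E j) ∧ (V ⊓ Subgroup.centralizer (((⨆ i, E i) : Subgroup G) : Set G)) ⊔ (⨆ i, ⁅V, E i⁆) = V ∧ (∀ i j, i ≠ j → ⁅⁅V, E i⁆, E j⁆ = ⊥) ∧ ∀ i, ∃ n : ℕ, 1 ≤ n ∧ ((∃ (F : Type) (_ : Field F) (_ : Fintype F), Fintype.card F = p ^ n ∧ Nonempty (↥(E i) ≃* Matrix.SpecialLinearGroup (Fin 2) F) ∧ Cfsg.ActsAsSL2OnSection F ⊤ (E i) ⁅V, E i⁆ (⁅V, E i⁆ ⊓ Subgroup.centralizer ((E i : Subgroup G) : Set G))) ∨ (p = 2 ∧ Nonempty (↥(E i) ≃* Equiv.Perm (Fin (2 ^ n + 1))) ∧ Cfsg.ActsAsOddPermModuleOnSection (2 ^ n + 1) ⊤ (E i) ⁅V, E i⁆ (⁅V, E i⁆ ⊓ Subgroup.centralizer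 ((E i : Subgroup G) : Set G)))) := by
  obtain ⟨W, _, _, d, hd⟩ := exists_dict' hV.1 P.subtype P.subtype_injective
    (by rwa [range_subtype])
  have := d.finite
  obtain ⟨hf, X, h0, hX, h1⟩ := d.exists_off hd hfaith hoff
  have h : Hyp W p (T : Subgroup P) M := ⟨hf, d.pow_eq_one_iff.1 hV.2, sylIn_top T, hTM, hM.1,
    IsPMinimal.max hmin T hM hTM, hOp, fun g hg => by
      have h2 := d.mem_cent_sub.2 hg
      rw [d.sub_cv, hd] at h2
      exact (mem_map_iff_mem P.subtype_injective).1 (hCT ⟨g.2, h2⟩)⟩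
  obtain ⟨r, E, hE⟩ := h.exists_fam h0 hX h1
  rw [← Subgroup.map_id (T : Subgroup P)] at hE
  obtain ⟨a1, a2, -, a3, a4, a5, a6, a7⟩ := hE.out Function.surjective_id (fun _ _ => rfl) d hf rfl
  rw [MonoidHom.ker_id, Subgroup.map_bot] at a1 a2
  rw [hd] at a3 a4
  have a8 : ∀ i, ((E i).comap (MonoidHom.id P)).map d.ι ≤ P := fun i => hd ▸ map_subtype_le _
  refine ⟨r, _, hE.pos, a8, fun i j e => eq_bot_iff.2 (a1 i j e), fun i => eq_bot_iff.2 (a2 i),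
    hd ▸ a3.trans P.range_subtype, hd ▸ a4, a5, a6, fun i => (a7 i).imp fun n hn => ⟨hn.1, ?_⟩⟩
  have key : ∀ {S : Type} [Group S] {ρ : ((E i).comap (MonoidHom.id P)).map d.ι →* S},
      ρ.ker = 𝐂(V).subgroupOf _ → Function.Injective ρ := fun e => by
    rw [← MonoidHom.ker_eq_bot_iff, e, subgroupOf_eq_bot, disjoint_iff, eq_bot_iff, ← hfaith]
    exact le_inf (inf_le_right.trans (a8 i)) inf_le_left
  exact hn.2.imp (fun ⟨F, _, _, h1, ⟨ρ, h2, h3⟩, h4⟩ =>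
    ⟨F, _, _, h1, ⟨MulEquiv.ofBijective ρ ⟨key h3, h2⟩⟩, h4⟩)
      fun ⟨h1, ⟨ρ, h2, h3⟩, h4⟩ => ⟨h1, ⟨MulEquiv.ofBijective ρ ⟨key h3, h2⟩⟩, h4⟩

end Cfsg.Agent.S3000
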