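import Cfsg.Statements.S3001
import Cfsg.Agent.Lib.CGT.Fix
-- import your own Cfsg.Agent.* helpers here

set_option autoImplicit false
open Cfsg

namespace Cfsg.Agent.S3001

open Subgroup Cfsg.Lib Cfsg.Lib.BG Cfsg.Lib.PLocal Cfsg.Lib.CGT

/-- Let p be a prime and let P and V be subgroups of a finite group with V elementary abelian, P normalizing V and acting faithfully on it (P ∩ C(V) = 1). Suppose P is p-minimal (a Sylow p-subgroup is not normal and lies in a unique maximal subgroup), O_p(P) = 1, and P has a best offender on V (a subgroup A not centralizing V, with A/C_A(V) elementary abelian and |B|·|C_V(B)| ≤ |A|·|C_V(A)| for every B ≤ A). Then [C_V(T), P] ≠ 1 for every Sylow p-subgroup T of P. -/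
theorem result {G : Type*} [Group G] [Finite G] {p : ℕ} [Fact p.Prime] (V P : Subgroup G) (hV : Cfsg.IsElementaryAbelian p V) (hPV : P ≤ Subgroup.normalizer (V : Set G)) (hfaith : P ⊓ Subgroup.centralizer (V : Set G) = ⊥) (hmin : Cfsg.IsPMinimal p ↥P) (hOp : Cfsg.pCore p ↥P = ⊥) (hoff : ∃ A : Subgroup G, A ≤ P ∧ ¬ A ≤ Subgroup.centralizer (V : Set G) ∧ Cfsg.IsBestOffenderOn p V A) (T : Sylow p ↥P) : ⁅(V ⊓ Subgroup.centralizer ((((T : Subgroup ↥P).map P.subtype) : Subgroup G) : Set G)), P⁆ ≠ ⊥ := by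
  obtain ⟨W, _, _, d, hd⟩ := exists_dict' hV.1 P.subtype P.subtype_injective
    (by rwa [range_subtype])
  have := d.finite
  obtain ⟨hf, X, h0, hX, h1⟩ := d.exists_off hd hfaith hoff
  obtain ⟨M, ⟨hM, hTM⟩, -⟩ := (hmin T).2
  obtain ⟨s, w, hw, h2⟩ := exists_not_fixed hf (d.pow_eq_one_iff.1 hV.2) (sylIn_top T) hTM hM.1
    (IsPMinimal.max hmin T hM hTM) hOp h0 hX h1
  refine fun e => h2 (d.smul_eq_iff.2 ?_)
  rw [← d.k_mem_sub, d.sub_cv, hd] at hw
  exact hd ▸ commutator_eq_bot_iff_le_centralizer.1 e hw s s.2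

end Cfsg.Agent.S3001
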