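import Cfsg.Statements.S3003
import Cfsg.Agent.Lib.Coprime.Generation
import Cfsg.Agent.Lib.Transfer.SylowIn
import Cfsg.Agent.Lib.Core.PPrimeCore
import Cfsg.Agent.Lib.PGroup.Omega

set_option autoImplicit false
open Cfsg

set_option linter.unusedVariables false
open Cfsg.Lib

namespace Cfsg.Agent.S3003

/-- Let G be a finite group, p a prime and Q a large p-subgroup of G: C_G(Q) ≤ Q and N_G(U) ≤ N_G(Q) for every nontrivial subgroup U of C_G(Q). Let Q ≤ G₁ ≤ G, let R be a subgroup of order prime to p normalized by G₁, and let U ≤ G₁ be a p-subgroup. If U contains a nontrivial element which is G₁-conjugate to an element of Z(Q), then C_R(U) = 1. In particular, if U is elementary abelian of order at least p² and every maximal subgroup of U contains a nontrivial element G₁-conjugate into Z(Q), then R = 1. -/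
theorem result {G : Type*} [Group G] [Finite G] {p : ℕ} [Fact p.Prime] (Q : Subgroup G) (hQp : IsPGroup p ↥Q) (hlarge : Cfsg.IsLarge Q) (G₁ : Subgroup G) (hQG : Q ≤ G₁) (R : Subgroup G) (hR : (Nat.card ↥R).Coprime p) (hGR : G₁ ≤ Subgroup.normalizer (R : Set G)) (U : Subgroup G) (hUG : U ≤ G₁) (hUp : IsPGroup p ↥U) : ((∃ x ∈ U, x ≠ 1 ∧ ∃ g ∈ G₁, g * x * g⁻¹ ∈ Q ⊓ Subgroup.centralizer (Q : Set G)) → R ⊓ Subgroup.centralizer (U : Set G) = ⊥) ∧ (Cfsg.IsElementaryAbelian p U → p ^ 2 ≤ Nat.card ↥U → (∀ U₀ : Subgroup G, U₀ ≤ U → IsCoatom (U₀.subgroupOf U) → ∃ x ∈ U₀, x ≠ 1 ∧ ∃ g ∈ G₁, g * x * g⁻¹ ∈ Q ⊓ Subgroup.centralizer (Q : Set G)) → R = ⊥) := by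
  open Subgroup Transfer in
  have key : ∀ x : G, x ≠ 1 → (∃ g ∈ G₁, g * x * g⁻¹ ∈ Q ⊓ centralizer (Q : Set G)) →
      R ⊓ centralizer (zpowers x : Set G) = ⊥ := by
    rintro x hx ⟨g, hg, hgx⟩
    rw [← conj_eq_bot_iff (g := g), conj_inf, conj_eq_self_iff.mpr (hGR hg), conj_centralizer,
      conj_zpowers]
    have h1 : R ⊓ centralizer (zpowers (g * x * g⁻¹) : Set G) ≤ normalizer (Q : Set G) :=
      inf_le_right.trans ((centralizer_le_normalizer _).trans
        (hlarge.2 _ (zpowers_le.mpr hgx.2) (by simpa using hx)))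
    have h2 : Q ⊓ R = ⊥ := Core.inf_eq_bot_of_isPGroup_of_coprime hQp hR
    have h3 : R ⊓ centralizer (zpowers (g * x * g⁻¹) : Set G) ≤ centralizer (Q : Set G) := by
      rw [← commutator_eq_bot_iff_le_centralizer, eq_bot_iff, ← h2]
      refine le_inf ?_ ((commutator_mono inf_le_left le_rfl).trans
        (Coprime.commutator_le_of_le_normalizer (hQG.trans hGR)))
      rw [Subgroup.commutator_comm]
      exact Coprime.commutator_le_of_le_normalizer h1
    rw [eq_bot_iff, ← h2]
    exact le_inf (h3.trans hlarge.1) inf_le_left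
  constructor
  · rintro ⟨x, hx, hx1, h⟩
    rw [eq_bot_iff, ← key x hx1 h]
    exact inf_le_inf_left R (centralizer_le (SetLike.coe_subset_coe.mpr (zpowers_le.mpr hx)))
  · intro hU hc h
    have hne : U ≠ ⊥ := by
      rintro rfl
      have := (Fact.out : p.Prime).one_lt
      rw [Subgroup.card_bot] at hc
      nlinarith
    refine le_bot_iff.mp (Coprime.le_of_forall_hyperplane' hU hne (hUG.trans hGR)
      (Core.coprime_card_of_isPGroup hUp hR) fun B hB hBi => ?_)
    obtain ⟨x, hx, hx1, h'⟩ := h B hB (PGroup.isCoatom_of_index_prime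
      (show (B.relIndex U).Prime from hBi ▸ Fact.out))
    rw [← key x hx1 h']
    exact inf_le_inf_left R (centralizer_le (SetLike.coe_subset_coe.mpr (zpowers_le.mpr hx)))

end Cfsg.Agent.S3003
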