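import Cfsg.Statements.S3011
import Cfsg.Agent.Lib.Inv.SylowTwo
-- import your own Cfsg.Agent.* helpers here

set_option autoImplicit false
open Cfsg

namespace Cfsg.Agent.S3011

open Subgroup Cfsg.Lib.Inv

variable {G : Type*} [Group G]

theorem eq_one_of_inv_comm {h v : G} (ho : Odd (orderOf h)) (h1 : v * h * v⁻¹ = h⁻¹)
    (h2 : v * h = h * v) : h = 1 :=
  eq_one_of_odd_of_mul_self ho (by rw [h2, mul_inv_cancel_right] at h1; exact mul_eq_one_iff_eq_inv.2 h1)

theorem comm_of_sq {x h : G} (ho : Odd (orderOf x)) (h1 : Commute (x * x) h) : Commute x h := by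
  obtain ⟨k, hk⟩ := exists_sq_pow_eq_of_odd ho
  rw [← hk]; exact h1.pow_left k

theorem mem_four [Finite G] {V : Subgroup G} (h4 : Nat.card V ≤ 4) {a b w : G} (ha : a ∈ V) (hb : b ∈ V)
    (ha1 : a ≠ 1) (hb1 : b ≠ 1) (hab : a ≠ b) (hab' : a * b ≠ 1) (hw : w ∈ V) (hw1 : w ≠ 1) :
    w = a ∨ w = b ∨ w = a * b := by
  classical
  by_contra hc
  push Not at hc
  have h1 : a * b ≠ a := fun e => hb1 (by simpa using e)
  have h2 : a * b ≠ b := fun e => ha1 (by simpa using e)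
  have : ({1, a, b, a * b, w} : Set G) ⊆ V := by
    intro x hx
    simp only [Set.mem_insert_iff, Set.mem_singleton_iff] at hx
    rcases hx with rfl | rfl | rfl | rfl | rfl
    exacts [V.one_mem, ha, hb, V.mul_mem ha hb, hw]
  have h5 := Set.ncard_le_ncard this
  rw [Set.ncard_insert_of_notMem (by simp [ha1.symm, hb1.symm, hab'.symm, hw1.symm]),
    Set.ncard_insert_of_notMem (by simp [hab, h1.symm, hc.1.symm]),
    Set.ncard_insert_of_notMem (by simp [h2.symm, hc.2.1.symm]),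
    Set.ncard_pair hc.2.2.symm] at h5
  have : (V : Set G).ncard = Nat.card V := rfl
  omega

/-- Let G be a finite group and V a nontrivial elementary abelian 2-subgroup of G of order at most 4 such that, whenever an element of V inverts an element h of G of odd order, some nontrivial element of V commutes with h. Then V meets O₂(G) nontrivially. (The case of order at most 4 has a short argument from the Baer–Suzuki theorem.) -/
theorem result {G : Type*} [Group G] [Finite G] (V : Subgroup G) (hV : Cfsg.IsElementaryAbelian 2 V) (hV1 : V ≠ ⊥) (hS : Cfsg.IsSidkiPair V) (h4 : Nat.card V ≤ 4) : V ⊓ Cfsg.pCore 2 G ≠ ⊥ := by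
  intro hO
  have sq : ∀ v ∈ V, v * v = 1 := fun v hv => by rw [← pow_two]; exact hV.2 v hv
  have cm : ∀ v ∈ V, ∀ w ∈ V, v * w = w * v := fun v hv w hw =>
    congrArg Subtype.val (hV.1.is_comm.comm (⟨v, hv⟩ : V) ⟨w, hw⟩)
  have bs : ∀ v ∈ V, v ≠ 1 → ∃ h : G, h ≠ 1 ∧ Odd (orderOf h) ∧ v * h * v⁻¹ = h⁻¹ := fun v hv h1 =>
    exists_odd_inverted_of_not_mem_pCore (sq v hv) fun h => h1 (mem_bot.1 (hO ▸ mem_inf.2 ⟨hv, h⟩))
  obtain ⟨⟨v, hv⟩, hv1⟩ := ne_bot_iff_exists_ne_one.1 hV1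
  have hv1' : v ≠ 1 := fun e => hv1 (Subtype.ext e)
  obtain ⟨h, h1, ho, hvh⟩ := bs v hv hv1'
  obtain ⟨c, hc, hc1, hch⟩ := hS h v hv ho hvh
  obtain ⟨x, x1, xo, hcx⟩ := bs c hc hc1
  obtain ⟨a, ha, ha1, hax⟩ := hS x c hc xo hcx
  have hac : a ≠ c := by rintro rfl; exact x1 (eq_one_of_inv_comm xo hcx hax)
  have hvc : v ≠ c := by rintro rfl; exact h1 (eq_one_of_inv_comm ho hvh hch)
  have ne1 : ∀ u ∈ V, ∀ w ∈ V, u ≠ w → u * w ≠ 1 := fun u hu w hw hne e =>
    hne (mul_right_cancel (e.trans (sq w hw).symm))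
  have hchc : c * h * c⁻¹ = h := by rw [hch, mul_inv_cancel_right]
  have haxa : a * x * a⁻¹ = x := by rw [hax, mul_inv_cancel_right]
  have hah : a * h * a⁻¹ = h⁻¹ := by
    rcases mem_four h4 hv hc hv1' hc1 hvc (ne1 _ hv _ hc hvc) ha ha1 with rfl | rfl | rfl
    · exact hvh
    · exact absurd rfl hac
    · calc v * c * h * (v * c)⁻¹ = v * (c * h * c⁻¹) * v⁻¹ := by group
        _ = _ := by rw [hchc, hvh]
  have hbh : a * c * h * (a * c)⁻¹ = h⁻¹ := by
    calc a * c * h * (a * c)⁻¹ = a * (c * h * c⁻¹) * a⁻¹ := by group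
      _ = _ := by rw [hchc, hah]
  have hbx : a * c * x * (a * c)⁻¹ = x⁻¹ := by
    calc a * c * x * (a * c)⁻¹ = a * (c * x * c⁻¹) * a⁻¹ := by group
      _ = (a * x * a⁻¹)⁻¹ := by rw [hcx]; group
      _ = _ := by rw [haxa]
  have four : ∀ w ∈ V, w ≠ 1 → w = a ∨ w = c ∨ w = a * c := fun w hw hw1 =>
    mem_four h4 ha hc ha1 hc1 hac (ne1 _ ha _ hc hac) hw hw1
  have cj : ∀ u y z : G, u * (y * z) * u⁻¹ = (u * y * u⁻¹) * (u * z * u⁻¹) := fun u y z => by group
  have cj3 : ∀ u : G, u * (x * h * x⁻¹) * u⁻¹ = (u * x * u⁻¹) * (u * h * u⁻¹) * (u * x * u⁻¹)⁻¹ :=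
    fun u => by group
  have ho' : Odd (orderOf (x * h * x⁻¹)) := by rwa [orderOf_conj']
  have hi : a * (x * h * x⁻¹) * a⁻¹ = (x * h * x⁻¹)⁻¹ := by rw [cj3, haxa, hah]; group
  obtain ⟨w, hw, hw1, hwc⟩ := hS _ a ha ho' hi
  have hwc' : w * (x * h * x⁻¹) * w⁻¹ = x * h * x⁻¹ := by rw [hwc, mul_inv_cancel_right]
  rcases four w hw hw1 with rfl | rfl | rfl
  · exact h1 (by simpa using eq_one_of_inv_comm ho' hi hwc)
  · rw [cj3, hcx, hchc] at hwc'
    have hxh : Commute x h := comm_of_sq xo (by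
      show x * x * h = h * (x * x)
      calc x * x * h = x * (x * h * x⁻¹) * x := by group
        _ = x * (x⁻¹ * h * x⁻¹⁻¹) * x := by rw [hwc']
        _ = _ := by group)
    have o2 : Odd (orderOf (x * h)) :=
      Odd.of_dvd_nat (xo.mul ho) hxh.orderOf_mul_dvd_mul_orderOf
    have i2 : a * w * (x * h) * (a * w)⁻¹ = (x * h)⁻¹ := by
      rw [cj, hbx, hbh, hxh.eq, mul_inv_rev]
    obtain ⟨u, hu, hu1, huc⟩ := hS _ _ (V.mul_mem ha hc) o2 i2
    have huc' : u * (x * h) * u⁻¹ = x * h := by rw [huc, mul_inv_cancel_right]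
    rcases four u hu hu1 with rfl | rfl | rfl
    · rw [cj, haxa, hah] at huc'
      exact h1 (eq_one_of_odd_of_mul_self ho (mul_eq_one_iff_eq_inv.2 (mul_left_cancel huc').symm))
    · rw [cj, hcx, hchc] at huc'
      exact x1 (eq_one_of_odd_of_mul_self xo (mul_eq_one_iff_eq_inv.2 (mul_right_cancel huc').symm))
    · have := eq_one_of_inv_comm o2 i2 huc
      rw [eq_inv_of_mul_eq_one_right this] at hah
      refine x1 (eq_one_of_inv_comm xo ?_ hax)
      rw [← inv_inj, ← hah]; group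
  · rw [cj3, hbx, hbh] at hwc'
    have e : x * x * h * (x * x)⁻¹ = h⁻¹ := by
      calc x * x * h * (x * x)⁻¹ = x * (x * h * x⁻¹) * x⁻¹ := by group
        _ = x * (x⁻¹ * h⁻¹ * x⁻¹⁻¹) * x⁻¹ := by rw [hwc']
        _ = _ := by group
    have hxh : Commute (x * x) h := comm_of_sq (Odd.of_dvd_nat xo (by
      rw [← pow_two]; exact orderOf_pow_dvd 2)) (by
      show x * x * (x * x) * h = h * (x * x * (x * x))
      generalize x * x = y at e
      calc y * y * h = y * (y * h * y⁻¹) * y := by group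
        _ = y * h⁻¹ * y := by rw [e]
        _ = (y * h * y⁻¹)⁻¹ * (y * y) := by group
        _ = _ := by rw [e, inv_inv])
    exact h1 (eq_one_of_inv_comm ho e hxh.eq)

end Cfsg.Agent.S3011
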