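import Cfsg.Statements.S3012
import Cfsg.Agent.Lib.PLocal.Isolated

set_option autoImplicit false
open Cfsg

set_option linter.unusedVariables false
open Cfsg.Lib

namespace Cfsg.Agent.S3012

/-- Let G be a finite group, V a nontrivial elementary abelian 2-subgroup of G satisfying the Sidki pair condition (every odd-order element inverted by an element of V commutes with a nontrivial element of V), and K a normal subgroup of G with V ∩ K = 1. Then the image of V in G/K satisfies the Sidki pair condition in G/K. -/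
theorem result {G : Type*} [Group G] [Finite G] (V K : Subgroup G) [K.Normal] (hV : Cfsg.IsElementaryAbelian 2 V) (hV1 : V ≠ ⊥) (hS : Cfsg.IsSidkiPair V) (hVK : V ⊓ K = ⊥) : Cfsg.IsSidkiPair (V.map (QuotientGroup.mk' K)) := by
  open Subgroup Transfer PLocal in
  have : Fact (Nat.Prime 2) := ⟨Nat.prime_two⟩
  rintro h _ ⟨v, hv, rfl⟩ hodd hinv
  obtain ⟨h, rfl⟩ := QuotientGroup.mk'_surjective K h
  set f := QuotientGroup.mk' K with hf
  have hv2 : v * v = 1 := by rw [← pow_two]; exact hV.2 v hv
  have hv' : v⁻¹ = v := inv_eq_of_mul_eq_one_right hv2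
  let y := h * (v * h * v⁻¹)⁻¹
  have e1 : v * y * v⁻¹ = y⁻¹ := by
    calc v * y * v⁻¹ = v * h * (v * h⁻¹ * (v⁻¹ * v⁻¹)) := by simp only [y]; group
      _ = y⁻¹ := by
        simp only [y]
        rw [← mul_inv_rev, hv2, mul_inv_rev h, inv_inv, hv']; group
  have e2 : f y = f h ^ 2 := by
    simp only [y, map_mul, map_inv, hinv, inv_inv, pow_two]
  obtain ⟨k, hk⟩ := exists_pow_pow_coprime (p := 2) y
  obtain ⟨w, hw, hw1, hwc⟩ := hS (y ^ 2 ^ k) v hv (Nat.coprime_two_right.mp hk)
    (by rw [← conj_pow, e1, inv_pow])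
  refine ⟨f w, mem_map_of_mem f hw, fun h1 => hw1 ?_, ?_⟩
  · have : w ∈ V ⊓ K := ⟨hw, (QuotientGroup.eq_one_iff w).mp h1⟩
    rwa [hVK, mem_bot] at this
  · have c1 : (f h) ^ (2 * 2 ^ k) ∈ centralizer ({f w} : Set (G ⧸ K)) := by
      refine mem_centralizer_singleton_iff.mpr ?_
      rw [pow_mul, ← e2, ← map_pow, ← map_mul, ← map_mul, hwc]
    have := mem_of_pow_mem_of_coprime c1 (by
      rw [← pow_succ']; exact (Nat.coprime_two_right.mpr hodd).pow_right _)
    exact (mem_centralizer_singleton_iff.mp this).symm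

end Cfsg.Agent.S3012
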