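import Cfsg.Statements.S3013
import Cfsg.Agent.Lib.PLocal.Isolated

set_option autoImplicit false
open Cfsg

set_option linter.unusedVariables false
open Cfsg.Lib

namespace Cfsg.Agent.S3013

/-- Let G be a finite group and V a nontrivial elementary abelian 2-subgroup of G satisfying the Sidki pair condition. Let v ∈ V and let x be an element of odd order inverted by v, and put C = C_G(v) ∩ C_G(x), the centralizer of the dihedral subgroup generated by v and x. Then C ∩ V is nontrivial and satisfies the Sidki pair condition inside C: every odd-order element of C inverted by an element of C ∩ V commutes with a nontrivial element of C ∩ V. -/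
theorem result {G : Type*} [Group G] [Finite G] (V : Subgroup G) (hV : Cfsg.IsElementaryAbelian 2 V) (hV1 : V ≠ ⊥) (hS : Cfsg.IsSidkiPair V) (v x : G) (hv : v ∈ V) (hx : Odd (orderOf x)) (hinv : v * x * v⁻¹ = x⁻¹) (C : Subgroup G) (hC : C = Subgroup.centralizer ({v} : Set G) ⊓ Subgroup.centralizer ({x} : Set G)) : C ⊓ V ≠ ⊥ ∧ Cfsg.IsSidkiPair ((C ⊓ V).subgroupOf C) := by
  open Subgroup Transfer PLocal in
  have hcomm : ∀ a ∈ V, ∀ b ∈ V, a * b = b * a := fun a ha b hb =>
    have := hV.1
    setLike_mul_comm (s := V) ha hb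
  subst hC
  constructor
  · obtain ⟨w, hw, hw1, hwx⟩ := hS x v hv hx hinv
    intro h
    have : w ∈ (centralizer ({v} : Set G) ⊓ centralizer ({x} : Set G)) ⊓ V :=
      ⟨⟨mem_centralizer_singleton_iff.mpr (hcomm w hw v hv), mem_centralizer_singleton_iff.mpr hwx⟩, hw⟩
    rw [h, mem_bot] at this
    exact hw1 this
  · rintro ⟨h, hh⟩ ⟨u, hu0⟩ hu hodd hinv'
    obtain ⟨hhv, hhx⟩ := id hh
    obtain ⟨huv, hux⟩ := id hu0
    have huV : u ∈ V := hu.2
    rw [Subgroup.orderOf_mk] at hodd
    have e1 : u * h * u⁻¹ = h⁻¹ := congrArg Subtype.val hinv'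
    have e2 : h * v = v * h := mem_centralizer_singleton_iff.mp hhv
    have e3 : Commute h x := mem_centralizer_singleton_iff.mp hhx
    have e4 : u * x = x * u := mem_centralizer_singleton_iff.mp hux
    have hodd' : Odd (orderOf (h * x)) :=
      Odd.of_dvd_nat (hodd.mul hx) e3.orderOf_mul_dvd_mul_orderOf
    have e5 : v * (h * x) * v⁻¹ = h * x⁻¹ := by
      rw [← hinv, ← mul_assoc, ← e2]; group
    have e6 : (u * v) * (h * x) * (u * v)⁻¹ = (h * x)⁻¹ := by
      calc (u * v) * (h * x) * (u * v)⁻¹ = u * (v * (h * x) * v⁻¹) * u⁻¹ := by group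
        _ = (u * h * u⁻¹) * (u * x * u⁻¹)⁻¹ := by rw [e5]; group
        _ = (h * x)⁻¹ := by rw [e1, e4, e3.eq, mul_inv_cancel_right, mul_inv_rev]
    obtain ⟨w, hw, hw1, hwc⟩ := hS (h * x) (u * v) (mul_mem huV hv) hodd' e6
    have c1 : Commute w (h * x) := hwc
    have cv : Commute w v := hcomm w hw v hv
    have c2 : Commute w (h * x⁻¹) := by
      rw [← e5]; exact (cv.mul_right c1).mul_right cv.inv_right
    have c3 : Commute w (x ^ 2) := by
      have := c2.inv_right.mul_right c1
      have e : (h * x⁻¹)⁻¹ * (h * x) = x ^ 2 := by rw [pow_two]; group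
      rwa [e] at this
    have c4 : Commute w x := by
      have : x ∈ centralizer ({w} : Set G) := mem_of_pow_mem_of_coprime (n := 2)
        (mem_centralizer_singleton_iff.mpr c3.symm.eq) (Nat.coprime_two_right.mpr hx)
      exact (mem_centralizer_singleton_iff.mp this).symm
    have c5 : Commute w h := by
      have := c1.mul_right c4.inv_right
      rwa [mul_inv_cancel_right] at this
    have hwC : w ∈ centralizer ({v} : Set G) ⊓ centralizer ({x} : Set G) :=
      ⟨mem_centralizer_singleton_iff.mpr cv, mem_centralizer_singleton_iff.mpr c4⟩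
    exact ⟨⟨w, hwC⟩, (⟨hwC, hw⟩ : w ∈ _ ⊓ V), fun h => hw1 (congrArg Subtype.val h), Subtype.ext c5⟩

end Cfsg.Agent.S3013
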