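import Cfsg.Statements.S3014
import Cfsg.Agent.Lib.Frobenius.Theorem
import Cfsg.Agent.Lib.Transfer.SylowIn
-- import your own Cfsg.Agent.* helpers here

set_option autoImplicit false
open Cfsg

namespace Cfsg.Agent.S3014

open Subgroup Cfsg.Lib.Transfer

theorem sup_zpowers_eq {G : Type*} [Group G] {H M : Subgroup G} (hHM : H ≤ M)
    (hmaxH : IsCoatom (H.subgroupOf M)) {x : G} (hx : x ∈ M) (hxH : x ∉ H) : M ≤ H ⊔ zpowers x := by
  rw [← subgroupOf_eq_top]
  refine hmaxH.2 _ (lt_of_le_of_ne (fun y hy => mem_sup_left hy) fun e => hxH ?_)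
  have : (⟨x, hx⟩ : M) ∈ (H ⊔ zpowers x).subgroupOf M := mem_sup_right (mem_zpowers x)
  rw [← e] at this; exact this

theorem normalizer_sup {G : Type*} [Group G] {A B : Subgroup G} {x : G}
    (hA : x ∈ normalizer (A : Set G)) (hB : x ∈ normalizer (B : Set G)) :
    x ∈ normalizer ((A ⊔ B : Subgroup G) : Set G) := by
  rw [← conj_eq_self_iff] at *
  rw [conj_sup, hA, hB]

/-- Let G be a finite group and H ≤ M ≤ G subgroups such that for every g ∈ G the subgroup generated by H and g H g⁻¹ meets M exactly in H. If H is a maximal subgroup of M and M is a maximal subgroup of G, then the normal closure of H in G meets M exactly in H. -/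
theorem result {G : Type*} [Group G] [Finite G] (H M : Subgroup G) (hHM : H ≤ M) (hcl : ∀ g : G, (H ⊔ H.map (MulAut.conj g).toMonoidHom) ⊓ M = H) (hmaxH : IsCoatom (H.subgroupOf M)) (hmaxM : IsCoatom M) : Subgroup.normalClosure (H : Set G) ⊓ M = H := by
  have hle : ∀ g : G, g ⋆ H ⊓ M ≤ H := fun g => (inf_le_inf_right M le_sup_right).trans (hcl g).le
  have hn : M ≤ normalizer (H : Set G) := fun g hg => mem_normalizer_of_conj_le
    (le_trans (le_inf le_rfl (conj_le_iff.2 fun x hx =>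
      M.mul_mem (M.mul_mem hg (hHM hx)) (M.inv_mem hg))) (hle g))
  have fin : ∀ N : Subgroup G, N.Normal → H ≤ N → N ⊓ M ≤ H → normalClosure (H : Set G) ⊓ M = H :=
    fun N hN h1 h2 => le_antisymm ((inf_le_inf_right M (normalClosure_le_normal h1)).trans h2)
      (le_inf le_normalClosure hHM)
  by_cases hTI : ∀ g : G, g ∉ M → ∀ h ∈ M, g * h * g⁻¹ ∈ M → h ∈ H
  · obtain ⟨N, hN, -, h1, -⟩ := Lib.Frobenius.wielandt hHM hn hTI
    exact fin N hN (h1 ▸ inf_le_left) h1.le
  push Not at hTI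
  obtain ⟨g, hg, x, hx, hgx, hxH⟩ := hTI
  set L := H ⊔ g⁻¹ ⋆ H with hL
  have hxL : x ∈ normalizer (L : Set G) := by
    refine normalizer_sup (hn hx) ?_
    rw [← conj_normalizer, mem_conj, inv_inv]; exact hn hgx
  have hLL : L ≤ normalizer (L : Set G) := le_normalizer
  have hML : M ≤ normalizer (L : Set G) := (sup_zpowers_eq hHM hmaxH hx hxH).trans
    (sup_le (le_sup_left.trans hLL) (zpowers_le.2 hxL))
  have hy : g * x * g⁻¹ ∉ H := fun h => hxH (hle g⁻¹ ⟨mem_conj.2 (by rw [inv_inv]; exact h), hx⟩)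
  have hML' : g⁻¹ ⋆ M ≤ normalizer (L : Set G) := by
    refine (conj_mono _ (sup_zpowers_eq hHM hmaxH hgx hy)).trans ?_
    rw [conj_sup, conj_zpowers]
    refine sup_le (le_sup_right.trans hLL) (zpowers_le.2 ?_)
    simpa [mul_assoc] using hxL
  rcases eq_or_lt_of_le hML with e | hlt
  · rw [← e] at hML'
    have hgN : g ∈ normalizer (M : Set G) := by
      simpa using inv_mem (mem_normalizer_of_conj_le hML')
    have hMn : M.Normal := normalizer_eq_top_iff.1 (hmaxM.2 _ (lt_of_le_of_ne le_normalizer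
      fun e => hg (e ▸ hgN)))
    have hHn : H.Normal := ⟨fun y hy k => hle k ⟨conj_mem_conj.2 hy, hMn.conj_mem _ (hHM hy) k⟩⟩
    exact fin H hHn le_rfl inf_le_left
  · exact fin L (normalizer_eq_top_iff.1 (hmaxM.2 _ hlt)) le_sup_left (hcl g⁻¹).le

end Cfsg.Agent.S3014
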