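import Cfsg.Statements.S3015
import Cfsg.Agent.S3014
import Cfsg.Agent.Lib.PGroup.Basic
import Cfsg.Agent.Lib.Loc.Residual
-- import your own Cfsg.Agent.* helpers here

set_option autoImplicit false
open Cfsg

namespace Cfsg.Agent.S3015

open Subgroup Cfsg.Lib.Transfer Cfsg.Lib.Loc

/-- Let G be a finite non-abelian simple group, M a maximal subgroup of G and H a normal subgroup of M of prime index in M. Then G is generated by H together with one of its conjugates. -/
theorem result {G : Type*} [Group G] [Finite G] [IsSimpleGroup G] (hG : ¬ IsMulCommutative G) (M H : Subgroup G) (hmaxM : IsCoatom M) (hHM : H ≤ M) (hHn : (H.subgroupOf M).Normal) (hidx : (H.relIndex M).Prime) : ∃ g : G, H ⊔ H.map (MulAut.conj g).toMonoidHom = ⊤ := by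
  haveI := Fact.mk hidx
  have hn : M ≤ normalizer (H : Set G) := (normal_subgroupOf_iff_le_normalizer hHM).1 hHn
  have hcoat : IsCoatom (H.subgroupOf M) := Lib.PGroup.isCoatom_of_index_prime hidx
  have hne : H ≠ M := by
    rintro rfl
    exact hidx.ne_one (relIndex_self _)
  have hM1 : M ≠ ⊥ := fun e => hne (le_antisymm hHM (e ▸ bot_le))
  -- normalizers of nontrivial subgroups normalized by `M`
  have hN : ∀ K : Subgroup G, K ≠ ⊥ → K ≤ M → M ≤ normalizer (K : Set G) → normalizer (K : Set G) = M := by
    intro K hK hKM h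
    rcases eq_or_lt_of_le h with e | hlt
    · exact e.symm
    · have := normalizer_eq_top_iff.1 (hmaxM.2 _ hlt)
      rcases this.eq_bot_or_eq_top with e | e
      · exact absurd e hK
      · exact absurd (top_le_iff.1 (e ▸ hKM)) hmaxM.1
  by_contra hc
  push Not at hc
  by_cases hH : H = ⊥
  · subst hH
    obtain ⟨N, hNn, -, h1, h2⟩ := Lib.Frobenius.wielandt (H := M) (H₀ := ⊥) bot_le hn (by
      intro g hg h hh hgh
      by_contra h1
      have hz : ∀ y ∈ M, y ≠ 1 → M ≤ zpowers y := fun y hy hy1 => by
        simpa using S3014.sup_zpowers_eq bot_le hcoat hy (by simpa using hy1)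
      have h1' : h ≠ 1 := by simpa using h1
      refine hg (hN M hM1 le_rfl le_normalizer ▸ mem_normalizer_of_conj_le ?_)
      refine (conj_mono g (hz h hh h1')).trans ?_
      rw [conj_zpowers]; exact zpowers_le.2 hgh)
    rcases hNn.eq_bot_or_eq_top with e | e
    · rw [e, bot_sup_eq] at h2; exact hmaxM.1 h2
    · rw [e, top_inf_eq] at h1; exact hM1 h1
  have key : ∀ g : G, (H ⊔ g ⋆ H) ⊓ M = H := by
    intro g
    by_contra hg
    have h1 : M ≤ H ⊔ g ⋆ H := by
      rw [← subgroupOf_eq_top]
      refine hcoat.2 _ (lt_of_le_of_ne (fun y hy => mem_sup_left hy) fun e => hg ?_)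
      refine le_antisymm (fun y hy => ?_) (le_inf le_sup_left hHM)
      have : (⟨y, hy.2⟩ : M) ∈ (H ⊔ g ⋆ H).subgroupOf M := hy.1
      rw [← e] at this; exact this
    have h2 : H ⊔ g ⋆ H = M := by
      rcases eq_or_lt_of_le h1 with e | hlt
      · exact e.symm
      · exact absurd (hmaxM.2 _ hlt) (hc g)
    have h3 : g ⋆ H ≤ M := h2 ▸ le_sup_right
    have hgM : g ∉ M := fun h => hg (by
      rw [conj_eq_self_iff.2 (hn h), sup_idem, inf_eq_left.2 hHM])
    have hres : pResidualOf (H.relIndex M) M ≤ H :=
      res_le_of_subnormal (k := 1) hHn.isSubnormal (by simp)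
    by_cases hK : pResidualOf (H.relIndex M) M = ⊥
    · have hp := res_eq_bot_iff.1 hK
      have hlt : g ⋆ H < M := lt_of_le_of_ne h3 fun e => by
        have := card_lt_of_lt (lt_of_le_of_ne hHM hne)
        rw [← e, card_conj] at this; exact lt_irrefl _ this
      obtain ⟨y, hy, hyH⟩ := SetLike.exists_of_lt (lt_inf_normalizer_of_lt hp hlt)
      have hy2 := hy.2
      rw [← conj_normalizer, hN H hH hHM hn] at hy2
      have h4 : g ⋆ M ≤ g ⋆ H ⊔ zpowers y := by
        have := conj_mono g (S3014.sup_zpowers_eq hHM hcoat (mem_conj.1 hy2) fun h => hyH (mem_conj.2 h))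
        rw [conj_sup, conj_zpowers] at this
        simpa [mul_assoc] using this
      exact hgM (hN M hM1 le_rfl le_normalizer ▸ mem_normalizer_of_conj_le
        (h4.trans (sup_le h3 (zpowers_le.2 hy.1))))
    · refine hgM (hN _ hK (res_le _ _) (le_normalizer_res _ _) ▸ mem_normalizer_of_conj_le ?_)
      rw [← res_eq_of_le hres hHM, conj_res, res_eq_of_le hres hHM]
      exact res_mono h3
  have := S3014.result H M hHM key hcoat hmaxM
  rcases (normalClosure_normal (s := (H : Set G))).eq_bot_or_eq_top with e | e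
  · exact hH (le_bot_iff.1 (e ▸ le_normalClosure))
  · rw [e, top_inf_eq] at this; exact hne this.symm

end Cfsg.Agent.S3015
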