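import Cfsg.Statements.S3019
import Cfsg.Agent.Lib.PSy.Main

set_option autoImplicit false
open Cfsg

namespace Cfsg.Agent.S3019

/-- Let G be a finite group, p a prime and P a Sylow p-subgroup of G. Then G is p-solvable if and only if, for every g ∈ G, the subgroup generated by P and g P g⁻¹ is p-solvable. -/
theorem result {G : Type*} [Group G] [Finite G] {p : ℕ} [Fact p.Prime] (P : Sylow p G) : Cfsg.IsPSolvable p G ↔ ∀ g : G, Cfsg.IsPSolvable p ↥((P : Subgroup G) ⊔ (P : Subgroup G).map (MulAut.conj g).toMonoidHom) := by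
  refine ⟨fun h g => Lib.Core.isPSolvable_subgroup h _, fun h =>
    Lib.PSy.H2.isPSolvable _ G rfl fun S T => ?_⟩
  obtain ⟨a, rfl⟩ := MulAction.exists_smul_eq G P S
  obtain ⟨b, rfl⟩ := MulAction.exists_smul_eq G P T
  have h1 := Lib.Core.isPSolvable_map (h (a⁻¹ * b)) (MulAut.conj a).toMonoidHom
  rw [Subgroup.map_sup, Subgroup.map_map] at h1
  have e : (MulAut.conj a).toMonoidHom.comp (MulAut.conj (a⁻¹ * b)).toMonoidHom =
      (MulAut.conj b).toMonoidHom := by
    ext x; simp [mul_assoc]
  rw [e] at h1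
  exact h1

end Cfsg.Agent.S3019
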