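import Cfsg.Statements.S3020
import Cfsg.Agent.Lib.PLocal.Isolated

set_option autoImplicit false
open Cfsg

set_option linter.unusedVariables false
open Cfsg.Lib

namespace Cfsg.Agent.S3020

/-- Let G be a finite group, p a prime and H an abelian p-subgroup of G that is extremely closed (for every g, the subgroup generated by H and g H g⁻¹ meets N_G(H) exactly in H). Then for every g ∈ G, the subgroup T generated by H and g H g⁻¹ is the product of H with O_{p'}(T), and H meets O_{p'}(T) trivially; that is, O_{p'}(T) is a normal p-complement of H in T. -/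
theorem result {G : Type*} [Group G] [Finite G] {p : ℕ} [Fact p.Prime] (H : Subgroup G) (hHp : IsPGroup p H) (hHab : IsMulCommutative H) (hcl : Cfsg.IsExtremelyClosed H) (g : G) (T : Subgroup G) (hT : T = H ⊔ H.map (MulAut.conj g).toMonoidHom) : H ⊔ (Cfsg.pPrimeCore p ↥T).map T.subtype = T ∧ H ⊓ (Cfsg.pPrimeCore p ↥T).map T.subtype = ⊥ := by
  open Subgroup Transfer PLocal in
  have hHT : H ≤ T := hT ▸ le_sup_left
  have hN : T ⊓ normalizer (H : Set G) = H := hT ▸ hcl g
  have hi : ¬ p ∣ H.relIndex T := by
    refine Coprime.not_dvd_relIndex_of_normalizer hHT hHp ?_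
    rw [hN, relIndex_self]
    exact (Fact.out : p.Prime).not_dvd_one
  have hnpc := hasNormalPComplement_subgroup_of_normalizer_le hHp hi hHT
    (by rw [hN]; exact le_centralizer_iff_isMulCommutative.mpr hHab)
  have h1 : (pResidual p T).map T.subtype ≤ (pPrimeCore p T).map T.subtype :=
    map_mono (Core.le_pPrimeCore inferInstance (hasNormalPComplement_iff_card_pResidual.mp hnpc))
  refine ⟨le_antisymm (sup_le hHT (map_subtype_le _)) ?_,
    Core.inf_eq_bot_of_isPGroup_of_coprime hHp (Core.pPrimeCoreOf_coprime p T)⟩
  refine (map_pResidual_sup_eq hHT hi).ge.trans ?_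
  rw [sup_comm]
  exact sup_le_sup_left h1 _

end Cfsg.Agent.S3020
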