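import Cfsg.Statements.S3021
import Cfsg.Agent.Lib.PLocal.Isolated

set_option autoImplicit false
open Cfsg

set_option linter.unusedVariables false
open Cfsg.Lib

namespace Cfsg.Agent.S3021

/-- Let G be a finite group, p a prime and H a p-subgroup of G that is extremely closed (for every g, the subgroup generated by H and g H g⁻¹ meets N_G(H) exactly in H). Then every p-subgroup Q of G containing H has N_G(Q) ≤ N_G(H); in particular every Sylow p-subgroup P of G containing H normalizes H, and H is strongly closed in P with respect to G. -/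
theorem result {G : Type*} [Group G] [Finite G] {p : ℕ} [Fact p.Prime] (H : Subgroup G) (hHp : IsPGroup p H) (hcl : Cfsg.IsExtremelyClosed H) : (∀ Q : Subgroup G, IsPGroup p Q → H ≤ Q → Subgroup.normalizer (Q : Set G) ≤ Subgroup.normalizer (H : Set G)) ∧ ∀ P : Sylow p G, H ≤ (P : Subgroup G) → (P : Subgroup G) ≤ Subgroup.normalizer (H : Set G) ∧ Cfsg.IsStronglyClosed H (P : Subgroup G) := by
  open Subgroup Transfer PLocal in
  have key : ∀ Q : Subgroup G, IsPGroup p Q → H ≤ Q →
      normalizer (Q : Set G) ≤ normalizer (H : Set G) := by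
    intro Q hQ hHQ g hg
    have h1 : H ⊔ g ⋆ H ≤ Q := sup_le hHQ (Core.map_conj_le_of_mem_normalizer hHQ hg)
    refine mem_normalizer_of_conj_le ?_
    by_contra hne
    have hlt : H < H ⊔ g ⋆ H := left_lt_sup.mpr hne
    have := lt_inf_normalizer_of_lt (hQ.to_le h1) hlt
    rw [hcl g] at this
    exact lt_irrefl _ this
  refine ⟨key, fun P hP => ?_⟩
  have hPN := le_normalizer.trans (key P P.isPGroup' hP)
  refine ⟨hPN, hP, fun y hy g hg => ?_⟩
  rw [← hcl g]
  exact ⟨mem_sup_right (conj_mem_conj.mpr hy), hPN hg⟩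

end Cfsg.Agent.S3021
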