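import Cfsg.Statements.S3022
import Cfsg.Agent.Lib.CS.Graph

set_option autoImplicit false
open Cfsg

namespace Cfsg.Agent.S3022

open Subgroup Cfsg.Lib.BG Cfsg.Lib.Transfer Cfsg.Lib.Loc Cfsg.Lib.PLocal Cfsg.Lib.CS Cfsg.Lib.PU
open scoped commutatorElement

/-- Let G be a finite group all of whose non-abelian simple sections are known simple groups, such that a Sylow 2-subgroup of G lies in exactly one maximal subgroup of G and C_G(O₂(G)) ≤ O₂(G). Let S be a Sylow 2-subgroup of G and A a group of automorphisms of S of odd order. Then some nontrivial A-invariant subgroup of S is normal in G. -/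
theorem result {G : Type*} [Group G] [Finite G] (hK : Cfsg.IsKGroup G) (hirr : ∀ S : Sylow 2 G, ∃! M : Subgroup G, IsCoatom M ∧ (S : Subgroup G) ≤ M) (hchar : Subgroup.centralizer (Cfsg.pCore 2 G : Set G) ≤ Cfsg.pCore 2 G) (S : Sylow 2 G) (A : Subgroup (MulAut ↥(S : Subgroup G))) (hA : Odd (Nat.card A)) : ∃ U : Subgroup G, U ≠ ⊥ ∧ U.Normal ∧ U ≤ (S : Subgroup G) ∧ ∀ a ∈ A, ∀ x : ↥(S : Subgroup G), (x : G) ∈ U → ((a x : ↥(S : Subgroup G)) : G) ∈ U := by
  by_contra hne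
  obtain ⟨M, ⟨hM, hSM⟩, hu⟩ := hirr S
  have top : ∀ K, (S : Subgroup G) ≤ K → ¬ K ≤ M → K = ⊤ := fun K h1 h2 =>
    (eq_top_or_exists_le_coatom K).resolve_right fun ⟨N, hN, h3⟩ => h2 (hu N ⟨hN, h1.trans h3⟩ ▸ h3)
  have syl : SylIn 2 (S : Subgroup G) ⊤ := ⟨le_top, S.2, sylow_not_dvd_relIndex S le_top⟩
  have h0 : (S : Subgroup G) ≠ ⊥ := fun e => by
    have : pCore 2 G = ⊥ := le_bot_iff.1 (e ▸ core_top (p := 2) (G := G) ▸ core_le_of_not_dvd syl.2.2)
    rw [this] at hchar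
    exact hM.1 (top_le_iff.1 ((cent_bot.ge.trans hchar).trans bot_le))
  have hs : Sit 2 (S : Subgroup G) M := sit_of_char (isChP_top.2 hchar) syl h0 fun C h1 h2 h3 => by
    by_contra h4
    have h5 := Lib.Core.normalizer_le_normalizer_map_subtype (C.subgroupOf S)
    rw [map_subgroupOf_eq_of_le h1] at h5
    exact hne ⟨C, h2, normalizer_eq_top_iff.1 (top _ ((le_norm _).trans h5) h4), h1, fun a _ x hx =>
      characteristic_iff_le_comap.1 h3 a hx⟩
  obtain ⟨q, E, k, h1, h2⟩ := hs.exists_pk hM.1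
  set W := ⁅omegaOneCenter 2 (pCoreOf 2 E), E⁆
  have hWS : W ≤ S := k.vx.le.trans inf_le_left
  have hf := (S : Subgroup G).subtype_injective
  have eB : (baum 2 (⊤ : Subgroup S)).map (S : Subgroup G).subtype = baum 2 S := by
    rw [← baum_subgroupOf, map_subgroupOf_eq_of_le inf_le_left]
  have vx : Vx (baum 2 ⊤) q (W.subgroupOf S) (𝐂(E).subgroupOf S) :=
    (vx_map hf).1 (by rw [eB, map_subgroupOf_eq_of_le hWS]; exact k.vx)
  set I := (MulAut.conj : S →* MulAut S).range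
  have : I.Normal := ⟨by
    rintro _ ⟨s, rfl⟩ a; exact ⟨a s, by ext x; simp⟩⟩
  have hB : I ⊔ A ≤ stab (MonoidHom.id _) (baum 2 (⊤ : Subgroup S)) := fun a _ =>
    mem_stab.2 (characteristic_iff_map_eq.1 (baum_subgroupOf (p := 2) (S : Subgroup G) ▸ char_baum _) a)
  by_cases ha : ∃ a ∈ I ⊔ A, ¬ (W.subgroupOf S).map (MonoidHom.id _ a).toMonoidHom ≤ 𝐂(W.subgroupOf S)
  · obtain ⟨a, ha, h3⟩ := ha
    have h4 := vx.two_dvd hB ha h3 (T := I) (by
      rintro _ ⟨s, rfl⟩ _ ⟨x, hx, rfl⟩ y hy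
      have := conj_mem_of_norm (norm_Y 2 ⊤ (mem_top s.1)) (h2 hx)
      have e := (oz_elemAb (p := 2) (pCoreOf 2 (⊤ : Subgroup G))).1
      exact Subtype.ext (mem_cent.1 (le_centralizer _ this) y (h2 hy)))
    rw [← relIndex_subgroupOf (inf_le_left (b := stab _ _))] at h4
    have h5 := h4.trans (relIndex_dvd_index_of_normal _ _)
    rw [← relIndex, relIndex_sup_left] at h5
    exact (Nat.not_even_iff_odd.2 hA) (even_iff_two_dvd.2 (h5.trans (Subgroup.relIndex_dvd_card _ _)))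
  push Not at ha
  set Y := ⨆ a : ↥(I ⊔ A), (W.subgroupOf S).map (MonoidHom.id _ a.1).toMonoidHom
  have inv : ∀ a ∈ I ⊔ A, Y.map a.toMonoidHom ≤ Y := fun a h => by
    rw [Subgroup.map_iSup]
    exact iSup_le fun b => le_iSup_of_le ⟨_, mul_mem h b.2⟩ (act_mul (φ := MonoidHom.id _) a b _).ge
  have h3 : W ≤ Y.map (S : Subgroup G).subtype := by
    rw [← map_subgroupOf_eq_of_le hWS]; exact map_mono (le_iSup_of_le 1 (map_id _).ge)
  have h4 : Y.map (S : Subgroup G).subtype ≤ baum 2 S :=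
    eB ▸ map_mono (iSup_le fun a => (vx.act hB a.2).le)
  have h5 : E ≤ 𝐍(Y.map (S : Subgroup G).subtype) := k.blk.norm_of h3 (h4.trans k.blk.B_le) (by
    show _ ≤ 𝐂(W)
    rw [← map_subgroupOf_eq_of_le hWS]; exact map_cent _ (iSup_le fun a => ha a a.2))
  refine hne ⟨_, fun e => k.vx.ne ((h3.trans e.le).trans bot_le), normalizer_eq_top_iff.1 (top _
    (le_norm_iff.2 ?_) fun e => h1 (h5.trans e)), map_subtype_le _, fun a ha x hx => ?_⟩
  · rintro s hs _ ⟨y, hy, rfl⟩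
    exact ⟨_, inv _ (mem_sup_left ⟨⟨s, hs⟩, rfl⟩) (mem_map_of_mem _ hy), rfl⟩
  · exact mem_map_of_mem _ (inv _ (mem_sup_right ha) (mem_map_of_mem _ ((mem_map_iff_mem hf).1 hx)))

end Cfsg.Agent.S3022
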