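import Cfsg.Statements.S3025
import Cfsg.Agent.Lib.PGroup.RankOne
import Cfsg.Agent.Lib.Core.MinNormal
import Cfsg.Agent.Lib.Transfer.SylowIn
-- import your own Cfsg.Agent.* helpers here

set_option autoImplicit false
open Cfsg

namespace Cfsg.Agent.S3025

open Subgroup Cfsg.Lib.Transfer Cfsg.Lib.Core

/-- Let F be a finite group and H a nontrivial subgroup of F that is contained in every nontrivial subgroup of F which H normalizes. Then F has a nontrivial normal subgroup N contained in every nontrivial normal subgroup of F (a unique minimal normal subgroup), N is simple, and one of the following holds: C_F(N) = 1; or H = N has prime order p, C_F(N) is cyclic of order a power of p, and F/C_F(N) is cyclic of order dividing p − 1; or H = N has order 2, N is central in F, and F is a generalized quaternion group. -/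
theorem result {F : Type*} [Group F] [Finite F] (H : Subgroup F) (hH : H ≠ ⊥)
    (hmin : ∀ R : Subgroup F, R ≠ ⊥ → H ≤ Subgroup.normalizer (R : Set F) → H ≤ R) :
    ∃ N : Subgroup F, N.Normal ∧ N ≠ ⊥ ∧ (∀ M : Subgroup F, M.Normal → M ≠ ⊥ → N ≤ M) ∧ IsSimpleGroup ↥N ∧
      (Subgroup.centralizer (N : Set F) = ⊥ ∨
       (H = N ∧ (Nat.card N).Prime ∧ IsCyclic ↥(Subgroup.centralizer (N : Set F)) ∧
          (∃ k : ℕ, 1 ≤ k ∧ Nat.card ↥(Subgroup.centralizer (N : Set F)) = Nat.card N ^ k) ∧
          (∃ g : F, Subgroup.centralizer (N : Set F) ⊔ Subgroup.zpowers g = ⊤) ∧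
          (Subgroup.centralizer (N : Set F)).index ∣ Nat.card N - 1) ∨
       (H = N ∧ Nat.card N = 2 ∧ Subgroup.centralizer (N : Set F) = ⊤ ∧
          ∃ k : ℕ, 1 ≤ k ∧ Nonempty (F ≃* QuaternionGroup (2 ^ k)))) := by
  have hnt : Nontrivial F := by
    by_contra h
    rw [not_nontrivial_iff_subsingleton] at h
    exact hH (Subsingleton.elim _ _)
  obtain ⟨N, hN⟩ := exists_isMinNormal (G := F)
  haveI hNn := hN.normal
  have hnorm : ∀ M : Subgroup F, M.Normal → M ≠ ⊥ → H ≤ M := fun M hM h0 =>
    hmin M h0 (by rw [normalizer_eq_top_iff.2 hM]; exact le_top)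
  have hHN : H ≤ N := hnorm N hNn hN.ne_bot
  have huniq : ∀ M : Subgroup F, M.Normal → M ≠ ⊥ → N ≤ M := fun M hM h0 =>
    (hN.inf_eq_bot_or_le M).resolve_left fun e => hH (le_bot_iff.1 (e ▸ le_inf hHN (hnorm M hM h0)))
  have hsimple : IsSimpleGroup N := by
    haveI : Nontrivial N := (nontrivial_iff_ne_bot N).2 hN.ne_bot
    refine ⟨fun K hK => ?_⟩
    by_cases h0 : K = ⊥
    · exact Or.inl h0
    right
    have hKN : N ≤ normalizer ((K.map N.subtype : Subgroup F) : Set F) := fun g hg =>
      mem_normalizer_of_conj_le (conj_le_iff.2 (by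
        rintro _ ⟨x, hx, rfl⟩
        exact ⟨_, hK.conj_mem x hx ⟨g, hg⟩, rfl⟩))
    obtain ⟨M, hMK, hNM, hM0, hMmin⟩ := exists_minimal_invariant_le hKN
      (fun e => h0 ((Subgroup.map_eq_bot_iff_of_injective _ N.subtype_injective).1 e))
    have hMn : M.Normal := by
      rw [← normalizer_eq_top_iff, eq_top_iff]
      intro g _
      have h1 : N ≤ normalizer ((g⁻¹ ⋆ M : Subgroup F) : Set F) := by
        rw [← conj_normalizer, ← conj_eq_self_of_normal g⁻¹ N]; exact conj_mono _ hNM
      have h2 : H ≤ g⁻¹ ⋆ M := hmin _ (by rwa [Ne, conj_eq_bot_iff]) (hHN.trans h1)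
      have h3 : H ≤ M := hmin _ hM0 (hHN.trans hNM)
      have h4 : N ≤ normalizer ((M ⊓ g⁻¹ ⋆ M : Subgroup F) : Set F) :=
        (le_inf hNM h1).trans (Subgroup.inf_normalizer_le_normalizer_inf)
      rcases hMmin _ h4 inf_le_left with e | e
      · exact absurd (le_bot_iff.1 (e ▸ le_inf h3 h2)) hH
      · exact mem_normalizer_of_conj_le (conj_le_iff_le_inv_conj.2 (inf_eq_left.1 e))
    have := huniq M hMn hM0
    rw [eq_top_iff]
    intro x _
    obtain ⟨y, hy, e⟩ := hMK (this x.2)
    rwa [← Subtype.ext (e : (y : F) = x)]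
  refine ⟨N, hNn, hN.ne_bot, huniq, hsimple, ?_⟩
  by_cases hC : centralizer (N : Set F) = ⊥
  · exact Or.inl hC
  right
  have hNC := huniq _ inferInstance hC
  have hcomm : IsMulCommutative N := le_centralizer_iff_isMulCommutative.1 hNC
  have hp : (Nat.card N).Prime := by
    letI : CommGroup N := { (inferInstance : Group N) with mul_comm := hcomm.is_comm.comm }
    exact IsSimpleGroup.prime_card
  haveI := Fact.mk hp
  have hHeq : H = N := by
    rcases (Nat.dvd_prime hp).1 (card_dvd_of_le hHN) with e | e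
    · exact absurd (eq_bot_of_card_eq H e) hH
    · exact eq_of_le_of_card_ge hHN e.ge
  subst hHeq
  have hsub : ∀ R : Subgroup F, R ≠ ⊥ → R ≤ centralizer (H : Set F) → H ≤ R := fun R h0 hR =>
    hmin R h0 ((le_centralizer_iff.1 hR).trans (centralizer_le_normalizer _))
  have hPG : IsPGroup (Nat.card H) (centralizer (H : Set F)) := by
    refine IsPGroup.of_card (n := (Nat.card (centralizer (H : Set F))).factorization (Nat.card H)) ?_
    refine Nat.eq_pow_of_factorization_eq_single Nat.card_pos.ne' ?_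
    ext q
    by_cases hq : q = Nat.card H
    · subst hq; simp
    rw [Finsupp.single_eq_of_ne hq]
    by_contra h0
    have hqp := Nat.prime_of_mem_primeFactors (Finsupp.mem_support_iff.2 h0)
    obtain ⟨x, hx, ho⟩ := exists_mem_orderOf_eq_prime hqp
      (Nat.dvd_of_mem_primeFactors (Finsupp.mem_support_iff.2 h0))
    have := card_dvd_of_le (hsub (zpowers x) (by
      rw [Ne, zpowers_eq_bot]; rintro rfl; exact hqp.ne_one (by rw [← ho, orderOf_one]))
      (zpowers_le.2 hx))
    rw [Nat.card_zpowers, ho] at this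
    exact hq ((Nat.prime_dvd_prime_iff_eq hp hqp).1 this).symm
  have key : ∀ A : Subgroup (centralizer (H : Set F)), Nat.card A = Nat.card H →
      A.map (Subgroup.subtype _) = H := fun A hA => by
    refine (eq_of_le_of_card_ge (hsub _ ?_ (map_subtype_le _)) (by rw [card_subtype, hA])).symm
    intro e
    have := card_subtype _ A
    rw [e, card_bot, hA] at this; exact hp.ne_one this.symm
  have hker : (MulAut.conjNormal : F →* MulAut H).ker = centralizer (H : Set F) := by
    ext g
    rw [MonoidHom.mem_ker, mem_centralizer_iff]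
    constructor
    · intro h x hx
      have := congrArg (fun f : MulAut H => (f ⟨x, hx⟩ : F)) h
      simp only [MulAut.conjNormal_apply, MulAut.one_apply] at this
      exact (mul_inv_eq_iff_eq_mul.1 this).symm
    · intro h
      ext x
      simp [← h x x.2]
  haveI hcyc : IsCyclic H := isCyclic_of_prime_card rfl
  have hidx : (centralizer (H : Set F)).index ∣ Nat.card H - 1 := by
    rw [← hker, index_ker, ← Nat.totient_prime hp, ← hcyc.card_mulAut]
    exact card_subgroup_dvd_card _
  rcases Lib.PGroup.isCyclic_or_quaternion_of_pRankLE_one hPG (Lib.PGroup.pRankLE_one_of_unique_subgroup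
    fun A B hA hB => map_injective (subtype_injective _) ((key A hA).trans (key B hB).symm)) with
    h | ⟨h2, n, ⟨e⟩⟩
  · left
    refine ⟨rfl, hp, h, ?_, ?_, hidx⟩
    · obtain ⟨k, hk⟩ := IsPGroup.iff_card.1 hPG
      refine ⟨k, Nat.one_le_iff_ne_zero.2 fun h0 => hC ?_, hk⟩
      rw [h0, pow_zero] at hk; exact eq_bot_of_card_eq _ hk
    · haveI : IsCyclic (MulAut H) := isCyclic_of_injective hcyc.mulAutMulEquiv.toMonoidHom
        hcyc.mulAutMulEquiv.injective
      obtain ⟨⟨_, g, rfl⟩, hg⟩ := IsCyclic.exists_generator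
        (α := (MulAut.conjNormal : F →* MulAut H).range)
      refine ⟨g, eq_top_iff.2 fun x _ => ?_⟩
      obtain ⟨k, hk⟩ := hg ⟨_, x, rfl⟩
      have hk' : MulAut.conjNormal (g ^ k) = (MulAut.conjNormal x : MulAut H) := by
        rw [map_zpow]; exact congrArg Subtype.val hk
      have : x * (g ^ k)⁻¹ ∈ centralizer (H : Set F) := by
        rw [← hker, MonoidHom.mem_ker, map_mul, map_inv, hk', mul_inv_cancel]
      simpa using mul_mem_sup this (zpow_mem_zpowers g k)
  · right
    have htop : centralizer (H : Set F) = ⊤ := by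
      rw [h2] at hidx; exact index_eq_one.1 (Nat.dvd_one.1 hidx)
    exact ⟨rfl, h2, htop, n + 1, by omega, ⟨(topEquiv.symm.trans (MulEquiv.subgroupCongr htop.symm)).trans e⟩⟩

end Cfsg.Agent.S3025
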