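import Cfsg.Statements.S3027
import Cfsg.Agent.Lib.Core.Subnormal
import Cfsg.Agent.Lib.Comp.Component

set_option autoImplicit false
open Cfsg

namespace Cfsg.Agent.S3027

open Cfsg.Lib Cfsg.Lib.Core Cfsg.Lib.Transfer Subgroup

variable {G : Type*} [Group G] {G' : Type*} [Group G']

theorem inf_map {f : G →* G'} (hp : ⁅(⊤ : Subgroup G'), (⊤ : Subgroup G')⁆ = ⊤) {M N : Subgroup G}
    (h1 : M ≤ normalizer (N : Set G)) (h2 : N ≤ normalizer (M : Set G)) (hM : M.map f = ⊤)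
    (hN : N.map f = ⊤) : (M ⊓ N).map f = ⊤ := by
  rw [eq_top_iff, ← hp]
  conv_lhs => rw [← hM]; enter [2]; rw [hM, ← hN]
  rw [← map_commutator]
  exact map_mono (Comp.commutator_le_inf_of_normalizer h2 le_rfl h1)

theorem least [Finite G] {f : G →* G'} (hp : ⁅(⊤ : Subgroup G'), (⊤ : Subgroup G')⁆ = ⊤) {B : Subgroup G}
    (hB : B.map f = ⊤) : ∃ C, (C ≤ B ∧ B ≤ normalizer (C : Set G) ∧ C.map f = ⊤) ∧
      ∀ N, N ≤ B → B ≤ normalizer (N : Set G) → N.map f = ⊤ → C ≤ N := by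
  obtain ⟨C, hC, hmin⟩ := (wellFounded_lt (α := Subgroup G)).has_min
    {C | C ≤ B ∧ B ≤ normalizer (C : Set G) ∧ C.map f = ⊤} ⟨B, le_rfl, le_normalizer, hB⟩
  refine ⟨C, hC, fun N h1 h2 h3 => ?_⟩
  by_contra hle
  exact hmin (C ⊓ N) ⟨inf_le_left.trans hC.1, le_normalizer_inf hC.2.1 h2,
    inf_map hp (hC.1.trans h2) (h1.trans hC.2.1) hC.2.2 h3⟩ (inf_lt_left.2 hle)

theorem result {G : Type*} [Group G] [Finite G] (D : Subgroup G) [D.Normal] (hperf : ⁅(⊤ : Subgroup G), (⊤ : Subgroup G)⁆ ⊔ D = ⊤) :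
    ∃ B : Subgroup G, B.Normal ∧ B ⊔ D = ⊤ ∧ ∀ B' : Subgroup G, B'.IsSubnormal → B' ⊔ D = ⊤ → B ≤ B' := by
  set f := QuotientGroup.mk' D
  have hf : Function.Surjective f := QuotientGroup.mk'_surjective D
  have key : ∀ X : Subgroup G, X.map f = ⊤ ↔ X ⊔ D = ⊤ := fun X => by
    have e : X ⊔ D = (X.map f).comap f := by rw [comap_map_eq, QuotientGroup.ker_mk']
    rw [e]
    exact ⟨fun h => by rw [h, comap_top], fun h => by
      rw [← map_comap_eq_self_of_surjective hf (X.map f), h, map_top_of_surjective _ hf]⟩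
  have hp : ⁅(⊤ : Subgroup (G ⧸ D)), (⊤ : Subgroup (G ⧸ D))⁆ = ⊤ := by
    have := (key _).2 hperf
    rwa [map_commutator, map_top_of_surjective _ hf] at this
  obtain ⟨B, ⟨-, hB1, hB2⟩, hB⟩ := least hp (map_top_of_surjective _ hf)
  haveI hBn : B.Normal := normal_of_top_le_normalizer hB1
  obtain ⟨C, ⟨hC1, hC2, hC3⟩, hC⟩ := least hp hB2
  have hCn : ⊤ ≤ normalizer (C : Set G) := fun g _ => by
    refine mem_normalizer_of_conj_le (conj_le_iff_le_inv_conj.2 (hC _ ?_ ?_ ?_))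
    · exact (conj_mono _ hC1).trans (conj_eq_self_of_normal _ B).le
    · rw [← conj_normalizer]
      exact (conj_eq_self_of_normal _ B).ge.trans (conj_mono _ hC2)
    · rw [key, ← conj_eq_self_of_normal g⁻¹ D, ← conj_sup, (key _).1 hC3, conj_top]
  have hBC := hB C le_top hCn hC3
  refine ⟨B, hBn, (key _).1 hB2, fun B' h1 h2 => ?_⟩
  rw [← key] at h2
  induction h1 with
  | top => exact le_top
  | step H K hle _ hN ih =>
    have h3 : B ≤ K := ih (eq_top_iff.2 (h2.ge.trans (map_mono hle)))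
    have h4 : B ≤ normalizer (H : Set G) := h3.trans ((normal_subgroupOf_iff_le_normalizer hle).1 hN)
    exact (hBC.trans (hC (B ⊓ H) inf_le_left (le_normalizer_inf le_normalizer h4)
      (inf_map hp h4 le_normalizer_of_normal hB2 h2))).trans inf_le_right

end Cfsg.Agent.S3027
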