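import Cfsg.Statements.S3032
import Cfsg.Agent.Lib.Comp.HSub

set_option autoImplicit false
open Cfsg

namespace Cfsg.Agent.S3032

open Subgroup Cfsg.Lib Cfsg.Lib.BG Cfsg.Lib.Core Cfsg.Lib.Comp
open scoped Cfsg.Lib.Transfer

theorem aux {G : Type*} [Group G] [Finite G] (n : ℕ) : ∀ (E : Subgroup G) [E.Normal],
    Nat.card E = n → IsSupersolvable (G ⧸ E) → (∀ (p : ℕ) [Fact p.Prime] (P : Subgroup G),
      Syl p P E → IsCyclic P ∨ ∃ k, AllSC p k P) → IsSupersolvable G := by
  induction' n using Nat.strong_induction_on with n ih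
  intro E _ hn hGE h
  by_cases h0 : E = ⊥
  · subst h0
    exact Solv.isSupersolvable_of_isCyclic_normal inferInstance hGE
  have hp := Nat.minFac_prime (mt card_eq_one.1 h0)
  set p := (Nat.card E).minFac with hp'
  have := Fact.mk hp
  obtain ⟨P, hP⟩ := Syl.exists p E
  have hPp := hP.pi.pgroup
  have hc := hasNormalPComplement_of_allSC (G := E) (p := p)
    (fun q hq hd => Nat.minFac_le_of_dvd hq.two_le hd)
    (IsPGroup.toSylow (P := P.subgroupOf E) hPp.comap_subtype (Syl.iff.1 hP).2.2)
    ((h p P hP).imp (fun hc => (subgroupOfEquivOfLe hP.le).isCyclic.2 hc)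
      fun ⟨k, hk⟩ => ⟨k, hk.subgroupOf hP.le⟩)
  set E₁ := (pResidual p E).map E.subtype with hE₁
  have hE₁c : (Nat.card E₁).Coprime p := by
    rw [card_map_of_injective E.subtype_injective]
    exact Transfer.hasNormalPComplement_iff_card_pResidual.1 hc
  have hle : E₁ ≤ E := map_subtype_le _
  have hsup : E₁ ⊔ P = E := by
    have h1 := congrArg (map E.subtype) (Transfer.pResidual_sup_eq_top (p := p)
      (H := P.subgroupOf E) (Syl.iff.1 hP).2.2)
    rwa [Subgroup.map_sup, subOf_map hP.le, ← MonoidHom.range_eq_map, range_subtype] at h1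
  have hdis : E₁ ⊓ P = ⊥ :=
    (disjoint_of_coprime_natCard ((PiGrp.p'_iff_coprime.2 hE₁c).coprime_pgroup hPp)).eq_bot
  have : E₁.Normal := inferInstance
  clear_value E₁
  refine ih (Nat.card E₁) ?_ E₁ rfl ?_ fun q _ Q hQ => ?_
  · refine hn ▸ lt_of_le_of_ne (card_le_of_le hle) fun e => ?_
    rw [e] at hE₁c
    exact hp.ne_one (Nat.Coprime.eq_one_of_dvd hE₁c.symm (Nat.minFac_dvd _))
  · let f := QuotientGroup.mk' E₁
    have hf : Function.Surjective f := QuotientGroup.mk'_surjective E₁
    have : (E.map f).Normal := (inferInstance : E.Normal).map f hf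
    have hEP : E.map f = P.map f := by
      rw [← hsup, Subgroup.map_sup, (Subgroup.map_eq_bot_iff _).2 (QuotientGroup.ker_mk' _).ge,
        bot_sup_eq]
    have hcard : ∀ F ≤ P, Nat.card (F.map f) = Nat.card F := fun F hF =>
      Nat.card_congr (mapEquiv f (by
        rw [QuotientGroup.ker_mk', inf_comm]
        exact eq_bot_iff.2 (hdis ▸ inf_le_inf_left _ hF))).symm.toEquiv
    refine Solv.isSupersolvable_of_sChain (N := E.map f) ?_ (Solv.isSupersolvable_of_surjective hGE
      (f := (QuotientGroup.quotientQuotientEquivQuotient E₁ E hle).symm.toMonoidHom)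
      (MulEquiv.surjective _))
    rcases h p P hP with h1 | ⟨k, h1, h2, h3⟩
    · exact Solv.sChain_of_isCyclic (hEP ▸ isCyclic_of_surjective _ (f.subgroupMap_surjective P))
    refine sChain_of_all_normal (k := k) (hEP ▸ hPp.map f) h1 (by rwa [hEP, hcard P le_rfl])
      fun R hR hc => ?_
    have e : (P ⊓ R.comap f).map f = R := by
      rw [inf_comm, map_inf_of_ker_le f (ker_le_comap f R), map_comap_eq_self_of_surjective hf,
        ← hEP, inf_eq_left.2 hR]
    have h4 := norm_inf_of_sc (h3 (P ⊓ R.comap f) inf_le_left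
      (by rwa [← hcard _ inf_le_left, e])) le_rfl (le_refl 𝐍(P))
    rw [inf_eq_left.2 inf_le_left] at h4
    have h5 : E₁ ⊔ 𝐍(P) = ⊤ := by
      have := Syl.frattini hP (M := ⊤) ⟨le_top, le_normalizer_of_normal⟩
      rw [← hsup, top_inf_eq, sup_assoc, sup_eq_right.2 le_normalizer] at this
      exact this
    rw [← normalizer_eq_top_iff, eq_top_iff, ← map_top_of_surjective f hf, ← h5, Subgroup.map_sup,
      (Subgroup.map_eq_bot_iff _).2 (QuotientGroup.ker_mk' _).ge, bot_sup_eq, ← e]
    exact (map_mono h4).trans (le_normalizer_map f)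
  · by_cases hq : q = p
    · subst hq
      rw [hQ.eq_bot_iff.2 (PiGrp.p'_iff_coprime.2 hE₁c)]
      exact Or.inl inferInstance
    · refine h q Q (hQ.trans_idx hle ?_)
      rw [← hsup, relIndex_sup_left]
      exact (p'_of_pgroup hPp (Ne.symm hq)).relIndex E₁

/-- Let G be a finite group and E a normal subgroup with G/E supersolvable. Suppose that for every prime p and every non-cyclic Sylow p-subgroup P of E there is a subgroup D of P with 1 < |D| < |P| such that every subgroup F of P of order |D|, and also every subgroup F of P of order 4 when |D| = 2, satisfies g F g⁻¹ ∩ N_G(F) ≤ F for all g ∈ G. Then G is supersolvable. -/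
theorem result {G : Type*} [Group G] [Finite G] (E : Subgroup G) [E.Normal] (hGE : Cfsg.IsSupersolvable (G ⧸ E))
    (h : ∀ (p : ℕ), p.Prime → ∀ P : Subgroup G, P ≤ E → IsPGroup p P → ¬ p ∣ P.relIndex E → ¬ IsCyclic ↥P →
      ∃ D : Subgroup G, D ≤ P ∧ 1 < Nat.card D ∧ Nat.card D < Nat.card P ∧
        ∀ F : Subgroup G, F ≤ P → (Nat.card F = Nat.card D ∨ (Nat.card D = 2 ∧ Nat.card F = 4)) →
          ∀ g : G, F.map (MulAut.conj g).toMonoidHom ⊓ Subgroup.normalizer (F : Set G) ≤ F) :
    Cfsg.IsSupersolvable G := by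
  refine aux _ E rfl hGE fun p _ P hP => or_iff_not_imp_left.2 fun hc => ?_
  obtain ⟨h1, h2, h3⟩ := Syl.iff.1 hP
  exact exists_allSC h2 (h p Fact.out P h1 h2 h3 hc)

end Cfsg.Agent.S3032
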