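import Cfsg.Statements.S3049
import Cfsg.Agent.Lib.PLocal.Isolated
import Cfsg.Agent.Lib.Transfer.SmallOrder
import Cfsg.Agent.Lib.Comp.GenFitting
import Cfsg.Agent.Lib.Loc.StronglyEmbeddedRank
import Cfsg.Agent.Lib.Loc.Residual

set_option autoImplicit false
open Cfsg

namespace Cfsg.Agent.S3049

open Subgroup Cfsg.Lib.Core Cfsg.Lib.Comp Cfsg.Lib.PLocal Cfsg.Lib.Transfer Cfsg.Lib.Loc

variable {G : Type*} [Group G] [Finite G] {p : ℕ} [hp : Fact p.Prime]

theorem mem_of_rank (hr : PRankLE p 2 G) {z u w : G} (hz : orderOf z = p) (hu : u ^ p = 1)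
    (hw : w ^ p = 1) (h1 : Commute z u) (h2 : Commute z w) (h3 : Commute u w)
    (hn : u ∉ zpowers z) : w ∈ zpowers z ⊔ zpowers u := by
  by_contra hw'
  have hc : IsMulCommutative (closure ({z, u, w} : Set G)) := by
    refine isMulCommutative_closure fun a ha b hb => ?_
    simp only [Set.mem_insert_iff, Set.mem_singleton_iff] at ha hb
    rcases ha with rfl | rfl | rfl <;> rcases hb with rfl | rfl | rfl <;>
      first | rfl | exact h1 | exact h2 | exact h3 | exact h1.symm | exact h2.symm | exact h3.symm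
  have he : ∀ a ∈ closure ({z, u, w} : Set G), a ^ p = 1 := fun a ha => by
    refine closure_induction (fun a ha => ?_) (one_pow _) (fun a b ha hb h1 h2 => ?_)
      (fun a _ h => by rw [inv_pow, h, inv_one]) ha
    · simp only [Set.mem_insert_iff, Set.mem_singleton_iff] at ha
      rcases ha with rfl | rfl | rfl
      exacts [hz ▸ pow_orderOf_eq_one _, hu, hw]
    · rw [Commute.mul_pow (setLike_mul_comm ha hb), h1, h2, one_mul]
  have hA := hr _ hc he
  have hP : IsPGroup p (closure ({z, u, w} : Set G)) :=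
    isPGroup_subgroup_iff.2 fun a ha => ⟨1, by simpa using he a ha⟩
  have l1 : zpowers z < zpowers z ⊔ zpowers u :=
    lt_of_le_of_ne le_sup_left fun e => hn (e.ge (mem_sup_right (mem_zpowers u)))
  have l2 : zpowers z ⊔ zpowers u < closure ({z, u, w} : Set G) :=
    lt_of_le_of_ne (sup_le (zpowers_le.2 (subset_closure (by simp)))
      (zpowers_le.2 (subset_closure (by simp)))) fun e => hw' (e.ge (subset_closure (by simp)))
  obtain ⟨k, hk⟩ := IsPGroup.iff_card.1 hP
  obtain ⟨j, hj⟩ := IsPGroup.iff_card.1 (hP.to_le l2.le)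
  have c : ∀ {H K : Subgroup G}, H < K → Nat.card H < Nat.card K := fun h =>
    lt_of_le_of_ne (card_le_of_le h.le) fun e => h.ne (eq_of_le_of_card_ge h.le e.ge)
  have c1 := c l1
  have c2 := c l2
  rw [Nat.card_zpowers, hz, hj] at c1
  rw [hj, hk] at c2
  rw [hk] at hA
  have := (Nat.pow_lt_pow_iff_right hp.out.one_lt).1 ((pow_one p).trans_lt c1)
  have := (Nat.pow_lt_pow_iff_right hp.out.one_lt).1 (c2.trans_le hA)
  omega

theorem npc (hp2 : p ≠ 2) (hr : PRankLE p 2 G) {x z : G} (hx : orderOf x = p)
    (hiso : IsIsolated x) (hz : orderOf z = p) (hc : z ∈ center G) (hn : x ∉ zpowers z) :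
    HasNormalPComplement p G := by
  obtain ⟨P, hP⟩ := (isPGroup_zpowers_of_orderOf (p := p) ⟨1, by simpa using hx⟩).exists_le_sylow
  have hxP := hP (mem_zpowers x)
  have cz : ∀ g, Commute z g := fun g => (mem_center_iff.1 hc g).symm
  have hzP : z ∈ (P : Subgroup G) := by
    have : (zpowers z).Normal := ⟨fun a ha g => by
      rw [← mem_center_iff.1 (zpowers_le.2 hc ha) g |>.symm, mul_inv_cancel_right]; exact ha⟩
    exact pCore_le_sylow P (le_pCore this
      (isPGroup_zpowers_of_orderOf ⟨1, by simpa using hz⟩) (mem_zpowers z))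
  refine hasNormalPComplement_of_controls_small_fusion P fun a ha h g hg => ⟨1, one_mem _, ?_⟩
  have ha' := h.resolve_right fun e => hp2 e.1
  have hxa : Commute x a := (mem_centralizer_singleton_iff.1
    (isolated_le_centralizer hiso P.isPGroup' hxP ha)).symm
  have hxp : x ^ p = 1 := hx ▸ pow_orderOf_eq_one x
  rw [one_mul, inv_one, mul_one, mul_inv_eq_iff_eq_mul]
  by_cases e : a ∈ zpowers z
  · exact mem_center_iff.1 (zpowers_le.2 hc e) g
  have h1 := mem_of_rank hr hz ha' hxp (cz _) (cz _) hxa.symm e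
  have h2 := mem_of_rank hr hz hxp ha' (cz _) (cz _) hxa hn
  have h3 : g * x * g⁻¹ = x := by
    refine isolated_conj_eq hiso P.isPGroup' hxP ?_
    have : zpowers z ⊔ zpowers a ≤ (P : Subgroup G).comap (MulAut.conj g).toMonoidHom :=
      sup_le (zpowers_le.2 (by simpa [← (cz g).eq] using hzP)) (zpowers_le.2 hg)
    exact this h1
  have : zpowers z ⊔ zpowers x ≤ centralizer {g} :=
    sup_le (zpowers_le.2 (mem_centralizer_singleton_iff.2 (cz g)))
      (zpowers_le.2 (mem_centralizer_singleton_iff.2 (mul_inv_eq_iff_eq_mul.1 h3).symm))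
  exact (mem_centralizer_singleton_iff.1 (this h2)).symm

theorem le_core (hp2 : p ≠ 2) (hcore : pPrimeCore p G = ⊥) (hr : PRankLE p 2 G) {x z : G}
    (hx : orderOf x = p) (hiso : IsIsolated x) (hz : orderOf z = p) (hc : Commute x z)
    (hn : x ∉ zpowers z) {K : Subgroup G} (hK : K.IsSubnormal) (h : K ≤ centralizer {z}) :
    K ≤ pCore p G := by
  have hxC : x ∈ centralizer {z} := mem_centralizer_singleton_iff.2 hc
  have hzC : z ∈ centralizer {z} := mem_centralizer_singleton_iff.2 rfl
  have h1 : HasNormalPComplement p (centralizer ({z} : Set G)) := by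
    refine npc hp2 (fun A hA he => ?_) (x := ⟨x, hxC⟩) (z := ⟨z, hzC⟩) (by simpa using hx)
      (isolated_subgroup hiso hxC) (by simpa using hz) (mem_center_iff.2 fun g =>
        Subtype.ext (mem_centralizer_singleton_iff.1 g.2)) fun ⟨k, e⟩ => hn ⟨k, by
          simpa using congrArg Subtype.val e⟩
    rw [← card_map_of_injective (centralizer ({z} : Set G)).subtype_injective]
    refine hr _ inferInstance ?_
    rintro _ ⟨a, ha, rfl⟩
    exact congrArg Subtype.val (he a ha)
  refine le_pCore_of_isSubnormal hK (res_eq_bot_iff.1 (le_bot_iff.1 ?_))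
  rw [pResidualOf, pResidual_eq_pPrimeCore (hasNormalPComplement_of_le h h1), ← hcore]
  exact pPrimeCoreOf_le_pPrimeCore_of_isSubnormal hK

/-- Let G be a finite group and p an odd prime with O_{p'}(G) = 1. Suppose that G has p-rank at most 2 (no elementary abelian subgroup of order p³) and that some element x of order p is isolated in G (no G-conjugate of x other than x commutes with x) and not central. Then the generalized Fitting subgroup F*(G) is a non-abelian simple group. Since O_{p'}(G) = 1, such an x is not central modulo O_{p'}(G): the hypotheses describe a counterexample to the Z*_p statement in p-rank at most 2. -/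
theorem result {G : Type*} [Group G] [Finite G] {p : ℕ} [Fact p.Prime] (hp : p ≠ 2) (hcore : Cfsg.pPrimeCore p G = ⊥)
    (hrank : Cfsg.PRankLE p 2 G) (x : G) (hx : orderOf x = p) (hiso : Cfsg.IsIsolated x) (hnc : x ∉ Subgroup.center G) :
    IsSimpleGroup ↥(Cfsg.generalizedFittingSubgroup G) ∧ ¬ IsMulCommutative ↥(Cfsg.generalizedFittingSubgroup G) := by
  have pp : p.Prime := Fact.out
  have hx' : ∃ k : ℕ, orderOf x = p ^ k := ⟨1, by simpa using hx⟩
  have hR : pCore p G = ⊥ := by
    by_contra h0
    have hn : x ∉ pCore p G := fun e => hnc (mem_center_iff.2 fun g =>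
      mem_centralizer_singleton_iff.1 (isolated_normalizer_le hiso (pCore_isPGroup p G) e
        (le_normalizer_of_normal (mem_top g))))
    have hc : x ∈ centralizer (pCore p G : Set G) := fun r hr => mem_centralizer_singleton_iff.1
      (isolated_le_centralizer_of_mem_normalizer hx' hiso (pCore_isPGroup p G)
        (le_normalizer_of_normal (mem_top x)) hr)
    have : Nontrivial (pCore p G) := (nontrivial_iff_ne_bot _).2 h0
    have h1 := (pCore_isPGroup p G).center_nontrivial
    obtain ⟨k, hk0, hk⟩ := ((pCore_isPGroup p G).to_subgroup (center _)).nontrivial_iff_card.1 h1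
    obtain ⟨z, hz, hzo⟩ := exists_mem_orderOf_eq_prime (H := center (pCore p G)) pp
      (hk ▸ dvd_pow_self p hk0.ne')
    refine hn (le_core hp hcore hrank hx hiso (z := z) (by simpa using hzo) (hc z z.2).symm
      (fun e => hn (zpowers_le.2 z.2 e)) (Normal.isSubnormal inferInstance)
      (centralizer_le (Set.singleton_subset_iff.2 z.2)) hc)
  obtain ⟨P, hP⟩ := (isPGroup_zpowers_of_orderOf hx').exists_le_sylow
  have hxP := hP (mem_zpowers x)
  have ex : ∀ K : Subgroup G, IsComponent K → ∃ a ∈ K, orderOf a = p ∧ Commute x a := by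
    intro K hK
    have h1 : p ∣ Nat.card K := by
      by_contra e
      exact isComponent_ne_bot hK (le_bot_iff.1 (hcore ▸ le_pPrimeCore_of_isSubnormal hK.1
        (coprime_iff_not_dvd.2 e)))
    have h2 := not_dvd_relIndex_of_isSubnormal P.not_dvd_index hK.1
    rw [← ((P : Subgroup G).subgroupOf K).card_mul_index] at h1
    obtain ⟨a, ha, ho⟩ := exists_mem_orderOf_eq_prime pp ((pp.dvd_mul.1 h1).resolve_right h2)
    exact ⟨a, a.2, by simpa using ho, (mem_centralizer_singleton_iff.1
      (isolated_le_centralizer hiso P.isPGroup' hxP ha)).symm⟩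
  have key : ∀ K L : Subgroup G, IsComponent K → IsComponent L → K ≠ L → x ∈ L := by
    intro K L hK hL hne
    obtain ⟨a, ha, ho, hc⟩ := ex L hL
    by_contra e
    refine isComponent_ne_bot hK (le_bot_iff.1 (hR ▸ le_core hp hcore hrank hx hiso ho hc
      (fun e' => e (zpowers_le.2 ha e')) hK.1 ?_))
    exact (commutator_eq_bot_iff_le_centralizer.1 (isComponent_commutator_eq_bot_of_ne hK hL hne)).trans
      (centralizer_le (Set.singleton_subset_iff.2 ha))
  have hF : generalizedFittingSubgroup G = layer G := by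
    rw [genFitting_eq_layer_sup_pCore hcore, hR, sup_bot_eq]
  have : Nontrivial G := ⟨x, 1, fun e => hnc (e ▸ one_mem _)⟩
  obtain ⟨K, hK⟩ : ∃ K : Subgroup G, IsComponent K := by
    by_contra! e
    exact genFitting_ne_bot (hF.trans (layer_eq_bot_iff.2 e))
  have hZ := center_component_le_pCore hcore hK
  rw [hR] at hZ
  have hE : layer G = K := (layer_le fun L hL => by
    by_contra e
    have hne : K ≠ L := fun e' => e e'.ge
    have := hZ ⟨key L K hL hK hne.symm, commutator_eq_bot_iff_le_centralizer.1
      (isComponent_commutator_eq_bot_of_ne hL hK hne.symm) (key K L hK hL hne)⟩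
    exact hnc (mem_bot.1 this ▸ one_mem _)).antisymm (le_layer hK)
  rw [hF, hE]
  refine ⟨isSimpleGroup_of_isQuasisimple hK.2 (le_bot_iff.1 fun a ha => ?_),
    isQuasisimple_not_isMulCommutative hK.2⟩
  exact mem_bot.2 (Subtype.ext (mem_bot.1 (hZ ⟨a.2, fun b hb =>
    congrArg Subtype.val (mem_center_iff.1 ha ⟨b, hb⟩)⟩)))

end Cfsg.Agent.S3049
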