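import Cfsg.Statements.S3038
import Cfsg.Agent.Lib.ZP.Rank2B
import Cfsg.Agent.S3049

set_option autoImplicit false
open Cfsg

namespace Cfsg.Agent.S3038

open Cfsg.Lib Cfsg.Lib.PLocal Cfsg.Lib.PGroup Cfsg.Lib.Transfer Subgroup

/-- Let G be a finite group and p an odd prime with O_{p'}(G) = 1. Suppose that G has p-rank at most 2 and that some element x of order p is isolated in G and not central. Then F*(G) is a non-abelian simple group, and for every Sylow p-subgroup P of F*(G), either no conjugate of x lies in P and P is cyclic, or some conjugate of x lies in P and either P is extraspecial of order p³ and exponent p, or p = 3 and P has order 3^{2k+1} for some k ≥ 2 and is of maximal class (nilpotency class 2k). Since O_{p'}(G) = 1, such an x is not central modulo O_{p'}(G): the hypotheses describe a counterexample to the Z*_p statement in p-rank at most 2, and the conclusion records the structure it would have. -/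
theorem result {G : Type*} [Group G] [Finite G] {p : ℕ} [Fact p.Prime] (hp : p ≠ 2) (hcore : Cfsg.pPrimeCore p G = ⊥)
    (hrank : Cfsg.PRankLE p 2 G) (x : G) (hx : orderOf x = p) (hiso : Cfsg.IsIsolated x) (hnc : x ∉ Subgroup.center G) :
    IsSimpleGroup ↥(Cfsg.generalizedFittingSubgroup G) ∧ ¬ IsMulCommutative ↥(Cfsg.generalizedFittingSubgroup G) ∧
    ∀ P : Sylow p ↥(Cfsg.generalizedFittingSubgroup G),
      ((∀ g : G, g * x * g⁻¹ ∉ ((P : Subgroup ↥(Cfsg.generalizedFittingSubgroup G)).map (Cfsg.generalizedFittingSubgroup G).subtype)) ∧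
          IsCyclic ↥(P : Subgroup ↥(Cfsg.generalizedFittingSubgroup G))) ∨
      ((∃ g : G, g * x * g⁻¹ ∈ ((P : Subgroup ↥(Cfsg.generalizedFittingSubgroup G)).map (Cfsg.generalizedFittingSubgroup G).subtype)) ∧
        ((Cfsg.IsExtraspecial p ↥(P : Subgroup ↥(Cfsg.generalizedFittingSubgroup G)) ∧
            Nat.card (P : Subgroup ↥(Cfsg.generalizedFittingSubgroup G)) = p ^ 3 ∧
            ∀ y ∈ (P : Subgroup ↥(Cfsg.generalizedFittingSubgroup G)), y ^ p = 1) ∨
         (p = 3 ∧ ∃ k : ℕ, 2 ≤ k ∧ Nat.card (P : Subgroup ↥(Cfsg.generalizedFittingSubgroup G)) = 3 ^ (2 * k + 1) ∧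
            ∃ _ : Group.IsNilpotent ↥(P : Subgroup ↥(Cfsg.generalizedFittingSubgroup G)),
              Group.nilpotencyClass ↥(P : Subgroup ↥(Cfsg.generalizedFittingSubgroup G)) = 2 * k))) := by
  obtain ⟨h1, h2⟩ := S3049.result hp hcore hrank x hx hiso hnc
  have hp' : p.Prime := Fact.out
  refine ⟨h1, h2, fun P => ?_⟩
  have hN : (generalizedFittingSubgroup G).Normal := inferInstance
  generalize generalizedFittingSubgroup G = E at *
  have hP := P.isPGroup'.map E.subtype
  have hi : ∀ g, IsIsolated (g * x * g⁻¹) := fun g => isolated_map (p := p) ⟨1, hx.trans (pow_one p).symm⟩ hiso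
    (MulAut.conj g).toMonoidHom (MulAut.conj g).surjective
  by_cases h : ∃ g : G, g * x * g⁻¹ ∈ (P : Subgroup E).map E.subtype
  · refine .inr ⟨h, ?_⟩
    obtain ⟨g, ⟨y, hy, e⟩⟩ := h
    have hi : IsIsolated y := isolated_subgroup (x := (y : G)) ((show (y : G) = g * x * g⁻¹ from e) ▸ hi g) y.2
    have ho : orderOf y = p := by
      rw [← orderOf_coe, show (y : G) = MulAut.conj g x from e, MulEquiv.orderOf_eq, hx]
    have hc : commutator E = ⊤ := (h1.eq_bot_or_eq_top_of_normal _ inferInstance).resolve_left fun e =>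
      h2 (isMulCommutative_top_iff.1 (commutator_self_eq_bot_iff.1 e))
    exact (ZP.sylow_structure hp P (pRankLE_subgroup (pRankLE_subgroup hrank E) _) (hc ▸ le_top) hy ho
      (isolated_normalizer_le hi P.isPGroup' hy)).imp_left fun h =>
        ⟨h.1, h.2.1, fun y hy => congrArg Subtype.val (h.2.2 ⟨y, hy⟩)⟩
  refine .inl ⟨not_exists.1 h, ?_⟩
  by_contra hc
  obtain ⟨V, h3, -, h4, h5⟩ := exists_normal_elemAb_sq_of_odd hp P.isPGroup' ⊤ fun h => hc (topEquiv.isCyclic.1 h)
  obtain ⟨T, hT⟩ := hP.exists_le_sylow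
  obtain ⟨g, hg⟩ := exists_conj_le_sylow T (isPGroup_zpowers_of_orderOf (p := p) ⟨1, hx.trans (pow_one p).symm⟩)
  rw [conj_zpowers, zpowers_le] at hg
  have hW : (V.map (P : Subgroup E).subtype).map E.subtype ≤ (P : Subgroup E).map E.subtype := map_mono (map_subtype_le _)
  have h7 : g * x * g⁻¹ ∈ centralizer (((V.map (P : Subgroup E).subtype).map E.subtype : Subgroup G) : Set G) :=
    fun v hv => mem_centralizer_singleton_iff.1 (isolated_le_centralizer (hi g) T.isPGroup' hg (hT (hW hv)))
  have h8 : (g * x * g⁻¹) ^ p = 1 := by rw [conj_pow, ← hx, pow_orderOf_eq_one, mul_one, mul_inv_cancel]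
  have h6 := pRankLE_iff.1 hrank _ (elemAb_sup_zpowers (elemAb_map _ (elemAb_map _ h4)) h7 h8)
  rw [card_sup_zpowers (p := p) (centralizer_le_normalizer _ h7) (fun e => h ⟨g, hW e⟩) (h8 ▸ one_mem _),
    card_subtype, card_subtype, h5] at h6
  nlinarith [hp'.one_lt, pow_pos hp'.pos 2]

end Cfsg.Agent.S3038
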