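import Cfsg.Statements.S3047
import Cfsg.Agent.Lib.IPM.B

set_option autoImplicit false
open Cfsg

namespace Cfsg.Agent.S3047

/-- Let p ≥ 5 be a prime, G a finite group all of whose composition factors are known simple groups, S a Sylow p-subgroup and P a p-minimal subgroup of G containing S such that O^p(P/O_p(P)) is isomorphic to SL₂(pᵃ), PSL₂(pᵃ), SU₃(pᵃ) or PSU₃(pᵃ) for some a ≥ 1. Let L be the subgroup generated by N_G(S) and the p-minimal subgroups of G containing S other than P. Then either O^p(P) is normal in G, or every p-element of the centre of L lies in O_p(P). -/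
theorem result {G : Type*} [Group G] [Finite G] {p : ℕ} [Fact p.Prime] (hp : 5 ≤ p) (hK : Cfsg.IsCompositionKGroup G)
    (S : Sylow p G) (P : Subgroup G) (hSP : (S : Subgroup G) ≤ P) (hPmin : Cfsg.IsPMinimal p ↥P) [hn : (Cfsg.pCore p ↥P).Normal]
    (hrk1 : ∃ (F : Type) (_ : Field F) (_ : Fintype F) (a : ℕ), 1 ≤ a ∧
      ((Fintype.card F = p ^ a ∧ (Nonempty (↥(Cfsg.pResidual p (↥P ⧸ Cfsg.pCore p ↥P)) ≃* Matrix.SpecialLinearGroup (Fin 2) F) ∨
                                  Nonempty (↥(Cfsg.pResidual p (↥P ⧸ Cfsg.pCore p ↥P)) ≃* Matrix.ProjectiveSpecialLinearGroup (Fin 2) F))) ∨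
       (Fintype.card F = p ^ (2 * a) ∧ (Nonempty (↥(Cfsg.pResidual p (↥P ⧸ Cfsg.pCore p ↥P)) ≃* ↥(Cfsg.SU 3 F (p ^ a))) ∨
                                        Nonempty (↥(Cfsg.pResidual p (↥P ⧸ Cfsg.pCore p ↥P)) ≃* Cfsg.PSU 3 F (p ^ a))))))
    (L : Subgroup G)
    (hL : L = Subgroup.normalizer ((S : Subgroup G) : Set G) ⊔ ⨆ P' : {P' : Subgroup G // (S : Subgroup G) ≤ P' ∧ Cfsg.IsPMinimal p ↥P' ∧ P' ≠ P}, (P' : Subgroup G)) :
    ((Cfsg.pResidual p ↥P).map P.subtype).Normal ∨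
    ∀ z ∈ L ⊓ Subgroup.centralizer (L : Set G), (∃ k : ℕ, orderOf z = p ^ k) → z ∈ (Cfsg.pCore p ↥P).map P.subtype := by
  refine Or.inr fun z hz ⟨k, hk⟩ => ?_
  have r : Lib.IPM.HasRK p (pResidual p (P ⧸ pCore p P)) := by
    obtain ⟨F, _, _, a, -, ⟨hF, h⟩ | ⟨hF, h⟩⟩ := hrk1
    · have : CharP F p := charP_of_card_eq_prime_pow hF
      have r := Lib.IPM.hasRK_SL (F := F) hp
      obtain ⟨⟨e⟩⟩ | ⟨⟨e⟩⟩ := h
      exacts [r.equiv e, r.quot.equiv e]
    · obtain ⟨σ, b⟩ := Lib.Unitary.exists_isBar (q := p ^ a) (by rw [hF, ← pow_mul, mul_comm])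
      obtain ⟨M, -⟩ := Lib.U3.exists_model_SU b
      have r := Lib.IPM.hasRK_model M hp
      obtain ⟨⟨e⟩⟩ | ⟨⟨e⟩⟩ := h
      exacts [r.equiv e, r.quot.equiv e]
  have hc : ∀ g ∈ Subgroup.normalizer ((S : Subgroup G) : Set G), g * z = z * g := fun g hg =>
    hz.2 g (hL ▸ Subgroup.mem_sup_left hg)
  have hzp : IsPGroup p (Subgroup.zpowers z) := IsPGroup.of_card (by rw [Nat.card_zpowers, hk])
  have hzN : Subgroup.zpowers z ≤ Subgroup.normalizer ((S : Subgroup G) : Set G) :=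
    Subgroup.zpowers_le.2 (Subgroup.centralizer_le_normalizer _ fun g hg =>
      hc g (Subgroup.le_normalizer hg))
  have hzS : z ∈ (S : Subgroup G) := by
    rw [← S.is_maximal' (hzp.to_sup_of_normal_right' S.isPGroup' hzN) le_sup_right]
    exact Subgroup.mem_sup_left (Subgroup.mem_zpowers z)
  have hs := QuotientGroup.mk'_surjective (pCore p P)
  have hT : ∀ x : P, QuotientGroup.mk' _ x ∈ (((S.subtype hSP).mapSurjective hs : Sylow p _) :
      Subgroup (P ⧸ pCore p P)) ↔ (x : G) ∈ (S : Subgroup G) := fun x => by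
    rw [Sylow.coe_mapSurjective, ← Subgroup.mem_comap, Subgroup.comap_map_eq_self (by
      rw [QuotientGroup.ker_mk']; exact Lib.Core.pCore_le_sylow _)]
    rfl
  refine ⟨⟨z, hSP hzS⟩, (QuotientGroup.eq_one_iff _).1 (Lib.IPM.eq_one r _
    (Lib.Transfer.pResidual_sup_sylow ((S.subtype hSP).mapSurjective hs))
    (Lib.Core.pCore_quotient_pCore p P) ((hT ⟨z, hSP hzS⟩).2 hzS) fun g hg => ?_), rfl⟩
  obtain ⟨g, rfl⟩ := hs g
  refine congrArg (QuotientGroup.mk (s := pCore p P)) (show g * ⟨z, hSP hzS⟩ = ⟨z, hSP hzS⟩ * g from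
    Subtype.ext (hc g (Subgroup.mem_normalizer_fintype fun s hs' => ?_)))
  exact (hT (g * ⟨s, hSP hs'⟩ * g⁻¹)).1 (by
    simpa using (Subgroup.mem_normalizer_iff.1 hg _).1 ((hT ⟨s, hSP hs'⟩).2 hs'))

end Cfsg.Agent.S3047
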