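import Cfsg.Statements.S3048
import Cfsg.Agent.S3011
import Cfsg.Agent.Lib.Comp.GenFitting
import Cfsg.Agent.Lib.Transfer.NormalComplement
import Cfsg.Agent.Lib.Loc.PClosed
import Cfsg.Agent.Lib.Core.MinNormal
-- import your own Cfsg.Agent.* helpers here

set_option autoImplicit false
universe u
open Cfsg

namespace Cfsg.Agent.S3048

open Subgroup Cfsg.Lib Cfsg.Lib.Inv Cfsg.Lib.Core Cfsg.Lib.Comp Cfsg.Lib.Loc Cfsg.Lib.Transfer
open S3011 (eq_one_of_inv_comm)

section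
variable {G : Type u} [Group G] [Finite G] {V : Subgroup G}

omit [Finite G] in
theorem sq (hV : IsElementaryAbelian 2 V) {v : G} (hv : v ∈ V) : v * v = 1 := by
  rw [← pow_two]; exact hV.2 v hv

omit [Finite G] in
theorem cm (hV : IsElementaryAbelian 2 V) {v w : G} (hv : v ∈ V) (hw : w ∈ V) : v * w = w * v :=
  congrArg Subtype.val (hV.1.is_comm.comm (⟨v, hv⟩ : V) ⟨w, hw⟩)

theorem mem_of_odd {W N : Subgroup G} (hW : IsPGroup 2 W) (hn : W ≤ normalizer (N : Set G)) {h : G}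
    (hh : h ∈ W ⊔ N) (ho : Odd (orderOf h)) : h ∈ N :=
  res_le_of_le_sup hW hn le_rfl (mem_res hh (Nat.coprime_two_right.2 ho))

variable (hV : IsElementaryAbelian 2 V)
  (hminG : ∀ (H : Type u) [Group H] [Finite H] (W : Subgroup H), Nat.card H < Nat.card G →
    IsElementaryAbelian 2 W → W ≠ ⊥ → IsSidkiPair W → W ⊓ pCore 2 H ≠ ⊥)
include hV hminG

theorem quot (hV1 : V ≠ ⊥) (hS : IsSidkiPair V) (N : Subgroup G) [N.Normal] (hN : N ≠ ⊥)
    (hVN : V ⊓ N = ⊥) : ∃ v ∈ V, v ≠ 1 ∧ (v : G ⧸ N) ∈ pCore 2 (G ⧸ N) := by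
  have inj : ∀ v ∈ V, (v : G ⧸ N) = 1 → v = 1 := fun v hv h =>
    mem_bot.1 (hVN ▸ mem_inf.2 ⟨hv, (QuotientGroup.eq_one_iff v).1 h⟩)
  have := hminG (G ⧸ N) (V.map (QuotientGroup.mk' N)) (by
    rw [← N.card_mul_index, ← index_eq_card]
    exact lt_mul_of_one_lt_left (Nat.pos_of_ne_zero index_ne_zero_of_finite)
      ((one_lt_card_iff_ne_bot N).2 hN))
    ⟨by have := hV.1; infer_instance, by
      rintro _ ⟨v, hv, rfl⟩; rw [← map_pow, hV.2 v hv, map_one]⟩
    (fun e => hV1 (eq_bot_iff.2 fun v hv => mem_bot.2 (inj v hv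
      (mem_bot.1 (e ▸ mem_map_of_mem (QuotientGroup.mk' N) hv))))) (by
      rintro h _ ⟨v, hv, rfl⟩ ho hi
      obtain ⟨k, hk⟩ := exists_pow_mul_self_eq_of_odd ho
      obtain ⟨s, hs⟩ := QuotientGroup.mk'_surjective N (h ^ k)
      have hv2 := sq hV hv
      have hv3 : s * v * s⁻¹ * (s * v * s⁻¹) = 1 := by
        calc s * v * s⁻¹ * (s * v * s⁻¹) = s * (v * v) * s⁻¹ := by group
          _ = 1 := by rw [hv2]; group
      have hy : QuotientGroup.mk' N (s * v * s⁻¹ * v) = h := by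
        have e := conj_pow_of_inv hi k
        have e2 : QuotientGroup.mk' N v = (QuotientGroup.mk' N v)⁻¹ := by
          rw [← map_inv, inv_eq_of_mul_self hv2]
        simp only [map_mul, map_inv, hs]
        generalize QuotientGroup.mk' N v = u at *
        generalize h ^ k = y at *
        calc y * u * y⁻¹ * u = y * (u * y * u⁻¹)⁻¹ * (u * u⁻¹⁻¹) := by group
          _ = h := by rw [e, inv_inv, inv_inv, hk, mul_eq_one_iff_eq_inv.2 e2, mul_one]
      obtain ⟨a, ha, b, hb, ⟨j, hj⟩, hbo, e⟩ := exists_p_part_mul_p'_part (p := 2) (s * v * s⁻¹ * v)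
      have ha1 : QuotientGroup.mk' N a = 1 := by
        have h1 : QuotientGroup.mk' N a ∈ zpowers h := by
          rw [← hy, ← MonoidHom.map_zpowers]; exact mem_map_of_mem _ ha
        have h2 := (orderOf_dvd_of_mem_zpowers h1)
        have h3 : orderOf (QuotientGroup.mk' N a) ∣ 2 ^ j :=
          orderOf_dvd_of_pow_eq_one (by rw [← map_pow, hj, map_one])
        exact orderOf_eq_one_iff.1 (Nat.eq_one_of_dvd_coprimes
          ((Nat.coprime_two_right.2 ho).pow_right j) h2 h3)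
      have hbh : QuotientGroup.mk' N b = h := by rw [← hy, e, map_mul, ha1, one_mul]
      obtain ⟨m, rfl⟩ := hb
      obtain ⟨w, hw, hw1, hc⟩ := hS _ v hv (Nat.coprime_two_right.1 hbo) (by
        have := conj_zpow_of_inv (pair_right_inv hv3 hv2) m
        rw [zpow_neg] at this; exact this)
      exact ⟨_, mem_map_of_mem _ hw, fun e => hw1 (inj w hw e), by
        rw [← hbh, ← map_mul, ← map_mul, hc]⟩)
  obtain ⟨⟨_, ⟨v, hv, rfl⟩, h2⟩, h1⟩ := ne_bot_iff_exists_ne_one.1 this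
  exact ⟨v, hv, by rintro rfl; exact h1 (Subtype.ext (map_one _)), h2⟩

theorem wit {W N : Subgroup G} (hWV : W ≤ V) (hW : W ≠ ⊥) (hn : W ≤ normalizer (N : Set G))
    (hlt : W ⊔ N ≠ ⊤) (hO : pCoreOf 2 N = ⊥) (hC : W ⊓ centralizer (N : Set G) = ⊥) :
    ∃ h ∈ N, ∃ w ∈ W, Odd (orderOf h) ∧ w * h * w⁻¹ = h⁻¹ ∧ ∀ c ∈ W, c * h = h * c → c = 1 := by
  have hWe : IsElementaryAbelian 2 W := ⟨⟨⟨fun a b => Subtype.ext (cm hV (hWV a.2) (hWV b.2))⟩⟩,
    fun a ha => hV.2 a (hWV ha)⟩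
  have hHN : W ⊔ N ≤ normalizer (N : Set G) := sup_le hn le_normalizer
  by_contra hc
  push Not at hc
  refine hminG ↥(W ⊔ N) (W.subgroupOf _) (by
      rw [← card_top (G := G)]; exact card_lt_of_lt (lt_top_iff_ne_top.2 hlt))
    ⟨by have := hWe.1; infer_instance, fun a ha => Subtype.ext (hWe.2 a ha)⟩
    (fun e => hW (by rwa [subgroupOf_eq_bot, disjoint_iff, inf_eq_left.2 le_sup_left] at e))
    (fun h v hv ho hi => ?_) (eq_bot_iff.2 fun x hx => ?_)
  · have ho' : Odd (orderOf (h : G)) := by rwa [Subgroup.orderOf_coe]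
    obtain ⟨c, hc, h1, h2⟩ := hc h (mem_of_odd (isPGroup_of_isElementaryAbelian hWe) hn h.2 ho') v hv
      ho' (congrArg Subtype.val hi)
    exact ⟨⟨c, mem_sup_left hc⟩, hc, fun e => h2 (congrArg Subtype.val e), Subtype.ext h1⟩
  · refine mem_bot.2 (Subtype.ext (mem_bot.1 (hC ▸ mem_inf.2 ⟨hx.1, ?_⟩)))
    have h1 : ⁅pCoreOf 2 (W ⊔ N), N⁆ ≤ pCoreOf 2 (W ⊔ N) ⊓ N :=
      commutator_le_inf_of_normalizer (le_sup_right.trans (le_normalizer_pCoreOf 2 _)) le_rfl
        ((core_le 2 _).trans hHN)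
    have h2 := h1.trans (pCoreOf_inf_le le_sup_right)
    rw [← pCoreOf_def, hO, le_bot_iff, commutator_eq_bot_iff_le_centralizer] at h2
    exact h2 ⟨x, hx.2, rfl⟩

end

/-- Minimal counterexample reduction for the Sidki pair problem. Let G be a finite group and V a nontrivial elementary abelian 2-subgroup satisfying the Sidki pair condition with V ∩ O₂(G) = 1. Suppose that for every finite group H of smaller order, every nontrivial elementary abelian 2-subgroup W of H satisfying the Sidki pair condition meets O₂(H) nontrivially, and that the same holds in G for every such subgroup W of order smaller than that of V. Then the generalized Fitting subgroup F*(G) is a non-abelian simple group and G = V F*(G). -/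
theorem result {G : Type u} [Group G] [Finite G] (V : Subgroup G) (hV : Cfsg.IsElementaryAbelian 2 V) (hV1 : V ≠ ⊥) (hS : Cfsg.IsSidkiPair V) (hVO : V ⊓ Cfsg.pCore 2 G = ⊥) (hminG : ∀ (H : Type u) [Group H] [Finite H] (W : Subgroup H), Nat.card H < Nat.card G → Cfsg.IsElementaryAbelian 2 W → W ≠ ⊥ → Cfsg.IsSidkiPair W → W ⊓ Cfsg.pCore 2 H ≠ ⊥) (hminV : ∀ W : Subgroup G, Nat.card W < Nat.card V → Cfsg.IsElementaryAbelian 2 W → W ≠ ⊥ → Cfsg.IsSidkiPair W → W ⊓ Cfsg.pCore 2 G ≠ ⊥) : IsSimpleGroup ↥(Cfsg.generalizedFittingSubgroup G) ∧ ¬ IsMulCommutative ↥(Cfsg.generalizedFittingSubgroup G) ∧ V ⊔ Cfsg.generalizedFittingSubgroup G = ⊤ := by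
  have hV2 := isPGroup_of_isElementaryAbelian hV
  have hO : pCore 2 G = ⊥ := by
    by_contra h
    obtain ⟨v, hv, h1, h2⟩ := quot hV hminG hV1 hS _ h hVO
    rw [pCore_quotient_pCore, mem_bot, QuotientGroup.eq_one_iff] at h2
    exact h1 (mem_bot.1 (hVO ▸ mem_inf.2 ⟨hv, h2⟩))
  have hO' : ∀ N : Subgroup G, N.IsSubnormal → pCoreOf 2 N = ⊥ := fun N hN =>
    le_bot_iff.1 (hO ▸ pCoreOf_le_pCore_of_isSubnormal hN)
  have bs : ∀ v ∈ V, v ≠ 1 → ∃ h : G, h ≠ 1 ∧ Odd (orderOf h) ∧ v * h * v⁻¹ = h⁻¹ := fun v hv h1 =>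
    exists_odd_inverted_of_not_mem_pCore (sq hV hv) fun h => h1 (mem_bot.1 (hO ▸ h))
  obtain ⟨⟨v₀, hv₀⟩, hv1⟩ := ne_bot_iff_exists_ne_one.1 hV1
  have hv₀1 : v₀ ≠ 1 := fun e => hv1 (Subtype.ext e)
  haveI : Nontrivial G := ⟨⟨v₀, 1, hv₀1⟩⟩
  obtain ⟨N, hN⟩ := exists_isMinNormal (G := G)
  haveI hNn := hN.normal
  have nN : ∀ X : Subgroup G, X ≤ normalizer (N : Set G) := fun X => by
    rw [normalizer_eq_top_iff.2 hNn]; exact le_top
  have hcen : ∀ v : G, v * v = 1 → v ∈ center G → v = 1 := fun v h2 hv =>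
    mem_bot.1 (hO ▸ le_pCore ⟨fun x hx g => by
      rwa [mem_center_iff.1 (zpowers_le.2 hv hx) g, mul_inv_cancel_right]⟩ (isPGroup_zpowers_of_mul_self h2)
      (mem_zpowers v))
  have hNZ : centralizer (N : Set G) ≠ ⊤ := by
    intro e
    have hz : N ≤ center G := centralizer_eq_top_iff_subset.1 e
    obtain ⟨v, hv, h1, h2⟩ := quot hV hminG hV1 hS N hN.ne_bot
      (eq_bot_iff.2 fun v hv => mem_bot.2 (hcen v (sq hV hv.1) (hz hv.2)))
    obtain ⟨h, hh1, ho, hi⟩ := bs v hv h1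
    have h3 : ((h * h : G) : G ⧸ N) ∈ pCore 2 (G ⧸ N) := by
      have := mul_mem ((inferInstance : (pCore 2 (G ⧸ N)).Normal).conj_mem _ h2 (h : G ⧸ N)) (inv_mem h2)
      have e : h * h = h * v * h⁻¹ * v⁻¹ := by
        calc h * h = h * (v * h * v⁻¹)⁻¹ := by rw [hi, inv_inv]
          _ = _ := by group
      rw [e]; exact this
    obtain ⟨k, hk⟩ := exists_sq_pow_eq_of_odd ho
    have h4 : (h : G ⧸ N) ∈ pCore 2 (G ⧸ N) := by rw [← hk]; exact pow_mem h3 k
    obtain ⟨j, hj⟩ := pCore_isPGroup 2 (G ⧸ N) ⟨_, h4⟩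
    have h5 : (h : G ⧸ N) = 1 := orderOf_eq_one_iff.1 (Nat.eq_one_of_dvd_coprimes
      ((Nat.coprime_two_right.2 ho).pow_right j) (orderOf_map_dvd (QuotientGroup.mk' N) h)
      (orderOf_dvd_of_pow_eq_one (congrArg Subtype.val hj)))
    exact hh1 (eq_one_of_inv_comm ho hi
      (mem_center_iff.1 (hz ((QuotientGroup.eq_one_iff h).1 h5)) v))
  have hVN : V ⊔ N = ⊤ := by
    by_contra hne
    have hW : V ⊓ centralizer (N : Set G) ≠ ⊥ := fun e => by
      obtain ⟨h, -, w, hw, ho, hi, hc⟩ := wit hV hminG le_rfl hV1 (nN _) hne (hO' N hNn.isSubnormal) e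
      obtain ⟨c, hc1, hc2, hc3⟩ := hS h w hw ho hi
      exact hc2 (hc c hc1 hc3)
    obtain ⟨h₂, hh₂, w, hw, ho₂, hi₂, hc₂⟩ := wit (N := centralizer (N : Set G)) hV hminG inf_le_left hW
      (inf_le_right.trans le_normalizer) (by rwa [sup_eq_right.2 inf_le_right])
      (hO' _ (inferInstance : (centralizer (N : Set G)).Normal).isSubnormal) (by
        refine eq_bot_iff.2 fun x hx => mem_bot.2 ?_
        by_contra hx1
        obtain ⟨h, hh1, ho, hi⟩ := bs x hx.1.1 hx1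
        have h1 : h * h ∈ centralizer (N : Set G) := by
          have e : h * h = h * x * h⁻¹ * x⁻¹ := by
            calc h * h = h * (x * h * x⁻¹)⁻¹ := by rw [hi, inv_inv]
              _ = _ := by group
          rw [e]
          exact mul_mem ((inferInstance : (centralizer (N : Set G)).Normal).conj_mem _ hx.1.2 h)
            (inv_mem hx.1.2)
        obtain ⟨k, hk⟩ := exists_sq_pow_eq_of_odd ho
        exact hh1 (eq_one_of_inv_comm ho hi (hx.2 h (hk ▸ pow_mem h1 k)).symm))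
    obtain ⟨b₀, hb₀, hb₀1, hb₀c⟩ := hS h₂ w hw.1 ho₂ hi₂
    obtain ⟨h₁, hh₁, b, hb, ho₁, hi₁, hc₁⟩ := wit (W := V ⊓ centralizer {h₂}) (N := N) hV hminG
      inf_le_left (ne_bot_iff_exists_ne_one.2 ⟨⟨b₀, hb₀, mem_centralizer_singleton_iff.2 hb₀c⟩,
        fun e => hb₀1 (congrArg Subtype.val e)⟩) (nN _)
      (fun e => hne (top_le_iff.1 (e ▸ sup_le_sup_right inf_le_left N))) (hO' N hNn.isSubnormal)
      (eq_bot_iff.2 fun x hx => mem_bot.2 (hc₂ x ⟨hx.1.1, hx.2⟩ (mem_centralizer_singleton_iff.1 hx.1.2)))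
    have h12 : Commute h₁ h₂ := hh₂ h₁ hh₁
    have hbh : b * h₂ * b⁻¹ = h₂ := by rw [mem_centralizer_singleton_iff.1 hb.2, mul_inv_cancel_right]
    have hwN : ∀ x ∈ N, w * x * w⁻¹ = x := fun x hx => by rw [← hw.2 x hx, mul_inv_cancel_right]
    obtain ⟨c, hc, hc1, hcc⟩ := hS (h₁ * h₂) (w * b) (mul_mem hw.1 hb.1)
      (Odd.of_dvd_nat (ho₁.mul ho₂) h12.orderOf_mul_dvd_mul_orderOf) (by
        calc w * b * (h₁ * h₂) * (w * b)⁻¹ = (w * (b * h₁ * b⁻¹) * w⁻¹) * (w * (b * h₂ * b⁻¹) * w⁻¹) := by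
              group
          _ = _ := by rw [hi₁, hbh, hwN _ (inv_mem hh₁), hi₂, h12.eq, mul_inv_rev])
    have e1 : h₁⁻¹ * (c * h₁ * c⁻¹) = h₂ * (c * h₂ * c⁻¹)⁻¹ := by
      calc h₁⁻¹ * (c * h₁ * c⁻¹) = h₁⁻¹ * (c * (h₁ * h₂)) * c⁻¹ * (c * h₂ * c⁻¹)⁻¹ := by group
        _ = _ := by rw [hcc]; group
    have hzN : h₂ * (c * h₂ * c⁻¹)⁻¹ ∈ N := e1 ▸ N.mul_mem (N.inv_mem hh₁) (hNn.conj_mem _ hh₁ c)
    have e2 := hwN _ hzN
    have e3 : w * (c * h₂ * c⁻¹) * w⁻¹ = (c * h₂ * c⁻¹)⁻¹ := by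
      calc w * (c * h₂ * c⁻¹) * w⁻¹ = (w * c) * h₂ * (w * c)⁻¹ := by group
        _ = c * (w * h₂ * w⁻¹) * c⁻¹ := by rw [cm hV hw.1 hc]; group
        _ = _ := by rw [hi₂]; group
    have e4 : c * h₂ * c⁻¹ = h₂ := by
      refine eq_of_sq_eq_of_odd (by rwa [orderOf_conj']) ho₂ ?_
      have e5 := hh₂ _ hzN
      generalize c * h₂ * c⁻¹ = y at *
      have e6 : h₂⁻¹ * y = h₂ * y⁻¹ := by
        rw [← e2]
        calc h₂⁻¹ * y = (w * h₂ * w⁻¹) * (w * y * w⁻¹)⁻¹ := by rw [hi₂, e3, inv_inv]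
          _ = _ := by group
      calc y * y = h₂ * (h₂⁻¹ * y) * y := by group
        _ = _ := by rw [e6]; group
    rw [e4, mul_inv_cancel, inv_mul_eq_one] at e1
    exact hc1 (hc₁ c ⟨hc, mem_centralizer_singleton_iff.2 (mul_inv_eq_iff_eq_mul.1 e4)⟩
      (mul_inv_eq_iff_eq_mul.1 e1.symm))
  have hodd : ∀ h : G, Odd (orderOf h) → h ∈ N := fun h ho =>
    mem_of_odd hV2 (nN _) (hVN ▸ mem_top h) ho
  have dec : ∀ g : G, ∃ n ∈ N, ∃ v ∈ V, g = n * v := fun g =>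
    exists_mul_of_mem_sup (nN V) (by rw [sup_comm, hVN]; exact mem_top g)
  have hna : ¬ N ≤ centralizer (N : Set G) := by
    intro hab
    obtain ⟨h, hh1, ho, hi⟩ := bs v₀ hv₀ hv₀1
    obtain ⟨c, hc, hc1, hcc⟩ := hS h v₀ hv₀ ho hi
    have hn : (N ⊓ centralizer {c}).Normal := ⟨fun x hx g => ⟨hNn.conj_mem _ hx.1 g, by
      obtain ⟨n, hn, v, hv, rfl⟩ := dec g
      have e : n * v * x * (n * v)⁻¹ = v * x * v⁻¹ := by
        calc n * v * x * (n * v)⁻¹ = n * (v * x * v⁻¹) * n⁻¹ := by group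
          _ = _ := by rw [hab (hNn.conj_mem _ hx.1 v) n hn, mul_inv_cancel_right]
      rw [e]
      have hv' : v ∈ centralizer {c} := mem_centralizer_singleton_iff.2 (cm hV hv hc)
      exact (centralizer {c}).mul_mem ((centralizer {c}).mul_mem hv' hx.2)
        ((centralizer {c}).inv_mem hv')⟩⟩
    have e := hN.eq_of_le hn (ne_bot_iff_exists_ne_one.2 ⟨⟨h, hodd h ho,
      mem_centralizer_singleton_iff.2 hcc.symm⟩, fun e => hh1 (congrArg Subtype.val e)⟩) inf_le_left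
    refine hc1 (hcen c (sq hV hc) (mem_center_iff.2 fun g => ?_))
    obtain ⟨n, hn, v, hv, rfl⟩ := dec g
    rw [mul_assoc, cm hV hv hc, ← mul_assoc, mem_centralizer_singleton_iff.1 (inf_eq_left.1 e hn),
      mul_assoc]
  have hC : centralizer (N : Set G) = ⊥ := by
    have h1 := (hN.inf_eq_bot_or_le (centralizer (N : Set G))).resolve_right hna
    refine le_bot_iff.1 (hO ▸ le_pCore inferInstance (res_eq_bot_iff.1 (le_bot_iff.1 (res_le_iff.2
      fun g hg ho => h1 ▸ mem_inf.2 ⟨hodd g (Nat.coprime_two_right.1 ho), hg⟩))))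
  have hF : fittingSubgroup G = ⊥ :=
    le_bot_iff.1 (hC ▸ le_centralizer_iff.1 hN.le_centralizer_fittingSubgroup)
  have hFN : generalizedFittingSubgroup G = N := hN.eq_of_le inferInstance genFitting_ne_bot
    (genFitting_le_of_centralizer_le hNn.isSubnormal (hF ▸ bot_le) (hC ▸ bot_le))
  obtain ⟨K, hK⟩ : ∃ K : Subgroup G, IsComponent K := by
    by_contra h
    push Not at h
    exact hN.ne_bot (by rw [← hFN, genFitting_def, layer_eq_bot_iff.2 h, hF, bot_sup_eq])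
  have hKN : K ≤ N := hFN ▸ (le_layer hK).trans layer_le_genFitting
  have hNK : N ≤ normalizer (K : Set G) := hFN ▸ genFitting_le_normalizer hK
  have hZK : ∀ x ∈ K, x ∈ centralizer (K : Set G) → x = 1 := fun x h1 h2 =>
    mem_bot.1 (hF ▸ center_component_le_fitting hK ⟨h1, h2⟩)
  have hcj : ∀ c : G, c ∉ normalizer (K : Set G) → ∀ x ∈ K, c * x * c⁻¹ ∈ centralizer (K : Set G) :=
    fun c hc x hx => commutator_eq_bot_iff_le_centralizer.1 (isComponent_commutator_eq_bot_of_ne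
      (isComponent_map_conj hK c) hK fun e => hc (conj_eq_self_iff.1 e)) (conj_mem_conj.2 hx)
  have hVK : V ≤ normalizer (K : Set G) := by
    by_contra hc
    obtain ⟨v, hv, hvK⟩ := SetLike.not_le_iff_exists.1 hc
    by_cases h0 : V ⊓ normalizer (K : Set G) = ⊥
    · have hout : ∀ c ∈ V, c ≠ 1 → c ∉ normalizer (K : Set G) := fun c hc h1 h =>
        h1 (mem_bot.1 (h0 ▸ mem_inf.2 ⟨hc, h⟩))
      obtain ⟨x, hx, ho, hx1⟩ : ∃ x ∈ K, (orderOf x).Coprime 2 ∧ x ∉ (⊥ : Subgroup G) := by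
        by_contra h
        push Not at h
        exact isComponent_ne_bot hK (le_bot_iff.1
          (res_eq_of_perfect (p := 2) (isComponent_commutator_self hK) ▸ res_le_iff.2 h))
      have ho' := Nat.coprime_two_right.1 ho
      have hy := hcj v hvK x hx
      have hcm : Commute x (v * x * v⁻¹)⁻¹ := Commute.inv_right (hy x hx)
      have o2 : Odd (orderOf (x * (v * x * v⁻¹)⁻¹)) := Odd.of_dvd_nat
        (ho'.mul (by rwa [orderOf_inv, orderOf_conj'])) hcm.orderOf_mul_dvd_mul_orderOf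
      have i2 : v * (x * (v * x * v⁻¹)⁻¹) * v⁻¹ = (x * (v * x * v⁻¹)⁻¹)⁻¹ := by
        calc v * (x * (v * x * v⁻¹)⁻¹) * v⁻¹ = v * x * v⁻¹ * ((v * v) * x⁻¹ * (v * v)⁻¹) := by group
          _ = _ := by rw [sq hV hv]; group
      obtain ⟨c, hc, hc1, hcc⟩ := hS _ v hv o2 i2
      refine hx1 (mem_bot.2 (hZK x hx ?_))
      by_cases hcv : c = v
      · rw [mul_inv_eq_one.1 (eq_one_of_inv_comm o2 i2 (hcv ▸ hcc))]; exact hy
      have e : x = (c * x * c⁻¹) * ((c * v) * x * (c * v)⁻¹)⁻¹ * (v * x * v⁻¹) := by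
        calc x = (x * (v * x * v⁻¹)⁻¹) * c * c⁻¹ * (v * x * v⁻¹) := by group
          _ = _ := by rw [← hcc]; group
      rw [e]
      exact mul_mem (mul_mem (hcj c (hout c hc hc1) x hx) (inv_mem (hcj _ (hout _ (mul_mem hc hv)
        fun e => hcv (mul_right_cancel (e.trans (sq hV hv).symm))) x hx))) hy
    · obtain ⟨h, hh, w, hw, ho, hi, hc⟩ := wit hV hminG inf_le_left h0 inf_le_right
        (fun e => hvK ((e ▸ sup_le inf_le_right le_normalizer : ⊤ ≤ normalizer (K : Set G)) (mem_top v)))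
        (hO' K hK.1) (by
          refine eq_bot_iff.2 fun c hc => hC ▸ ?_
          have h1 : normalClosure (K : Set G) ≤ centralizer {c} := by
            refine (closure_le _).2 fun y hy => ?_
            obtain ⟨x, hx, hy⟩ := Group.mem_conjugatesOfSet_iff.1 hy
            obtain ⟨g, rfl⟩ := isConj_iff.1 hy
            obtain ⟨n, hn, u, hu, e⟩ := dec g⁻¹
            have e' : g = u⁻¹ * n⁻¹ := by rw [← mul_inv_rev, ← e, inv_inv]
            have h2 : n⁻¹ * x * n ∈ K := (mem_normalizer_iff''.1 (hNK hn) x).1 hx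
            have h3 : g * x * g⁻¹ = u⁻¹ * (n⁻¹ * x * n) * u := by rw [e']; group
            have h4 : u ∈ centralizer {c} := mem_centralizer_singleton_iff.2 (cm hV hu hc.1.1)
            rw [SetLike.mem_coe, h3]
            exact mul_mem (mul_mem (inv_mem h4) (mem_centralizer_singleton_iff.2 (hc.2 _ h2))) h4
          rw [hN.eq_of_le normalClosure_normal (fun e => isComponent_ne_bot hK
            (le_bot_iff.1 (e ▸ le_normalClosure))) (normalClosure_le_normal hKN)] at h1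
          exact fun y hy => mem_centralizer_singleton_iff.1 (h1 hy))
      obtain ⟨c, hcV, hc1, hcc⟩ := hS h w hw.1 ho hi
      by_cases hcK : c ∈ normalizer (K : Set G)
      · exact hc1 (hc c ⟨hcV, hcK⟩ hcc)
      have h1 := hcj c hcK h hh
      rw [hcc, mul_inv_cancel_right] at h1
      obtain ⟨⟨d, hd⟩, hd1⟩ := ne_bot_iff_exists_ne_one.1 h0
      exact hd1 (Subtype.ext (hc d hd (by rw [hZK h hh h1, mul_one, one_mul])))
  have hKeq : K = N := hN.eq_of_le (normalizer_eq_top_iff.1 (top_le_iff.1 (hVN ▸ sup_le hVK hNK)))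
    (isComponent_ne_bot hK) hKN
  rw [hFN, ← hKeq]
  refine ⟨isSimpleGroup_of_isQuasisimple hK.2 (eq_bot_iff.2 fun x hx => mem_bot.2 (Subtype.ext
    (hZK x x.2 fun y hy => congrArg Subtype.val (mem_center_iff.1 hx ⟨y, hy⟩)))),
    isQuasisimple_not_isMulCommutative hK.2, hKeq ▸ hVN⟩

end Cfsg.Agent.S3048
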