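import Cfsg.Statements.S3074
import Cfsg.Agent.Lib.PLocal.QdFacts

set_option autoImplicit false
open Cfsg

set_option linter.unusedVariables false
open Cfsg.Lib

namespace Cfsg.Agent.S3074

/-- Let p be an odd prime. A Sylow p-subgroup of Qd(p), the split extension of an elementary abelian group of order p² by SL₂(p) acting naturally, is extraspecial of order p³ and exponent p. -/
theorem result (p : ℕ) [Fact p.Prime] (hp : p ≠ 2) (P : Sylow p ↥(Cfsg.qd p)) :
    Cfsg.IsExtraspecial p ↥P ∧ Nat.card P = p ^ 3 ∧ Monoid.exponent ↥P = p := by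
  obtain ⟨e, he⟩ := PLocal.exists_equiv_map_eq_qdT (MulEquiv.refl _) P
  let φ : P ≃* (PLocal.qdT : Subgroup (qd p)) :=
    (e.subgroupMap P).trans (MulEquiv.subgroupCongr he)
  have hc : Nat.card P = p ^ 3 := (Nat.card_congr φ.toEquiv).trans PLocal.card_qdT
  have hab : ¬ IsMulCommutative P := fun h => by
    have h1 := congrArg (fun x => (φ x : qd p)) (mul_comm' (φ.symm ⟨_, PLocal.heis_mem 1 0 0⟩)
      (φ.symm ⟨_, PLocal.heis_mem 0 0 1⟩))
    simp only [map_mul, MulEquiv.apply_symm_apply, Subgroup.coe_mul, PLocal.heis_mul] at h1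
    simpa using (PLocal.heis_inj h1).2.1
  refine ⟨PLocal.isExtraspecial_of_card_eq_cube hc hab, hc, ?_⟩
  have : Nontrivial P := by
    by_contra h
    rw [not_nontrivial_iff_subsingleton] at h
    exact hab ⟨⟨fun _ _ => Subsingleton.elim _ _⟩⟩
  rw [Monoid.exponent_eq_prime_iff Fact.out]
  intro g hg
  refine orderOf_eq_prime (φ.injective (Subtype.ext ?_)) hg
  obtain ⟨b, c, d, h⟩ := (φ g).2
  have h2 : ((p.choose 2 : ℕ) : ZMod p) = 0 := (ZMod.natCast_eq_zero_iff _ _).mpr
    ((Fact.out : p.Prime).dvd_choose_self two_ne_zero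
      (lt_of_le_of_ne (Fact.out : p.Prime).two_le hp.symm))
  rw [map_pow, map_one, Subgroup.coe_pow, h, PLocal.heis_pow, h2]
  simpa using PLocal.heis_zero

end Cfsg.Agent.S3074
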