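import Cfsg.Statements.S3053
import Cfsg.Agent.Lib.PLocal.Plane
import Cfsg.Agent.Lib.Extraspecial.Basic
import Cfsg.Agent.S3074

set_option autoImplicit false
open Cfsg

set_option linter.unusedVariables false
open Cfsg.Lib

namespace Cfsg.Agent.S3053

open Subgroup in
theorem sylow_equiv_of_hasSection {X G : Type*} [Group X] [Group G] [Finite G] {p : ℕ}
    [hp : Fact p.Prime] (h : PLocal.HasSection X G) (P : Sylow p G) (T : Sylow p X)
    (hc : Nat.card P ≤ Nat.card T) : Nonempty (P ≃* T) := by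
  obtain ⟨K, f, hf⟩ := h
  have : Finite X := Finite.of_surjective f hf
  obtain ⟨Q⟩ : Nonempty (Sylow p K) := inferInstance
  let T' := Q.mapSurjective hf
  have hT' : (T' : Subgroup X) = (Q : Subgroup K).map f := Sylow.coe_mapSurjective _ _
  obtain ⟨P', hP'⟩ := (Q.isPGroup'.map K.subtype).exists_le_sylow
  have e1 : Nat.card T' = Nat.card T := Nat.card_congr (Sylow.equiv T' T).toEquiv
  have e2 : Nat.card P' = Nat.card P := Nat.card_congr (Sylow.equiv P' P).toEquiv
  have e3 : Nat.card ((Q : Subgroup K).map K.subtype) = Nat.card Q :=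
    card_map_of_injective K.subtype_injective
  have h1 : Nat.card ((Q : Subgroup K).map K.subtype) ≤ Nat.card P' := card_le_of_le hP'
  have hs := f.subgroupMap_surjective (Q : Subgroup K)
  have h2 : Nat.card ((Q : Subgroup K).map f) ≤ Nat.card Q := Nat.card_le_card_of_surjective _ hs
  have h3 : Nat.card ((Q : Subgroup K).map f) = Nat.card T' := by rw [← hT']
  have hb : Function.Bijective (f.subgroupMap (Q : Subgroup K)) :=
    (Nat.bijective_iff_surjective_and_card _).mpr ⟨hs, by
      change Nat.card Q = _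
      omega⟩
  have h4 : (Q : Subgroup K).map K.subtype = P' := eq_of_le_of_card_ge hP' (by
    change Nat.card P' ≤ _
    omega)
  exact ⟨(Sylow.equiv P P').trans ((MulEquiv.subgroupCongr h4.symm).trans
    ((equivMapOfInjective _ _ K.subtype_injective).symm.trans ((MulEquiv.ofBijective _ hb).trans
      ((MulEquiv.subgroupCongr hT'.symm).trans (Sylow.equiv T' T)))))⟩

/-- Let p be an odd prime and G a finite group with a Sylow p-subgroup P that is extraspecial of order p³ and exponent p². Then the centre of P is strongly closed in P with respect to G: a G-conjugate of an element of Z(P) that lies in P already lies in Z(P). In particular a nontrivial central element of P is conjugate in G to no noncentral element of P. -/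
theorem result {G : Type*} [Group G] [Finite G]
    {p : ℕ} [Fact p.Prime] (hp : p ≠ 2) (P : Sylow p G) (hE : Cfsg.IsExtraspecial p ↥P)
    (hcard : Nat.card P = p ^ 3) (hexp : Monoid.exponent ↥P = p ^ 2) :
    Cfsg.IsStronglyClosed ((Subgroup.center ↥P).map (P : Subgroup G).subtype) (P : Subgroup G) := by
  open Subgroup Transfer PLocal in
  refine ⟨map_subtype_le _, ?_⟩
  rintro _ ⟨z, hz, rfl⟩ g hy
  by_contra hyZ
  have hp' : p.Prime := Fact.out
  have hZ : Nat.card (center P) = p := hE.2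
  have hzp : ∀ x ∈ center P, x ^ p = 1 := fun x hx => by
    have := pow_card_eq_one' (x := (⟨x, hx⟩ : center P))
    rw [hZ] at this
    exact congrArg Subtype.val this
  have hgen : ∀ x ∈ center P, x ≠ 1 → ∀ w ∈ center P, ∃ k : ℤ, x ^ k = w := fun x hx h1 w hw => by
    have := mem_zpowers_of_prime_card (g := (⟨x, hx⟩ : center P)) (g' := ⟨w, hw⟩) hZ
      (fun h => h1 (congrArg Subtype.val h))
    obtain ⟨k, hk⟩ := this
    exact ⟨k, congrArg Subtype.val hk⟩
  have hcz : ∀ x : P, (z : G) * x = x * z := fun x =>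
    congrArg Subtype.val (mem_center_iff.mp hz x).symm
  set y : G := g * (P : Subgroup G).subtype z * g⁻¹ with hydef
  have hydef' : y = g * z * g⁻¹ := rfl
  have hz1 : z ≠ 1 := by
    rintro rfl
    apply hyZ
    rw [hydef']
    simpa using Subgroup.one_mem _
  have hzG : (z : G) ^ p = 1 := congrArg Subtype.val (hzp z hz)
  have hyp : y ^ p = 1 := by rw [hydef', conj_pow, hzG]; group
  have hyZ' : (⟨y, hy⟩ : P) ∉ center P := fun h => hyZ ⟨_, h, rfl⟩
  -- the element `a`
  obtain ⟨a, ha⟩ := ES.exists_commutator_eq hE hyZ' (inv_mem hz)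
  have ha' : y * a * y⁻¹ * (a : G)⁻¹ = (z : G)⁻¹ := congrArg Subtype.val ha
  -- a Sylow subgroup of `C(y)` containing `z`
  let C := centralizer ({y} : Set G)
  have hzC : (z : G) ∈ C := mem_centralizer_singleton_iff.mpr (hcz ⟨y, hy⟩)
  have hPC : g ⋆ (P : Subgroup G) ≤ C := by
    rintro _ ⟨x, hx, rfl⟩
    refine mem_centralizer_singleton_iff.mpr ?_
    have := hcz ⟨x, hx⟩
    change g * x * g⁻¹ * y = y * (g * x * g⁻¹)
    rw [hydef']
    calc g * x * g⁻¹ * (g * z * g⁻¹) = g * (x * z) * g⁻¹ := by group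
      _ = g * (z * x) * g⁻¹ := by rw [this]
      _ = _ := by group
  have hS : ¬ p ∣ (g ⋆ (P : Subgroup G)).relIndex C := by
    rw [← coe_smul_sylow] at hPC ⊢
    exact sylow_not_dvd_relIndex _ hPC
  have hzz : IsPGroup p (zpowers (z : G)) := IsPGroup.of_card (n := 1) (by
    rw [Nat.card_zpowers, pow_one]
    exact orderOf_eq_prime hzG (fun h => hz1 (Subtype.ext h)))
  obtain ⟨c, hcC, hc⟩ := exists_conj_le_of_not_dvd_relIndex' hS hzz (zpowers_le.mpr hzC)
  have hc1 : g⁻¹ * (c * z * c⁻¹) * g ∈ (P : Subgroup G) :=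
    mem_conj.mp (conj_le_iff.mp hc _ (mem_zpowers _))
  have hcy : c * y = y * c := mem_centralizer_singleton_iff.mp hcC
  set h : G := c⁻¹ * g with hh
  have hhz : h * z * h⁻¹ = y := by
    calc h * z * h⁻¹ = c⁻¹ * (y * c) := by rw [hh, hydef']; group
      _ = y := by rw [← hcy]; group
  let z' : P := ⟨_, hc1⟩
  have hz' : h * z' * h⁻¹ = z := by
    change h * (g⁻¹ * (c * z * c⁻¹) * g) * h⁻¹ = z
    rw [hh]; group
  have hz'Z : z' ∉ center P := fun hm => by
    have h1 : z' ≠ 1 := fun h1 => hz1 (Subtype.ext (by rw [← hz', h1]; simp))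
    obtain ⟨k, hk⟩ := hgen z' hm h1 z hz
    apply hyZ
    refine ⟨z ^ k, zpow_mem hz k, ?_⟩
    have hk' : (z' : G) ^ k = z := congrArg Subtype.val hk
    change (z : G) ^ k = y
    rw [← hhz]
    conv_rhs => rw [← hk']
    rw [← conj_zpow, hz']
  obtain ⟨s, hs⟩ := ES.exists_commutator_eq hE hz'Z (inv_mem hz)
  have hs' : (z' : G) * s * (z' : G)⁻¹ * (s : G)⁻¹ = (z : G)⁻¹ := congrArg Subtype.val hs
  have hsz : (s : G) * z' * (s : G)⁻¹ = z' * z := by
    have h1 := hcz z'
    calc (s : G) * z' * (s : G)⁻¹ = ((z' : G) * s * (z' : G)⁻¹ * (s : G)⁻¹)⁻¹ * z' := by group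
      _ = z * z' := by rw [hs', inv_inv]
      _ = _ := h1
  have hplane : HasNatPlane p ⊤ (closure {(a : G), h * s * h⁻¹}) := by
    refine hasNatPlane_of_pair (u := (z : G)) (w := y) trivial trivial (hcz ⟨y, hy⟩) hzG hyp ?_ ?_ ?_ ?_ ?_
    · intro i j hij
      have hj : p ∣ j := by
        by_contra hj
        apply hyZ'
        have h1 : (⟨y, hy⟩ : P) ^ j ∈ center P := by
          have : (⟨y, hy⟩ : P) ^ j = (z ^ i)⁻¹ :=
            Subtype.ext (eq_inv_of_mul_eq_one_right hij)
          rw [this]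
          exact inv_mem (pow_mem hz i)
        have hy1 : (⟨y, hy⟩ : P) ≠ 1 := fun h => hyZ' (h ▸ one_mem _)
        have ho : orderOf (⟨y, hy⟩ : P) = p := orderOf_eq_prime (Subtype.ext hyp) hy1
        obtain ⟨m, hm⟩ := exists_pow_eq_self_of_coprime (x := (⟨y, hy⟩ : P)) (n := j)
          (by rw [ho]; exact ((hp'.coprime_iff_not_dvd).mpr hj).symm)
        rw [← hm]
        exact pow_mem h1 m
      refine ⟨?_, hj⟩
      obtain ⟨j, rfl⟩ := hj
      rw [pow_mul, hyp, one_pow, mul_one] at hij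
      have ho : orderOf (z : G) = p := orderOf_eq_prime hzG (fun h => hz1 (Subtype.ext h))
      rw [← ho]
      exact orderOf_dvd_of_pow_eq_one hij
    · rw [← hcz a]; group
    · calc (a : G) * y * (a : G)⁻¹ = (y * a * y⁻¹ * (a : G)⁻¹)⁻¹ * y := by group
        _ = _ := by rw [ha', inv_inv]
    · rw [← hhz]
      calc h * s * h⁻¹ * (h * z * h⁻¹) * (h * s * h⁻¹)⁻¹ = h * (s * z * (s : G)⁻¹) * h⁻¹ := by group
        _ = _ := by rw [← hcz s]; group
    · calc h * s * h⁻¹ * z * (h * s * h⁻¹)⁻¹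
          = h * s * h⁻¹ * (h * z' * h⁻¹) * (h * s * h⁻¹)⁻¹ := by rw [hz']
        _ = h * (s * z' * (s : G)⁻¹) * h⁻¹ := by group
        _ = (h * z' * h⁻¹) * (h * z * h⁻¹) := by rw [hsz]; group
        _ = _ := by rw [hz', hhz]
  obtain ⟨T⟩ : Nonempty (Sylow p (qd p)) := inferInstance
  obtain ⟨-, hT, hTe⟩ := S3074.result p hp T
  obtain ⟨e⟩ := sylow_equiv_of_hasSection hplane.hasSection_qd'.of_subgroup P T (by rw [hcard, hT])
  have h3 : p ^ 2 = p := hexp.symm.trans ((Monoid.exponent_eq_of_mulEquiv e).trans hTe)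
  have := hp'.one_lt
  nlinarith

end Cfsg.Agent.S3053
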