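import Cfsg.Statements.S3054
import Cfsg.Agent.Lib.PLocal.Esp3

set_option autoImplicit false
open Cfsg

namespace Cfsg.Agent.S3054

open Subgroup Cfsg.Lib.ES Cfsg.Lib.Esp3 Cfsg.Lib.Transfer

/-- Let p be an odd prime and G a finite group with a Sylow p-subgroup P that is extraspecial of order p³ and exponent p. Suppose P contains three distinct subgroups A of order p² (each is elementary abelian of rank 2) such that every automorphism of A of order p is induced by conjugation by an element of G; equivalently the automorphism group induced on A by its normalizer contains the special linear group of A. Then p ≤ 13. -/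
theorem result {G : Type*} [Group G] [Finite G]
    {p : ℕ} [Fact p.Prime] (hp : p ≠ 2) (P : Sylow p G) (hE : Cfsg.IsExtraspecial p ↥P)
    (hcard : Nat.card P = p ^ 3) (hexp : Monoid.exponent ↥P = p)
    (A : Fin 3 → Subgroup G) (hA : Function.Injective A) (hAP : ∀ i, A i ≤ (P : Subgroup G))
    (hAcard : ∀ i, Nat.card ↥(A i) = p ^ 2)
    (hSL : ∀ i, ∀ φ : MulAut ↥(A i), orderOf φ = p → ∃ g : G, ∀ a : ↥(A i), (φ a : G) = g * (a : G) * g⁻¹) :
    p ≤ 13 := by
  have pp : p.Prime := Fact.out
  obtain ⟨D, -, hZ, hB⟩ := exists_ext_of_isExtraspecial_card (E := (P : Subgroup G)) hE (n := 1) hcard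
  have he : ∀ x : (P : Subgroup G), x ^ p = 1 := fun x =>
    Monoid.exponent_dvd_iff_forall_pow_eq_one.1 hexp.dvd x
  have hc : ∀ i, Nat.card ((A i).subgroupOf P) = p ^ 2 := fun i =>
    (Nat.card_congr (subgroupOfEquivOfLe (hAP i)).toEquiv).trans (hAcard i)
  have hZA : ∀ i, D.Z ≤ (A i).subgroupOf P := fun i => by
    have h1 : IsMulCommutative ((A i).subgroupOf P) := IsPGroup.isMulCommutative_of_card_eq_prime_sq (hc i)
    rw [hZ, ← centralizer_eq_of_card_eq (E := (P : Subgroup G)) hE (n := 1) hcard h1 (hc i)]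
    exact center_le_centralizer _
  have key : ∀ i, ∃ x : (P : Subgroup G), (x : G) ∈ A i ∧ Good D x := fun i => by
    obtain ⟨x, hx, hx'⟩ : ∃ x ∈ (A i).subgroupOf P, x ∉ D.Z := by
      by_contra! e
      have := card_le_of_le (show (A i).subgroupOf P ≤ D.Z from e)
      rw [hc, D.card_Z] at this
      nlinarith [pp.one_lt]
    have h1 : IsMulCommutative (A i) := IsPGroup.isMulCommutative_of_card_eq_prime_sq (hAcard i)
    let _ : CommGroup (A i) := { mul_comm := h1.is_comm.comm }
    have ho : orderOf x = p := orderOf_eq_prime (he x) fun e => hx' (e ▸ one_mem _)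
    obtain ⟨φ, h2, h3, h4⟩ := exists_aut (hAcard i) (x := ⟨x, hx⟩) (z := ⟨D.ι 1, hZA i (D.ι_mem_Z 1)⟩)
      (by rw [← orderOf_coe]; exact (orderOf_coe x).trans ho) fun ⟨k, hk⟩ => by
        have e : x ^ k = D.ι 1 := Subtype.ext (by simpa using congrArg Subtype.val hk)
        have e1 : zpowers x = zpowers (D.ι 1) := (eq_of_le_of_card_ge (zpowers_le.2 (e ▸ zpow_mem_zpowers x k)) (by
          rw [← D.Z_eq_zpowers, D.card_Z, Nat.card_zpowers, ho])).symm
        exact hx' (D.Z_eq_zpowers ▸ e1 ▸ mem_zpowers x)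
    obtain ⟨g, hg⟩ := hSL i φ h2
    exact ⟨x, hx, hx', congrArg Subtype.val (he x), g,
      (hg _).symm.trans (congrArg Subtype.val h4), (hg _).symm.trans (congrArg Subtype.val h3)⟩
  choose x h1 h2 using key
  have h3 : ∀ i, (A i).subgroupOf P = D.pre (Submodule.span _ {D.π (x i)}) := fun i => by
    refine (eq_of_le_of_card_ge ?_ ?_).symm
    · rw [← D.pre_img_of_le (hZA i)]
      exact D.pre_mono ((Submodule.span_singleton_le_iff_mem _ _).2 (D.π_mem_img (h1 i)))
    · rw [D.card_pre_eq_pow, finrank_span_singleton (h2 i).1, hc]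
  by_contra! h7
  refine h7.not_ge (small_of_good D hB (by omega) h2 fun i j e => hA ?_)
  have e' := congrArg Projectivization.submodule e
  simp only [Projectivization.submodule_mk] at e'
  rw [← map_subgroupOf_eq_of_le (hAP i), ← map_subgroupOf_eq_of_le (hAP j), h3, h3, e']

end Cfsg.Agent.S3054
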