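import Cfsg.Statements.S3055
import Cfsg.Agent.Lib.PLocal.Esp3

set_option autoImplicit false
open Cfsg

namespace Cfsg.Agent.S3055

open Subgroup Cfsg.Lib.ES Cfsg.Lib.Esp3 Cfsg.Lib.Transfer

/-- Let p be an odd prime and G a finite group with a Sylow p-subgroup P that is extraspecial of order p³ and exponent p. If all nonidentity elements of P are conjugate in G, then p ≤ 7. -/
theorem result {G : Type*} [Group G] [Finite G]
    {p : ℕ} [Fact p.Prime] (hp : p ≠ 2) (P : Sylow p G) (hE : Cfsg.IsExtraspecial p ↥P)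
    (hcard : Nat.card P = p ^ 3) (hexp : Monoid.exponent ↥P = p)
    (hconj : ∀ x y : ↥P, x ≠ 1 → y ≠ 1 → ∃ g : G, g * (x : G) * g⁻¹ = (y : G)) :
    p ≤ 7 := by
  have pp : p.Prime := Fact.out
  obtain ⟨D, -, hZ, hB⟩ := exists_ext_of_isExtraspecial_card (E := (P : Subgroup G)) hE (n := 1) hcard
  have he : ∀ x : (P : Subgroup G), x ^ p = 1 := fun x =>
    Monoid.exponent_dvd_iff_forall_pow_eq_one.1 hexp.dvd x
  refine small_of_all D hB fun x hx => ⟨hx, congrArg Subtype.val (he x), ?_⟩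
  have hz : D.ι 1 ≠ 1 := fun e => one_ne_zero (D.ι_eq_one_iff.1 e)
  obtain ⟨g, hg⟩ := hconj (D.ι 1) x hz fun e => hx (e ▸ D.π_one)
  set z : G := ((D.ι 1 : P) : G) with hz'
  have zc : ∀ y ∈ (P : Subgroup G), y * z = z * y := fun y hy =>
    congrArg Subtype.val (D.ι_comm 1 ⟨y, hy⟩).symm
  obtain ⟨c, hc, h⟩ := exists_conj_le_of_not_dvd_relIndex (H := centralizer {z})
    (Q := zpowers (g⁻¹ * z * g)) P.2
    (sylow_not_dvd_relIndex P fun y hy => mem_centralizer_singleton_iff.2 (zc y hy))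
    (IsPGroup.of_card (n := 1) (by
      rw [Nat.card_zpowers, ← MulAut.conj_symm_apply, MulEquiv.orderOf_eq, orderOf_coe,
        orderOf_eq_prime (he _) hz, pow_one]))
    (zpowers_le.2 (mem_centralizer_singleton_iff.2 (by
      have := zc _ x.2
      rw [← hg] at this
      calc _ = g⁻¹ * (z * (g * z * g⁻¹)) * g := by group
        _ = _ := by rw [← this]; group)))
  have hc' := mem_centralizer_singleton_iff.1 hc
  have hu : c * (g⁻¹ * z * g) * c⁻¹ ∈ (P : Subgroup G) := h ⟨_, mem_zpowers _, rfl⟩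
  have e1 : g * c⁻¹ * z * (g * c⁻¹)⁻¹ = x := by
    rw [← hg]
    calc _ = g * c⁻¹ * (z * c) * g⁻¹ := by group
      _ = _ := by rw [← hc']; group
  have h1 : D.π ⟨_, hu⟩ ≠ 0 := fun e => by
    obtain ⟨a, ha⟩ := (D.π_eq_zero _).1 e
    rw [← ZMod.natCast_zmod_val a, D.ι_natCast] at ha
    have e2 : D.ι 1 = x ^ a.val := Subtype.ext (by
      have : z ^ a.val = c * (g⁻¹ * z * g) * c⁻¹ := congrArg Subtype.val ha
      rw [SubgroupClass.coe_pow, ← e1, conj_pow, this, ← hz']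
      group)
    have e3 := congrArg D.π e2
    rw [D.π_ι, D.π_pow', ZMod.natCast_zmod_val, eq_comm, smul_eq_zero_iff_left hx] at e3
    rw [e3, ZMod.val_zero, pow_zero] at e2
    exact hz e2
  obtain ⟨y, hy⟩ := exists_conj_eq D hB h1
  have hy' : y * (c * (g⁻¹ * z * g) * c⁻¹) * (y : G)⁻¹ = z * (c * (g⁻¹ * z * g) * c⁻¹) :=
    congrArg Subtype.val hy
  refine ⟨g * c⁻¹ * y * (g * c⁻¹)⁻¹, ?_, ?_⟩
  · rw [← zc _ x.2, ← e1]
    calc _ = g * c⁻¹ * (y * (c * (g⁻¹ * z * g) * c⁻¹) * (y : G)⁻¹) * (g * c⁻¹)⁻¹ := by group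
      _ = _ := by rw [hy']; group
  · rw [← e1]
    calc _ = g * c⁻¹ * (y * z) * (y : G)⁻¹ * (g * c⁻¹)⁻¹ := by group
      _ = _ := by rw [zc _ y.2]; group

end Cfsg.Agent.S3055
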