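import Cfsg.Statements.S3057
import Cfsg.Agent.Lib.Loc.StronglyEmbeddedRank
import Cfsg.Agent.Lib.Core.PSolvable

set_option autoImplicit false
open Cfsg

set_option linter.unusedVariables false
open Cfsg.Lib

namespace Cfsg.Agent.S3057

/-- Let p be a prime and G a finite p-solvable group of order divisible by p, with Sylow p-subgroup P. Then the Sylow p-subgroups of G fail to be chain-connected through nontrivial intersections (equivalently, G has a strongly p-embedded subgroup) if and only if O_p(G) = 1 and P is cyclic or, for p = 2, generalized quaternion. -/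
theorem result {G : Type*} [Group G] [Finite G]
    (p : ℕ) [Fact p.Prime] (hdiv : p ∣ Nat.card G) (hsol : Cfsg.IsPSolvable p G) (P : Sylow p G) :
    ¬ Cfsg.IsSylowChainConnected p G ↔
      Cfsg.pCore p G = ⊥ ∧ (IsCyclic ↥P ∨ (p = 2 ∧ ∃ n : ℕ, Nonempty (↥P ≃* QuaternionGroup (2 ^ n)))) := by
  open Subgroup Transfer in
  rw [Loc.not_isSylowChainConnected_iff]
  constructor
  · rintro ⟨H, hH⟩
    have hO := Loc.spe_pCore_eq_bot hH
    refine ⟨hO, ?_⟩
    have hr : PRankLE p 1 G := by
      by_contra hr
      have h1 := Loc.spe_pPrimeCore_le hH hr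
      have hs := Loc.spe_map hH (QuotientGroup.mk'_surjective (pPrimeCore p G))
        (by rw [QuotientGroup.ker_mk']; exact Core.pPrimeCore_coprime p G)
        (by rw [QuotientGroup.ker_mk', sup_eq_left.mpr h1]; exact hH.2.1)
      have hnt : Nontrivial (G ⧸ pPrimeCore p G) := by
        by_contra h
        exact hs.2.1 (@Subsingleton.elim _ (by
          rw [not_nontrivial_iff_subsingleton] at h; infer_instance) _ _)
      rcases Core.pCore_ne_bot_or_of_isPSolvable (Core.isPSolvable_quotient hsol (pPrimeCore p G))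
        with h | h
      · exact h (Loc.spe_pCore_eq_bot hs)
      · exact h (Core.pPrimeCore_quotient_pPrimeCore p G)
    rcases PGroup.isCyclic_or_quaternion_of_pRankLE_one P.isPGroup'
      (PGroup.pRankLE_subgroup hr (P : Subgroup G)) with h | ⟨h, n, hn⟩
    · exact Or.inl h
    · exact Or.inr ⟨h, n + 1, hn⟩
  · rintro ⟨hO, h⟩
    refine ⟨_, Loc.spe_normalizer_omegaOne hO P (Loc.sylow_ne_bot P hdiv) ?_⟩
    rcases h with h | ⟨-, n, hn⟩
    · exact Or.inl h
    · exact Or.inr ⟨_, hn⟩

end Cfsg.Agent.S3057
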