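import Cfsg.Statements.S3063
import Cfsg.Agent.Lib.Loc.FilteredReplacement
-- import your own Cfsg.Agent.* helpers here

set_option autoImplicit false
open Cfsg

namespace Cfsg.Agent.S3063

/-- A weak replacement Theorem for metabelian p-groups: let S be a finite p-group whose derived subgroup is abelian and A an abelian subgroup of S of largest possible order. Then the normal closure of A in S contains an abelian subgroup B of the same order as A that is normal in S. -/
theorem result {S : Type*} [Group S] [Finite S] {p : ℕ} [Fact p.Prime]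
    (hS : IsPGroup p S) (hmeta : IsMulCommutative ↥(commutator S))
    (A : Subgroup S) (hA : A ∈ Cfsg.maxAbelianSubgroups S) :
    ∃ B ∈ Cfsg.maxAbelianSubgroups S, B.Normal ∧ B ≤ Subgroup.normalClosure (A : Set S) := by
  have := hS.isNilpotent
  obtain ⟨B, ⟨hB, hBA⟩, h⟩ := Cfsg.Lib.Loc.exists_mem_forall_eltComm_le
    {B : Subgroup S | B ∈ maxAbelianSubgroups S ∧ B ≤ Subgroup.normalClosure (A : Set S)}
    ⟨A, hA, Subgroup.le_normalClosure⟩ (fun Z hZ => hZ.1.1)
  refine ⟨B, hB, Cfsg.Lib.Core.normal_of_top_le_normalizer fun x _ => ?_, hBA⟩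
  have : IsMulCommutative (Cfsg.Lib.Loc.eltComm x B) := Cfsg.Lib.Loc.isMulCommutative_of_le
    ((Cfsg.Lib.Loc.eltComm_le_commutator (Subgroup.mem_top x) B).trans
      (Subgroup.commutator_mono le_rfl le_top) : _ ≤ commutator S)
  refine Cfsg.Lib.Loc.mem_normalizer_of_eltComm_le ((h x this ⟨Cfsg.Lib.Loc.eltRepl_mem_maxAbelian x hB,
    (Cfsg.Lib.Loc.eltRepl_le_sup x B).trans (sup_le hBA ?_)⟩).trans
    (Cfsg.Lib.Loc.centralizer_eq_of_mem_maxAbelian hB).le)
  exact Cfsg.Lib.Core.map_conj_le_of_mem_normalizer hBA 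
    (Subgroup.le_normalizer_of_normal (K := ⊤) (Subgroup.mem_top x))

end Cfsg.Agent.S3063
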