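import Cfsg.Statements.S3064
import Cfsg.Agent.Lib.PLocal.Isolated
import Cfsg.Agent.Lib.Frobenius.Theorem

set_option autoImplicit false
open Cfsg

set_option linter.unusedVariables false
open Cfsg.Lib
universe u

namespace Cfsg.Agent.S3064

open Subgroup Transfer PLocal in
theorem aux {p : ℕ} [Fact p.Prime] (G : Type u) [Group G] [Finite G] :
    ∀ x : G, (∃ k : ℕ, orderOf x = p ^ k) → IsIsolated x →
      (∀ H : Subgroup G, (Nat.card H).Coprime p → x ∈ normalizer (H : Set G) →
        H ≤ centralizer ({x} : Set G)) → x ∈ center G := by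
  refine Core.induction_on_card (P := fun G _ _ => ∀ x : G, (∃ k : ℕ, orderOf x = p ^ k) →
    IsIsolated x → (∀ H : Subgroup G, (Nat.card H).Coprime p → x ∈ normalizer (H : Set G) →
        H ≤ centralizer ({x} : Set G)) → x ∈ center G) G ?_
  intro G _ _ ih x hx hiso hb
  have hp1 : p.Prime := Fact.out
  have hxp := isPGroup_zpowers_of_orderOf hx
  by_contra hxZ
  have hsub : ∀ H : Subgroup G, x ∈ H → H ≠ ⊤ → H ≤ centralizer ({x} : Set G) := by
    intro H hxH hH g hg
    have := ih H (Core.card_lt_of_ne_top hH) ⟨x, hxH⟩
      (by obtain ⟨k, hk⟩ := hx; exact ⟨k, by rw [← hk, Subgroup.orderOf_mk]⟩)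
      (isolated_subgroup hiso hxH) (by
        intro K hK hxK y hy
        have h1 : x ∈ normalizer ((K.map H.subtype : Subgroup G) : Set G) :=
          le_normalizer_map H.subtype ⟨_, hxK, rfl⟩
        have := hb _ (by rwa [Core.card_map_subtype]) h1 ⟨y, hy, rfl⟩
        exact mem_centralizer_singleton_iff.mpr
          (Subtype.ext (mem_centralizer_singleton_iff.mp this)))
    exact mem_centralizer_singleton_iff.mpr (congrArg Subtype.val (mem_center_iff.mp this ⟨g, hg⟩))
  have hZ : center G = ⊥ := by
    by_contra hZ
    obtain ⟨M, hM, hMZ⟩ := Core.exists_isMinNormal_le (N := center G) inferInstance hZ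
    have := hM.normal
    have hq := hM.card_prime_of_le_center hMZ
    have h1 := ih (G ⧸ M) (Core.card_quotient_lt hM.ne_bot) (QuotientGroup.mk' M x)
      (exists_orderOf_map hp1 hx _) (isolated_map hx hiso _ (QuotientGroup.mk'_surjective M)) (by
        intro K hK hxK y hy
        obtain ⟨y, rfl⟩ := QuotientGroup.mk'_surjective M y
        let L : Subgroup G := K.comap (QuotientGroup.mk' M)
        have hxL : x ∈ normalizer (L : Set G) := le_normalizer_comap _ hxK
        have hML : M ≤ L := Core.le_comap_mk'' M K
        suffices h : L ≤ centralizer ({x} : Set G) from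
          mem_centralizer_singleton_iff.mpr (congrArg (QuotientGroup.mk' M)
            (mem_centralizer_singleton_iff.mp (h hy)))
        by_cases hqp : Nat.card M = p
        · have hMp : IsPGroup p M := IsPGroup.of_card (n := 1) (by simpa using hqp)
          have hidx : M.relIndex L = Nat.card K := by
            rw [← Core.card_map_mk'_eq_relIndex, Core.map_comap_mk']
          obtain ⟨B, hBL, -, hMB, hB⟩ := Coprime.exists_complement hML
            (by rw [normalizer_eq_top]; exact le_top) (by rw [hidx, hqp]; exact hK.symm)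
          have hBO : B ≤ (pPrimeCore p L).map L.subtype := by
            refine Core.le_pPrimeCoreOf hBL ?_ (by rw [hB, hidx]; exact hK)
            rw [← hMB]
            exact sup_le (hMZ.trans ((center_le_centralizer _).trans (centralizer_le_normalizer _)))
              le_normalizer
          rw [← hMB]
          exact sup_le (hMZ.trans (center_le_centralizer _)) (hBO.trans (hb _
            (Core.pPrimeCoreOf_coprime p L) (Core.normalizer_le_normalizer_pPrimeCoreOf p L hxL)))
        · refine hb L (Core.coprime_comap _ hK ?_) hxL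
          rw [QuotientGroup.ker_mk']
          exact (Nat.coprime_primes hq hp1).mpr hqp)
    have h2 : ∀ g : G, g * x * g⁻¹ * x⁻¹ ∈ M := by
      intro g
      rw [← QuotientGroup.eq_one_iff]
      have := mem_center_iff.mp h1 (QuotientGroup.mk' M g)
      simp only [QuotientGroup.mk'_apply] at this
      simp only [QuotientGroup.mk_mul, QuotientGroup.mk_inv, this]
      simp
    refine hxZ (mem_center_iff.mpr fun g => mul_inv_eq_iff_eq_mul.mp (hiso g ?_))
    have h3 := mem_center_iff.mp (hMZ (h2 g)) x
    have : g * x * g⁻¹ = (g * x * g⁻¹ * x⁻¹) * x := by group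
    rw [this]
    exact Commute.mul_right h3 (Commute.refl x)
  have hx1 : x ≠ 1 := fun h => hxZ (h ▸ one_mem _)
  have hxC : x ∈ centralizer ({x} : Set G) := mem_centralizer_singleton_iff.mpr rfl
  have hF : IsFrobeniusComplement (centralizer ({x} : Set G)) := by
    rw [Frobenius.isFrobeniusComplement_iff]
    refine ⟨fun h => hx1 (by rwa [h, mem_bot] at hxC), fun h => hxZ (mem_center_iff.mpr fun g =>
      mem_centralizer_singleton_iff.mp (h ▸ mem_top g)), fun g hg y hy hy' => ?_⟩
    by_contra hy1
    have h1 : centralizer ({g * y * g⁻¹} : Set G) ≠ ⊤ := by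
      intro h
      have : g * y * g⁻¹ ∈ center G :=
        mem_center_iff.mpr fun z => mem_centralizer_singleton_iff.mp (h ▸ mem_top z)
      rw [hZ, mem_bot] at this
      exact hy1 (by simpa using this)
    have h2 := hsub _ (mem_centralizer_singleton_iff.mpr
      (mem_centralizer_singleton_iff.mp hy').symm) h1
    have h3 : g * x * g⁻¹ ∈ centralizer ({g * y * g⁻¹} : Set G) := by
      refine mem_centralizer_singleton_iff.mpr ?_
      have := mem_centralizer_singleton_iff.mp hy
      calc g * x * g⁻¹ * (g * y * g⁻¹) = g * (x * y) * g⁻¹ := by group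
        _ = g * y * g⁻¹ * (g * x * g⁻¹) := by rw [← this]; group
    exact hg (mem_centralizer_of_conj_eq
      (hiso g (mem_centralizer_singleton_iff.mp (h2 h3)).symm))
  obtain ⟨K, hKn, -, hK0, -, hfpf⟩ := Frobenius.exists_kernel hF
  have hc := Frobenius.coprime_card_of_fpf (by rw [normalizer_eq_top]; exact le_top) hfpf
  have hpd : p ∣ Nat.card (centralizer ({x} : Set G)) := by
    obtain ⟨k, hk⟩ := hx
    refine dvd_trans ?_ ((centralizer ({x} : Set G)).orderOf_dvd_natCard hxC)
    rw [hk]
    refine dvd_pow_self p ?_
    rintro rfl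
    exact hx1 (orderOf_eq_one_iff.mp (by simpa using hk))
  have := hb K (Nat.Coprime.coprime_dvd_left hpd hc).symm (by rw [normalizer_eq_top]; trivial)
  exact hK0 (by rw [← hfpf x hxC hx1, inf_eq_left.mpr this])

/-- Let S be a Sylow p-subgroup of the finite group G and x an element of S such that (i) x is the only G-conjugate of x lying in S, and (ii) x centralizes every subgroup of order prime to p that it normalizes. Then x lies in the centre of G. -/
theorem result {G : Type*} [Group G] [Finite G] {p : ℕ} [Fact p.Prime]
    (S : Sylow p G) (x : G) (hx : x ∈ S)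
    (hU : ∀ g : G, g⁻¹ * x * g ∈ S → g⁻¹ * x * g = x)
    (hb : ∀ H : Subgroup G, (Nat.card H).Coprime p → (∀ h ∈ H, x * h * x⁻¹ ∈ H) → ∀ h ∈ H, x * h = h * x) :
    x ∈ Subgroup.center G := by
  open Subgroup Transfer PLocal in
  refine aux G x (exists_orderOf_of_mem S.isPGroup' hx) (isolated_of_sylow S hx fun g hg => ?_) ?_
  · simpa using hU g⁻¹ (by rw [inv_inv]; exact hg)
  · intro H hH hxH h hh
    exact mem_centralizer_singleton_iff.mpr
      (hb H hH (fun _ hk => Coprime.conj_mem_of_mem_normalizer hxH hk) h hh).symm

end Cfsg.Agent.S3064
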