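import Cfsg.Statements.S3067
import Cfsg.Agent.Lib.BG.Hall
import Cfsg.Agent.Lib.PGroup.Holomorph
import Cfsg.Agent.Lib.Coprime.Nilpotent
import Cfsg.Agent.S0215

set_option autoImplicit false
open Cfsg

namespace Cfsg.Agent.S3067

open Subgroup Cfsg.Lib Cfsg.Lib.BG Cfsg.Lib.Transfer Cfsg.Lib.PGroup

theorem amb {G : Type*} [Group G] [Finite G] {X A : Subgroup G} (hA : A ≤ 𝐍(X))
    (hc : (Nat.card A).Coprime (Nat.card X)) (hs : Group.IsSolvable A) {t : G} (ht : t ∈ X) (h2 : orderOf t = 2)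
    (hC : X ⊓ 𝐂[t] ≤ 𝐂(A)) :
    (∃ S, Syl 2 S X ∧ t ∈ S ∧ S ≤ 𝐂(A)) ∧ (∀ g ∈ X, g * t * g⁻¹ ∈ 𝐂(A) → g ∈ 𝐂(A)) ∧
      ∀ u ∈ X, ∀ v ∈ X, u * u = 1 → v * v = 1 → u * v ∈ 𝐂(A) → ∃ n ∈ X, n * u * n⁻¹ ∈ 𝐂(A) ∧ n * v * n⁻¹ ∈ 𝐂(A) := by
  have inv : ∀ u : G, u * u = 1 → IsPGroup 2 (zpowers u) := fun u hu y => ⟨1, Subtype.ext (orderOf_dvd_iff_pow_eq_one.1
    ((orderOf_dvd_of_mem_zpowers y.2).trans (orderOf_dvd_of_pow_eq_one (by rwa [pow_one, sq]))))⟩
  have h0 := inv t (by rw [← sq, ← h2, pow_orderOf_eq_one])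
  have h1 : zpowers t ≤ 𝐂(A) := zpowers_le_of_mem (hC ⟨ht, self_mem_cent1 t⟩)
  obtain ⟨S, hS, htS, hAS⟩ := Syl.exists_inv_ge hA hc (.inl hs) h0 (zpowers_le_of_mem ht) (norm_of_cent (cent_symm h1))
  have h3 : S ≤ 𝐂(A) := cent_symm (Coprime.p_times_q h0 (hc.coprime_dvd_right (h2 ▸ orderOf_dvd_natCard _ ht))
    hS.pgroup h1 (le_norm_of_le htS) hAS (by rw [cent_zpowers]; exact (inf_le_inf_right _ hS.le).trans hC))
  refine ⟨⟨S, hS, htS (mem_zpowers t), h3⟩, fun g hg h => ?_, fun u hu v hv u2 v2 h => ?_⟩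
  · obtain ⟨c, hc, m, hm, rfl⟩ := Coprime.exists_centralizer_mul_of_conj_mem (S := 𝐂[t]) hA hc (.inl hs)
      (by rw [← cent_zpowers]; exact cent_symm h1) hg fun b hb => mem_cent1.2 (by
        calc g⁻¹ * b * g * t = g⁻¹ * (b * (g * t * g⁻¹)) * g := by group
          _ = t * (g⁻¹ * b * g) := by rw [mem_cent.1 h b hb]; group)
    exact mul_mem hc.2 (hC hm)
  · have h4 : zpowers (u * v) ≤ 𝐂(A) := zpowers_le_of_mem h
    have h5 : A ≤ 𝐍(X ⊓ 𝐍(zpowers (u * v))) := norm_inf hA (norm_norm (norm_of_cent (cent_symm h4)))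
    obtain ⟨T, hT, hAT⟩ := Syl.exists_inv (p := 2) h5 (coprime_mono hc le_rfl inf_le_left) (.inl hs)
    obtain ⟨S', hS', hTS, hAS'⟩ := Syl.exists_inv_ge hA hc (.inl hs) hT.pgroup (hT.le.trans inf_le_left) hAT
    obtain ⟨c, hc, rfl⟩ := hS.inv_trans hS' hA hc (.inl hs) hAS (hAS')
    obtain ⟨n, hn, h6⟩ := hT.exists_conj_le (inv u u2) (zpowers_le_of_mem (mem_inf.2 ⟨hu, norm_of_conj_eq (by
      rw [conj_zpowers, ← mul_assoc, u2, one_mul, ← zpowers_inv (g := u * v), mul_inv_rev,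
        inv_eq_of_mul_eq_one_left v2])⟩))
    have h7 : n * u * n⁻¹ ∈ 𝐂(A) := conj_le_of_mem h3 hc.2 (hTS (h6 (conj_mem_conj.2 (mem_zpowers u))))
    refine ⟨n, hn.1, h7, ?_⟩
    have := mul_mem (inv_mem h7) (h4 (conj_mem_of_norm hn.2 (mem_zpowers _)))
    convert this using 1
    group


/-- Let G be a finite non-abelian simple group, τ an involution of G, and α a nontrivial automorphism of G whose order is coprime to the order of G. Then α moves some element of the centralizer of τ: α does not fix C_G(τ) elementwise. -/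
theorem result {G : Type*} [Group G] [Finite G] [IsSimpleGroup G]
    (hG : ¬ IsMulCommutative G) (τ : G) (hτ : orderOf τ = 2) (α : MulAut G) (hα : α ≠ 1)
    (hcop : (orderOf α).Coprime (Nat.card G)) :
    ∃ c ∈ Subgroup.centralizer ({τ} : Set G), α c ≠ c := by
  by_contra! h
  obtain ⟨⟨S, hS, h1, h2⟩, h3, h4⟩ := amb (map_holR_le_normalizer_top (zpowers α))
    (by rwa [card_map_holR, card_map_holL, card_top, Nat.card_zpowers]) (Coprime.isSolvable_map _ _ inferInstance)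
    (mem_map_of_mem (holL G) (mem_top τ)) ((orderOf_injective _ holL_injective τ).trans hτ) (by
      rintro _ ⟨⟨g, -, rfl⟩, hg⟩
      exact holL_mem_centralizer_iff.2 fun a ha => apply_eq_of_mem_zpowers ha (h g (mem_cent1.2 (holL_injective
        (by simpa using mem_cent1.1 hg)))))
  set F := 𝐂((zpowers α).map (holR G)).comap (holL G) with hF
  replace h3 : ∀ g : G, g * τ * g⁻¹ ∈ F → g ∈ F := fun g hg =>
    h3 _ (mem_map_of_mem _ (mem_top g)) (by simpa [hF] using hg)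
  have t2 : τ * τ = 1 := by rw [← sq, ← hτ, pow_orderOf_eq_one]
  replace h4 : ∀ g k : G, (g * τ * g⁻¹)⁻¹ * (k * τ * k⁻¹) ∈ F → g⁻¹ * k ∈ F := fun g k hg => by
    have e : ∀ g : G, g * τ * g⁻¹ * (g * τ * g⁻¹) = 1 := fun g => by
      calc _ = g * (τ * τ) * g⁻¹ := by group
        _ = 1 := by rw [t2]; group
    rw [inv_eq_of_mul_eq_one_left (e g)] at hg
    obtain ⟨_, ⟨n, -, rfl⟩, a, b⟩ := h4 _ (mem_map_of_mem (holL G) (mem_top (g * τ * g⁻¹))) _
      (mem_map_of_mem (holL G) (mem_top (k * τ * k⁻¹))) (by rw [← map_mul, e, map_one]) (by rw [← map_mul, e, map_one])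
      (by rw [← map_mul]; exact hg)
    rw [← map_inv, ← map_mul, ← map_mul] at a b
    have e' : ∀ g : G, n * g * τ * (n * g)⁻¹ = n * (g * τ * g⁻¹) * n⁻¹ := fun g => by group
    have := mul_mem (inv_mem (h3 (n * g) (by rw [e']; exact a))) (h3 (n * k) (by rw [e']; exact b))
    convert this using 1
    group
  let ψ : G ⧸ F → G ⧸ F := fun o => ((o.out * τ * o.out⁻¹ : G) : G ⧸ F)
  have h5 : Function.Surjective ψ := Finite.surjective_of_injective fun a b e => by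
    rw [← a.out_eq', ← b.out_eq']; exact QuotientGroup.eq.2 (h4 _ _ (QuotientGroup.eq.1 e))
  have h6 : ∀ g : G, ψ g = ((g * τ * g⁻¹ : G) : G ⧸ F) := fun g => by
    obtain ⟨o, ho⟩ := h5 ((g * τ * g⁻¹ : G) : G ⧸ F)
    rw [← QuotientGroup.eq.2 (h4 _ _ (QuotientGroup.eq.1 ho)), QuotientGroup.out_eq', ho]
  have h7 : F.normalCore = ⊥ := (IsSimpleGroup.eq_bot_or_eq_top_of_normal _ inferInstance).resolve_right fun e =>
    hα (MulEquiv.ext fun g => holL_mem_centralizer_iff.1 (F.normalCore_le (e.ge (mem_top g))) α (mem_zpowers α))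
  have h8 : ∀ f ∈ F, f * τ * f⁻¹ = τ := fun f hf => by
    have : τ⁻¹ * (f * τ * f⁻¹) ∈ F.normalCore := fun g => by
      have := QuotientGroup.eq.1 ((h6 g).symm.trans ((congrArg ψ (QuotientGroup.eq.2
        (show g⁻¹ * (g * f) ∈ F by simpa using hf))).trans (h6 _)))
      convert this using 1
      group
    rw [h7, mem_bot, inv_mul_eq_one] at this
    exact this.symm
  obtain ⟨S, rfl⟩ : ∃ K : Subgroup G, K.map (holL G) = S := ⟨_, map_comap_eq_self (hS.le.trans (map_le_range _ _))⟩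
  obtain ⟨S, rfl⟩ := Syl.top_iff_sylow.1 ((Hall.map_iff holL_injective).1 hS)
  obtain ⟨N, h9, h10, h11⟩ := S0215.result S τ hτ ((mem_map_iff_mem holL_injective).1 h1) fun g hg =>
    h8 g (h3 g (h2 (mem_map_of_mem _ hg)))
  rcases h9.eq_bot_or_eq_top with rfl | rfl
  · have : center G = ⊤ := (IsSimpleGroup.eq_bot_or_eq_top_of_normal _ inferInstance).resolve_left
      (ne_bot_of_mem (x := τ) (mem_center_iff.2 fun g => by
        have := mem_bot.1 (h11 g)
        rw [mul_inv_eq_one, mul_inv_eq_iff_eq_mul] at this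
        exact this.symm) fun e => by simp [e] at hτ)
    exact hG ⟨⟨fun a b => mem_center_iff.1 (this.ge (mem_top b)) a⟩⟩
  · exact absurd (h10.of_dvd_nat (hτ ▸ orderOf_dvd_natCard _ (mem_top τ))) (by decide)

end Cfsg.Agent.S3067
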