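import Cfsg.Statements.S3068
import Cfsg.Agent.Lib.PLocal.JTr2
import Cfsg.Agent.Lib.PLocal.KInfCor
import Cfsg.Agent.Lib.Transfer.Tate

set_option autoImplicit false
open Cfsg

namespace Cfsg.Agent.S3068

/-- Let p ≥ 7 be a prime, S a Sylow p-subgroup of the finite group G, J(S) the subgroup generated by the abelian subgroups of S of largest order and M = N_G(J(S)). Then G/O^p(G) ≅ M/O^p(M): the largest p-factor group of G is that of M (here O^p(X) is the subgroup generated by the elements of X of order prime to p). -/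
theorem result {G : Type*} [Group G] [Finite G] {p : ℕ} [Fact p.Prime]
    (hp : 7 ≤ p) (S : Sylow p G)
    [hn : (Cfsg.pResidual p G).Normal]
    [hm : (Cfsg.pResidual p ↥(Subgroup.normalizer (Cfsg.thompsonSubgroupAOf (S : Subgroup G) : Set G))).Normal] :
    Nonempty (G ⧸ Cfsg.pResidual p G ≃*
      ↥(Subgroup.normalizer (Cfsg.thompsonSubgroupAOf (S : Subgroup G) : Set G)) ⧸
        Cfsg.pResidual p ↥(Subgroup.normalizer (Cfsg.thompsonSubgroupAOf (S : Subgroup G) : Set G))) := by
----
  open Subgroup Cfsg.Lib Cfsg.Lib.Transfer Cfsg.Lib.PLocal in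
  have hW : IsCharPFunctor p (fun Q _ => thompsonSubgroupA Q) := ⟨fun Q _ _ hQ _ => by
      simp only [thompsonSubgroupA_eq, ← thompsonSubgroupOf_top]
      exact thompsonSubgroupOf_ne_bot (Or.inl rfl) (hQ.to_subgroup _) top_ne_bot,
    fun Q R _ _ _ _ e => by simp only [thompsonSubgroupA_eq, map_thompsonSubgroup_equiv]⟩
  have h1 := inf_commutator_eq_of_family hW (familyControlsTransferIn_of_engel (G := G) hW
    fun X _ _ _ _ T hT => by
      have hPT := Core.pCore_le_sylow T
      obtain ⟨g, h1, h2, h3⟩ := JTr.exists_degree_six (p := p) (by omega) T.2 hPT fun e => hT (by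
        change (thompsonSubgroupAOf (T : Subgroup X)).Normal
        rw [thompsonSubgroupAOf_eq, ← thompsonSubgroupOf_eq_of_le e hPT]
        infer_instance)
      exact ⟨g, h1, h2, fun U V k hU => iterCommutator_le_of_le
        (le_normalizer_of_normal' k.2.2.1) (h3 U V k hU) (by omega)⟩) S
  change _ = _ ⊓ ⁅normalizer (thompsonSubgroupAOf (S : Subgroup G) : Set G),
    normalizer (thompsonSubgroupAOf (S : Subgroup G) : Set G)⁆ at h1
  have hSM : (S : Subgroup G) ≤ normalizer (thompsonSubgroupAOf (S : Subgroup G) : Set G) := by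
    rw [thompsonSubgroupAOf_eq]
    exact le_normalizer.trans (normalizer_le_normalizer_thompsonSubgroupOf _)
  generalize normalizer (thompsonSubgroupAOf (S : Subgroup G) : Set G) = M at *
  have h2 := pResidual_inf_eq_of_commutator_inf_le S hSM (by rw [inf_comm, h1]; exact inf_le_right)
  let f : M →* G ⧸ pResidual p G := (QuotientGroup.mk' _).comp M.subtype
  have hf : Function.Surjective f := by
    rw [← MonoidHom.range_eq_top, MonoidHom.range_comp, range_subtype, eq_top_iff,
      ← map_top_of_surjective _ (QuotientGroup.mk'_surjective (pResidual p G)),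
      ← pResidual_sup_sylow S, Subgroup.map_sup]
    exact sup_le (by rw [(Core.map_mk'_eq_bot_iff _ _).2 le_rfl]; exact bot_le) (map_mono hSM)
  have hk : f.ker = pResidual p M := by
    rw [← MonoidHom.comap_ker, QuotientGroup.ker_mk',
      ← map_subtype_inj, ← h2]
    exact subgroupOf_map_subtype _ _
  exact ⟨((QuotientGroup.quotientKerEquivOfSurjective f hf).symm.trans
    (QuotientGroup.quotientMulEquivOfEq hk))⟩

end Cfsg.Agent.S3068
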