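import Cfsg.Statements.S3070
import Cfsg.Agent.Lib.PLocal.JNorm
import Cfsg.Agent.S2007

set_option autoImplicit false
open Cfsg

namespace Cfsg.Agent.S3070

/-- Let p ≥ 5 be a prime, S a Sylow p-subgroup of the finite group G and J(S) the subgroup generated by the abelian subgroups of S of largest order. Then G has a normal p-complement if and only if N_G(J(S))/C_G(J(S)) is a p-group (every element of N_G(J(S)) of order prime to p centralizes J(S)). -/
theorem result {G : Type*} [Group G] [Finite G] {p : ℕ} [Fact p.Prime]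
    (hp : 5 ≤ p) (S : Sylow p G) :
    Cfsg.HasNormalPComplement p G ↔
      ∀ g ∈ Subgroup.normalizer (Cfsg.thompsonSubgroupAOf (S : Subgroup G) : Set G), (orderOf g).Coprime p →
        g ∈ Subgroup.centralizer (Cfsg.thompsonSubgroupAOf (S : Subgroup G) : Set G) := by
  open Subgroup Cfsg.Lib Cfsg.Lib.Transfer Cfsg.Lib.PLocal in
  have hJ : thompsonSubgroupAOf (S : Subgroup G) ≤ S := map_subtype_le _
  refine ⟨fun h g hg hc => mem_centralizer_of_hasNormalPComplement h (S.2.to_le hJ) hg hc, fun h => ?_⟩
  refine hasNormalPComplement_of_sections (W := fun Q _ => thompsonSubgroupA Q) ⟨fun Q _ _ hQ _ => ?_,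
    fun Q R _ _ _ _ e => ?_⟩ (fun X _ _ _ hc hq T hT => ?_) G hasSection_refl S
    (Cfsg.Agent.S2007.result S (thompsonSubgroupAOf (S : Subgroup G)) hJ ?_ ?_ h)
  · simp only [thompsonSubgroupA_eq, ← thompsonSubgroupOf_top]
    exact thompsonSubgroupOf_ne_bot (Or.inl rfl) (hQ.to_subgroup _) top_ne_bot
  · simp only [thompsonSubgroupA_eq, map_thompsonSubgroup_equiv]
  · change (thompsonSubgroupAOf (T : Subgroup X)).Normal
    rw [thompsonSubgroupAOf_eq]
    exact normal_thompsonSubgroupOf_zero hp (Core.isPSolvable_of_normal_quotient (pCore p X)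
      (Core.isPSolvable_of_isPGroup (Core.pCore_isPGroup p X)) (isPSolvable_of_hasNormalPComplement hq))
      (fun q _ hqp => isMulCommutative_sylow_of_isCoatom hqp hq hT) hc T
  · rw [thompsonSubgroupAOf_eq]
    exact le_normalizer.trans (normalizer_le_normalizer_thompsonSubgroupOf _)
  · rw [thompsonSubgroupAOf_eq]
    obtain ⟨A, hA⟩ := exists_mem_maxIn 0 (S : Subgroup G)
    exact (inf_le_inf_left _ (centralizer_le (le_thompsonSubgroupOf hA))).trans
      ((inf_centralizer_eq_of_mem_maxIn_zero hA).le.trans (le_thompsonSubgroupOf hA))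

end Cfsg.Agent.S3070
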