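import Cfsg.Statements.S3071
import Cfsg.Agent.Lib.PLocal.Control
import Cfsg.Agent.Lib.PLocal.StableSL2

set_option autoImplicit false
open Cfsg

set_option linter.unusedVariables false
open Cfsg.Lib

namespace Cfsg.Agent.S3071

open Subgroup Cfsg.Lib.Transfer in
theorem aux {G : Type*} [Group G] [Finite G] {p : ℕ} [Fact p.Prime]
    (hp : p ≠ 2) (S : Sylow p G)
    (hfree : ∀ P : Subgroup G, (S : Subgroup G) ⊓ Subgroup.centralizer ((S : Subgroup G) : Set G) ≤ P → P ≤ S →
      ¬ PLocal.HasSection (Matrix.SpecialLinearGroup (Fin 2) (ZMod p)) (normalizer (P : Set G))) :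
    PLocal.Controls (normalizer (Cfsg.centerThompsonOf 0 (S : Subgroup G) : Set G)) S ⊤ := by
  have hW := PLocal.subFunctor_centerThompsonOf (p := p) (e := 0) (Or.inl rfl)
  refine PLocal.controls_of_local S (Cfsg.centerThompsonOf 0)
    (fun U => ¬ PLocal.HasSection (Matrix.SpecialLinearGroup (Fin 2) (ZMod p)) (normalizer (U : Set G)))
    (fun T hT => (PLocal.centerThompsonOf_le T).trans hT)
    (fun T _ => inf_le_right.trans (PLocal.normalizer_le_normalizer_centerThompsonOf T))
    (PLocal.normalizer_le_normalizer_centerThompsonOf _) ?_ ?_ ?_ ?_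
  · intro U g h h'
    apply h
    rw [← conj_normalizer] at h'
    exact h'.of_map
  · intro T hT _ hc
    exact hfree T ((inf_le_inf_left _ (centralizer_le (SetLike.coe_subset_coe.mpr hT))).trans hc) hT
  · intro U hU _
    refine hfree _ (le_trans ?_ (PLocal.center_le_centerThompsonOf_zero _))
      ((PLocal.centerThompsonOf_le _).trans inf_le_left)
    refine le_inf (inf_le_inf_left _ ((centralizer_le (SetLike.coe_subset_coe.mpr hU)).trans
      (centralizer_le_normalizer _))) (inf_le_right.trans (centralizer_le (SetLike.coe_subset_coe.mpr inf_le_left)))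
  · intro U hU hΦ hi
    have hst := PLocal.secStable_of_sl_two_free hp hΦ
    have := hW.controls_of_subgroup (PLocal.isStronglyClosed_self (S : Subgroup G)) inf_le_left inf_le_right
      (S.isPGroup'.to_le inf_le_left) hi (fun Q E hE => PLocal.controls_of_secStable hW
        (PLocal.zjLike_centerThompsonOf hp (Or.inl rfl)) hst Q hE)
    rw [inf_eq_right.mpr inf_le_left] at this
    exact this.mono inf_le_right le_rfl

/-- Let p be an odd prime and S a Sylow p-subgroup of the finite group G such that, for every subgroup P with Z(S) ≤ P ≤ S, the normalizer N_G(P) has no section isomorphic to SL₂(p). Let J(S) be the subgroup generated by the abelian subgroups of S of largest order. Then two elements of S are conjugate in G if and only if they are conjugate in N_G(Z(J(S))). -/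
theorem result {G : Type*} [Group G] [Finite G] {p : ℕ} [Fact p.Prime]
    (hp : p ≠ 2) (S : Sylow p G)
    (hfree : ∀ P : Subgroup G, (S : Subgroup G) ⊓ Subgroup.centralizer ((S : Subgroup G) : Set G) ≤ P → P ≤ S →
      ¬ ∃ (H K : Subgroup G) (hK : (K.subgroupOf H).Normal), H ≤ Subgroup.normalizer (P : Set G) ∧
        Nonempty ((H ⧸ K.subgroupOf H) ≃* Matrix.SpecialLinearGroup (Fin 2) (ZMod p))) :
    ∀ x ∈ S, ∀ y ∈ S, (∃ g : G, g * x * g⁻¹ = y) ↔
      ∃ n ∈ Subgroup.normalizer (Cfsg.centerThompsonAOf (S : Subgroup G) : Set G), n * x * n⁻¹ = y := by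
  intro x hx y hy
  rw [PLocal.centerThompsonAOf_eq]
  refine ⟨?_, fun ⟨n, _, h⟩ => ⟨n, h⟩⟩
  rintro ⟨g, rfl⟩
  exact (aux hp S (fun P h1 h2 h => hfree P h1 h2 h.exists_le)).elt hx (Subgroup.mem_top g) hy

end Cfsg.Agent.S3071
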