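import Cfsg.Statements.S3073
import Cfsg.Agent.Lib.PLocal.KInfCor
import Cfsg.Agent.S2007
import Cfsg.Agent.Lib.Transfer.Criteria

set_option autoImplicit false
universe u
open Cfsg

set_option linter.unusedVariables false
open Cfsg.Lib

namespace Cfsg.Agent.S3073

/-- For an odd prime p, every finite p-group S has a characteristic subgroup K with C_S(K) ≤ K such that, whenever S is (isomorphic to) a Sylow p-subgroup of a finite group G, G has a normal p-complement if and only if N_G(K)/C_G(K) is a p-group, i.e. every element of N_G(K) of order prime to p centralizes K (K transported into G along the isomorphism). -/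
theorem result (p : ℕ) [Fact p.Prime] (hp : p ≠ 2)
    (S : Type u) [Group S] [Finite S] (hS : IsPGroup p S) :
    ∃ K : Subgroup S, K.Characteristic ∧ Subgroup.centralizer (K : Set S) ≤ K ∧
      ∀ (G : Type u) [Group G] [Finite G] (P : Sylow p G) (e : ↥(P : Subgroup G) ≃* S),
        Cfsg.HasNormalPComplement p G ↔
          ∀ g ∈ Subgroup.normalizer (((K.comap (e : ↥(P : Subgroup G) →* S)).map (P : Subgroup G).subtype : Subgroup G) : Set G),
            (orderOf g).Coprime p →
              g ∈ Subgroup.centralizer (((K.comap (e : ↥(P : Subgroup G) →* S)).map (P : Subgroup G).subtype : Subgroup G) : Set G) := by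
  refine ⟨Cfsg.kInfLower S, ?_, ?_, fun G _ _ P e => ?_⟩
  · rw [Subgroup.characteristic_iff_map_eq]
    exact fun φ => (PLocal.isCharPFunctor_kInfLower (p := p)).2 S S hS φ
  · have h1 := PLocal.inf_centralizer_kLowIn_le (hS.to_subgroup ⊤)
    rwa [top_inf_eq, PLocal.kLowIn_top] at h1
  have h0 : ((Cfsg.kInfLower S).comap (e : ↥(P : Subgroup G) →* S)).map (P : Subgroup G).subtype =
      PLocal.kLowIn (P : Subgroup G) := by
    rw [← PLocal.inducedFunctor_kInfLower, ← (PLocal.isCharPFunctor_kInfLower (p := p)).2 _ S P.isPGroup' e]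
    change ((Subgroup.map (e : ↥(P : Subgroup G) →* S) _).comap _).map _ = _
    rw [Subgroup.comap_map_eq_self_of_injective e.injective]
    rfl
  rw [h0]
  constructor
  · intro h g hg hc
    exact Transfer.hasNormalPComplement_subgroup_iff.mp (Transfer.hasNormalPComplement_top_iff.mpr h) _ le_top
      (P.isPGroup'.to_le (PLocal.kLowIn_le _)) g (Subgroup.mem_top g) hg hc
  · intro h
    exact PLocal.hasNormalPComplement_of_kLowIn hp P (Cfsg.Agent.S2007.result P _ (PLocal.kLowIn_le _)
      (Subgroup.le_normalizer.trans (PLocal.normalizer_le_normalizer_kLowIn _))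
      (PLocal.inf_centralizer_kLowIn_le P.isPGroup') h)

end Cfsg.Agent.S3073
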