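import Cfsg.Statements.S3075
import Cfsg.Agent.Lib.PLocal.Stable
import Cfsg.Agent.Lib.PGroup.Metacyclic
import Cfsg.Agent.Lib.Coprime.Gaschutz
import Cfsg.Agent.Lib.PSL2.SL

set_option autoImplicit false
open Cfsg

set_option linter.unusedVariables false
open Cfsg.Lib

namespace Cfsg.Agent.S3075

/-- Let p be an odd prime and N a finite group with a normal elementary abelian subgroup A of order p² that is its own centralizer in N, such that N/A is isomorphic to SL₂(p) (over any field F with p elements). Then N splits over A: some subgroup U of N satisfies A ∩ U = 1 and AU = N. -/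
theorem result {N : Type*} [Group N] [Finite N] {p : ℕ} [Fact p.Prime] (hp : p ≠ 2)
    (A : Subgroup N) [A.Normal] (hAcomm : IsMulCommutative A) (hAcard : Nat.card A = p ^ 2) (hAexp : Monoid.exponent ↥A = p)
    (hAself : Subgroup.centralizer (A : Set N) = A)
    {F : Type*} [Field F] [Fintype F] (hF : Fintype.card F = p) (e : N ⧸ A ≃* Matrix.SpecialLinearGroup (Fin 2) F) :
    ∃ U : Subgroup N, A ⊓ U = ⊥ ∧ A ⊔ U = ⊤ := by
  have hpp : p.Prime := Fact.out
  have hF2 : (2 : F) ≠ 0 := PSL2.two_ne_zero_iff_odd.mpr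
    (by rw [Nat.card_eq_fintype_card, hF]; exact hpp.odd_of_ne_two hp)
  let f : N →* Matrix.SpecialLinearGroup (Fin 2) F := e.toMonoidHom.comp (QuotientGroup.mk' A)
  have hf : Function.Surjective f := e.surjective.comp (QuotientGroup.mk'_surjective A)
  have hk : f.ker = A := by
    ext x
    simp [f, MonoidHom.mem_ker]
  have hZ : IsPGroup 2 (Subgroup.center (Matrix.SpecialLinearGroup (Fin 2) F)) :=
    IsPGroup.of_card (n := 1) (PSL2.card_center_SL2 hF2)
  obtain ⟨T, hT, hTf, -⟩ := PLocal.exists_isPGroup_map_eq hf hZ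
  have hcop : (Nat.card T).Coprime (Nat.card A) := by
    obtain ⟨k, hk⟩ := hT.exists_card_eq
    rw [hk, hAcard]
    exact Nat.Coprime.pow _ _ ((Nat.coprime_primes Nat.prime_two hpp).mpr hp.symm)
  have htop : A ⊔ Subgroup.centralizer (T : Set N) = ⊤ := by
    have h1 := Coprime.centralizer_map_of_surjective f hf (A := T) (hk ▸ hcop)
      (Or.inl (by have := hT.isNilpotent; infer_instance))
    rw [hTf, Subgroup.centralizer_eq_top_iff_subset.mpr subset_rfl] at h1
    rw [sup_comm, ← hk, ← Subgroup.comap_map_eq, ← h1, Subgroup.comap_top]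
  refine ⟨Subgroup.centralizer (T : Set N), ?_, htop⟩
  by_contra h0
  have hTA : T ≤ Subgroup.normalizer (A : Set N) := Subgroup.le_normalizer_of_normal
  have hs := Coprime.commutator_sup_centralizer hTA hcop
    (Or.inl (by have := hT.isNilpotent; infer_instance))
  have hi := Coprime.centralizer_inf_commutator_eq_bot hAcomm hTA hcop
  have hle : ⁅A, T⁆ ≤ A := Subgroup.commutator_le_left _ _
  have hn : ∀ B ≤ A, Subgroup.centralizer (T : Set N) ≤ Subgroup.normalizer (B : Set N) →
      (⊤ : Subgroup N) ≤ Subgroup.normalizer (B : Set N) := fun B hB h => htop ▸ sup_le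
    (le_trans (hAself.ge.trans (Subgroup.centralizer_le hB)) (Subgroup.centralizer_le_normalizer _)) h
  have hcyc : ∀ B ≤ A, B ≠ A → IsCyclic B := fun B hB h => by
    obtain ⟨i, hi, h1⟩ := (Nat.dvd_prime_pow hpp).mp (hAcard ▸ Subgroup.card_dvd_of_le hB)
    rcases (by omega : i = 0 ∨ i = 1 ∨ i = 2) with rfl | rfl | rfl
    · have := (Nat.card_eq_one_iff_unique.mp h1).1
      infer_instance
    · exact isCyclic_of_prime_card (h1.trans (pow_one p))
    · exact (h (Subgroup.eq_of_le_of_card_ge hB (hAcard.trans h1.symm).le)).elim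
  have h1 : ⁅A, T⁆ ≠ A := fun h => h0 (by rw [← h, inf_comm]; exact hi)
  have h2 : A ⊓ Subgroup.centralizer (T : Set N) ≠ A := fun h => by
    have h3 : T ≤ f.ker := by
      rw [hk, ← hAself]
      exact Subgroup.le_centralizer_iff.mp (inf_eq_left.mp h)
    rw [(Subgroup.map_eq_bot_iff T).mpr h3] at hTf
    have := PSL2.card_center_SL2 hF2
    rw [← hTf] at this
    simp at this
  have h3 := PGroup.commutator_le_centralizer_of_isCyclic (hcyc _ hle h1)
    (R := ⊤) (A := ⊤) (hn _ hle ?_) (hn _ hle ?_)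
  have h4 := PGroup.commutator_le_centralizer_of_isCyclic (hcyc _ inf_le_left h2)
    (R := ⊤) (A := ⊤) (hn _ inf_le_left ?_) (hn _ inf_le_left ?_)
  · have h5 : ⁅(⊤ : Subgroup N), (⊤ : Subgroup N)⁆ ≤ f.ker := by
      rw [hk, ← hAself, Subgroup.le_centralizer_iff, ← hs]
      exact sup_le (Subgroup.le_centralizer_iff.mp h3) (Subgroup.le_centralizer_iff.mp h4)
    obtain ⟨x, hx⟩ := hf (PSL2.upper 1)
    obtain ⟨y, hy⟩ := hf ⟨!![1, 0; 1, 1], by simp [Matrix.det_fin_two]⟩
    have h6 := h5 (Subgroup.commutator_mem_commutator (Subgroup.mem_top x) (Subgroup.mem_top y))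
    rw [MonoidHom.mem_ker, map_commutatorElement, commutatorElement_eq_one_iff_mul_comm, hx,
      hy] at h6
    have h7 : (!![1, 1; 0, 1] * !![1, 0; 1, 1] : Matrix (Fin 2) (Fin 2) F) 0 0 =
        (!![1, 0; 1, 1] * !![1, 1; 0, 1] : Matrix (Fin 2) (Fin 2) F) 0 0 :=
      congrFun (congrFun (congrArg Subtype.val h6) 0) 0
    simp at h7
  all_goals first
    | exact Coprime.le_normalizer_inf Subgroup.le_normalizer_of_normal Subgroup.le_normalizer
    | exact Coprime.le_normalizer_commutator Subgroup.le_normalizer_of_normal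
        (Subgroup.centralizer_le_normalizer _)

end Cfsg.Agent.S3075
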