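import Cfsg.Statements.S3076
import Cfsg.Agent.Lib.PLocal.Essential

set_option autoImplicit false
open Cfsg

set_option linter.unusedVariables false
open Cfsg.Lib

namespace Cfsg.Agent.S3076

/-- Let P be a Sylow p-subgroup of the finite group G and H ≤ P a subgroup with N_P(H) a Sylow p-subgroup of N_G(H). Let N be the preimage in N_G(H) of O_p(N_G(H)/C_G(H)). Then H is a Sylow p-subgroup of N if and only if C_P(H) ≤ H and O_{p',p}(N_G(H)) = H·C_G(H). -/
theorem result {G : Type*} [Group G] [Finite G] {p : ℕ} [Fact p.Prime]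
    (P : Sylow p G) (H : Subgroup G) (hHP : H ≤ (P : Subgroup G))
    (hSyl : ¬ p ∣ ((P : Subgroup G) ⊓ Subgroup.normalizer (H : Set G)).relIndex (Subgroup.normalizer (H : Set G)))
    [hC : ((Subgroup.centralizer (H : Set G)).subgroupOf (Subgroup.normalizer (H : Set G))).Normal] :
    (H ≤ ((Cfsg.pCore p (↥(Subgroup.normalizer (H : Set G)) ⧸
              (Subgroup.centralizer (H : Set G)).subgroupOf (Subgroup.normalizer (H : Set G)))).comap
            (QuotientGroup.mk' _)).map (Subgroup.normalizer (H : Set G)).subtype ∧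
      ¬ p ∣ H.relIndex (((Cfsg.pCore p (↥(Subgroup.normalizer (H : Set G)) ⧸
              (Subgroup.centralizer (H : Set G)).subgroupOf (Subgroup.normalizer (H : Set G)))).comap
            (QuotientGroup.mk' _)).map (Subgroup.normalizer (H : Set G)).subtype)) ↔
    ((P : Subgroup G) ⊓ Subgroup.centralizer (H : Set G) ≤ H ∧
      (Cfsg.pPrimePCore p ↥(Subgroup.normalizer (H : Set G))).map (Subgroup.normalizer (H : Set G)).subtype =
        H ⊔ Subgroup.centralizer (H : Set G)) := by
  open Subgroup Transfer PLocal in
  obtain ⟨T, hT⟩ := exists_sylow_of_not_dvd_relIndex P.isPGroup'.to_inf_left hSyl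
  rw [inf_subgroupOf_right] at hT
  have h := not_dvd_relIndex_comap_pCore_iff (H := H.subgroupOf (normalizer (H : Set G)))
    ((P.isPGroup'.to_le hHP).comap_subtype) T _
    (centralizer_subgroupOf_of_le (le_normalizer (H := H))).symm
  rw [← map_subtype_le_map_subtype, ← relIndex_map_map_of_injective _ _ (subtype_injective _),
    map_subgroupOf_eq_of_le le_normalizer] at h
  rw [h, ← (map_injective (normalizer (H : Set G)).subtype_injective).eq_iff, Subgroup.map_sup,
    map_subgroupOf_eq_of_le le_normalizer, map_subgroupOf_eq_of_le (centralizer_le_normalizer _), hT]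
  exact and_congr_left fun _ => ⟨fun h x hx => h (x := ⟨x, centralizer_le_normalizer _ hx.2⟩) hx,
    fun h x hx => h hx⟩

end Cfsg.Agent.S3076
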