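import Cfsg.Statements.S3078
import Cfsg.Agent.Lib.PLocal.Replacement

set_option autoImplicit false
open Cfsg

namespace Cfsg.Agent.S3078

/-- A replacement Theorem for abelian subgroups of p-groups, p odd. Let G be a finite p-group with p odd, A an abelian subgroup of G, and B a subgroup of nilpotency class at most 2 with [B, B] ≤ A, such that A normalizes B but B does not normalize A. Then there is an abelian subgroup A* of G of the same order as A with A ∩ B strictly contained in A* ∩ B, A* contained in N_G(A) and in the normal closure of A, the exponent of A* dividing the exponent of A, and with the subgroup generated by the elements of order dividing p in A of order at most that of the corresponding subgroup of A* (the rank of A is at most the rank of A*). -/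
theorem result {G : Type*} [Group G] [Finite G] {p : ℕ} [Fact p.Prime] (hp : p ≠ 2) (hG : IsPGroup p G) (A B : Subgroup G) (hA : IsMulCommutative A) (hB2 : ⁅⁅B, B⁆, B⁆ = ⊥) (hBA : ⁅B, B⁆ ≤ A) (hAB : A ≤ Subgroup.normalizer (B : Set G)) (hBnA : ¬ B ≤ Subgroup.normalizer (A : Set G)) : ∃ Astar : Subgroup G, IsMulCommutative Astar ∧ Nat.card Astar = Nat.card A ∧ A ⊓ B < Astar ⊓ B ∧ Astar ≤ Subgroup.normalizer (A : Set G) ∧ Astar ≤ Subgroup.normalClosure (A : Set G) ∧ Monoid.exponent Astar ∣ Monoid.exponent A ∧ Nat.card (Cfsg.omegaOne p A) ≤ Nat.card (Cfsg.omegaOne p Astar) := by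
  have hodd := (Fact.out : p.Prime).odd_of_ne_two hp
  obtain ⟨c, h⟩ := Cfsg.Lib.PLocal.exists_replSetup hp (hG.to_subgroup (A ⊔ B)) le_sup_left
    le_sup_right (sup_le hAB Subgroup.le_normalizer) hA hBA hBnA
  refine ⟨Cfsg.Lib.PLocal.repl A c, h.comm_repl, h.card_repl, h.inf_lt, h.repl_le_normalizer,
    Cfsg.Lib.PLocal.ReplSetup.repl_le_sup.trans (sup_le Subgroup.le_normalClosure ?_),
    h.exponent_repl_dvd ?_, h.card_omegaOne_le hodd⟩
  · exact Cfsg.Lib.Transfer.conj_le_iff.mpr fun x hx =>
      Subgroup.normalClosure_normal.conj_mem x (Subgroup.le_normalClosure hx) c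
  · obtain ⟨k, hk⟩ := (hG.to_subgroup A).exists_card_eq
    exact Odd.of_dvd_nat (hk ▸ hodd.pow) Group.exponent_dvd_nat_card

end Cfsg.Agent.S3078
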