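import Cfsg.Statements.S3087
import Mathlib
-- import your own Cfsg.Agent.* helpers here

set_option autoImplicit false
open Cfsg

namespace Cfsg.Agent.S3087

theorem card_mul_le {V : Type*} [AddCommGroup V] [Finite V] (H K : AddSubgroup V) :
    Nat.card ↥(H ⊔ K) * Nat.card ↥(H ⊓ K) = Nat.card H * Nat.card K := by
  have h1 : K.relIndex (H ⊔ K) = K.relIndex H := AddSubgroup.relIndex_sup_right H K
  have h2 := AddSubgroup.relIndex_mul_relIndex ⊥ K (H ⊔ K) bot_le le_sup_right
  have h3 := AddSubgroup.relIndex_mul_relIndex ⊥ (K ⊓ H) H bot_le inf_le_right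
  rw [AddSubgroup.relIndex_bot_left, AddSubgroup.relIndex_bot_left] at h2 h3
  rw [AddSubgroup.inf_relIndex_right] at h3
  rw [← h2, ← h3, h1, inf_comm]; ring

/-- Let p be a prime, G a finite group acting linearly on a finite vector space V over the field with p elements, W a G-invariant subspace, and A a subgroup of G with |A|·|C_V(A)| ≥ |B|·|C_V(B)| for every subgroup B of A. Then |A|·|C_W(A)| ≥ |B|·|C_W(B)| for every subgroup B of A that contains C_A(W); that is, the image of A in the group induced on W satisfies the same maximality condition. -/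
theorem result {G V : Type*} [Group G] [Finite G] [AddCommGroup V] [Finite V] (p : ℕ) [Fact p.Prime] [Module (ZMod p) V]
    (ρ : Representation (ZMod p) G V) (W : Submodule (ZMod p) V) (hW : ∀ g : G, ∀ w ∈ W, ρ g w ∈ W)
    (A : Subgroup G)
    (hP : ∀ B : Subgroup G, B ≤ A →
      Nat.card ↥B * Nat.card {v : V // ∀ b ∈ B, ρ b v = v} ≤ Nat.card ↥A * Nat.card {v : V // ∀ a ∈ A, ρ a v = v})
    (B : Subgroup G) (hBA : B ≤ A) (hCB : ∀ a ∈ A, (∀ w ∈ W, ρ a w = w) → a ∈ B) :
    Nat.card ↥B * Nat.card {w : W // ∀ b ∈ B, ρ b w = w} ≤ Nat.card ↥A * Nat.card {w : W // ∀ a ∈ A, ρ a w = w} := by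
  let F : Subgroup G → AddSubgroup V := fun B =>
    { carrier := {v | ∀ b ∈ B, ρ b v = v}
      zero_mem' := fun b _ => map_zero _
      add_mem' := fun hx hy b hb => by rw [map_add, hx b hb, hy b hb]
      neg_mem' := fun hx b hb => by rw [map_neg, hx b hb] }
  have e1 : ∀ B : Subgroup G, Nat.card {w : W // ∀ b ∈ B, ρ b w = w} =
      Nat.card ↥(F B ⊓ W.toAddSubgroup) := fun B =>
    Nat.card_congr ⟨fun x => ⟨x.1.1, x.2, x.1.2⟩, fun x => ⟨⟨x.1, x.2.2⟩, x.2.1⟩,
      fun _ => rfl, fun _ => rfl⟩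
  have hAB : F A ≤ F B := fun v hv b hb => hv b (hBA hb)
  have h1 := card_mul_le (F B ⊓ W.toAddSubgroup) (F A)
  rw [inf_right_comm, inf_eq_right.2 hAB] at h1
  have h2 : Nat.card ↥((F B ⊓ W.toAddSubgroup) ⊔ F A) ≤ Nat.card (F B) :=
    AddSubgroup.card_le_of_le (sup_le inf_le_left hAB)
  have h3 : Nat.card B * Nat.card (F B) ≤ Nat.card A * Nat.card (F A) := hP B hBA
  rw [e1, e1]
  refine Nat.le_of_mul_le_mul_right ?_ (Nat.card_pos (α := F A))
  rw [mul_assoc, ← h1, mul_right_comm, ← mul_assoc]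
  exact Nat.mul_le_mul_right _ ((Nat.mul_le_mul_left _ h2).trans h3)

end Cfsg.Agent.S3087
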