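import Cfsg.Statements.S3139
import Cfsg.Agent.Lib.H33.Main
import Cfsg.Agent.Lib.H33.Pkg
import Cfsg.Agent.Lib.PF.Main
import Cfsg.Agent.Lib.ZStar.Main
import Cfsg.Agent.Lib.Comp.GenFitting

set_option autoImplicit false
open Cfsg Cfsg.Lib Subgroup

namespace Cfsg.Agent.S3139

/-- Let G be a finite group whose generalized Fitting subgroup F*(G) is a non-abelian simple group, and let t be an involution of G with centralizer H. Suppose H has a 2-component L such that L modulo its largest normal odd-order subgroup O(L) is isomorphic to the projective special linear group of dimension 3 over the field with 3 elements, and such that every 2-subgroup of H whose elements act trivially on L/O(L) by conjugation is cyclic (the centralizer of L/O(L) in H has cyclic Sylow 2-subgroups). Then the 2-part of the order of F*(G) is at most 2¹⁰. -/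
theorem result {G : Type*} [Group G] [Finite G]
    (hF : IsSimpleGroup ↥(Cfsg.generalizedFittingSubgroup G)) (hF' : ¬ IsMulCommutative ↥(Cfsg.generalizedFittingSubgroup G))
    (t : G) (ht : orderOf t = 2) (L : Subgroup ↥(Subgroup.centralizer ({t} : Set G))) (hL : Cfsg.IsPComponent 2 L)
    {F : Type*} [Field F] [Fintype F] (hF3 : Fintype.card F = 3)
    (hLX : Nonempty ((↥L ⧸ Cfsg.oddCore ↥L) ≃* Matrix.ProjectiveSpecialLinearGroup (Fin 3) F))
    (hc : ∀ P : Subgroup ↥(Subgroup.centralizer ({t} : Set G)), IsPGroup 2 ↥P →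
      (∀ g ∈ P, ∀ l ∈ L, ∃ o ∈ Cfsg.oddCore ↥L, g * (l : ↥(Subgroup.centralizer ({t} : Set G))) * g⁻¹ = l * o) → IsCyclic ↥P) :
    ¬ 2 ^ 11 ∣ Nat.card ↥(Cfsg.generalizedFittingSubgroup G) := by
  have q := Comp.isQuasisimple_of_isSimpleGroup hF'
  have k : ∀ N : Subgroup G, N.Normal → N = ⊥ ∨ generalizedFittingSubgroup G ≤ N := fun N n => by
    refine ((n.subgroupOf (generalizedFittingSubgroup G)).eq_bot_or_eq_top).imp (fun p => eq_bot_iff.2 fun x hx => ?_) subgroupOf_eq_top.1
    have c : x ∈ centralizer (generalizedFittingSubgroup G : Set G) := fun y hy =>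
      mul_inv_eq_iff_eq_mul.1 (mul_inv_eq_one.1 (congrArg Subtype.val (mem_bot.1 (p.le (show (⟨y * x * y⁻¹ * x⁻¹, by
          simpa [mul_assoc] using mul_mem hy (Normal.conj_mem inferInstance _ (inv_mem hy) x)⟩ : generalizedFittingSubgroup G) ∈ _ from
          mul_mem (n.conj_mem _ hx y) (inv_mem hx))))))
    exact congrArg Subtype.val (mem_bot.1 (((Normal.eq_bot_or_eq_top inferInstance).resolve_right (Comp.isQuasisimple_center_ne_top q)).le
      (show (⟨x, Comp.centralizer_genFitting_le c⟩ : generalizedFittingSubgroup G) ∈ center _ from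
        mem_center_iff.2 fun y => Subtype.ext (c y y.2))))
  have hO := (k (oddCore G) inferInstance).resolve_right (Comp.qs_not_le_of_isSolvable q (PF.isSolvable_of_odd _ (Core.odd_card_oddCore G)))
  have hZ := (k (center G) inferInstance).resolve_right fun h => hF' ⟨⟨fun x y => Subtype.ext (mem_center_iff.1 (h y.2) x)⟩⟩
  obtain ⟨P⟩ := H33.pkg t ht L hL hF3 hLX hc
  have hi : ¬ IsIsolatedInvolution t := fun h => by
    have : t ∈ center G := mem_center_iff.2 fun g =>
      (mul_inv_eq_iff_eq_mul.1 (mul_inv_eq_one.1 (mem_bot.1 (hO ▸ ZStar.zstar h g)))).symm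
    rw [hZ, mem_bot] at this
    simp [this] at ht
  intro h
  obtain a | ⟨a, N, b⟩ := H33.main ht P hi
  · exact a (h.trans (card_subgroup_dvd_card _))
  rcases k N (normal_of_index_eq_two b) with rfl | c
  · rw [index_bot] at b
    exact absurd (h.trans (b ▸ card_subgroup_dvd_card _)) (by norm_num)
  · exact a (by rw [← N.card_mul_index, b, pow_succ]; exact Nat.mul_dvd_mul_right (h.trans (card_dvd_of_le c)) 2)

end Cfsg.Agent.S3139
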