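import Cfsg.Statements.S3144
import Cfsg.Agent.Lib.E8W.Main

set_option autoImplicit false
open Cfsg

namespace Cfsg.Agent.S3144

/-- Let G be a finite group with no nontrivial normal subgroup of odd order and L a standard subgroup of G which is a double cover of the simple orthogonal group PΩ⁺ of dimension 8 over the field with 2 elements (the centre of L has order 2 and L modulo its centre is isomorphic to that group), and suppose the centralizer of L in G has cyclic Sylow 2-subgroups. Then L is normal in G. -/
theorem result {G : Type*} [Group G] [Finite G] (hO : Cfsg.oddCore G = ⊥) (L : Subgroup G) (hL : Cfsg.IsStandardSubgroup L)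
    {F : Type*} [Field F] [Fintype F] (hF : Fintype.card F = 2)
    (hZ : Nat.card ↥(Subgroup.center ↥L) = 2) (hLX : Nonempty ((↥L ⧸ Subgroup.center ↥L) ≃* Cfsg.POmega F (Cfsg.quadFormPlus 4 F)))
    (hR : ∀ R : Sylow 2 ↥(Subgroup.centralizer (L : Set G)), IsCyclic ↥(R : Subgroup ↥(Subgroup.centralizer (L : Set G)))) :
    L.Normal := by
  obtain ⟨e⟩ := hLX
  obtain ⟨ψ⟩ := Lib.E8W.model hL.1.1.commutator_eq_top hZ (e.trans (Lib.Mult.pomegaCongr
    (FiniteField.ringEquivOfCardEq (Lib.Asch.TF.card.trans hF.symm)) fun v => by simp [quadFormPlus]).symm)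
  exact Lib.E8W.main hO hL ψ hR

end Cfsg.Agent.S3144
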