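import Cfsg.Statements.S3153
import Cfsg.Agent.Lib.Comp.PComponent
import Cfsg.Agent.Lib.Core.PPrimeCore

set_option autoImplicit false
open Cfsg

namespace Cfsg.Agent.S3153

open Subgroup Cfsg.Lib Cfsg.Lib.Comp Cfsg.Lib.Core
open scoped commutatorElement

theorem conj_pow' {G : Type*} [Group G] (a r : G) (n : ℕ) : a * r ^ n * a⁻¹ = (a * r * a⁻¹) ^ n := by
  rw [conj_pow]

/-- an element of odd order equal to its inverse is trivial -/
theorem eq_one_of_odd {G : Type*} [Group G] {x : G} (ho : Odd (orderOf x)) (h : x * x = 1) : x = 1 := by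
  have h2 : orderOf x ∣ 2 := orderOf_dvd_of_pow_eq_one (by rw [sq, h])
  rcases (Nat.dvd_prime Nat.prime_two).1 h2 with h3 | h3
  · exact orderOf_eq_one_iff.1 h3
  · rw [h3] at ho; exact absurd ho (by decide)

theorem inv_aux {G : Type*} [Group G] [Finite G] {O : Subgroup G} [hO : O.Normal]
    (hodd : Odd (Nat.card O)) {t v : G} (ht : t * t = 1) (hv : v * v = 1) (htv : t * v = v * t)
    (hc : ∀ x ∈ O, t * x = x * t → v * x = x * v) {w : G} (hw : w ∈ O)
    (hwv : v * w * v⁻¹ = w⁻¹) : t * w * t⁻¹ = w⁻¹ := by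
  have hod : ∀ x ∈ O, Odd (orderOf x) := fun x hx =>
    hodd.of_dvd_nat (O.orderOf_dvd_natCard hx)
  have ti : t⁻¹ = t := inv_eq_of_mul_eq_one_right ht
  set w' := t * w * t⁻¹ with hw'
  have hw'O : w' ∈ O := hO.conj_mem _ hw _
  have hw'v : v * w' * v⁻¹ = w'⁻¹ := by
    calc v * w' * v⁻¹ = (v * t) * w * (v * t)⁻¹ := by rw [hw']; group
      _ = t * (v * w * v⁻¹) * t⁻¹ := by rw [← htv]; group
      _ = w'⁻¹ := by rw [hwv, hw']; group
  have htw' : t * w' * t⁻¹ = w := by
    calc t * w' * t⁻¹ = (t * t) * w * (t * t)⁻¹ := by rw [hw']; group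
      _ = w := by rw [ht]; group
  set r := w⁻¹ * w' with hr
  have hrO : r ∈ O := O.mul_mem (O.inv_mem hw) hw'O
  obtain ⟨k, hk⟩ := hod r hrO
  set s := r ^ (k + 1) with hs
  have hss : s * s = r := by
    rw [hs, ← pow_add, show k + 1 + (k + 1) = (2 * k + 1) + 1 by ring, ← hk, pow_succ,
      pow_orderOf_eq_one, one_mul]
  have hrt : t * r * t⁻¹ = r⁻¹ := by
    calc t * r * t⁻¹ = (t * w * t⁻¹)⁻¹ * (t * w' * t⁻¹) := by rw [hr]; group
      _ = r⁻¹ := by rw [htw', ← hw', hr]; group
  have hst : t * s * t⁻¹ = s⁻¹ := by rw [hs, conj_pow', hrt, inv_pow]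
  have hrv : v * r * v⁻¹ = w * r⁻¹ * w⁻¹ := by
    calc v * r * v⁻¹ = (v * w * v⁻¹)⁻¹ * (v * w' * v⁻¹) := by rw [hr]; group
      _ = w * r⁻¹ * w⁻¹ := by rw [hwv, hw'v, hr]; group
  have hsv : v * s * v⁻¹ = w * s⁻¹ * w⁻¹ := by
    rw [hs, conj_pow', hrv, ← conj_pow', inv_pow]
  have hsO : s ∈ O := O.pow_mem hrO _
  have h1 : t * (w * s) * t⁻¹ = w * s := by
    calc t * (w * s) * t⁻¹ = w' * (t * s * t⁻¹) := by rw [hw']; group
      _ = w * r * s⁻¹ := by rw [hst, hr]; group
      _ = w * s := by rw [← hss]; group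
  have h2 := hc (w * s) (O.mul_mem hw hsO) (by rw [← h1]; nth_rw 2 [h1]; rw [h1]; exact mul_inv_eq_iff_eq_mul.1 h1)
  have h3 : v * (w * s) * v⁻¹ = (w * s)⁻¹ := by
    calc v * (w * s) * v⁻¹ = (v * w * v⁻¹) * (v * s * v⁻¹) := by group
      _ = (w * s)⁻¹ := by rw [hwv, hsv]; group
  have h4 : w * s = 1 := eq_one_of_odd (hod _ (O.mul_mem hw hsO)) (by
    rw [h2, mul_inv_cancel_right] at h3
    exact mul_eq_one_iff_eq_inv.2 h3)
  have h5 : s = w⁻¹ := eq_inv_of_mul_eq_one_right h4
  rw [h5] at hst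
  calc w' = (t * w⁻¹ * t⁻¹)⁻¹ := by rw [hw']; group
    _ = w⁻¹ := by rw [hst, inv_inv]

/-- commuting involutions with the same fixed points on an odd normal subgroup act alike -/
theorem mul_mem_centralizer {G : Type*} [Group G] [Finite G] {O : Subgroup G} [hO : O.Normal]
    (hodd : Odd (Nat.card O)) {t u : G} (ht : t * t = 1) (hu : u * u = 1) (htu : t * u = u * t)
    (h1 : ∀ x ∈ O, t * x = x * t → u * x = x * u) (h2 : ∀ x ∈ O, u * x = x * u → t * x = x * t) :
    t * u ∈ centralizer (O : Set G) := by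
  have hod : ∀ x ∈ O, Odd (orderOf x) := fun x hx =>
    hodd.of_dvd_nat (O.orderOf_dvd_natCard hx)
  obtain ⟨v, hv⟩ : ∃ v, v = t * u := ⟨_, rfl⟩
  rw [← hv]
  have hvv : v * v = 1 := by
    calc v * v = t * (u * t) * u := by rw [hv]; group
      _ = (t * t) * (u * u) := by rw [← htu]; group
      _ = 1 := by rw [ht, hu, one_mul]
  have key : ∀ w ∈ O, v * w * v⁻¹ = w⁻¹ → w = 1 := fun w hw hwv => by
    have a1 := inv_aux hodd ht hvv (by rw [hv, mul_assoc, ← htu])
      (fun x hx h => by rw [hv, mul_assoc, h1 x hx h, ← mul_assoc, h, mul_assoc]) hw hwv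
    have a2 := inv_aux hodd hu hvv (by rw [hv, ← mul_assoc, ← htu])
      (fun x hx h => by rw [hv, mul_assoc, h, ← mul_assoc, h2 x hx h, mul_assoc]) hw hwv
    have a3 : v * w * v⁻¹ = w := by
      calc v * w * v⁻¹ = t * (u * w * u⁻¹) * t⁻¹ := by rw [hv]; group
        _ = (t * w * t⁻¹)⁻¹ := by rw [a2]; group
        _ = w := by rw [a1, inv_inv]
    exact eq_one_of_odd (hod w hw) (mul_eq_one_iff_eq_inv.2 (a3.symm.trans hwv))
  intro x hx
  have := key (x⁻¹ * (v * x * v⁻¹)) (O.mul_mem (O.inv_mem hx) (hO.conj_mem _ hx _)) (by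
    calc v * (x⁻¹ * (v * x * v⁻¹)) * v⁻¹ = v * x⁻¹ * v⁻¹ * ((v * v) * x * (v * v)⁻¹) := by group
      _ = _ := by rw [hvv]; group)
  rw [inv_mul_eq_one] at this
  calc x * v = v * x * v⁻¹ * v := by rw [← this]
    _ = v * x := by group

theorem rank_one' {K : Type*} [Group K] [Finite K] (hr : PRankLE 2 1 K) {a b : K}
    (haa : a * a = 1) (hbb : b * b = 1) (hab : a * b = b * a)
    (ha1 : a ≠ 1) (hb1 : b ≠ 1) : a = b := by
  by_contra hne
  have hcm : IsMulCommutative (closure ({a, b} : Set K)) :=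
    isMulCommutative_closure (by
      rintro x (rfl | rfl) y (rfl | rfl)
      · rfl
      · exact hab
      · exact hab.symm
      · rfl)
  have hcl : ∀ x ∈ closure ({a, b} : Set K), ∀ y ∈ closure ({a, b} : Set K), x * y = y * x :=
    fun x hx y hy => congrArg Subtype.val (hcm.is_comm.comm ⟨x, hx⟩ ⟨y, hy⟩)
  have h := hr (closure ({a, b} : Set K)) hcm (by
    intro x hx
    induction hx using closure_induction with
    | mem x hx => rcases hx with rfl | rfl <;> simp [sq, haa, hbb]
    | one => simp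
    | mul x y hx hy h1 h2 => rw [Commute.mul_pow (hcl x hx y hy), h1, h2, one_mul]
    | inv x hx h1 => rw [inv_pow, h1, inv_one])
  have h3 : ({1, a, b} : Set K) ⊆ closure ({a, b} : Set K) := by
    rintro x (rfl | rfl | rfl)
    · exact one_mem _
    · exact subset_closure (Or.inl rfl)
    · exact subset_closure (Or.inr rfl)
  have h4 := Set.ncard_le_ncard h3 (Set.toFinite _)
  rw [Set.ncard_eq_three.2 ⟨_, _, _, ha1.symm, hb1.symm, hne, rfl⟩, ← Nat.card_coe_set_eq] at h4
  exact absurd (h4.trans h) (by norm_num)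

theorem rank_one {G : Type*} [Group G] [Finite G] {K : Subgroup G} (hr : PRankLE 2 1 K) {a b : G}
    (ha : a ∈ K) (hb : b ∈ K) (haa : a * a = 1) (hbb : b * b = 1) (hab : a * b = b * a)
    (ha1 : a ≠ 1) (hb1 : b ≠ 1) : a = b :=
  congrArg Subtype.val (rank_one' hr (a := ⟨a, ha⟩) (b := ⟨b, hb⟩) (Subtype.ext haa)
    (Subtype.ext hbb) (Subtype.ext hab) (fun h => ha1 (congrArg Subtype.val h))
    (fun h => hb1 (congrArg Subtype.val h)))

/-- Let X be a finite group and P a standard subgroup of X whose centralizer has 2-rank at most 1 and whose centre has odd order. Let S be a Sylow 2-subgroup of N_X(P) and t an involution of S centralizing P. Suppose some element g of X normalizes S, does not lie in S, has its square in S, and conjugates t into P·C_X(P). Then P commutes elementwise with the largest normal odd-order subgroup O(X) of X; consequently every t-invariant 2-component of X containing P is quasisimple. -/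
theorem result {X : Type*} [Group X] [Finite X] (P : Subgroup X) (hP : Cfsg.IsStandardSubgroup P)
    (hr : Cfsg.PRankLE 2 1 ↥(Subgroup.centralizer (P : Set X))) (hZ : Odd (Nat.card ↥(Subgroup.center ↥P)))
    (S : Sylow 2 ↥(Subgroup.normalizer (P : Set X))) (t : X) (ht : orderOf t = 2) (htS : t ∈ (S : Subgroup ↥(Subgroup.normalizer (P : Set X))).map (Subgroup.normalizer (P : Set X)).subtype)
    (htP : t ∈ Subgroup.centralizer (P : Set X))
    (g : X) (hgN : ∀ s ∈ (S : Subgroup ↥(Subgroup.normalizer (P : Set X))).map (Subgroup.normalizer (P : Set X)).subtype, g * s * g⁻¹ ∈ (S : Subgroup ↥(Subgroup.normalizer (P : Set X))).map (Subgroup.normalizer (P : Set X)).subtype)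
    (hgS : g ∉ (S : Subgroup ↥(Subgroup.normalizer (P : Set X))).map (Subgroup.normalizer (P : Set X)).subtype) (hg2 : g ^ 2 ∈ (S : Subgroup ↥(Subgroup.normalizer (P : Set X))).map (Subgroup.normalizer (P : Set X)).subtype)
    (hgt : g * t * g⁻¹ ∈ P ⊔ Subgroup.centralizer (P : Set X)) :
    ⁅P, Cfsg.oddCore X⁆ = ⊥ ∧
      ∀ L : Subgroup X, Cfsg.IsPComponent 2 L → P ≤ L → (∀ l ∈ L, t * l * t⁻¹ ∈ L) → Cfsg.IsQuasisimple ↥L := by
  classical
  haveI : Fact (Nat.Prime 2) := ⟨Nat.prime_two⟩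
  obtain ⟨hq, ⟨-, hte⟩, -, hN⟩ := hP
  set K := centralizer (P : Set X) with hK
  set S' := (S : Subgroup ↥(normalizer (P : Set X))).map (normalizer (P : Set X)).subtype with hS'
  have hS'2 : IsPGroup 2 S' := S.isPGroup'.map _
  have hS'N : S' ≤ normalizer (P : Set X) := map_subtype_le _
  have htt : t * t = 1 := by rw [← sq, ← ht, pow_orderOf_eq_one]
  have ht1 : t ≠ 1 := by rintro rfl; simp at ht
  -- rank one
  have hrk : ∀ a ∈ K, ∀ b ∈ K, a * a = 1 → b * b = 1 → a * b = b * a → a ≠ 1 → b ≠ 1 → a = b := by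
    exact fun a ha b hb => rank_one hr ha hb
  -- t is central in S'
  have hcen : ∀ x ∈ S', x * t = t * x := by
    haveI : Nontrivial ↥(S' ⊓ K) := ⟨⟨⟨t, htS, htP⟩, 1, fun h => ht1 (congrArg Subtype.val h)⟩⟩
    haveI := (hS'2.to_le (inf_le_left : S' ⊓ K ≤ S')).center_nontrivial
    obtain ⟨c, hc1⟩ := exists_ne (1 : center ↥(S' ⊓ K))
    obtain ⟨k, hk⟩ := (IsPGroup.iff_orderOf.1 ((hS'2.to_le (inf_le_left : S' ⊓ K ≤ S')).to_subgroup
      (center _))) c
    have hd : 2 ∣ orderOf c := by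
      rw [hk]; refine dvd_pow_self 2 ?_
      rintro rfl; exact hc1 (orderOf_eq_one_iff.1 hk)
    set z := c ^ (orderOf c / 2) with hz
    have hzo : orderOf z = 2 := by rw [hz, orderOf_pow_orderOf_div (orderOf_pos c).ne' hd]
    have hz1 : ((z : ↥(S' ⊓ K)) : X) ≠ 1 := fun h => by
      have : z = 1 := Subtype.ext (Subtype.ext h)
      rw [this] at hzo; simp at hzo
    have hz2 : ((z : ↥(S' ⊓ K)) : X) * ((z : ↥(S' ⊓ K)) : X) = 1 := by
      have : z * z = 1 := by rw [← sq, ← hzo, pow_orderOf_eq_one]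
      exact congrArg (fun y : center ↥(S' ⊓ K) => ((y : ↥(S' ⊓ K)) : X)) this
    have huniq : ∀ a ∈ S' ⊓ K, a * a = 1 → a ≠ 1 → a = ((z : ↥(S' ⊓ K)) : X) := fun a ha haa ha1 =>
      hrk a ha.2 _ (z : ↥(S' ⊓ K)).2.2 haa hz2
        (congrArg Subtype.val (mem_center_iff.1 z.2 ⟨a, ha⟩)) ha1 hz1
    intro x hx
    have h1 := huniq t ⟨htS, htP⟩ htt ht1
    have h2 := huniq (x * t * x⁻¹) ⟨S'.mul_mem (S'.mul_mem hx htS) (S'.inv_mem hx),
      (mem_normalizer_iff.1 (hN ▸ hS'N hx) t).1 htP⟩
      (by calc x * t * x⁻¹ * (x * t * x⁻¹) = x * (t * t) * x⁻¹ := by group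
          _ = 1 := by rw [htt]; group)
      (fun h => ht1 (by simpa using h))
    exact mul_inv_eq_iff_eq_mul.1 (h2.trans h1.symm)
  -- centralizer of t normalizes P
  have hCt : ∀ x : X, x * t = t * x → x ∈ normalizer (P : Set X) := by
    intro x hx
    rw [hN]; by_contra hxN
    have h1 := hte x hxN
    have h2 : t ∈ K ⊓ K.map (MulAut.conj x).toMonoidHom :=
      ⟨htP, ⟨t, htP, by simp [hx]⟩⟩
    have h3 := h1.of_dvd_nat (orderOf_dvd_natCard _ h2)
    rw [ht] at h3; exact absurd h3 (by decide)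
  set u := g * t * g⁻¹ with hu
  have huS : u ∈ S' := hgN t htS
  have huu : u * u = 1 := by
    calc u * u = g * (t * t) * g⁻¹ := by rw [hu]; group
      _ = 1 := by rw [htt]; group
  have htu : t * u = u * t := (hcen u huS).symm
  have hgu : g * u * g⁻¹ = t := by
    calc g * u * g⁻¹ = g ^ 2 * t * (g ^ 2)⁻¹ := by rw [hu, sq]; group
      _ = t := by rw [hcen _ hg2]; group
  have hut : u ≠ t := by
    intro h
    have hgP := hCt g (mul_inv_eq_iff_eq_mul.1 h)
    have hgn : (⟨g, hgP⟩ : normalizer (P : Set X)) ∈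
        normalizer ((S : Subgroup ↥(normalizer (P : Set X))) : Set ↥(normalizer (P : Set X))) := by
      refine mem_normalizer_fintype ?_
      intro s hs
      obtain ⟨s', hs', e⟩ := hgN s ⟨s, hs, rfl⟩
      have : s' = ⟨g, hgP⟩ * s * ⟨g, hgP⟩⁻¹ := Subtype.ext e
      exact this ▸ hs'
    have hg2' : IsPGroup 2 (zpowers (⟨g, hgP⟩ : normalizer (P : Set X))) := by
      obtain ⟨k, hk⟩ := hS'2 ⟨_, hg2⟩
      have hk' : (g ^ 2) ^ 2 ^ k = 1 := congrArg Subtype.val hk
      rintro ⟨_, m, rfl⟩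
      refine ⟨k + 1, Subtype.ext (Subtype.ext ?_)⟩
      change (g ^ m) ^ 2 ^ (k + 1) = 1
      rw [← zpow_natCast, ← zpow_mul, mul_comm, zpow_mul, zpow_natCast, pow_succ', pow_mul, hk',
        one_zpow]
    have h3 := S.is_maximal' (IsPGroup.to_sup_of_normal_left' S.isPGroup' hg2'
      (zpowers_le_of_mem hgn)) le_sup_left
    exact hgS ⟨⟨g, hgP⟩, h3 ▸ mem_sup_right (mem_zpowers _), rfl⟩
  -- decomposition of u
  obtain ⟨s, hsP, hss, hs1, hsu⟩ : ∃ s ∈ P, s * s = 1 ∧ s ≠ 1 ∧ (u = s ∨ u = s * t) := by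
    have hPK : P ≤ normalizer (K : Set X) := hN ▸ le_normalizer
    obtain ⟨p, hp, k, hk, e⟩ : ∃ p ∈ P, ∃ k ∈ K, p * k = u := by
      have := hgt
      rw [← SetLike.mem_coe, coe_mul_of_left_le_normalizer_right _ _ hPK] at this
      exact this
    have hpk : Commute p k := hk p hp
    have hp2 : p * p ∈ K := by
      have : p * p = (k * k)⁻¹ := by
        rw [eq_inv_iff_mul_eq_one, ← huu, ← e, hpk.mul_mul_mul_comm]
      rw [this]; exact K.inv_mem (K.mul_mem hk hk)
    obtain ⟨m, hm⟩ := hZ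
    have hpm : (p * p) ^ (2 * m + 1) = 1 := by
      have : (⟨⟨p * p, P.mul_mem hp hp⟩, mem_center_iff.2 fun y => Subtype.ext (hp2 y y.2)⟩ :
        center P) ^ (2 * m + 1) = 1 := by rw [← hm]; exact pow_card_eq_one'
      exact congrArg (fun y : center P => ((y : P) : X)) this
    have hum : u ^ (2 * m + 1) = u := by rw [pow_succ, pow_mul, sq, huu, one_pow, one_mul]
    set s := p ^ (2 * m + 1) with hs
    set k' := k ^ (2 * m + 1) with hk'
    have e' : s * k' = u := by rw [hs, hk', ← hpk.mul_pow, e, hum]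
    have hsP : s ∈ P := P.pow_mem hp _
    have hk'K : k' ∈ K := K.pow_mem hk _
    have hss : s * s = 1 := by rw [hs, ← (Commute.refl p).mul_pow, hpm]
    have hsk : s * k' = k' * s := hk'K s hsP
    have hk'e : k' = s * u := by rw [← e', ← mul_assoc, hss, one_mul]
    have hkk : k' * k' = 1 := by
      calc k' * k' = k' * (s * s) * k' := by rw [hss, mul_one]
        _ = u * u := by rw [← e']; nth_rw 1 [hsk]; group
        _ = 1 := huu
    have hkt : k' * t = t * k' := by
      rw [hk'e, mul_assoc, ← htu, ← mul_assoc, htP s hsP, mul_assoc]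
    have hk1 : k' = 1 ∨ k' = t := by
      by_cases h : k' = 1
      · exact Or.inl h
      · exact Or.inr (hrk k' hk'K t htP hkk htt hkt h ht1)
    refine ⟨s, hsP, hss, fun h => ?_, ?_⟩
    · rw [h, one_mul] at e'
      rcases hk1 with h1 | h1
      · exact ht1 (by rw [← hgu, ← e', h1]; group)
      · exact hut (e' ▸ h1)
    · rcases hk1 with h1 | h1
      · left; rw [← e', h1, mul_one]
      · right; rw [← e', h1]
  have hsK : s ∉ K := fun h => by
    have h1 := hZ.of_dvd_nat (orderOf_dvd_natCard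
      (⟨⟨s, hsP⟩, mem_center_iff.2 fun y => Subtype.ext (h y y.2)⟩ : center P))
    rw [← orderOf_coe, ← orderOf_coe] at h1
    exact hs1 (eq_one_of_odd h1 hss)
  set O := oddCore X with hO
  have hodd : Odd (Nat.card O) := odd_card_oddCore X
  have hsO : s ∉ O := fun h => hs1 (eq_one_of_odd (hodd.of_dvd_nat (O.orderOf_dvd_natCard h)) hss)
  have hPO : P ⊓ O ≤ K := (qs_le_or_inf_le_centralizer hq (N := O) le_normalizer_of_normal).resolve_left
    fun h => hsO (h hsP)
  have hC : ∀ x ∈ O, t * x = x * t → x ∈ K := by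
    intro x hx hxt
    have hxN := hCt x hxt.symm
    have h1 : ⁅zpowers x, P⁆ ≤ P ⊓ O := by
      refine le_inf ?_ ((commutator_mono (zpowers_le_of_mem hx) le_top).trans (commutator_le_left _ _))
      exact le_normalizer_iff_commutator_le_right.1 (zpowers_le_of_mem hxN)
    have h2 : ⁅zpowers x, P⁆ = ⊥ := commutator_eq_bot_of_perfect (qs_commutator_self hq)
      (commutator_eq_bot_iff_le_centralizer.2 (h1.trans hPO))
    exact commutator_eq_bot_iff_le_centralizer.1 h2 (mem_zpowers x)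
  have h1 : ∀ x ∈ O, t * x = x * t → u * x = x * u := by
    intro x hx hxt
    have := hC x hx hxt s hsP
    rcases hsu with h | h <;> rw [h]
    · exact this
    · rw [mul_assoc, hxt, ← mul_assoc, this, mul_assoc]
  have h2 : ∀ x ∈ O, u * x = x * u → t * x = x * t := by
    intro x hx hxu
    have h3 := h1 (g⁻¹ * x * g) (by simpa using (inferInstance : O.Normal).conj_mem _ hx g⁻¹) (by
      calc t * (g⁻¹ * x * g) = g⁻¹ * (u * x) * g := by rw [hu]; group
        _ = _ := by rw [hxu, hu]; group)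
    calc t * x = g * (u * (g⁻¹ * x * g)) * g⁻¹ := by rw [← hgu]; group
      _ = x * t := by rw [h3, ← hgu]; group
  have hv := mul_mem_centralizer hodd htt huu htu h1 h2
  haveI hCn : (centralizer (O : Set X)).Normal := inferInstance
  have hPC : P ≤ centralizer (O : Set X) := by
    refine (qs_le_or_inf_le_centralizer hq (N := centralizer (O : Set X))
      le_normalizer_of_normal).resolve_right fun h => hsK ?_
    have h1 : ⁅zpowers s, P⁆ ≤ P ⊓ centralizer (O : Set X) := by
      refine le_inf (le_normalizer_iff_commutator_le_right.1 ((zpowers_le_of_mem hsP).trans le_normalizer)) ?_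
      rw [commutator_le]
      intro a ha p hp
      have hs2 : orderOf s = 2 := orderOf_eq_prime (by rw [sq, hss]) hs1
      have : a = 1 ∨ a = s := by
        obtain ⟨n, rfl⟩ := (mem_powers_iff_mem_zpowers.2 ha)
        rcases Nat.even_or_odd' n with ⟨j, rfl | rfl⟩
        · left; simp only [pow_mul, sq, hss, one_pow]
        · right; simp only [pow_succ, pow_mul, sq, hss, one_pow, one_mul, pow_zero]
      rcases this with rfl | rfl
      · simp
      · have e : ⁅a, p⁆ = ⁅t * u, p⁆ := by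
          have htp : t * p = p * t := (htP p hp).symm
          have hta : t * a = a * t := (htP a hsP).symm
          rcases hsu with h | h
          · rw [h, commutatorElement_def, commutatorElement_def, hta]
            calc a * p * a⁻¹ * p⁻¹ = a * (p * t) * t⁻¹ * a⁻¹ * p⁻¹ := by group
              _ = _ := by rw [← htp]; group
          · rw [h, ← hta, ← mul_assoc, htt, one_mul]
        rw [e, commutatorElement_def, mul_assoc, mul_assoc]
        exact mul_mem hv (by simpa [mul_assoc] using hCn.conj_mem _ (inv_mem hv) p)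
    have h2 : ⁅zpowers s, P⁆ = ⊥ := commutator_eq_bot_of_perfect (qs_commutator_self hq)
      (commutator_eq_bot_iff_le_centralizer.2 (h1.trans h))
    exact commutator_eq_bot_iff_le_centralizer.1 h2 (mem_zpowers s)
  refine ⟨commutator_eq_bot_iff_le_centralizer.2 hPC, fun L hL hPL _ => ?_⟩
  rcases isPComponent_le_or_commutator_le hL hCn.isSubnormal with h | h
  · rw [isPComponent_isQuasisimple_iff hL, pPrimeCore_eq_subgroupOf_of_isSubnormal hL.1,
      subgroupOf_map_subtype, eq_bot_iff]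
    exact (commutator_mono le_rfl inf_le_left).trans
      (commutator_eq_bot_iff_le_centralizer.2 h).le
  · exact absurd (h (commutator_mono hPL hPC ((qs_commutator_self hq).symm ▸ hsP))) hsO

end Cfsg.Agent.S3153
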