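import Cfsg.Statements.S3154
import Cfsg.Agent.Lib.Linear.L34Par
import Cfsg.Agent.Lib.Coprime.Gaschutz
import Cfsg.Agent.Lib.PGroup.Omega

set_option autoImplicit false
open Cfsg

namespace Cfsg.Agent.S3154

open Cfsg.Lib.Linear Cfsg.Lib.Linear.L34Par

theorem tri {X : Type*} [Group X] {a b d c : X} (hc : c ∈ Subgroup.center X) (hc2 : c * c = 1)
    (ha : a * a = c) (hb : b * b = c) (hd : d * d = c) (hab : a * b * (a * b) = c)
    (had : a * d * (a * d) = c) (hbd : b * d * (b * d) = c)
    (habd : a * (b * d) * (a * (b * d)) = c) : c = 1 := by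
  have hcc : ∀ g, g * c = c * g := fun g => Subgroup.mem_center_iff.1 hc g
  have key : ∀ x y : X, x * x = c → y * y = c → x * y * (x * y) = c → x * y = c * (y * x) := by
    intro x y hx hy hxy
    have h1 : x * y * (x * y) * (y * x) = x * y := by
      calc x * y * (x * y) * (y * x) = x * y * (x * (y * y) * x) := by group
        _ = x * y * (c * (x * x)) := by rw [hy, hcc x, mul_assoc c]
        _ = x * y := by rw [hx, hc2, mul_one]
    rw [← h1, hxy]
  have e1 := key a b ha hb hab
  have e2 := key a d ha hd had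
  have e3 := key a (b * d) ha hbd habd
  have e4 : a * (b * d) = b * d * a := by
    calc a * (b * d) = a * b * d := by group
      _ = c * b * (a * d) := by rw [e1]; group
      _ = c * (b * c) * (d * a) := by rw [e2]; group
      _ = b * d * a := by rw [hcc b, ← mul_assoc c c, hc2]; group
  rw [e4] at e3
  exact (mul_eq_right.1 e3.symm)

section core
variable {X : Type*} [Group X] {F : Type*} [Field F] [Fintype F]

theorem two_eq_zero (hF : Fintype.card F = 4) : (2 : F) = 0 := by
  have h := FiniteField.cast_card_eq_zero F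
  rw [hF] at h
  have : (2 : F) * 2 = 0 := by rw [← h]; norm_num
  exact mul_self_eq_zero.1 this

theorem elemA (hF : Fintype.card F = 4) (φ : X →* Matrix.ProjectiveSpecialLinearGroup (Fin 3) F)
    (hs : Function.Surjective φ) (hk : φ.ker = Subgroup.center X)
    (hZ : IsElementaryAbelian 2 (Subgroup.center X)) :
    IsElementaryAbelian 2 ((A F).comap φ) := by
  have h2 := two_eq_zero hF
  have hadd : ∀ x : F, x + x = 0 := fun x => by rw [← two_mul, h2, zero_mul]
  have hsq : ∀ h ∈ (A F).comap φ, h * h ∈ Subgroup.center X := by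
    intro h hh
    obtain ⟨x, z, e⟩ := Subgroup.mem_comap.1 hh
    rw [← hk, MonoidHom.mem_ker, map_mul, e, ← map_mul, u_mul, hadd, hadd, hadd, mul_zero,
      add_zero, u_zero, map_one]
  obtain ⟨b, hb⟩ := hs (pi (u 1 0 0))
  have hbA : b ∈ (A F).comap φ := ⟨1, 0, hb⟩
  have hbZ := hsq b hbA
  have hconst : ∀ h x z, φ h = pi (u x 0 z) → ¬ (x = 0 ∧ z = 0) → h * h = b * b := by
    intro h x z e hne
    have h1 : φ h ≠ 1 := by
      intro h1
      rw [e, ← map_one pi, ← u_zero] at h1
      exact hne ⟨(pi_u_inj h1).1, (pi_u_inj h1).2.2⟩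
    obtain ⟨l, hl⟩ := isConj_iff.1 (A_conj ⟨x, z, e⟩ h1)
    obtain ⟨g, rfl⟩ := hs l
    have hw : (g * b * g⁻¹)⁻¹ * h ∈ Subgroup.center X := by
      rw [← hk, MonoidHom.mem_ker, map_mul, map_inv, map_mul, map_mul, map_inv, hb, hl,
        inv_mul_cancel]
    have hw2 := hZ.2 _ hw
    set w := (g * b * g⁻¹)⁻¹ * h with hwd
    have hh : h = g * b * g⁻¹ * w := by rw [hwd]; group
    have hwc := Subgroup.mem_center_iff.1 hw
    calc h * h = g * b * g⁻¹ * (w * (g * b * g⁻¹)) * w := by rw [hh]; group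
      _ = g * (b * b) * g⁻¹ * w ^ 2 := by rw [← hwc, pow_two]; group
      _ = b * b := by rw [hw2, Subgroup.mem_center_iff.1 hbZ g]; group
  obtain ⟨ω, hω0, hω1⟩ : ∃ ω : F, ω ≠ 0 ∧ ω ≠ 1 := by
    classical
    by_contra h
    push Not at h
    have : (Finset.univ : Finset F) ⊆ {0, 1} := by
      intro x _
      by_cases hx : x = 0
      · simp [hx]
      · simp [h x hx]
    have h3 := Finset.card_le_card this
    have h4 := Finset.card_le_two (a := (0 : F)) (b := 1)
    rw [Finset.card_univ, hF] at h3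
    omega
  obtain ⟨a, ha⟩ := hs (pi (u 0 0 1))
  obtain ⟨d, hd⟩ := hs (pi (u ω 0 0))
  have hω : 1 + ω ≠ 0 := fun h => hω1 (by linear_combination h - h2)
  have hc1 : b * b = 1 := by
    refine tri (a := a) (b := b) (d := d) hbZ (by rw [← pow_two]; exact hZ.2 _ hbZ)
      (hconst _ _ _ ha (by simp)) rfl (hconst _ _ _ hd (by simp [hω0]))
      (hconst _ 1 1 ?_ (by simp)) (hconst _ ω 1 ?_ (by simp)) (hconst _ (1 + ω) 0 ?_ (by simp [hω]))
      (hconst _ (1 + ω) 1 ?_ (by simp))
    · rw [map_mul, ha, hb, ← map_mul, u_mul]; simp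
    · rw [map_mul, ha, hd, ← map_mul, u_mul]; simp
    · rw [map_mul, hb, hd, ← map_mul, u_mul]; simp
    · rw [map_mul, map_mul, ha, hb, hd, ← map_mul, ← map_mul, u_mul, u_mul]; simp
  have hall : ∀ h ∈ (A F).comap φ, h * h = 1 := by
    intro h hh
    obtain ⟨x, z, e⟩ := Subgroup.mem_comap.1 hh
    by_cases hxz : x = 0 ∧ z = 0
    · rw [hxz.1, hxz.2, u_zero, map_one, ← MonoidHom.mem_ker, hk] at e
      rw [← pow_two]; exact hZ.2 _ e
    · rw [hconst h x z e hxz, hc1]
  refine ⟨⟨⟨fun x y => Subtype.ext ?_⟩⟩, fun h hh => by rw [pow_two, hall h hh]⟩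
  have h1 := hall _ x.2
  have h2 := hall _ y.2
  have h3 := hall _ (x * y).2
  change x.1 * y.1 = y.1 * x.1
  change x.1 * y.1 * (x.1 * y.1) = 1 at h3
  calc x.1 * y.1 = x.1 * (x.1 * y.1 * (x.1 * y.1)) * y.1 := by rw [h3, mul_one]
    _ = (x.1 * x.1) * y.1 * x.1 * (y.1 * y.1) := by simp only [mul_assoc]
    _ = y.1 * x.1 := by rw [h1, h2]; group

theorem comap_B (φ : X →* Matrix.ProjectiveSpecialLinearGroup (Fin 3) F) :
    (B F).comap φ = (A F).comap ((tau (F := F)).toMonoidHom.comp φ) := by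
  ext x; exact tau_mem_A.symm

theorem comap_A (φ : X →* Matrix.ProjectiveSpecialLinearGroup (Fin 3) F) :
    (A F).comap φ = (B F).comap ((tau (F := F)).toMonoidHom.comp φ) := by
  ext x; exact tau_mem_B.symm

theorem tau_surj {φ : X →* Matrix.ProjectiveSpecialLinearGroup (Fin 3) F}
    (hs : Function.Surjective φ) :
    Function.Surjective ((tau (F := F)).toMonoidHom.comp φ) := tau.surjective.comp hs

theorem tau_ker (φ : X →* Matrix.ProjectiveSpecialLinearGroup (Fin 3) F) :
    ((tau (F := F)).toMonoidHom.comp φ).ker = φ.ker := by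
  ext x; simp

theorem elemB (hF : Fintype.card F = 4) (φ : X →* Matrix.ProjectiveSpecialLinearGroup (Fin 3) F)
    (hs : Function.Surjective φ) (hk : φ.ker = Subgroup.center X)
    (hZ : IsElementaryAbelian 2 (Subgroup.center X)) :
    IsElementaryAbelian 2 ((B F).comap φ) := by
  rw [comap_B]
  exact elemA hF _ (tau_surj hs) ((tau_ker φ).trans hk) hZ

theorem comap_sup (φ : X →* Matrix.ProjectiveSpecialLinearGroup (Fin 3) F)
    (hs : Function.Surjective φ) : (A F).comap φ ⊔ (B F).comap φ = (U F).comap φ := by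
  rw [Subgroup.comap_sup_eq φ _ _ hs, A_sup_B]

theorem inf_eq (hF : Fintype.card F = 4) (φ : X →* Matrix.ProjectiveSpecialLinearGroup (Fin 3) F)
    (hs : Function.Surjective φ) (hk : φ.ker = Subgroup.center X)
    (hZ : IsElementaryAbelian 2 (Subgroup.center X)) (S : Subgroup X)
    (hS : S = (A F).comap φ ⊔ (B F).comap φ) :
    (A F).comap φ ⊓ (B F).comap φ = (Subgroup.center S).map S.subtype := by
  have hA := (elemA hF φ hs hk hZ).1
  have hB := (elemB hF φ hs hk hZ).1
  ext x
  constructor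
  · rintro ⟨hxA, hxB⟩
    have hxS : x ∈ S := hS ▸ Subgroup.mem_sup_left hxA
    refine ⟨⟨x, hxS⟩, Subgroup.mem_center_iff.2 fun g => Subtype.ext ?_, rfl⟩
    have : S ≤ Subgroup.centralizer {x} := by
      rw [hS]
      refine sup_le (fun g hg => ?_) (fun g hg => ?_)
      · rw [Subgroup.mem_centralizer_singleton_iff]
        exact congrArg Subtype.val (hA.is_comm.comm (⟨g, hg⟩ : (A F).comap φ) ⟨x, hxA⟩)
      · rw [Subgroup.mem_centralizer_singleton_iff]
        exact congrArg Subtype.val (hB.is_comm.comm (⟨g, hg⟩ : (B F).comap φ) ⟨x, hxB⟩)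
    exact Subgroup.mem_centralizer_singleton_iff.1 (this g.2)
  · rintro ⟨y, hy, rfl⟩
    obtain ⟨a, ha⟩ := hs (pi (u 1 0 0))
    obtain ⟨b, hb⟩ := hs (pi (u 0 1 0))
    have haS : a ∈ S := hS ▸ Subgroup.mem_sup_left (mem_A.2 ⟨1, 0, ha⟩)
    have hbS : b ∈ S := hS ▸ Subgroup.mem_sup_right (mem_B.2 ⟨1, 0, hb⟩)
    have hyU : φ y.1 ∈ U F := by
      have : y.1 ∈ (U F).comap φ := by rw [← comap_sup φ hs, ← hS]; exact y.2
      exact this
    have e1 := congrArg (fun t : S => φ t.1) (Subgroup.mem_center_iff.1 hy ⟨a, haS⟩)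
    have e2 := congrArg (fun t : S => φ t.1) (Subgroup.mem_center_iff.1 hy ⟨b, hbS⟩)
    simp only [Subgroup.coe_mul, map_mul, ha, hb] at e1 e2
    exact mem_inf_of_comm hyU e1.symm e2.symm

theorem iso_of_compl {G : Type*} [Group G] {N A C D : Subgroup G}
    (hN : N ≤ Subgroup.normalizer (A : Set G)) (hC : A ⊓ C = ⊥) (hC' : A ⊔ C = N)
    (hD : A ⊓ D = ⊥) (hD' : A ⊔ D = N) : Nonempty (C ≃* D) := by
  haveI : (A.subgroupOf N).Normal :=
    Subgroup.normal_subgroupOf_of_le_normalizer hN
  have key : ∀ C : Subgroup G, A ⊓ C = ⊥ → A ⊔ C = N →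
      Nonempty ((N ⧸ A.subgroupOf N) ≃* C) := by
    intro C h1 h2
    have hCN : C ≤ N := h2 ▸ le_sup_right
    have hAN : A ≤ N := h2 ▸ le_sup_left
    have : (C.subgroupOf N).IsComplement' (A.subgroupOf N) := by
      refine Subgroup.IsComplement'.symm ?_
      refine Subgroup.isComplement'_of_disjoint_and_mul_eq_univ ?_ ?_
      · rw [disjoint_iff, ← Subgroup.inf_subgroupOf_right, eq_bot_iff]
        intro x hx
        have : x.1 ∈ A ⊓ C := ⟨hx.1.1, hx.2⟩
        rw [h1] at this
        exact Subtype.ext this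
      · rw [← Subgroup.normal_mul, ← Subgroup.subgroupOf_sup hAN hCN, h2,
          Subgroup.subgroupOf_self, Subgroup.coe_top]
    exact ⟨this.QuotientMulEquiv.trans (Subgroup.subgroupOfEquivOfLe hCN)⟩
  obtain ⟨e1⟩ := key C hC hC'
  obtain ⟨e2⟩ := key D hD hD'
  exact ⟨e1.symm.trans e2⟩

theorem complA [Finite X] (hF : Fintype.card F = 4)
    (φ : X →* Matrix.ProjectiveSpecialLinearGroup (Fin 3) F)
    (hs : Function.Surjective φ) (hk : φ.ker = Subgroup.center X)
    (hZ : IsElementaryAbelian 2 (Subgroup.center X)) :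
    ∃ C : Subgroup X, C ≤ Subgroup.normalizer ((A F).comap φ : Set X) ∧ C ⊓ (A F).comap φ = ⊥ ∧
      (A F).comap φ ⊔ C = Subgroup.normalizer ((A F).comap φ : Set X) ∧
      Nonempty (↥C ≃* Matrix.ProjectiveSpecialLinearGroup (Fin 2) F) := by
  have hA := elemA hF φ hs hk hZ
  have hB := elemB hF φ hs hk hZ
  have h2 := two_eq_zero hF
  haveI : Fact (Nat.Prime 2) := ⟨Nat.prime_two⟩
  haveI : CharP F 2 := (CharP.charP_iff_prime_eq_zero Nat.prime_two).2 (by exact_mod_cast h2)
  have h3 : ∀ c : F, c ≠ 0 → c ^ 3 = 1 := fun c hc => by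
    have := FiniteField.pow_card_sub_one_eq_one c hc
    rwa [hF] at this
  have hN : Subgroup.normalizer ((A F).comap φ : Set X) = (A F ⊔ Q F).comap φ := by
    rw [← normalizer_A h3, Subgroup.comap_normalizer_eq_of_surjective _ hs]
  obtain ⟨D, hDB, hD1, hD2⟩ := Lib.PGroup.elemAb_exists_complement hB
    (inf_le_right : (A F).comap φ ⊓ (B F).comap φ ≤ (B F).comap φ)
  have hUN : (U F).comap φ ≤ Subgroup.normalizer ((A F).comap φ : Set X) := by
    rw [← Subgroup.comap_normalizer_eq_of_surjective _ hs]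
    refine Subgroup.comap_mono ?_
    rintro _ ⟨x, y, z, rfl⟩
    rw [Subgroup.mem_normalizer_iff]
    intro l
    constructor
    · rintro ⟨x', z', rfl⟩
      exact ⟨x', z' - x' * y, by
        rw [← map_inv, ← map_mul, ← map_mul, u_inv, u_mul, u_mul]; congr 2 <;> ring⟩
    · rintro ⟨x', z', h⟩
      refine ⟨x', z' + x' * y, ?_⟩
      rw [mul_inv_eq_iff_eq_mul, ← eq_inv_mul_iff_mul_eq] at h
      rw [h, ← map_inv, ← map_mul, ← map_mul, u_inv, u_mul, u_mul]; congr 2 <;> ring
  have hodd : ¬ 2 ∣ (U F).index := by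
    rw [← L34Par.map_unipSL, ← coe_sylowSL 3 2]
    exact ((sylowSL 3 F 2).mapSurjective pi_surj).not_dvd_index
  have hcop : (Nat.card ((A F).comap φ)).Coprime
      (((U F).comap φ).relIndex (Subgroup.normalizer ((A F).comap φ : Set X))) := by
    have hp : IsPGroup 2 ((A F).comap φ) := fun g => ⟨1, Subtype.ext (by
      rw [pow_one]; exact hA.2 _ g.2)⟩
    obtain ⟨n, hn⟩ := IsPGroup.iff_card.1 hp
    rw [hn]
    refine Nat.Coprime.pow_left _ ((Nat.Prime.coprime_iff_not_dvd Nat.prime_two).2 fun h => hodd ?_)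
    rw [← Subgroup.index_comap_of_surjective (U F) hs]
    exact h.trans (Subgroup.relIndex_dvd_index_of_le hUN)
  obtain ⟨C, hCN, hC1, hC2⟩ := Lib.Coprime.gaschutz_exists_of (A := D) hA.1
    (Subgroup.comap_mono (A_sup_B (F := F) ▸ le_sup_left)) hUN le_rfl hcop
    (by rw [← hD1, inf_assoc, inf_eq_right.2 hDB])
    (by rw [← comap_sup φ hs]
        refine le_antisymm (sup_le_sup_left hDB _) (sup_le le_sup_left ?_)
        rw [← hD2]
        exact sup_le_sup_right inf_le_left _)
  refine ⟨C, hCN, by rw [inf_comm, hC1], hC2, ?_⟩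
  have hinj : Function.Injective (φ.subgroupMap C) := by
    rw [injective_iff_map_eq_one]
    intro x hx
    have h1 : φ x.1 = 1 := congrArg Subtype.val hx
    have : x.1 ∈ (A F).comap φ ⊓ C := ⟨Subgroup.mem_comap.2 (h1 ▸ one_mem _), x.2⟩
    rw [hC1] at this
    exact Subtype.ext this
  have e1 : C ≃* C.map φ := MulEquiv.ofBijective _ ⟨hinj, φ.subgroupMap_surjective C⟩
  obtain ⟨e2⟩ := iso_of_compl (N := A F ⊔ Q F) (A := A F) (C := C.map φ) (D := Q F)
    (normalizer_A h3).ge
    (by rw [eq_bot_iff]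
        rintro _ ⟨h1, x, hx, rfl⟩
        have : x ∈ (A F).comap φ ⊓ C := ⟨h1, hx⟩
        rw [hC1, Subgroup.mem_bot] at this
        rw [this, map_one]; exact one_mem _)
    (by rw [← Subgroup.map_comap_eq_self_of_surjective hs (A F ⊔ Q F), ← hN, ← hC2,
          Subgroup.map_sup, Subgroup.map_comap_eq_self_of_surjective hs])
    A_inf_Q rfl
  have e3 : Matrix.SpecialLinearGroup (Fin 2) F ≃* Q F := MonoidHom.ofInjective pi_io_injective
  have hc : Subgroup.center (Matrix.SpecialLinearGroup (Fin 2) F) = ⊥ := by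
    rw [← Subgroup.card_eq_one, card_center_SL, hF]; simp
  exact ⟨e1.trans (e2.trans (e3.symm.trans
    ((QuotientGroup.quotientMulEquivOfEq hc).trans QuotientGroup.quotientBot).symm))⟩

theorem complB [Finite X] (hF : Fintype.card F = 4)
    (φ : X →* Matrix.ProjectiveSpecialLinearGroup (Fin 3) F)
    (hs : Function.Surjective φ) (hk : φ.ker = Subgroup.center X)
    (hZ : IsElementaryAbelian 2 (Subgroup.center X)) :
    ∃ C : Subgroup X, C ≤ Subgroup.normalizer ((B F).comap φ : Set X) ∧ C ⊓ (B F).comap φ = ⊥ ∧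
      (B F).comap φ ⊔ C = Subgroup.normalizer ((B F).comap φ : Set X) ∧
      Nonempty (↥C ≃* Matrix.ProjectiveSpecialLinearGroup (Fin 2) F) := by
  rw [comap_B]
  exact complA hF _ (tau_surj hs) ((tau_ker φ).trans hk) hZ

end core

/-- Let X be a finite quasisimple group whose centre is an elementary abelian 2-group and whose central quotient is isomorphic to the projective special linear group of dimension 3 over the field with 4 elements. Let T be a Sylow 2-subgroup of X and H ≠ K subgroups of T containing the centre Z(X) whose images in X/Z(X) are elementary abelian of order 16 (the two such subgroups of a Sylow 2-subgroup of the quotient). Then H and K are elementary abelian, H ∩ K is the centre of the subgroup they generate, and each of N_X(H), N_X(K) is a split extension of H, respectively K, by the projective special linear group of dimension 2 over the field with 4 elements (there is a complement isomorphic to that group). -/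
theorem result {X : Type*} [Group X] [Finite X] (hq : Cfsg.IsQuasisimple X) (hZ : Cfsg.IsElementaryAbelian 2 (Subgroup.center X))
    {F : Type*} [Field F] [Fintype F] (hF : Fintype.card F = 4) (hXL : Nonempty ((X ⧸ Subgroup.center X) ≃* Matrix.ProjectiveSpecialLinearGroup (Fin 3) F))
    (T : Sylow 2 X) (H K : Subgroup X) (hHK : H ≠ K) (hHT : H ≤ T) (hKT : K ≤ T) (hZH : Subgroup.center X ≤ H) (hZK : Subgroup.center X ≤ K)
    (hH : Cfsg.IsElementaryAbelian 2 (H.map (QuotientGroup.mk' (Subgroup.center X))) ∧ Nat.card ↥(H.map (QuotientGroup.mk' (Subgroup.center X))) = 16)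
    (hK : Cfsg.IsElementaryAbelian 2 (K.map (QuotientGroup.mk' (Subgroup.center X))) ∧ Nat.card ↥(K.map (QuotientGroup.mk' (Subgroup.center X))) = 16) :
    Cfsg.IsElementaryAbelian 2 H ∧ Cfsg.IsElementaryAbelian 2 K ∧
      H ⊓ K = (Subgroup.center ↥(H ⊔ K)).map (H ⊔ K).subtype ∧
      (∃ C : Subgroup X, C ≤ Subgroup.normalizer (H : Set X) ∧ C ⊓ H = ⊥ ∧ H ⊔ C = Subgroup.normalizer (H : Set X) ∧
        Nonempty (↥C ≃* Matrix.ProjectiveSpecialLinearGroup (Fin 2) F)) ∧
      (∃ C : Subgroup X, C ≤ Subgroup.normalizer (K : Set X) ∧ C ⊓ K = ⊥ ∧ K ⊔ C = Subgroup.normalizer (K : Set X) ∧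
        Nonempty (↥C ≃* Matrix.ProjectiveSpecialLinearGroup (Fin 2) F)) := by
  obtain ⟨e⟩ := hXL
  have h2 := two_eq_zero hF
  haveI : Fact (Nat.Prime 2) := ⟨Nat.prime_two⟩
  haveI : CharP F 2 := (CharP.charP_iff_prime_eq_zero Nat.prime_two).2 (by exact_mod_cast h2)
  let φ0 : X →* Matrix.ProjectiveSpecialLinearGroup (Fin 3) F :=
    e.toMonoidHom.comp (QuotientGroup.mk' _)
  have hs0 : Function.Surjective φ0 := e.surjective.comp (QuotientGroup.mk'_surjective _)
  obtain ⟨g, hg⟩ := MulAction.exists_smul_eq (Matrix.ProjectiveSpecialLinearGroup (Fin 3) F)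
    (T.mapSurjective hs0) ((sylowSL 3 F 2).mapSurjective pi_surj)
  let e' := e.trans (MulAut.conj g)
  let φ : X →* Matrix.ProjectiveSpecialLinearGroup (Fin 3) F :=
    e'.toMonoidHom.comp (QuotientGroup.mk' _)
  have hs : Function.Surjective φ := e'.surjective.comp (QuotientGroup.mk'_surjective _)
  have hk : φ.ker = Subgroup.center X := by
    ext x
    simp [φ, MonoidHom.mem_ker]
  have hT : (T : Subgroup X).map φ ≤ U F := by
    rintro _ ⟨t, ht, rfl⟩
    rw [← L34Par.map_unipSL, ← coe_sylowSL 3 2]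
    change _ ∈ ((sylowSL 3 F 2).mapSurjective pi_surj).toSubgroup
    rw [← hg]
    exact Subgroup.smul_mem_pointwise_smul _ (MulAut.conj g) _ ⟨t, ht, rfl⟩
  have key : ∀ H : Subgroup X, H ≤ T → Subgroup.center X ≤ H →
      (Cfsg.IsElementaryAbelian 2 (H.map (QuotientGroup.mk' (Subgroup.center X))) ∧
        Nat.card ↥(H.map (QuotientGroup.mk' (Subgroup.center X))) = 16) →
      H = (A F).comap φ ∨ H = (B F).comap φ := by
    intro H hHT hZH hH
    have h1 : (H.map φ).comap φ = H := Subgroup.comap_map_eq_self (hk ▸ hZH)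
    have h3 : H.map φ = (H.map (QuotientGroup.mk' (Subgroup.center X))).map e'.toMonoidHom :=
      (Subgroup.map_map _ _ _).symm
    have := eq_A_or_B (E := H.map φ) ((Subgroup.map_mono hHT).trans hT)
      (by rw [h3]
          rintro _ ⟨x, hx, rfl⟩
          rw [← map_pow, hH.1.2 x hx, map_one])
      (by rw [h3, Subgroup.card_map_of_injective e'.injective, hH.2, Nat.card_eq_fintype_card, hF])
    rcases this with h | h
    · exact Or.inl (by rw [← h, h1])
    · exact Or.inr (by rw [← h, h1])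
  rcases key H hHT hZH hH with rfl | rfl <;> rcases key K hKT hZK hK with rfl | rfl
  · exact absurd rfl hHK
  · exact ⟨elemA hF φ hs hk hZ, elemB hF φ hs hk hZ, inf_eq hF φ hs hk hZ _ rfl,
      complA hF φ hs hk hZ, complB hF φ hs hk hZ⟩
  · exact ⟨elemB hF φ hs hk hZ, elemA hF φ hs hk hZ,
      (inf_comm _ _).trans (inf_eq hF φ hs hk hZ _ (sup_comm _ _)),
      complB hF φ hs hk hZ, complA hF φ hs hk hZ⟩
  · exact absurd rfl hHK

end Cfsg.Agent.S3154
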