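import Cfsg.Statements.S3155
import Mathlib

set_option autoImplicit false
open Cfsg

namespace Cfsg.Agent.S3155


/-- Let B be the direct product of three cyclic groups of order 4. Then the automorphism of B inverting every element is not the square of any automorphism of B. -/
theorem result {B : Type*} [CommGroup B] [Finite B] (hB : Nonempty (B ≃* Multiplicative (ZMod 4 × ZMod 4 × ZMod 4)))
    (τ : B ≃* B) : τ.trans τ ≠ MulEquiv.inv B := by
  intro h
  obtain ⟨e⟩ := hB
  let g := e.toMonoidHom.comp (τ.toMonoidHom.comp e.symm.toMonoidHom)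
  let f : (ZMod 4 × ZMod 4 × ZMod 4) →ₗ[ZMod 4] (ZMod 4 × ZMod 4 × ZMod 4) :=
    (AddMonoidHom.mk' (fun v => (g (Multiplicative.ofAdd v)).toAdd)
      (fun v w => by simp)).toZModLinearMap 4
  have hf : f ∘ₗ f = (-1 : ZMod 4) • LinearMap.id := by
    refine LinearMap.ext fun v => ?_
    have := DFunLike.congr_fun h (e.symm (Multiplicative.ofAdd v))
    simp only [MulEquiv.trans_apply, MulEquiv.inv_apply] at this
    simp [f, g, this]
  haveI : Nontrivial (ZMod 4) := ⟨⟨0, 1, by decide⟩⟩
  have := congrArg LinearMap.det hf
  rw [LinearMap.det_comp, LinearMap.det_smul, LinearMap.det_id, Module.finrank_prod,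
    Module.finrank_prod, Module.finrank_self] at this
  generalize LinearMap.det f = d at this
  revert d
  decide

end Cfsg.Agent.S3155
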