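import Cfsg.Statements.S3156
import Cfsg.Agent.Lib.Unitary.HeisAut

set_option autoImplicit false
open Cfsg

namespace Cfsg.Agent.S3156

/-- If a finite group T is isomorphic to a Sylow 2-subgroup of the projective special unitary group of dimension 3 with parameter 4 (realised over the field with 16 elements), then no subgroup of the automorphism group of T is isomorphic to the symmetric group of degree 3. -/
theorem result {T : Type*} [Group T] [Finite T] (hT : (∃ (F : Type) (_ : Field F) (_ : Fintype F), Fintype.card F = 16 ∧ ∃ S : Sylow 2 (Cfsg.PSU 3 F 4), Nonempty (T ≃* ↥(S : Subgroup (Cfsg.PSU 3 F 4))))) (H : Subgroup (MulAut T)) : ¬ Nonempty (↥H ≃* Equiv.Perm (Fin 3)) := by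
  obtain ⟨F, _, _, hF, S, ⟨e₁⟩⟩ := hT
  obtain ⟨σ, h⟩ := Cfsg.Lib.Unitary.exists_isBar (q := 4) hF
  have : CharP F 2 := charP_of_card_eq_prime_pow (f := 4) hF
  obtain ⟨e₂⟩ := h.nonempty_sylow_PSU_equiv 2 S
  have e := MulAut.congr (e₁.trans e₂)
  rintro ⟨g⟩
  let ψ : Equiv.Perm (Fin 3) →* MulAut (Cfsg.Lib.Unitary.Heis h.invol) :=
    e.toMonoidHom.comp (H.subtype.comp g.symm.toMonoidHom)
  have hψ : Function.Injective ψ := e.injective.comp (Subtype.val_injective.comp g.symm.injective)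
  let t : Equiv.Perm (Fin 3) := Equiv.swap 0 1
  let c : Equiv.Perm (Fin 3) := Equiv.swap 0 1 * Equiv.swap 1 2
  obtain ⟨s, τ, -, h3, h4⟩ := h.invol_shape (φ := ψ t) (by
    rw [← map_mul, show t * t = 1 by decide, map_one]; exact one_mem _)
  obtain ⟨u, ρ, h5⟩ := h.exists_shape (ψ c)
  have c3 : ψ c * (ψ c * ψ c) = 1 := by rw [← map_mul, ← map_mul, show c * (c * c) = 1 by decide, map_one]
  have h6 := Cfsg.Lib.Unitary.IsBar.shape_unique (s := u * ρ (u * ρ u)) (s' := 1) (τ := ρ ^ 3) (τ' := 1)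
    (by simp) fun x => by
      obtain ⟨a, rfl⟩ := h.exists_heis x
      have h7 := congrArg (fun φ => (φ a).x) c3
      simp only [MulAut.mul_apply, h5, map_mul] at h7
      simpa [mul_assoc, pow_succ] using h7
  have h7 : ρ = 1 := by
    have h8 : ρ ^ 4 = 1 := by
      rw [← Cfsg.Lib.Linear.card_ringAut (p := 2) (f := 4) hF]; exact pow_card_eq_one'
    rwa [pow_succ, h6.2, one_mul] at h8
  subst h7
  have h8 : (u : F) ^ 3 = 1 := by simpa [pow_succ, mul_assoc] using h6.1
  have h9 : τ u = u := h3 _ (by rw [h.eq, pow_succ, h8, one_mul])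
  have h10 : ψ (c * c) ∈ Cfsg.Lib.Unitary.Heis.cenAut h.invol := fun a => by
    obtain ⟨a, rfl⟩ := (ψ (t * c)).surjective a
    rw [← MulAut.mul_apply, ← map_mul, show c * c * (t * c) = c * t by decide]
    simp only [map_mul, MulAut.mul_apply, h4, h5, RingAut.one_apply, h9]
    ring
  have h11 := h.cenAut_elem.2 _ h10
  rw [← map_pow, ← map_one ψ] at h11
  exact absurd (hψ h11) (by decide)

end Cfsg.Agent.S3156
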