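import Cfsg.Statements.S3161
import Cfsg.Agent.Lib.U3.Singer

set_option autoImplicit false
open Cfsg

namespace Cfsg.Agent.S3161

open Cfsg.Lib.U3 Cfsg.Lib.Unitary

/-- Let Q be a non-abelian finite 2-group admitting commuting automorphisms α of order 2 and ρ of order 2^n − 1, where n ≥ 2, such that the fixed points of α form an elementary abelian subgroup of order 2^n on whose nonidentity elements the group generated by ρ acts transitively. Then Q is isomorphic to a Sylow 2-subgroup of the projective special unitary group of dimension 3 with parameter 2^n (realised over the field with 4^n elements) or of the projective special linear group of dimension 3 over the field with 2^n elements. -/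
theorem result {Q : Type*} [Group Q] [Finite Q] (hQ : IsPGroup 2 Q) (hna : ¬ IsMulCommutative Q) (n : ℕ) (hn : 2 ≤ n)
    (α ρ : MulAut Q) (hα : orderOf α = 2) (hρ : orderOf ρ = 2 ^ n - 1) (hc : Commute α ρ)
    (C : Subgroup Q) (hC : ∀ x : Q, x ∈ C ↔ α x = x) (hCE : Cfsg.IsElementaryAbelian 2 C ∧ Nat.card ↥C = 2 ^ n)
    (htr : ∀ x y : Q, x ∈ C → y ∈ C → x ≠ 1 → y ≠ 1 → ∃ k : ℕ, (ρ ^ k) x = y) :
    (∃ (F : Type) (_ : Field F) (_ : Fintype F), Fintype.card F = 4 ^ n ∧
        ∃ S : Sylow 2 (Cfsg.PSU 3 F (2 ^ n)), Nonempty (Q ≃* ↥(S : Subgroup (Cfsg.PSU 3 F (2 ^ n))))) ∨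
      (∃ (F : Type) (_ : Field F) (_ : Fintype F), Fintype.card F = 2 ^ n ∧
        ∃ S : Sylow 2 (Matrix.ProjectiveSpecialLinearGroup (Fin 3) F), Nonempty (Q ≃* ↥(S : Subgroup (Matrix.ProjectiveSpecialLinearGroup (Fin 3) F)))) := by
  have h4 : 2 ^ 2 ≤ 2 ^ n := Nat.pow_le_pow_right two_pos hn
  obtain ⟨F, _, _, f, l, hF, h⟩ := exists_AR hQ
    (fun u => DFunLike.congr_fun (hα ▸ pow_orderOf_eq_one α : α ^ 2 = 1) u)
    (fun u => DFunLike.congr_fun hc.eq u) hC hCE.1.1 (fun w hw => by rw [← sq, hCE.1.2 w hw])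
    (by rw [hCE.2]; omega) (by rw [hCE.2, ← hρ, pow_orderOf_eq_one])
    fun v hv w hw => htr v w hv hw
  obtain ⟨x, y, A, B, c, q, -⟩ := (AR.main _ Q rfl h).resolve_left hna
  rw [hCE.2] at hF
  by_cases han : ∀ s t, A * s ^ 2 + c * s * t + B * t ^ 2 = 0 → s = 0 ∧ t = 0
  · have := Fintype.ofFinite (GaloisField 2 (2 * n))
    have h1 : Fintype.card (GaloisField 2 (2 * n)) = (2 ^ n) ^ 2 := by
      rw [← Nat.card_eq_fintype_card, GaloisField.card _ _ (by omega), pow_mul']
    obtain ⟨σ, b⟩ := exists_isBar h1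
    obtain ⟨e⟩ := q.heis han b hF
    obtain ⟨e'⟩ := b.nonempty_sylow_PSU_equiv 2 default
    exact Or.inl ⟨_, _, _, by rw [h1, ← pow_mul', pow_mul]; rfl, _, ⟨e.trans e'.symm⟩⟩
  · exact Or.inr ⟨F, _, _, Nat.card_eq_fintype_card.symm.trans hF, default, q.psl han _⟩

end Cfsg.Agent.S3161
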