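import Cfsg.Statements.S3162
import Cfsg.Agent.Lib.Unitary.HeisAut

set_option autoImplicit false
open Cfsg

namespace Cfsg.Agent.S3162

/-- Let S be a Sylow 2-subgroup of the special unitary group of dimension 3 with parameter q = 2^n (n ≥ 2; realised over the field with q² elements). Then the largest normal 2-subgroup of the automorphism group of S is elementary abelian of order 2^(2n²), and the automorphism group has order 2^(2n²) · 2n(q² − 1). -/
theorem result {S : Type*} [Group S] [Finite S] (n : ℕ) (hn : 2 ≤ n) {F : Type*} [Field F] [Fintype F] (hF : Fintype.card F = 4 ^ n)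
    (P : Sylow 2 ↥(Cfsg.SU 3 F (2 ^ n))) (hS : Nonempty (S ≃* ↥(P : Subgroup ↥(Cfsg.SU 3 F (2 ^ n))))) :
    Cfsg.IsElementaryAbelian 2 (Cfsg.pCore 2 (MulAut S)) ∧ Nat.card ↥(Cfsg.pCore 2 (MulAut S)) = 2 ^ (2 * n ^ 2) ∧
      Nat.card (MulAut S) = 2 ^ (2 * n ^ 2) * (2 * n * ((2 ^ n) ^ 2 - 1)) := by
  obtain ⟨σ, h⟩ := Cfsg.Lib.Unitary.exists_isBar (q := 2 ^ n) (hF.trans (by rw [← pow_mul, mul_comm, pow_mul]; norm_num))
  have : CharP F 2 := charP_of_card_eq_prime_pow (hF.trans (by rw [show 4 = 2 ^ 2 from rfl, ← pow_mul]))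
  obtain ⟨e₁⟩ := hS
  obtain ⟨e₂⟩ := h.nonempty_sylow_SU_equiv 2 P
  have e := MulAut.congr (e₁.trans e₂)
  refine ⟨?_, ?_, ?_⟩
  · rw [← Cfsg.Lib.Core.comap_pCore_equiv e, h.pCore_aut]
    obtain ⟨h1, h2⟩ := h.cenAut_elem
    refine ⟨⟨⟨fun a b => Subtype.ext (e.injective ?_)⟩⟩, fun a ha => e.injective ?_⟩
    · simpa only [Subgroup.coe_mul, map_mul] using congrArg Subtype.val (h1.1.1 ⟨e a, a.2⟩ ⟨e b, b.2⟩)
    · simpa using h2 _ ha
  · rw [Cfsg.Lib.Core.card_pCore_congr e, h.pCore_aut, h.card_cenAut rfl]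
  · rw [Nat.card_congr e.toEquiv, h.card_aut rfl]

end Cfsg.Agent.S3162
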