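import Cfsg.Statements.S3171
import Cfsg.Agent.Lib.Mathieu.Syl2
import Cfsg.Agent.Lib.Grp.Tst
import Cfsg.Agent.Lib.Grp.Pc
import Cfsg.Agent.Lib.PGroup.Basic

set_option autoImplicit false
open Cfsg

namespace Cfsg.Agent.S3171

open Cfsg.Lib Cfsg.Lib.Golay Cfsg.Lib.Calc Cfsg.Lib.Grp Cfsg.Lib.Mathieu MulAction Subgroup

set_option maxRecDepth 100000

theorem uniq {S : Type*} [Group S] [Finite S] {A₀ A : Subgroup S} (c0 : IsMulCommutative A₀) (s : ℕ → S) (h0 : s 0 = 1)
    (cov : ∀ x, ∃ i < 8, s i * x ∈ A₀) (h1 : ∀ i < 8, i ≠ 0 → Nat.card ↥(A₀ ⊓ centralizer {s i}) ≤ 16)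
    (h2 : ∀ i < 8, ∀ j < i, j ≠ 0 → Nat.card ↥(A₀ ⊓ (centralizer {s i} ⊓ centralizer {s j})) ≤ 8)
    (h3 : Nat.card ↥(A₀ ⊓ centralizer {s 7}) ≤ 4) (hc : Nat.card A₀ = 64) (c : IsMulCommutative A)
    (hA : Nat.card A = 64) : A = A₀ := by
  classical
  choose l l1 l2 using cov
  have key : ∀ a ∈ A, A ⊓ A₀ ≤ A₀ ⊓ centralizer {s (l a)} := fun a ha b hb => ⟨hb.2, mem_cen.2 (by
    have e1 : Commute b a := congrArg Subtype.val (c.is_comm.comm ⟨b, hb.1⟩ ⟨a, ha⟩)
    have e2 : Commute b (s (l a) * a) := congrArg Subtype.val (c0.is_comm.comm ⟨b, hb.2⟩ ⟨_, l2 a⟩)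
    have := e2.mul_right e1.inv_right
    rwa [mul_inv_cancel_right] at this)⟩
  have b1 : 64 ≤ Nat.card ↥(A ⊓ A₀) * ((A : Set S).toFinite.toFinset.image l).card := by
    have := Finset.card_le_mul_card_image (f := l) (A : Set S).toFinite.toFinset (Nat.card ↥(A ⊓ A₀)) fun i hi => by
      obtain ⟨a, ha, rfl⟩ := Finset.mem_image.1 hi
      rw [Set.Finite.mem_toFinset] at ha
      rw [← Set.ncard_coe_finset, card_eq_ncard]
      refine Set.ncard_le_ncard_of_injOn (fun x => a⁻¹ * x) (fun x hx => ?_) (fun x _ y _ e => mul_left_cancel e)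
      obtain ⟨x1, x2⟩ := Finset.mem_filter.1 hx
      rw [Set.Finite.mem_toFinset] at x1
      refine ⟨A.mul_mem (A.inv_mem ha) x1, ?_⟩
      have := mul_mem (inv_mem (l2 a)) (l2 x)
      rwa [x2, mul_inv_rev, mul_assoc, inv_mul_cancel_left] at this
    rwa [← Set.ncard_eq_toFinset_card, ← Nat.card_coe_set_eq, SetLike.coe_sort_coe, hA] at this
  have mem : ∀ i ∈ (A : Set S).toFinite.toFinset.image l, ∃ a ∈ A, l a = i := fun i hi => by simpa using hi
  generalize hI : (A : Set S).toFinite.toFinset.image l = I at b1 mem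
  have i8 : I ⊆ Finset.range 8 := fun i hi => by
    obtain ⟨a, -, rfl⟩ := mem i hi
    exact Finset.mem_range.2 (l1 a)
  have k : ∀ i ∈ I, A ⊓ A₀ ≤ A₀ ⊓ centralizer {s i} := fun i hi => by
    obtain ⟨a, ha, rfl⟩ := mem i hi
    exact key a ha
  by_cases h7 : 7 ∈ I
  · have := Nat.mul_le_mul ((card_le_of_le (k 7 h7)).trans h3) (Finset.card_le_card i8)
    rw [Finset.card_range] at this
    omega
  have i7 : I ⊆ Finset.range 7 := fun i hi => by
    have := Finset.mem_range.1 (i8 hi)
    have : i ≠ 7 := fun e => h7 (e ▸ hi)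
    exact Finset.mem_range.2 (by omega)
  by_cases h : ∃ i ∈ I, ∃ j ∈ I, j < i ∧ j ≠ 0
  · obtain ⟨i, hi, j, hj, a, b⟩ := h
    have := Nat.mul_le_mul ((card_le_of_le (le_inf inf_le_right (le_inf ((k i hi).trans inf_le_right)
      ((k j hj).trans inf_le_right)))).trans (h2 i (Finset.mem_range.1 (i8 hi)) j a b)) (Finset.card_le_card i7)
    rw [Finset.card_range] at this
    omega
  push Not at h
  by_cases h' : ∃ i ∈ I, i ≠ 0
  · obtain ⟨i, hi, a⟩ := h'
    have : I ⊆ {0, i} := fun j hj => by
      have := h i hi j hj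
      have := h j hj i hi
      simp only [Finset.mem_insert, Finset.mem_singleton]
      omega
    have := Nat.mul_le_mul ((card_le_of_le (k i hi)).trans (h1 i (Finset.mem_range.1 (i8 hi)) a))
      ((Finset.card_le_card this).trans Finset.card_le_two)
    omega
  push Not at h'
  refine eq_of_le_of_card_ge (fun a ha => ?_) (hc.trans hA.symm).le
  have := l2 a
  rwa [h' (l a) (hI ▸ Finset.mem_image_of_mem _ ((Set.Finite.mem_toFinset _).2 ha)), h0, one_mul] at this

/-- the central involution -/
def cz : ℕ := 976990105829392847739289005721748544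
/-- equality modulo the centre -/
noncomputable def eqZ (c d : ℕ) : Bool := Nat.beq c d || Nat.beq c (Calc.mul 24 5 d cz)
/-- commuting modulo the centre -/
noncomputable def cmZ (c d : ℕ) : Bool := eqZ (Calc.mul 24 5 d c) (Calc.mul 24 5 c d)
/-- generators of the extraspecial group -/
def qs : List ℕ := [175578564872656974657758213520828013, 567936037216981354411034449495333348, 127473959270180215513805888535904965, 769298237678039640540234586636027948, 966064462474775373887684870005701152, 561645638338386907819932002508211268]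
/-- chain for the extraspecial group -/
def LQ : List (ℕ × List ℕ) := [(1, [984818244535754528103549039458486304, 970076220132446284830085442418361792, 983555585391436845050202481383021024, 976990105829392847739289005721748544, 958241592925172551187255922413132288, 968819820085034082962198537347124512, 966064462474775373887684870005701152, 978232879086441799526177284869434624, 982021608937319164357533367611276480, 963253922990643266370642466366936704, 957297074270952116610733630057202368, 964807666673130604710404469913921120, 980754275699689251050013335820019936, 973945644914022110970435173357822304, 974897174784788785969838101811548832, 967655404336561563530357383050140992]),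
   (0, [984818244535754528103549039458486304, 29395921827946026794865043067537463, 769298237678039640540234586636027948, 569395182474747743155315348943013924, 520107653304826599579881071338489906, 195588707212493743259473963789125677, 229338649295338060071031103650007075, 146222987389865760054764078822557733])]
/-- coset representatives -/
def rs : List ℕ := [984818244535754528103549039458486304, 966182099583441531322624363496310816, 137935104962206912083219455161370656, 152787753589164035962070554553059360, 187761162640318985090947153890183200, 774329860015205609549212298664609824, 762266753286333140156757677255559200, 175697075464144327460689572615751712]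
/-- conjugating elements -/
def gs : List ℕ := [210904553083299388048395064246819346, 10799724621156611526073389696601394, 977839374622256025992013310794519205]
/-- at most two conjugates under the list -/
noncomputable def small (d : ℕ) : Bool := forceL (gs.map fun g => cjC 24 5 g d) fun l =>
  pairP l fun a b => eqZ a d || eqZ b d || eqZ a b

theorem main {T X : Type*} [Group T] [MulAction T X] [Finite T] [Finite X] {pt : ℕ → X} (hi : Inj 24 pt)
    (hf : Faithful T 24 pt) (hL : Chn 24 5 pt LS24 (⊤ : Subgroup T))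
    (ha : ∀ c, tOK (memCh 24 5 LS24) c = true → ∃ g : T, Rep 24 5 pt g c) :
    (∀ M : Subgroup (T ⧸ center T), IsCoatom M → Nat.card (center M) ≤ 8) ∧
      (∃ A : Subgroup (T ⧸ center T), IsElementaryAbelian 2 A ∧ Nat.card A = 64) ∧
      ∀ A B : Subgroup (T ⧸ center T), IsMulCommutative A → Nat.card A = 64 → IsMulCommutative B → Nat.card B = 64 →
        A = B := by
  have hl : ∀ {l : List ℕ}, Calc.allL l (tOK (memCh 24 5 LS24)) = true → In 24 5 pt (⊤ : Subgroup T) l :=
    fun h => top_list fun c hc => ha c (Calc.allL_iff.1 h c hc)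
  have cT : Nat.card T = 1024 := card_top.symm.trans ((hL.card hi).trans (by decide +kernel))
  obtain ⟨z, hz⟩ := ha cz (by decide +kernel)
  have u1 := hl (l := [772944015411928517621402148524933837, 13437865789356914524833720461072882, 527895589328264576433426282186193458, 777086895419801827550249324651887148]) (by decide +kernel)
  have u2 := Gen.of_surOK hi hf u1 (card_top.trans cT).le (by decide +kernel : surOK _ _ _ 1024 [168067972779914399363588455061346816, 136888087787562448873174046788526432, 169366547700953145426636546678267200, 187761162640318985090947153890183200, 137935104962206912083219455161370656, 966182099583441531322624363496310816]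
    [0, 0, 0, 0, 56401456910, 1145858826, 3331, 610564, 9730, 14927365]
    [(0, [0, 1, 2, 3], 8), (1, [4, 5, 6], 16), (3, [7, 8], 4), (4, [9], 2)] = true)
  have cZ : Nat.card (center T) = 2 := by
    have := (card_cenL hi hf (by decide) (by decide) hL u1 u2).trans (show _ = 2 by decide +kernel)
    rwa [top_inf_eq, coe_top, centralizer_univ] at this
  have z1 : z ∈ center T := mem_center_iff.2 fun g =>
    mem_cen.1 (u2.le_of_tst u1 (Tst.cen hi hf hz) (by decide +kernel) (mem_top g))
  have z2 : z ≠ 1 := hz.ne_of_ne hi (Rep.one (by decide)) (by decide +kernel)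
  have mZ : ∀ x, x ∈ center T ↔ x = 1 ∨ x = z := fun x => ⟨fun h => by
    obtain ⟨y, -, hy⟩ := (Nat.card_eq_two_iff' (1 : center T)).1 cZ
    by_contra! hn
    exact hn.2 (congrArg Subtype.val ((hy ⟨x, h⟩ fun e => hn.1 (congrArg Subtype.val e)).trans
      (hy ⟨z, z1⟩ fun e => z2 (congrArg Subtype.val e)).symm)), fun h => h.elim (· ▸ one_mem _) (· ▸ z1)⟩
  generalize hπ : QuotientGroup.mk' (center T) = π
  have πs : Function.Surjective π := hπ ▸ QuotientGroup.mk'_surjective _
  have cS : Nat.card (T ⧸ center T) = 512 := by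
    have := card_eq_card_quotient_mul_card_subgroup (center T)
    rw [cT, cZ] at this
    omega
  have eZ : ∀ {x y : T} {c d : ℕ}, Rep 24 5 pt x c → Rep 24 5 pt y d → (π x = π y ↔ eqZ c d = true) :=
    fun {x y c d} hx hy => by
      rw [← hπ, eq_comm, QuotientGroup.mk'_apply, QuotientGroup.mk'_apply, QuotientGroup.eq, mZ, inv_mul_eq_one,
        inv_mul_eq_iff_eq_mul, eq_comm, hx.eq_iff' hi hf hy, hx.eq_iff' hi hf (hy.mul hz), eqZ, Bool.or_eq_true,
        Nat.beq_eq, Nat.beq_eq]
  have tC : ∀ {y : T} {c : ℕ}, Rep 24 5 pt y c → Tst 24 5 pt ((centralizer {π y}).comap π) (cmZ c) :=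
    fun hy x d hx => by rw [mem_comap, mem_cen, ← map_mul, ← map_mul, eZ (hx.mul hy) (hy.mul hx), cmZ]
  have c2 : ∀ K : Subgroup (T ⧸ center T), Nat.card (K.comap π) = 2 * Nat.card K := fun K => by
    have h1 := (K.comap π).card_mul_index
    have h2 := K.card_mul_index
    rw [index_comap_of_surjective _ πs, cT] at h1
    rw [cS] at h2
    refine Nat.eq_of_mul_eq_mul_right (Nat.pos_of_ne_zero K.index_ne_zero_of_finite) ?_
    rw [h1, mul_assoc, h2]
    rfl
  have q1 := hl (l := qs) (by decide +kernel)
  have tQ : Tst 24 5 pt ((centralizer (π '' els T 24 5 pt qs)).comap π) fun d => Calc.allL qs fun c => cmZ c d :=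
    fun x d hx => by
      rw [mem_comap, mem_centralizer_iff, Calc.allL_iff]
      refine ⟨fun h c hc => ?_, ?_⟩
      · obtain ⟨y, -, hy⟩ := q1 c hc
        exact (tC hy x d hx).1 (mem_cen.2 (h _ ⟨y, ⟨c, hc, hy⟩, rfl⟩).symm)
      · rintro h _ ⟨y, ⟨c, hc, hy⟩, rfl⟩
        exact (mem_cen.1 ((tC hy x d hx).2 (h c hc))).symm
  generalize centralizer (π '' els T 24 5 pt qs) = A₀ at tQ
  have cQ : Nat.card (A₀.comap π) = 128 := by
    have := (ordCh_spec hi (by decide) (by decide) (fun g _ => tQ g) (Keep.true _) hL).trans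
      (show _ = 128 by decide +kernel)
    rwa [top_inf_eq] at this
  have cA : Nat.card A₀ = 64 := by
    have := c2 A₀
    omega
  have hQ : Chn 24 5 pt LQ (A₀.comap π) := tQ.chn hi ha (by decide +kernel) (cQ.trans (by decide +kernel)).le
  have sq : ∀ a ∈ A₀, a ^ 2 = 1 := fun a h => by
    obtain ⟨x, rfl⟩ := πs a
    obtain ⟨d, hd⟩ := hQ.exists_rep (by decide) h
    rw [pow_two, ← map_mul, ← map_one π, eZ (hd.mul hd) (Rep.one (by decide))]
    exact forall_ch hi hf (by decide) (by decide) (keep := fun _ _ => true) (fun _ => True)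
      (B := fun d => eqZ (Calc.mul 24 5 d d) (idc 24 5)) (fun _ _ _ _ _ _ _ => rfl) hQ.wk hQ.st (by decide +kernel)
      h trivial hd
  have c0 : IsMulCommutative A₀ := ⟨⟨fun a b =>
    (Commute.of_orderOf_dvd_two (fun x => orderOf_dvd_of_pow_eq_one (Subtype.ext (sq x x.2))) a b).eq⟩⟩
  refine ⟨fun M hM => ?_, ⟨A₀, ⟨c0, sq⟩, cA⟩, ?_⟩
  · have pS : IsPGroup 2 (T ⧸ center T) := IsPGroup.of_card (n := 9) cS
    have hM2 := Cfsg.Lib.PGroup.index_eq_of_isCoatom pS hM
    have g1 := hl (l := gs) (by decide +kernel)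
    have g2 : Calc.allL gs (invB 24 5) = true := by decide +kernel
    have h1 := (cntCh_spec hi (by decide) (by decide) (keep := fun _ _ => true) (P := small)
      (Q := fun g => ∃ d, Rep 24 5 pt g d ∧ small d = true)
      (fun g _ d hd => ⟨fun ⟨d', a, b⟩ => a.code_eq hi hd ▸ b, fun h => ⟨d, hd, h⟩⟩)
      (fun _ _ _ _ _ _ _ _ => rfl) hL.wk hL.st).trans_le (show _ ≤ 31 by decide +kernel)
    have h2 : Nat.card (((center M).map M.subtype).comap π) ≤ 31 := by
      rw [card_eq_ncard]
      refine (Set.ncard_le_ncard (fun x hx => ?_)).trans h1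
      obtain ⟨d, hd⟩ := hL.exists_rep (by decide) (mem_top x)
      refine ⟨mem_top x, d, hd, ?_⟩
      obtain ⟨w, w1, w2⟩ := hx
      have k : ∀ m ∈ M, m * π x * m⁻¹ = π x := fun m hm =>
        mul_inv_eq_of_eq_mul (w2 ▸ congrArg Subtype.val (mem_center_iff.1 w1 ⟨m, hm⟩))
      rw [small, forceL_eq, pairP_iff, List.pairwise_map]
      refine List.pairwise_of_forall_mem_list fun a ha' b hb' => ?_
      obtain ⟨u, -, hu⟩ := g1 a ha'
      obtain ⟨v, -, hv⟩ := g1 b hb'
      have a1 := hu.cjC (by decide) (Calc.allL_iff.1 g2 a ha') hd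
      have b1 := hv.cjC (by decide) (Calc.allL_iff.1 g2 b hb') hd
      rw [Bool.or_eq_true, Bool.or_eq_true, ← eZ a1 hd, ← eZ b1 hd, ← eZ a1 b1]
      simp only [map_mul, map_inv]
      by_cases m1 : π u ∈ M
      · exact .inl (.inl (k _ m1))
      by_cases m2 : π v ∈ M
      · exact .inl (.inr (k _ m2))
      have := k _ ((mul_mem_iff_of_index_two hM2).2 (iff_of_false (fun h => m2 ((inv_mem_iff).1 h)) m1))
      refine .inr ?_
      rw [← this]
      conv_lhs => rw [this]
      group
    rw [c2, card_map_of_injective (subtype_injective _)] at h2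
    obtain ⟨n, hn⟩ := IsPGroup.iff_card.1 ((pS.to_subgroup M).to_subgroup (center M))
    rw [hn] at h2 ⊢
    have : n < 4 := (Nat.pow_lt_pow_iff_right (a := 2) (by decide)).1 (by omega)
    exact Nat.pow_le_pow_right (n := 2) (i := n) (j := 3) (by decide) (by omega)
  · have r1 := hl (l := rs) (by decide +kernel)
    have r2 : ∀ i, ∃ g : T, i < 8 → Rep 24 5 pt g (Calc.nth rs i) := fun i => by
      by_cases h : i < 8
      · obtain ⟨g, -, hg⟩ := r1 _ (nth_mem' (l := rs) h)
        exact ⟨g, fun _ => hg⟩
      · exact ⟨1, fun h' => absurd h' h⟩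
    choose s hs using r2
    have o1 : ∀ i < 8, 2 * Nat.card ↥(A₀ ⊓ centralizer {π (s i)}) =
        ordCh 24 5 (cmZ (Calc.nth rs i)) (fun _ _ _ _ => true) LQ [] := fun i h => by
      rw [← c2, comap_inf]
      exact ordCh_spec hi (by decide) (by decide) (fun g _ => tC (hs i h) g) (Keep.true _) hQ
    have u : ∀ A : Subgroup (T ⧸ center T), IsMulCommutative A → Nat.card A = 64 → A = A₀ := fun A c hA => by
      refine uniq c0 (fun i => π (s i)) ?_ (fun y => ?_) (fun i h h' => ?_) (fun i h j a b => ?_) ?_ cA c hA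
      · rw [← map_one π]
        exact (eZ (hs 0 (by decide)) (Rep.one (by decide))).2 (by decide +kernel)
      · obtain ⟨x, rfl⟩ := πs y
        obtain ⟨d, hd⟩ := hL.exists_rep (by decide) (mem_top x)
        obtain ⟨i, h, e⟩ := anyB_iff.1 (forall_ch hi hf (by decide) (by decide) (keep := fun _ _ => true) (fun _ => True)
          (B := fun d => anyB 8 fun i => memCh 24 5 LQ (Calc.mul 24 5 (Calc.nth rs i) d)) (fun _ _ _ _ _ _ _ => rfl)
          hL.wk hL.st (by decide +kernel) (mem_top x) trivial hd)
        exact ⟨i, h, map_mul π _ _ ▸ (hQ.tst hi hf (by decide) (by decide) _ _ ((hs i h).mul hd)).2 e⟩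
      · have := (by decide +kernel : ∀ i < 8, i ≠ 0 → ordCh 24 5 (cmZ (Calc.nth rs i)) (fun _ _ _ _ => true) LQ [] ≤ 32) i h h'
        rw [← o1 i h] at this
        omega
      · have := (by decide +kernel : ∀ i < 8, ∀ j < i, j ≠ 0 → ordCh 24 5
          (fun d => band (cmZ (Calc.nth rs i) d) (cmZ (Calc.nth rs j) d)) (fun _ _ _ _ => true) LQ [] ≤ 16) i h j a b
        rw [← ordCh_spec hi (by decide) (by decide) (fun g _ => (tC (hs i h)).inf (tC (hs j (a.trans h))) g)
          (Keep.true _) hQ, ← comap_inf, ← comap_inf, c2] at this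
        omega
      · have := (o1 7 (by decide)).trans (show _ = 8 by decide +kernel)
        omega
    exact fun A B a b c d => (u A a b).trans (u B c d).symm

/-- Let P be a Sylow 2-subgroup of the Mathieu group of degree 24 and S the quotient of P by its centre. Then the centre of every maximal subgroup of S has order at most 8; S has an elementary abelian subgroup of order 64; and S has only one abelian subgroup of order 64. -/
theorem result (P : Sylow 2 ↥Cfsg.M24) :
    (∀ M : Subgroup (↥(P : Subgroup ↥Cfsg.M24) ⧸ Subgroup.center ↥(P : Subgroup ↥Cfsg.M24)), IsCoatom M →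
        Nat.card ↥(Subgroup.center ↥M) ≤ 8) ∧
      (∃ A : Subgroup (↥(P : Subgroup ↥Cfsg.M24) ⧸ Subgroup.center ↥(P : Subgroup ↥Cfsg.M24)),
        Cfsg.IsElementaryAbelian 2 A ∧ Nat.card ↥A = 64) ∧
      ∀ A B : Subgroup (↥(P : Subgroup ↥Cfsg.M24) ⧸ Subgroup.center ↥(P : Subgroup ↥Cfsg.M24)),
        IsMulCommutative ↥A → Nat.card ↥A = 64 → IsMulCommutative ↥B → Nat.card ↥B = 64 → A = B := by
  obtain ⟨S, hS, -⟩ := sylow24
  have e : (P : Subgroup M24) ≃* syl24 := (Sylow.equiv P S).trans (MulEquiv.subgroupCongr hS)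
  letI : MulAction (P : Subgroup M24) GolayPt := MulAction.compHom _ e.toMonoidHom
  have hf : Faithful (P : Subgroup M24) 24 G.pt := fun g h =>
    e.injective (((faithful_M24.subgroup syl24) (e g) h).trans (map_one e).symm)
  refine main inj_pt hf (chSyl24.transfer hf ⟨fun g hg => ⟨e.symm ⟨g, hg⟩, mem_top _, fun x => ?_⟩,
    fun g _ => ⟨e g, (e g).2, fun _ => rfl⟩⟩) fun c hc => ?_
  · change e (e.symm ⟨g, hg⟩) • x = _
    rw [e.apply_symm_apply]
    rfl
  · obtain ⟨g, hg, h⟩ := Mem.exists (chSyl24.tst inj_pt faithful_M24 (by decide) (by decide)) hc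
    refine ⟨e.symm ⟨g, hg⟩, h.of_smul_eq fun x => ?_⟩
    change e (e.symm ⟨g, hg⟩) • x = _
    rw [e.apply_symm_apply]
    rfl

end Cfsg.Agent.S3171
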