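import Cfsg.Statements.S3178
import Cfsg.Agent.Lib.Inv.Misc
import Cfsg.Agent.Lib.Transfer.Alperin
import Cfsg.Agent.Lib.PGroup.Critical
import Cfsg.Agent.Lib.PGroup.CyclicMax
import Cfsg.Agent.Lib.Coprime.Nilpotent

set_option autoImplicit false
open Cfsg

namespace Cfsg.Agent.S3178
open Cfsg.Lib.Inv

open Subgroup Cfsg.Lib Cfsg.Lib.Inv Cfsg.Lib.Transfer

/-- Groups with a modular Sylow 2-subgroup have a normal 2-complement. Let S, of order 2^(n+1) with n ≥ 3, be a Sylow 2-subgroup of a finite group G, and suppose S contains an element a of order 2^n and an involution b with b a b⁻¹ = a^(2^(n-1) + 1); so S is the non-abelian 2-group with a cyclic subgroup of index 2 that is neither dihedral, semidihedral nor generalized quaternion. Then G has a normal 2-complement. -/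
theorem result {G : Type*} [Group G] [Finite G]
    (S : Sylow 2 G) (n : ℕ) (hn : 3 ≤ n) (hS : Nat.card ↥(S : Subgroup G) = 2 ^ (n + 1))
    (a b : G) (ha : a ∈ (S : Subgroup G)) (hb : b ∈ (S : Subgroup G))
    (hao : orderOf a = 2 ^ n) (hbo : orderOf b = 2) (hrel : b * a * b⁻¹ = a ^ (2 ^ (n - 1) + 1)) :
    Cfsg.HasNormalPComplement 2 G := by
  obtain ⟨k, rfl⟩ : ∃ k, n = k + 3 := ⟨n - 3, by omega⟩
  have hbb : b * b = 1 := mul_self_of_orderOf hbo
  have hone : ∀ i : ℤ, a ^ i = 1 ↔ (8 * 2 ^ k : ℤ) ∣ i := fun i => by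
    rw [PGroup.zpow_eq_one_iff_of_orderOf hao]; push_cast; rw [pow_add, mul_comm]; norm_num
  have heq : ∀ i j c : ℤ, i - j = 8 * 2 ^ k * c → a ^ i = a ^ j := fun i j c h => by
    rw [← mul_inv_eq_one, ← zpow_sub, hone]; exact ⟨c, h⟩
  have hrel' : b * a * b⁻¹ = a ^ (4 * 2 ^ k + 1 : ℤ) := by
    rw [hrel, ← zpow_natCast]; congr 1; push_cast; ring
  have hc : ∀ i : ℤ, b * a ^ i * b⁻¹ = a ^ (i * (4 * 2 ^ k + 1)) := fun i => by
    rw [PGroup.conj_zpow_of_conj_eq hrel', ← zpow_mul]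
  have hk0 : (0 : ℤ) < 2 ^ k := by positivity
  have hba : b ∉ zpowers a := by
    rintro ⟨i, rfl⟩
    have : a ^ (4 * 2 ^ k : ℤ) = 1 := by
      have h1 := hrel'
      simp only [zpow_add_one] at h1
      rw [show a ^ i * a * (a ^ i)⁻¹ = a by group, eq_comm, mul_eq_right] at h1
      exact h1
    exact absurd (Int.le_of_dvd (by positivity) ((hone _).1 this)) (by omega)
  have hi2 : (zpowers a).relIndex (S : Subgroup G) = 2 := by
    have := card_mul_relIndex (zpowers_le.2 ha : zpowers a ≤ (S : Subgroup G))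
    rw [Nat.card_zpowers, hao, hS, pow_succ 2 (k + 3)] at this
    exact Nat.eq_of_mul_eq_mul_left (by positivity) this
  have hmem : ∀ x ∈ (S : Subgroup G), ∃ i : ℤ, x = a ^ i ∨ x = a ^ i * b := fun x hx => by
    by_cases h : x ∈ zpowers a
    · obtain ⟨i, rfl⟩ := h; exact ⟨i, Or.inl rfl⟩
    · obtain ⟨i, hi⟩ := (mul_mem_iff_of_index_two hi2 (a := ⟨x, hx⟩) (b := ⟨b, hb⟩)).2
        (iff_of_false h hba)
      refine ⟨i, Or.inr ?_⟩
      have : a ^ i = x * b := hi
      rw [this, mul_assoc, hbb, mul_one]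
  have hsq : ∀ i : ℤ, a ^ i * b * (a ^ i * b) = a ^ (i * (4 * 2 ^ k + 2)) := fun i => by
    calc a ^ i * b * (a ^ i * b) = a ^ i * (b * a ^ i * b⁻¹) * (b * b) := by group
      _ = _ := by rw [hc, hbb, mul_one, ← zpow_add]; congr 1; ring
  have hcomm : ∀ i : ℤ, b * a ^ (2 * i) = a ^ (2 * i) * b := fun i => by
    rw [← mul_inv_eq_iff_eq_mul, hc]; exact heq _ _ i (by ring)
  set z := a ^ (4 * 2 ^ k : ℤ) with hz
  have hzz : z * z = 1 := by rw [← zpow_add, hone]; exact ⟨1, by ring⟩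
  have hz1 : z ≠ 1 := fun h => absurd (Int.le_of_dvd (by positivity) ((hone _).1 h)) (by omega)
  have hzb : z * b = b * z := by rw [hz, show (4 * 2 ^ k : ℤ) = 2 * (2 * 2 ^ k) by ring, hcomm]
  have hzne : z ≠ b := fun h => hba (h ▸ zpow_mem_zpowers _ _)
  have hV := k4_sup (orderOf_eq_prime (by rw [pow_two, hzz]) hz1) hbo hzne hzb
  set V := zpowers z ⊔ zpowers b with hVdef
  have hzV : z ∈ V := mem_sup_left (mem_zpowers z)
  have hbV : b ∈ V := mem_sup_right (mem_zpowers b)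
  have hVS : V ≤ S := sup_le (zpowers_le.2 (zpow_mem ha _)) (zpowers_le.2 hb)
  have hpw : ∀ i : ℤ, (4 * 2 ^ k : ℤ) ∣ i → a ^ i = 1 ∨ a ^ i = z := by
    rintro _ ⟨c, rfl⟩
    rcases Int.even_or_odd' c with ⟨d, rfl | rfl⟩
    · exact Or.inl ((hone _).2 ⟨d, by ring⟩)
    · exact Or.inr (heq _ _ d (by ring))
  have hz' : ∀ i : ℤ, a ^ i * a ^ i = 1 → a ^ i = 1 ∨ a ^ i = z := fun i h => by
    rw [← zpow_add, hone] at h
    obtain ⟨c, h⟩ := h
    exact hpw i ⟨c, by linarith⟩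
  have hinv : ∀ x ∈ (S : Subgroup G), x * x = 1 → x ∈ V := fun x hx h => by
    obtain ⟨i, rfl | rfl⟩ := hmem x hx
    · rcases hz' i h with h | h <;> rw [h]
      exacts [one_mem _, hzV]
    · rw [hsq, hone] at h
      have h2 : (4 * 2 ^ k : ℤ) ∣ i * (2 * 2 ^ k + 1) := by
        obtain ⟨c, h⟩ := h; exact ⟨c, by linarith⟩
      have h3 : IsCoprime (4 * 2 ^ k : ℤ) (2 * 2 ^ k + 1) := by
        rw [show (4 * 2 ^ k : ℤ) = 2 ^ (k + 2) by ring]
        exact IsCoprime.pow_left ⟨-2 ^ k, 1, by ring⟩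
      rcases hpw i (h3.dvd_of_dvd_mul_right h2) with h | h <;> rw [h]
      exacts [mul_mem (one_mem _) hbV, mul_mem hzV hbV]
  have h4 : ∀ x ∈ (S : Subgroup G), x ^ 4 = 1 → ∃ i : ℤ, x = a ^ (2 * i) ∨ x = a ^ (2 * i) * b :=
    fun x hx h => by
    have h' : x * x * (x * x) = 1 := by rw [← h, show 4 = 2 + 2 from rfl, pow_add, pow_two]
    obtain ⟨i, rfl | rfl⟩ := hmem x hx
    · rw [← zpow_add, ← zpow_add, hone] at h'
      obtain ⟨c, h'⟩ := h'
      exact ⟨2 ^ k * c, Or.inl (by congr 1; linarith)⟩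
    · rw [hsq, ← zpow_add, hone] at h'
      obtain ⟨c, h'⟩ := h'
      exact ⟨2 ^ k * (c - i), Or.inr (by congr 2; linarith)⟩
  have h4c : ∀ x ∈ (S : Subgroup G), ∀ y ∈ (S : Subgroup G), x ^ 4 = 1 → y ^ 4 = 1 →
      x * y = y * x := fun x hx y hy h h' => by
    have e : ∀ i j : ℤ, Commute (a ^ i) (a ^ j) := fun i j => (Commute.refl a).zpow_zpow i j
    have e2 : ∀ i : ℤ, Commute (a ^ (2 * i)) b := fun i => (hcomm i).symm
    obtain ⟨i, rfl | rfl⟩ := h4 x hx h <;> obtain ⟨j, rfl | rfl⟩ := h4 y hy h'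
    · exact e _ _
    · exact (e _ _).mul_right (e2 _)
    · exact (e _ _).mul_left (e2 _).symm
    · exact ((e _ _).mul_right (e2 _)).mul_left ((e2 _).symm.mul_right (Commute.refl b))
  have hnV : ∀ T : Subgroup G, V ≤ T → T ≤ S → normalizer (T : Set G) ≤ normalizer (V : Set G) :=
    fun T h1 h2 g hg => mem_normalizer_of_conj_le (conj_le_iff.2 fun x hx =>
      hinv _ (h2 (conj_mem_of_mem_normalizer hg (h1 hx))) (by
        rw [conj_mul, k4_mul_self hV hx, mul_one, mul_inv_cancel]))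
  have hfix : ∀ g ∈ normalizer (V : Set G), g * z * g⁻¹ = z := fun g hg => by
    have hSN : (S : Subgroup G) ≤ normalizer (V : Set G) := le_normalizer.trans (hnV S hVS le_rfl)
    have h1 := not_dvd_relIndex_centralizer (p := 2) (P := S) (Q := V) (by
      rw [inf_eq_left.2 hSN]; exact sylow_not_dvd_relIndex S hSN)
    obtain ⟨c, hc', hcg⟩ := frattini_argument inf_le_right (S.isPGroup'.to_le inf_le_left) h1
      (normalizer_le_normalizer_centralizer' V) hg
    have hww : a ^ (2 * 2 ^ k : ℤ) * a ^ (2 * 2 ^ k : ℤ) = z := by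
      rw [← zpow_add, hz]; congr 1; ring
    have hw : a ^ (2 * 2 ^ k : ℤ) ∈ (S : Subgroup G) ⊓ centralizer (V : Set G) := by
      refine ⟨zpow_mem ha _, fun y hy => h4c y (hVS hy) _ (zpow_mem ha _) ?_ ?_⟩
      · rw [show 4 = 2 * 2 from rfl, pow_mul, pow_two y, k4_mul_self hV hy, one_pow]
      · rw [show 4 = 2 * 2 from rfl, pow_mul, pow_two (a ^ _), hww, pow_two, hzz]
    have h2 := (conj_mem_of_mem_normalizer hcg hw).1
    have h3 : c * g * z * (c * g)⁻¹ = g * z * g⁻¹ := by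
      rw [← mem_centralizer_iff_conj.1 hc' _ (conj_mem_of_mem_normalizer hg hzV)]
      conv_lhs => rw [show c * g * z * (c * g)⁻¹ = c * (g * z * g⁻¹) * c⁻¹ by group]
    have h5 : ∃ i : ℤ, g * z * g⁻¹ = a ^ i := by
      rw [← h3, ← hww, ← conj_mul]
      obtain ⟨i, h | h⟩ := hmem _ h2 <;> rw [h]
      · exact ⟨_, (zpow_add _ _ _).symm⟩
      · exact ⟨_, hsq i⟩
    obtain ⟨i, hi⟩ := h5
    rcases hz' i (by rw [← hi, conj_mul, hzz, mul_one, mul_inv_cancel]) with h | h
    · exact absurd (hi.trans h) (conj_ne_one hz1)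
    · exact hi.trans h
  refine hasNormalPComplement_of_fully_normalized S fun T hTS _ _ g hg hgo => ?_
  have hodd : Odd (orderOf g) := Nat.coprime_two_right.1 hgo
  have hT2 : IsPGroup 2 T := S.isPGroup'.to_le hTS
  have hgi : ∀ x ∈ T, x * x = 1 → g * x * g⁻¹ = x := fun x hx hxx => by
    by_cases hVT : V ≤ T
    · exact mem_centralizer_iff_conj.1 (k4_mem_centralizer_of_odd hV (hnV T hVT hTS hg) hodd hzV hz1
        (hfix g (hnV T hVT hTS hg))) x (hinv x (hTS hx) hxx)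
    · by_contra hne
      have hx1 : x ≠ 1 := by rintro rfl; simp at hne
      have hx' := conj_mem_of_mem_normalizer hg hx
      refine hVT ?_
      rw [k4_eq_sup hV (hinv x (hTS hx) hxx) (hinv _ (hTS hx') (by
        rw [conj_mul, hxx, mul_one, mul_inv_cancel])) hx1 (conj_ne_one hx1) (Ne.symm hne)]
      exact sup_le (zpowers_le.2 hx) (zpowers_le.2 hx')
  let W : Subgroup G :=
    { carrier := {x | x ∈ T ∧ x ^ 4 = 1}
      one_mem' := ⟨one_mem _, one_pow _⟩
      mul_mem' := fun {x y} hx hy => ⟨mul_mem hx.1 hy.1, by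
        rw [Commute.mul_pow (h4c x (hTS hx.1) y (hTS hy.1) hx.2 hy.2), hx.2, hy.2, one_mul]⟩
      inv_mem' := fun {x} hx => ⟨inv_mem hx.1, by rw [inv_pow, hx.2, inv_one]⟩ }
  have hWT : W ≤ T := fun x hx => hx.1
  have hcop : ∀ N : Subgroup G, IsPGroup 2 N → (Nat.card (zpowers g)).Coprime (Nat.card N) :=
    fun N hN => by
    obtain ⟨m, hm⟩ := hN.exists_card_eq
    rw [hm, Nat.card_zpowers]
    exact hgo.pow_right m
  have hW : zpowers g ≤ centralizer (W : Set G) :=
    Coprime.le_centralizer_of_prime_order_fixed (PGroup.isMulCommutative_iff.2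
      fun x hx y hy => h4c x (hTS hx.1) y (hTS hy.1) hx.2 hy.2)
      (zpowers_le.2 (mem_normalizer_of_conj_le (conj_le_iff.2 fun x hx =>
        ⟨conj_mem_of_mem_normalizer hg hx.1, by rw [conj_pow, hx.2, mul_one, mul_inv_cancel]⟩)))
      (hcop W (hT2.to_le hWT)) fun v hv hp => by
        have h2 : orderOf v = 2 := (Nat.prime_dvd_prime_iff_eq hp Nat.prime_two).1
          (hp.dvd_of_dvd_pow (n := 2) (orderOf_dvd_of_pow_eq_one hv.2))
        refine le_centralizer_iff.1 (zpowers_le.2 ?_ : zpowers g ≤ centralizer (zpowers v : Set G))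
          (mem_zpowers v)
        rw [zpowers_eq_closure, centralizer_closure, mem_centralizer_singleton_iff,
          ← mul_inv_eq_iff_eq_mul]
        exact hgi v hv.1 (mul_self_of_orderOf h2)
  exact PGroup.le_centralizer_of_fixes_order_four hT2 (zpowers_le.2 hg)
    (by rw [Nat.card_zpowers]; exact hgo)
    (fun x hx h => le_centralizer_iff.1 hW (show x ∈ W from ⟨hx, h⟩)) (mem_zpowers g)

end Cfsg.Agent.S3178
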