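import Cfsg.Statements.S3179
import Cfsg.Agent.Lib.Sz.Instances
import Cfsg.Agent.Lib.Sz.Borel
import Cfsg.Agent.Lib.Unitary.Center
import Cfsg.Agent.Lib.PSL2.Structure
import Cfsg.Agent.Lib.PSL2.Sub
import Cfsg.Agent.Lib.Linear.Basic

set_option autoImplicit false
open Cfsg

namespace Cfsg.Agent.S3179

open Matrix
open scoped MatrixGroups

theorem card_G : Nat.card (GL (Fin 5) (ZMod 2)) = 9999360 := by
  rw [Cfsg.Lib.Linear.card_GL, ZMod.card]
  simp only [Fintype.card_fin, Fin.prod_univ_five]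
  rfl

/-- an element of order three -/
def a : GL (Fin 5) (ZMod 2) :=
  ⟨!![0, 1, 0, 0, 0; 1, 1, 0, 0, 0; 0, 0, 1, 0, 0; 0, 0, 0, 1, 0; 0, 0, 0, 0, 1],
    !![1, 1, 0, 0, 0; 1, 0, 0, 0, 0; 0, 0, 1, 0, 0; 0, 0, 0, 1, 0; 0, 0, 0, 0, 1], by decide +kernel, by decide +kernel⟩

/-- another element of order three -/
def b : GL (Fin 5) (ZMod 2) :=
  ⟨!![1, 0, 0, 0, 0; 0, 1, 0, 0, 0; 0, 0, 0, 1, 0; 0, 0, 1, 1, 0; 0, 0, 0, 0, 1],
    !![1, 0, 0, 0, 0; 0, 1, 0, 0, 0; 0, 0, 1, 1, 0; 0, 0, 1, 0, 0; 0, 0, 0, 0, 1], by decide +kernel, by decide +kernel⟩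

theorem ab : a * a * a = 1 ∧ b * b * b = 1 ∧ a * b = b * a ∧ a ≠ 1 ∧ b ≠ 1 ∧ a * b ≠ 1 ∧ a ≠ b ∧ a ≠ a * b ∧
    b ≠ a * b := by
  simp only [Ne, Units.ext_iff, Units.val_mul, Units.val_one]
  decide +kernel

theorem no_nine (g : GL (Fin 5) (ZMod 2)) : orderOf g ≠ 9 := fun hg => by
  classical
  haveI : Fact (Nat.Prime 3) := ⟨by decide⟩
  obtain ⟨a3, b3, c, h1, h2, h3, h4, h5, h6⟩ := ab
  have ha : a ^ 3 = 1 := by rw [pow_three', a3]
  have hb : b ^ 3 = 1 := by rw [pow_three', b3]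
  have hc : Commute a b := c
  let P : Sylow 3 (GL (Fin 5) (ZMod 2)) := Sylow.ofCard (Subgroup.zpowers g) (by
    rw [Nat.card_zpowers, hg, card_G, show 9999360 = 3 ^ 2 * 1111040 from rfl,
      Nat.factorization_mul (by decide) (by decide), Nat.Prime.factorization_pow (by decide), Finsupp.add_apply,
      Finsupp.single_eq_same, Nat.factorization_eq_zero_of_not_dvd (by decide)]
    rfl)
  have pa : IsPGroup 3 (Subgroup.zpowers a) := IsPGroup.of_card (n := 1) (by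
    rw [Nat.card_zpowers, orderOf_eq_prime ha h1, pow_one])
  have pb : IsPGroup 3 (Subgroup.zpowers b) := IsPGroup.of_card (n := 1) (by
    rw [Nat.card_zpowers, orderOf_eq_prime hb h2, pow_one])
  have pab : IsPGroup 3 ↥(Subgroup.zpowers a ⊔ Subgroup.zpowers b) := pa.to_sup_of_normal_right' pb (by
    rw [Subgroup.zpowers_le]
    refine Subgroup.centralizer_le_normalizer _ ?_
    rintro _ ⟨k, rfl⟩
    exact (hc.zpow_right k).eq.symm)
  obtain ⟨Q, hQ⟩ := pab.exists_le_sylow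
  haveI : IsCyclic (Q : Subgroup (GL (Fin 5) (ZMod 2))) :=
    (Sylow.equiv P Q).isCyclic.1 (inferInstanceAs (IsCyclic (Subgroup.zpowers g)))
  haveI := Fintype.ofFinite (Q : Subgroup (GL (Fin 5) (ZMod 2)))
  have qa : a ∈ (Q : Subgroup _) := hQ (Subgroup.mem_sup_left (Subgroup.mem_zpowers a))
  have qb : b ∈ (Q : Subgroup _) := hQ (Subgroup.mem_sup_right (Subgroup.mem_zpowers b))
  have := IsCyclic.card_pow_eq_one_le (α := (Q : Subgroup (GL (Fin 5) (ZMod 2)))) (n := 3) (by decide)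
  have h7 : ({1, ⟨a, qa⟩, ⟨b, qb⟩, ⟨a * b, mul_mem qa qb⟩} : Finset (Q : Subgroup (GL (Fin 5) (ZMod 2)))) ⊆
      Finset.univ.filter fun x => x ^ 3 = 1 := by
    intro x hx
    simp only [Finset.mem_insert, Finset.mem_singleton] at hx
    rw [Finset.mem_filter]
    rcases hx with rfl | rfl | rfl | rfl
    · exact ⟨Finset.mem_univ _, one_pow _⟩
    · exact ⟨Finset.mem_univ _, Subtype.ext ha⟩
    · exact ⟨Finset.mem_univ _, Subtype.ext hb⟩
    · exact ⟨Finset.mem_univ _, Subtype.ext (show (a * b) ^ 3 = 1 by rw [hc.mul_pow, ha, hb, one_mul])⟩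
  have h8 := (Finset.card_le_card h7).trans this
  rw [Finset.card_insert_of_notMem (by simp [Subtype.ext_iff, h1.symm, h2.symm, h3.symm]),
    Finset.card_insert_of_notMem (by simp [Subtype.ext_iff, h4, h2]),
    Finset.card_insert_of_notMem (by simp [Subtype.ext_iff, h1]), Finset.card_singleton] at h8
  omega

theorem le_of_pow_dvd {n m : ℕ} (h : 2 ^ n ∣ m * 9999360) (hm : m ∣ 3) : n ≤ 10 := by
  have h1 : 2 ^ n ∣ 2 ^ 10 * 29295 := h.trans (mul_dvd_mul_right hm _)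
  exact (Nat.pow_dvd_pow_iff_le_right (by decide)).1
    ((Nat.Coprime.pow_left n (by decide)).dvd_of_dvd_mul_right h1)

/-- Let X be a section of the general linear group GL(5, 2), that is, a quotient of a subgroup of it. If X is isomorphic to PSL(2, 2^n) for some n ≥ 2, to a Suzuki group over the field with 2^(2m+1) elements for some m ≥ 1, or to PSU(3, 2^n) for some n ≥ 2, then X is isomorphic to PSL(2, 4). -/
theorem result {H : Subgroup (GL (Fin 5) (ZMod 2))}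
    {K : Subgroup ↥H} [K.Normal]
    (hX : (∃ (n : ℕ) (F : Type) (_ : Field F) (_ : Fintype F), 2 ≤ n ∧ Fintype.card F = 2 ^ n ∧
        Nonempty (↥H ⧸ K ≃* Matrix.ProjectiveSpecialLinearGroup (Fin 2) F)) ∨
      (∃ (m : ℕ) (F : Type) (_ : Field F) (_ : Fintype F), 1 ≤ m ∧ Fintype.card F = 2 ^ (2 * m + 1) ∧
        Nonempty (↥H ⧸ K ≃* ↥(Cfsg.Lie.Sz F (2 ^ (m + 1))))) ∨
      (∃ (n : ℕ) (F : Type) (_ : Field F) (_ : Fintype F), 2 ≤ n ∧ Fintype.card F = 4 ^ n ∧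
        Nonempty (↥H ⧸ K ≃* Cfsg.PSU 3 F (2 ^ n)))) :
    ∃ (F : Type) (_ : Field F) (_ : Fintype F), Fintype.card F = 4 ∧
      Nonempty (↥H ⧸ K ≃* Matrix.ProjectiveSpecialLinearGroup (Fin 2) F) := by
  have hd : Nat.card (H ⧸ K) ∣ 9999360 :=
    ((K.card_quotient_dvd_card).trans H.card_subgroup_dvd_card).trans card_G.dvd
  rcases hX with ⟨n, F, _, _, hn, hF, ⟨e⟩⟩ | ⟨m, F, _, _, hm, hF, ⟨e⟩⟩ | ⟨n, F, _, _, hn, hF, ⟨e⟩⟩
  · have hF' : Nat.card F = 2 ^ n := Nat.card_eq_fintype_card.trans hF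
    have ev : ¬ Odd (Nat.card F) := by
      rw [hF', Nat.not_odd_iff_even, Nat.even_pow]
      exact ⟨by decide, by omega⟩
    have h1 := Cfsg.Lib.PSL2.card_PSL2_mul (K := F)
    rw [← Nat.card_congr e.toEquiv, hF'] at h1
    have h2 : 2 ^ n * ((2 ^ n) ^ 2 - 1) ∣ Nat.gcd 2 (2 ^ n - 1) * 9999360 := h1 ▸ mul_dvd_mul_left _ hd
    have h3 : Nat.gcd 2 (2 ^ n - 1) = 1 := by
      obtain ⟨k, rfl⟩ : ∃ k, n = k + 1 := ⟨n - 1, by omega⟩
      have := Nat.one_le_two_pow (n := k)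
      exact Nat.coprime_two_left.2 ⟨2 ^ k - 1, by rw [pow_succ]; omega⟩
    rw [h3] at h2
    have h4 := le_of_pow_dvd ((dvd_mul_right _ _).trans h2) (one_dvd _)
    interval_cases n
    · exact ⟨F, inferInstance, inferInstance, hF, ⟨e⟩⟩
    · exfalso
      obtain ⟨g, hg⟩ := Cfsg.Lib.PSL2.exists_orderOf_eq_card_add_one (F := F)
      obtain ⟨g, rfl⟩ := Cfsg.Lib.PSL2.toP_surjective_of_even ev g
      rw [orderOf_injective _ Cfsg.Lib.PSL2.toP_injective, hF', ← e.symm.orderOf_eq] at hg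
      obtain ⟨x, hx⟩ := QuotientGroup.mk'_surjective K (e.symm g)
      have h5 : 9 ∣ orderOf (x : GL (Fin 5) (ZMod 2)) := by
        rw [Subgroup.orderOf_coe]
        exact hg.symm.dvd.trans (hx ▸ orderOf_map_dvd _ x)
      exact no_nine _ (orderOf_pow_orderOf_div (orderOf_pos _).ne' h5)
    all_goals exact absurd h2 (by decide)
  · exfalso
    rw [Nat.card_congr e.toEquiv, (Cfsg.Lib.Sz.lieModel hF).card_G, Nat.card_eq_fintype_card, hF] at hd
    have h1 : 2 ^ ((2 * m + 1) * 2) ∣ 1 * 9999360 := by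
      rw [pow_mul, one_mul]
      exact ((dvd_mul_right _ _).mul_right _).trans hd
    have h2 := le_of_pow_dvd h1 (one_dvd _)
    have h3 : m ≤ 2 := by omega
    interval_cases m <;> exact absurd hd (by decide)
  · exfalso
    have h1 := Cfsg.Lib.Unitary.card_PSU (q := 2 ^ n) (F := F) (by rw [hF, ← pow_mul, mul_comm, pow_mul]; rfl)
      (n := 3) (by decide)
    rw [← Nat.card_congr e.toEquiv, Cfsg.Lib.Unitary.guOrder_def] at h1
    simp only [Finset.prod_range_succ, Finset.prod_range_zero] at h1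
    norm_num at h1
    have h2 : (2 ^ n + 1) * (Nat.gcd 3 (2 ^ n + 1) * Nat.card (H ⧸ K)) =
        (2 ^ n + 1) * ((2 ^ n) ^ 3 * (((2 ^ n) ^ 2 - 1) * ((2 ^ n) ^ 3 + 1))) := by
      rw [mul_left_comm, h1]
      ring
    have h3 := Nat.eq_of_mul_eq_mul_left (Nat.succ_pos _) h2
    have h4 : (2 ^ n) ^ 3 * (((2 ^ n) ^ 2 - 1) * ((2 ^ n) ^ 3 + 1)) ∣ 3 * 9999360 :=
      h3 ▸ mul_dvd_mul (Nat.gcd_dvd_left _ _) hd
    have h5 : 2 ^ (n * 3) ∣ 3 * 9999360 := by
      rw [pow_mul]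
      exact (dvd_mul_right _ _).trans h4
    have h6 := le_of_pow_dvd h5 dvd_rfl
    have h7 : n ≤ 3 := by omega
    interval_cases n <;> exact absurd h4 (by decide)

end Cfsg.Agent.S3179
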