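import Cfsg.Statements.S3183
import Cfsg.Agent.Lib.Inv.Misc

set_option autoImplicit false
open Cfsg

namespace Cfsg.Agent.S3183
open Cfsg.Lib.Inv

open Subgroup Cfsg.Lib Cfsg.Lib.Transfer

theorem aux {G : Type*} [Group G] [Finite G]
    (hCI : ∀ S T : Sylow 2 G, S ≠ T → ∃ U : Sylow 2 G,
      (S : Subgroup G) ⊓ (T : Subgroup G) ≤ (U : Subgroup G) ⊓ centralizer (U : Set G))
    (S U : Sylow 2 G) {x : G} (hx : x ∈ (S : Subgroup G)) (hU : x ∈ centralizer (U : Set G)) :
    x ∈ centralizer (S : Set G) := by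
  have hU' : (U : Subgroup G) ≤ centralizer {x} := fun u hu =>
    mem_centralizer_singleton.2 (hU u hu)
  obtain ⟨c, hc, h1⟩ := exists_conj_le_of_not_dvd_relIndex' (sylow_not_dvd_relIndex U hU')
    (S.isPGroup'.to_le inf_le_left) (inf_le_right (a := (S : Subgroup G)))
  rw [conj_le_iff_le_inv_conj, ← coe_smul_sylow] at h1
  have h2 : ((c⁻¹ • U : Sylow 2 G) : Subgroup G) ≤ centralizer {x} := by
    rw [coe_smul_sylow, ← conj_eq_self_of_mem (inv_mem hc)]; exact conj_mono _ hU'
  by_contra hn
  obtain ⟨W, hW⟩ := hCI S (c⁻¹ • U) (fun e => hn fun s hs => mem_centralizer_singleton.1 (h2 (e ▸ hs)))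
  set R := (S : Subgroup G) ⊓ centralizer {x}
  have h3 := lt_inf_normalizer_of_lt S.isPGroup' (lt_of_le_of_ne (inf_le_left : R ≤ S) fun e =>
    hn fun s hs => mem_centralizer_singleton.1 (e.ge hs).2)
  have h4 : (W : Subgroup G) ≤ centralizer (R : Set G) :=
    le_centralizer_iff.1 ((le_inf inf_le_left h1).trans (hW.trans inf_le_right))
  obtain ⟨n, hn', h5⟩ := exists_conj_le_of_not_dvd_relIndex' (sylow_not_dvd_relIndex W
    (h4.trans (centralizer_le_normalizer _))) (S.isPGroup'.to_le inf_le_left)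
    (inf_le_right (a := (S : Subgroup G)))
  have h6 := h5.trans h4
  rw [conj_le_iff_le_inv_conj, conj_centralizer, conj_eq_self_iff.2 (inv_mem hn')] at h6
  exact h3.not_ge fun g hg => ⟨hg.1, mem_centralizer_singleton.2
    (h6 hg x ⟨hx, mem_centralizer_singleton.2 rfl⟩).symm⟩

/-- Let G be a finite group in which the intersection of any two distinct Sylow 2-subgroups is contained in the centre of some Sylow 2-subgroup, and let S be a Sylow 2-subgroup. Then for every x in S the centralizer of x in S is a Sylow 2-subgroup of the centralizer of x in G (no 2-subgroup centralizing x is larger), and for every other Sylow 2-subgroup T the intersection S ∩ T lies in both the centre of S and the centre of T. -/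
theorem result {G : Type*} [Group G] [Finite G]
    (hCI : ∀ S T : Sylow 2 G, S ≠ T → ∃ U : Sylow 2 G,
      (S : Subgroup G) ⊓ (T : Subgroup G) ≤ (Subgroup.center ↥(U : Subgroup G)).map (U : Subgroup G).subtype)
    (S : Sylow 2 G) :
    (∀ x ∈ (S : Subgroup G), ∀ P : Subgroup G, IsPGroup 2 ↥P → P ≤ Subgroup.centralizer ({x} : Set G) →
        Nat.card ↥P ≤ Nat.card ↥((S : Subgroup G) ⊓ Subgroup.centralizer ({x} : Set G))) ∧
    (∀ T : Sylow 2 G, T ≠ S →
        (S : Subgroup G) ⊓ (T : Subgroup G) ≤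
          (Subgroup.center ↥(S : Subgroup G)).map (S : Subgroup G).subtype ⊓
            (Subgroup.center ↥(T : Subgroup G)).map (T : Subgroup G).subtype) := by
  simp only [PGroup.map_subtype_center] at hCI ⊢
  have key : ∀ T : Sylow 2 G, T ≠ S → ∀ x ∈ (S : Subgroup G) ⊓ T,
      x ∈ centralizer (S : Set G) ∧ x ∈ centralizer (T : Set G) := fun T hT x hx => by
    obtain ⟨U, hU⟩ := hCI S T hT.symm
    exact ⟨aux hCI S U hx.1 (hU hx).2, aux hCI T U hx.2 (hU hx).2⟩
  refine ⟨fun x hx P hP hPx => ?_, fun T hT x hx => ⟨⟨hx.1, (key T hT x hx).1⟩, hx.2, (key T hT x hx).2⟩⟩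
  obtain ⟨T, hT⟩ := (isPGroup_sup_of_commute hP (S.isPGroup'.to_le (zpowers_le.2 hx))
    fun a ha b hb => (le_centralizer_iff.1 (show P ≤ centralizer (zpowers x : Set G) by
      rwa [zpowers_eq_closure, centralizer_closure]) hb a ha)).exists_le_sylow
  by_cases e : T = S
  · exact card_le_of_le (le_inf (e ▸ le_sup_left.trans hT) hPx)
  · rw [inf_eq_left.2 fun s hs => mem_centralizer_singleton.2
      ((key T e x ⟨hx, hT (mem_sup_right (mem_zpowers x))⟩).1 s hs),
      ← Nat.card_congr (T.equiv S).toEquiv]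
    exact card_le_of_le (le_sup_left.trans hT)

end Cfsg.Agent.S3183
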