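import Cfsg.Statements.S3184
import Cfsg.Agent.S3183
import Cfsg.Agent.Lib.ZStar.Main
import Cfsg.Agent.Lib.Transfer.Fusion

set_option autoImplicit false
open Cfsg

namespace Cfsg.Agent.S3184

open Subgroup Cfsg.Lib Cfsg.Lib.Transfer Cfsg.Lib.Inv

/-- Let G be a finite group in which the intersection of any two distinct Sylow 2-subgroups is contained in the centre of some Sylow 2-subgroup, and let S be a Sylow 2-subgroup. If C is a nontrivial cyclic characteristic subgroup of S, then the involution of C is central modulo the largest normal subgroup of odd order of G: each of its conjugates has the same image in G/O(G). -/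
theorem result {G : Type*} [Group G] [Finite G]
    (hCI : ∀ S T : Sylow 2 G, S ≠ T → ∃ U : Sylow 2 G,
      (S : Subgroup G) ⊓ (T : Subgroup G) ≤ (Subgroup.center ↥(U : Subgroup G)).map (U : Subgroup G).subtype)
    (S : Sylow 2 G) (C : Subgroup ↥(S : Subgroup G)) (hC : C ≠ ⊥) (hCc : IsCyclic ↥C) (hCh : C.Characteristic)
    (c : ↥(S : Subgroup G)) (hc : c ∈ C) (hc2 : orderOf c = 2) :
    ∀ g : G, (QuotientGroup.mk (s := Cfsg.oddCore G) (g * (c : G) * g⁻¹)) =
      QuotientGroup.mk (s := Cfsg.oddCore G) (c : G) := by
  have hc2' : orderOf (c : G) = 2 := by rwa [Subgroup.orderOf_coe]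
  have hfix : ∀ n ∈ normalizer ((S : Subgroup G) : Set G), n * c * n⁻¹ = c := fun n hn => by
    have h1 := (characteristic_iff_map_le.1 hCh ((S : Subgroup G).normalizerMonoidHom ⟨n, hn⟩))
      (mem_map_of_mem _ hc)
    exact congrArg Subtype.val (eq_of_isCyclic_of_orderOf_two hCc h1 hc
      ((MulEquiv.orderOf_eq _ c).trans hc2) hc2)
  have hz := ZStar.isolated_of_sylow S hc2' fun g hg => by
    have h1 : (S : Subgroup G) ≤ centralizer {(c : G)} := fun s hs =>
      mem_centralizer_singleton_iff_conj.2 (hfix s (le_normalizer hs))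
    have h2 := (S3183.result hCI S).1 _ hg (g ⋆ S) (g • S).isPGroup' fun s hs => by
      have := mem_centralizer_singleton.1 (h1 (mem_conj.1 hs))
      rw [mem_centralizer_singleton, show s * (g * c * g⁻¹) = g * (g⁻¹ * s * g * c) * g⁻¹ by group,
        this]
      group
    rw [card_conj] at h2
    have h3 := inf_eq_left.1 (eq_of_le_of_card_ge inf_le_left h2)
    obtain ⟨n, hn, e⟩ := burnside_fusion_centralizer S (X := zpowers (c : G)) (g := g)
      (by rwa [zpowers_eq_closure, centralizer_closure])
      (by rwa [conj_zpowers, zpowers_eq_closure, centralizer_closure])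
    rw [← e _ (mem_zpowers _), hfix n hn]
  intro g
  have := inv_mem (ZStar.zstar hz g)
  rw [← QuotientGroup.eq_one_iff] at this
  rw [← mul_inv_eq_one]
  simpa [mul_assoc] using this

end Cfsg.Agent.S3184
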