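import Cfsg.Statements.S3190
import Cfsg.Agent.Lib.Inv.Misc
import Cfsg.Agent.Lib.Coprime.Gaschutz

set_option autoImplicit false
open Cfsg

namespace Cfsg.Agent.S3190
open Cfsg.Lib.Inv

open Subgroup Cfsg.Lib

/-- Let p be an odd prime and, inside a finite group, let P be a p-subgroup normalized by a Klein four-group T. Let R be a subgroup of P, normal in P and normalized by T, such that P is the product of R with the centralizer of T in P. If T centralizes the centre of P, then T centralizes the centre of R. -/
theorem result {X : Type*} [Group X] [Finite X]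
    {p : ℕ} (hp : p.Prime) (hodd : Odd p) (P T R : Subgroup X) (hP : IsPGroup p ↥P) (hT : IsKleinFour ↥T)
    (hTP : T ≤ Subgroup.normalizer (P : Set X)) (hRP : R ≤ P) (hRn : (R.subgroupOf P).Normal)
    (hTR : T ≤ Subgroup.normalizer (R : Set X)) (hfac : R ⊔ (P ⊓ Subgroup.centralizer (T : Set X)) = P)
    (hZ : T ≤ Subgroup.centralizer (((Subgroup.center ↥P).map P.subtype : Subgroup X) : Set X)) :
    T ≤ Subgroup.centralizer (((Subgroup.center ↥R).map R.subtype : Subgroup X) : Set X) := by
  haveI := Fact.mk hp
  rw [PGroup.map_subtype_center] at hZ ⊢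
  set Z := R ⊓ centralizer (R : Set X)
  have hTZ : T ≤ normalizer (Z : Set X) :=
    Coprime.le_normalizer_inf hTR (Coprime.le_normalizer_centralizer hTR)
  have hPR : P ≤ normalizer (R : Set X) := (normal_subgroupOf_iff_le_normalizer hRP).1 hRn
  have hPZ : P ≤ normalizer (Z : Set X) :=
    Coprime.le_normalizer_inf hPR (Coprime.le_normalizer_centralizer hPR)
  have hW : ⁅Z, T⁆ ≤ Z := Coprime.commutator_le_of_le_normalizer hTZ
  rw [← commutator_eq_bot_iff_le_centralizer, commutator_comm]
  by_contra h0
  haveI := hP.isNilpotent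
  refine PGroup.inf_centralizer_ne_bot_of_nilpotent (S := P) (hW.trans (inf_le_left.trans hRP)) ?_ h0
    (eq_bot_iff.2 ?_)
  · rw [← hfac]
    exact sup_le ((le_centralizer_iff.1 (hW.trans inf_le_right)).trans (centralizer_le_normalizer _))
      (Coprime.le_normalizer_commutator (inf_le_left.trans hPZ)
        (inf_le_right.trans (centralizer_le_normalizer _)))
  · rw [← Coprime.centralizer_inf_commutator_eq_bot (PGroup.isMulCommutative_inf_centralizer R) hTZ
      (Coprime.coprime_card_of_isPGroup (hP.to_le (inf_le_left.trans hRP)) (by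
        rw [hT.card_four]; exact (Nat.coprime_two_left.2 hodd).pow_left 2))]
    exact le_inf ((inf_le_inf_right _ (hW.trans (inf_le_left.trans hRP))).trans
      (le_centralizer_iff.1 hZ)) inf_le_left

end Cfsg.Agent.S3190
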