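import Cfsg.Statements.S3191
import Cfsg.Agent.Lib.AltRec.PermModel

set_option autoImplicit false
open Cfsg

namespace Cfsg.Agent.S3191

/-- Let n ≥ 1 and r = 2 or 3, and let H be the centralizer in the alternating group of degree 4n + r of an involution moving exactly 4n points (a product of 2n disjoint transpositions). Let G be a finite group that has no normal subgroup of index 2 and that contains an involution t which is central in some Sylow 2-subgroup of G and whose centralizer is isomorphic to H. Then G has exactly n conjugacy classes of involutions. -/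
theorem result (n r : ℕ) (hn : 1 ≤ n) (hr : r = 2 ∨ r = 3)
    (α : ↥(alternatingGroup (Fin (4 * n + r)))) (hα : orderOf α = 2)
    (hα4 : (α : Equiv.Perm (Fin (4 * n + r))).support.card = 4 * n)
    {G : Type*} [Group G] [Finite G] (h2 : ∀ H : Subgroup G, H.Normal → H.index ≠ 2)
    (t : G) (ht : orderOf t = 2) (S : Sylow 2 G) (htS : t ∈ (S : Subgroup G))
    (htZ : ∀ s ∈ (S : Subgroup G), s * t = t * s)
    (hiso : Nonempty (↥(Subgroup.centralizer ({t} : Set G)) ≃*
      ↥(Subgroup.centralizer ({α} : Set ↥(alternatingGroup (Fin (4 * n + r))))))) :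
    Nat.card {c : ConjClasses G // ∃ x ∈ c.carrier, orderOf x = 2} = n := by
  obtain ⟨e⟩ := hiso
  obtain ⟨f⟩ := Cfsg.Lib.AltRec.KK_iso (X := Fin n × Bool) (R := Fin r) (by simp; omega) α hα
    (by simp [hα4]; omega)
  haveI : Nonempty (Fin n) := ⟨⟨0, hn⟩⟩
  have h := Cfsg.Lib.AltRec.count_of_KK (P := Fin n) (R := Fin r)
    (by rcases hr with rfl | rfl <;> decide) (a := ⟨0, by omega⟩) (b := ⟨1, by omega⟩) (by simp)
    (Cfsg.Lib.Transfer.pResidual_two_eq_top_iff.2 fun H hH =>
      h2 H (Subgroup.normal_of_index_eq_two hH) hH) ht (e.trans f.symm)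
  simpa using h

end Cfsg.Agent.S3191
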