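import Cfsg.Statements.S3195
import Cfsg.Agent.Lib.Inv.SylowInt

set_option autoImplicit false
open Cfsg

namespace Cfsg.Agent.S3195
open Cfsg.Lib.Inv

open Subgroup Cfsg.Lib Cfsg.Lib.Inv

theorem sq_fix {G : Type*} [Group G] {a x : G} (ho : Odd (orderOf x)) (h1 : x ≠ 1)
    (hi : a * x * a⁻¹ = x⁻¹) : a * (x * x) * a⁻¹ ≠ x * x := fun h => by
  rw [← conj_mul, hi, ← mul_inv_rev, inv_eq_iff_mul_eq_one] at h
  refine h1 (eq_one_of_odd_of_mul_self ho (eq_one_of_odd_of_mul_self ?_ h))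
  rw [← pow_two]
  exact Odd.of_dvd_nat ho (orderOf_pow_dvd 2)

theorem conj_eq_sq {G : Type*} [Group G] {a x : G} (hi : a * x * a⁻¹ = x⁻¹) :
    x * a * x⁻¹ = x * x * a := by
  rw [show x * a * x⁻¹ = x * (a * x * a⁻¹)⁻¹ * a by group, hi, inv_inv]

theorem comm_of_sq {G : Type*} [Group G] {x y : G} (ho : Odd (orderOf x)) (h : Commute (x * x) y) :
    Commute x y := by
  obtain ⟨k, hk⟩ := exists_sq_pow_eq_of_odd ho
  rw [← hk]; exact h.pow_left k

theorem core {G : Type*} [Group G] {a b x y : G} (hab : a * b = b * a)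
    (hx : Odd (orderOf x)) (hy : Odd (orderOf y)) (hx1 : x ≠ 1) (hy1 : y ≠ 1)
    (hax : a * x * a⁻¹ = x⁻¹) (hbx : b * x * b⁻¹ = x) (hay : a * y * a⁻¹ = y)
    (hby : b * y * b⁻¹ = y⁻¹)
    (h1 : ∀ g : G, Commute a (g * a * g⁻¹) ∨ Commute b (g * a * g⁻¹) ∨
      Commute (a * b) (g * a * g⁻¹))
    (h2 : ∀ g : G, Commute a (g * (a * b) * g⁻¹) ∨ Commute b (g * (a * b) * g⁻¹) ∨
      Commute (a * b) (g * (a * b) * g⁻¹)) : False := by
  have hxa : x * a * x⁻¹ = x * x * a := conj_eq_sq hax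
  have hay' : y * a = a * y := (mul_inv_eq_iff_eq_mul.1 hay).symm
  have e1 : y * x * a * (y * x)⁻¹ = y * (x * x) * y⁻¹ * a := by
    calc y * x * a * (y * x)⁻¹ = y * (x * a * x⁻¹) * y⁻¹ := by group
      _ = y * (x * x) * y⁻¹ * (y * a * y⁻¹) := by rw [hxa]; group
      _ = _ := by rw [hay', mul_inv_cancel_right]
  have cancel : ∀ {c u v : G}, Commute c (u * v) → Commute c v → c * u * c⁻¹ = u := fun h h' => by
    rw [mul_inv_eq_iff_eq_mul]
    have := h.mul_right h'.inv_right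
    rw [mul_inv_cancel_right] at this
    exact this
  have hxy : Commute x y := by
    rcases h1 (y * x) with h | h | h <;> rw [e1] at h
    · have := cancel h (Commute.refl a)
      rw [show a * (y * (x * x) * y⁻¹) * a⁻¹ = (a * y * a⁻¹) * (a * (x * x) * a⁻¹) * (a * y * a⁻¹)⁻¹
        by group, hay, mul_left_inj, mul_right_inj] at this
      exact absurd this (sq_fix hx hx1 hax)
    · have := cancel h hab.symm
      rw [show b * (y * (x * x) * y⁻¹) * b⁻¹ = (b * y * b⁻¹) * ((b * x * b⁻¹) * (b * x * b⁻¹)) *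
        (b * y * b⁻¹)⁻¹ by group, hby, hbx] at this
      refine comm_of_sq hx (comm_of_sq hy ?_).symm
      calc y * y * (x * x) = y * (y * (x * x) * y⁻¹) * y := by group
        _ = _ := by rw [← this]; group
    · have := cancel h ((Commute.refl a).mul_left hab.symm)
      rw [show a * b * (y * (x * x) * y⁻¹) * (a * b)⁻¹ = (a * (b * y * b⁻¹) * a⁻¹) *
        ((a * (b * x * b⁻¹) * a⁻¹) * (a * (b * x * b⁻¹) * a⁻¹)) * (a * (b * y * b⁻¹) * a⁻¹)⁻¹
        by group, hby, hbx, hax, ← conj_inv, hay] at this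
      have h3 : y * y * (x * x) * (y * y)⁻¹ = (x * x)⁻¹ := by
        calc y * y * (x * x) * (y * y)⁻¹ = y * (y * (x * x) * y⁻¹) * y⁻¹ := by group
          _ = y * (y⁻¹ * (x⁻¹ * x⁻¹) * y⁻¹⁻¹) * y⁻¹ := by rw [this]
          _ = _ := by group
      have h4 : Commute (y * y * (y * y)) (x * x) := by
        show _ = _
        rw [← mul_inv_eq_iff_eq_mul]
        calc y * y * (y * y) * (x * x) * (y * y * (y * y))⁻¹
            = y * y * (y * y * (x * x) * (y * y)⁻¹) * (y * y)⁻¹ := by group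
          _ = y * y * (x * x)⁻¹ * (y * y)⁻¹ := by rw [h3]
          _ = (y * y * (x * x) * (y * y)⁻¹)⁻¹ := (conj_inv).symm
          _ = _ := by rw [h3, inv_inv]
      have hy2 : Odd (orderOf (y * y)) := by
        rw [← pow_two]; exact Odd.of_dvd_nat hy (orderOf_pow_dvd 2)
      exact comm_of_sq hx (comm_of_sq hy (comm_of_sq hy2 h4)).symm
  have hc : a * b * (x * y) * (a * b)⁻¹ = (x * y)⁻¹ := by
    rw [show a * b * (x * y) * (a * b)⁻¹ = (a * (b * x * b⁻¹) * a⁻¹) * (a * (b * y * b⁻¹) * a⁻¹)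
      by group, hbx, hby, hax, ← conj_inv, hay, hxy.eq, mul_inv_rev]
  have e2 : x * y * (a * b) * (x * y)⁻¹ = x * y * (x * y) * (a * b) := conj_eq_sq hc
  have e3 : x * y * (x * y) = x * x * (y * y) := by
    rw [mul_assoc x y, ← mul_assoc y x, ← hxy.eq]; group
  rcases h2 (x * y) with h | h | h <;> rw [e2] at h
  · have := cancel h ((Commute.refl a).mul_right hab)
    rw [e3, show a * (x * x * (y * y)) * a⁻¹ = a * (x * x) * a⁻¹ * ((a * y * a⁻¹) * (a * y * a⁻¹))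
      by group, hay, mul_left_inj] at this
    exact sq_fix hx hx1 hax this
  · have := cancel h ((Commute.symm hab).mul_right (Commute.refl b))
    rw [e3, show b * (x * x * (y * y)) * b⁻¹ = ((b * x * b⁻¹) * (b * x * b⁻¹)) * (b * (y * y) * b⁻¹)
      by group, hbx, mul_right_inj] at this
    exact sq_fix hy hy1 hby this
  · refine sq_fix (Odd.of_dvd_nat (hx.mul hy) hxy.orderOf_mul_dvd_mul_orderOf) (fun e => ?_) hc
      (cancel h (Commute.refl _))
    rw [eq_inv_of_mul_eq_one_left e, ← conj_inv, hby, inv_inv, eq_comm, inv_eq_iff_mul_eq_one] at hbx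
    exact hy1 (eq_one_of_odd_of_mul_self hy hbx)

/-- Let A be a Klein four-subgroup of a finite group G. If every G-conjugate of every involution of A commutes with some involution of A (its centralizer meets A nontrivially), then A meets the largest normal 2-subgroup O₂(G) nontrivially. -/
theorem result {G : Type*} [Group G] [Finite G]
    (A : Subgroup G) (hA : IsKleinFour ↥A)
    (h : ∀ a ∈ A, a ≠ 1 → ∀ g : G, A ⊓ Subgroup.centralizer ({g * a * g⁻¹} : Set G) ≠ ⊥) :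
    A ⊓ Cfsg.pCore 2 G ≠ ⊥ := by
  intro hbot
  have hcm : ∀ c ∈ A, c ≠ 1 → ∀ g : G, ∃ d ∈ A, d ≠ 1 ∧ Commute d (g * c * g⁻¹) := fun c hc h1 g => by
    obtain ⟨⟨d, hd⟩, hd1⟩ := ne_bot_iff_exists_ne_one.1 (h c hc h1 g)
    exact ⟨d, hd.1, fun e => hd1 (Subtype.ext e), mem_centralizer_singleton_iff.1 hd.2⟩
  have hinv : ∀ c ∈ A, c ≠ 1 → ∃ x : G, x ≠ 1 ∧ Odd (orderOf x) ∧ c * x * c⁻¹ = x⁻¹ ∧
      ∃ d ∈ A, d ≠ 1 ∧ d ≠ c ∧ d * x * d⁻¹ = x := fun c hc h1 => by
    obtain ⟨x, hx1, hx, hi⟩ := exists_odd_inverted_of_not_mem_pCore (k4_mul_self hA hc)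
      fun h' => h1 (mem_bot.1 (hbot ▸ mem_inf.2 ⟨hc, h'⟩))
    obtain ⟨d, hd, hd1, hdc⟩ := hcm c hc h1 x
    have e : x * c * x⁻¹ = x * x * c := conj_eq_sq hi
    have h2 : Commute d (x * x) := by
      have := hdc.mul_right (Commute.inv_right (k4_comm hA hd hc))
      rwa [e, mul_inv_cancel_right] at this
    refine ⟨x, hx1, hx, hi, d, hd, hd1, ?_, ?_⟩
    · rintro rfl
      exact sq_fix hx hx1 hi (by rw [h2.eq, mul_inv_cancel_right])
    · rw [← (comm_of_sq hx h2.symm).eq, mul_inv_cancel_right]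
  have hthree : ∀ a ∈ A, ∀ b ∈ A, a ≠ 1 → b ≠ 1 → a ≠ b → ∀ c ∈ A, c ≠ 1 → ∀ g : G,
      Commute a (g * c * g⁻¹) ∨ Commute b (g * c * g⁻¹) ∨ Commute (a * b) (g * c * g⁻¹) :=
    fun a ha b hb ha1 hb1 hab c hc h1 g => by
    obtain ⟨d, hd, hd1, hdc⟩ := hcm c hc h1 g
    rcases (k4_mem_iff hA ha hb ha1 hb1 hab).1 hd with rfl | rfl | rfl | rfl
    · exact absurd rfl hd1
    · exact Or.inl hdc
    · exact Or.inr (Or.inl hdc)
    · exact Or.inr (Or.inr hdc)
  have hne : ∀ a ∈ A, ∀ b ∈ A, a ≠ b → a * b ≠ 1 := fun a ha b hb hab e =>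
    hab (by rw [eq_inv_of_mul_eq_one_left e, inv_eq_of_mul_self (k4_mul_self hA hb)])
  obtain ⟨a, ha, -, -, ha1, -⟩ := k4_exists hA
  obtain ⟨x, hx1, hx, hax, b, hb, hb1, hba, hbx⟩ := hinv a ha ha1
  obtain ⟨y, hy1, hy, hby, d, hd, hd1, hdb, hdy⟩ := hinv b hb hb1
  have hdx : d * x * d⁻¹ = x⁻¹ := by
    rcases (k4_mem_iff hA ha hb ha1 hb1 hba.symm).1 hd with rfl | rfl | rfl | rfl
    · exact absurd rfl hd1
    · exact hax
    · exact absurd rfl hdb
    · rw [show a * b * x * (a * b)⁻¹ = a * (b * x * b⁻¹) * a⁻¹ by group, hbx, hax]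
  exact core (k4_comm hA hd hb) hx hy hx1 hy1 hdx hbx hdy hby
    (hthree d hd b hb hd1 hb1 hdb d hd hd1)
    (hthree d hd b hb hd1 hb1 hdb _ (mul_mem hd hb) (hne d hd b hb hdb))

end Cfsg.Agent.S3195
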