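import Cfsg.Statements.S3196
import Cfsg.Agent.Lib.Core.PCore
import Mathlib

set_option autoImplicit false
open Cfsg

namespace Cfsg.Agent.S3196

open Subgroup

section
variable {G : Type*} [Group G]

theorem exists_of_mem_sup {a b g : G} (h : Commute a b) (hg : g ∈ zpowers a ⊔ zpowers b) :
    ∃ i j : ℤ, g = a ^ i * b ^ j := by
  let M : Subgroup G :=
    { carrier := {g | ∃ i j : ℤ, g = a ^ i * b ^ j}
      one_mem' := ⟨0, 0, by simp⟩
      mul_mem' := by
        rintro _ _ ⟨i, j, rfl⟩ ⟨k, l, rfl⟩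
        refine ⟨i + k, j + l, ?_⟩
        rw [zpow_add, zpow_add, mul_assoc, ← mul_assoc (b ^ j), ← (h.zpow_zpow k j).eq]; group
      inv_mem' := by
        rintro _ ⟨i, j, rfl⟩
        refine ⟨-i, -j, ?_⟩
        rw [(h.zpow_zpow (-i) (-j)).eq]; group }
  have : zpowers a ⊔ zpowers b ≤ M :=
    sup_le (zpowers_le.2 ⟨1, 0, by simp⟩) (zpowers_le.2 ⟨0, 1, by simp⟩)
  exact this hg

theorem mem_of_prime {p : ℕ} (hp : p.Prime) {y t : G} (hy : orderOf y = p) (ht : t ∈ zpowers y)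
    (ht1 : t ≠ 1) {C : Subgroup G} (htC : t ∈ C) : y ∈ C := by
  haveI := Fact.mk hp
  have hc : Nat.card (zpowers y) = p := by rw [Nat.card_zpowers, hy]
  have := mem_zpowers_of_prime_card hc (g := ⟨t, ht⟩) (g' := ⟨y, mem_zpowers y⟩)
    (fun h => ht1 (congrArg Subtype.val h))
  obtain ⟨k, hk⟩ := this
  have hk' : t ^ k = y := congrArg Subtype.val hk
  exact hk' ▸ C.zpow_mem htC k

theorem exch {p : ℕ} (hp : p.Prime) {x y t : G} (h : Commute x y) (hy : orderOf y = p)
    (ht : t ∈ zpowers x ⊔ zpowers y) (htx : t ∉ zpowers x) {C : Subgroup G} (hxC : x ∈ C)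
    (htC : t ∈ C) : y ∈ C := by
  obtain ⟨i, j, rfl⟩ := exists_of_mem_sup h ht
  refine mem_of_prime hp hy (zpow_mem (mem_zpowers y) j) (fun h1 => htx ?_)
    ((mul_mem_cancel_left (C.zpow_mem hxC i)).1 htC)
  rw [h1, mul_one]; exact zpow_mem (mem_zpowers x) i

theorem comm_of_mem_sup {x y t u : G} (ht : t ∈ zpowers x ⊔ zpowers y) (hx : Commute x u)
    (hy : Commute y u) : Commute t u := by
  have : zpowers x ⊔ zpowers y ≤ centralizer ({u} : Set G) :=
    sup_le (zpowers_le.2 (mem_centralizer_singleton_iff.2 hx))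
      (zpowers_le.2 (mem_centralizer_singleton_iff.2 hy))
  exact mem_centralizer_singleton_iff.1 (this ht)

theorem comm_of_conj_mem {p : ℕ} (hp : p.Prime) {x w : G} (hx : orderOf x = p) (hw : orderOf w = p)
    (h : x * w * x⁻¹ ∈ zpowers w) : Commute x w := by
  obtain ⟨k, hk⟩ := h
  have hk : w ^ k = x * w * x⁻¹ := hk
  have key : ∀ n : ℕ, x ^ n * w * (x ^ n)⁻¹ = w ^ (k ^ n) := by
    intro n
    induction n with
    | zero => simp
    | succ n ih =>
      rw [pow_succ', show x * x ^ n * w * (x * x ^ n)⁻¹ = x * (x ^ n * w * (x ^ n)⁻¹) * x⁻¹ by group,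
        ih, ← conj_zpow, ← hk, ← zpow_mul, pow_succ']
  have h1 := key p
  rw [← hx, pow_orderOf_eq_one, hx] at h1
  have h2 : w ^ (k ^ p) = w ^ k := by
    rw [zpow_eq_zpow_iff_modEq, hw]
    exact (Int.modEq_iff_dvd.2 (Int.prime_dvd_pow_self_sub hp k)).symm
  rw [h2, hk] at h1
  simp only [one_mul, inv_one, mul_one] at h1
  show x * w = w * x
  rw [← mul_inv_eq_iff_eq_mul]; exact h1.symm

theorem main [Finite G] {p : ℕ} (hp : p.Prime) (Pt : G → Prop) (ho : ∀ x, Pt x → orderOf x = p)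
    (hc : ∀ x g, Pt x → Pt (g * x * g⁻¹))
    (hex : ∃ x y, Pt x ∧ Pt y ∧ Commute x y ∧ y ∉ zpowers x)
    (ha : ∀ x y, Pt x → Pt y → Commute x y → y ∉ zpowers x → ∀ t ∈ zpowers x ⊔ zpowers y, t ≠ 1 → Pt t)
    (hb : ∀ x y, Pt x → Pt y → Commute x y → y ∉ zpowers x → ∀ w, Pt w →
      ∃ t ∈ zpowers x ⊔ zpowers y, t ≠ 1 ∧ Commute t w) :
    ∃ w, Pt w ∧ ∀ x, Pt x → Commute x w := by
  obtain ⟨x₀, y₀, hx₀, hy₀, c₀, n₀⟩ := hex
  have ne1 : ∀ x, Pt x → x ≠ 1 := by
    rintro x hx rfl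
    have := ho _ hx
    rw [orderOf_one] at this
    exact hp.one_lt.ne this
  have cz : ∀ {y t u : G}, Pt y → t ∈ zpowers y → t ≠ 1 → Commute t u → Commute y u :=
    fun {y t u} hy ht ht1 h => mem_centralizer_singleton_iff.1
      (mem_of_prime hp (ho _ hy) ht ht1 (C := centralizer {u}) (mem_centralizer_singleton_iff.2 h))
  obtain ⟨w, hw, hmax⟩ := Set.exists_max_image {w | Pt w}
    (fun w => {u | Pt u ∧ Commute u w}.ncard) (Set.toFinite _) ⟨x₀, hx₀⟩
  refine ⟨w, hw, fun x hx => ?_⟩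
  by_contra hxw
  have big : ∀ v, Pt v → Commute x v → ¬ ∀ u, Pt u → Commute u w → Commute u v := by
    intro v hv hxv h
    have := hmax v hv
    refine absurd this (not_le.2 (Set.ncard_lt_ncard ⟨fun u hu => ⟨hu.1, h u hu.1 hu.2⟩, fun h' => ?_⟩))
    exact hxw (h' (a := x) ⟨hx, hxv⟩).2
  obtain ⟨y, hy, cxy, nxy⟩ : ∃ y, Pt y ∧ Commute x y ∧ y ∉ zpowers x := by
    obtain ⟨t, ht, ht1, htx⟩ := hb _ _ hx₀ hy₀ c₀ n₀ x hx
    by_cases h : t ∈ zpowers x
    · have hm := mem_of_prime hp (ho _ hx) h ht1 ht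
      by_cases h1 : x₀ ∈ zpowers x
      · refine ⟨y₀, hy₀, comm_of_mem_sup hm c₀ (Commute.refl _), fun h2 => n₀ ?_⟩
        exact zpowers_le.2 (mem_of_prime hp (ho _ hx) h1 (ne1 _ hx₀) (mem_zpowers x₀)) h2
      · exact ⟨x₀, hx₀, comm_of_mem_sup hm (Commute.refl _) c₀.symm, h1⟩
    · exact ⟨t, ha _ _ hx₀ hy₀ c₀ n₀ t ht ht1, htx.symm, h⟩
  obtain ⟨z, hzm, hz1, czw⟩ := hb _ _ hx hy cxy nxy w hw
  have hz := ha _ _ hx hy cxy nxy z hzm hz1
  have czx : Commute z x := comm_of_mem_sup hzm (Commute.refl _) cxy.symm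
  have nxz : x ∉ zpowers z := fun h => hxw (by obtain ⟨k, rfl⟩ := h; exact czw.zpow_left k)
  have czw' : Commute z (x * w * x⁻¹) := (czx.mul_right czw).mul_right czx.inv_right
  have F : ∀ u, Pt u → Commute u w → ¬ Commute u z → Commute u (x * w * x⁻¹) := by
    intro u hu huw huz
    obtain ⟨t, ht, ht1, htu⟩ := hb _ _ hz hx czx nxz u hu
    have ntz : t ∉ zpowers z := fun h => huz (cz hz h ht1 htu).symm
    have hxm : x ∈ zpowers t ⊔ zpowers z :=
      exch hp czx (ho _ hx) ht ntz (mem_sup_right (mem_zpowers z)) (mem_sup_left (mem_zpowers t))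
    obtain ⟨i, j, e⟩ := exists_of_mem_sup (comm_of_mem_sup ht (Commute.refl _) czx.symm) hxm
    have : x * w * x⁻¹ = t ^ i * w * (t ^ i)⁻¹ := by
      rw [e, mul_assoc (t ^ i), (czw.zpow_left j).eq]; group
    rw [this]
    exact ((htu.symm.zpow_right i).mul_right huw).mul_right (htu.symm.zpow_right i).inv_right
  obtain ⟨u₀, hu₀, cu₀w, nu₀z⟩ : ∃ u, Pt u ∧ Commute u w ∧ ¬ Commute u z := by
    by_contra h
    push Not at h
    exact big z hz czx.symm h
  have Gl : ∀ u, Pt u → Commute u w → Commute u z → Commute u u₀ → Commute u (x * w * x⁻¹) := by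
    intro u hu huw huz huu
    have nu : u ∉ zpowers u₀ := fun h => nu₀z (cz hu₀ h (ne1 _ hu) huz)
    have h1 : u₀ * u ≠ 1 := fun h => nu (by
      rw [eq_inv_of_mul_eq_one_right h]; exact inv_mem (mem_zpowers _))
    have h2 := ha _ _ hu₀ hu huu.symm nu _
      (mul_mem (mem_sup_left (mem_zpowers _)) (mem_sup_right (mem_zpowers _))) h1
    have h3 := F _ h2 (cu₀w.mul_left huw) fun h => nu₀z (by
      have := h.mul_left huz.inv_left
      rwa [mul_inv_cancel_right] at this)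
    have := (F _ hu₀ cu₀w nu₀z).inv_left.mul_left h3
    rwa [inv_mul_cancel_left] at this
  have all : ∀ u, Pt u → Commute u w → Commute u (x * w * x⁻¹) := by
    intro u hu huw
    by_cases huz : Commute u z
    · by_cases h : u ∈ zpowers z
      · obtain ⟨k, rfl⟩ := h; exact czw'.zpow_left k
      · obtain ⟨t, ht, ht1, htu⟩ := hb _ _ hz hu huz.symm h u₀ hu₀
        have ntz : t ∉ zpowers z := fun h => nu₀z (cz hz h ht1 htu).symm
        have h1 := Gl t (ha _ _ hz hu huz.symm h t ht ht1) (comm_of_mem_sup ht czw huw)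
          (comm_of_mem_sup ht (Commute.refl _) huz) htu
        exact mem_centralizer_singleton_iff.1 (exch hp huz.symm (ho _ hu) ht ntz
          (C := centralizer {x * w * x⁻¹}) (mem_centralizer_singleton_iff.2 czw')
          (mem_centralizer_singleton_iff.2 h1))
    · exact F u hu huw huz
  have nw : x * w * x⁻¹ ∉ zpowers w := fun h => hxw (comm_of_conj_mem hp (ho _ hx) (ho _ hw) h)
  have cw := all w hw (Commute.refl _)
  obtain ⟨v, hv, hv1, hvx⟩ := hb _ _ hw (hc _ x hw) cw nw x hx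
  exact big v (ha _ _ hw (hc _ x hw) cw nw v hv hv1) hvx.symm fun u hu huw =>
    (comm_of_mem_sup hv huw.symm (all u hu huw).symm).symm
end

/-- Let p be a prime and K a set of subgroups of order p of a finite group G, closed under conjugation, such that at least two distinct members of K commute elementwise, and whenever two distinct members X, Y of K commute: every subgroup of order p of the group XY they generate belongs to K, and every member W of K has centralizer meeting XY nontrivially. Then some member V of K commutes elementwise with every member of K and lies in O_p(G); in particular G is not simple. -/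
theorem result {G : Type*} [Group G] [Finite G]
    {p : ℕ} (hp : p.Prime) (K : Set (Subgroup G)) (hK : ∀ X ∈ K, Nat.card ↥X = p)
    (hKc : ∀ X ∈ K, ∀ g : G, X.map (MulAut.conj g).toMonoidHom ∈ K)
    (hex : ∃ X ∈ K, ∃ Y ∈ K, X ≠ Y ∧ ∀ x ∈ X, ∀ y ∈ Y, x * y = y * x)
    (ha : ∀ X ∈ K, ∀ Y ∈ K, X ≠ Y → (∀ x ∈ X, ∀ y ∈ Y, x * y = y * x) →
      ∀ Z : Subgroup G, Z ≤ X ⊔ Y → Nat.card ↥Z = p → Z ∈ K)
    (hb : ∀ X ∈ K, ∀ Y ∈ K, X ≠ Y → (∀ x ∈ X, ∀ y ∈ Y, x * y = y * x) →
      ∀ W ∈ K, (X ⊔ Y) ⊓ Subgroup.centralizer (W : Set G) ≠ ⊥) :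
    (∃ V ∈ K, (∀ W ∈ K, ∀ v ∈ V, ∀ w ∈ W, v * w = w * v) ∧ V ≤ Cfsg.pCore p G) ∧ ¬ IsSimpleGroup G := by
  haveI := Fact.mk hp
  have gen : ∀ X ∈ K, ∃ x, zpowers x = X := by
    intro X hX
    haveI : IsCyclic X := isCyclic_of_prime_card (hK X hX)
    exact (X.isCyclic_iff_exists_zpowers_eq_top).1 this
  have cm : ∀ {x y : G}, Commute x y → ∀ a ∈ zpowers x, ∀ b ∈ zpowers y, a * b = b * a := by
    rintro x y h _ ⟨i, rfl⟩ _ ⟨j, rfl⟩
    exact h.zpow_zpow i j
  have ho : ∀ x, zpowers x ∈ K → orderOf x = p := fun x hx => by rw [← Nat.card_zpowers, hK _ hx]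
  have hc : ∀ x g, zpowers x ∈ K → zpowers (g * x * g⁻¹) ∈ K := fun x g hx => by
    have := hKc _ hx g
    rwa [MonoidHom.map_zpowers] at this
  have ne : ∀ {x y : G}, y ∉ zpowers x → zpowers x ≠ zpowers y := fun h e => h (e ▸ mem_zpowers _)
  obtain ⟨w, hw, hall⟩ := main hp (fun x => zpowers x ∈ K) ho hc
    (by
      obtain ⟨X, hX, Y, hY, hne, hXY⟩ := hex
      obtain ⟨x, rfl⟩ := gen X hX
      obtain ⟨y, rfl⟩ := gen Y hY
      refine ⟨x, y, hX, hY, hXY _ (mem_zpowers _) _ (mem_zpowers _), fun h => hne ?_⟩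
      exact (eq_of_le_of_card_ge (zpowers_le.2 h) (by rw [hK _ hX, hK _ hY])).symm)
    (by
      intro x y hx hy h n t ht ht1
      refine ha _ hx _ hy (ne n) (cm h) _ (zpowers_le.2 ht) ?_
      rw [Nat.card_zpowers]
      refine orderOf_eq_prime ?_ ht1
      obtain ⟨i, j, rfl⟩ := exists_of_mem_sup h ht
      rw [(h.zpow_zpow i j).mul_pow, ← zpow_natCast, ← zpow_natCast, ← zpow_mul, ← zpow_mul,
        mul_comm i, mul_comm j, zpow_mul, zpow_mul, zpow_natCast, zpow_natCast]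
      nth_rewrite 1 [← ho x hx]
      rw [← ho y hy, pow_orderOf_eq_one, pow_orderOf_eq_one]; simp)
    (by
      intro x y hx hy h n w hw
      obtain ⟨⟨t, ht, ht'⟩, ht1⟩ := (ne_bot_iff_exists_ne_one).1 (hb _ hx _ hy (ne n) (cm h) _ hw)
      exact ⟨t, ht, fun h => ht1 (Subtype.ext h), (ht' w (mem_zpowers w)).symm⟩)
  have hN : ∀ a ∈ normalClosure ({w} : Set G), ∀ b ∈ normalClosure ({w} : Set G), a * b = b * a := by
    have h1 : ∀ a ∈ Group.conjugatesOfSet ({w} : Set G), ∀ b ∈ Group.conjugatesOfSet ({w} : Set G),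
        a * b = b * a := by
      intro a ha b hb
      obtain ⟨_, ⟨⟩, ha⟩ := Group.mem_conjugatesOfSet_iff.1 ha
      obtain ⟨_, ⟨⟩, hb⟩ := Group.mem_conjugatesOfSet_iff.1 hb
      obtain ⟨g, rfl⟩ := isConj_iff.1 ha
      obtain ⟨k, rfl⟩ := isConj_iff.1 hb
      have := (hall _ (hc _ (k⁻¹ * g) hw)).eq
      calc g * w * g⁻¹ * (k * w * k⁻¹) = k * (k⁻¹ * g * w * (k⁻¹ * g)⁻¹ * w) * k⁻¹ := by group
        _ = _ := by rw [this]; group
    haveI := isMulCommutative_closure h1
    intro a ha b hb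
    exact setLike_mul_comm (s := Subgroup.closure _) ha hb
  have hP : IsPGroup p (normalClosure ({w} : Set G)) := by
    have : ∀ a ∈ normalClosure ({w} : Set G), a ^ p = 1 := by
      intro a ha
      induction ha using closure_induction with
      | mem a ha =>
        obtain ⟨_, ⟨⟩, ha⟩ := Group.mem_conjugatesOfSet_iff.1 ha
        obtain ⟨g, rfl⟩ := isConj_iff.1 ha
        rw [conj_pow, ← ho _ hw, pow_orderOf_eq_one]; simp
      | one => simp
      | mul a b ha hb iha ihb => rw [(show Commute a b from hN a ha b hb).mul_pow, iha, ihb, one_mul]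
      | inv a _ ih => rw [inv_pow, ih, inv_one]
    exact fun a => ⟨1, Subtype.ext (by simpa using this a a.2)⟩
  have hwN : w ∈ normalClosure ({w} : Set G) := subset_normalClosure rfl
  refine ⟨⟨_, hw, fun W hW => ?_, zpowers_le.2 (Lib.Core.le_pCore inferInstance hP hwN)⟩, fun hs => ?_⟩
  · obtain ⟨x, rfl⟩ := gen W hW
    exact cm (hall x hW).symm
  · have hw1 : w ≠ 1 := by
      rintro rfl
      have := ho _ hw
      rw [orderOf_one] at this
      exact hp.one_lt.ne this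
    rcases (inferInstance : (normalClosure ({w} : Set G)).Normal).eq_bot_or_eq_top with h | h
    · exact hw1 (by rwa [h, mem_bot] at hwN)
    · have top : ∀ X ∈ K, X = ⊤ := by
        intro X hX
        have : X.Normal := ⟨fun a ha g => by
          rw [hN g (h ▸ mem_top _) a (h ▸ mem_top _), mul_inv_cancel_right]; exact ha⟩
        refine this.eq_bot_or_eq_top.resolve_left ?_
        rintro rfl
        have := hK _ hX
        rw [card_bot] at this
        exact hp.one_lt.ne this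
      obtain ⟨X, hX, Y, hY, hne, -⟩ := hex
      exact hne ((top X hX).trans (top Y hY).symm)

end Cfsg.Agent.S3196
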