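import Cfsg.Statements.S3200
import Cfsg.Agent.Lib.Char.Burnside
import Cfsg.Agent.Lib.Hall.Solvable

set_option autoImplicit false
open Cfsg

namespace Cfsg.Agent.S3200

open Subgroup Cfsg.Lib Cfsg.Lib.Hall

theorem compl {G : Type*} [Group G] [Finite G] {D : Subgroup G} (hD : IsPiHall {2}ᶜ D) (P : Sylow 2 G) :
    IsComplement' (P : Subgroup G) D := by
  have hP : IsPiHallOf {2} (P : Subgroup G) ⊤ :=
    (isPiHallOf_singleton_iff Nat.prime_two).2 ⟨le_top, P.isPGroup', by
      rw [relIndex_top_right]; exact P.not_dvd_index⟩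
  refine isComplement'_of_coprime ?_ ?_
  · rw [card_mul_card_of_isPiHallOf_compl hP (isPiHallOf_top.2 hD), card_top]
  · obtain ⟨k, hk⟩ := P.isPGroup'.exists_card_eq
    rw [hk]
    exact Nat.Coprime.pow_left k ((isPiHall_compl_singleton_iff Nat.prime_two).1 hD).1.symm

universe u in
theorem solv (n : ℕ) : ∀ (H : Type u) [Group H] [Finite H], Nat.card H = n →
    ∀ C : Subgroup H, IsMulCommutative C → IsPiHall {2}ᶜ C → Group.IsSolvable H := by
  induction n using Nat.strong_induction_on with
  | _ n ih =>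
  intro H _ _ hn C hC hH
  by_cases hs : ∀ N : Subgroup H, N.Normal → N = ⊥ ∨ N = ⊤
  · obtain ⟨-, k, hk⟩ := (isPiHall_compl_singleton_iff Nat.prime_two).1 hH
    by_cases hb : C = ⊥
    · rw [hb, index_bot] at hk
      haveI := (IsPGroup.of_card hk).isNilpotent
      infer_instance
    · obtain ⟨⟨g, hg⟩, hg1⟩ := ne_bot_iff_exists_ne_one.1 hb
      have hg1 : g ≠ 1 := fun h => hg1 (Subtype.ext h)
      haveI : Nontrivial H := ⟨⟨g, 1, hg1⟩⟩
      haveI : IsSimpleGroup H := ⟨hs⟩
      have hle : C ≤ centralizer ({g} : Set H) := fun c hc =>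
        mem_centralizer_singleton_iff.2 (setLike_mul_comm hc hg)
      obtain ⟨j, -, hj⟩ := (Nat.dvd_prime_pow Nat.prime_two).1 (hk ▸ index_dvd_of_le hle)
      haveI := Fact.mk (Char.card_prime_of_simple_of_index_prime_pow hg1 Nat.prime_two hj)
      haveI : IsCyclic H := isCyclic_of_prime_card rfl
      exact Group.isSolvable_of_comm fun a b => (IsCyclic.isMulCommutative (α := H)).is_comm.comm a b
  · push Not at hs
    obtain ⟨N, hN, h1, h2⟩ := hs
    have e := N.card_mul_index
    have p1 : 1 < Nat.card N := (one_lt_card_iff_ne_bot N).2 h1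
    have p2 : 1 < N.index := one_lt_index_of_ne_top h2
    haveI : Group.IsSolvable N := ih _ (by rw [← hn, ← e]; nlinarith) N rfl ((C ⊓ N).subgroupOf N)
      ⟨⟨fun a b => Subtype.ext (Subtype.ext (setLike_mul_comm (s := C) a.2.1 b.2.1))⟩⟩
      (isPiHallOf_iff.1 (isPiHallOf_inf_normal hH)).2
    haveI : Group.IsSolvable (H ⧸ N) := ih _ (by rw [← hn, ← e, ← index_eq_card]; nlinarith) (H ⧸ N) rfl
      (C.map (QuotientGroup.mk' N)) inferInstance
      (isPiHall_map_of_surjective (QuotientGroup.mk'_surjective N) hH)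
    exact Group.isSolvable_of_ker_le_range N.subtype (QuotientGroup.mk' N) (by simp)

/-- Let H be a finite group in which a Sylow 2-subgroup has an abelian complement (an abelian subgroup meeting it trivially whose product with it is all of H). Then H is solvable, and every subgroup and every quotient group of H again has a Sylow 2-subgroup with an abelian complement. -/
theorem result {H : Type*} [Group H] [Finite H]
    (S : Sylow 2 H) (C : Subgroup H) (hC : IsMulCommutative ↥C) (hSC : Subgroup.IsComplement' (S : Subgroup H) C) :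
    Group.IsSolvable H ∧
    (∀ L : Subgroup H, ∃ (P : Sylow 2 ↥L) (D : Subgroup ↥L), IsMulCommutative ↥D ∧ Subgroup.IsComplement' (P : Subgroup ↥L) D) ∧
    (∀ (N : Subgroup H) [N.Normal], ∃ (P : Sylow 2 (H ⧸ N)) (D : Subgroup (H ⧸ N)),
      IsMulCommutative ↥D ∧ Subgroup.IsComplement' (P : Subgroup (H ⧸ N)) D) := by
  have hH : IsPiHall {2}ᶜ C := by
    refine (isPiHall_compl_singleton_iff Nat.prime_two).2 ⟨?_, ?_⟩
    · rw [← hSC.symm.index_eq_card]
      exact ((Nat.Prime.coprime_iff_not_dvd Nat.prime_two).2 S.not_dvd_index).symm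
    · rw [hSC.index_eq_card]
      exact S.isPGroup'.exists_card_eq
  haveI hs := solv _ H rfl C hC hH
  refine ⟨hs, fun L => ?_, fun N _ => ?_⟩
  · obtain ⟨D, hD⟩ := exists_isPiHall (G := L) (π := {2}ᶜ)
    obtain ⟨P⟩ : Nonempty (Sylow 2 L) := inferInstance
    refine ⟨P, D, ?_, compl hD P⟩
    obtain ⟨g, hg⟩ := exists_conj_le (π := {2}ᶜ) (H := C) (U := D.map L.subtype) hH.2
      (by rw [card_map_of_injective L.subtype_injective]; exact hD.1)
    refine ⟨⟨fun a b => Subtype.ext (Subtype.ext ?_)⟩⟩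
    have ha := hg ⟨_, ⟨_, a.2, rfl⟩, rfl⟩
    have hb := hg ⟨_, ⟨_, b.2, rfl⟩, rfl⟩
    have := setLike_mul_comm (s := C) ha hb
    rw [← map_mul (MulAut.conj g).toMonoidHom, ← map_mul (MulAut.conj g).toMonoidHom] at this
    exact (MulAut.conj g).injective this
  · obtain ⟨P⟩ : Nonempty (Sylow 2 (H ⧸ N)) := inferInstance
    exact ⟨P, C.map (QuotientGroup.mk' N), inferInstance,
      compl (isPiHall_map_of_surjective (QuotientGroup.mk'_surjective N) hH) P⟩

end Cfsg.Agent.S3200
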