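import Cfsg.Statements.S3201
import Cfsg.Agent.Lib.Inv.SylowInt

set_option autoImplicit false
open Cfsg

namespace Cfsg.Agent.S3201
open Cfsg.Lib.Inv

open Subgroup Cfsg.Lib Cfsg.Lib.Inv

theorem mc_inv {G : Type*} [Group G] [Finite G] {S : Subgroup G} {a b : G} {m : ℕ}
    (h : MC S a b m 0 1) {x : G} (hx : x ∈ S) (hxx : x * x = 1) (h1 : x ≠ 1) :
    x = a ^ ((2 : ℤ) ^ m) := by
  obtain ⟨i, rfl | rfl⟩ := h.mem_iff.1 hx
  · exact h.eq_z (zpow_mem_zpowers _ _) h1 hxx
  · rw [h.refl_sq, mul_zero, zero_add, one_mul] at hxx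
    exact absurd hxx h.z_ne_one

theorem mc_ncomm {G : Type*} [Group G] {S : Subgroup G} {a b : G} {m : ℕ}
    (h : MC S a b (m + 1) 0 1) : a * b ≠ b * a := fun e => by
  have h1 := h.conj
  rw [← e, mul_inv_cancel_right, eq_comm, ← mul_inv_eq_one, ← zpow_sub_one, h.zpow_eq_one_iff,
    zero_mul, show (0 : ℤ) - 1 - 1 = -2 by norm_num, dvd_neg] at h1
  have h2 : (0 : ℤ) < 2 ^ m := by positivity
  exact absurd (Int.le_of_dvd two_pos h1) (by rw [pow_succ, pow_succ]; omega)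

theorem mc_central {G : Type*} [Group G] [Finite G] {a b : G} {m : ℕ}
    (h : MC ⊤ a b (m + 1) 0 1) {x : G} (hx : ∀ g, g * x = x * g) : x * x = 1 := by
  obtain ⟨i, rfl | rfl⟩ := h.mem_iff.1 (mem_top x)
  · have h1 := h.conj_zpow i
    rw [hx b, mul_inv_cancel_right, zero_mul, zero_sub, mul_neg_one, zpow_neg,
      eq_inv_iff_mul_eq_one] at h1
    exact h1
  · refine absurd (mul_left_cancel (a := a ^ i) ?_) (mc_ncomm h)
    rw [← mul_assoc (a ^ i) b a, ← hx a]; group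

/-- Let S be a finite 2-group whose centre Z(S) has n ≥ 2 distinct maximal subgroups C₁, …, Cₙ with trivial intersection such that each quotient S/Cᵢ is a non-abelian group with exactly one involution (a generalized quaternion group). Then S is the internal direct product of an elementary abelian subgroup and a non-abelian subgroup with exactly one involution. -/
theorem result {S : Type*} [Group S] [Finite S]
    (hS : IsPGroup 2 S) (n : ℕ) (hn : 2 ≤ n) (C : Fin n → Subgroup ↥(Subgroup.center S))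
    (hCmax : ∀ i, IsCoatom (C i)) (hCinj : Function.Injective C) (hCint : ⨅ i, C i = ⊥)
    (hCq : ∀ i, ∃ (_ : ((C i).map (Subgroup.center S).subtype).Normal),
      ¬ IsMulCommutative (S ⧸ (C i).map (Subgroup.center S).subtype) ∧
      ∃! x : S ⧸ (C i).map (Subgroup.center S).subtype, orderOf x = 2) :
    ∃ E Q : Subgroup S, Cfsg.IsInternalDirectProduct E Q ⊤ ∧ Cfsg.IsElementaryAbelian 2 E ∧
      ¬ IsMulCommutative ↥Q ∧ ∃! x : ↥Q, orderOf x = 2 := by
  set D : Fin n → Subgroup S := fun i => (C i).map (center S).subtype with hD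
  have hDZ : ∀ i, D i ≤ center S := fun i => map_subtype_le _
  have hint : ∀ x : S, x ∈ center S → (∀ i, x ∈ D i) → x = 1 := fun x hx h => by
    have : (⟨x, hx⟩ : center S) ∈ ⨅ i, C i := mem_iInf.2 fun i => by
      obtain ⟨y, hy, e⟩ := h i
      exact (Subtype.ext e : y = ⟨x, hx⟩) ▸ hy
    rw [hCint] at this
    exact congrArg Subtype.val (mem_bot.1 this)
  have hZ : ∀ z ∈ center S, z * z = 1 := fun z hz => hint _ (mul_mem hz hz) fun i => by
    obtain ⟨_, hna, hu⟩ := hCq i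
    obtain ⟨a, b, m, h, -⟩ := exists_gens_of_quotient_unique hS _ hna hu
    refine (QuotientGroup.eq_one_iff _).1 (mc_central h (x := (z : S ⧸ D i)) fun g => ?_)
    obtain ⟨g, rfl⟩ := QuotientGroup.mk_surjective g
    exact congrArg QuotientGroup.mk (mem_center_iff.1 hz g)
  have hlift : ∀ (i : Fin n) (x : S), x ∉ D i → x * x ∈ D i → ∀ y : S, y ∉ D i → y * y ∈ D i →
      x * y⁻¹ ∈ D i := fun i x hx hxx y hy hyy => by
    obtain ⟨_, -, hu⟩ := hCq i
    have e : (x : S ⧸ D i) = y := hu.unique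
      (orderOf_eq_two_iff.2 ⟨fun h => hx ((QuotientGroup.eq_one_iff _).1 h),
        (QuotientGroup.eq_one_iff (x * x)).2 hxx⟩)
      (orderOf_eq_two_iff.2 ⟨fun h => hy ((QuotientGroup.eq_one_iff _).1 h),
        (QuotientGroup.eq_one_iff (y * y)).2 hyy⟩)
    exact (QuotientGroup.eq_one_iff _).1 (by rw [QuotientGroup.mk_mul, QuotientGroup.mk_inv, e,
      mul_inv_cancel])
  have hcent : ∀ (i : Fin n) (x : S), x * x ∈ D i → x ∈ center S := fun i x hxx => by
    by_cases hx : x ∈ D i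
    · exact hDZ i hx
    obtain ⟨y, -, hy⟩ := SetLike.exists_of_lt (lt_top_iff_ne_top.2 (hCmax i).1)
    have hy' : (y : S) ∉ D i := fun ⟨w, hw, e⟩ => hy ((Subtype.ext e : w = y) ▸ hw)
    exact (mul_mem_cancel_right (inv_mem y.2)).1
      (hDZ i (hlift i x hx hxx y hy' (by rw [hZ y y.2]; exact one_mem _)))
  set i0 : Fin n := ⟨0, by omega⟩
  obtain ⟨hN, hna, hu⟩ := hCq i0
  obtain ⟨a, b, m, h, h1, w, hw, h2⟩ := exists_gens_of_quotient_unique hS _ hna hu
  have hc := commutator_eq_zpowers (fun g => (h1 g).imp fun z hz => ⟨hDZ i0 hz.1, hz.2⟩)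
    (hDZ i0 hw) h2
  have hex : ∀ i, ∃ z ∈ _root_.commutator S, z ∈ center S ∧ z ∉ D i := fun i => by
    obtain ⟨_, hna, -⟩ := hCq i
    have h3 : (_root_.commutator S).map (QuotientGroup.mk' (D i)) ≠ ⊥ := fun h => hna (by
      rw [Subgroup.map_eq_bot_iff, QuotientGroup.ker_mk'] at h
      exact Normal.quotient_commutative_iff_commutator_le.2 h)
    obtain ⟨_, ⟨z, hz, rfl⟩, ho⟩ := exists_involution_mem_of_isPGroup
      ((hS.to_quotient (D i)).to_subgroup _) h3
    obtain ⟨ho1, ho2⟩ := orderOf_eq_two_iff.1 ho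
    exact ⟨z, hz, hcent i z ((QuotientGroup.eq_one_iff (z * z)).1 ho2),
      fun h => ho1 ((QuotientGroup.eq_one_iff z).2 h)⟩
  obtain ⟨z, hzc, hz, hz0⟩ := hex i0
  have hzo : ∀ (i : Fin n) (z : S), z ∈ center S → z ∉ D i → orderOf z = 2 := fun i z hz h =>
    orderOf_eq_two_iff.2 ⟨fun e => h (e ▸ one_mem _), hZ z hz⟩
  have hzD : ∀ i, z ∉ D i := fun i => by
    obtain ⟨z', h1, h2, h3⟩ := hex i
    rwa [eq_of_isCyclic_of_orderOf_two (by rw [hc]; infer_instance) hzc h1 (hzo _ _ hz hz0)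
      (hzo _ _ h2 h3)]
  have key : ∀ x : S, x ∉ center S → x * x ∈ center S → x * x = z := fun x hx hxx =>
    mul_inv_eq_one.1 (hint _ (mul_mem hxx (inv_mem hz)) fun i =>
      hlift i _ (fun h => hx (hcent i x h)) (by rw [hZ _ hxx]; exact one_mem _) z (hzD i)
        (by rw [hZ _ hz]; exact one_mem _))
  have key2 : ∀ x : S, (x : S ⧸ D i0) * x = (a : S ⧸ D i0) ^ ((2 : ℤ) ^ (m + 1)) → x * x = z :=
    fun x hx => key x (fun hc => h.z_ne_one (by
      rw [← hx, ← QuotientGroup.mk_mul, hZ x hc]; rfl)) (hcent i0 _ ((QuotientGroup.eq_one_iff _).1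
        (by rw [QuotientGroup.mk_mul, QuotientGroup.mk_mul, hx, h.z_mul_self])))
  have hb : b * b = z := key2 b (by rw [h.sq, one_mul])
  have hab : a * b * (a * b) = z := key2 _ (by
    have := h.refl_sq 1
    rw [zpow_one, mul_zero, zero_add, one_mul] at this
    exact this)
  have ha : a ^ ((2 : ℤ) ^ (m + 1)) = z := by
    rw [← key2 (a ^ ((2 : ℤ) ^ m)) (by
      rw [QuotientGroup.mk_zpow, ← zpow_add, pow_succ, mul_two]), ← zpow_add, pow_succ, mul_two]
  have hz1 : z ≠ 1 := fun e => hz0 (e ▸ one_mem _)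
  have hQ : MC (zpowers a ⊔ zpowers b) a b (m + 1) 0 1 := by
    refine ⟨?_, ?_, rfl, ?_, by rw [hb, one_mul, ha], by simp⟩
    · have e : a ^ 2 ^ (m + 1) = z := by rw [← ha, ← zpow_natCast]; push_cast; rfl
      exact orderOf_eq_prime_pow (by rw [e]; exact hz1) (by rw [pow_succ, pow_mul, e, pow_two, hZ z hz])
    · rintro ⟨k, hk⟩
      exact h.nmem ⟨k, by rw [← hk]; rfl⟩
    · rw [← hb, ← mul_assoc, mul_right_cancel_iff] at hab
      rw [zero_mul, zero_sub, zpow_neg_one, mul_inv_eq_iff_eq_mul, eq_inv_mul_iff_mul_eq,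
        ← mul_assoc, hab]
  refine ⟨D i0, zpowers a ⊔ zpowers b, ⟨le_top, le_top, fun x hx y _ =>
    (mem_center_iff.1 (hDZ i0 hx) y).symm, ?_, ?_⟩, elemAb_two_iff.2 fun x hx => hZ x (hDZ i0 hx),
    fun hc => mc_ncomm hQ (PGroup.isMulCommutative_iff.1 hc _ hQ.a_mem _ hQ.b_mem),
    ⟨z, ha ▸ hQ.zpow_mem _⟩, by show orderOf _ = 2; rw [← orderOf_coe]; exact hzo _ _ hz hz0,
    fun y hy => ?_⟩
  · refine (eq_bot_iff_forall _).2 fun x hx => ?_
    by_contra hx1
    have := mc_inv hQ hx.2 (hZ x (hDZ i0 hx.1)) hx1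
    rw [ha] at this
    exact hz0 (this ▸ hx.1)
  · refine eq_top_iff.2 fun g _ => ?_
    obtain ⟨y, hy, i, rfl | rfl⟩ := h1 g
    · exact mul_mem (mem_sup_right (hQ.zpow_mem i)) (mem_sup_left hy)
    · exact mul_mem (mem_sup_right (hQ.refl_mem i)) (mem_sup_left hy)
  · have hy' : orderOf (y : S) = 2 := by rw [orderOf_coe]; exact hy
    exact Subtype.ext ((mc_inv hQ y.2 (mul_self_of_orderOf hy') (ne_one_of_orderOf hy')).trans ha)

end Cfsg.Agent.S3201
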