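import Cfsg.Statements.S3208
import Cfsg.Agent.Lib.Inv.Misc
import Cfsg.Agent.Lib.Coprime.Action

set_option autoImplicit false
open Cfsg

namespace Cfsg.Agent.S3208
open Cfsg.Lib.Inv

open Subgroup Cfsg.Lib Cfsg.Lib.Transfer

/-- Let j be an involution of a finite group G, H a subgroup of G, and T a Sylow 2-subgroup of H ∩ C_G(j) containing j such that ⟨j⟩ is a characteristic subgroup of T. Then T is a Sylow 2-subgroup of H. -/
theorem result {G : Type*} [Group G] [Finite G]
    (j : G) (hj : orderOf j = 2) (H T : Subgroup G) (hT : T ≤ H ⊓ Subgroup.centralizer ({j} : Set G)) (h2 : IsPGroup 2 ↥T)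
    (hSyl : ¬ 2 ∣ T.relIndex (H ⊓ Subgroup.centralizer ({j} : Set G))) (hjT : j ∈ T)
    (hchar : ((Subgroup.zpowers j).subgroupOf T).Characteristic) :
    ¬ 2 ∣ T.relIndex H := by
  refine not_dvd_relIndex_of_maximal (hT.trans inf_le_left) h2 fun R hR hTR hRH => ?_
  by_contra hn
  have h1 := lt_inf_normalizer_of_lt hR (lt_of_le_not_ge hTR hn)
  refine h1.ne (eq_of_not_dvd_relIndex_of_le hSyl (hR.to_le inf_le_left) (fun g hg =>
    ⟨hRH hg.1, ?_⟩) h1.le)
  have h3 := Coprime.normalizer_le_normalizer_map_subtype ((zpowers j).subgroupOf T) hg.2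
  rw [map_subgroupOf_eq_of_le (zpowers_le.2 hjT)] at h3
  refine mem_centralizer_singleton_iff_conj.2 (((mem_zpowers_iff_of_mul_self
    (mul_self_of_orderOf hj)).1 (conj_mem_of_mem_normalizer h3 (mem_zpowers j))).resolve_left
      (conj_ne_one (ne_one_of_orderOf hj)))

end Cfsg.Agent.S3208
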