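import Cfsg.Statements.S3213
import Mathlib

set_option autoImplicit false
open Cfsg

namespace Cfsg.Agent.S3213

open Matrix Module

set_option maxRecDepth 100000 in
theorem five : ∀ x : SpecialLinearGroup (Fin 2) (ZMod 5), x * x * x = 1 → x ≠ 1 →
    ∃ u : SpecialLinearGroup (Fin 2) (ZMod 5),
      ((x * (u * x⁻¹ * u⁻¹)) ^ 2) ^ 5 = 1 ∧ (x * (u * x⁻¹ * u⁻¹)) ^ 2 ≠ 1 := by
  decide +kernel

theorem five' {K : Type*} [Field K] [Fintype K] (hK : Fintype.card K = 5)
    (x : SpecialLinearGroup (Fin 2) K) (hx : orderOf x = 3) :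
    ∃ u : SpecialLinearGroup (Fin 2) K, orderOf ((x * (u * x⁻¹ * u⁻¹)) ^ 2) = 5 := by
  haveI : Fact (Nat.Prime 5) := ⟨by norm_num⟩
  let e : ZMod 5 ≃+* K := ZMod.ringEquivOfPrime K (by norm_num) hK
  let f := SpecialLinearGroup.map (n := Fin 2) e.toRingHom
  let g := SpecialLinearGroup.map (n := Fin 2) e.symm.toRingHom
  have hfg : ∀ y, f (g y) = y := fun y => by
    ext i j; simp [f, g]
  have hgf : ∀ y, g (f y) = y := fun y => by
    ext i j; simp [f, g]
  obtain ⟨u, h1, h2⟩ := five (g x) (by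
    rw [← map_mul, ← map_mul, ← pow_three', ← hx, pow_orderOf_eq_one, map_one]) (fun h => by
    have := congrArg f h
    rw [hfg, map_one] at this
    rw [this] at hx
    simp at hx)
  refine ⟨f u, orderOf_eq_prime ?_ fun h => h2 ?_⟩
  · simpa only [map_pow, map_mul, map_inv, hfg, map_one] using congrArg f h1
  · simpa only [map_pow, map_mul, map_inv, hgf, map_one] using congrArg g h

/-- Let F be the field with 3 elements and K the field with 5 elements. For every injective homomorphism φ from SL₂(K) into the symplectic group Sp₄(F) (4 × 4 matrices g with g J gᵀ = J for the standard alternating matrix J) and every element x of order 3 of SL₂(K), the vectors of F⁴ fixed by φ(x) form a 2-dimensional subspace that is totally isotropic for the alternating form defined by J. -/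
theorem result {F : Type*} [Field F] [Fintype F] (hF : Fintype.card F = 3)
    {K : Type*} [Field K] [Fintype K] (hK : Fintype.card K = 5)
    (φ : Matrix.SpecialLinearGroup (Fin 2) K →* ↥(Matrix.symplecticGroup (Fin 2) F)) (hφ : Function.Injective φ)
    (x : Matrix.SpecialLinearGroup (Fin 2) K) (hx : orderOf x = 3) :
    Module.finrank F ↥(LinearMap.ker (Matrix.toLin' ((φ x : Matrix (Fin 2 ⊕ Fin 2) (Fin 2 ⊕ Fin 2) F)) - LinearMap.id)) = 2 ∧
      ∀ v w : Fin 2 ⊕ Fin 2 → F, (φ x : Matrix (Fin 2 ⊕ Fin 2) (Fin 2 ⊕ Fin 2) F).mulVec v = v →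
        (φ x : Matrix (Fin 2 ⊕ Fin 2) (Fin 2 ⊕ Fin 2) F).mulVec w = w →
          dotProduct v ((Matrix.J (Fin 2) F).mulVec w) = 0 := by
  classical
  obtain ⟨u, hu⟩ := five' hK x hx
  let ρ : SpecialLinearGroup (Fin 2) K →* Module.End F (Fin 2 ⊕ Fin 2 → F) :=
    (Matrix.toLinAlgEquiv' : Matrix _ _ F ≃ₐ[F] _).toAlgHom.toMonoidHom.comp
      ((symplecticGroup (Fin 2) F).subtype.comp φ)
  have hρ : ∀ g v, ρ g v = (φ g : Matrix (Fin 2 ⊕ Fin 2) (Fin 2 ⊕ Fin 2) F).mulVec v := fun _ _ => rfl
  let C : SpecialLinearGroup (Fin 2) K → Submodule F (Fin 2 ⊕ Fin 2 → F) := fun g =>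
    LinearMap.ker (ρ g - 1)
  have hC : ∀ g v, v ∈ C g ↔ ρ g v = v := fun g v => by
    simp only [C, LinearMap.mem_ker, LinearMap.sub_apply, Module.End.one_apply, sub_eq_zero]
  have hV : finrank F (Fin 2 ⊕ Fin 2 → F) = 4 := by simp
  -- elements of order five have no fixed vectors
  have h5 : ∀ h, orderOf h = 5 → C h = ⊥ := fun h hh => by
    haveI : Fact (Nat.Prime 5) := ⟨by norm_num⟩
    letI : MulAction (SpecialLinearGroup (Fin 2) K) (Fin 2 ⊕ Fin 2 → F) := MulAction.compHom _ ρ
    have hp : IsPGroup 5 (Subgroup.zpowers h) := IsPGroup.of_card (n := 1) (by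
      rw [Nat.card_zpowers, hh, pow_one])
    have h1 := hp.card_modEq_card_fixedPoints (Fin 2 ⊕ Fin 2 → F)
    have h2 : Nat.card (MulAction.fixedPoints (Subgroup.zpowers h) (Fin 2 ⊕ Fin 2 → F)) =
        Nat.card (C h) := Nat.card_congr (Equiv.subtypeEquivRight fun v => by
      rw [hC]
      exact ⟨fun hv => hv ⟨h, Subgroup.mem_zpowers h⟩, fun hv a =>
        (Subgroup.zpowers_le (H := MulAction.stabilizer (SpecialLinearGroup (Fin 2) K) v)).2 hv a.2⟩)
    rw [h2, Module.natCard_eq_pow_finrank (K := F), Module.natCard_eq_pow_finrank (K := F) (V := C h),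
      hV, Nat.card_eq_fintype_card, hF] at h1
    have h3 : finrank F (C h) ≤ 4 := hV ▸ Submodule.finrank_le _
    have h4 : finrank F (C h) ≠ 4 := fun h4 => by
      have h6 := Submodule.eq_top_of_finrank_eq (h4.trans hV.symm)
      have h7 : ρ h = ρ 1 := by
        rw [map_one]; exact LinearMap.ext fun v => (hC h v).1 (h6 ▸ Submodule.mem_top)
      have h8 : h = 1 := hφ (Subtype.ext (Matrix.toLinAlgEquiv'.injective h7))
      rw [h8] at hh; simp at hh
    rw [← Submodule.finrank_eq_zero]
    generalize finrank F (C h) = k at *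
    interval_cases k <;> simp_all +decide
  have hmul : ∀ a b v, ρ (a * b) v = ρ a (ρ b v) := fun a b v => by rw [map_mul]; rfl
  have hle : finrank F (C x) ≤ 2 := by
    have h1 : C x ⊓ (C x).map (ρ u) = ⊥ := by
      rw [eq_bot_iff, ← h5 _ hu]
      rintro _ ⟨hv, w, hw, rfl⟩
      have hw' : ρ x⁻¹ w = w := by
        conv_lhs => rw [← (hC x w).1 hw, ← hmul, inv_mul_cancel, map_one]
        rfl
      have h2 : ρ (x * (u * x⁻¹ * u⁻¹)) (ρ u w) = ρ u w := by
        rw [← hmul, show x * (u * x⁻¹ * u⁻¹) * u = x * (u * x⁻¹) by group, hmul, hmul, hw']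
        exact (hC x _).1 hv
      rw [hC, sq, hmul, h2, h2]
    have h2 := Submodule.finrank_sup_add_finrank_inf_eq (C x) ((C x).map (ρ u))
    have h3 : finrank F ((C x).map (ρ u)) = finrank F (C x) :=
      (Submodule.equivMapOfInjective (ρ u) (fun a b h => by
        have := congrArg (ρ u⁻¹) h
        rwa [← hmul, ← hmul, inv_mul_cancel, map_one] at this) (C x)).finrank_eq.symm
    have h4 : finrank F ↥(C x ⊔ (C x).map (ρ u)) ≤ 4 := hV ▸ Submodule.finrank_le _
    rw [h1, finrank_bot, h3] at h2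
    omega
  have h3 : (3 : F) = 0 := by
    have := FiniteField.cast_card_eq_zero F
    rw [hF] at this; exact_mod_cast this
  set N := ρ x - 1 with hN
  have hN3 : N * N * N = 0 := by
    have h1 : ρ x * ρ x * ρ x = 1 := by
      rw [← map_mul, ← map_mul, ← pow_three', ← hx, pow_orderOf_eq_one, map_one]
    have h2 : N * N * N = ρ x * ρ x * ρ x - 1 - (3 : F) • (ρ x * ρ x - ρ x) := by
      rw [hN, show (3 : F) = 1 + 1 + 1 by norm_num, add_smul, add_smul, one_smul]
      simp only [sub_mul, mul_sub, mul_one, one_mul]; abel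
    rw [h2, h1, h3, zero_smul]; simp
  have hker : ∀ A B : Module.End F (Fin 2 ⊕ Fin 2 → F),
      finrank F (LinearMap.ker (A * B)) ≤ finrank F (LinearMap.ker A) + finrank F (LinearMap.ker B) :=
    fun A B => by
      have h1 := LinearMap.finrank_range_add_finrank_ker (B.domRestrict (LinearMap.ker (A * B)))
      have h2 : finrank F (LinearMap.range (B.domRestrict (LinearMap.ker (A * B)))) ≤
          finrank F (LinearMap.ker A) := Submodule.finrank_mono (by rintro _ ⟨v, rfl⟩; exact v.2)
      have h3 : finrank F (LinearMap.ker (B.domRestrict (LinearMap.ker (A * B)))) ≤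
          finrank F (LinearMap.ker B) := by
        rw [← Submodule.finrank_map_subtype_eq]
        exact Submodule.finrank_mono (by rintro _ ⟨v, hv, rfl⟩; exact hv)
      omega
  have hdim : finrank F (C x) = 2 := by
    have h1 := hker (N * N) N
    have h2 := hker N N
    rw [hN3, LinearMap.ker_zero, finrank_top, hV] at h1
    change finrank F (LinearMap.ker N) ≤ 2 at hle
    change finrank F (LinearMap.ker N) = 2
    omega
  refine ⟨hdim, fun v w hv hw => ?_⟩
  let B : (Fin 2 ⊕ Fin 2 → F) → (Fin 2 ⊕ Fin 2 → F) → F := fun a b => a ⬝ᵥ (J (Fin 2) F).mulVec b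
  have hinv : ∀ a b, B (ρ x a) (ρ x b) = B a b := fun a b => by
    simp only [B, hρ]
    rw [mulVec_mulVec, ← vecMul_transpose, ← dotProduct_mulVec, mulVec_mulVec, ← Matrix.mul_assoc,
      SymplecticGroup.mem_iff'.1 (φ x).2]
  have hskew : ∀ a b, B a b = - B b a := fun a b => by
    simp only [B]
    rw [dotProduct_mulVec, ← mulVec_transpose, J_transpose, neg_mulVec, neg_dotProduct, dotProduct_comm]
  have halt : ∀ a, B a a = 0 := fun a => by
    have h1 := hskew a a
    linear_combination (-1 : F) * h1 + B a a * h3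
  -- a nonzero vector in `im N ∩ ker N`
  obtain ⟨a, hr0, hr⟩ : ∃ a, N a ≠ 0 ∧ N (N a) = 0 := by
    by_contra hh
    push Not at hh
    have h1 : LinearMap.ker N = ⊤ := eq_top_iff.2 fun a _ => by
      by_contra h
      exact hh _ (hh a h) (congrArg (fun T : Module.End F _ => T a) hN3)
    change finrank F (LinearMap.ker N) = 2 at hdim
    rw [h1, finrank_top, hV] at hdim
    omega
  have hrad : ∀ b, ρ x b = b → B (N a) b = 0 := fun b hb => by
    have h1 := hinv a b
    rw [hb] at h1
    simp only [B, hN, LinearMap.sub_apply, Module.End.one_apply, sub_dotProduct] at h1 ⊢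
    rw [h1, sub_self]
  have hnli : ¬ LinearIndependent F ![(⟨N a, hr⟩ : C x), ⟨v, (hC x v).2 hv⟩, ⟨w, (hC x w).2 hw⟩] :=
    fun h => by
      have := h.fintype_card_le_finrank
      rw [hdim] at this; simp at this
  obtain ⟨c, hc, i, hi⟩ := Fintype.not_linearIndependent_iff.1 hnli
  have hc' : c 0 • N a + c 1 • v + c 2 • w = 0 := by
    simpa [Fin.sum_univ_three] using congrArg Subtype.val hc
  have e : ∀ b, c 0 * B (N a) b + c 1 * B v b + c 2 * B w b = 0 := fun b => by
    have := congrArg (fun t => B t b) hc'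
    simpa only [B, add_dotProduct, smul_dotProduct, smul_eq_mul, zero_dotProduct] using this
  have e1 := e w
  have e2 := e v
  rw [hrad w hw, halt] at e1
  rw [hrad v hv, halt, hskew w v] at e2
  by_contra hB
  change B v w ≠ 0 at hB
  have c1 : c 1 = 0 := by simpa [hB] using e1
  have c2 : c 2 = 0 := by simpa [hB] using e2
  have c0 : c 0 = 0 := by simpa [c1, c2, hr0] using hc'
  fin_cases i
  exacts [hi c0, hi c1, hi c2]

end Cfsg.Agent.S3213
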