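import Cfsg.Statements.S3215
import Cfsg.Agent.Lib.Coprime.Constraint
import Cfsg.Agent.Lib.Coprime.Generation
import Cfsg.Agent.Lib.Hall.Solvable
import Cfsg.Agent.Lib.PGroup.RankOne
import Cfsg.Agent.Lib.Inv.Basic
import Mathlib

set_option autoImplicit false
open Cfsg

namespace Cfsg.Agent.S3215
open Cfsg.Lib.Inv

open Subgroup Cfsg.Lib Cfsg.Lib.Hall Cfsg.Lib.Coprime

/-- Let H be a finite solvable group with no nontrivial normal subgroup of odd order in which the centralizer of every involution has a normal 2-complement. Let X be a Hall 2'-subgroup of H (odd order, index a power of 2) and Y = O₂(H). Then no non-identity element of X commutes with a non-identity element of Y (so for X ≠ 1 the group XY is a Frobenius group with kernel Y), every Sylow subgroup of X is cyclic, XY is normal in H, and H/XY is a cyclic 2-group. -/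
theorem result {H : Type*} [Group H] [Finite H] (hsol : Group.IsSolvable H)
    (hO : Cfsg.oddCore H = ⊥)
    (hI : ∀ t : H, orderOf t = 2 → Cfsg.HasNormalPComplement 2 ↥(Subgroup.centralizer ({t} : Set H)))
    (X : Subgroup H) (hXodd : Odd (Nat.card X)) (hXidx : ∃ k : ℕ, X.index = 2 ^ k) :
    (∀ x ∈ X, x ≠ 1 → ∀ y ∈ Cfsg.pCore 2 H, y ≠ 1 → x * y ≠ y * x) ∧
      (∀ (p : ℕ) [Fact p.Prime] (P : Sylow p ↥X), IsCyclic ↥(P : Subgroup ↥X)) ∧
      (X ⊔ Cfsg.pCore 2 H).Normal ∧
      ∀ hN : (X ⊔ Cfsg.pCore 2 H).Normal, IsCyclic (H ⧸ (X ⊔ Cfsg.pCore 2 H)) ∧ IsPGroup 2 (H ⧸ (X ⊔ Cfsg.pCore 2 H)) := by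
  set Y := Cfsg.pCore 2 H with hY
  have hYp : IsPGroup 2 Y := Core.pCore_isPGroup 2 H
  have hX : IsPiHall {2}ᶜ X := (isPiHall_compl_singleton_iff Nat.prime_two).2
    ⟨(Nat.coprime_two_right).2 hXodd, hXidx⟩
  have hC : ∀ t : H, orderOf t = 2 → IsPGroup 2 (centralizer ({t} : Set H)) := by
    intro t ht
    obtain ⟨P, N, hN, hc⟩ := hI t ht
    have hcN : (Nat.card N).Coprime 2 := by
      rw [← hc.index_eq_card]
      exact ((Nat.Prime.coprime_iff_not_dvd Nat.prime_two).2 P.not_dvd_index).symm
    have hzc : centralizer (zpowers t : Set H) = centralizer ({t} : Set H) := by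
      rw [zpowers_eq_closure, centralizer_closure]
    have hle := le_pPrimeCore_of_le_centralizer (p := 2) (centralizer_pCore_quotient_le hsol)
      (R := zpowers t) (L := N.map (centralizer ({t} : Set H)).subtype)
      (IsPGroup.of_card (n := 1) (by rw [Nat.card_zpowers, ht, pow_one]))
      (by rwa [card_map_of_injective (subtype_injective _)])
      (by rw [hzc]; exact map_subtype_le _)
      (by
          rw [hzc]
          have := le_normalizer_map (H := N) (centralizer ({t} : Set H)).subtype
          rwa [normalizer_eq_top, ← MonoidHom.range_eq_map, range_subtype] at this)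
    have hb : N = ⊥ := by
      have : N.map (centralizer ({t} : Set H)).subtype = ⊥ := le_bot_iff.1 (hO ▸ hle)
      exact (map_eq_bot_iff_of_injective _ (subtype_injective _)).1 this
    have := hc.index_eq_card
    rw [hb, card_bot, index_eq_one] at this
    have h2 := P.isPGroup'
    rw [this] at h2
    exact h2.of_equiv topEquiv
  have hodd : ∀ x : H, x ≠ 1 → Odd (orderOf x) → Odd (Nat.card (centralizer ({x} : Set H))) := by
    intro x hx1 hx
    by_contra h
    rw [Nat.not_odd_iff_even, even_iff_two_dvd] at h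
    obtain ⟨⟨t, htc⟩, ht⟩ := exists_prime_orderOf_dvd_card' 2 h
    rw [orderOf_mk] at ht
    obtain ⟨k, hk⟩ := hC t ht ⟨x, mem_centralizer_singleton_iff.2 (mem_centralizer_singleton_iff.1 htc).symm⟩
    have hk : x ^ 2 ^ k = 1 := congrArg Subtype.val hk
    have := (Nat.Coprime.pow_right k ((Nat.coprime_two_right).2 hx)).eq_one_of_dvd (orderOf_dvd_of_pow_eq_one hk)
    exact hx1 (orderOf_eq_one_iff.1 this)
  have hXo : ∀ x ∈ X, Odd (orderOf x) := fun x hx => hXodd.of_dvd_nat (X.orderOf_dvd_natCard hx)
  have copY : ∀ A : Subgroup H, Odd (Nat.card A) → (Nat.card A).Coprime (Nat.card Y) := by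
    intro A hA
    obtain ⟨k, hk⟩ := hYp.exists_card_eq
    rw [hk]; exact Nat.Coprime.pow_right k ((Nat.coprime_two_right).2 hA)
  have fpf : ∀ x ∈ X, x ≠ 1 → Y ⊓ centralizer ({x} : Set H) = ⊥ := fun x hx hx1 =>
    (inf_comm _ _).trans ((disjoint_of_coprime_natCard (copY _ (hodd x hx1 (hXo x hx)))).eq_bot)
  have cyc : ∀ A : Subgroup H, A ≤ X → IsMulCommutative A → IsCyclic A := by
    intro A hAX hA
    by_cases hb : Y = ⊥
    · by_cases ht : (⊤ : Subgroup H) = ⊥
      · haveI : Subsingleton H := (subsingleton_iff_bot_eq_top.1 ht.symm) |> Subgroup.subsingleton_iff.1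
        infer_instance
      · obtain ⟨p, M, hp, h1, -, h3, -, h5, -⟩ := exists_invariant_abelian_pgroup (L := (⊤ : Subgroup H)) (T := ⊤)
          inferInstance ht le_normalizer_of_normal
        have hM : M.Normal := normalizer_eq_top_iff.1 (top_le_iff.1 h5)
        exfalso
        apply h1
        by_cases hp2 : p = 2
        · subst hp2
          exact le_bot_iff.1 (hb ▸ Core.le_pCore hM h3)
        · haveI := Fact.mk hp
          obtain ⟨k, hk⟩ := h3.exists_card_eq
          exact le_bot_iff.1 (hO ▸ Core.le_oddCore hM (hk ▸ (hp.odd_of_ne_two hp2).pow))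
    · by_contra hnc
      obtain ⟨a, ha, ha1, hne⟩ := exists_inf_centralizer_ne_bot hA hnc le_normalizer_of_normal
        (copY A (hXodd.of_dvd_nat (card_dvd_of_le hAX))) hb
      exact hne (fpf a (hAX ha) ha1)
  have key : ∃ (Q : Type _) (_ : Group Q) (_ : IsCyclic Q) (φ : H →* Q), φ.ker ≤ X ⊔ Y := by
    by_cases ht : ⊤ ≤ Y
    · exact ⟨(⊥ : Subgroup H), inferInstance, inferInstance, 1, le_top.trans (ht.trans le_sup_right)⟩
    · obtain ⟨p, M, hp, hM, h1, -, h3, h4, -⟩ := exists_normal_pgroup_mod (K := (⊤ : Subgroup H)) (N := Y)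
        inferInstance ht
      haveI := Fact.mk hp
      set f := QuotientGroup.mk' Y with hf
      have hfs : Function.Surjective f := QuotientGroup.mk'_surjective Y
      have hker : f.ker = Y := QuotientGroup.ker_mk' Y
      haveI hMn : (M.map f).Normal := hM.map f hfs
      have hp2 : p ≠ 2 := by
        rintro rfl
        have : IsPGroup 2 M := by
          have := h3.comap_of_ker_isPGroup f (by rw [hker]; exact hYp)
          exact this.to_le (le_comap_map f M)
        exact h1.not_ge (Core.le_pCore hM this)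
      have hXb := isPiHall_map_of_surjective hfs hX
      have inX : ∀ N : Subgroup (H ⧸ Y), N.Normal → Odd (Nat.card N) → N ≤ X.map f := fun N _ hN =>
        le_of_isPiHall_of_normal hXb ((pi_compl_singleton_iff Nat.prime_two).2 ((Nat.coprime_two_right).2 hN))
      obtain ⟨k, hk⟩ := h3.exists_card_eq
      have hMX := inX _ hMn (hk ▸ (hp.odd_of_ne_two hp2).pow)
      set A := X ⊓ (M.map f).comap f with hA
      have hAf : A.map f = M.map f := by
        refine le_antisymm (map_le_iff_le_comap.2 inf_le_right) fun m hm => ?_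
        obtain ⟨x, hx, rfl⟩ := hMX hm
        exact ⟨x, ⟨hx, hm⟩, rfl⟩
      have hXY : X ⊓ Y = ⊥ := (disjoint_of_coprime_natCard (copY X hXodd)).eq_bot
      have hAc : IsMulCommutative A := ⟨⟨fun a b => Subtype.ext (by
        have h5 : f (a * b) = f (b * a) := by
          rw [map_mul, map_mul]; exact setLike_mul_comm (s := M.map f) a.2.2 b.2.2
        have h6 : ((a : H) * b)⁻¹ * (b * a) ∈ X ⊓ Y := ⟨X.mul_mem (X.inv_mem (X.mul_mem a.2.1 b.2.1))
          (X.mul_mem b.2.1 a.2.1), QuotientGroup.eq.1 h5⟩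
        rw [hXY, mem_bot, inv_mul_eq_one] at h6
        exact h6)⟩⟩
      haveI := cyc A inf_le_left hAc
      haveI : IsCyclic (M.map f) := hAf ▸ isCyclic_of_surjective _ (f.subgroupMap_surjective A)
      haveI : IsCyclic (ZMod (Nat.card (M.map f)))ˣ := hk ▸ ZMod.isCyclic_units_of_prime_pow p hp hp2 k
      haveI : IsCyclic (MulAut (M.map f)) :=
        isCyclic_of_surjective _ (IsCyclic.mulAutMulEquiv (M.map f)).symm.surjective
      refine ⟨MulAut (M.map f), inferInstance, inferInstance, (MulAut.conjNormal (H := M.map f)).comp f, ?_⟩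
      have hA1 : A ≠ ⊥ := by
        intro h
        rw [h, Subgroup.map_bot, eq_comm, Subgroup.map_eq_bot_iff, hker] at hAf
        exact h1.not_ge hAf
      obtain ⟨⟨a, ha⟩, ha1⟩ := ne_bot_iff_exists_ne_one.1 hA1
      have hCA : Odd (Nat.card (centralizer (A : Set H))) :=
        (hodd a (fun h => ha1 (Subtype.ext h)) (hXo a ha.1)).of_dvd_nat
          (card_dvd_of_le (centralizer_le (Set.singleton_subset_iff.2 ha)))
      have hCM : Odd (Nat.card (centralizer ((M.map f : Subgroup (H ⧸ Y)) : Set (H ⧸ Y)))) := by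
        rw [← hAf, centralizer_map_mk' (copY A (hXodd.of_dvd_nat (card_dvd_of_le inf_le_left)))
          (Or.inl inferInstance)]
        exact hCA.of_dvd_nat (card_map_dvd _ _)
      intro g hg
      have h7 : f g ∈ centralizer ((M.map f : Subgroup (H ⧸ Y)) : Set (H ⧸ Y)) := by
        intro m hm
        have := congrArg (fun σ : MulAut (M.map f) => ((σ ⟨m, hm⟩ : M.map f) : H ⧸ Y)) (MonoidHom.mem_ker.1 hg)
        simp only [MonoidHom.comp_apply, MulAut.conjNormal_apply, MulAut.one_apply] at this
        rw [mul_inv_eq_iff_eq_mul] at this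
        exact this.symm
      have := inX _ inferInstance hCM h7
      rw [← mem_comap, comap_map_eq, hker] at this
      exact this
  obtain ⟨Q, _, _, φ, hφ⟩ := key
  refine ⟨fun x hx hx1 y hy hy1 h => hy1 ?_, fun p _ P => ?_, ?_, fun hN => ⟨?_, ?_⟩⟩
  · rw [← mem_bot, ← fpf x hx hx1]
    exact ⟨hy, mem_centralizer_singleton_iff.2 h.symm⟩
  · by_cases hp2 : p = 2
    · subst hp2
      obtain ⟨k, hk⟩ := P.isPGroup'.exists_card_eq
      have h1 : Nat.card (P : Subgroup X) = 1 :=
        (Nat.Coprime.pow_left k ((Nat.coprime_two_left).2 hXodd)).eq_one_of_dvd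
          (hk ▸ card_subgroup_dvd_card _) ▸ hk
      haveI := (Nat.card_eq_one_iff_unique.1 h1).1
      infer_instance
    · refine PGroup.isCyclic_of_pRankLE_one_of_odd hp2 P.isPGroup' ?_
      rw [PGroup.pRankLE_iff]
      intro A hA
      let f : P →* H := X.subtype.comp (P : Subgroup X).subtype
      have hf : Function.Injective f := X.subtype_injective.comp (P : Subgroup X).subtype_injective
      have hAH : A.map f ≤ X := by
        rintro _ ⟨a, -, rfl⟩
        exact (a : X).2
      haveI := hA.1
      have hcyc : IsCyclic (A.map f) := cyc _ hAH inferInstance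
      have hcyc' : IsCyclic A :=
        isCyclic_of_surjective (A.equivMapOfInjective f hf).symm (MulEquiv.surjective _)
      obtain ⟨g, hg⟩ := IsCyclic.exists_ofOrder_eq_natCard (α := A)
      rw [← hg, pow_one]
      refine Nat.le_of_dvd (Fact.out : p.Prime).pos (orderOf_dvd_of_pow_eq_one ?_)
      exact Subtype.ext (hA.2 g g.2)
  · letI := IsCyclic.commGroup (α := Q)
    exact Normal.of_commutator_le H ((Abelianization.commutator_subset_ker φ).trans hφ)
  · haveI : IsCyclic (H ⧸ φ.ker) :=
      isCyclic_of_surjective _ (QuotientGroup.quotientKerEquivRange φ).symm.surjective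
    refine isCyclic_of_surjective (QuotientGroup.map φ.ker (X ⊔ Y) (MonoidHom.id H) hφ) ?_
    intro q
    obtain ⟨g, rfl⟩ := QuotientGroup.mk_surjective q
    exact ⟨g, rfl⟩
  · obtain ⟨k, hk⟩ := hXidx
    obtain ⟨j, -, hj⟩ := (Nat.dvd_prime_pow Nat.prime_two).1 (hk ▸ index_dvd_of_le (le_sup_left : X ≤ X ⊔ Y))
    exact IsPGroup.of_card hj

end Cfsg.Agent.S3215
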