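import Cfsg.Statements.S3245
import Cfsg.Agent.Lib.BS.Cor
import Cfsg.Agent.Lib.BG.Hall
import Cfsg.Agent.Lib.Coprime.FT

set_option autoImplicit false
open Cfsg

namespace Cfsg.Agent.S3245

open Subgroup Cfsg.Lib Cfsg.Lib.BG Cfsg.Lib.Transfer in
theorem aux {G : Type*} [Group G] [Finite G] [IsSimpleGroup G] (hG : ¬ IsMulCommutative G)
    (h1 : ∀ M M' : Subgroup G, IsMaximalTwoLocal M → IsMaximalTwoLocal M' → ∃ g : G, M' = g ⋆ M) :
    ∃ M : Subgroup G, IsStronglyEmbedded M := by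
  have hmax : ∀ T : Subgroup G, IsPGroup 2 T → T ≠ ⊥ → ∃ M, IsMaximalTwoLocal M ∧ 𝐍(T) ≤ M :=
    fun T a b => let ⟨M, c, d⟩ := Finite.exists_le_maximal (p := IsTwoLocal) ⟨T, a, b, rfl⟩
      ⟨M, ⟨d.prop, fun N e f => le_antisymm (d.le_of_ge e f) f⟩, c⟩
  have h2 : 2 ∣ Nat.card (⊤ : Subgroup G) := by
    by_contra e
    rw [card_top] at e
    haveI := Coprime.isSolvable_of_not_two_dvd e
    exact hG ⟨⟨IsSimpleGroup.comm_iff_isSolvable.2 this⟩⟩
  obtain ⟨S, hS⟩ := Syl.exists 2 (⊤ : Subgroup G)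
  obtain ⟨M, hM, hSM⟩ := hmax S hS.pgroup (hS.ne_bot' h2)
  have hS' := hS.of_le ((le_norm S).trans hSM) le_top
  have huniq : ∀ g : G, S ≤ g ⋆ M → g ∈ M := fun g hg => by
    obtain ⟨m, hm, e⟩ := Syl.exists_conj_eq hS' ((hS.conj_top g⁻¹).of_le (le_conj_iff_inv_conj_le.1 hg) le_top)
    have := hSM (norm_of_conj_eq (g := g * m) (by rw [← conj_conj, ← e, conj_inv_conj]))
    exact (mul_mem_cancel_right hm).1 this
  have key : ∀ (T : Subgroup G) (a b : G), IsPGroup 2 T → T ≠ ⊥ →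
      T ≤ a ⋆ M → T ≤ b ⋆ M → a ⋆ M = b ⋆ M := by
    intro T
    induction T using WellFoundedGT.induction with
    | _ T ih => ?_
    intro a b hT h0 ha hb
    by_cases hs : Syl 2 T ⊤
    · obtain ⟨g, -, rfl⟩ := hS.exists_conj_eq hs
      have e : ∀ a : G, g ⋆ S ≤ a ⋆ M → a ⋆ M = g ⋆ M := fun a ha => by
        have := conj_eq_of_mem (huniq (g⁻¹ * a) (by rwa [← conj_conj, ← conj_le_iff_le_inv_conj]))
        rw [← mul_inv_cancel_left g a, ← conj_conj, this]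
      rw [e a ha, e b hb]
    obtain ⟨M', hM', hTM⟩ := hmax T hT h0
    obtain ⟨c, rfl⟩ := h1 M M' hM hM'
    have e : ∀ a : G, T ≤ a ⋆ M → a ⋆ M = c ⋆ M := fun a ha => by
      obtain ⟨P, hP, hTP⟩ := Syl.exists_ge hT ha
      have hlt := nil_norm_grow hP.nil (lt_of_le_of_ne hTP fun e => hs
        (Syl.of_card_le' hS hT le_top (by
          rw [e, ← card_conj a S, (hS'.conj a).card_eq hP])))
      exact ih _ hlt a c (pgroup_of_le hP.pgroup inf_le_left)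
        (ne_bot_mono h0 hlt.le) (inf_le_left.trans hP.le) (inf_le_right.trans hTM)
    rw [e a ha, e b hb]
  refine ⟨M, Inv.se_iff.2 ⟨?_, even_iff_two_dvd.2 ((pgroup_dvd_card hS.pgroup (hS.ne_bot' h2)).trans
    (card_dvd hS'.le)), fun t g ht h3 h4 => ?_⟩⟩
  · obtain ⟨T, a, b, e⟩ := hM.1
    rintro rfl
    haveI := normalizer_eq_top_iff.1 e.symm
    have := (IsSimpleGroup.eq_bot_or_eq_top_of_normal T this).resolve_left b
    haveI : Group.IsNilpotent G := (a.of_equiv ((MulEquiv.subgroupCongr this).trans topEquiv)).isNilpotent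
    exact hG ⟨⟨IsSimpleGroup.comm_iff_isSolvable.2 inferInstance⟩⟩
  · have := key (zpowers (g * t * g⁻¹)) 1 g
      (Inv.isPGroup_zpowers_of_mul_self (Inv.mul_self_of_orderOf (by rw [Inv.orderOf_conj', ht])))
      (by simpa using Inv.ne_one_of_orderOf ht) (by rw [conj_one]; simpa using h4) (zpowers_le.2 (conj_mem_conj.2 h3))
    exact huniq g (by rw [← this, conj_one]; exact hS'.le)

/-- A finite non-abelian simple group in which all maximal 2-local subgroups are conjugate is isomorphic to L₂(2ⁿ), Sz(2ⁿ) or U₃(2ⁿ) for some n ≥ 2. -/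
theorem result {G : Type*} [Group G] [Finite G] [IsSimpleGroup G] (hG : ¬ IsMulCommutative G)
    (h1 : ∀ M M' : Subgroup G, Cfsg.IsMaximalTwoLocal M → Cfsg.IsMaximalTwoLocal M' → ∃ g : G, M' = M.map (MulAut.conj g).toMonoidHom) :
    (∃ (F : Type) (_ : Field F) (_ : Fintype F) (n : ℕ), 2 ≤ n ∧ Fintype.card F = 2 ^ n ∧
        Nonempty (G ≃* Matrix.ProjectiveSpecialLinearGroup (Fin 2) F)) ∨
      Cfsg.Lie.IsoSuzuki G ∨
      (∃ (F : Type) (_ : Field F) (_ : Fintype F) (n : ℕ), 2 ≤ n ∧ Fintype.card F = (2 ^ n) ^ 2 ∧ Nonempty (G ≃* Cfsg.PSU 3 F (2 ^ n))) := by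
  obtain ⟨M, hM⟩ := aux hG h1
  exact Cfsg.Lib.BS.isBender_of_se hM

end Cfsg.Agent.S3245
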