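import Cfsg.Statements.S3246
import Cfsg.Agent.Lib.Inv.Constr

set_option autoImplicit false
open Cfsg

namespace Cfsg.Agent.S3246
open Cfsg.Lib.Inv

open Subgroup Cfsg.Lib Cfsg.Lib.Comp Cfsg.Lib.Inv Cfsg.Lib.Loc

/-- Let G be a finite group whose Sylow 2-subgroup S has a self-centralizing normal subgroup of rank at least 3. Suppose that either every maximal 2-local subgroup of G is 2-constrained with no nontrivial normal subgroup of odd order, or the centralizer of every involution of G is 2-constrained with no nontrivial normal subgroup of odd order. Then S normalizes no nontrivial subgroup of G of odd order and every 2-local subgroup of G is 2-constrained. -/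
theorem result {G : Type*} [Group G] [Finite G]
    (S : Sylow 2 G) (A : Subgroup G) (hA : Cfsg.IsSCN (S : Subgroup G) A) (hA3 : ¬ Cfsg.PRankLE 2 2 ↥A)
    (h : (∀ M : Subgroup G, Cfsg.IsMaximalTwoLocal M → Cfsg.IsPConstrained 2 ↥M ∧ Cfsg.oddCore ↥M = ⊥) ∨
      (∀ t : G, orderOf t = 2 → Cfsg.IsPConstrained 2 ↥(Subgroup.centralizer ({t} : Set G)) ∧
        Cfsg.oddCore ↥(Subgroup.centralizer ({t} : Set G)) = ⊥)) :
    (∀ X : Subgroup G, Odd (Nat.card ↥X) → (S : Subgroup G) ≤ Subgroup.normalizer (X : Set G) → X = ⊥) ∧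
      (∀ T : Subgroup G, IsPGroup 2 ↥T → T ≠ ⊥ → Cfsg.IsPConstrained 2 ↥(Subgroup.normalizer (T : Set G))) := by
  have hN : ∀ T : Subgroup G, IsPGroup 2 T → T ≠ ⊥ → IsChP 2 (normalizer (T : Set G)) := by
    intro T hT hT1
    rcases h with h | h
    · obtain ⟨M, hM, hmax⟩ := Set.Finite.exists_le_maximal (s := {M : Subgroup G | IsTwoLocal M})
        (Set.toFinite _) (a := normalizer (T : Set G)) ⟨T, hT, hT1, rfl⟩
      have h1 := h M ⟨hmax.1, fun N h1 h2 => le_antisymm (hmax.2 h1 h2) h2⟩
      have h2 : IsChP 2 M := isChP_iff_genFitting.2 (genFitting_eq_pCore_iff_pLayer.2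
        ⟨isPConstrained_iff_pLayer_eq_bot.1 h1.1, h1.2⟩)
      have h3 := h2.inf_normalizer hT (le_normalizer.trans hM)
      rwa [inf_eq_right.2 hM] at h3
    · exact isChP_iff_genFitting.2 (genFitting_normalizer_eq_pCore_of_centralizers (p := 2)
        (fun t ht => genFitting_eq_pCore_iff_pLayer.2
          ⟨isPConstrained_iff_pLayer_eq_bot.1 (h t ht).1, (h t ht).2⟩) hT hT1)
  refine ⟨fun X hX hSX => ?_, fun T hT hT1 => isPConstrained_iff_pLayer_eq_bot.2
    (genFitting_eq_pCore_iff_pLayer.1 (isChP_iff_genFitting.1 (hN T hT hT1))).1⟩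
  have hAc : IsMulCommutative A := PGroup.isMulCommutative_iff.2 fun a ha b hb => by
    have : b ∈ (S : Subgroup G) ⊓ centralizer (A : Set G) := by rw [hA.2.2]; exact hb
    exact this.2 a ha
  have h4 : 2 ^ 2 ≤ Nat.card (omegaOne 2 A) := by
    simp only [PRankLE, not_forall, not_le] at hA3
    obtain ⟨B, -, hB, hc⟩ := hA3
    have : B.map A.subtype ≤ omegaOne 2 A := by
      rintro _ ⟨b, hb, rfl⟩
      exact PGroup.mem_omegaOne b.2 (by have := congrArg Subtype.val (hB b hb); simpa using this)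
    have h2 := card_le_of_le this
    rw [card_map_of_injective (subtype_injective _)] at h2
    omega
  obtain ⟨U, -, hUA, hSU, hU4⟩ := PGroup.exists_invariant_card_eq_pow (M := ⊥) S.isPGroup'
    ((PGroup.omegaOne_le A).trans hA.1) le_normalizer_of_normal
    (hA.2.1.trans (PGroup.normalizer_le_normalizer_omegaOne A)) bot_le (by simp) h4
  have hU : IsKleinFour U :=
    k4_of_elemAb (PGroup.elemAb_of_le (PGroup.isElementaryAbelian_omegaOne hAc) hUA) hU4
  refine eq_bot_of_sylow_normalizes S hU (hUA.trans ((PGroup.omegaOne_le A).trans hA.1)) hSU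
    (fun t ht => ?_) hX hSX
  have ht2 : IsPGroup 2 (zpowers t) := isPGroup_zpowers_of_orderOf_eq ht
  have := (isChP_normalizer_iff ht2).1 (hN _ ht2 (by
    rw [Ne, zpowers_eq_bot]; rintro rfl; simp at ht))
  rwa [zpowers_eq_closure, centralizer_closure] at this

end Cfsg.Agent.S3246
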