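import Cfsg.Statements.S3260
import Cfsg.Agent.Lib.EQ.ZJ
import Cfsg.Agent.Lib.Linear.Basic
import Cfsg.Agent.Lib.Fusion.QdTwo

set_option autoImplicit false
open Cfsg

namespace Cfsg.Agent.S3260

open Cfsg.Lib Cfsg.Lib.PLocal Cfsg.Lib.Transfer Subgroup SemidirectProduct

/-- Let p ≥ 5 be a prime, G a finite p-constrained group with Sylow p-subgroup S, and A a group of automorphisms of G of order coprime to |G| whose fixed-point subgroup has no section isomorphic to PSL₂(p). Then G = O_{p'}(G) · N_G(Z(J(S))), where J(S) is the subgroup generated by the abelian subgroups of S of largest order. -/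
theorem result {G : Type*} [Group G] [Finite G] (p : ℕ) [hp : Fact p.Prime] (hp5 : 5 ≤ p)
    (hG : Cfsg.IsPConstrained p G) (S : Sylow p G) (A : Subgroup (MulAut G)) (hA : (Nat.card ↥A).Coprime (Nat.card G))
    (C : Subgroup G) (hC : ∀ g : G, g ∈ C ↔ ∀ a ∈ A, a g = g)
    {F : Type*} [Field F] [Fintype F] (hF : Fintype.card F = p)
    (hfix : ¬ Cfsg.Involves (Matrix.ProjectiveSpecialLinearGroup (Fin 2) F) ↥C) :
    Cfsg.pPrimeCore p G ⊔ Subgroup.normalizer (Cfsg.centerThompsonAOf (S : Subgroup G) : Set G) = ⊤ := by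
  rw [centerThompsonAOf_eq]
  by_cases hpG : p ∣ Nat.card G
  swap
  · have : pPrimeCore p G = ⊤ := eq_top_iff.2 (Core.le_pPrimeCore inferInstance (by
      rw [card_top]; exact ((Nat.Prime.coprime_iff_not_dvd hp.out).2 hpG).symm))
    rw [this, top_sup_eq]
  let ι : G →* G ⋊[A.subtype] A := inl
  let ρ : A →* G ⋊[A.subtype] A := inr
  have : Finite (G ⋊[A.subtype] A) := Finite.of_equiv _ SemidirectProduct.equivProd.symm
  have hcj : ∀ (a : A) g, ρ a * ι g * (ρ a)⁻¹ = ι (a.1 g) := fun a g => by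
    rw [← map_inv]; exact (inl_aut (φ := A.subtype) a g).symm
  have htop : ι.range ⊔ ρ.range = ⊤ := eq_top_iff.2 fun x _ =>
    inl_left_mul_inr_right x ▸ mul_mem_sup ⟨_, rfl⟩ ⟨_, rfl⟩
  have hN : ι.range.Normal := range_inl_eq_ker_rightHom (φ := A.subtype) ▸ inferInstance
  have hK : ((pPrimeCore p G).map ι).Normal := Core.normal_of_top_le_normalizer (htop ▸ sup_le (by
    rw [MonoidHom.range_eq_map]
    exact (map_mono le_normalizer_of_normal).trans (le_normalizer_map ι)) (by
    rintro _ ⟨a, rfl⟩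
    refine mem_normalizer_of_conj_le (conj_le_iff.2 ?_)
    rintro _ ⟨g, hg, rfl⟩
    rw [hcj]
    exact mem_map_of_mem _ (Core.map_pPrimeCore_equiv a.1 ▸ mem_map_of_mem _ hg)))
  set q := QuotientGroup.mk' ((pPrimeCore p G).map ι)
  have hq : Function.Surjective q := QuotientGroup.mk'_surjective _
  have hr : (q.comp ι).range = ι.range.map q := (MonoidHom.map_range _ _).symm
  have c1 : Nat.card ι.range = Nat.card G := (Nat.card_congr (MonoidHom.ofInjective inl_injective).toEquiv).symm
  have c2 : Nat.card ρ.range = Nat.card A := (Nat.card_congr (MonoidHom.ofInjective inr_injective).toEquiv).symm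
  have hc : (Nat.card ρ.range).Coprime (Nat.card ι.range) := by rwa [c1, c2]
  have d2 := card_map_dvd ρ.range q
  have : (q.comp ι).range.Normal := hr ▸ hN.map q hq
  refine EQ.zj_of_hom (A := ρ.range.map q) hp5 (q.comp ι) ?_ ?_ ?_
    ((hA.coprime_dvd_right hpG).coprime_dvd_left (c2 ▸ d2)) (fun h => hfix ?_) hG (Or.inl rfl) S
  · rw [← MonoidHom.comap_ker, QuotientGroup.ker_mk', comap_map_eq_self_of_injective inl_injective]
  · rw [hr, ← Subgroup.map_sup, htop, map_top_of_surjective _ hq]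
  · exact hr ▸ (hc.coprime_dvd_left d2).coprime_dvd_right (card_map_dvd _ q)
  rw [hr, Coprime.map_inf_centralizer_map' q le_normalizer_of_normal hc (Coprime.isSolvable_or_of_coprime hc)] at h
  refine Fusion.involves_iff_hasSection.2 ((h.of_map.of_le (K := C.map ι) ?_).of_map.congr_left
    (Linear.congrPSL (Equiv.refl _) (ZMod.ringEquivOfPrime F hp.out hF)))
  rintro _ ⟨⟨g, rfl⟩, hg⟩
  refine mem_map_of_mem _ ((hC g).2 fun a ha => inl_injective (φ := A.subtype) ?_)
  exact (hcj ⟨a, ha⟩ g).symm.trans (by rw [hg _ ⟨_, rfl⟩, mul_inv_cancel_right])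

end Cfsg.Agent.S3260
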