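import Cfsg.Statements.S3265
import Cfsg.Agent.Lib.Inv.Basic

set_option autoImplicit false
open Cfsg

namespace Cfsg.Agent.S3265

open Function Finset

variable {α : Type*} [DecidableEq α]

/-- `-1` is not an eigenvalue of the product. -/
def Od (x z : α → α) : Prop := ∀ f : α → ℤ, (∀ u, f (x u) = -f (z u)) → ∀ u, f u = 0

/-- Change two values. -/
def up (x : α → α) (a a' b b' : α) : α → α := fun u => if u = a then a' else if u = b then b' else x u

omit [DecidableEq α] in
theorem Od.res {x z : α → α} (h : Od x z) (hx : Involutive x) (hz : Involutive z) (p : α → Prop)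
    (hp : ∀ u, p u → x u = u ∧ z u = u) {f : α → ℤ} (hf : ∀ u, ¬ p u → f (x u) = -f (z u)) (u : α)
    (hu : ¬ p u) : f u = 0 := by
  classical
  have := h (fun u => if p u then 0 else f u) (fun u => by
    by_cases c : p u
    · simp [(hp u c).1, (hp u c).2, c]
    · have h1 : ¬ p (x u) := fun e => c (by have := (hp _ e).1; rw [hx] at this; rwa [this])
      have h2 : ¬ p (z u) := fun e => c (by have := (hp _ e).2; rw [hz] at this; rwa [this])
      simp [h1, h2, hf u c]) u
  simpa [hu] using this

theorem inv_pr {z : α → α} (hz : Involutive z) {b c : α} (hb : z b = b) (hc : z c = c) :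
    Involutive (up z b c c b) := fun u => by
  have := hz u
  grind [up]

theorem inv_rm {z : α → α} (hz : Involutive z) {b c : α} (hb : z b = c) :
    Involutive (up z b b c c) := fun u => by
  have := hz u
  have := hz b
  grind [up]

theorem odD {x z : α → α} (hx : Involutive x) {b c : α} (h1 : x b = c)
    (h : Od (up x b b c c) z) (hb : z b = b) (hc : z c = c) : Od x (up z b c c b) := fun f hf => by
  have := hx b
  have e1 := hf b
  have e2 := hf c
  refine h f fun u => ?_
  have := hf u
  grind [up]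

theorem odE {x z : α → α} (hx : Involutive x) (hz : Involutive z) {a b c : α} (h1 : x a = b)
    (h2 : x c = c) (hab : a ≠ b) (hbc : b ≠ c) (h : Od (up x a a b b) z) (hb : z b = b)
    (hc : z c = c) : Od x (up z b c c b) := fun f hf u => by
  have := hx a
  have e1 := hf b
  have e2 := hf c
  have e3 := hf a
  have H := h.res (inv_rm hx h1) hz (fun u => u = b ∨ u = c) (by grind [up]) (f := f) fun u hu => by
    have := hf u
    grind [up]
  have := H a (by grind)
  have := H u
  grind [up]

theorem odF {x x' z : α → α} (hx : Involutive x) (hx' : Involutive x') (hz : Involutive z)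
    {a b c d e g : α} (h1 : x a = b) (h2 : x c = d) (h3 : x e = g) (hn : [a, b, c, d, e, g].Nodup)
    (h4 : x' a = g) (h5 : ∀ u, u = b ∨ u = c ∨ u = d ∨ u = e → x' u = u ∧ z u = u)
    (h6 : ∀ u, u ≠ a → u ≠ g → ¬ (u = b ∨ u = c ∨ u = d ∨ u = e) → x' u = x u) (h : Od x' z) :
    Od x (up (up z b c c b) d e e d) := fun f hf u => by
  have := hx a
  have := hx c
  have := hx e
  have := hx' a
  have e1 := hf a
  have e2 := hf b
  have e3 := hf c
  have e4 := hf d
  have e5 := hf e
  have e6 := hf g
  simp only [List.nodup_cons, List.mem_cons, List.not_mem_nil, or_false, not_or] at hn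
  have H := h.res hx' hz _ h5 (f := f) fun u hu => by
    have := hf u
    have := h6 u
    by_cases u = a
    · grind [up]
    by_cases u = g <;> grind [up]
  have := H a (by grind)
  have := H g (by grind)
  have := H u
  grind [up]

theorem odC {x x' z z' : α → α} (hx : Involutive x) (hx' : Involutive x') (hz : Involutive z)
    (hz' : Involutive z') {a b c d e : α} (h1 : x a = b) (h2 : x d = c)
    (h5 : ∀ u, u = a ∨ u = b ∨ u = c ∨ u = d → x' u = u ∧ z' u = u)
    (h6 : ∀ u, ¬ (u = a ∨ u = b ∨ u = c ∨ u = d) → x' u = x u)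
    (he : ¬ (e = a ∨ e = b ∨ e = c ∨ e = d)) (z1 : z a = e) (z2 : z b = d)
    (z3 : z c = if z' e = e then c else z' e)
    (z4 : ∀ u, ¬ (u = a ∨ u = b ∨ u = c ∨ u = d) → u ≠ e → u ≠ z' e → z u = z' u) (h : Od x' z') :
    Od x z := fun f hf u => by
  have := hx a
  have := hx d
  have := hz a
  have := hz b
  have := hz c
  have := hz' e
  have e1 := hf a
  have e2 := hf b
  have e3 := hf c
  have e4 := hf d
  have H := h.res hx' hz' _ h5 (f := f) fun u hu => by
    have := hf u
    have := h6 u
    have := z4 u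
    by_cases u = e
    · by_cases z' e = e <;> grind
    by_cases u = z' e <;> grind
  have := H e he
  have := H (z' e) fun c => by have := (h5 _ c).2; grind
  have := H u
  grind

omit [DecidableEq α] in
theorem odH {x z : α → α} (hx : Involutive x) (hz : Involutive z) {a b c d e g : α}
    (h1 : x a = b) (h2 : z b = c) (h3 : x c = d) (h4 : z d = e) (h5 : x e = g) (h6 : z g = a)
    (h : ∀ u, u = a ∨ u = b ∨ u = c ∨ u = d ∨ u = e ∨ u = g ∨ x u = z u) : Od x z := fun f hf u => by
  have := hx a
  have := hx c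
  have := hx e
  have := hz b
  have := hz d
  have := hz g
  have e1 := hf a
  have e2 := hf b
  have e3 := hf c
  have e4 := hf d
  have e5 := hf e
  have e6 := hf g
  have := hf (x u)
  have := h (x u)
  have := hx u
  have := hx b
  have := hx d
  have := hx g
  grind

theorem ex4 {a b c d e f g h : α} (hn : [a, b, c, d, e, f, g, h].Nodup) :
    ∃ z : α → α, Involutive z ∧ z a = b ∧ z c = d ∧ z e = f ∧ z g = h ∧
      ∀ u, u = a ∨ u = b ∨ u = c ∨ u = d ∨ u = e ∨ u = f ∨ u = g ∨ u = h ∨ z u = u := by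
  simp only [List.nodup_cons, List.mem_cons, List.not_mem_nil, or_false, not_or] at hn
  refine ⟨up (up (up (up id a b b a) c d d c) e f f e) g h h g, inv_pr (inv_pr (inv_pr (inv_pr
    (fun _ => rfl) rfl rfl) ?_ ?_) ?_ ?_) ?_ ?_, ?_, ?_, ?_, ?_, fun u => ?_⟩ <;> grind [up]

theorem exC {z' : α → α} (hz' : Involutive z') {a b c d e : α} (hn : [a, b, c, d, e].Nodup)
    (h5 : ∀ u, u = a ∨ u = b ∨ u = c ∨ u = d → z' u = u) :
    ∃ z : α → α, Involutive z ∧ z a = e ∧ z b = d ∧ (z c = if z' e = e then c else z' e) ∧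
      ∀ u, ¬ (u = a ∨ u = b ∨ u = c ∨ u = d) → u ≠ e → u ≠ z' e → z u = z' u := by
  simp only [List.nodup_cons, List.mem_cons, List.not_mem_nil, or_false, not_or] at hn
  have h1 := h5 a
  have h2 := h5 b
  have h3 := h5 c
  have h4 := h5 d
  have := hz' e
  by_cases h : z' e = e
  · refine ⟨up (up z' e a a e) b d d b, inv_pr (inv_pr hz' ?_ ?_) ?_ ?_, ?_, ?_, ?_, fun u => ?_⟩ <;>
      grind [up]
  · refine ⟨up (up (up (up z' e e (z' e) (z' e)) e a a e) b d d b) c (z' e) (z' e) c, inv_pr (inv_pr
      (inv_pr (inv_rm hz' rfl) ?_ ?_) ?_ ?_) ?_ ?_, ?_, ?_, ?_, fun u => ?_⟩ <;> grind [up]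

variable [Fintype α]

/-- The number of moved points. -/
def cnt (x : α → α) : ℕ := #{u | x u ≠ u}

theorem cnt_rm {x : α → α} (hx : Involutive x) {a b : α} (h : x a = b) (hab : a ≠ b) :
    cnt (up x a a b b) + 2 = cnt x := by
  have := hx a
  have e : univ.filter (fun u => x u ≠ u) =
      insert a (insert b (univ.filter fun u => up x a a b b u ≠ u)) := by
    ext u; simp only [mem_filter, mem_univ, true_and, mem_insert]; grind [up]
  rw [cnt, cnt, e, card_insert_of_notMem (by simp only [mem_filter, mem_insert]; grind [up]),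
    card_insert_of_notMem (by simp only [mem_filter]; grind [up])]

theorem cnt_pr {x : α → α} {a b : α} (ha : x a = a) (hb : x b = b) (hab : a ≠ b) :
    cnt (up x a b b a) = cnt x + 2 := by
  have e : univ.filter (fun u => up x a b b a u ≠ u) =
      insert a (insert b (univ.filter fun u => x u ≠ u)) := by
    ext u; simp only [mem_filter, mem_univ, true_and, mem_insert]; grind [up]
  rw [cnt, cnt, e, card_insert_of_notMem (by simp [ha, hab]), card_insert_of_notMem (by simp [hb])]

omit [Fintype α] in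
/-- The exceptional configuration. -/
def Bad (S : Finset α) (x y : α → α) : Prop := #S = 4 ∧ ∀ u ∈ S, x u ≠ u ∧ y u ≠ u ∧ x u ≠ y u

omit [Fintype α] in
/-- A common neighbour. -/
def Sol (S : Finset α) (x y : α → α) : Prop :=
  ∃ z, Involutive z ∧ (∀ u ∉ S, z u = u) ∧ Od x z ∧ Od y z

/-- The hypotheses. -/
structure Hy (S : Finset α) (x y : α → α) : Prop where
  ix : Involutive x
  iy : Involutive y
  sx : ∀ u ∉ S, x u = u
  sy : ∀ u ∉ S, y u = u
  c : cnt x = cnt y

theorem Hy.symm {S : Finset α} {x y : α → α} (h : Hy S x y) : Hy S y x :=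
  ⟨h.iy, h.ix, h.sy, h.sx, h.c.symm⟩

omit [Fintype α] [DecidableEq α] in
theorem Sol.symm {S : Finset α} {x y : α → α} (h : Sol S x y) : Sol S y x :=
  h.imp fun _ h => ⟨h.1, h.2.1, h.2.2.2, h.2.2.1⟩

theorem Hy.bad {S : Finset α} {x y : α → α} (h : Hy S x y) (hb : Bad S x y) {a : α} (ha : a ∈ S) :
    y (x a) = x (y a) ∧ [a, x a, x (y a), y a].Nodup ∧ x a ∈ S ∧ y a ∈ S ∧ x (y a) ∈ S ∧
      ∀ u ∈ S, u = a ∨ u = x a ∨ u = x (y a) ∨ u = y a := by
  have mx : ∀ u ∈ S, x u ∈ S := fun u hu => by
    have := h.sx (x u); have := h.ix u; have := hb.2 u hu; grind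
  have my : ∀ u ∈ S, y u ∈ S := fun u hu => by
    have := h.sy (y u); have := h.iy u; have := hb.2 u hu; grind
  have h1 := hb.2 a ha
  have h2 := hb.2 _ (my a ha)
  have h3 := hb.2 _ (mx a ha)
  have := h.ix a
  have := h.iy a
  have := h.ix (y a)
  have := h.iy (x a)
  have hn : [a, x a, x (y a), y a].Nodup := by simp; grind
  have e : [a, x a, x (y a), y a].toFinset = S := eq_of_subset_of_card_le
    (fun u hu => by have := mx a ha; have := my a ha; have := mx _ (my a ha); simp at hu; grind)
    (by rw [List.toFinset_card_of_nodup hn, hb.1]; rfl)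
  have H : ∀ u ∈ S, u = a ∨ u = x a ∨ u = x (y a) ∨ u = y a := fun u hu => by simpa [← e] using hu
  have := H _ (my _ (mx a ha))
  exact ⟨by grind, hn, mx a ha, my a ha, mx _ (my a ha), H⟩

theorem step1 {S : Finset α} (ih : ∀ T ⊂ S, ∀ x y, Hy T x y → ¬ Bad T x y → Sol T x y)
    {x y : α → α} (h : Hy S x y) {a b c : α} (h1 : x a = b) (h2 : x c = c) (h3 : y b = c)
    (hab : a ≠ b) (hbc : b ≠ c) : Sol S x y := by
  have := h.ix a
  have := h.iy b
  have := h.sx a
  have := h.sy b
  have := h.sy c
  obtain ⟨z, hz, sz, o1, o2⟩ := ih ((S.erase b).erase c)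
    ((erase_subset _ _).trans_ssubset (erase_ssubset (by grind))) _ _
    ⟨inv_rm h.ix h1, inv_rm h.iy h3, fun u => by have := h.sx u; grind [up],
      fun u => by have := h.sy u; grind [up],
      by have := cnt_rm h.ix h1 hab; have := cnt_rm h.iy h3 hbc; have := h.c; omega⟩
    fun hb => by have := hb.2 a; grind [up]
  have hb := sz b (by simp)
  have hc := sz c (by simp)
  exact ⟨_, inv_pr hz hb hc, fun u => by have := sz u; grind [up], odE h.ix hz h1 h2 hab hbc o1 hb hc,
    odD h.iy h3 o2 hb hc⟩

theorem step2 {S : Finset α} (ih : ∀ T ⊂ S, ∀ x y, Hy T x y → ¬ Bad T x y → Sol T x y)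
    {x y : α → α} (h : Hy S x y) {a b c d : α} (h1 : x a = b) (h2 : x d = d) (h3 : y c = d)
    (h4 : y b = b) (hab : a ≠ b) (hcd : c ≠ d) : Sol S x y := by
  have := h.ix a
  have := h.iy c
  have := h.sx a
  have := h.sx b
  have := h.sy d
  obtain ⟨z, hz, sz, o1, o2⟩ := ih ((S.erase b).erase d)
    ((erase_subset _ _).trans_ssubset (erase_ssubset (by grind))) _ _
    ⟨inv_rm h.ix h1, inv_rm h.iy h3, fun u => by have := h.sx u; grind [up],
      fun u => by have := h.sy u; grind [up],
      by have := cnt_rm h.ix h1 hab; have := cnt_rm h.iy h3 hcd; have := h.c; omega⟩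
    fun hb => by have := hb.2 a; grind [up]
  have hb := sz b (by simp)
  have hc := sz d (by simp)
  have hbd : b ≠ d := by grind
  refine ⟨_, inv_pr hz hb hc, fun u => by have := sz u; grind [up], odE h.ix hz h1 h2 hab hbd o1 hb hc,
    ?_⟩
  convert odE h.iy hz h3 h4 hcd hbd.symm o2 hc hb using 1
  ext u
  grind [up]

theorem step3 {S : Finset α} (ih : ∀ T ⊂ S, ∀ x y, Hy T x y → ¬ Bad T x y → Sol T x y)
    {x y : α → α} (h : Hy S x y) (hb : ¬ Bad S x y) {a b c d : α} (h1 : x a = b) (h2 : x d = c)
    (h3 : y a = d) (h4 : y b = c) (hn : [a, b, c, d].Nodup) : Sol S x y := by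
  have hn' := hn
  simp only [List.nodup_cons, List.mem_cons, List.not_mem_nil, or_false, not_or] at hn'
  have := h.ix a
  have := h.ix d
  have := h.iy a
  have := h.iy b
  have := h.sx a
  have := h.sx b
  have := h.sx c
  have := h.sx d
  have i1 := inv_rm h.ix h1
  have i2 := inv_rm h.iy h3
  have e1 : up x a a b b d = c := by grind [up]
  have e2 : up y a a d d b = c := by grind [up]
  have H : Hy (S \ {a, b, c, d}) (up (up x a a b b) d d c c) (up (up y a a d d) b b c c) :=
    ⟨inv_rm i1 e1, inv_rm i2 e2, fun u => by have := h.sx u; grind [up],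
      fun u => by have := h.sy u; grind [up], by
      have := cnt_rm h.ix h1 (by grind); have := cnt_rm h.iy h3 (by grind)
      have := cnt_rm i1 e1 (by grind); have := cnt_rm i2 e2 (by grind); have := h.c; omega⟩
  obtain ⟨e, he⟩ : (S \ {a, b, c, d}).Nonempty := by
    refine nonempty_iff_ne_empty.2 fun e => hb ?_
    have e' : S = [a, b, c, d].toFinset := by
      rw [sdiff_eq_empty_iff_subset] at e
      exact Subset.antisymm (by simpa using e) fun u hu => by simp at hu; grind
    exact ⟨by rw [e', List.toFinset_card_of_nodup hn]; rfl, by grind⟩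
  by_cases hB : Bad (S \ {a, b, c, d}) (up (up x a a b b) d d c c) (up (up y a a d d) b b c c)
  · obtain ⟨k1, k2, k3, k4, k5, k6⟩ := H.bad hB he
    have q1 : up (up x a a b b) d d c c e = x e := by grind [up]
    have q2 : up (up y a a d d) b b c c e = y e := by grind [up]
    rw [q1, q2] at k1 k2 k6
    rw [q1] at k3
    rw [q2] at k4 k5
    have q3 : up (up x a a b b) d d c c (y e) = x (y e) := by grind [up]
    have q4 : up (up y a a d d) b b c c (x e) = y (x e) := by grind [up]
    rw [q3] at k1 k2 k5 k6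
    rw [q4] at k1
    obtain ⟨z, hz, z1, z2, z3, z4, z5⟩ := ex4 (a := a) (b := b) (c := x e) (d := x (y e)) (e := c)
      (f := e) (g := d) (h := y e) (by simp at k2 ⊢; grind)
    have := hz a
    have := hz (x e)
    have := hz c
    have := hz d
    have := h.ix e
    have := h.iy e
    have := h.iy (x e)
    refine ⟨z, hz, fun u => by have := z5 u; grind, odH h.ix hz (a := c) (b := d) (c := y e)
      (d := x (y e)) (e := x e) (g := e) (by grind) z4 rfl (by grind) (by grind) (by grind) fun u => ?_,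
      odH h.iy hz (a := a) (b := d) (c := y e) (d := e) (e := c) (g := b) h3 z4 (by grind) (by grind)
        (by grind) (by grind) fun u => ?_⟩
    · have := z5 u; have := k6 u; have := h.sx u; grind
    · have := z5 u; have := k6 u; have := h.sy u; grind
  · obtain ⟨z', hz', sz, o1, o2⟩ := ih _ (sdiff_ssubset (by grind) (by simp)) _ _ H hB
    have h5 : ∀ u, u = a ∨ u = b ∨ u = c ∨ u = d → z' u = u := fun u hu => sz u (by grind)
    obtain ⟨z, hz, z1, z2, z3, z4⟩ := exC hz' (a := a) (b := b) (c := c) (d := d) (e := e)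
      (by simp; grind) h5
    have := hz b
    refine ⟨z, hz, fun u hu => ?_, odC h.ix H.ix hz hz' h1 h2 (fun u hu => ⟨by grind [up], h5 u hu⟩)
      (by grind [up]) (by grind) z1 z2 z3 z4 o1, odC h.iy H.iy hz hz' h3 h4
      (fun u hu => ⟨by grind [up], h5 u (by grind)⟩) (by grind [up]) (by grind) z1 (by grind) z3
      (fun u hu => z4 u (by grind)) o2⟩
    have := sz u (by grind)
    have := hz' e
    exact (z4 u (by grind) (by grind) (by grind)).trans (by assumption)

theorem step4 {S : Finset α} (ih : ∀ T ⊂ S, ∀ x y, Hy T x y → ¬ Bad T x y → Sol T x y)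
    {x y : α → α} (h : Hy S x y) {a b c d e g : α} (h1 : x a = b) (h2 : x c = d) (h3 : x e = g)
    (h4 : y b = c) (h5 : y d = e) (hn : [a, b, c, d, e, g].Nodup) : Sol S x y := by
  have hn' := hn
  simp only [List.nodup_cons, List.mem_cons, List.not_mem_nil, or_false, not_or] at hn'
  have := h.ix a
  have := h.ix c
  have := h.ix e
  have := h.iy b
  have := h.iy d
  have := h.sx a
  have := h.sx b
  have := h.sx c
  have := h.sx d
  have := h.sx e
  have := h.sx g
  have i1 := inv_rm h.ix h1
  have e1 : up x a a b b c = d := by grind [up]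
  have i2 := inv_rm i1 e1
  have e2 : up (up x a a b b) c c d d e = g := by grind [up]
  have i3 := inv_rm i2 e2
  have e3 : up (up (up x a a b b) c c d d) e e g g a = a := by grind [up]
  have e4 : up (up (up x a a b b) c c d d) e e g g g = g := by grind [up]
  have i4 := inv_rm h.iy h4
  have e5 : up y b b c c d = e := by grind [up]
  obtain ⟨x', hx'⟩ : ∃ x', x' = up (up (up (up x a a b b) c c d d) e e g g) a g g a := ⟨_, rfl⟩
  obtain ⟨y', hy'⟩ : ∃ y', y' = up (up y b b c c) d d e e := ⟨_, rfl⟩
  have x1 : x' a = g := by simp [hx', up]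
  have x2 : ∀ u, u = b ∨ u = c ∨ u = d ∨ u = e → x' u = u := fun u hu => by
    simp only [hx', up]; grind
  have x3 : ∀ u, u ≠ a → u ≠ g → ¬ (u = b ∨ u = c ∨ u = d ∨ u = e) → x' u = x u := fun u _ _ _ => by
    simp only [hx', up]; grind
  have y3 : ∀ u, ¬ (u = b ∨ u = c ∨ u = d ∨ u = e) → y' u = y u := fun u _ => by
    simp only [hy', up]; grind
  have H : Hy (S \ {b, c, d, e}) x' y' :=
    ⟨hx' ▸ inv_pr i3 e3 e4, hy' ▸ inv_rm i4 e5,
      fun u hu => by
        by_cases c : u ∈ S
        · exact x2 u (by grind)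
        · exact (x3 u (by grind) (by grind) (by grind)).trans (h.sx u c),
      fun u hu => by have := h.sy u; simp only [hy', up]; grind, by
      have := cnt_rm h.ix h1 (by grind); have := cnt_rm i1 e1 (by grind)
      have := cnt_rm i2 e2 (by grind); have := cnt_pr e3 e4 (by grind)
      have := cnt_rm h.iy h4 (by grind); have := cnt_rm i4 e5 (by grind); have := h.c
      rw [hx', hy']; omega⟩
  by_cases hB : Bad (S \ {b, c, d, e}) x' y'
  · obtain ⟨k1, k2, k3, k4, k5, k6⟩ := H.bad hB (a := a) (by grind)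
    have q2 : y' a = y a := y3 a (by grind)
    rw [x1, q2] at k1 k2 k6
    rw [x1] at k3
    rw [q2] at k4 k5
    have q3 : x' (y a) = x (y a) := x3 _ (by simp at k2; grind) (by simp at k2; grind) (by grind)
    rw [q3] at k1 k2 k5 k6
    rw [y3 g (by grind)] at k1
    obtain ⟨z, hz, z1, z2, z3, z4, z5⟩ := ex4 (a := a) (b := b) (c := d) (d := e) (e := c)
      (f := x (y a)) (g := g) (h := y a) (by simp at k2 ⊢; grind)
    have := hz a
    have := hz d
    have := hz c
    have := hz g
    have := h.iy a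
    have := h.iy g
    refine ⟨z, hz, fun u => by have := z5 u; grind, odH h.ix hz (a := c) (b := d) (c := e)
      (d := g) (e := y a) (g := x (y a)) h2 z2 h3 z4 rfl (by grind) fun u => ?_,
      odH h.iy hz (a := b) (b := c) (c := x (y a)) (d := g) (e := y a) (g := a) h4 z3 (by grind) z4
        (by grind) z1 fun u => ?_⟩
    · have := z5 u; have := k6 u; have := h.sx u; grind
    · have := z5 u; have := k6 u; have := h.sy u; grind
  · obtain ⟨z, hz, sz, o1, o2⟩ := ih _ (sdiff_ssubset (by grind) (by simp)) _ _ H hB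
    have h6 : ∀ u, u = b ∨ u = c ∨ u = d ∨ u = e → z u = u := fun u hu => sz u (by grind)
    have hb := h6 b (by simp)
    have hc := h6 c (by simp)
    have hd : up z b c c b d = d := by grind [up]
    have he : up z b c c b e = e := by grind [up]
    refine ⟨_, inv_pr (inv_pr hz hb hc) hd he, fun u => by have := sz u; grind [up],
      odF h.ix H.ix hz h1 h2 h3 hn x1 (fun u hu => ⟨x2 u hu, h6 u hu⟩) x3 o1,
      odD h.iy h5 (odD (inv_rm h.iy h5) (by grind [up]) ?_ hb hc) hd he⟩
    convert o2 using 1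
    ext u
    simp only [hy', up]
    grind

theorem main (S : Finset α) : ∀ x y, Hy S x y → ¬ Bad S x y → Sol S x y := by
  induction S using Finset.strongInduction with
  | H S ih =>
  intro x y h hb
  by_cases hs : ∀ u, x u = u ↔ y u = u
  · by_cases e : ∀ u, x u = y u
    · refine ⟨x, h.ix, h.sx, fun f hf u => ?_, fun f hf u => ?_⟩ <;> have := hf (x u) <;>
        have := h.ix u <;> have := e (x u) <;> grind
    obtain ⟨c, hc⟩ := not_forall.1 e
    have := h.ix c
    have := h.iy c
    have := h.ix (y c)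
    have := h.iy (x c)
    have := hs c
    have := hs (x c)
    have := hs (y c)
    by_cases e : x (y c) = y (x c)
    · exact step3 ih h hb rfl rfl rfl e.symm (by simp; grind)
    · have := h.ix (y (x c))
      have := hs (y (x c))
      refine step4 ih h (h.ix (y c)) rfl rfl (h.iy c) rfl ?_
      simp only [List.nodup_cons, List.mem_cons, List.not_mem_nil, or_false, not_or, List.nodup_nil]
      refine ⟨⟨?_, ?_, ?_, ?_, ?_⟩, ⟨?_, ?_, ?_, ?_⟩, ⟨?_, ?_, ?_⟩, ⟨?_, ?_⟩, ?_, by simp⟩ <;> grind
  · have k : ∀ {x y : α → α}, cnt x = cnt y → ¬ (∀ u, x u = u ↔ y u = u) → ∃ c, x c = c ∧ y c ≠ c :=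
      fun {x y} e hs => by
        by_contra! H
        have := eq_of_subset_of_card_le (s := {u | y u ≠ u}) (t := {u | x u ≠ u})
          (fun u => by have := H u; simp; grind) e.le
        exact hs fun u => by have := Finset.ext_iff.1 this u; simp at this; grind
    obtain ⟨c, c1, c2⟩ := k h.c hs
    obtain ⟨d, d1, d2⟩ := k h.c.symm fun H => hs fun u => (H u).symm
    by_cases e : x (y c) = y c
    · by_cases e' : y (x d) = x d
      · exact step2 ih h rfl e rfl e' d2.symm c2.symm
      · exact (step1 ih h.symm (h.iy _) d1 (h.ix d) e' d2).symm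
    · exact step1 ih h (h.ix _) c1 (h.iy c) e c2

omit [DecidableEq α] in
theorem odd_of_od {x z : Equiv.Perm α} (hz : Involutive z) (h : Od x z) : Odd (orderOf (x * z)) := by
  classical
  by_contra! ho
  obtain ⟨j, hj⟩ := Nat.not_odd_iff_even.1 ho
  have h0 := orderOf_pos (x * z)
  obtain ⟨a, ha⟩ : ∃ a, ((x * z) ^ j) a ≠ a := by
    by_contra! H
    exact pow_ne_one_of_lt_orderOf (x := x * z) (n := j) (by omega) (by omega) (Equiv.ext H)
  have hp : IsPeriodicPt (x * z) (j + j) a := by
    rw [IsPeriodicPt, IsFixedPt, ← Equiv.Perm.coe_pow, ← hj, pow_orderOf_eq_one]; rfl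
  have hm : Even (minimalPeriod (x * z) a) := by
    by_contra c
    have := hp.minimalPeriod_dvd
    rw [← two_mul] at this
    exact ha (isPeriodicPt_iff_minimalPeriod_dvd.2 ((Nat.coprime_two_right.2
      (Nat.not_even_iff_odd.1 c)).dvd_of_dvd_mul_left this))
  have hm0 := hp.minimalPeriod_pos (by omega)
  have := h (fun u => ∑ i ∈ range (minimalPeriod (x * z) a),
    if (x * z)^[i] a = u then (-1 : ℤ) ^ i else 0) (fun u => by
      have e1 := sum_range_succ (fun i => if (x * z)^[i] a = x u then (-1 : ℤ) ^ i else 0)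
        (minimalPeriod (x * z) a)
      rw [sum_range_succ', iterate_minimalPeriod, hm.neg_one_pow] at e1
      simp only [iterate_zero, id, pow_zero, add_left_inj] at e1
      rw [← e1, ← sum_neg_distrib]
      refine sum_congr rfl fun i _ => ?_
      have : (x * z)^[i + 1] a = x u ↔ (x * z)^[i] a = z u := by
        rw [iterate_succ_apply', Equiv.Perm.mul_apply, x.apply_eq_iff_eq]
        exact hz.eq_iff
      simp only [this]
      split_ifs <;> simp [pow_succ]) a
  rw [sum_eq_single 0 (fun i hi h0 => if_neg fun e : (x * z)^[i] a = a =>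
    h0 (IsPeriodicPt.eq_zero_of_lt_minimalPeriod e (mem_range.1 hi))) fun h => absurd (mem_range.2 hm0) h] at this
  simp at this

omit [Fintype α] in
theorem orderOf_swaps {a b c d : α} (hn : [a, b, c, d].Nodup) :
    orderOf (Equiv.swap a b * Equiv.swap c d) = 2 := by
  simp only [List.nodup_cons, List.mem_cons, List.not_mem_nil, or_false, not_or] at hn
  refine orderOf_eq_prime (Equiv.ext fun u => ?_) fun e => ?_
  · simp only [sq, Equiv.Perm.mul_apply, Equiv.swap_apply_def, Equiv.Perm.one_apply]
    grind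
  · have := Equiv.congr_fun e a
    simp only [Equiv.Perm.mul_apply, Equiv.swap_apply_def, Equiv.Perm.one_apply] at this
    grind

/-- Let n ≥ 5 and let X be a conjugacy class of involutions of the symmetric group of degree n. The graph on X joining two distinct involutions whose product has odd order is connected and has diameter exactly 2. -/
theorem result (n : ℕ) (hn : 5 ≤ n) (t : Equiv.Perm (Fin n)) (ht : orderOf t = 2) :
    (SimpleGraph.fromRel fun x y : {x : Equiv.Perm (Fin n) // IsConj t x} =>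
        Odd (orderOf (x.1 * y.1))).Connected ∧
      (SimpleGraph.fromRel fun x y : {x : Equiv.Perm (Fin n) // IsConj t x} =>
        Odd (orderOf (x.1 * y.1))).diam = 2 := by
  set Γ := SimpleGraph.fromRel fun x y : {x : Equiv.Perm (Fin n) // IsConj t x} =>
    Odd (orderOf (x.1 * y.1))
  have tt := Lib.Inv.mul_self_of_orderOf ht
  have sq : ∀ x : {x : Equiv.Perm (Fin n) // IsConj t x}, x.1 * x.1 = 1 := fun ⟨x, hx⟩ => by
    obtain ⟨g, rfl⟩ := isConj_iff.1 hx
    simp [mul_assoc, ← mul_assoc t t, tt]
  have iv : ∀ {x : Equiv.Perm (Fin n)}, x * x = 1 → Involutive x := fun h u => Equiv.congr_fun h u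
  have cn : ∀ x : {x : Equiv.Perm (Fin n) // IsConj t x}, cnt x.1 = #t.support := fun ⟨x, hx⟩ => by
    obtain ⟨g, rfl⟩ := isConj_iff.1 hx
    exact Equiv.Perm.card_support_conj
  have h2 : Γ.ediam ≤ 2 := SimpleGraph.ediam_le_of_edist_le fun x y => by
    obtain ⟨z, hz, -, o1, o2⟩ := main univ x.1 y.1 ⟨iv (sq x), iv (sq y), by simp, by simp,
      (cn x).trans (cn y).symm⟩ fun h => by have := h.1; simp at this; omega
    have o1 := odd_of_od (z := hz.toPerm z) hz o1
    have o2 := odd_of_od (z := hz.toPerm z) hz o2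
    have zz : hz.toPerm z * hz.toPerm z = 1 := Equiv.ext hz
    have k : ∀ x y : {x : Equiv.Perm (Fin n) // IsConj t x}, Odd (orderOf (x.1 * y.1)) →
        Γ.edist x y ≤ 1 := fun x y h => SimpleGraph.edist_le_one_iff_adj_or_eq.2
      ((eq_or_ne x y).symm.imp_left fun e => (SimpleGraph.fromRel_adj _ _ _).2 ⟨e, .inl h⟩)
    let w : {x : Equiv.Perm (Fin n) // IsConj t x} :=
      ⟨_, x.2.trans (Lib.Inv.isConj_of_odd (sq x) zz o1)⟩
    exact (SimpleGraph.edist_triangle (v := w)).trans
      (add_le_add (k x w o1) (SimpleGraph.edist_comm.trans_le (k y w o2)))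
  obtain ⟨y, hy⟩ : ∃ y : {x : Equiv.Perm (Fin n) // IsConj t x}, orderOf (t * y.1) = 2 := by
    obtain ⟨a, ha⟩ : ∃ a, t a ≠ a := by
      by_contra! H
      exact Lib.Inv.ne_one_of_orderOf ht (Equiv.ext H)
    have := iv tt a
    by_cases h : ∃ c, c ≠ a ∧ c ≠ t a ∧ t c ≠ c
    · obtain ⟨c, h1, h2, h3⟩ := h
      have := iv tt c
      refine ⟨⟨_, isConj_iff.2 ⟨Equiv.swap (t a) c, rfl⟩⟩, ?_⟩
      rw [← orderOf_swaps (a := a) (b := t c) (c := t a) (d := c) (by simp; grind)]
      congr 1
      rw [← mul_assoc, ← mul_assoc, Equiv.mul_swap_eq_swap_mul, iv tt, mul_assoc _ t t, tt, mul_one,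
        Equiv.swap_inv]
    · push Not at h
      obtain ⟨c, hc, d, hd, hcd⟩ := one_lt_card.1 (show 1 < #((univ.erase a).erase (t a)) by
        rw [card_erase_of_mem (by simp [ha]), card_erase_of_mem (by simp)]; simp; omega)
      simp only [mem_erase, mem_univ, and_true] at hc hd
      have e : t = Equiv.swap a (t a) := Equiv.ext fun u => by
        have := h u; simp only [Equiv.swap_apply_def]; grind
      refine ⟨⟨Equiv.swap c d, e ▸ Equiv.Perm.isConj_swap ha.symm hcd⟩, ?_⟩
      nth_rw 1 [e]
      exact orderOf_swaps (by simp; grind)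
  have h3 : ¬ Γ.edist ⟨t, IsConj.refl t⟩ y ≤ 1 := fun h => by
    rcases SimpleGraph.edist_le_one_iff_adj_or_eq.1 h with h | rfl
    · rcases ((SimpleGraph.fromRel_adj _ _ _).1 h).2 with h | h
      · exact absurd (hy ▸ h) (by decide)
      · rw [← orderOf_inv, mul_inv_rev, inv_eq_of_mul_eq_one_left tt,
          inv_eq_of_mul_eq_one_left (sq y), hy] at h
        exact absurd h (by decide)
    · simp [tt] at hy
  have : Nonempty {x : Equiv.Perm (Fin n) // IsConj t x} := ⟨y⟩
  have e : Γ.ediam = 2 := le_antisymm h2 (Order.add_one_le_of_lt (x := (1 : ℕ∞))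
    ((not_le.1 h3).trans_le SimpleGraph.edist_le_ediam))
  exact ⟨SimpleGraph.connected_of_ediam_ne_top (by simp [e]), by rw [SimpleGraph.diam, e]; rfl⟩

end Cfsg.Agent.S3265
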