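import Cfsg.Statements.S3266
import Cfsg.Agent.Lib.PSL2.Structure
import Cfsg.Agent.Lib.PSL2.Trace

set_option autoImplicit false
open Cfsg

namespace Cfsg.Agent.S3266

open Cfsg.Lib.PSL2 Matrix
open scoped MatrixGroups

theorem graph_diam {G : Type*} [Group G] (t : G) (ht : orderOf t = 2)
    (h1 : ∀ x y, orderOf x = 2 → orderOf y = 2 → ∃ z, IsConj t z ∧ Odd (orderOf (x * z)) ∧
      Odd (orderOf (z * y)))
    (h2 : ∃ x y, IsConj t x ∧ IsConj t y ∧ orderOf (x * y) = 2 ∧ orderOf (y * x) = 2) :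
    (SimpleGraph.fromRel fun x y : {x : G // IsConj t x} => Odd (orderOf (x.1 * y.1))).Connected ∧
      (SimpleGraph.fromRel fun x y : {x : G // IsConj t x} =>
        Odd (orderOf (x.1 * y.1))).diam = 2 := by
  set Γ := SimpleGraph.fromRel fun x y : {x : G // IsConj t x} => Odd (orderOf (x.1 * y.1))
  have ho : ∀ x : {x : G // IsConj t x}, orderOf x.1 = 2 := fun x => by
    obtain ⟨c, hc⟩ := isConj_iff.1 x.2
    rw [← hc, orderOf_conj_eq, ht]
  have hadj : ∀ x y : {x : G // IsConj t x}, Odd (orderOf (x.1 * y.1)) → Γ.edist x y ≤ 1 :=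
    fun x y h => by
      rw [SimpleGraph.edist_le_one_iff_adj_or_eq]
      by_cases e : x = y
      · exact Or.inr e
      · exact Or.inl ((SimpleGraph.fromRel_adj _ _ _).2 ⟨e, Or.inl h⟩)
  have hle : Γ.ediam ≤ 2 := SimpleGraph.ediam_le_of_edist_le fun x y => by
    obtain ⟨z, hz, e1, e2⟩ := h1 x.1 y.1 (ho x) (ho y)
    refine (SimpleGraph.edist_triangle (v := ⟨z, hz⟩)).trans ?_
    exact (add_le_add (hadj x ⟨z, hz⟩ e1) (hadj ⟨z, hz⟩ y e2)).trans (by norm_num)
  obtain ⟨x, y, hx, hy, e1, e2⟩ := h2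
  have hge : 2 ≤ Γ.ediam := by
    refine le_trans ?_ (SimpleGraph.edist_le_ediam (u := ⟨x, hx⟩) (v := ⟨y, hy⟩))
    by_contra hc
    have : Γ.edist ⟨x, hx⟩ ⟨y, hy⟩ ≤ 1 := Order.le_of_lt_succ (not_le.1 hc)
    rw [SimpleGraph.edist_le_one_iff_adj_or_eq, SimpleGraph.fromRel_adj] at this
    rcases this with ⟨-, h | h⟩ | h
    · simp only [e1] at h; exact absurd h (by decide)
    · simp only [e2] at h; exact absurd h (by decide)
    · have h' : x = y := congrArg Subtype.val h
      have := pow_orderOf_eq_one x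
      rw [ho ⟨x, hx⟩, sq] at this
      rw [← h', this, orderOf_one] at e1
      exact absurd e1 (by decide)
  have he : Γ.ediam = 2 := le_antisymm hle hge
  haveI : Nonempty {x : G // IsConj t x} := ⟨⟨x, hx⟩⟩
  exact ⟨SimpleGraph.connected_of_ediam_ne_top (by rw [he]; simp), by
    rw [SimpleGraph.diam, he]; rfl⟩

variable {F : Type*} [Field F]

theorem exists_mid (h2 : (2 : F) ≠ 0) {A B : SL(2, F)} (hA : trS A = 0) (hB : trS B = 0)
    {c s t r : F} (hc : trS (A * B) = -2 * c) (hD : 1 - c ^ 2 ≠ 0)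
    (hr : r ^ 2 = 1 - c ^ 2 - s ^ 2 - t ^ 2 + 2 * c * s * t) :
    ∃ Z : SL(2, F), trS Z = 0 ∧ trS (A * Z) = -2 * s ∧ trS (Z * B) = -2 * t := by
  have dA := sl_det A
  have dB := sl_det B
  simp only [trS, sl_mul_apply] at hA hB hc ⊢
  have a1 : A 1 1 = -A 0 0 := by linear_combination hA
  have b1 : B 1 1 = -B 0 0 := by linear_combination hB
  rw [a1] at dA; rw [b1] at dB; rw [a1, b1] at hc
  simp only [a1, b1]
  generalize A 0 0 = a at *; generalize A 0 1 = b at *; generalize A 1 0 = d at *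
  generalize B 0 0 = e at *; generalize B 0 1 = f at *; generalize B 1 0 = g at *
  obtain ⟨α, hα⟩ : ∃ α, α * (1 - c ^ 2) = s - c * t := ⟨_, div_mul_cancel₀ _ hD⟩
  obtain ⟨β, hβ⟩ : ∃ β, β * (1 - c ^ 2) = t - c * s := ⟨_, div_mul_cancel₀ _ hD⟩
  obtain ⟨γ, hγ⟩ : ∃ γ, γ * (2 * (1 - c ^ 2)) = r := ⟨_, div_mul_cancel₀ _ (mul_ne_zero h2 hD)⟩
  have e1 : α + β * c = s := mul_right_cancel₀ hD (by linear_combination hα + c * hβ)
  have e2 : α * c + β = t := mul_right_cancel₀ hD (by linear_combination c * hα + hβ)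
  have e3 : α ^ 2 + β ^ 2 + 2 * α * β * c + γ ^ 2 * (4 - 4 * c ^ 2) = 1 :=
    mul_right_cancel₀ hD (by
      rw [← e1, ← e2, ← hγ] at hr
      linear_combination hr)
  refine ⟨⟨!![α * a + β * e + γ * (b * g - d * f), α * b + β * f + γ * (2 * (a * f - b * e));
    α * d + β * g + γ * (2 * (d * e - a * g)), -(α * a + β * e + γ * (b * g - d * f))], ?_⟩,
    ?_, ?_, ?_⟩
  · rw [det_fin_two_of]
    linear_combination e3 + (α ^ 2 + 4 * γ ^ 2 * (e * -e - f * g)) * dA + (β ^ 2 + 4 * γ ^ 2) * dB -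
      (α * β + γ ^ 2 * (2 * a * e + b * g + d * f - 2 * c)) * hc
  · simp
  · simp
    linear_combination -2 * e1 - 2 * α * dA + β * hc
  · simp
    linear_combination -2 * e2 - 2 * β * dB + α * hc

theorem odd_of_trace [Fintype F] (h2 : (2 : F) ≠ 0) {M : SL(2, F)} {a : F} (ha : a ≠ 0)
    (hM : trS M = a + a⁻¹) (h : a = 1 ∨ a = -1 ∨ Fintype.card F % 4 = 3) :
    Odd (orderOf (toL M)) := by
  obtain ⟨p, hp⟩ := CharP.exists F
  haveI : Fact p.Prime := ⟨CharP.char_is_prime F p⟩
  have hp2 : Odd p := (Fact.out : p.Prime).odd_of_ne_two fun e => h2 (by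
    have := CharP.cast_eq_zero F p; rwa [e] at this)
  have k1 : ∀ M : SL(2, F), trS M = 2 → Odd (orderOf (toL M)) := fun M hM =>
    hp2.of_dvd_nat (orderOf_dvd_of_pow_eq_one (by rw [← map_pow, pow_char_of_trS p hM, map_one]))
  by_cases h1 : a = 1
  · exact k1 M (by rw [hM, h1]; norm_num)
  by_cases h1' : a = -1
  · rw [← toL_neg]; exact k1 _ (by rw [trS_neg, hM, h1']; norm_num)
  have h4 := (h.resolve_left h1).resolve_left h1'
  set n := Fintype.card F / 2
  have hn : Odd n := by rw [Nat.odd_iff]; omega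
  refine hn.of_dvd_nat (orderOf_dvd_of_pow_eq_one ?_)
  rw [← map_pow, toL_eq_one_iff]
  have ch : M.1 * M.1 = (a + a⁻¹) • M.1 - 1 := by
    have dM := sl_det M
    rw [← hM]
    ext i j
    fin_cases i <;> fin_cases j <;> simp [Matrix.mul_apply, Fin.sum_univ_two, trS] <;>
      first | ring1 | linear_combination -dM
  have k : ∀ (b : F), b ≠ 0 → a + a⁻¹ = b + b⁻¹ → ∀ m : ℕ, M.1 ^ m *
      (M.1 - b⁻¹ • 1) = b ^ m • (M.1 - b⁻¹ • 1) := fun b hb e m => by
    induction m with
    | zero => simp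
    | succ m ih =>
      rw [pow_succ', mul_assoc, ih, mul_smul_comm, mul_sub, ch, e, pow_succ, mul_smul]
      congr 1
      rw [smul_sub, smul_smul, mul_inv_cancel₀ hb, add_smul]
      simp
      abel
  have k2 := k a ha rfl n
  have k3 := k a⁻¹ (inv_ne_zero ha) (by rw [inv_inv, add_comm]) n
  rw [inv_inv] at k3
  have hε : a ^ n = 1 ∨ a ^ n = -1 :=
    FiniteField.pow_dichotomy (by rw [ringChar.eq F p]; rintro rfl; exact absurd hp2 (by decide)) ha
  have hε' : a⁻¹ ^ n = a ^ n := by
    rw [inv_pow]; rcases hε with e | e <;> rw [e] <;> simp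
  rw [hε'] at k3
  have hne : a - a⁻¹ ≠ 0 := fun e => by
    have : a * a = 1 := by
      have := congrArg (a * ·) e
      simp only [mul_sub, mul_inv_cancel₀ ha, mul_zero] at this
      linear_combination this
    exact (mul_self_eq_one_iff.1 this).elim h1 h1'
  have k4 : (a - a⁻¹) • M.1 ^ n = (a - a⁻¹) • (a ^ n • 1) := by
    have := congrArg₂ (· - ·) k2 k3
    simp only [← mul_sub, ← smul_sub, sub_sub_sub_cancel_left, ← sub_smul, mul_smul_comm,
      mul_one] at this
    rw [this, smul_comm]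
  have k5 := smul_right_injective _ hne k4
  rcases hε with e | e <;> rw [e] at k5
  · left; ext i j; simpa using congrFun (congrFun k5 i) j
  · right; ext i j; simpa using congrFun (congrFun k5 i) j

theorem exists_pair [Fintype F] (h4 : Fintype.card F % 4 = 3) (h3 : 3 < Fintype.card F) {c : F}
    (hD : ¬ IsSquare (c ^ 2 - 1)) : ∃ a b r : F, a ≠ 0 ∧ b ≠ 0 ∧
      r ^ 2 = 1 - c ^ 2 - ((a + a⁻¹) / 2) ^ 2 - ((b + b⁻¹) / 2) ^ 2 +
        2 * c * ((a + a⁻¹) / 2) * ((b + b⁻¹) / 2) := by
  classical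
  have hF : ringChar F ≠ 2 := fun e => by
    have := FiniteField.even_card_of_char_two e; omega
  have h2 : (2 : F) ≠ 0 := Ring.two_ne_zero hF
  have hD0 : c ^ 2 - 1 ≠ 0 := fun e => hD (e ▸ IsSquare.zero)
  set χ := quadraticChar F
  have hm : χ (-1) = -1 := by
    rw [quadraticChar_neg_one_iff_not_isSquare, FiniteField.isSquare_neg_one_iff]; omega
  let f : F → F := fun g => g ^ 2 - 2 * c * g + 1
  have f0 : ∀ g, f g ≠ 0 := fun g e => hD ⟨g - c, by simp only [f] at e; linear_combination -e⟩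
  have hs : ∑ g, (χ (f g) + 1) = Fintype.card F - 1 := by
    simp only [χ, ← quadraticChar_card_sqrts hF]
    rw [← Nat.cast_sum, ← Finset.card_sigma, ← Nat.cast_pred Fintype.card_pos, ← Finset.card_univ,
      ← Finset.card_erase_of_mem (Finset.mem_univ (0 : F))]
    congr 1
    refine Finset.card_nbij' (fun p => p.1 - c - p.2)
      (fun u => ⟨c + (u + (c ^ 2 - 1) / u) / 2, ((c ^ 2 - 1) / u - u) / 2⟩) ?_ ?_ ?_ ?_
    · rintro ⟨g, w⟩ hp
      simp only [f, Finset.coe_sigma, Finset.coe_univ, Set.mem_sigma_iff, Set.mem_univ,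
        Set.coe_toFinset, Set.mem_setOf_eq, true_and] at hp
      simp only [Finset.coe_erase, Finset.coe_univ, Set.mem_diff, Set.mem_univ,
        Set.mem_singleton_iff, true_and]
      intro e
      apply hD0
      linear_combination hp - (c - g - w) * e
    · intro u hu
      have hu : u ≠ 0 := by simpa using hu
      simp only [f, Finset.coe_sigma, Finset.coe_univ, Set.mem_sigma_iff, Set.mem_univ,
        Set.coe_toFinset, Set.mem_setOf_eq, true_and]
      field_simp
      ring
    · rintro ⟨g, w⟩ hp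
      simp only [f, Finset.coe_sigma, Finset.coe_univ, Set.mem_sigma_iff, Set.mem_univ,
        Set.coe_toFinset, Set.mem_setOf_eq, true_and] at hp
      have e : g - c - w ≠ 0 := fun e => hD0 (by linear_combination hp - (c - g - w) * e)
      have e2 : (c ^ 2 - 1) / (g - c - w) = g - c + w := by
        rw [div_eq_iff e]; linear_combination hp
      simp only [e2]
      congr 1
      · field_simp; ring
      · field_simp; ring
    · intro u hu
      have hu : u ≠ 0 := by simpa using hu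
      field_simp
      ring
  by_contra hc
  push Not at hc
  have key : ∀ g h : F, g ≠ 0 → h ≠ 0 → χ (g * h) = 1 → χ (f g) = χ (f h) := by
    intro g h hg hh e
    obtain ⟨a, ha⟩ := (quadraticChar_one_iff_isSquare (mul_ne_zero hg hh)).1 e
    have a0 : a ≠ 0 := fun e => mul_ne_zero hg hh (by rw [ha, e, mul_zero])
    by_contra hne
    have : χ (-(f g * f h)) = 1 := by
      rw [neg_eq_neg_one_mul, map_mul, map_mul, hm]
      rcases quadraticChar_dichotomy (f0 g) with e1 | e1 <;>
        rcases quadraticChar_dichotomy (f0 h) with e2 | e2 <;> simp_all [χ]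
    obtain ⟨r, hr⟩ := (quadraticChar_one_iff_isSquare
      (neg_ne_zero.2 (mul_ne_zero (f0 g) (f0 h)))).1 this
    obtain rfl : h = a * a / g := by field_simp; linear_combination ha
    refine hc a (g / a) (r / (2 * a)) a0 (div_ne_zero hg a0) ?_
    rw [div_pow, sq r, ← hr]
    simp only [f]
    field_simp
    ring
  have k2 : ∀ g, 2 * (χ (f g) + 1) = χ (f 1) + χ (f (-1)) + 2 + (χ (f 1) - χ (f (-1))) * χ g +
      if g = 0 then 2 - χ (f 1) - χ (f (-1)) else 0 := fun g => by
    split_ifs with hg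
    · have e0 : χ (f g) = 1 := by simp [hg, f]
      have e1 : χ g = 0 := by rw [hg]; exact MulChar.map_zero χ
      rw [e0, e1]; ring
    rcases quadraticChar_dichotomy hg with e | e
    · rw [key g 1 hg one_ne_zero (by rw [mul_one]; exact e), e]; ring
    · rw [key g (-1) hg (by simp) (by rw [map_mul, hm, e]; rfl), e]; ring
  have k3 := Finset.sum_congr (rfl : Finset.univ = Finset.univ) fun g _ => k2 g
  rw [← Finset.mul_sum, hs, Finset.sum_add_distrib, Finset.sum_add_distrib, ← Finset.mul_sum,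
    quadraticChar_sum_zero hF] at k3
  simp at k3
  rcases quadraticChar_dichotomy (f0 1) with e1 | e1 <;>
    rcases quadraticChar_dichotomy (f0 (-1)) with e2 | e2 <;> rw [e1, e2] at k3 <;> omega

theorem trS_of_two (h2 : (2 : F) ≠ 0) {A : SL(2, F)} (h : orderOf (toL A) = 2) : trS A = 0 := by
  have := pow_orderOf_eq_one (toL A)
  rw [h, ← map_pow, toL_eq_one_iff, sq] at this
  rcases this with e | e
  · have : toL A = 1 := toL_eq_one_iff.2 (eq_one_or_neg_one_of_mul_self h2 e)
    rw [this, orderOf_one] at h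
    exact absurd h (by decide)
  · exact trS_of_mul_self e

theorem two_of_trS (h2 : (2 : F) ≠ 0) {A : SL(2, F)} (h : trS A = 0) : orderOf (toL A) = 2 := by
  refine orderOf_eq_prime (by rw [← map_pow, sq, mul_self_of_trS h, toL_neg, map_one]) fun e => ?_
  rcases toL_eq_one_iff.1 e with rfl | rfl <;> simp [h2] at h

/-- Let F be a finite field with at least 4 elements and let X be a conjugacy class of involutions of PSL(2, F). The graph on X joining two distinct involutions whose product has odd order is connected and has diameter exactly 2. -/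
theorem result {F : Type*} [Field F] [Fintype F] (hF : 4 ≤ Fintype.card F)
    (t : Matrix.ProjectiveSpecialLinearGroup (Fin 2) F) (ht : orderOf t = 2) :
    (SimpleGraph.fromRel fun x y : {x : Matrix.ProjectiveSpecialLinearGroup (Fin 2) F // IsConj t x} =>
        Odd (orderOf (x.1 * y.1))).Connected ∧
      (SimpleGraph.fromRel fun x y : {x : Matrix.ProjectiveSpecialLinearGroup (Fin 2) F // IsConj t x} =>
        Odd (orderOf (x.1 * y.1))).diam = 2 := by
  have hC : Nat.card F = Fintype.card F := Nat.card_eq_fintype_card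
  by_cases h2 : (2 : F) = 0
  · haveI : CharP F 2 := CharTwo.of_one_ne_zero_of_two_eq_zero one_ne_zero h2
    have hev : ¬ Odd (Nat.card F) := by rw [← two_ne_zero_iff_odd]; simpa using h2
    have k0 : ∀ (w : P1 F), ∀ z ∈ unipL w, z ≠ 1 → IsConj t z := fun w z hz h1 =>
      isConj_psl_of_orderOf_two ht (orderOf_of_mem_unipL 2 hz h1)
    have k1 : ∀ (u w : P1 F), u ≠ w → ∀ x ∈ unipL u, ∀ z ∈ unipL w, x ≠ 1 → z ≠ 1 →
        Odd (orderOf (x * z)) := fun u w huw x hx z hz x1 z1 => by
      rcases orderOf_psl 2 (x * z) with e | e | e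
      · have e1 := pow_orderOf_eq_one (x * z)
        have e2 := pow_orderOf_eq_one x
        have e3 := pow_orderOf_eq_one z
        rw [e, sq] at e1
        rw [orderOf_of_mem_unipL 2 hx x1, sq] at e2
        rw [orderOf_of_mem_unipL 2 hz z1, sq] at e3
        have : z ∈ unipL u := by
          rw [← centralizer_of_mem_unipL hx x1, Subgroup.mem_centralizer_singleton_iff]
          calc z * x = z * x * (x * z * (x * z)) := by rw [e1, mul_one]
            _ = z * (x * x) * z * (x * z) := by group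
            _ = x * z := by rw [e2, mul_one, e3, one_mul]
        exact absurd (Subgroup.mem_bot.1 (unipL_inf_unipL huw ▸ (⟨this, hz⟩ : z ∈ unipL u ⊓ unipL w))) z1
      · rw [gcd_two_eq_of_even hev, Nat.div_one] at e
        refine Odd.of_dvd_nat ?_ e
        rw [Nat.odd_iff] at hev ⊢; omega
      · rw [gcd_two_eq_of_even hev, Nat.div_one] at e
        refine Odd.of_dvd_nat ?_ e
        rw [Nat.odd_iff] at hev ⊢; omega
    refine graph_diam t ht (fun x y hx hy => ?_) ?_
    · obtain ⟨u, hu⟩ := exists_mem_unipL_of_dvd_orderOf 2 (g := x) (by rw [hx])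
      obtain ⟨v, hv⟩ := exists_mem_unipL_of_dvd_orderOf 2 (g := y) (by rw [hy])
      obtain ⟨w, w1, w2⟩ : ∃ w, u ≠ w ∧ w ≠ v := by
        by_contra hc
        push Not at hc
        have h01 : (pt 0 : P1 F) ≠ pt 1 := fun e => zero_ne_one (pt_injective e)
        by_cases e0 : u = pt 0
        · by_cases e1 : u = pt 1
          · exact h01 (e0.symm.trans e1)
          · exact pt_ne_inf _ ((hc _ e1).trans (hc inf (e0 ▸ pt_ne_inf _)).symm)
        · by_cases e1 : u = pt 1
          · exact pt_ne_inf _ ((hc _ e0).trans (hc inf (e1 ▸ pt_ne_inf _)).symm)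
          · exact h01 ((hc _ e0).trans (hc _ e1).symm)
      obtain ⟨⟨z, hz⟩, z1⟩ := Subgroup.ne_bot_iff_exists_ne_one.1 (unipL_ne_bot w)
      have z1 : z ≠ 1 := fun e => z1 (Subtype.ext e)
      exact ⟨z, k0 w z hz z1, k1 u w w1 x hu z hz (by rintro rfl; simp at hx) z1,
        k1 w v w2 z hz y hv z1 (by rintro rfl; simp at hy)⟩
    · have h3 : 2 < Nat.card (unipL (inf : P1 F)) := by rw [card_unipL]; omega
      haveI := Fintype.ofFinite (unipL (inf : P1 F))
      rw [Nat.card_eq_fintype_card, Fintype.two_lt_card_iff] at h3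
      obtain ⟨a, b, c, ab, ac, bc⟩ := h3
      have o : ∀ a : unipL (inf : P1 F), a ≠ 1 → orderOf a.1 = 2 := fun a h =>
        orderOf_of_mem_unipL 2 a.2 fun e => h (Subtype.ext e)
      have n1 : a⁻¹ * b ≠ 1 := fun e => ab (inv_mul_eq_one.1 e)
      have n2 : c⁻¹ * a ≠ 1 := fun e => ac (inv_mul_eq_one.1 e).symm
      have n3 : c⁻¹ * a * (a⁻¹ * b) ≠ 1 := fun e => bc (by
        rw [mul_assoc, mul_inv_cancel_left] at e; exact (inv_mul_eq_one.1 e).symm)
      refine ⟨_, _, isConj_psl_of_orderOf_two ht (o _ n2), isConj_psl_of_orderOf_two ht (o _ n1),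
        o _ n3, o (a⁻¹ * b * (c⁻¹ * a)) fun e => n3 (mul_eq_one_comm.1 e)⟩
  have hF2 : ringChar F ≠ 2 := fun e => h2 (by
    have := ringChar.Nat.cast_ringChar (R := F); rwa [e] at this)
  refine graph_diam t ht (fun x y hx hy => ?_) ?_
  · obtain ⟨A, rfl⟩ := toL_surjective x
    obtain ⟨B, rfl⟩ := toL_surjective y
    have hA := trS_of_two h2 hx
    have hB := trS_of_two h2 hy
    have k0 : Odd (orderOf (toL (A * B))) → ∃ z, IsConj t z ∧ Odd (orderOf (toL A * z)) ∧
        Odd (orderOf (z * toL B)) := fun h =>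
      ⟨toL A, isConj_psl_of_orderOf_two ht hx, by
        rw [← map_mul, mul_self_of_trS hA, toL_neg, map_one, orderOf_one]; exact odd_one, by rwa [← map_mul]⟩
    obtain ⟨c, hc⟩ : ∃ c, trS (A * B) = -2 * c := ⟨-trS (A * B) / 2, by field_simp⟩
    by_cases hD : 1 - c ^ 2 = 0
    · refine k0 (odd_of_trace h2 (a := -c) ?_ ?_ ?_)
      · rintro e; rw [neg_eq_zero.1 e] at hD; simp at hD
      · have : (-c)⁻¹ = -c := inv_eq_of_mul_eq_one_left (by linear_combination -hD)
        rw [hc, this]; ring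
      · have : -c = 1 ∨ -c = -1 := mul_self_eq_one_iff.1 (by linear_combination -hD)
        tauto
    have k1 : ∀ a b r : F, a ≠ 0 → b ≠ 0 → (a = 1 ∧ b = 1 ∨ Fintype.card F % 4 = 3) →
        r ^ 2 = 1 - c ^ 2 - ((a + a⁻¹) / 2) ^ 2 - ((b + b⁻¹) / 2) ^ 2 +
          2 * c * ((a + a⁻¹) / 2) * ((b + b⁻¹) / 2) → ∃ z, IsConj t z ∧
          Odd (orderOf (toL A * z)) ∧ Odd (orderOf (z * toL B)) := fun a b r ha hb h hr => by
      obtain ⟨Z, z0, z1, z2⟩ := exists_mid h2 hA hB hc hD hr
      refine ⟨toL Z, isConj_psl_of_orderOf_two ht (two_of_trS h2 z0), ?_, ?_⟩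
      · rw [← map_mul, ← toL_neg]
        exact odd_of_trace h2 ha (by rw [trS_neg, z1]; field_simp) (by tauto)
      · rw [← map_mul, ← toL_neg]
        exact odd_of_trace h2 hb (by rw [trS_neg, z2]; field_simp) (by tauto)
    by_cases h4 : Fintype.card F % 4 = 3
    · by_cases hs : IsSquare (c ^ 2 - 1)
      · obtain ⟨u, hu⟩ := hs
        have e : (-c + u) * (-c - u) = 1 := by linear_combination hu
        refine k0 (odd_of_trace h2 (a := -c + u) (left_ne_zero_of_mul_eq_one e) ?_ (by tauto))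
        rw [hc, inv_eq_of_mul_eq_one_right e]; ring
      · obtain ⟨a, b, r, ha, hb, hr⟩ := exists_pair h4 (by omega) hs
        exact k1 a b r ha hb (Or.inr h4) hr
    · obtain ⟨i, hi⟩ := FiniteField.isSquare_neg_one_iff.2 h4
      refine k1 1 1 (i * (c - 1)) one_ne_zero one_ne_zero (Or.inl ⟨rfl, rfl⟩) ?_
      rw [inv_one, show (1 + 1 : F) / 2 = 1 by field_simp; ring]
      linear_combination -(c - 1) ^ 2 * hi
  · obtain ⟨a, b, hab⟩ : ∃ a b : F, a ^ 2 + b ^ 2 = -1 := by
      obtain ⟨a, b, h⟩ := FiniteField.exists_root_sum_quadratic (R := F)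
        (f := Polynomial.X ^ 2 + 1) (g := Polynomial.X ^ 2)
        (Polynomial.degree_X_pow_add_C (by decide) 1) (Polynomial.degree_X_pow 2)
        (FiniteField.odd_card_of_char_ne_two hF2)
      exact ⟨a, b, by simp at h; linear_combination h⟩
    let A : SL(2, F) := ⟨!![0, 1; -1, 0], by simp [det_fin_two_of]⟩
    let B : SL(2, F) := ⟨!![a, b; b, -a], by rw [det_fin_two_of]; linear_combination -hab⟩
    refine ⟨toL A, toL B, isConj_psl_of_orderOf_two ht (two_of_trS h2 (by simp [trS, A])),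
      isConj_psl_of_orderOf_two ht (two_of_trS h2 (by simp [trS, B])), ?_, ?_⟩
    · rw [← map_mul]; exact two_of_trS h2 (by simp only [trS, sl_mul_apply]; simp [A, B])
    · rw [← map_mul]; exact two_of_trS h2 (by simp only [trS, sl_mul_apply]; simp [A, B])

end Cfsg.Agent.S3266
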