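import Cfsg.Statements.S3276
import Cfsg.Agent.Lib.Inv.Misc

set_option autoImplicit false
open Cfsg

namespace Cfsg.Agent.S3276
open Cfsg.Lib.Inv

open Subgroup Cfsg.Lib Cfsg.Lib.Transfer

/-- Let x and y be commuting, non-conjugate involutions of a finite group G, and suppose that for every involution u commuting with x, each conjugate of y that commutes with u also commutes with y. Then the normal closure of y is a proper, normal, elementary abelian 2-subgroup of G; and if y is the only involution of that normal closure commuting with x, it has order at most 4. -/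
theorem result {G : Type*} [Group G] [Finite G] (x y : G) (hx : orderOf x = 2) (hy : orderOf y = 2)
    (hxy : Commute x y) (hnc : ¬ IsConj x y)
    (hstar : ∀ u : G, orderOf u = 2 → Commute u x → ∀ g : G, Commute (g * y * g⁻¹) u → Commute (g * y * g⁻¹) y) :
    Subgroup.normalClosure ({y} : Set G) ≠ ⊤ ∧ Cfsg.IsElementaryAbelian 2 (Subgroup.normalClosure ({y} : Set G)) ∧
      ((∀ u ∈ Subgroup.normalClosure ({y} : Set G), orderOf u = 2 → Commute u x → u = y) →
        Nat.card ↥(Subgroup.normalClosure ({y} : Set G)) ≤ 4) := by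
  have hxx := mul_self_of_orderOf hx
  have hyy := mul_self_of_orderOf hy
  have h1 : ∀ g : G, Commute (g * y * g⁻¹) y := fun g => by
    obtain ⟨z, -, ho, h1, h2⟩ := exists_commute_of_not_isConj hxx
      (mul_self_of_orderOf ((orderOf_conj' g y).trans hy))
      (fun h => hnc (h.trans (isConj_conj g y).symm))
    exact hstar z ho h1 g h2.symm
  have hS : ∀ u ∈ Group.conjugatesOfSet ({y} : Set G), ∃ g : G, g * y * g⁻¹ = u := fun u hu => by
    obtain ⟨_, rfl, h⟩ := Group.mem_conjugatesOfSet_iff.1 hu
    exact isConj_iff.1 h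
  have hc : ∀ u ∈ Group.conjugatesOfSet ({y} : Set G), ∀ v ∈ Group.conjugatesOfSet ({y} : Set G),
      u * v = v * u := fun u hu v hv => by
    obtain ⟨g, rfl⟩ := hS u hu
    obtain ⟨h, rfl⟩ := hS v hv
    calc _ = h * ((h⁻¹ * g) * y * (h⁻¹ * g)⁻¹ * y) * h⁻¹ := by group
      _ = _ := by rw [(h1 _).eq]; group
  have hc' := PGroup.isMulCommutative_iff.1 (isMulCommutative_closure hc)
  have hE : IsElementaryAbelian 2 (normalClosure ({y} : Set G)) := elemAb_two_iff.2 fun a ha => by
    induction ha using closure_induction with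
    | mem u hu => obtain ⟨g, rfl⟩ := hS u hu; rw [conj_mul, hyy]; group
    | one => exact mul_one 1
    | mul u v hu hv h1 h2 => exact mul_self_mul_of_comm h1 h2 (hc' u hu v hv)
    | inv u _ h => rwa [inv_eq_of_mul_self h]
  refine ⟨fun e => ?_, hE, fun h => (card_le_sq_of_inv hE hxx (by rw [normalizer_eq_top]; trivial)).trans
    (Nat.pow_le_pow_left ((card_le_of_le (K := zpowers y) fun u hu => ?_).trans_eq
      ((Nat.card_zpowers y).trans hy)) 2)⟩
  · haveI : (zpowers y).Normal := ⟨fun n hn g => by
      rwa [PGroup.elemAb_comm hE (e.ge (mem_top g)) (e.ge (mem_top n)), mul_inv_cancel_right]⟩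
    have := normalClosure_le_normal (s := {y}) (N := zpowers y) (by simp) (e.ge (mem_top x))
    rcases (mem_zpowers_iff_of_mul_self hyy).1 this with rfl | rfl
    · exact ne_one_of_orderOf hx rfl
    · exact hnc (IsConj.refl _)
  · by_cases h0 : u = 1
    · exact h0 ▸ one_mem _
    · rw [h u hu.1 (orderOf_eq_two_iff.2 ⟨h0, elemAb_two_iff.1 hE u hu.1⟩)
        (mem_centralizer_singleton.1 hu.2)]
      exact mem_zpowers y

end Cfsg.Agent.S3276
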