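import Cfsg.Statements.S3278
import Cfsg.Agent.Lib.OddChar.FewInv
import Cfsg.Agent.Lib.GW.Bound
import Cfsg.Agent.Lib.Small.Recog

set_option autoImplicit false
open Cfsg

namespace Cfsg.Agent.S3278

/-- Let G be a finite simple group with an involution x such that a Sylow 2-subgroup of C_G(x) is a Klein four-group which is normal in C_G(x). Then G is isomorphic to the alternating group of degree 5 (that is, to PSL(2, 5)). -/
theorem result {G : Type*} [Group G] [Finite G] [IsSimpleGroup G] (x : G) (hx : orderOf x = 2)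
    (S₀ : Subgroup G) (hle : S₀ ≤ Subgroup.centralizer ({x} : Set G)) (hK : IsKleinFour ↥S₀)
    (hodd : ¬ 2 ∣ S₀.relIndex (Subgroup.centralizer ({x} : Set G))) (hn : (S₀.subgroupOf (Subgroup.centralizer ({x} : Set G))).Normal) :
    Nonempty (G ≃* ↥(alternatingGroup (Fin 5))) := by
  open Subgroup Cfsg.Lib Cfsg.Lib.OddChar Cfsg.Lib.Inv Cfsg.Lib.Transfer Cfsg.Lib.Small in
  have hN := (normal_subgroupOf_iff_le_normalizer hle).1 hn
  have key : ∀ T ≤ centralizer ({x} : Set G), IsPGroup 2 T → T ≤ S₀ := fun T hT hp =>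
    (BG.Syl.mk' hle (k4_isPGroup hK) hodd).ge_of_norm_p' hT hp (hT.trans hN)
  have hF := few_of_k4 hK hx fun u hu e => key (zpowers u)
    (zpowers_le.2 (mem_centralizer_singleton_iff.2 e))
    (isPGroup_zpowers_of_mul_self (mul_self_of_orderOf hu)) (mem_zpowers u)
  obtain ⟨S, hS⟩ := hF.exists_sylow hx
  obtain rfl : S₀ = S := S.is_maximal' (k4_isPGroup hK) (key S hS S.isPGroup')
  have h4 : 4 ∣ Nat.card G := hK.card_four ▸ card_subgroup_dvd_card _
  have hnc : ¬ HasNormalPComplement 2 G := fun h => by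
    obtain ⟨N, hN⟩ := exists_index_two_of_hasNormalPComplement
      (even_iff_two_dvd.2 ((by norm_num : 2 ∣ 4).trans h4)) h
    rcases (N.normal_of_index_eq_two hN).eq_bot_or_eq_top with e | e
    · rw [e, index_bot] at hN
      omega
    · simp [e] at hN
  have hxS := key (zpowers x) (zpowers_le.2 (mem_centralizer_singleton_iff.2 rfl))
    (isPGroup_zpowers_of_mul_self (mul_self_of_orderOf hx)) (mem_zpowers x)
  obtain ⟨y, hy, hy1, hyx⟩ := k4_exists_ne hK x
  have hmc : MC (S : Subgroup G) x y 0 0 0 := ⟨hx, fun h => by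
      rcases (mem_zpowers_iff_of_mul_self (mul_self_of_orderOf hx)).1 h with e | e <;> contradiction,
    (k4_eq_sup hK hxS hy (ne_one_of_orderOf hx) hy1 hyx.symm).symm, by
      simp [k4_comm hK hy hxS, inv_eq_of_orderOf hx], by simp [k4_mul_self hK hy], by simp⟩
  obtain ⟨g, hg, ho, hc⟩ : ∃ g ∈ normalizer ((S : Subgroup G) : Set G), Odd (orderOf g) ∧
      g ∉ centralizer ((S : Subgroup G) : Set G) := by
    by_contra! h
    exact hnc ((k4_sylow_hasNormalPComplement_iff S hK).2 h)
  refine equiv_alt_five_of_simple (GW.card_sixty_of_one (t := x) ⟨hmc, by simp⟩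
    (fun _ _ => k4_sylow_isConj S hK hnc) (fun a ha b hb h1 h2 => ?_) hN fun e => ?_)
  · rcases k4_trans_of_odd hK hg ho hc (ElemCent.mem_of_mul_self (mul_self_of_orderOf h1) ha)
      (ne_one_of_orderOf h1) (ElemCent.mem_of_mul_self (mul_self_of_orderOf h2) hb)
      (ne_one_of_orderOf h2) with e | e | e
    · exact ⟨1, one_mem _, by simp [e]⟩
    · exact ⟨g, hg, e⟩
    · exact ⟨g⁻¹, inv_mem hg, by rw [← e]; group⟩
  · rcases (normalizer_eq_top_iff.1 e).eq_bot_or_eq_top with e | e
    · exact hy1 (mem_bot.1 (e.le hy))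
    · exact hc fun a ha => k4_comm hK ha (e.ge trivial)

end Cfsg.Agent.S3278
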