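import Cfsg.Statements.S3279
import Cfsg.Agent.Lib.OddChar.FewInv
import Cfsg.Agent.S0215

set_option autoImplicit false
open Cfsg

namespace Cfsg.Agent.S3279

/-- Let G be a finite simple group and x an involution of G whose centralizer contains at most three involutions. Then C_G(x) contains a Sylow 2-subgroup of G, and all involutions of G are conjugate. -/
theorem result {G : Type*} [Group G] [Finite G] [IsSimpleGroup G] (x : G) (hx : orderOf x = 2)
    (h3 : Nat.card {u : ↥(Subgroup.centralizer ({x} : Set G)) // orderOf u = 2} ≤ 3) :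
    (∃ S : Sylow 2 G, (S : Subgroup G) ≤ Subgroup.centralizer ({x} : Set G)) ∧
      ∀ u v : G, orderOf u = 2 → orderOf v = 2 → IsConj u v := by
  open Subgroup Cfsg.Lib Cfsg.Lib.OddChar Cfsg.Lib.Inv Cfsg.Lib.Transfer in
  have hF : Few x := fun u v hu hv e1 e2 h1 h2 => by
    by_contra! hn
    have h4 : orderOf (x * v) = 2 := orderOf_eq_two_iff.2 ⟨fun e => h2 (by
      rw [← inv_eq_of_mul_eq_one_right e, inv_eq_of_orderOf hx]),
      mul_self_mul_of_comm (mul_self_of_orderOf hx) (mul_self_of_orderOf hv) e2.symm⟩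
    have a1 : x ≠ x * v := fun e => ne_one_of_orderOf hv (by simpa using e)
    have a2 : v ≠ x * v := fun e => ne_one_of_orderOf hx (by simpa using e)
    have h5 : ({x, u, v, x * v} : Set G).ncard = 4 := Set.ncard_eq_four.2
      ⟨_, _, _, _, h1.symm, h2.symm, a1, hn.1, hn.2, a2, rfl⟩
    have h6 := Nat.card_le_card_of_injective (α := ({x, u, v, x * v} : Set G))
      (β := {u : ↥(Subgroup.centralizer ({x} : Set G)) // orderOf u = 2})
      (fun a => ⟨⟨a, mem_centralizer_singleton_iff.2 (by
        rcases a with ⟨_, rfl | rfl | rfl | rfl⟩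
        exacts [rfl, e1, e2, by rw [mul_assoc, e2]])⟩, by
        rw [orderOf_mk]
        rcases a with ⟨_, rfl | rfl | rfl | rfl⟩ <;> assumption⟩)
      fun a b e => Subtype.ext (congrArg (fun a => (a.1 : G)) e)
    rw [Nat.card_coe_set_eq] at h6
    omega
  obtain ⟨S, hS⟩ := hF.exists_sylow hx
  refine ⟨⟨S, hS⟩, ?_⟩
  have hxS : x ∈ (S : Subgroup G) := (S.is_maximal' (isPGroup_sup_of_commute S.isPGroup'
    (isPGroup_zpowers_of_mul_self (mul_self_of_orderOf hx)) fun a ha b hb => by
      obtain ⟨k, rfl⟩ := mem_zpowers_iff.1 hb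
      exact (show Commute a x from mem_centralizer_singleton_iff.1 (hS ha)).zpow_right k)
    le_sup_left).le (mem_sup_right (mem_zpowers x))
  have iso : ∀ u ∈ (S : Subgroup G), orderOf u = 2 → (∀ g : G, g * u * g⁻¹ ∈ S → g * u * g⁻¹ = u) →
      ∀ v : G, orderOf v = 2 → v = u := fun u hu h2 h v hv => by
    obtain ⟨N, hN, ho, h4⟩ := S0215.result S u h2 hu h
    rcases hN.eq_bot_or_eq_top with rfl | rfl
    · have h5 : (zpowers u).Normal := ⟨fun a ha g => by
        obtain ⟨k, rfl⟩ := mem_zpowers_iff.1 ha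
        have : g * u * g⁻¹ = u := by
          have := mem_bot.1 (h4 g)
          rw [mul_inv_eq_one, mul_inv_eq_iff_eq_mul] at this
          rw [← this, mul_inv_cancel_right]
        rw [← conj_zpow, this]
        exact ha⟩
      have h6 := h5.eq_bot_or_eq_top.resolve_left (zpowers_ne_bot.2 (ne_one_of_orderOf h2))
      exact ((mem_zpowers_iff_of_mul_self (mul_self_of_orderOf h2)).1
        (h6.ge (mem_top v))).resolve_left (ne_one_of_orderOf hv)
    · exact absurd h2 (odd_card_iff.1 ho u trivial)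
  have key : ∀ u : G, orderOf u = 2 → IsConj x u := fun u hu => by
    by_contra hn
    obtain ⟨k, hk⟩ := exists_conj_inv_mem_sylow S (mul_self_of_orderOf hu)
    have hw := (orderOf_conj' k u).trans hu
    have h1 : ¬ IsConj x (k * u * k⁻¹) := fun e => hn (e.trans (isConj_iff.2 ⟨k, rfl⟩).symm)
    set w := k * u * k⁻¹
    have h2 : w ≠ x := fun e => h1 (e ▸ IsConj.refl _)
    have h4 := fun a (ha : a ∈ (S : Subgroup G)) => mem_centralizer_singleton_iff.1 (hS ha)
    by_cases h5 : IsConj x (x * w)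
    · refine h2 (iso w hk hw (fun g hg => ?_) x hx).symm
      exact hF.eq_of_not_isConj hw (h4 w hk) h1 h5 ((orderOf_conj' g w).trans hw) (h4 _ hg)
        fun e => h1 (e.trans (isConj_iff.2 ⟨g, rfl⟩).symm)
    refine h2 (iso x hxS hx (fun g hg => ?_) w hw)
    by_contra h6
    rcases hF _ w ((orderOf_conj' g x).trans hx) hw (h4 _ hg) (h4 w hk) h6 h2 with e | e
    · exact h1 (isConj_iff.2 ⟨g, e⟩)
    · exact h5 (isConj_iff.2 ⟨g, e⟩)
  exact fun u v hu hv => (key u hu).symm.trans (key v hv)

end Cfsg.Agent.S3279
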