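import Cfsg.Statements.S3282
import Cfsg.Agent.Lib.GW.BSW3

set_option autoImplicit false
open Cfsg

namespace Cfsg.Agent.S3282

open Cfsg.Lib.GW Cfsg.Lib.BG Subgroup

/-- The abstract form of the Brauer–Suzuki–Wall Theorem. Let G be a finite group with an involution t and an abelian subgroup K of H = C_G(t) containing t, such that H = K⟨s⟩ for an involution s ∉ K with C_K(s) = ⟨t⟩ and s inverting every element of K, K ∩ K^g = 1 for every g outside H, and all involutions of G conjugate. Then G has a subgroup Q, of order q say, with |G| = q(q+1)(q−1)/2, C_G(x) = Q for every non-identity x ∈ Q, N_G(Q) = QD for an abelian subgroup D of order (q−1)/2 meeting Q trivially, and for every nontrivial subgroup X of D, N_G(X) = N_G(D) = D⟨u⟩ for some involution u ∉ D inverting D. -/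
theorem result {G : Type*} [Group G] [Finite G] (t : G) (ht : orderOf t = 2)
    (K : Subgroup G) (hKab : IsMulCommutative ↥K) (hKH : K ≤ Subgroup.centralizer ({t} : Set G)) (htK : t ∈ K)
    (s : G) (hs : orderOf s = 2) (hsH : s ∈ Subgroup.centralizer ({t} : Set G)) (hsK : s ∉ K)
    (hH : K ⊔ Subgroup.zpowers s = Subgroup.centralizer ({t} : Set G)) (hCK : K ⊓ Subgroup.centralizer ({s} : Set G) = Subgroup.zpowers t)
    (hinv : ∀ x ∈ K, s * x * s⁻¹ = x⁻¹)
    (hTI : ∀ g : G, g ∉ Subgroup.centralizer ({t} : Set G) → K ⊓ K.map (MulAut.conj g).toMonoidHom = ⊥)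
    (hconj : ∀ x y : G, orderOf x = 2 → orderOf y = 2 → IsConj x y) :
    ∃ Q D : Subgroup G, 2 * Nat.card G = Nat.card ↥Q * (Nat.card ↥Q + 1) * (Nat.card ↥Q - 1) ∧
      (∀ x ∈ Q, x ≠ 1 → Subgroup.centralizer ({x} : Set G) = Q) ∧
      IsMulCommutative ↥D ∧ 2 * Nat.card ↥D + 1 = Nat.card ↥Q ∧ Q ⊓ D = ⊥ ∧
      Subgroup.normalizer (Q : Set G) = Q ⊔ D ∧
      ∀ X : Subgroup G, X ≤ D → X ≠ ⊥ →
        Subgroup.normalizer (X : Set G) = Subgroup.normalizer (D : Set G) ∧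
        ∃ u : G, orderOf u = 2 ∧ u ∉ D ∧ (∀ d ∈ D, u * d * u⁻¹ = d⁻¹) ∧
          Subgroup.normalizer (D : Set G) = D ⊔ Subgroup.zpowers u := by
  refine BK.bsw (t := t) (s := s) (K := K) ⟨⟨ht, hKH, htK, ⟨hsH, hs, fun e => hsK (e ▸ htK)⟩,
    fun g hg => ?_, fun x hx h2 => eq_of_mem_zp ht (hCK ▸ mem_inf.2 ⟨hx, ?_⟩)
      (Lib.Inv.ne_one_of_orderOf h2)⟩, hinv, fun x hx h1 g hg => by_contra fun e => ?_, hconj⟩
  · obtain ⟨k, hk, y, hy, rfl⟩ := (mem_sup_left_norm (zp_norm.2 (norm_of_inverts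
      (Lib.Inv.mul_self_of_orderOf hs) hinv le_rfl))).1 (hH ▸ hg)
    by_cases e : y = 1
    · exact .inl (by simpa [e])
    · exact .inr (by simpa [eq_of_mem_zp hs hy e, mul_assoc, Lib.Inv.mul_self_of_orderOf hs])
  · exact mem_cent1_symm (cent1_iff.2 ((hinv x hx).trans (Lib.Inv.inv_eq_of_orderOf h2)))
  · exact h1 (conj_eq_one_iff.1 (show g * x * g⁻¹ = 1 from
      mem_bot.1 (hTI g e ▸ mem_inf.2 ⟨hg, mem_map_of_mem _ hx⟩)))

end Cfsg.Agent.S3282
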