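import Cfsg.Statements.S3283
import Cfsg.Agent.Lib.S36.Main

set_option autoImplicit false
open Cfsg

set_option linter.unusedVariables false
open Cfsg.Lib

namespace Cfsg.Agent.S3283

/-- Let G be a finite group with an involution z whose centralizer M has Q = O₂(M) extraspecial of order 2⁹ with C_M(Q) ≤ Q, and M/Q isomorphic to S₃ × A₆ or to S₃ × S₆. Then G is not simple. -/
theorem result {G : Type*} [Group G] [Finite G] (z : G) (hz : orderOf z = 2)
    (hQ : Cfsg.IsExtraspecial 2 ↥(Cfsg.pCore 2 ↥(Subgroup.centralizer ({z} : Set G)))) (hQ9 : Nat.card ↥(Cfsg.pCore 2 ↥(Subgroup.centralizer ({z} : Set G))) = 2 ^ 9)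
    (hCQ : Subgroup.centralizer ((Cfsg.pCore 2 ↥(Subgroup.centralizer ({z} : Set G))) : Set ↥(Subgroup.centralizer ({z} : Set G))) ≤ Cfsg.pCore 2 ↥(Subgroup.centralizer ({z} : Set G)))
    (hMQ : Nonempty (↥(Subgroup.centralizer ({z} : Set G)) ⧸ Cfsg.pCore 2 ↥(Subgroup.centralizer ({z} : Set G)) ≃* (Equiv.Perm (Fin 3) × ↥(alternatingGroup (Fin 6)))) ∨
      Nonempty (↥(Subgroup.centralizer ({z} : Set G)) ⧸ Cfsg.pCore 2 ↥(Subgroup.centralizer ({z} : Set G)) ≃* (Equiv.Perm (Fin 3) × Equiv.Perm (Fin 6)))) :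
    ¬ IsSimpleGroup G := by
    have es := Lib.ES.isExtraspecial_map hQ (Subgroup.centralizer ({z} : Set G)).subtype_injective
    have lg := Lib.ES.lg_of_pCore hz rfl es (Lib.ES.centralizer_map_le hCQ)
    rcases hMQ with ⟨⟨e⟩⟩ | ⟨⟨e⟩⟩
    · exact Lib.S36.not_simple hz _ lg hQ hQ9 e ((MonoidHom.id _).prodMap (alternatingGroup _).subtype)
        (Function.injective_id.prodMap (Subgroup.subtype_injective _)) fun a σ _ => ⟨(a, σ), rfl⟩
    · exact Lib.S36.not_simple hz _ lg hQ hQ9 e (MonoidHom.id _) Function.injective_id fun a σ _ => ⟨_, rfl⟩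

end Cfsg.Agent.S3283
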