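import Cfsg.Statements.S3299
import Cfsg.Agent.Lib.Extraspecial.Large
import Cfsg.Agent.Lib.Transfer.Extremal
import Cfsg.Agent.S1756

set_option autoImplicit false
open Cfsg

namespace Cfsg.Agent.S3299

open Subgroup Cfsg.Lib Cfsg.Lib.ES Cfsg.Lib.Transfer

/-- Transfer to a quotient of order 2: an involution `w ∈ H ∖ K` and a 2-group `C ≤ C_H(w)`
give a second coset fixed by `C` on which `w` is outside the conjugate of `K`. -/
theorem second {G : Type*} [Group G] [Finite G] (hres : pResidual 2 G = ⊤) {H K : Subgroup G}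
    (hKi : K.relIndex H = 2) {w : G} (hw : w * w = 1) (hwH : w ∈ H) (hwK : w ∉ K)
    {C : Subgroup G} (hC : IsPGroup 2 C) (hCH : C ≤ H) (hCw : C ≤ centralizer {w}) :
    ∃ g : G, g ∉ H ∧ g⁻¹ * w * g ∉ K ∧ ∀ c ∈ C, g⁻¹ * c * g ∈ H := by
  classical
  let _ := Fintype.ofFinite (G ⧸ H)
  haveI : (K.subgroupOf H).Normal := normal_of_index_eq_two hKi
  have hc2 : Nat.card (H ⧸ K.subgroupOf H) = 2 := hKi
  haveI : Fact (Nat.Prime 2) := ⟨Nat.prime_two⟩
  have hcyc : IsCyclic (H ⧸ K.subgroupOf H) := isCyclic_of_prime_card hc2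
  let _ := hcyc.commGroup
  let φ := QuotientGroup.mk' (K.subgroupOf H)
  let f : G ⧸ H → H ⧸ K.subgroupOf H := fun q =>
    if h : q.out⁻¹ * w * q.out ∈ H then φ ⟨_, h⟩ else 1
  have hf : ∀ (g : G) (h : g⁻¹ * w * g ∈ H), f g = φ ⟨g⁻¹ * w * g, h⟩ := by
    intro g h
    obtain ⟨s, hs⟩ := QuotientGroup.mk_out_eq_mul H g
    have e : (g : G ⧸ H).out⁻¹ * w * (g : G ⧸ H).out = (s⁻¹ * ⟨g⁻¹ * w * g, h⟩ * s : H) := by
      rw [hs]; simp [mul_assoc]
    simp only [f]
    rw [dif_pos (e ▸ SetLike.coe_mem _)]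
    simp only [e, Subtype.coe_eta, map_mul, map_inv]
    rw [mul_right_comm, inv_mul_cancel, one_mul]
  have hfix : ∀ g : G, w • (g : G ⧸ H) = g ↔ g⁻¹ * w * g ∈ H := fun g => by
    rw [MulAction.Quotient.smul_mk, eq_comm, QuotientGroup.eq, smul_eq_mul, mul_assoc]
  have hp : IsPGroup 2 (H ⧸ K.subgroupOf H) := IsPGroup.of_card (n := 1) (by rw [hc2]; rfl)
  have h1 : MonoidHom.transfer φ w = 1 :=
    (pResidual_le_ker hp _ : _ ≤ (MonoidHom.transfer φ).ker) (hres ▸ mem_top w)
  rw [transfer_eq_prod_fixed φ hw f hf, ← Finset.prod_filter_ne_one] at h1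
  have hne : φ ⟨w, hwH⟩ ≠ 1 := fun h =>
    hwK ((QuotientGroup.eq_one_iff (N := K.subgroupOf H) _).1 h)
  have h2 : ∀ a : H ⧸ K.subgroupOf H, a ≠ 1 → a = φ ⟨w, hwH⟩ := fun a ha => by
    obtain ⟨b, -, hb⟩ := (Nat.card_eq_two_iff' (1 : H ⧸ K.subgroupOf H)).1 hc2
    rw [hb a ha, hb _ hne]
  have h3 : 2 ∣ ((Finset.univ.filter fun q => w • q = q).filter fun q => f q ≠ 1).card := by
    rw [Finset.prod_congr rfl fun r hr => h2 _ (Finset.mem_filter.1 hr).2, Finset.prod_const] at h1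
    have ho : orderOf (φ ⟨w, hwH⟩) = 2 :=
      orderOf_eq_prime (by rw [← hc2]; exact pow_card_eq_one') hne
    exact ho.symm.dvd.trans (orderOf_dvd_of_pow_eq_one h1)
  let X : SubMulAction C (G ⧸ H) :=
    { carrier := {q | w • q = q ∧ f q ≠ 1}
      smul_mem' := fun c q hq => by
        obtain ⟨g, rfl⟩ := QuotientGroup.mk_surjective q
        have e : ((c : G) * g)⁻¹ * w * (c * g) = g⁻¹ * w * g := by
          rw [mul_assoc _ w, ← mul_assoc w, ← mem_centralizer_singleton_iff.1 (hCw c.2)]; group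
        have h5 := (hfix g).1 hq.1
        change w • (((c : G) * g : G) : G ⧸ H) = ((c : G) * g : G) ∧ f ((c : G) * g : G) ≠ 1
        refine ⟨(hfix _).2 (e ▸ h5), ?_⟩
        have h6 := hq.2
        rw [hf g h5] at h6
        rw [hf _ (e ▸ h5)]
        simpa only [e] using h6 }
  have h6 : Nat.card X = ((Finset.univ.filter fun q => w • q = q).filter fun q => f q ≠ 1).card := by
    rw [← Set.ncard_coe_finset, ← Nat.card_coe_set_eq]
    exact Nat.card_congr (Equiv.subtypeEquivRight fun q => by simp; rfl)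
  have h1H : (1 : G)⁻¹ * w * 1 ∈ H := by simpa using hwH
  let a : X := ⟨((1 : G) : G ⧸ H), (hfix 1).2 h1H, by
    rw [hf 1 h1H]; simpa using hne⟩
  obtain ⟨⟨q, hq⟩, hb, hab⟩ := hC.exists_fixed_point_of_prime_dvd_card_of_fixed_point X
    (h6 ▸ h3) (a := a) (fun c => Subtype.ext (by
      change (((c : G) * 1 : G) : G ⧸ H) = ((1 : G) : G ⧸ H)
      rw [QuotientGroup.eq]; simpa using hCH c.2))
  obtain ⟨g, rfl⟩ := QuotientGroup.mk_surjective q
  have h7 := (hfix g).1 hq.1
  refine ⟨g, fun hg => hab (Subtype.ext ?_), fun hg => hq.2 ?_, fun c hc => ?_⟩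
  · change ((1 : G) : G ⧸ H) = g
    rw [QuotientGroup.eq]; simpa using hg
  · rw [hf g h7]
    exact (QuotientGroup.eq_one_iff (N := K.subgroupOf H) _).2 hg
  · have := congrArg Subtype.val (hb ⟨c, hc⟩)
    simpa [mul_assoc] using QuotientGroup.eq.1 this.symm

theorem small {G : Type*} [Group G] [Finite G] {Q : Subgroup G} {z t : G} (h : Sy Q z)
    (hcen : Q ⊓ centralizer (Q : Set G) = zpowers z) (ht : t ∈ Q)
    (htc : t ∉ centralizer (Q : Set G))
    (hab : ∀ y ∈ Q, y * t = t * y → ∀ x ∈ Q, x * t = t * x → x * y = y * x) : Nat.card Q ≤ 8 := by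
  classical
  have h1 := h.relIndex_centralizer_le ht
  have h2 : Nat.card ↥(centralizer ({t} : Set G) ⊓ Q) ≤ 4 := by
    have hsub : ((centralizer ({t} : Set G) ⊓ Q : Subgroup G) : Set G) ⊆
        ({1, z, t⁻¹, z * t⁻¹} : Finset G) := by
      intro y hy
      obtain ⟨hy1, hy2⟩ := mem_inf.1 hy
      rw [mem_centralizer_singleton_iff] at hy1
      rcases h.mem_or_mul_mem_centralizer ht htc hy2 (hab y hy2 hy1) with h3 | h3
      · rcases h.mem_iff.1 (hcen ▸ mem_inf.2 ⟨hy2, h3⟩) with rfl | rfl <;> simp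
      · rcases h.mem_iff.1 (hcen ▸ mem_inf.2 ⟨Q.mul_mem hy2 ht, h3⟩) with h4 | h4
        · rw [eq_inv_of_mul_eq_one_left h4]; simp
        · rw [show y = z * t⁻¹ by rw [← h4]; group]; simp
    calc _ = ((centralizer ({t} : Set G) ⊓ Q : Subgroup G) : Set G).ncard := Nat.card_coe_set_eq _
      _ ≤ (({1, z, t⁻¹, z * t⁻¹} : Finset G) : Set G).ncard :=
          Set.ncard_le_ncard hsub (Finset.finite_toSet _)
      _ ≤ 4 := by rw [Set.ncard_coe_finset]; exact Finset.card_le_four
  have h3 : Nat.card ↥(centralizer ({t} : Set G) ⊓ Q) * (centralizer ({t} : Set G)).relIndex Q =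
      Nat.card Q := by
    rw [← inf_relIndex_right, relIndex, ← card_mul_index (H := (centralizer ({t} : Set G) ⊓ Q).subgroupOf Q),
      Nat.card_congr (subgroupOfEquivOfLe inf_le_right).toEquiv]
  rw [← h3]
  exact (Nat.mul_le_mul h2 h1)

/-- Let G be a finite group with no nontrivial 2-group quotient (O^2(G) = G), z an involution of G with H = C_G(z), and suppose E = O_2(H) is extraspecial with C_G(E) ≤ E and of order 2^(2n+1) with n ≥ 2. Then E is contained in every normal subgroup of H of index 2. -/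
theorem result {G : Type*} [Group G] [Finite G] (hres : Cfsg.pResidual 2 G = ⊤) (z : G) (hz : orderOf z = 2)
    (E : Subgroup G) (hE : E = (Cfsg.pCore 2 ↥(Subgroup.centralizer ({z} : Set G))).map (Subgroup.centralizer ({z} : Set G)).subtype)
    (hext : Cfsg.IsExtraspecial 2 ↥E) (hcent : Subgroup.centralizer (E : Set G) ≤ E) (n : ℕ) (hn : 2 ≤ n) (hcard : Nat.card ↥E = 2 ^ (2 * n + 1))
    (K : Subgroup G) (hKH : K ≤ Subgroup.centralizer ({z} : Set G))
    (hKn : ∀ h ∈ Subgroup.centralizer ({z} : Set G), K.map (MulAut.conj h).toMonoidHom = K)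
    (hKi : K.relIndex (Subgroup.centralizer ({z} : Set G)) = 2) : E ≤ K := by
  have h := lg_of_pCore hz hE hext hcent
  have hs := h.toSy
  have hcen := inf_centralizer_eq_zpowers hext hs.mem hs.ne_one hs.cent
  have hbig : ¬ Nat.card E ≤ 8 := by
    rw [hcard, not_le]
    calc 8 < 2 ^ 5 := by norm_num
      _ ≤ _ := Nat.pow_le_pow_right (by norm_num) (by omega)
  haveI hN : (K.subgroupOf (centralizer ({z} : Set G))).Normal := normal_of_index_eq_two hKi
  -- commutators of elements of H lie in K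
  have hcomm : ∀ a ∈ centralizer ({z} : Set G), ∀ b ∈ centralizer ({z} : Set G),
      a * b * a⁻¹ * b⁻¹ ∈ K := by
    intro a ha b hb
    have e := mul_mem_iff_of_index_two hKi (a := ⟨a, ha⟩ * ⟨b, hb⟩ * ⟨a, ha⟩⁻¹) (b := ⟨b, hb⟩⁻¹)
    have e2 := hN.mem_comm_iff (a := (⟨a, ha⟩ * ⟨b, hb⟩ : centralizer ({z} : Set G))) (b := ⟨a, ha⟩⁻¹)
    rw [inv_mul_cancel_left] at e2
    rw [e2, inv_mem_iff] at e
    exact e.2 Iff.rfl
  have hmul : ∀ a ∈ centralizer ({z} : Set G), ∀ b ∈ centralizer ({z} : Set G),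
      a ∉ K → b ∉ K → a * b ∈ K := fun a ha b hb h1 h2 =>
    (mul_mem_iff_of_index_two hKi (a := ⟨a, ha⟩) (b := ⟨b, hb⟩)).2 (iff_of_false h1 h2)
  by_contra hEK
  obtain ⟨x, hxE, hxK⟩ := SetLike.not_le_iff_exists.1 hEK
  -- z ∈ K
  have hzK : z ∈ K := by
    have : ∃ t ∈ E, t ∉ centralizer (E : Set G) := by
      by_contra hh
      push Not at hh
      apply hbig
      have : E = zpowers z := by rw [← hcen]; exact (inf_eq_left.2 hh).symm
      rw [this, hs.card_zpowers]; norm_num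
    obtain ⟨t, ht, htc⟩ := this
    obtain ⟨s, hsE, hst⟩ := hs.exists_commutator_eq ht htc
    rw [← hst]; exact hcomm s (hs.cent hsE) t (hs.cent ht)
  -- an involution in E outside K
  obtain ⟨w, hwE, hwK, hw⟩ : ∃ w ∈ E, w ∉ K ∧ w * w = 1 := by
    by_contra hh
    push Not at hh
    have hsq : ∀ y ∈ E, y ∉ K → y * y = z := fun y hy hyK =>
      (hs.mem_iff.1 (sq y ▸ hs.sq_mem y hy)).resolve_left (hh y hy hyK)
    have hinv : ∀ u ∈ E, u ∈ K → x⁻¹ * u * x = u⁻¹ := fun u hu huK => by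
      have h1 := hsq (u * x) (E.mul_mem hu hxE) (fun h => hxK ((K.mul_mem_cancel_left huK).1 h))
      rw [← hsq x hxE hxK] at h1
      have h2 : u * x * u = x := mul_right_cancel (b := x) (by rw [← h1]; group)
      calc x⁻¹ * u * x = x⁻¹ * (u * x * u) * u⁻¹ := by group
        _ = u⁻¹ := by rw [h2]; group
    have habM : ∀ u ∈ E, u ∈ K → ∀ v ∈ E, v ∈ K → u * v = v * u := fun u hu huK v hv hvK => by
      have h1 := hinv (u * v) (E.mul_mem hu hv) (K.mul_mem huK hvK)
      rw [show x⁻¹ * (u * v) * x = (x⁻¹ * u * x) * (x⁻¹ * v * x) by group, hinv u hu huK,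
        hinv v hv hvK, ← mul_inv_rev] at h1
      exact (inv_injective h1).symm
    by_cases hu : ∃ u ∈ E, u ∈ K ∧ u ∉ centralizer (E : Set G)
    · obtain ⟨u, huE, huK, huc⟩ := hu
      have hM : ∀ y ∈ E, y * u = u * y → y ∈ K := fun y hy hyu => by
        by_contra hyK
        refine huc fun v hv => ?_
        by_cases hvK : v ∈ K
        · exact habM v hv hvK u huE huK
        · have h1 := habM (v * y) (E.mul_mem hv hy) (hmul v (hs.cent hv) y (hs.cent hy) hvK hyK)
            u huE huK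
          refine mul_right_cancel (b := y) ?_
          rw [mul_assoc v u, ← hyu, ← mul_assoc, h1, mul_assoc]
      exact hbig (small hs hcen huE huc fun y hy hyu v hv hvu =>
        habM v hv (hM v hv hvu) y hy (hM y hy hyu))
    · push Not at hu
      have hxc : x ∉ centralizer (E : Set G) := fun h => by
        rcases hs.mem_iff.1 (hcen ▸ mem_inf.2 ⟨hxE, h⟩) with h1 | h1
        · exact hxK (h1 ▸ K.one_mem)
        · exact hxK (h1 ▸ hzK)
      refine hxc fun v hv => ?_
      by_cases hvK : v ∈ K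
      · exact (hu v hv hvK x hxE).symm
      · have h1 := hu (v * x) (E.mul_mem hv hxE) (hmul v (hs.cent hv) x (hs.cent hxE) hvK hxK) x hxE
        exact mul_right_cancel (b := x) (by rw [← h1, mul_assoc])
  have hw1 : w ≠ 1 := fun h => hwK (h ▸ K.one_mem)
  have hwz : w ≠ z := fun h => hwK (h ▸ hzK)
  have hwo : orderOf w = 2 := orderOf_eq_prime (by rw [sq, hw]) hw1
  have hwc := hs.not_mem_centralizer hwE hwo hwz
  obtain ⟨g, hg, hgK, hgC⟩ := second hres hKi hw (hs.cent hwE) hwK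
    (C := centralizer {w} ⊓ E) (hs.isPGroup.to_le inf_le_right) (inf_le_right.trans hs.cent)
    inf_le_left
  set y := g * z * g⁻¹ with hy
  have hyc : ∀ c ∈ E, c * w = w * c → c * y = y * c := fun c hc hcw => by
    have h1 := mem_centralizer_singleton_iff.1
      (hgC c (mem_inf.2 ⟨mem_centralizer_singleton_iff.2 hcw, hc⟩))
    calc c * y = g * (g⁻¹ * c * g * z) * g⁻¹ := by rw [hy]; group
      _ = y * c := by rw [h1, hy]; group
  have hyz : y ≠ z := fun h => hg (mem_centralizer_singleton_iff.2 (by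
    conv_rhs => rw [← h, hy]
    group))
  have hyo : orderOf y = 2 := by rw [hy, orderOf_conj_eq, hz]
  have hyH : y ∈ centralizer ({z} : Set G) :=
    mem_centralizer_singleton_iff.2 (hyc z hs.mem (hs.comm hwE).symm).symm
  have hyE : y ∈ E := by
    have := S1756.result E hext y hyo (h.norm hyH) (by
      rw [inf_relIndex_right]
      refine le_trans ?_ (hs.relIndex_centralizer_le hwE)
      rw [← inf_relIndex_right (centralizer {w})]
      refine relIndex_le_of_le_left (fun c hc => ?_) index_ne_zero_of_finite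
      exact mem_centralizer_singleton_iff.2
        (hyc c (mem_inf.1 hc).2 (mem_centralizer_singleton_iff.1 (mem_inf.1 hc).1)))
    rwa [sup_eq_left.2 hcent] at this
  have hyw : y * w ∈ zpowers z :=
    hcen ▸ mem_inf.2 ⟨E.mul_mem hyE hwE, (hs.mem_or_mul_mem_centralizer hwE hwc hyE hyc).resolve_left
      (hs.not_mem_centralizer hyE hyo hyz)⟩
  -- z is a commutator in C_E(w)
  obtain ⟨a, haE, haw, b, hbE, hbw, hab⟩ : ∃ a ∈ E, a * w = w * a ∧ ∃ b ∈ E, b * w = w * b ∧
      b * a ≠ a * b := by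
    by_contra hh
    push Not at hh
    exact hbig (small hs hcen hwE hwc hh)
  have hzab : b * a * b⁻¹ * a⁻¹ = z :=
    (hs.mem_iff.1 (hs.commutator_mem hbE haE)).resolve_left fun h => hab (by
      have h' : b * a * b⁻¹ * a⁻¹ = 1 := h
      calc b * a = b * a * b⁻¹ * a⁻¹ * (a * b) := by group
        _ = a * b := by rw [h', one_mul])
  have hz' : g⁻¹ * z * g ∈ K := by
    have := hcomm _ (hgC b (mem_inf.2 ⟨mem_centralizer_singleton_iff.2 hbw, hbE⟩)) _
      (hgC a (mem_inf.2 ⟨mem_centralizer_singleton_iff.2 haw, haE⟩))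
    rw [← hzab]
    convert this using 1; group
  apply hgK
  have e : g⁻¹ * w * g = z⁻¹ * (g⁻¹ * (y * w) * g) := by rw [hy]; group
  rw [e]
  refine K.mul_mem (K.inv_mem hzK) ?_
  rcases hs.mem_iff.1 hyw with h1 | h1 <;> rw [h1]
  · simp
  · exact hz'

end Cfsg.Agent.S3299
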