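import Cfsg.Statements.S3301
import Cfsg.Agent.Lib.LXT.B

set_option autoImplicit false
open Cfsg

namespace Cfsg.Agent.S3301

open Subgroup Cfsg.Lib Cfsg.Lib.ES Cfsg.Lib.Transfer

theorem exists_index_two {M : Type*} [CommGroup M] [Finite M] {q : M} {k : ℕ}
    (hq : orderOf q = 2 ^ k) (h2 : q ^ 2 ≠ 1) :
    ∃ N : Subgroup M, N.index = 2 ∧ ∀ m : M, m ^ 2 = 1 → m ∈ N := by
  haveI : Fact (Nat.Prime 2) := ⟨Nat.prime_two⟩
  obtain ⟨a, u, hu, e⟩ := Nat.exists_eq_two_pow_mul_odd (Nat.card_pos (α := M)).ne'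
  let φ : M →* M := powMonoidHom (2 * u)
  have hP : IsPGroup 2 φ.range := by
    rintro ⟨_, m, rfl⟩
    refine ⟨a, Subtype.ext ?_⟩
    change (m ^ (2 * u)) ^ 2 ^ a = 1
    rw [← pow_mul, mul_assoc, mul_comm u, ← e, pow_mul', pow_card_eq_one', one_pow]
  have hne : pResidual 2 φ.range ≠ ⊤ := fun h => by
    have h1 := pResidual_le_ker hP (MonoidHom.id _) (h ▸ mem_top (⟨φ q, q, rfl⟩ : φ.range))
    have h3 : q ^ (2 * u) = 1 := congrArg Subtype.val h1
    have h4 := orderOf_dvd_of_pow_eq_one h3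
    have h5 : (orderOf q).Coprime u := by
      rw [hq]; exact Nat.Coprime.pow_left _ ((Nat.coprime_two_left).2 hu)
    exact h2 (orderOf_dvd_iff_pow_eq_one.1 (h5.dvd_of_dvd_mul_right h4))
  rw [Ne, pResidual_two_eq_top_iff] at hne
  push Not at hne
  obtain ⟨N, hN⟩ := hne
  refine ⟨N.comap φ.rangeRestrict, by
    rw [index_comap_of_surjective _ φ.rangeRestrict_surjective, hN], fun m hm => ?_⟩
  have : φ.rangeRestrict m = 1 := Subtype.ext (by
    change m ^ (2 * u) = 1
    rw [pow_mul, hm, one_pow])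
  rw [mem_comap, this]; exact one_mem _

/-- Let G be a finite group with no nontrivial 2-group quotient (O^2(G) = G), z an involution of G with H = C_G(z), and suppose E = O_2(H) is extraspecial with C_G(E) ≤ E. Then the Sylow 2-subgroups of H/[H, H] are elementary abelian: every element of 2-power order of the abelianization of H has order at most 2. -/
theorem result {G : Type*} [Group G] [Finite G] (hres : Cfsg.pResidual 2 G = ⊤) (z : G) (hz : orderOf z = 2)
    (E : Subgroup G) (hE : E = (Cfsg.pCore 2 ↥(Subgroup.centralizer ({z} : Set G))).map (Subgroup.centralizer ({z} : Set G)).subtype)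
    (hext : Cfsg.IsExtraspecial 2 ↥E) (hcent : Subgroup.centralizer (E : Set G) ≤ E) :
    ∀ q : Abelianization ↥(Subgroup.centralizer ({z} : Set G)), (∃ k : ℕ, orderOf q = 2 ^ k) → q ^ 2 = 1 := by
  have h := lg_of_pCore hz hE hext hcent
  set H := centralizer ({z} : Set G) with hH
  rintro q ⟨k, hk⟩
  by_contra h2
  obtain ⟨N, hN, hN2⟩ := exists_index_two hk h2
  have hsurj : Function.Surjective (Abelianization.of : H →* Abelianization H) :=
    QuotientGroup.mk_surjective
  obtain ⟨g, hne, -, b, hbR, hbH, hbK⟩ := LXT.exists_not_mem hres h hext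
    (K := (N.comap (Abelianization.of : H →* Abelianization H)).map H.subtype) (map_subtype_le _) (by
      rw [relIndex, Core.subgroupOf_map_subtype_self, index_comap_of_surjective _ hsurj, hN])
  have h3 : (Abelianization.of (⟨b, hbH⟩ : H)) ^ 2 ≠ 1 := fun e =>
    hbK ⟨⟨b, hbH⟩, hN2 _ e, rfl⟩
  rw [← map_pow] at h3
  have h4 : (⟨b, hbH⟩ : H) ^ 2 ∉ commutator H := fun e => h3 ((QuotientGroup.eq_one_iff _).2 e)
  rcases (h.conj g).toSy.mem_iff.1 ((h.conj g).sq_mem b hbR) with e | e
  · exact h4 (by rw [show (⟨b, hbH⟩ : H) ^ 2 = 1 from Subtype.ext e]; exact one_mem _)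
  · have h5 := LXT.mem_commutator_of_sq h hext hne hbR hbH (by rw [← sq, e])
    rw [← e, ← map_subtype_commutator] at h5
    obtain ⟨c, hc, e'⟩ := h5
    exact h4 (by rw [show (⟨b, hbH⟩ : H) ^ 2 = c from Subtype.ext e'.symm]; exact hc)

end Cfsg.Agent.S3301
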