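import Cfsg.Statements.S3303
import Cfsg.Agent.Lib.Inv.SylowInt
import Cfsg.Agent.S3305

set_option autoImplicit false
open Cfsg

namespace Cfsg.Agent.S3303
open Cfsg.Lib.Inv

open Subgroup Cfsg.Lib Cfsg.Lib.Inv

/-- Let G be a finite solvable group in which the intersection of any two distinct Sylow 2-subgroups is cyclic. Then G/O(G) has a normal Sylow 2-subgroup, where O(G) is the largest normal subgroup of odd order. -/
theorem result {G : Type*} [Group G] [Finite G] (hs : Group.IsSolvable G)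
    (hC : ∀ S T : Sylow 2 G, S ≠ T → IsCyclic ↥((S : Subgroup G) ⊓ (T : Subgroup G))) :
    ∃ P : Sylow 2 (G ⧸ Cfsg.oddCore G), (P : Subgroup (G ⧸ Cfsg.oddCore G)).Normal := by
  obtain ⟨P⟩ : Nonempty (Sylow 2 (G ⧸ oddCore G)) := inferInstance
  refine ⟨P, ?_⟩
  by_contra hn
  obtain ⟨T, hT⟩ : ∃ T : Sylow 2 (G ⧸ oddCore G), P ≠ T := by
    by_contra h
    push Not at h
    haveI : Subsingleton (Sylow 2 (G ⧸ oddCore G)) := ⟨fun a b => (h a).symm.trans (h b)⟩
    exact hn (Sylow.normal_of_subsingleton P)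
  haveI := Cfsg.Agent.S3305.result hC (oddCore G) P T hT
  have hc : IsCyclic (pCore 2 (G ⧸ oddCore G)) :=
    isCyclic_of_le (le_inf (Core.pCore_le_sylow P) (Core.pCore_le_sylow T))
  have h2 := isPGroup_two_of_centralizer_pCore (Core.centralizer_pCore_le_of_isSolvable
    (Core.pPrimeCore_quotient_pPrimeCore 2 G)) fun g hg =>
      mem_centralizer_of_odd_of_isCyclic (Core.pCore_isPGroup _ _) hc
        (le_normalizer_of_normal (mem_top g)) hg
  refine hn ?_
  rw [← P.is_maximal' (h2.to_subgroup ⊤) le_top]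
  infer_instance

end Cfsg.Agent.S3303
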