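import Cfsg.Statements.S3309
import Cfsg.Agent.Lib.ZStar.Main
import Cfsg.Agent.Lib.Transfer.Fusion
import Cfsg.Agent.Lib.Transfer.Criteria
import Cfsg.Agent.Lib.Inv.Basic

set_option autoImplicit false
open Cfsg

namespace Cfsg.Agent.S3309
open Cfsg.Lib.Inv

open Subgroup Cfsg.Lib Cfsg.Lib.Inv Cfsg.Lib.Transfer DihedralGroup

abbrev K := Multiplicative (ZMod 2) × DihedralGroup 4
abbrev Z2 := Multiplicative (ZMod 2)

def c : K := (Multiplicative.ofAdd 1, 1)
def z : K := (1, r 2)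
def a : K := (1, sr 0)
def b : K := (1, sr 1)

def par (i : ZMod 4) : Z2 := if i = 0 ∨ i = 2 then 1 else Multiplicative.ofAdd 1
def β : DihedralGroup 4 → Z2
  | r i => par i
  | sr i => par i
def α : DihedralGroup 4 → Z2
  | r i => par i
  | sr i => par (i + 1)

def χ₁ : K →* Z2 := MonoidHom.fst _ _
def χ₂ : K →* Z2 := MonoidHom.mk' (fun x => x.1 * β x.2) (by decide)
def χ₃ : K →* Z2 := MonoidHom.mk' (fun x => x.1 * α x.2) (by decide)

theorem index_ker_two (χ : K →* Z2) (h : χ c ≠ 1) : χ.ker.index = 2 := by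
  rw [index_ker]
  have : χ.range = ⊤ := by
    rw [eq_top_iff]
    intro y _
    have : y = 1 ∨ y = χ c := (by decide : ∀ y w : Z2, w ≠ 1 → y = 1 ∨ y = w) _ _ h
    rcases this with rfl | rfl
    · exact one_mem _
    · exact ⟨c, rfl⟩
  rw [this, card_top]; simp

theorem d1 : ∀ x : K, χ₁ x = 1 → x * x = 1 → x ≠ 1 →
    x = z ∨ (∃ g, g * a * g⁻¹ = x) ∨ (∃ g, g * b * g⁻¹ = x) := by decide
theorem d2 : ∀ x : K, χ₂ x = 1 → x * x = 1 → x ≠ 1 →
    x = z ∨ (∃ g, g * a * g⁻¹ = x) ∨ (∃ g, g * (b * c) * g⁻¹ = x) := by decide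
theorem d3 : ∀ x : K, χ₃ x = 1 → x * x = 1 → x ≠ 1 →
    x = z ∨ (∃ g, g * (a * c) * g⁻¹ = x) ∨ (∃ g, g * b * g⁻¹ = x) := by decide
theorem d4 : ∀ x : K, x * x = 1 → x ≠ 1 → x = z ∨ x = c ∨ x = c * z ∨
    (∃ g, g * a * g⁻¹ = x) ∨ (∃ g, g * b * g⁻¹ = x) ∨
    (∃ g, g * (a * c) * g⁻¹ = x) ∨ (∃ g, g * (b * c) * g⁻¹ = x) := by decide
theorem d5 : ∀ x : K, x * x = 1 ∨ x * x = z := by decide
theorem d6 : ∀ x : K, c * x = x * c ∧ z * x = x * z := by decide

/-- A finite group whose Sylow 2-subgroups are isomorphic to the direct product of a group of order 2 and the dihedral group of order 8 is not a non-abelian simple group. -/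
theorem result {G : Type*} [Group G] [Finite G] (S : Sylow 2 G) (hS : Nonempty (↥(S : Subgroup G) ≃* Multiplicative (ZMod 2) × DihedralGroup 4))
    [IsSimpleGroup G] (hG : ¬ IsMulCommutative G) : False := by
  obtain ⟨φ⟩ := hS
  set ι : K →* G := (S : Subgroup G).subtype.comp φ.symm.toMonoidHom with hι
  have hinj : Function.Injective ι := (S : Subgroup G).subtype_injective.comp φ.symm.injective
  have hmem : ∀ x, ι x ∈ (S : Subgroup G) := fun x => (φ.symm x).2
  have hsurj : ∀ s ∈ (S : Subgroup G), ∃ x, ι x = s := fun s hs => ⟨φ ⟨s, hs⟩, by simp [hι]⟩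
  have hcent : ∀ x : K, (∀ y, x * y = y * x) → ι x ∈ centralizer ((S : Subgroup G) : Set G) := by
    intro x hx
    rw [mem_centralizer_iff]
    intro s hs
    obtain ⟨y, rfl⟩ := hsurj s hs
    rw [← map_mul, ← map_mul, hx]
  have hc := hcent c fun y => (d6 y).1
  have hz := hcent z fun y => (d6 y).2
  have hcz : ι (c * z) ∈ centralizer ((S : Subgroup G) : Set G) := by
    rw [map_mul]; exact mul_mem hc hz
  have burn : ∀ x y : K, ι x ∈ centralizer ((S : Subgroup G) : Set G) →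
      ι y ∈ centralizer ((S : Subgroup G) : Set G) → IsConj (ι x) (ι y) →
      ∃ n ∈ normalizer ((S : Subgroup G) : Set G), n * ι x * n⁻¹ = ι y := by
    intro x y hx hy h
    obtain ⟨g, hg⟩ := isConj_iff.1 h
    obtain ⟨n, hn, e⟩ := S.conj_eq_normalizer_conj_of_mem_centralizer (ι x) g⁻¹ hx
      (by rw [inv_inv, hg]; exact hy)
    refine ⟨n⁻¹, inv_mem hn, ?_⟩
    rw [inv_inv, ← e, inv_inv, hg]
  have hzfix : ∀ n ∈ normalizer ((S : Subgroup G) : Set G), n * ι z * n⁻¹ = ι z := by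
    intro n hn
    obtain ⟨y, hy⟩ := hsurj _ ((mem_normalizer_iff.1 hn _).1 (hmem (a * b)))
    have e : n * ι z * n⁻¹ = ι (y * y) := by
      rw [map_mul, hy, show z = a * b * (a * b) by decide, map_mul (f := ι) (a * b)]; group
    rcases d5 y with h | h
    · rw [h, map_one, conj_eq_one_iff, map_eq_one_iff _ hinj] at e
      exact absurd e (by decide)
    · rw [e, h]
  have n1 : ¬ IsConj (ι z) (ι c) := fun h => by
    obtain ⟨n, hn, e⟩ := burn _ _ hz hc h
    rw [hzfix n hn] at e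
    exact absurd (hinj e) (by decide)
  have n2 : ¬ IsConj (ι z) (ι (c * z)) := fun h => by
    obtain ⟨n, hn, e⟩ := burn _ _ hz hcz h
    rw [hzfix n hn] at e
    exact absurd (hinj e) (by decide)
  have n3 : ¬ IsConj (ι c) (ι (c * z)) := fun h => by
    obtain ⟨n, hn, e⟩ := burn _ _ hc hcz h
    have e2 : n ^ 2 ∈ centralizer ({ι c} : Set G) := by
      rw [mem_centralizer_singleton_iff, ← mul_inv_eq_iff_eq_mul]
      calc n ^ 2 * ι c * (n ^ 2)⁻¹ = n * (n * ι c * n⁻¹) * n⁻¹ := by rw [pow_two]; group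
        _ = n * (ι c * ι z) * n⁻¹ := by rw [e, map_mul]
        _ = (n * ι c * n⁻¹) * (n * ι z * n⁻¹) := by group
        _ = ι c := by
          rw [e, hzfix n hn, ← map_mul, show c * z * z = c by decide]
    have e3 : n ^ (S : Subgroup G).relIndex (normalizer ((S : Subgroup G) : Set G)) ∈
        centralizer ({ι c} : Set G) := by
      have := pow_index_mem ((S : Subgroup G).subgroupOf (normalizer ((S : Subgroup G) : Set G))) ⟨n, hn⟩
      rw [mem_subgroupOf] at this
      rw [mem_centralizer_singleton_iff]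
      exact hc _ this
    have hodd : ¬ 2 ∣ (S : Subgroup G).relIndex (normalizer ((S : Subgroup G) : Set G)) :=
      fun h => S.not_dvd_index (h.trans (relIndex_dvd_index_of_le le_normalizer))
    obtain ⟨k, hk⟩ : Odd ((S : Subgroup G).relIndex (normalizer ((S : Subgroup G) : Set G))) :=
      Nat.odd_iff.2 (Nat.two_dvd_ne_zero.1 hodd)
    rw [hk, pow_succ, pow_mul] at e3
    have := (mul_mem_cancel_left (pow_mem e2 k)).1 e3
    rw [mem_centralizer_singleton_iff] at this
    rw [this, mul_inv_cancel_right] at e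
    exact absurd (hinj e) (by decide)
  have tr : ∀ (χ : K →* Z2), χ c ≠ 1 → ∀ u : K, u * u = 1 → u ≠ 1 →
      ∃ x : K, χ x = 1 ∧ x * x = 1 ∧ x ≠ 1 ∧ IsConj (ι u) (ι x) := by
    intro χ hχ u hu hu1
    have hQ : ((χ.ker.comap φ.toMonoidHom).map (S : Subgroup G).subtype).relIndex (S : Subgroup G) = 2 := by
      rw [relIndex, subgroupOf, comap_map_eq_self_of_injective (subtype_injective _),
        index_comap_of_surjective _ φ.surjective, index_ker_two χ hχ]
    obtain ⟨g, s, hs, e⟩ := exists_conj_mem_of_thompson_transfer (pResidual_eq_top_of_simple hG) S hQ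
      (u := ι u) (by rw [pow_two, ← map_mul, hu, map_one])
    have e' : ι (φ s) = g * ι u * g⁻¹ := by rw [← e]; simp [hι]
    refine ⟨φ s, hs, hinj ?_, fun h => ?_, isConj_iff.2 ⟨g, e'.symm⟩⟩
    · rw [map_mul, e', map_one, show g * ι u * g⁻¹ * (g * ι u * g⁻¹) = g * (ι u * ι u) * g⁻¹ by group,
        ← map_mul, hu, map_one]; group
    · rw [h, map_one, eq_comm, conj_eq_one_iff, map_eq_one_iff _ hinj] at e'
      exact hu1 e'
  have cj : ∀ x y : K, (∃ g, g * x * g⁻¹ = y) → IsConj (ι x) (ι y) := by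
    rintro x y ⟨g, rfl⟩
    exact isConj_iff.2 ⟨ι g, by simp⟩
  have two : ∀ (χ : K →* Z2) (v w : K), χ c ≠ 1 → (∀ x : K, χ x = 1 → x * x = 1 → x ≠ 1 →
      x = z ∨ (∃ g, g * v * g⁻¹ = x) ∨ (∃ g, g * w * g⁻¹ = x)) →
      ¬ IsConj (ι z) (ι v) ∧ ¬ IsConj (ι z) (ι w) := by
    intro χ v w hχ hd
    obtain ⟨x, x1, x2, x3, x4⟩ := tr χ hχ c (by decide) (by decide)
    obtain ⟨y, y1, y2, y3, y4⟩ := tr χ hχ (c * z) (by decide) (by decide)
    rcases hd x x1 x2 x3 with rfl | hx | hx
    · exact absurd x4.symm n1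
    all_goals rcases hd y y1 y2 y3 with rfl | hy | hy
    · exact absurd y4.symm n2
    · exact absurd ((x4.trans (cj _ _ hx).symm).trans ((cj _ _ hy).trans y4.symm)) n3
    · exact ⟨fun h => n1 (h.trans ((cj _ _ hx).trans x4.symm)),
        fun h => n2 (h.trans ((cj _ _ hy).trans y4.symm))⟩
    · exact absurd y4.symm n2
    · exact ⟨fun h => n2 (h.trans ((cj _ _ hy).trans y4.symm)),
        fun h => n1 (h.trans ((cj _ _ hx).trans x4.symm))⟩
    · exact absurd ((x4.trans (cj _ _ hx).symm).trans ((cj _ _ hy).trans y4.symm)) n3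
  obtain ⟨ha, hb⟩ := two χ₁ _ _ (by decide) d1
  obtain ⟨-, hbc⟩ := two χ₂ _ _ (by decide) d2
  obtain ⟨hac, -⟩ := two χ₃ _ _ (by decide) d3
  have hz1 : ι z ≠ 1 := by rw [Ne, map_eq_one_iff _ hinj]; decide
  have hz2 : ι z * ι z = 1 := by rw [← map_mul, show z * z = 1 by decide, map_one]
  have hiso : Cfsg.IsIsolatedInvolution (ι z) := by
    refine ZStar.isolated_of_sylow S (ZStar.orderOf_eq_two_of hz2 hz1) fun g hg => ?_
    obtain ⟨x, hx⟩ := hsurj _ hg
    have hcj : IsConj (ι z) (ι x) := isConj_iff.2 ⟨g, hx.symm⟩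
    have x2 : x * x = 1 := hinj (by
      rw [map_mul, hx, map_one, show g * ι z * g⁻¹ * (g * ι z * g⁻¹) = g * (ι z * ι z) * g⁻¹ by group,
        hz2]; group)
    have x1 : x ≠ 1 := by
      rintro rfl
      rw [map_one, eq_comm, conj_eq_one_iff] at hx
      exact hz1 hx
    rcases d4 x x2 x1 with rfl | rfl | rfl | h | h | h | h
    · exact hx.symm
    · exact absurd hcj n1
    · exact absurd hcj n2
    · exact absurd (hcj.trans (cj _ _ h).symm) ha
    · exact absurd (hcj.trans (cj _ _ h).symm) hb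
    · exact absurd (hcj.trans (cj _ _ h).symm) hac
    · exact absurd (hcj.trans (cj _ _ h).symm) hbc
  have hO : Cfsg.oddCore G = ⊥ := by
    rcases (inferInstance : (Cfsg.oddCore G).Normal).eq_bot_or_eq_top with h | h
    · exact h
    · exfalso
      have h1 := Core.odd_card_oddCore G
      rw [h, card_top] at h1
      have := orderOf_dvd_natCard (ι z)
      rw [ZStar.orderOf_eq_two_of hz2 hz1] at this
      exact (Nat.not_even_iff_odd.2 h1) (even_iff_two_dvd.2 this)
  have hcen : ι z ∈ center G := by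
    rw [mem_center_iff]
    intro g
    have := ZStar.zstar hiso g
    rw [hO, mem_bot] at this
    calc g * ι z = (ι z * g * (ι z)⁻¹ * g⁻¹) * (g * ι z) := by rw [this, one_mul]
      _ = _ := by group
  rcases (inferInstance : (center G).Normal).eq_bot_or_eq_top with h | h
  · rw [h, mem_bot] at hcen; exact hz1 hcen
  · exact hG ⟨⟨fun x y => ((h ▸ mem_top y : y ∈ center G).comm x).symm⟩⟩

end Cfsg.Agent.S3309
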