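import Cfsg.Statements.S3315
import Cfsg.Agent.Lib.Unitary.HeisAut

set_option autoImplicit false
open Cfsg

namespace Cfsg.Agent.S3315

/-- Let S be a Sylow 2-subgroup of SU₃(2ⁿ), n ≥ 2 (realised over the field with 4ⁿ elements). If a finite 2-group R contains a subgroup S' of index 2 isomorphic to S, then the centre of S' is contained in the centre of R. -/
theorem result {R : Type*} [Group R] [Finite R]
    (hR : IsPGroup 2 R) (n : ℕ) (hn : 2 ≤ n) {F : Type*} [Field F] [Fintype F] (hF : Fintype.card F = 4 ^ n)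
    (P : Sylow 2 ↥(Cfsg.SU 3 F (2 ^ n))) (S' : Subgroup R) (hS : Nonempty (↥S' ≃* ↥(P : Subgroup ↥(Cfsg.SU 3 F (2 ^ n)))))
    (hidx : S'.index = 2) :
    (Subgroup.center ↥S').map S'.subtype ≤ Subgroup.center R := by
  obtain ⟨σ, h⟩ := Cfsg.Lib.Unitary.exists_isBar (q := 2 ^ n) (hF.trans (by rw [← pow_mul, mul_comm, pow_mul]; norm_num))
  have : CharP F 2 := charP_of_card_eq_prime_pow (hF.trans (by rw [show 4 = 2 ^ 2 from rfl, ← pow_mul]))
  obtain ⟨e₁⟩ := hS
  obtain ⟨e₂⟩ := h.nonempty_sylow_SU_equiv 2 P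
  have e := e₁.trans e₂
  have hN : S'.Normal := Subgroup.normal_of_index_eq_two hidx
  rintro _ ⟨z, hz, rfl⟩
  rw [Subgroup.mem_center_iff]
  intro r
  let φ := MulAut.congr e (MulAut.conjNormal r : MulAut S')
  have h1 : φ * φ ∈ Cfsg.Lib.Unitary.Heis.cenAut h.invol := fun a => by
    have h2 : r * r ∈ S' := Subgroup.mul_self_mem_of_index_two hidx r
    have h3 : (φ * φ) a = e ⟨_, h2⟩ * a * (e ⟨_, h2⟩)⁻¹ := by
      obtain ⟨a, rfl⟩ := e.surjective a
      rw [← map_inv e, ← map_mul e, ← map_mul e]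
      simp only [φ, MulAut.mul_apply, MulAut.congr_apply, MulEquiv.trans_apply, MulEquiv.symm_apply_apply]
      refine congrArg e (Subtype.ext ?_)
      simp [mul_assoc]
    rw [h3]
    simp
  obtain ⟨s, τ, h2, h3, h4⟩ := h.invol_shape h1
  have h5 : (e z).x = 0 := h.mem_center_heis.1 (by
    rw [Subgroup.mem_center_iff]
    intro g
    obtain ⟨g, rfl⟩ := e.surjective g
    rw [← map_mul, ← map_mul, Subgroup.mem_center_iff.1 hz])
  have h6 : φ (e z) = e z := by
    have h7 := (e z).rel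
    rw [h5, zero_mul] at h7
    ext
    · rw [h4, h5, map_zero, mul_zero]
    · rw [h.shape_center h4 h5, h2, one_mul, h3 _ (by
        linear_combination h7 - CharTwo.add_self_eq_zero (e z).y)]
  simp only [φ, MulAut.congr_apply, MulEquiv.trans_apply, MulEquiv.symm_apply_apply,
    EmbeddingLike.apply_eq_iff_eq] at h6
  have h8 := congrArg Subtype.val h6
  simp only [MulAut.conjNormal_apply] at h8
  exact mul_inv_eq_iff_eq_mul.1 h8

end Cfsg.Agent.S3315
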