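import Cfsg.Statements.S3323
import Cfsg.Agent.Lib.SF4.St
import Cfsg.Agent.Lib.SF4.Quot
import Cfsg.Agent.Lib.SF4.Syl
import Cfsg.Agent.Lib.SF4.Top
import Cfsg.Agent.Lib.Twisted.MultSz
import Cfsg.Agent.S2103

set_option autoImplicit false
open Cfsg Cfsg.Lib Cfsg.Lib.SF4

namespace Cfsg.Agent.S3323

/-- Let G be a finite group whose generalized Fitting subgroup F*(G) is a non-abelian simple group, and let L be a standard subgroup of G isomorphic to the Ree group ²F₄(q), q = 2^(2m+1) ≥ 8, such that the centralizer C_G(L) has cyclic Sylow 2-subgroups and L ≠ G. Then O²(G) has a subgroup of odd index isomorphic to the Chevalley group F₄(q) or to ²F₄(q) × ²F₄(q). -/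
theorem result
    {G : Type*} [Group G] [Finite G]
    (hFs : IsSimpleGroup ↥(Cfsg.generalizedFittingSubgroup G)) (hFna : ¬ IsMulCommutative ↥(Cfsg.generalizedFittingSubgroup G))
    (L : Subgroup G) (hL : Cfsg.IsStandardSubgroup L)
    {K : Type*} [Field K] [Fintype K] (m : ℕ) (hm : 1 ≤ m) (hK : Fintype.card K = 2 ^ (2 * m + 1))
    (e : ↥L ≃* ↥(Cfsg.Lie.twistedF4 K (2 ^ m)))
    (hcyc : ∀ R : Sylow 2 ↥(Subgroup.centralizer (L : Set G)), IsCyclic ↥R)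
    (hLG : L ≠ ⊤) :
    ∃ G₀ : Subgroup G, G₀ ≤ Cfsg.oddGenerated (⊤ : Subgroup G) ∧ Odd (G₀.relIndex (Cfsg.oddGenerated (⊤ : Subgroup G))) ∧
      (Nonempty (↥G₀ ≃* ↥(Cfsg.Lie.chevF4.group K)) ∨
        Nonempty (↥G₀ ≃* (↥(Cfsg.Lie.twistedF4 K (2 ^ m)) × ↥(Cfsg.Lie.twistedF4 K (2 ^ m))))) := by
  obtain ⟨_, S, φ, F, t, g, h, rfl, hs, s, h1, h2⟩ := exists_st hFs hFna hL hm hK e hcyc
  have h8 : 8 ≤ Fintype.card K := hK ▸ Nat.pow_le_pow_right (n := 2) (i := 3) two_pos (by omega)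
  have : Bg K := ⟨by rw [Nat.card_eq_fintype_card]; omega⟩
  have hT : TM F.gen := ⟨hL.1.1.commutator_eq_top, Schur.hasSchurMultiplier_congr_left (Twisted.multiplier_F4 hm hK) e.symm⟩
  have hF : TM (Lie.chevF4.group K) :=
    have := Chev.isSimpleGroup_group' (F := K) (D := Lie.chevF4) (by simp)
    ⟨(this.1.eq_bot_or_eq_top_of_normal _ inferInstance).resolve_left fun e =>
      this.2 (commutator_eq_bot_iff_center_eq_top _ |>.1 e |> fun e => ⟨⟨fun a b =>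
        (Subgroup.mem_center_iff.1 (e.ge (Subgroup.mem_top b)) a)⟩⟩), S2103.result (by omega)⟩
  obtain ⟨O, s1⟩ := s.s1 h1 h2
  obtain ⟨M, U, o, hR⟩ := s1.res h hs hT hF
  obtain ⟨k1, k2⟩ := s1.fin o (hR.elim (fun ⟨i⟩ => (hF.congr i.symm).1) fun ⟨i⟩ => ((hT.prod hT).congr i.symm).1)
  exact ⟨M, k1, k2, hR.imp id fun ⟨i⟩ => ⟨i.trans (e.prodCongr e)⟩⟩

end Cfsg.Agent.S3323
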