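import Cfsg.Statements.S3324
import Cfsg.Agent.Lib.Hay.Nm
import Cfsg.Agent.Lib.Coprime.Gaschutz

set_option autoImplicit false
open Cfsg

namespace Cfsg.Agent.S3324

open Subgroup Lib.BG Lib.Transfer Lib.Hay Lib.Hay.Jc Matrix

theorem theta {F : Type*} [Field F] [Fintype F] (h4 : Fintype.card F % 4 = 3) :
    ∃ θ : GL (Fin 2) F →* ProjGenLinGroup (Fin 2) F × Multiplicative (ZMod ((Fintype.card F - 1) / 2)),
      Function.Surjective θ ∧ ∀ A, θ A = 1 ↔ A = 1 ∨ A = -1 := by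
  classical
  have c : Nat.card (powMonoidHom 2 : Fˣ →* Fˣ).range = (Fintype.card F - 1) / 2 := by
    rw [IsCyclic.card_powMonoidHom_range, Nat.card_units, Nat.card_eq_fintype_card,
      Nat.gcd_eq_right (by omega)]
  have e := (zmodCyclicMulEquiv (G := (powMonoidHom 2 : Fˣ →* Fˣ).range) inferInstance).symm
  rw [c] at e
  refine ⟨ProjGenLinGroup.mk.prod (e.toMonoidHom.comp ((powMonoidHom 2 : Fˣ →* Fˣ).rangeRestrict.comp GeneralLinearGroup.det)),
    fun ⟨a, v⟩ => ?_, fun A => ?_⟩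
  · obtain ⟨A, rfl⟩ := ProjGenLinGroup.mk_surjective a
    obtain ⟨⟨_, v, rfl⟩, rfl⟩ := e.surjective v
    obtain ⟨d, hd⟩ := sq_or h4 (v / A.det).ne_zero
    refine ⟨A * .scalar _ d, Prod.ext (by simp) (congrArg e (Subtype.ext (Units.ext ?_)))⟩
    have := A.det.ne_zero
    simp only [Units.val_div_eq_div_val, div_eq_iff this] at hd
    rcases hd with hd | hd <;> simp [hd] <;> ring
  simp only [MonoidHom.prod_apply, Prod.mk_eq_one, ProjGenLinGroup.mk_eq_one, MonoidHom.comp_apply,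
    MulEquiv.coe_toMonoidHom, EmbeddingLike.map_eq_one_iff, Subtype.ext_iff, GeneralLinearGroup.center_eq_range_scalar]
  refine ⟨fun ⟨⟨u, h⟩, h'⟩ => ?_, fun h => ?_⟩
  · subst h
    have h1 : ((u : F) ^ 2) ^ 2 = 1 := by simpa using congrArg Units.val h'
    rcases sq_eq_one_iff.1 h1 with h | h
    · refine (sq_eq_one_iff.1 h).imp (fun h => ?_) fun h => ?_ <;> ext i j <;> fin_cases i <;> fin_cases j <;> simp [h]
    · exact (u.ne_zero (not_neg_sq h4 (b := 1) (by simpa using h))).elim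
  · rcases h with rfl | rfl
    · simp
    · exact ⟨⟨-1, by ext i j; fin_cases i <;> fin_cases j <;> simp⟩, by simp [Units.ext_iff, det_neg]⟩

/-- Let p be an odd prime and q = pⁿ with q ≡ 3 (mod 4), and let C₀ be the centralizer in PSp(4, q) of an element x of order p lying in the centre of a Sylow p-subgroup. Let G be a finite group with an element α of order p such that C_G(α) ≅ C₀, such that C_G(z) = C_G(α) for every nontrivial z in the centre of C_G(α), and in which not all elements of order p that are central in some Sylow p-subgroup are conjugate. Let P be a Sylow p-subgroup of G contained in C_G(α) (P has order q⁴) and M an elementary abelian subgroup of P of order q³. If N_G(M) does not have a normal Sylow p-subgroup, then M has a complement J in N_G(M) with J isomorphic to PGL(2, q) × C, C cyclic of order (q − 1)/2. -/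
theorem result
    {G : Type*} [Group G] [Finite G] {F : Type*} [Field F] [Fintype F] (p n : ℕ) [Fact p.Prime] (hp : p ≠ 2)
    (hn : 1 ≤ n) (hq4 : p ^ n % 4 = 3) (hF : Fintype.card F = p ^ n)
    (x : Cfsg.PSp 2 F) (hx : orderOf x = p) (Px : Sylow p (Cfsg.PSp 2 F)) (hxP : x ∈ (Px : Subgroup (Cfsg.PSp 2 F)))
    (hxc : ∀ y ∈ (Px : Subgroup (Cfsg.PSp 2 F)), y * x = x * y)
    (α : G) (hα : orderOf α = p)
    (e : ↥(Subgroup.centralizer ({α} : Set G)) ≃* ↥(Subgroup.centralizer ({x} : Set (Cfsg.PSp 2 F))))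
    (hb : ∀ z ∈ Subgroup.centralizer ({α} : Set G), z ≠ 1 → (∀ c ∈ Subgroup.centralizer ({α} : Set G), c * z = z * c) →
      Subgroup.centralizer ({z} : Set G) = Subgroup.centralizer ({α} : Set G))
    (hc : ∃ (u v : G) (Pu Pv : Sylow p G), orderOf u = p ∧ orderOf v = p ∧
      u ∈ (Pu : Subgroup G) ∧ (∀ y ∈ (Pu : Subgroup G), y * u = u * y) ∧
      v ∈ (Pv : Subgroup G) ∧ (∀ y ∈ (Pv : Subgroup G), y * v = v * y) ∧ ∀ g : G, g * u * g⁻¹ ≠ v)
    (P : Sylow p G) (hP : (P : Subgroup G) ≤ Subgroup.centralizer ({α} : Set G))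
    (M : Subgroup G) (hMP : M ≤ P) (hMc : IsMulCommutative ↥M) (hMe : ∀ m ∈ M, m ^ p = 1) (hMcard : Nat.card ↥M = p ^ (3 * n))
    (hnc : ∃ Q R : Sylow p ↥(Subgroup.normalizer (M : Set G)), Q ≠ R) :
    ∃ J : Subgroup G, J ≤ Subgroup.normalizer (M : Set G) ∧ M ⊔ J = Subgroup.normalizer (M : Set G) ∧ M ⊓ J = ⊥ ∧
      Nonempty (↥J ≃* (Matrix.ProjGenLinGroup (Fin 2) F × Multiplicative (ZMod ((p ^ n - 1) / 2)))) := by
  have := charP_of_card_eq_prime_pow hF
  have h4 : Fintype.card F % 4 = 3 := hF ▸ hq4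
  have h2 : (2 : F) ≠ 0 := Ring.two_ne_zero (by rwa [ringChar.eq F p])
  have p1 : ∀ {u : G}, orderOf u = p → u ≠ 1 := fun h e => (Fact.out : p.Prime).one_lt.ne (by rw [← h, e, orderOf_one])
  obtain ⟨φ, h, eP, -⟩ := exists_hy h2 (fun e => (Fact.out : p.Prime).one_lt.ne (by rw [← hx, e, orderOf_one]))
    Px hxP hxc e hb P
  obtain rfl : M = M0.map φ := h.M_uniq (eP ▸ hMP) (fun a ha b hb => setLike_mul_comm ha hb)
    (by rw [hMcard, Nat.card_eq_fintype_card, hF, ← pow_mul, mul_comm])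
  obtain ⟨u, v, Pu, Pv, h1, h2, h3, h5, h6, h7, h8⟩ := hc
  have hc' := h.hc p h4 (p1 h1) (p1 h2) h3 h5 h6 h7 fun k => let ⟨g, e⟩ := isConj_iff.1 k; h8 g e
  have s : Syl p (P0.map φ) 𝐍(M0.map φ) := (h.syl p).of_le Hc.P_le le_top
  obtain ⟨w, hw, hw'⟩ : ∃ w ∈ 𝐍(M0.map φ), w ∉ 𝐍(Z0.map φ) := by
    by_contra! a
    obtain ⟨Q, R, ne⟩ := hnc
    have k : ∀ Q : Sylow p 𝐍(M0.map φ), Q.1.map (Subgroup.subtype _) = P0.map φ := fun Q => by
      obtain ⟨g, hg, e⟩ := s.exists_conj_eq (Syl.of_sylow Q)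
      rw [e, conj_eq_of_norm (h.nP p hg (a g hg))]
    exact ne (Sylow.ext (map_injective (subtype_injective _) ((k Q).trans (k R).symm)))
  obtain ⟨c, Y, d⟩ := hc'.exists_hd p hw hw'
  obtain ⟨J, j1, j2, j3⟩ := Lib.Coprime.gaschutz_exists_of hMc M_le_P Hc.P_le le_rfl
    (by rw [hMcard]; exact ((Nat.Prime.coprime_iff_not_dvd Fact.out).2 (Hall.not_dvd s Fact.out rfl)).pow_left _)
    (A := (MonoidHom.mk' (fun y : Multiplicative F => φ (uu y.toAdd)) fun _ _ => by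
      rw [← map_mul, uu_mul]; rfl).range)
    (eq_bot_iff.2 fun _ ⟨⟨k, hk, e⟩, y, e'⟩ => by
      obtain rfl := h.inj (e.trans e'.symm)
      rw [← e, show y.toAdd = 0 from (mem_M0.1 hk).2.2.2, uu_zero, map_one]; exact one_mem _)
    (le_antisymm (sup_le M_le_P fun _ ⟨y, e⟩ => ⟨_, ⟨rfl, rfl, rfl⟩, e⟩) fun _ ⟨k, hk, e⟩ => by
      obtain ⟨b, x, s, y, rfl⟩ := P0.eq hk
      rw [← e, map_mul]
      exact mul_mem_sup (m_mem ..) ⟨.ofAdd y, rfl⟩)
  obtain ⟨θ, t1, t2⟩ := theta h4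
  refine ⟨J, j1, j3, j2, hF ▸ ?_⟩
  let Γ := Gam φ c ⊓ J.comap (.fst _ _)
  let f : Γ →* J := ((MonoidHom.fst _ _).comp Γ.subtype).codRestrict J fun v => v.2.2
  let f' := θ.comp ((MonoidHom.snd _ _).comp Γ.subtype)
  have s1 : Function.Surjective f := fun ⟨j, hj⟩ => let ⟨A, e⟩ := d.exists_gl p (j1 hj); ⟨⟨(j, A), e, hj⟩, rfl⟩
  have s2 : Function.Surjective f' := fun v => by
    obtain ⟨A, rfl⟩ := t1 v
    obtain ⟨m, e⟩ := d.exists_n p A
    obtain ⟨a, ha, j, hj, rfl⟩ := exists_mul_of_mem_sup j1 (j3.ge (Hd.norm_of e))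
    obtain ⟨B, e'⟩ := d.exists_gl p (j3.le (mem_sup_left ha))
    refine ⟨⟨(a, B)⁻¹ * (a * j, A), mem_inf.2 ⟨mul_mem (inv_mem e') e, by simpa using hj⟩⟩, ?_⟩
    simp [f', (t2 B).2 ((d.mem_iff e').1 ha)]
  refine ⟨(QuotientGroup.quotientKerEquivOfSurjective f s1).symm.trans ((QuotientGroup.quotientMulEquivOfEq ?_).trans
    (QuotientGroup.quotientKerEquivOfSurjective f' s2))⟩
  ext ⟨⟨j, A⟩, e, hj⟩
  exact (show _ ↔ j = 1 from Subtype.ext_iff).trans (Iff.trans ⟨fun e => e ▸ one_mem _, fun a => j2.le ⟨a, hj⟩⟩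
    ((d.mem_iff e).trans (t2 A).symm))

end Cfsg.Agent.S3324
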