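import Cfsg.Statements.S3332
import Cfsg.Agent.Lib.Sig.Core3
import Cfsg.Agent.S1221

set_option autoImplicit false
open Cfsg

namespace Cfsg.Agent.S3332

open Subgroup Cfsg.Lib Cfsg.Lib.BG Cfsg.Lib.Sig
open scoped Cfsg.Lib.Transfer

/-- Let G be a finite group of 2-rank at least 4 with O_{2'}(G) = 1 whose Sylow 2-subgroup S has a normal abelian subgroup of rank at least 3 that is its own centralizer in S. If the centralizer of every involution of G is solvable, then O_{2'}(C_G(t)) = 1 for every involution t of G. -/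
theorem result {G : Type*} [Group G] [Finite G]
    (hrank : ¬ Cfsg.PRankLE 2 3 G) (hO : Cfsg.oddCore G = ⊥) (S : Sylow 2 G)
    (A : Subgroup G) (hAS : A ≤ S) (hAn : (A.subgroupOf S).Normal) (hAc : IsMulCommutative A)
    (hAself : (S : Subgroup G) ⊓ Subgroup.centralizer (A : Set G) = A) (hA3 : ¬ Cfsg.PRankLE 2 2 A)
    (hsol : ∀ t : G, orderOf t = 2 → Group.IsSolvable (Subgroup.centralizer ({t} : Set G))) :
    ∀ t : G, orderOf t = 2 → Cfsg.oddCore (Subgroup.centralizer ({t} : Set G)) = ⊥ := by
  intro t ht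
  have hL : ∀ t : G, orderOf t = 2 → pLayer 2 𝐂[t] = ⊥ := fun t ht =>
    Comp.isPConstrained_iff_pLayer_eq_bot.1 (Comp.isPConstrained_of_isSolvable (hsol t ht))
  have hn0 : Nml A S := by
    have := Nml.of_normal (S : Subgroup G) (A.subgroupOf S)
    rwa [subOf_map hAS] at this
  obtain ⟨E, hE, h8, hn⟩ := exists_normal_elab hn0 hAc hA3
  exact (map_eq_bot_iff_of_injective _ (subtype_injective _)).1 (core_eq_bot_of_const S1221.result
    hO hL S ((glob_core hL).const_of_normal S.2 hE h8 hn)
    (fun s hs h2 => exists_cube_of_normal hE h8 hn hs h2) ht)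

end Cfsg.Agent.S3332
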