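import Cfsg.Statements.S3335
import Cfsg.Agent.Lib.ThreeTr.SymPres
import Cfsg.Agent.Lib.Perm.Sym3

set_option autoImplicit false
open Cfsg

namespace Cfsg.Agent.S3335

open Cfsg.Lib Cfsg.Lib.ThreeTr Subgroup Equiv Equiv.Perm

structure Rel {G : Type*} [Group G] (x : ℕ → G) (m : ℕ) : Prop where
  h0 : 0 < m → x 0 ^ 3 = 1
  h1 : ∀ i, 1 ≤ i → i < m → x i ^ 2 = 1
  h2 : ∀ i, i + 1 < m → (x i * x (i + 1)) ^ 3 = 1
  h3 : ∀ i j, i + 1 < j → j < m → (x i * x j) ^ 2 = 1

def rels (m : ℕ) : Set (FreeGroup (Fin m)) :=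
  {g : FreeGroup (Fin m) | ∃ i : Fin m, i.val = 0 ∧ g = FreeGroup.of i ^ 3} ∪
    {g | ∃ i : Fin m, 1 ≤ i.val ∧ g = FreeGroup.of i ^ 2} ∪
    {g | ∃ i j : Fin m, j.val = i.val + 1 ∧ g = (FreeGroup.of i * FreeGroup.of j) ^ 3} ∪
    {g | ∃ i j : Fin m, i.val + 1 < j.val ∧ g = (FreeGroup.of i * FreeGroup.of j) ^ 2}

theorem Rel.lift {G : Type*} [Group G] {x : ℕ → G} {m : ℕ} (h : Rel x m) :
    ∃ f : PresentedGroup (rels m) →* G, ∀ i, f (PresentedGroup.of i) = x i := by
  suffices h : ∀ r ∈ rels m, FreeGroup.lift (fun i : Fin m => x i) r = 1 from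
    ⟨PresentedGroup.toGroup h, fun i => PresentedGroup.toGroup.of h⟩
  rintro _ (((⟨i, hi, rfl⟩ | ⟨i, hi, rfl⟩) | ⟨i, j, hi, rfl⟩) | ⟨i, j, hi, rfl⟩) <;>
    simp only [map_pow, map_mul, FreeGroup.lift_apply_of]
  exacts [hi ▸ h.h0 i.pos, h.h1 i hi i.2, hi ▸ h.h2 i (hi ▸ j.2), h.h3 i j hi j.2]

def gen (m i : ℕ) : PresentedGroup (rels m) := if h : i < m then PresentedGroup.of ⟨i, h⟩ else 1

theorem rel_gen (m : ℕ) : Rel (gen m) m := by
  have : ∀ r ∈ rels m, PresentedGroup.mk (rels m) r = 1 := fun r => PresentedGroup.one_of_mem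
  refine ⟨fun h => ?_, fun i h hi => ?_, fun i hi => ?_, fun i j h hj => ?_⟩
  · simpa [PresentedGroup.of, gen, h] using this _ (.inl (.inl (.inl ⟨⟨0, h⟩, rfl, rfl⟩)))
  · simpa [PresentedGroup.of, gen, hi] using this _ (.inl (.inl (.inr ⟨⟨i, hi⟩, h, rfl⟩)))
  · simpa [PresentedGroup.of, gen, hi, Nat.lt_of_succ_lt hi] using
      this _ (.inl (.inr ⟨⟨i, Nat.lt_of_succ_lt hi⟩, ⟨i + 1, hi⟩, rfl, rfl⟩))
  · simpa [PresentedGroup.of, gen, hj, show i < m by omega] using this _ (.inr ⟨⟨i, by omega⟩, ⟨j, hj⟩, h, rfl⟩)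

theorem inv_pow_eq {G : Type*} [Group G] {a b : G} {k : ℕ} (h : (a * b) ^ k = 1) : (a⁻¹ * b⁻¹) ^ k = 1 := by
  rw [show a⁻¹ * b⁻¹ = b * (a * b)⁻¹ * b⁻¹ by group, conj_pow, inv_pow, h]; simp

theorem Rel.inv {G : Type*} [Group G] {x : ℕ → G} {m : ℕ} (h : Rel x m) : Rel (fun i => (x i)⁻¹) m :=
  ⟨fun e => by rw [inv_pow, h.h0 e, inv_one], fun i a b => by rw [inv_pow, h.h1 i a b, inv_one],
    fun i a => inv_pow_eq (h.h2 i a), fun i j a b => inv_pow_eq (h.h3 i j a b)⟩

theorem pow_iff {G : Type*} [Group G] {a b : G} (ha : a * a = 1) (hb : b * b = 1) :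
    (a * b * a = b * a * b ↔ (a * b) ^ 3 = 1) ∧ (a * b = b * a ↔ (a * b) ^ 2 = 1) := by
  rw [mul_eq_one_iff_eq_inv] at ha hb
  constructor
  · rw [show (a * b) ^ 3 = a * b * a * (b * a * b) by simp [pow_succ, mul_assoc], mul_eq_one_iff_eq_inv,
      mul_inv_rev, mul_inv_rev, ← ha, ← hb, mul_assoc b]
  · rw [sq, mul_eq_one_iff_eq_inv, mul_inv_rev, ← ha, ← hb]

theorem Rel.coxA {G : Type*} [Group G] {x : ℕ → G} {m : ℕ} (h : Rel x m) {t : G} (ht : t * t = 1)
    (hx : ∀ i < m, t * x i * t = (x i)⁻¹) : CoxA (fun i => (Nat.casesOn i t fun i => t * x i : G)) (m + 1) := by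
  have sq : ∀ i < m, t * x i * (t * x i) = 1 := fun i hi => by rw [← mul_assoc, hx i hi, inv_mul_cancel]
  have e : ∀ i j, i < j → j < m → t * x i * (t * x j) = (x i)⁻¹ * (x j)⁻¹ := fun i j a b => by
    rw [← mul_assoc, hx i (by omega), ← eq_inv_of_mul_eq_one_left ((pow_two _).symm.trans (h.h1 j (by omega) b))]
  refine ⟨?_, ?_, ?_⟩
  · rintro (_ | i) hi
    exacts [ht, sq i (by omega)]
  · rintro (_ | i) hi
    · exact (pow_iff ht (sq 0 (by omega))).1.2 (by rw [← mul_assoc, ht, one_mul, h.h0 (by omega)])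
    · exact (pow_iff (sq i (by omega)) (sq (i + 1) (by omega))).1.2
        (by rw [e _ _ i.lt_succ_self (by omega), h.inv.h2 i (by omega)])
  · rintro (_ | i) (_ | j) hi hj <;> try omega
    · exact (pow_iff ht (sq j (by omega))).2.2 (by rw [← mul_assoc, ht, one_mul, h.h1 j (by omega) (by omega)])
    · exact (pow_iff (sq i (by omega)) (sq j (by omega))).2.2
        (by rw [e _ _ (by omega) (by omega), h.inv.h3 i j (by omega) (by omega)])

theorem rel_of_coxA {G : Type*} [Group G] {s : ℕ → G} {m : ℕ} (h : CoxA s (m + 1)) :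
    Rel (fun i => s 0 * s (i + 1)) m := by
  have sq := h.sq 0 m.succ_pos
  have e : ∀ i j, i < j → j < m → s 0 * s (i + 1) * (s 0 * s (j + 1)) = s 0 * (s (i + 1) * s (j + 1)) * (s 0)⁻¹ :=
    fun i j a b => by rw [h.comm 0 (j + 1) (by omega) (by omega), ← eq_inv_of_mul_eq_one_left sq]; group
  refine ⟨fun e => (pow_iff sq (h.sq 1 (by omega))).1.1 (h.braid 0 (by omega)), fun i a b =>
    (pow_iff sq (h.sq _ (by omega))).2.1 (h.comm 0 _ (by omega) (by omega)), fun i a => ?_, fun i j a b => ?_⟩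
  · rw [e _ _ i.lt_succ_self a, conj_pow, (pow_iff (h.sq _ (by omega)) (h.sq _ (by omega))).1.1
      (h.braid (i + 1) (by omega))]; simp
  · rw [e _ _ (by omega) b, conj_pow, (pow_iff (h.sq _ (by omega)) (h.sq _ (by omega))).2.1
      (h.comm (i + 1) _ (by omega) (by omega))]; simp

theorem main (m : ℕ) : Nonempty (PresentedGroup (rels m) ≃* alternatingGroup (Fin (m + 2))) := by
  have hg : ∀ i : Fin m, gen m i = PresentedGroup.of i := fun i => dif_pos i.2
  obtain ⟨τ, hτ⟩ := (rel_gen m).inv.lift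
  have h2 : Function.Involutive τ := fun x => DFunLike.congr_fun (PresentedGroup.ext (φ := τ.comp τ)
    (ψ := MonoidHom.id _) fun i => by simp [hτ, hg]) x
  let L := MulAction.toPermHom (PresentedGroup (rels m)) (PresentedGroup (rels m))
  have hL : Rel (fun i => L (gen m i)) m := by
    have h := rel_gen m
    exact ⟨fun e => by rw [← map_pow, h.h0 e, map_one], fun i a b => by rw [← map_pow, h.h1 i a b, map_one],
      fun i a => by rw [← map_mul, ← map_pow, h.h2 i a, map_one],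
      fun i j a b => by rw [← map_mul, ← map_pow, h.h3 i j a b, map_one]⟩
  have ht : h2.toPerm * h2.toPerm = 1 := Equiv.ext h2
  obtain ⟨φ, hφ⟩ := (hL.coxA ht fun i hi => Equiv.ext fun y => by
    simp [L, hg ⟨i, hi⟩, hτ, h2 y, show gen m i = _ from hg ⟨i, hi⟩]).exists_hom
  have hs := coxA_adjSwap (m + 1)
  obtain ⟨f, hf⟩ := (rel_of_coxA hs).lift
  have h1 : φ.comp f = L := PresentedGroup.ext fun i => by
    rw [MonoidHom.comp_apply, hf, map_mul, hφ _ m.succ_pos, hφ _ (by omega), ← mul_assoc, ← hg]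
    exact (congrArg (· * _) ht).trans (one_mul _)
  have sg : ∀ i < m + 1, adjSwap (m + 1) i ∉ alternatingGroup _ := fun i hi => by simp [adjSwap_eq hi]
  have h3 : f.range = alternatingGroup _ := by
    have hle : f.range ≤ alternatingGroup _ := by
      rw [MonoidHom.range_eq_map, ← PresentedGroup.closure_range_of, MonoidHom.map_closure, closure_le]
      rintro _ ⟨_, ⟨i, rfl⟩, rfl⟩
      exact hf i ▸ Perm.mul_mem_alt (sg _ m.succ_pos) (sg _ (by omega))
    refine hle.antisymm fun σ hσ => ?_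
    have hR : ∀ i < m + 1, adjSwap (m + 1) 0 * adjSwap (m + 1) i ∈ f.range := by
      rintro (_ | i) hi
      exacts [hs.sq 0 hi ▸ one_mem _, ⟨_, hf ⟨i, by omega⟩⟩]
    have step : ∀ i < m + 1, ∀ σ, σ ∈ f.range ∨ adjSwap (m + 1) 0 * σ ∈ f.range →
        adjSwap (m + 1) i * σ ∈ f.range ∨ adjSwap (m + 1) 0 * (adjSwap (m + 1) i * σ) ∈ f.range := by
      rintro i hi σ (h | h)
      · exact .inr (mul_assoc _ _ σ ▸ mul_mem (hR i hi) h)
      · refine .inl ?_
        simpa [← eq_inv_of_mul_eq_one_left (hs.sq i hi), mul_assoc] using mul_mem (inv_mem (hR i hi)) h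
    have : σ ∈ f.range ∨ adjSwap (m + 1) 0 * σ ∈ f.range := by
      have hσ : σ ∈ coxSub (adjSwap (m + 1)) (m + 1) := coxSub_adjSwap _ ▸ mem_top σ
      clear ‹σ ∈ alternatingGroup _›
      induction hσ using closure_induction_left with
      | one => exact .inl (one_mem _)
      | mul_left x hx y _ ih => obtain ⟨i, hi, rfl⟩ := hx; exact step i hi y ih
      | inv_mul_cancel x hx y _ ih =>
        obtain ⟨i, hi, rfl⟩ := hx
        exact eq_inv_of_mul_eq_one_left (hs.sq i hi) ▸ step i hi y ih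
    exact this.resolve_right fun h => sg 0 m.succ_pos ((mul_mem_cancel_right hσ).1 (hle h))
  exact ⟨(MonoidHom.ofInjective (Function.Injective.of_comp (f := φ)
    (by rw [← MonoidHom.coe_comp, h1]; exact MulAction.toPerm_injective))).trans (MulEquiv.subgroupCongr h3)⟩

/-- A presentation of the alternating group of degree n ≥ 3 on generators x_1, …, x_{n−2} (indexed here by 0, …, n−3): the first generator cubes to 1, every other generator squares to 1, the product of two consecutive generators has order dividing 3, and the product of two generators at distance at least 2 has order dividing 2. The group so presented is isomorphic to the alternating group of degree n. -/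
theorem result (n : ℕ) (hn : 3 ≤ n) :
    Nonempty (PresentedGroup
      ({g : FreeGroup (Fin (n - 2)) | ∃ i : Fin (n - 2), i.val = 0 ∧ g = FreeGroup.of i ^ 3} ∪
       {g | ∃ i : Fin (n - 2), 1 ≤ i.val ∧ g = FreeGroup.of i ^ 2} ∪
       {g | ∃ i j : Fin (n - 2), j.val = i.val + 1 ∧ g = (FreeGroup.of i * FreeGroup.of j) ^ 3} ∪
       {g | ∃ i j : Fin (n - 2), i.val + 1 < j.val ∧ g = (FreeGroup.of i * FreeGroup.of j) ^ 2})
      ≃* alternatingGroup (Fin n)) := by
  obtain ⟨m, rfl⟩ := Nat.exists_eq_add_of_le' (show 2 ≤ n by omega)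
  exact main m

end Cfsg.Agent.S3335
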