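import Cfsg.Statements.S3349
import Cfsg.Agent.Lib.PGroup.Critical

set_option autoImplicit false
open Cfsg Cfsg.Lib Subgroup

namespace Cfsg.Agent.S3349

/-- Let Q be a finite extraspecial p-group and α an automorphism of Q fixing every element of some maximal abelian subgroup of Q. Then the order of α is a power of p. -/
theorem result {Q : Type*} [Group Q] [Finite Q]
    (p : ℕ) [Fact p.Prime] (hQ : Cfsg.IsExtraspecial p Q) (α : MulAut Q)
    (A : Subgroup Q) (hA : IsMulCommutative A) (hmax : ∀ B : Subgroup Q, A ≤ B → IsMulCommutative B → B = A)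
    (hfix : ∀ a ∈ A, α a = a) :
    ∃ k : ℕ, orderOf α = p ^ k := by
  have hp := (Fact.out : p.Prime)
  have hC : centralizer (A : Set Q) ≤ A := fun x hx => by
    rw [← hmax _ le_sup_left (PGroup.isMulCommutative_sup_zpowers hx)]
    exact mem_sup_right (mem_zpowers x)
  obtain ⟨k, m, hm, h⟩ := Nat.exists_eq_pow_mul_and_not_dvd (orderOf_pos α).ne' p hp.ne_one
  have h1 : α ^ p ^ k = 1 := by
    refine PGroup.mulAut_eq_one_of_fixes_self_centralizing hQ.1.1 hC ?_ fun x hx =>
      PGroup.apply_eq_of_mem_zpowers (npow_mem_zpowers α _) (hfix x hx)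
    rw [orderOf_pow_of_dvd (pow_pos hp.pos k).ne' (h ▸ dvd_mul_right _ _), h,
      Nat.mul_div_cancel_left _ (pow_pos hp.pos k)]
    exact ((Nat.Prime.coprime_iff_not_dvd hp).2 hm).symm
  obtain ⟨j, -, hj⟩ := (Nat.dvd_prime_pow hp).1 (orderOf_dvd_of_pow_eq_one h1)
  exact ⟨j, hj⟩

end Cfsg.Agent.S3349
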