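import Cfsg.Statements.S3381
import Cfsg.Agent.Lib.BG.Hall
import Cfsg.Agent.Lib.FGS.EvenCyc

set_option autoImplicit false
open Cfsg

namespace Cfsg.Agent.S3381

/-- Let G be a finite group acting faithfully and linearly on a non-trivial finite vector space V over the field with q elements (q prime) so that every non-zero vector has a stabilizer of order 2, and suppose G has a central involution. Then V has q^(2r) elements for some r and G contains exactly q^r + 1 non-central involutions. -/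
theorem result
    (q : ℕ) [Fact q.Prime] {V : Type*} [AddCommGroup V] [Module (ZMod q) V] [Finite V] [Nontrivial V]
    {G : Type*} [Group G] [Finite G] (ρ : G →* (V ≃ₗ[ZMod q] V)) (hρ : Function.Injective ρ)
    (hstab : ∀ v : V, v ≠ 0 → Nat.card {g : G // ρ g v = v} = 2)
    (z : G) (hz : orderOf z = 2) (hzc : z ∈ Subgroup.center G) :
    ∃ r : ℕ, Nat.card V = q ^ (2 * r) ∧
      Nat.card {g : G // orderOf g = 2 ∧ g ∉ Subgroup.center G} = q ^ r + 1 := by
  open Subgroup Cfsg.Lib Cfsg.Lib.BG Cfsg.Lib.Transfer in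
  open Cfsg.Lib Cfsg.Lib.FGS Subgroup in
  classical
  have := Fintype.ofFinite G
  have := Fintype.ofFinite V
  have mul : ∀ g h v, ρ (g * h) v = ρ g (ρ h v) := fun g h v => by rw [map_mul]; rfl
  have ex : ∀ v : V, v ≠ 0 → ∃ t : G, t ≠ 1 ∧ ρ t v = v ∧ ∀ s, s ≠ 1 → ρ s v = v → s = t := fun v hv => by
    obtain ⟨t, ht, h⟩ := (Nat.card_eq_two_iff' (⟨1, by simp⟩ : {g : G // ρ g v = v})).1 (hstab v hv)
    exact ⟨t, fun e => ht (Subtype.ext e), t.2, fun s s1 hs => congrArg Subtype.val (h ⟨s, hs⟩ fun e => s1 (congrArg Subtype.val e))⟩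
  have uq : ∀ v : V, v ≠ 0 → ∀ s t, s ≠ 1 → t ≠ 1 → ρ s v = v → ρ t v = v → s = t := fun v hv s t s1 t1 hs ht => by
    obtain ⟨u, -, -, h⟩ := ex v hv
    rw [h s s1 hs, h t t1 ht]
  have mv : ∀ c : G, c ≠ 1 → ∃ v, ρ c v ≠ v := fun c hc => by
    by_contra! k
    exact hc (hρ (by rw [map_one]; exact LinearEquiv.ext k))
  have cen : ∀ c : G, orderOf c = 2 → c ∈ center G → (∀ v, ρ c v = v → v = 0) ∧ ∀ v, ρ c v = -v := fun c hc hZ => by
    obtain ⟨c1, c2⟩ := Inv.orderOf_eq_two_iff.1 hc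
    have cc : ∀ v, ρ c (ρ c v + v) = ρ c v + v := fun v => by rw [map_add, ← mul, c2, map_one, add_comm]; rfl
    have k : ∀ v, ρ c v = v ∨ ρ c v = -v := fun v => by
      by_cases e : v = 0
      · simp [e]
      obtain ⟨t, t1, ht, -⟩ := ex v e
      refine or_iff_not_imp_right.2 fun n => ?_
      rwa [uq (ρ c v + v) (fun e => n (eq_neg_of_add_eq_zero_left e)) c t c1 t1 (cc v)
        (by rw [map_add, ← mul, mem_center_iff.1 hZ, mul, ht])]
    have k1 : ∀ w, ρ c w = w → w = 0 := fun w hw => by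
      obtain ⟨v, hv⟩ := mv c c1
      have e := (k v).resolve_left hv
      have h2 : (2 : ZMod q) ≠ 0 := fun h2 => hv (by
        rw [e, neg_eq_iff_add_eq_zero, ← two_smul (ZMod q), h2, zero_smul])
      rcases k (v + w) with f | f <;> rw [map_add, e, hw] at f
      · exact (hv (e.trans (add_right_cancel f))).elim
      · rw [neg_add, add_right_inj, eq_neg_iff_add_eq_zero, ← two_smul (ZMod q)] at f
        exact (smul_eq_zero.1 f).resolve_left h2
    exact ⟨k1, fun v => eq_neg_of_add_eq_zero_left (k1 _ (cc v))⟩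
  obtain ⟨z1, z2⟩ := cen z hz hzc
  have h2 : (2 : ZMod q) ≠ 0 := fun h2 => by
    obtain ⟨v, hv⟩ := exists_ne (0 : V)
    exact hv (z1 v (by rw [z2, neg_eq_iff_add_eq_zero, ← two_smul (ZMod q), h2, zero_smul]))
  let Fx : G → Submodule (ZMod q) V := fun t => LinearMap.eqLocus (ρ t : V →ₗ[ZMod q] V) LinearMap.id
  have mF : ∀ t v, v ∈ Fx t ↔ ρ t v = v := fun _ _ => Iff.rfl
  have up : ∀ t, orderOf t = 2 → t ∉ center G → Nat.card (Fx t) * Nat.card (Fx t) ≤ Nat.card V := fun t ht hc => by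
    obtain ⟨g, hg⟩ := not_forall.1 (mt mem_center_iff.2 hc)
    rw [← Nat.card_prod]
    refine Nat.card_le_card_of_injective (fun x => x.1.1 + ρ g x.2.1) fun a b e => ?_
    have e' : (a.1.1 - b.1.1 : V) = ρ g (b.2.1 - a.2.1) := by rw [map_sub, sub_eq_sub_iff_add_eq_add, add_comm (ρ g _)]; exact e
    have : (a.1.1 - b.1.1 : V) = 0 := by_contra fun n => hg (mul_inv_eq_iff_eq_mul.1 (uq _ n _ _
      (Inv.orderOf_eq_two_iff.1 (ordc ht g)).1 (Inv.orderOf_eq_two_iff.1 ht).1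
      (by rw [e', ← mul, inv_mul_cancel_right, mul, (mF _ _).1 (sub_mem b.2.2 a.2.2)]) (sub_mem a.1.2 b.1.2)))
    rw [this, eq_comm, map_eq_zero_iff _ (ρ g).injective] at e'
    exact Prod.ext (Subtype.ext (sub_eq_zero.1 this)) (Subtype.ext (sub_eq_zero.1 e').symm)
  have sq : ∀ t, orderOf t = 2 → t ∉ center G → Nat.card (Fx t) * Nat.card (Fx t) = Nat.card V := fun t ht hc => by
    obtain ⟨t1, t2⟩ := Inv.orderOf_eq_two_iff.1 ht
    have n : z * t ∉ center G := fun e => hc ((mul_mem_cancel_left hzc).1 e)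
    have h1 := up (z * t) (Inv.orderOf_eq_two_iff.2 ⟨fun e => n (e ▸ one_mem _), by
      rw [mul_assoc, ← mul_assoc t, mem_center_iff.1 hzc t, mul_assoc, t2, mul_one, (Inv.orderOf_eq_two_iff.1 hz).2]⟩) n
    have h3 : Nat.card V ≤ Nat.card (Fx t) * Nat.card (Fx (z * t)) := by
      rw [← Nat.card_prod]
      refine Nat.card_le_card_of_surjective (fun x => x.1.1 + x.2.1) fun v => ?_
      have tt : ρ t (ρ t v) = v := by rw [← mul, t2, map_one]; rfl
      refine ⟨(⟨(2 : ZMod q)⁻¹ • (v + ρ t v), Submodule.smul_mem _ _ ((mF _ _).2 ?_)⟩,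
        ⟨(2 : ZMod q)⁻¹ • (v - ρ t v), Submodule.smul_mem _ _ ((mF _ _).2 ?_)⟩), ?_⟩
      · rw [map_add, tt, add_comm]
      · rw [mul, z2, map_sub, tt, neg_sub]
      · simp only
        rw [← smul_add, add_add_sub_cancel, ← two_smul (ZMod q), smul_smul, inv_mul_cancel₀ h2, one_smul]
    have := up t ht hc
    nlinarith
  have nc : ∀ v : V, v ≠ 0 → ∃ t, (orderOf t = 2 ∧ t ∉ center G) ∧ ρ t v = v := fun v hv => by
    obtain ⟨t, t1, ht, h⟩ := ex v hv
    have : orderOf t = 2 := Inv.orderOf_eq_two_iff.2 ⟨t1, by_contra fun n =>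
      t1 (mul_left_cancel ((h _ n (by rw [mul, ht, ht])).trans (mul_one t).symm))⟩
    exact ⟨t, ⟨this, fun e => hv ((cen t this e).1 v ht)⟩, ht⟩
  obtain ⟨v, hv⟩ := exists_ne (0 : V)
  obtain ⟨t, ⟨t1, t2⟩, ht⟩ := nc v hv
  have e := Module.natCard_eq_pow_finrank (K := ZMod q) (V := Fx t)
  rw [Nat.card_zmod] at e
  have e1 := sq t t1 t2
  refine ⟨_, by rw [← e1, e, two_mul, pow_add], ?_⟩
  have e2 : (Finset.univ.erase (0 : V)).card =
      ∑ s ∈ Finset.univ.filter (fun s : G => orderOf s = 2 ∧ s ∉ center G), (Nat.card (Fx t) - 1) := by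
    rw [show Finset.univ.erase (0 : V) = (Finset.univ.filter (fun s : G => orderOf s = 2 ∧ s ∉ center G)).biUnion
      fun s => (Finset.univ.filter (· ∈ Fx s)).erase 0 from ?_, Finset.card_biUnion]
    · refine Finset.sum_congr rfl fun s hs => ?_
      rw [Finset.card_erase_of_mem (by simp), ← Nat.mul_self_inj.1 ((sq s (Finset.mem_filter.1 hs).2.1
        (Finset.mem_filter.1 hs).2.2).trans e1.symm), Nat.card_eq_fintype_card, Fintype.card_subtype]
    · intro a ha b hb n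
      refine Finset.disjoint_left.2 fun w h1 h2 => n ?_
      simp only [Finset.coe_filter, Finset.mem_univ, true_and, Set.mem_ofPred_eq, Finset.mem_erase, Finset.mem_filter] at ha hb h1 h2
      exact uq w h1.1 a b (Inv.orderOf_eq_two_iff.1 ha.1).1 (Inv.orderOf_eq_two_iff.1 hb.1).1 h1.2 h2.2
    · ext w
      simp only [Finset.mem_univ, true_and, and_true, Finset.mem_erase, Finset.mem_filter, Finset.mem_biUnion]
      exact ⟨fun h => (nc w h).imp fun s k => ⟨k.1, h, k.2⟩, fun ⟨_, _, h, _⟩ => h⟩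
  rw [Finset.card_erase_of_mem (Finset.mem_univ _), Finset.card_univ, ← Nat.card_eq_fintype_card, Finset.sum_const,
    ← Fintype.card_subtype, ← Nat.card_eq_fintype_card, ← e1, smul_eq_mul] at e2
  have : 1 < Nat.card (Fx t) := Finite.one_lt_card_iff_nontrivial.2 ⟨⟨⟨v, ht⟩, 0, fun k => hv (congrArg Subtype.val k)⟩⟩
  rw [← e]
  obtain ⟨a, ha⟩ : ∃ a, Nat.card (Fx t) = a + 1 := ⟨_, (Nat.sub_add_cancel this.le).symm⟩
  rw [ha] at e2 this ⊢
  refine Nat.eq_of_mul_eq_mul_right (m := a) (by omega) ?_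
  rw [Nat.add_sub_cancel] at e2
  rw [← e2, show (a + 1) * (a + 1) = (a + 1 + 1) * a + 1 by ring, Nat.add_sub_cancel]

end Cfsg.Agent.S3381
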