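import Cfsg.Statements.S3370
import Cfsg.Agent.Lib.BG.Hall
import Cfsg.Agent.S3380
import Cfsg.Agent.S3381
import Cfsg.Agent.Lib.CIT.Main

set_option autoImplicit false
open Cfsg

namespace Cfsg.Agent.S3370

/-- Let q be a prime, V a non-trivial finite vector space over the field with q elements, and G a non-trivial finite p-group (p prime) acting faithfully and linearly on V and transitively on the non-zero vectors. Then either q = 2 and G has prime order p = |V| − 1; or p = 2, V has q elements with q = 2^m + 1 and G is cyclic of order 2^m; or p = 2, q = 3, V has 9 elements and G is cyclic of order 8, quaternion of order 8, or semidihedral of order 16. -/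
theorem result (q : ℕ) [Fact q.Prime] {V : Type*} [AddCommGroup V] [Module (ZMod q) V] [Finite V] [Nontrivial V]
    {G : Type*} [Group G] [Finite G] [Nontrivial G] (p : ℕ) [Fact p.Prime] (hG : IsPGroup p G)
    (ρ : G →* (V ≃ₗ[ZMod q] V)) (hρ : Function.Injective ρ)
    (htrans : ∀ v w : V, v ≠ 0 → w ≠ 0 → ∃ g : G, ρ g v = w) :
    (q = 2 ∧ p = Nat.card V - 1 ∧ Nat.card G = p) ∨
    (p = 2 ∧ Nat.card V = q ∧ (∃ m : ℕ, q = 2 ^ m + 1 ∧ Nat.card G = 2 ^ m) ∧ IsCyclic G) ∨
    (p = 2 ∧ q = 3 ∧ Nat.card V = 9 ∧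
      ((IsCyclic G ∧ Nat.card G = 8) ∨ Nonempty (G ≃* QuaternionGroup 2) ∨ (Cfsg.IsQuasiDihedral G ∧ Nat.card G = 16))) := by
  open Subgroup Cfsg.Lib Cfsg.Lib.BG Cfsg.Lib.Transfer in
  open Cfsg.Lib Cfsg.Lib.FGS Cfsg.Lib.BG Subgroup in
  classical
  have hp : p.Prime := Fact.out
  have hq : q.Prime := Fact.out
  have mul : ∀ g h v, ρ (g * h) v = ρ g (ρ h v) := fun g h v => by rw [map_mul]; rfl
  have triv : ∀ g, (∀ v, ρ g v = v) → g = 1 := fun g h => hρ (by rw [map_one]; exact LinearEquiv.ext h)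
  let _ : MulAction G V := MulAction.compHom V ρ
  have st : ∀ v : V, v ≠ 0 → (MulAction.stabilizer G v).index = Nat.card V - 1 := fun v hv => by
    rw [MulAction.index_stabilizer, ← Set.ncard_univ, ← Set.ncard_sdiff_singleton_of_mem (Set.mem_univ (0 : V))]
    congr 1
    ext w
    exact ⟨by rintro ⟨g, rfl⟩; exact ⟨trivial, (map_ne_zero_iff _ (ρ g).injective).2 hv⟩, fun h => htrans v w hv h.2⟩
  have cen : ∀ g ∈ center G, ∀ v : V, v ≠ 0 → ρ g v = v → g = 1 := fun g hg v hv h => triv g fun w => by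
    by_cases e : w = 0
    · simp [e]
    obtain ⟨x, rfl⟩ := htrans v w hv e
    rw [← mul, ← mem_center_iff.1 hg, mul, h]
  obtain ⟨v, hv⟩ := exists_ne (0 : V)
  obtain ⟨k, hk⟩ := hG.index (MulAction.stabilizer G v)
  obtain ⟨n, hn⟩ : ∃ n, Nat.card V = q ^ n := ⟨_, by rw [Module.natCard_eq_pow_finrank (K := ZMod q), Nat.card_zmod]⟩
  have v1 : 1 < Nat.card V := Finite.one_lt_card
  have n0 : n ≠ 0 := fun e => by rw [hn, e] at v1; simp at v1
  have e0 : q ^ n = p ^ k + 1 := by rw [← hk, st v hv, ← hn]; omega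
  have reg : MulAction.stabilizer G v = ⊥ → Nat.card G = p ^ k := fun e => by rw [← hk, e, index_bot]
  have two : ∀ m, m ≠ 0 → Nat.card G = 2 * m → p = 2 := fun m _ e => by
    obtain ⟨a, ha⟩ := hG.exists_card_eq
    exact ((Nat.prime_dvd_prime_iff_eq Nat.prime_two hp).1 (Nat.prime_two.dvd_of_dvd_pow (ha ▸ e ▸ dvd_mul_right 2 m))).symm
  have p2 : p = 2 → q = 3 ∧ Nat.card V = 9 ∨ Nat.card V = q := fun e => by
    subst e
    have k0 : k ≠ 0 := fun e => by
      have := st v hv
      rw [hk, e, pow_zero] at this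
      obtain ⟨g, hg⟩ := exists_ne (1 : G)
      refine hg (triv g fun w => by_contra fun h => ?_)
      have := Nat.card_le_card_of_injective (α := Fin 3) (![0, w, ρ g w] : Fin 3 → V) (by
        have w0 : w ≠ 0 := fun e => h (by simp [e])
        have := (map_ne_zero_iff _ (ρ g).injective).2 w0
        have h' : w ≠ ρ g w := Ne.symm h
        intro a b; fin_cases a <;> fin_cases b <;> simp [w0, w0.symm, this, this.symm, h, h'])
      simp only [Nat.card_eq_fintype_card, Fintype.card_fin] at this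
      omega
    have qo : Odd q := (Nat.odd_pow_iff n0).1 (e0 ▸ ((Nat.even_pow' k0).2 even_two).add_one)
    rcases CIT.nine_or_prime hq qo n0 (.inl e0) with h | h
    · exact .inl ⟨(Nat.prime_dvd_prime_iff_eq hq Nat.prime_three).1
        (hq.dvd_of_dvd_pow (n := 2) ((dvd_pow_self q n0).trans h.dvd)), hn.trans h⟩
    · exact .inr (by rw [hn, h.eq_one_of_pow, pow_one])
  by_cases hc : IsCyclic G
  · have e1 := reg (eq_bot_iff.2 fun g hg => cen g (mem_center_iff.2 fun x => hc.isMulCommutative.is_comm.comm x g) v hv hg)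
    by_cases e : p = 2
    · rcases p2 e with ⟨h1, h2⟩ | h
      · exact .inr (.inr ⟨e, h1, h2, .inl ⟨hc, by omega⟩⟩)
      · exact .inr (.inl ⟨e, h, ⟨k, by rw [← h, hn, e0, e], e ▸ e1⟩, hc⟩)
    have po := hp.odd_of_ne_two e
    have q2 : q = 2 := (Nat.prime_dvd_prime_iff_eq Nat.prime_two hq).1 (Nat.prime_two.dvd_of_dvd_pow
      (e0 ▸ (po.pow.add_one).two_dvd)) |>.symm
    have k0 : k ≠ 0 := fun e => by rw [e, pow_zero] at e1; exact Finite.one_lt_card.ne' e1
    rcases CIT.nine_or_prime hp po k0 (.inr (q2 ▸ e0.symm)) with h | h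
    · rw [h, q2] at e0
      have := (Nat.prime_five.dvd_of_dvd_pow (e0 ▸ (by decide : 5 ∣ 9 + 1)))
      omega
    · rw [h.eq_one_of_pow, pow_one] at e0 e1
      exact .inl ⟨q2, by omega, e1⟩
  have p3 : p = 2 → q = 3 ∧ Nat.card V = 9 ∧ ∀ v : V, v ≠ 0 → Nat.card G = 8 * Nat.card (MulAction.stabilizer G v) ∧
      (Nat.card G = 8 ∨ Nat.card G = 16) := fun e => by
    rcases p2 e with ⟨h1, h2⟩ | h
    · refine ⟨h1, h2, fun w hw => ?_⟩
      have a1 := (MulAction.stabilizer G w).index_mul_card
      rw [st w hw, h2] at a1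
      refine ⟨a1.symm, ?_⟩
      subst h1 e
      have f : Module.finrank (ZMod 3) V = 2 := Nat.pow_right_injective (show 2 ≤ 3 by decide) (by
        have := Module.natCard_eq_pow_finrank (K := ZMod 3) (V := V)
        rw [Nat.card_zmod] at this
        exact this.symm.trans h2)
      have a2 := card_dvd_of_injective ((LinearMap.toMatrixAlgEquiv (Module.finBasisOfFinrankEq (ZMod 3) V f)).toMonoidHom.comp
        (LinearEquiv.automorphismGroup.toLinearMapMonoidHom.comp ρ)).toHomUnits fun x y e => hρ (LinearEquiv.toLinearMap_injective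
          ((LinearMap.toMatrixAlgEquiv _).injective (congrArg Units.val e)))
      obtain ⟨a, ha⟩ := hG.exists_card_eq
      rw [show Nat.card (Matrix (Fin 2) (Fin 2) (ZMod 3))ˣ = 3 * 2 ^ 4 from PGroup.card_GL_two, ha] at a2
      have a3 := (Nat.pow_dvd_pow_iff_le_right one_lt_two).1 ((Nat.Coprime.pow_left a (by decide)).dvd_of_dvd_mul_left a2)
      have a4 := (Nat.pow_dvd_pow_iff_le_right one_lt_two).1 (show 2 ^ 3 ∣ 2 ^ a from ⟨_, ha ▸ a1.symm⟩)
      rw [ha]
      interval_cases a <;> simp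
    · have f : Module.finrank (ZMod q) V = 1 := Nat.pow_right_injective hq.two_le (by
        have := Module.natCard_eq_pow_finrank (K := ZMod q) (V := V)
        rw [Nat.card_zmod] at this
        exact this.symm.trans (h.trans (pow_one q).symm))
      refine (hc (isCyclic_of_injective (LinearEquiv.det.comp ρ) ((injective_iff_map_eq_one _).2 fun g hg => triv g fun w => ?_))).elim
      obtain ⟨c, hc, -⟩ := LinearMap.existsUnique_eq_smul_id_of_finrank_eq_one f (ρ g : V →ₗ[ZMod q] V)
      have := congrArg Units.val hg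
      rw [MonoidHom.comp_apply, LinearEquiv.coe_det, hc, LinearMap.det_smul, f, LinearMap.det_id, pow_one, mul_one] at this
      simpa [this] using LinearMap.congr_fun hc w
  by_cases h1 : ∃ n, Nonempty (G ≃* QuaternionGroup n)
  · obtain ⟨m, ⟨f⟩⟩ := h1
    have m0 : m ≠ 0 := by
      rintro rfl
      have := Finite.of_equiv _ f.toEquiv
      have := Finite.of_injective (QuaternionGroup.a : ZMod (2 * 0) → QuaternionGroup 0) fun _ _ => QuaternionGroup.a.inj
      exact not_finite_iff_infinite.2 (inferInstanceAs (Infinite ℤ)) this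
    have : NeZero m := ⟨m0⟩
    have c : Nat.card G = 4 * m := by rw [Nat.card_congr f.toEquiv, Nat.card_eq_fintype_card, QuaternionGroup.card]
    have e := two (2 * m) (by omega) (by omega)
    obtain ⟨h1, h2, h3⟩ := p3 e
    have : Nat.card (MulAction.stabilizer G v) = 1 := by
      by_contra n
      obtain ⟨t, ht⟩ := exists_prime_orderOf_dvd_card' (G := MulAction.stabilizer G v) p (by
        obtain ⟨a, ha⟩ := (hG.to_subgroup (MulAction.stabilizer G v)).exists_card_eq
        exact ha ▸ dvd_pow_self p fun e => n (by rw [ha, e, pow_zero]))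
      rw [← orderOf_coe, e] at ht
      refine (Inv.orderOf_eq_two_iff.1 ht).1 (cen _ (mem_center_iff.2 fun x => f.injective ?_) v hv t.2)
      rw [← f.orderOf_eq] at ht
      rw [map_mul, map_mul]
      rcases h : f t with i | i <;> rw [h] at ht
      · have := (Inv.orderOf_eq_two_iff.1 ht).2
        rw [QuaternionGroup.a_mul_a, QuaternionGroup.one_def, QuaternionGroup.a.injEq] at this
        rcases f x with j | j
        · simp [add_comm]
        · simp [sub_eq_add_neg, neg_eq_iff_add_eq_zero.2 this]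
      · simp at ht
    obtain rfl : m = 2 := by have := (h3 v hv).1; omega
    exact .inr (.inr ⟨e, h1, h2, .inr (.inl ⟨f⟩)⟩)
  by_cases h2 : ∃ n, Nonempty (G ≃* DihedralGroup n)
  · obtain ⟨m, ⟨f⟩⟩ := h2
    have c : Nat.card G = 2 * m := by rw [Nat.card_congr f.toEquiv, DihedralGroup.nat_card]
    have e := two m (fun e => Nat.card_pos.ne' (by rw [c, e])) c
    obtain ⟨h1, h2, h3⟩ := p3 e
    exfalso
    rcases (h3 v hv).2 with h | h
    · obtain rfl : m = 4 := by omega
      have : ∀ i w, ρ (f.symm (.sr i)) w = -w := fun i w => eq_neg_of_add_eq_zero_left (by_contra fun n => by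
        have : f.symm (.sr i) ∈ MulAction.stabilizer G _ := show ρ _ (ρ (f.symm (.sr i)) w + w) = _ by
          rw [map_add, ← mul, ← map_mul, DihedralGroup.sr_mul_self, map_one, map_one, add_comm]; rfl
        rw [card_eq_one.1 (by have := (h3 _ n).1; omega : Nat.card (MulAction.stabilizer G _) = 1), mem_bot] at this
        exact absurd (f.symm.injective (this.trans (map_one _).symm)) (by clear this n; revert i; decide))
      exact absurd (f.symm.injective (hρ (LinearEquiv.ext fun w => (this 0 w).trans (this 1 w).symm))) (by decide)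
    · obtain rfl : m = 8 := by omega
      obtain ⟨r, a1, a2⟩ := S3381.result q ρ hρ (fun w hw => by
        have := (h3 w hw).1
        exact (show Nat.card (MulAction.stabilizer G w) = 2 by omega)) (f.symm (.r 4)) (by
          rw [MulEquiv.orderOf_eq]; exact orderOf_eq_prime (by decide) (by decide))
        (mem_center_iff.2 fun g => f.injective (by
          rw [map_mul, map_mul, f.apply_symm_apply]; generalize f g = y; revert y; decide))
      obtain rfl : r = 1 := by
        have := Nat.pow_right_injective (show 2 ≤ 3 by decide) (show 3 ^ 2 = 3 ^ (2 * r) by rw [← h1, ← a1, h2, h1])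
        omega
      have := Nat.card_le_card_of_injective (fun i : ZMod 8 => (⟨f.symm (.sr i), by simp, fun k => absurd
        (f.symm.injective (by simpa only [map_mul] using mem_center_iff.1 k (f.symm (.r 1))) :
          DihedralGroup.r 1 * .sr i = .sr i * .r 1) (by clear k; revert i; decide)⟩ : {g : G // orderOf g = 2 ∧ g ∉ center G}))
        fun a b e => by simpa using e
      rw [a2, h1, Nat.card_zmod] at this
      omega
  by_cases h3 : IsQuasiDihedral G
  · obtain ⟨m, hm, c, -⟩ := id h3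
    have e := two (2 ^ m) (by positivity) (by rw [c, pow_succ'])
    obtain ⟨h1, h2, h4⟩ := p3 e
    refine .inr (.inr ⟨e, h1, h2, .inr (.inr ⟨h3, (h4 v hv).2.resolve_left fun k => ?_⟩)⟩)
    have := Nat.pow_le_pow_right two_pos (show 4 ≤ m + 1 by omega)
    omega
  exfalso
  obtain ⟨H, W, -, w1, w2, w3, w4, w5⟩ := S3380.result q p hG ρ hρ (fun W hW => or_iff_not_imp_left.2 fun n => by
    obtain ⟨w, hw, w0⟩ := (Submodule.ne_bot_iff _).1 n
    refine eq_top_iff.2 fun u _ => ?_
    by_cases e : u = 0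
    · simp [e]
    obtain ⟨g, rfl⟩ := htrans w u w0 e
    exact hW g w hw) hc (not_exists.1 h1) (not_exists.1 h2) h3
  have ex : ∀ i, ∃ j, j ≠ i ∧ W j ≠ ⊥ := fun i => by
    by_contra! n
    obtain ⟨h, -, h1, h2⟩ := w4 i
    refine h1 (triv h fun w => h2 w ((iSup_le fun j => ?_ : iSup W ≤ W i) (w1.ge trivial)))
    by_cases e : j = i
    · rw [e]
    · simp [n j e]
  obtain ⟨i, -, hi⟩ := ex ⟨0, hp.pos⟩
  obtain ⟨j, ji, hj⟩ := ex i
  obtain ⟨a, ha, a0⟩ := (Submodule.ne_bot_iff _).1 hi
  obtain ⟨b, hb, b0⟩ := (Submodule.ne_bot_iff _).1 hj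
  have ind : ∀ i, ∀ a ∈ W i, ∀ j l, j ≠ i → l ≠ i → ∀ b ∈ W j, a + b ∈ W l → a = 0 := fun i a ha j l h1 h2 b hb h =>
    Submodule.disjoint_def.1 (w2 i) a ha (by
      have := sub_mem (le_iSup₂ (f := fun j (_ : j ≠ i) => W j) l h2 h) (le_iSup₂ (f := fun j (_ : j ≠ i) => W j) j h1 hb)
      rwa [add_sub_cancel_right] at this)
  obtain ⟨g, hg⟩ := htrans a (a + b) a0 fun e => a0 (ind i a ha j j ji ji b hb (e ▸ zero_mem _))
  obtain ⟨l, hl⟩ : ∃ l, a + b ∈ W l := by
    by_cases e : g ∈ H
    · exact ⟨i, hg ▸ w3 g e i a ha⟩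
    · obtain ⟨σ, -, h⟩ := w5 g e
      exact ⟨σ i, (h i).le ⟨a, ha, hg⟩⟩
  by_cases e : l = i
  · exact b0 (ind j b hb i l ji.symm (e ▸ ji.symm) a ha (add_comm a b ▸ hl))
  · exact a0 (ind i a ha j l ji e b hb hl)

end Cfsg.Agent.S3370
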