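import Cfsg.Statements.S3376
import Cfsg.Agent.Lib.BG.T01_Coprime
import Cfsg.Agent.Lib.Small.Basic

set_option autoImplicit false
open Cfsg

namespace Cfsg.Agent.S3376

open Subgroup MulAction Equiv Cfsg.Lib

theorem ct {σ : Perm (Fin 9)} (h : σ ^ 3 = 1) (h' : ∀ i, σ i ≠ i) : σ.cycleType = Multiset.replicate 3 3 := by
  have := Fact.mk Nat.prime_three
  have h1 := Perm.cycleType_of_pow_prime_eq_one h
  have h2 := σ.sum_cycleType
  rw [h1, Multiset.sum_replicate, show σ.support = Finset.univ from Finset.eq_univ_of_forall fun i => Perm.mem_support.2 (h' i),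
    Finset.card_univ, Fintype.card_fin, smul_eq_mul] at h2
  rw [h1, show σ.cycleType.card = 3 by omega]

/-- Let G be a group of order 162 = 3⁴·2 with Sylow 3-subgroup S and Sylow 2-subgroup T, having an elementary abelian normal subgroup J of order 27, such that Z = Z(S) has order 3, Z centralizes T, and C_S(T) ≠ S. Then G is isomorphic to the centralizer in Sym(9) of a product of three disjoint 3-cycles. -/
theorem result {G : Type*} [Group G] [Finite G] (hG : Nat.card G = 162)
    (S : Sylow 3 G) (T : Sylow 2 G) (J : Subgroup G) [hJn : J.Normal] (hJcomm : IsMulCommutative J)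
    (hJexp : ∀ a ∈ J, a ^ 3 = 1) (hJcard : Nat.card J = 27)
    (Z : Subgroup G) (hZ : Z = (S : Subgroup G) ⊓ Subgroup.centralizer ((S : Subgroup G) : Set G)) (hZcard : Nat.card Z = 3)
    (hZT : Z ≤ Subgroup.centralizer ((T : Subgroup G) : Set G))
    (hST : (S : Subgroup G) ⊓ Subgroup.centralizer ((T : Subgroup G) : Set G) ≠ S) :
    Nonempty (G ≃* Subgroup.centralizer ({Equiv.swap (0 : Fin 9) 1 * Equiv.swap 1 2 * Equiv.swap 3 4 * Equiv.swap 4 5 * Equiv.swap 6 7 * Equiv.swap 7 8} : Set (Equiv.Perm (Fin 9)))) := by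
  have := Fact.mk Nat.prime_three
  obtain ⟨hS, hSi⟩ := Small.card_sylow_eq 3 S (k := 4) (m := 2) hG (by norm_num)
  obtain ⟨hT, -⟩ := Small.card_sylow_eq 2 T (k := 1) (m := 81) hG (by norm_num)
  have := normal_of_index_eq_two hSi
  have hcop : ∀ A ≤ (S : Subgroup G), (T : Subgroup G) ⊓ A = ⊥ := fun A h => disjoint_iff.1 (disjoint_of_coprime_natCard
    (Nat.Coprime.coprime_dvd_right (card_dvd_of_le h) (by rw [hS, hT]; norm_num)))
  have key : ∀ N : Subgroup G, N.Normal → N ≤ S → N ≠ ⊥ → Z ≤ N := fun N _ h h0 => by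
    have h1 : N ⊓ centralizer (S : Set G) ≤ Z := hZ ▸ inf_le_inf_right _ h
    have h2 := (Nat.dvd_prime Nat.prime_three).1 (hZcard ▸ card_dvd_of_le h1)
    exact (eq_of_le_of_card_ge h1 (hZcard.trans (h2.resolve_left (mt card_eq_one.1 (PGroup.inf_centralizer_ne_bot (S.2.to_le h)
      S.2 le_normalizer_of_normal h0))).symm).le).ge.trans inf_le_left
  have hJS : J ≤ S := (IsPGroup.of_card (n := 3) hJcard).le_sylow_of_normal S
  obtain ⟨A, hA, hTA⟩ := BG.Maschke_abelem (A := T) ⟨hJcomm, hJexp⟩ (by rw [hT]; norm_num)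
    (key J hJn hJS fun e => by simp [e] at hJcard) le_normalizer_of_normal
    ((le_centralizer_iff.1 hZT).trans (centralizer_le_normalizer _))
  have hAS : A ≤ S := (le_sup_right.trans hA.sup.le).trans hJS
  have hc : Nat.card ↥((T : Subgroup G) ⊔ A) = 18 := by
    have := Core.card_sup_of_disjoint (hA.cent.trans (centralizer_le_normalizer _)) hA.inf
    rw [hA.sup, hJcard, hZcard] at this
    rw [Core.card_sup_of_disjoint hTA (hcop A hAS), hT]
    omega
  have hHS : ((T : Subgroup G) ⊔ A) ⊓ S ≤ A := fun x hx => by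
    obtain ⟨a, ha, t, ht, rfl⟩ := Transfer.exists_mul_of_mem_sup hTA (sup_comm (T : Subgroup G) A ▸ hx.1)
    rwa [mem_bot.1 ((hcop S le_rfl).le ⟨ht, (S.1.mul_mem_cancel_left (hAS ha)).1 hx.2⟩), mul_one]
  generalize (T : Subgroup G) ⊔ A = H at hc hHS
  have hZ0 : Z ≠ ⊥ := fun e => by simp [e] at hZcard
  have hcore : H.normalCore = ⊥ := by
    have h1 : H.normalCore ⊓ S = ⊥ := by_contra fun h => hZ0 (eq_bot_iff.2 (hA.inf.le.trans' (le_inf le_rfl
      ((key _ inferInstance inf_le_right h).trans ((inf_le_inf_right _ H.normalCore_le).trans hHS)))))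
    by_contra h
    have h2 := Core.card_sup_of_disjoint (H := H.normalCore) le_normalizer_of_normal h1
    rw [hS] at h2
    have h3 := card_le_card_group (H.normalCore ⊔ S)
    have h4 := (one_lt_card_iff_ne_bot _).2 h
    have h5 := (IsPGroup.of_card (p := 2) (n := 1) (show Nat.card H.normalCore = _ by omega)).le_sylow_of_normal T
    refine hST (inf_eq_left.2 ?_)
    rw [← eq_of_le_of_card_ge h5 (by omega), ← commutator_eq_bot_iff_le_centralizer, eq_bot_iff, ← h1, inf_comm]
    exact commutator_le_inf _ _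
  obtain ⟨z, hz, z1⟩ := Z.bot_or_exists_ne_one.resolve_left hZ0
  have hzc : ∀ g, g * z = z * g := fun g => by
    have : (S : Subgroup G) ⊔ T = ⊤ := eq_top_of_card_eq _ (by
      rw [sup_comm, Core.card_sup_of_disjoint le_normalizer_of_normal (hcop S le_rfl), hS, hT, hG]; norm_num)
    exact mem_centralizer_singleton_iff.1 ((sup_le (fun s hs => mem_centralizer_singleton_iff.2 ((hZ.le hz).2 s hs))
      fun s hs => mem_centralizer_singleton_iff.2 (hZT hz s hs) : _ ≤ centralizer {z}) (this.ge (mem_top g)))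
  obtain ⟨e⟩ : Nonempty ((G ⧸ H) ≃ Fin 9) := Finite.card_eq.1 (by
    have := H.card_mul_index
    rw [hc, hG] at this
    rw [Nat.card_eq_fintype_card (α := Fin 9), Fintype.card_fin, ← index]; omega)
  let φ := e.permCongrHom.toMonoidHom.comp (toPermHom G (G ⧸ H))
  have h1 := ct (σ := φ z) (by
    rw [← map_pow, show z ^ 3 = 1 from congrArg Subtype.val (hZcard ▸ pow_card_eq_one' (x := (⟨z, hz⟩ : Z))), map_one])
    fun i h => by
      obtain ⟨q, rfl⟩ := e.surjective i
      obtain ⟨g, rfl⟩ := QuotientGroup.mk_surjective q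
      have : ((z * g : G) : G ⧸ H) = g := by simpa [φ] using h
      rw [eq_comm, QuotientGroup.eq, ← hzc, inv_mul_cancel_left] at this
      exact z1 (hA.inf.le ⟨hz, hHS ⟨this, (hZ.le hz).1⟩⟩)
  have h2 := ct (σ := swap 0 1 * swap 1 2 * swap 3 4 * swap 4 5 * swap 6 7 * swap 7 8) (by decide) (by decide)
  obtain ⟨c, hc⟩ := isConj_iff.1 (Perm.isConj_iff_cycleType_eq.2 (h1.trans h2.symm))
  refine ⟨MulEquiv.ofBijective (((MulAut.conj c).toMonoidHom.comp φ).codRestrict _ fun g =>
    mem_centralizer_singleton_iff.2 ?_) ((Nat.bijective_iff_injective_and_card _).2 ⟨fun a b h => ?_, ?_⟩)⟩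
  · rw [← hc]
    simp [mul_assoc, ← map_mul, ← mul_assoc (φ _), hzc g]
  · exact (MonoidHom.ker_eq_bot_iff _).1 (H.normalCore_eq_ker.symm.trans hcore)
      (e.permCongrHom.injective ((MulAut.conj c).injective (congrArg Subtype.val h)))
  · rw [Perm.nat_card_centralizer, h2, hG]; decide

end Cfsg.Agent.S3376
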