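import Cfsg.Statements.S3378
import Cfsg.Agent.Lib.Small.Section
import Cfsg.Agent.S0493
import Cfsg.Agent.S0496
import Cfsg.Agent.Lib.Small.Recog

set_option autoImplicit false
open Cfsg

namespace Cfsg.Agent.S3378

open Subgroup Cfsg.Lib.Small Cfsg.Lib.Frobenius Matrix
open scoped MatrixGroups

theorem simple60 {G : Type*} [Group G] [Finite G] (hG : ¬ Group.IsSolvable G) (h : Nat.card G ≤ 60) :
    Nat.card G = 60 ∧ Nonempty (G ≃* alternatingGroup (Fin 5)) := by
  obtain ⟨S, _, _, h1, h2, h3, h4⟩ := exists_simple_card_dvd hG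
  have h5 := Nat.le_of_dvd Nat.card_pos h3
  have h6 : Nat.card S = 60 := S0493.result (fun hc => h2 inferInstance) (by omega)
  have h7 : Nat.card G = 60 := by omega
  haveI := h4 (h6.trans h7.symm)
  exact ⟨h7, equiv_alt_five_of_simple h7⟩

theorem uniq {G : Type*} [Group G] [Finite G]
    (hP : ∀ P : Sylow 2 G, Nonempty ((P : Subgroup G) ≃* QuaternionGroup 2)) {a b : G}
    (ha : a * a = 1) (hb : b * b = 1) (hab : a * b = b * a) (a1 : a ≠ 1) (b1 : b ≠ 1) : a = b := by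
  have hp : IsPGroup 2 (Subgroup.closure {a, b}) := by
    letI := Subgroup.closureCommGroupOfComm (k := {a, b}) (by
      rintro _ (rfl | rfl) _ (rfl | rfl) <;> simp [hab])
    have : ∀ g : Subgroup.closure ({a, b} : Set G), g ^ 2 = 1 := by
      rintro ⟨g, hg⟩
      induction hg using closure_induction with
      | mem g hg => rcases hg with rfl | rfl <;> exact Subtype.ext (by simpa [sq])
      | one => exact one_pow _
      | mul x y hx hy ihx ihy =>
        change ((⟨x, hx⟩ : Subgroup.closure ({a, b} : Set G)) * ⟨y, hy⟩) ^ 2 = 1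
        rw [mul_pow, ihx, ihy, one_mul]
      | inv x hx ihx =>
        change ((⟨x, hx⟩ : Subgroup.closure ({a, b} : Set G))⁻¹) ^ 2 = 1
        rw [inv_pow, ihx, inv_one]
    exact fun g => ⟨1, by simpa using this g⟩
  obtain ⟨P, hle⟩ := hp.exists_le_sylow
  obtain ⟨e⟩ := hP P
  have ma : a ∈ (P : Subgroup G) := hle (Subgroup.subset_closure (by simp))
  have mb : b ∈ (P : Subgroup G) := hle (Subgroup.subset_closure (by simp))
  have key : ∀ x y : QuaternionGroup 2, x * x = 1 → y * y = 1 → x ≠ 1 → y ≠ 1 → x = y := by decide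
  have := key (e ⟨a, ma⟩) (e ⟨b, mb⟩) (by rw [← map_mul, ← map_one e]; congr 1; exact Subtype.ext ha)
    (by rw [← map_mul, ← map_one e]; congr 1; exact Subtype.ext hb)
    (fun h => a1 (congrArg Subtype.val ((map_eq_one_iff e e.injective).1 h)))
    (fun h => b1 (congrArg Subtype.val ((map_eq_one_iff e e.injective).1 h)))
  exact congrArg Subtype.val (e.injective this)

theorem part1 {G : Type*} [Group G] [Finite G] (hn : Nat.card G = 120) (hG : ¬ Group.IsSolvable G)
    (hP : ∀ P : Sylow 2 G, Nonempty ((P : Subgroup G) ≃* QuaternionGroup 2)) :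
    Nonempty (G ≃* SL(2, ZMod 5)) := by
  haveI : Nontrivial G := Finite.one_lt_card_iff_nontrivial.1 (by omega)
  have hs : ¬ IsSimpleGroup G := fun hs => by
    have := S0496.result (G := G) (not_isMulCommutative_of_simple (by rw [hn]; norm_num)) (by omega)
    omega
  obtain ⟨N, hN, h0, h1⟩ : ∃ N : Subgroup G, N.Normal ∧ N ≠ ⊥ ∧ N ≠ ⊤ := by
    by_contra h
    push Not at h
    exact hs ⟨fun N hN => by_contra fun h' => (not_or.1 h').2 (h N hN (not_or.1 h').1)⟩
  have hm : Nat.card N * N.index = 120 := hn ▸ N.card_mul_index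
  have a1 : 1 < Nat.card N := (Subgroup.one_lt_card_iff_ne_bot N).2 h0
  have a2 : 1 < N.index := Subgroup.one_lt_index_of_ne_top h1
  by_cases hNs : Group.IsSolvable N
  swap
  · obtain ⟨-, ⟨e⟩⟩ := simple60 hNs (by nlinarith)
    let u : alternatingGroup (Fin 5) := ⟨Equiv.swap 0 1 * Equiv.swap 2 3, Equiv.Perm.mem_alternatingGroup.2 (by decide)⟩
    let v : alternatingGroup (Fin 5) := ⟨Equiv.swap 0 2 * Equiv.swap 1 3, Equiv.Perm.mem_alternatingGroup.2 (by decide)⟩
    have r : u * u = 1 ∧ v * v = 1 ∧ u * v = v * u ∧ u ≠ 1 ∧ v ≠ 1 ∧ u ≠ v := by decide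
    let f : alternatingGroup (Fin 5) →* G := N.subtype.comp e.symm.toMonoidHom
    have hf : Function.Injective f := N.subtype_injective.comp e.symm.injective
    exact absurd (hf (uniq hP (by rw [← map_mul, r.1, map_one]) (by rw [← map_mul, r.2.1, map_one])
      (by rw [← map_mul, r.2.2.1, map_mul]) (fun h => r.2.2.2.1 ((map_eq_one_iff f hf).1 h))
      (fun h => r.2.2.2.2.1 ((map_eq_one_iff f hf).1 h)))) r.2.2.2.2.2
  have hQ : ¬ Group.IsSolvable (G ⧸ N) := fun hQ => hG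
    (Group.isSolvable_of_ker_le_range N.subtype (QuotientGroup.mk' N) (by simp))
  obtain ⟨c, ⟨e⟩⟩ := simple60 hQ (by rw [← Subgroup.index_eq_card]; nlinarith)
  rw [← Subgroup.index_eq_card] at c
  have c2 : Nat.card N = 2 := by rw [c] at hm; omega
  obtain ⟨z, hz, oz⟩ := exists_mem_orderOf_eq_prime (H := N) Nat.prime_two (by rw [c2])
  have z1 : z ≠ 1 := by rintro rfl; simp at oz
  have z2 : z ^ 2 = 1 := oz ▸ pow_orderOf_eq_one z
  have hNz : ∀ g ∈ N, g = 1 ∨ g = z := by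
    intro g hg
    obtain ⟨w, -, hw⟩ := (Nat.card_eq_two_iff' (1 : N)).1 c2
    by_cases g1 : g = 1
    · exact Or.inl g1
    · right
      have e1 := hw ⟨g, hg⟩ (fun h => g1 (congrArg Subtype.val h))
      have e2 := hw ⟨z, hz⟩ (fun h => z1 (congrArg Subtype.val h))
      exact congrArg Subtype.val (e1.trans e2.symm)
  have cz : ∀ g : G, g * z = z * g := by
    intro g
    rcases hNz _ (hN.conj_mem z hz g) with h | h
    · exact absurd (by simpa using h) z1
    · rw [mul_inv_eq_iff_eq_mul] at h; exact h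
  let φ : G →* alternatingGroup (Fin 5) := e.toMonoidHom.comp (QuotientGroup.mk' N)
  have hφ : Function.Surjective φ := e.surjective.comp (QuotientGroup.mk'_surjective N)
  have kφ : ∀ g, φ g = 1 → g = 1 ∨ g = z := fun g hg => hNz g
    ((QuotientGroup.eq_one_iff g).1 ((map_eq_one_iff e e.injective).1 hg))
  have φz : φ z = 1 := by
    change e (QuotientGroup.mk' N z) = 1
    rw [show QuotientGroup.mk' N z = 1 from (QuotientGroup.eq_one_iff z).2 hz, map_one]
  have lift : ∀ (a : alternatingGroup (Fin 5)) (k : ℕ), a ^ (2 * k + 1) = 1 →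
      ∃ x, φ x = a ∧ x ^ (2 * k + 1) = 1 := by
    intro a k ha
    obtain ⟨x, rfl⟩ := hφ a
    rcases kφ (x ^ (2 * k + 1)) (by rw [map_pow, ha]) with h | h
    · exact ⟨x, rfl, h⟩
    · refine ⟨x * z, by rw [map_mul, φz, mul_one], ?_⟩
      rw [(show Commute x z from cz x).mul_pow, h, pow_succ, pow_mul, z2, one_pow, one_mul, ← sq, z2]
  obtain ⟨r1, r2, r3, -, -, r6⟩ := altFive_rels
  obtain ⟨x, hx, x3⟩ := lift altFiveX 1 r1
  obtain ⟨y, hy, y5⟩ := lift altFiveY 2 r2
  have hxy : (x * y) ^ 2 = z := by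
    rcases kφ ((x * y) ^ 2) (by rw [map_pow, map_mul, hx, hy, r3]) with h | h
    · have := uniq hP (a := x * y) (b := z) (by rw [← sq, h]) (by rw [← sq, z2]) (cz _)
        (fun h => r6 (by rw [← hx, ← hy, ← map_mul, h, map_one])) z1
      exact absurd (by rw [← hx, ← hy, ← map_mul, this, φz]) r6
    · exact h
  obtain ⟨f, -, -, f3, -⟩ := exists_hom_sl_two_five' x3 y5 z2 hxy (cz x) (cz y)
  obtain ⟨e'⟩ := nonempty_equiv_of_injective f (injective_of_sl_two_five f (f3 ▸ z1))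
    (card_sl_two_five.trans hn.symm)
  exact ⟨e'.symm⟩

theorem part2 (R : Set (FreeGroup (Fin 3))) (hR : R = {FreeGroup.of (0 : Fin 3) ^ 3,
        FreeGroup.of (1 : Fin 3) ^ 5, FreeGroup.of (2 : Fin 3) ^ 2,
        (FreeGroup.of (2 : Fin 3))⁻¹ * FreeGroup.of 0 * FreeGroup.of 2 * (FreeGroup.of (0 : Fin 3))⁻¹,
        (FreeGroup.of (2 : Fin 3))⁻¹ * FreeGroup.of 1 * FreeGroup.of 2 * (FreeGroup.of (1 : Fin 3))⁻¹,
        (FreeGroup.of (0 : Fin 3) * FreeGroup.of 1) ^ 2 * (FreeGroup.of (2 : Fin 3))⁻¹}) :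
    Nonempty (PresentedGroup R ≃* SL(2, ZMod 5)) := by
  have key : ∀ r ∈ R, PresentedGroup.mk R r = 1 := fun r hr => PresentedGroup.one_of_mem hr
  obtain ⟨h1, h2, h3, -⟩ := sl5XY_rels
  have hf : ∀ r ∈ R, FreeGroup.lift ![sl5X, sl5Y, -1] r = 1 := by
    rw [hR]
    rintro r (rfl | rfl | rfl | rfl | rfl | rfl) <;>
      simp only [map_pow, map_mul, map_inv, FreeGroup.lift_apply_of]
    · exact h1
    · exact h2
    · change (-1 : SL(2, ZMod 5)) ^ 2 = 1
      simp
    · change (-1 : SL(2, ZMod 5))⁻¹ * sl5X * (-1) * sl5X⁻¹ = 1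
      simp
    · change (-1 : SL(2, ZMod 5))⁻¹ * sl5Y * (-1) * sl5Y⁻¹ = 1
      simp
    · change (sl5X * sl5Y) ^ 2 * (-1 : SL(2, ZMod 5))⁻¹ = 1
      rw [h3]; simp
  have comm : ∀ a z : PresentedGroup R, z⁻¹ * a * z * a⁻¹ = 1 → a * z = z * a := by
    intro a z h
    rw [mul_inv_eq_one, mul_assoc, inv_mul_eq_iff_eq_mul] at h
    exact h
  obtain ⟨f, -, -, f3, f4⟩ := exists_hom_sl_two_five' (G := PresentedGroup R)
    (x := PresentedGroup.of 0) (y := PresentedGroup.of 1) (z := PresentedGroup.of 2)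
    (key (FreeGroup.of 0 ^ 3) (by simp [hR])) (key (FreeGroup.of 1 ^ 5) (by simp [hR]))
    (key (FreeGroup.of 2 ^ 2) (by simp [hR]))
    (mul_inv_eq_one.1 (key ((FreeGroup.of 0 * FreeGroup.of 1) ^ 2 * (FreeGroup.of 2)⁻¹) (by simp [hR])))
    (comm _ _ (key ((FreeGroup.of 2)⁻¹ * FreeGroup.of 0 * FreeGroup.of 2 * (FreeGroup.of 0)⁻¹) (by simp [hR])))
    (comm _ _ (key ((FreeGroup.of 2)⁻¹ * FreeGroup.of 1 * FreeGroup.of 2 * (FreeGroup.of 1)⁻¹) (by simp [hR])))
  have hi := injective_of_sl_two_five f (fun h => by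
    rw [f3] at h
    have := congrArg (PresentedGroup.toGroup hf) h
    rw [PresentedGroup.toGroup.of, map_one] at this
    exact absurd this (by decide))
  have hs : Function.Surjective f := by
    rw [← MonoidHom.range_eq_top, f4, ← PresentedGroup.closure_range_of]
    congr 1
    ext x
    simp [Fin.exists_fin_succ, eq_comm]
  exact ⟨(MulEquiv.ofBijective f ⟨hi, hs⟩).symm⟩

/-- Every non-solvable group of order 120 whose Sylow 2-subgroups are quaternion of order 8 is isomorphic to SL(2,5), and SL(2,5) has the presentation ⟨x, y, z | x³ = y⁵ = z² = 1, z⁻¹xz = x, z⁻¹yz = y, (xy)² = z⟩. -/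
theorem result :
    (∀ (G : Type*) [Group G] [Finite G], Nat.card G = 120 → ¬ Group.IsSolvable G →
      (∀ P : Sylow 2 G, Nonempty ((P : Subgroup G) ≃* QuaternionGroup 2)) →
      Nonempty (G ≃* Matrix.SpecialLinearGroup (Fin 2) (ZMod 5))) ∧
    Nonempty (PresentedGroup ({FreeGroup.of (0 : Fin 3) ^ 3, FreeGroup.of (1 : Fin 3) ^ 5, FreeGroup.of (2 : Fin 3) ^ 2,
        (FreeGroup.of (2 : Fin 3))⁻¹ * FreeGroup.of 0 * FreeGroup.of 2 * (FreeGroup.of (0 : Fin 3))⁻¹,
        (FreeGroup.of (2 : Fin 3))⁻¹ * FreeGroup.of 1 * FreeGroup.of 2 * (FreeGroup.of (1 : Fin 3))⁻¹,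
        (FreeGroup.of (0 : Fin 3) * FreeGroup.of 1) ^ 2 * (FreeGroup.of (2 : Fin 3))⁻¹} : Set (FreeGroup (Fin 3)))
      ≃* Matrix.SpecialLinearGroup (Fin 2) (ZMod 5)) := by
  exact ⟨fun G _ _ h1 h2 h3 => part1 h1 h2 h3, part2 _ rfl⟩

end Cfsg.Agent.S3378
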