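import Cfsg.Statements.S3389
import Cfsg.Agent.Lib.Perm.Witt
import Cfsg.Agent.Lib.Perm.Centralizer
import Cfsg.Agent.Lib.Frobenius.Basic
import Cfsg.Agent.Lib.Core.MinNormal

set_option autoImplicit false
open Cfsg

namespace Cfsg.Agent.S3389

open Cfsg.Lib.Perm Cfsg.Lib.Transfer MulAction Subgroup

/-- Let G be a finite group acting faithfully and transitively on a finite set Ω with fixity k ≥ 1: every non-identity element fixes at most k points and some non-identity element fixes exactly k points. Then |Z(G)| divides k; if k = 2 then |G| is even; and for every prime p > k dividing |G| and every point α, either p does not divide |G_α| or G_α contains a Sylow p-subgroup of G. -/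
theorem result {G : Type*} [Group G] [Finite G] {Ω : Type*} [Fintype Ω] [MulAction G Ω] [FaithfulSMul G Ω]
    (htr : MulAction.IsPretransitive G Ω) (k : ℕ) (hk : 1 ≤ k)
    (hfix : ∀ g : G, g ≠ 1 → Nat.card (MulAction.fixedBy Ω g) ≤ k) (hex : ∃ g : G, g ≠ 1 ∧ Nat.card (MulAction.fixedBy Ω g) = k) :
    Nat.card (Subgroup.center G) ∣ k ∧ (k = 2 → 2 ∣ Nat.card G) ∧
      ∀ (p : ℕ), p.Prime → k < p → p ∣ Nat.card G → ∀ α : Ω,
        ¬ p ∣ Nat.card (MulAction.stabilizer G α) ∨ ¬ p ∣ (MulAction.stabilizer G α).index := by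
  classical
  obtain ⟨g, hg1, hgk⟩ := hex
  refine ⟨?_, ?_, ?_⟩
  · let _ : MulAction (center G) (fixedBy Ω g) :=
      { smul := fun z x => ⟨(z : G) • x.1, by
          rw [mem_fixedBy, ← mul_smul, mem_center_iff.1 z.2, mul_smul, x.2]⟩
        one_smul := fun x => Subtype.ext (one_smul G x.1)
        mul_smul := fun y z x => Subtype.ext (mul_smul (y : G) z x.1) }
    rw [← hgk]
    refine Lib.Frobenius.card_dvd_card_of_free _ _ fun z x h => Subtype.ext ?_
    exact eq_one_of_centralizes (M := ⊤) ⟨fun a b => (exists_smul_eq G a b).elim fun u hu =>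
      ⟨⟨u, trivial⟩, hu⟩⟩ (fun m _ => mem_center_iff.1 z.2 m) (congrArg Subtype.val h)
  · rintro rfl
    by_contra hodd
    obtain ⟨a, b, hab, e⟩ := Set.ncard_eq_two.1 hgk
    have hga : g • a = a := (e.ge (by simp) : a ∈ fixedBy Ω g)
    have hgb : g • b = b := (e.ge (by simp) : b ∈ fixedBy Ω g)
    have h3 : ∀ u : G, u ≠ 1 → u • a = a → u • b = b → ∀ c, u • c = c → c = a ∨ c = b := by
      intro u hu ha hb c hc
      by_contra h
      push Not at h
      have := (Set.ncard_le_ncard (s := {a, b, c}) (t := fixedBy Ω u) (by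
        rintro _ (rfl | rfl | rfl) <;> assumption)).trans (hfix u hu)
      rw [Set.ncard_eq_three.2 ⟨a, b, c, hab, h.1.symm, h.2.symm, rfl⟩] at this
      omega
    have hswap : ∀ u : G, u • a = b → u • b = a → False := fun u h1 h2 => hab (by
      have h4 : ∀ n : ℕ, (u ^ 2) ^ n • a = a := fun n =>
        (stabilizer G a).pow_mem (by rw [mem_stabilizer_iff, sq, mul_smul, h1, h2]) n
      obtain ⟨n, hn⟩ : Odd (Nat.card G) := Nat.not_even_iff_odd.1 fun h => hodd h.two_dvd
      have := pow_card_eq_one' (x := u)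
      rw [hn, pow_succ', pow_mul] at this
      rw [← h1, ← h4 n, ← mul_smul, this, one_smul, h4])
    obtain ⟨p, hp, hpd⟩ := Lib.Core.exists_prime_dvd_card (H := stabilizer G a ⊓ stabilizer G b)
      fun h => hg1 (mem_bot.1 (h ▸ ⟨hga, hgb⟩))
    have := Fact.mk hp
    obtain ⟨x, hx, hxp⟩ := Lib.Core.exists_mem_orderOf_eq_prime hp hpd
    have hx1 : x ≠ 1 := by rintro rfl; exact hp.one_lt.ne (by simpa using hxp)
    obtain ⟨P, hxP, hPa, hP, hPi⟩ := exists_sylowIn_ge (p := p) (Q := zpowers x)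
      (H := fixingSubgroup G {a}) (IsPGroup.of_card (n := 1) (by rw [Nat.card_zpowers, hxp, pow_one]))
      (zpowers_le.2 (by simpa [mem_fixingSubgroup_iff] using hx.1))
    have hPa' : ∀ u ∈ P, u • a = a := fun u hu => by simpa [mem_fixingSubgroup_iff] using hPa hu
    have hxP' := hxP (mem_zpowers x)
    by_cases hPb : P ≤ stabilizer G b
    · obtain ⟨y, rfl⟩ := exists_smul_eq G a b
      obtain ⟨n, hn, e1⟩ := exists_normalizer_eq_on hP hPi (g := y) (by rintro _ rfl; exact hPb)
      have e2 : n • a = y • a := e1 a rfl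
      rcases h3 x hx1 hx.1 hx.2 _ (smul_fixed_of_mem_normalizer hn hPb x hxP') with h | h
      · exact hswap n e2 h
      · exact hab (smul_left_cancel n (e2.trans h.symm))
    · obtain ⟨n, ⟨hnP, hn⟩, hn'⟩ := SetLike.exists_of_lt (lt_inf_normalizer_of_lt hP
        (inf_lt_left.2 hPb : P ⊓ stabilizer G b < P))
      rcases h3 x hx1 hx.1 hx.2 _ (smul_fixed_of_mem_normalizer hn (fun u hu => hu.2) x
        ⟨hxP', hx.2⟩) with h | h
      · exact hab (smul_left_cancel n ((hPa' n hnP).trans h.symm))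
      · exact hn' ⟨hnP, h⟩
  · intro p hp hkp _ α
    by_contra h
    push Not at h
    have := Fact.mk hp
    obtain ⟨x, hx, hxp⟩ := Lib.Core.exists_mem_orderOf_eq_prime hp h.1
    have hx1 : x ≠ 1 := by rintro rfl; exact hp.one_lt.ne (by simpa using hxp)
    have h1 := card_modEq_fixedBy (α := Ω) (p := p) (g := x) (k := 1)
      (by rw [pow_one, ← hxp, pow_orderOf_eq_one])
    rw [index_stabilizer_of_transitive] at h
    have h2 := Nat.le_of_dvd (Nat.card_pos_iff.2 ⟨⟨⟨α, hx⟩⟩, inferInstance⟩)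
      ((h1.dvd_iff dvd_rfl).1 h.2)
    have := hfix x hx1
    omega

end Cfsg.Agent.S3389
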