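import Cfsg.Statements.S3391
import Cfsg.Agent.Lib.Sz.Local

set_option autoImplicit false
open Cfsg

namespace Cfsg.Agent.S3391

open Cfsg.Lib.Sz MulAction

theorem card_le_two_mul {G : Type*} [Group G] {Ω : Type*} [Finite Ω] [MulAction G Ω] {g : G}
    (hg : Nat.card (fixedBy Ω g) ≤ 2) {α : Ω} (L : Subgroup G) (h : ∀ x ∈ L, x⁻¹ * g * x ∈ stabilizer G α) :
    Nat.card L ≤ 2 * Nat.card ↥(L ⊓ stabilizer G α) := by
  have h1 : (stabilizer L α).index ≤ 2 := by
    rw [index_stabilizer]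
    refine le_trans (Set.ncard_le_ncard (t := fixedBy Ω g) ?_) (by rwa [← Nat.card_coe_set_eq])
    rintro _ ⟨x, rfl⟩
    have := h x x.2
    rwa [mem_stabilizer_iff, mul_smul, mul_smul, inv_smul_eq_iff] at this
  have h2 : Nat.card (stabilizer L α) = Nat.card ↥(L ⊓ stabilizer G α) := by
    exact Nat.card_congr ⟨fun x => ⟨x.1, x.1.2, x.2⟩, fun x => ⟨⟨x, x.2.1⟩, x.2.2⟩, fun _ => rfl, fun _ => rfl⟩
  rw [← (stabilizer L α).index_mul_card, h2]
  exact Nat.mul_le_mul_right _ h1

theorem conj_mem_zpowers {G : Type*} [Group G] {A : Subgroup G} (hA : IsCyclic A) {x y : G}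
    (hx : x ∈ Subgroup.normalizer (A : Set G)) (hy : y ∈ A) : x * y * x⁻¹ ∈ Subgroup.zpowers y := by
  obtain ⟨a, rfl⟩ := (Subgroup.isCyclic_iff_exists_zpowers_eq_top A).1 hA
  obtain ⟨k, rfl⟩ := hy
  obtain ⟨j, hj⟩ := (Subgroup.mem_normalizer_iff.1 hx a).1 (Subgroup.mem_zpowers a)
  refine ⟨j, ?_⟩
  simp only at hj ⊢
  rw [← conj_zpow, ← hj, ← zpow_mul, ← zpow_mul, mul_comm]

theorem sq_mem {G : Type*} [Group G] {Ω : Type*} [Finite Ω] [MulAction G Ω] {g : G}
    (hg : Nat.card (fixedBy Ω g) ≤ 2) {α : Ω} (L : Subgroup G) (h : ∀ x ∈ L, x⁻¹ * g * x ∈ stabilizer G α)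
    {x : G} (hx : x ∈ L) : x * x ∈ stabilizer G α := by
  have h1 : ∀ x ∈ L, x • α ∈ fixedBy Ω g := fun x hx => by
    have := h x hx
    rwa [mem_stabilizer_iff, mul_smul, mul_smul, inv_smul_eq_iff] at this
  by_contra h2
  have h3 : x • α ≠ α := fun h => h2 (mul_mem h h)
  have h4 := Set.ncard_le_ncard (s := {α, x • α, (x * x) • α}) (t := fixedBy Ω g) (by
    rintro _ (rfl | rfl | rfl)
    exacts [by simpa using h1 1 L.one_mem, h1 x hx, h1 _ (mul_mem hx hx)])
  rw [Set.ncard_eq_three.2 ⟨_, _, _, h3.symm, Ne.symm h2, by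
    rw [mul_smul, Ne, smul_left_cancel_iff]; exact h3.symm, rfl⟩] at h4
  rw [Nat.card_coe_set_eq] at hg
  omega

/-- Let q = 2^{2m+1} ≥ 8 and let G be isomorphic to the Suzuki group Sz(q). If G acts faithfully and transitively on a finite set Ω with fixity 2 (every non-identity element fixes at most two points, and some fixes exactly two), then either |Ω| = q² + 1 and the action is 2-transitive, or |Ω| = q²(q² + 1) and the point stabilizers have order q − 1. -/
theorem result {G : Type*} [Group G] [Finite G] (F : Type) [Field F] [Fintype F] (m : ℕ) (hm : 1 ≤ m) (hF : Fintype.card F = 2 ^ (2 * m + 1))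
    (e : G ≃* ↥(Cfsg.Lie.Sz F (2 ^ (m + 1)))) {Ω : Type*} [Fintype Ω] [MulAction G Ω] [FaithfulSMul G Ω] (htr : MulAction.IsPretransitive G Ω)
    (hfix : ∀ g : G, g ≠ 1 → Nat.card (MulAction.fixedBy Ω g) ≤ 2) (hex : ∃ g : G, g ≠ 1 ∧ Nat.card (MulAction.fixedBy Ω g) = 2) :
    (Fintype.card Ω = Fintype.card F ^ 2 + 1 ∧ MulAction.IsMultiplyPretransitive G Ω 2) ∨
    (Fintype.card Ω = Fintype.card F ^ 2 * (Fintype.card F ^ 2 + 1) ∧ ∀ α : Ω, Nat.card (MulAction.stabilizer G α) = Fintype.card F - 1) := by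
  classical
  have hq : Nat.card F = 2 ^ (2 * m + 1) := by rw [Nat.card_eq_fintype_card, hF]
  have ht := exists_ne_zero_ne_one hm hF
  generalize (lieModel hF).congr e = M
  simp only [← Nat.card_eq_fintype_card]
  obtain ⟨g, hg1, hg⟩ := hex
  obtain ⟨α, hα⟩ : (fixedBy Ω g).Nonempty := by
    rw [Nat.card_coe_set_eq] at hg
    exact Set.nonempty_of_ncard_ne_zero (by omega)
  have hcard : ∀ β : Ω, Nat.card (stabilizer G β) * Nat.card Ω = Nat.card G := fun β => by
    rw [← index_stabilizer_of_transitive G β, Subgroup.card_mul_index]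
  have h2 := Model.two_le_card (F := F)
  by_cases h : 2 ∣ Nat.card (stabilizer G α)
  · left
    obtain ⟨⟨z, hz⟩, hz2⟩ := exists_prime_orderOf_dvd_card' 2 h
    rw [← Subgroup.orderOf_coe] at hz2
    have hz1 : z ≠ 1 := by rintro rfl; simp at hz2
    have hz3 : z * z = 1 := by rw [← sq, ← hz2, pow_orderOf_eq_one]
    obtain ⟨x, hx⟩ := M.exists_mem_conj_U (g := z)
      (by rw [show (4 : ℕ) = 2 * 2 from rfl, pow_mul, sq z, hz3, one_pow])
    generalize M.conj x = M at hx
    have hZ := M.mem_Z_iff.2 ⟨M.U_le_B hx, hz3⟩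
    have h3 : M.Z ≤ stabilizer G α := by
      rintro _ ⟨b, rfl⟩
      obtain ⟨a, rfl⟩ := M.exists_σ_mul_self b
      rw [← M.u_sq a 0]
      refine sq_mem (hfix z hz1) M.U (fun y hy => ?_) (M.u_mem_U a 0)
      rwa [mul_assoc, ← M.comm_of_mem_Z hZ hy, inv_mul_cancel_left]
    have h4 : ∀ y ∈ M.B, y * y ∈ stabilizer G α := fun y hy =>
      sq_mem (hfix z hz1) M.B (fun y hy => h3 (by simpa using M.conj_mem_Z (inv_mem hy) hZ)) hy
    have h5 : ∀ y ∈ M.B, ∀ μ, y * M.h μ * y⁻¹ ∈ stabilizer G α := fun y hy μ => by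
      obtain ⟨ν, rfl⟩ := M.exists_unit_sq μ
      have := h4 _ (mul_mem (mul_mem hy (M.h_mem_B ν)) (inv_mem hy))
      rwa [conj_mul, ← map_mul, ← sq] at this
    have h6 : M.B ≤ stabilizer G α := by
      obtain ⟨μ, hμ⟩ := Model.exists_h_ne_one ht
      have h6 : ∀ μ, M.h μ ∈ stabilizer G α := fun μ => by simpa using h5 1 M.B.one_mem μ
      intro y hy
      obtain ⟨a, b, ν, rfl⟩ := M.mem_B'.1 hy
      obtain ⟨c, d, h7⟩ := M.exists_conj_u_mul_h a b hμ
      exact mul_mem ((Subgroup.mul_mem_cancel_right _ (h6 μ)).1 (h7 ▸ h5 _ (M.u_mem_B c d) μ)) (h6 ν)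
    have h7 : stabilizer G α = M.B := by
      refine (M.isCoatom_B.le_iff.1 h6).resolve_left fun h7 => hg1 ?_
      refine eq_of_smul_eq_smul (α := Ω) fun β => ?_
      obtain ⟨y, rfl⟩ := exists_smul_eq G α β
      have h8 : ∀ y : G, y • α = α := fun y => (h7 ▸ Subgroup.mem_top y : y ∈ stabilizer G α)
      simp only [h8]
    refine ⟨by rw [← index_stabilizer_of_transitive G α, h7, M.index_B], ?_⟩
    have h8 : ∀ y y' : G, y • α = y' • α ↔ y • M.inf = y' • M.inf := fun y y' => by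
      rw [← inv_smul_eq_iff, ← inv_smul_eq_iff (a := y • M.inf), ← mul_smul, ← mul_smul,
        ← mem_stabilizer_iff, h7, M.mem_B]
    rw [is_two_pretransitive_iff]
    intro a b c d hab hcd
    obtain ⟨a, rfl⟩ := exists_smul_eq G α a
    obtain ⟨b, rfl⟩ := exists_smul_eq G α b
    obtain ⟨c, rfl⟩ := exists_smul_eq G α c
    obtain ⟨d, rfl⟩ := exists_smul_eq G α d
    rw [Ne, h8] at hab hcd
    obtain ⟨y, h9, h10⟩ := is_two_pretransitive_iff.1 M.two_transitive hab hcd
    exact ⟨y, by rw [← mul_smul, h8, mul_smul, h9], by rw [← mul_smul, h8, mul_smul, h10]⟩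
  · right
    have ho : Odd (Nat.card (stabilizer G α)) := Nat.not_even_iff_odd.1 (mt even_iff_two_dvd.1 h)
    have h3 : ∀ y ∈ stabilizer G α, ¬ M.Ell y := by
      intro y hy hE
      have h3 := card_le_two_mul (hfix y hE.ne_one) (α := α)
        (Subgroup.normalizer (Subgroup.centralizer ({y} : Set G) : Set G)) (fun x hx => by
          refine Subgroup.zpowers_le_of_mem hy ?_
          simpa using conj_mem_zpowers hE.isCyclic (inv_mem hx)
            (Subgroup.mem_centralizer_singleton_iff.2 rfl))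
      have h4 := Subgroup.card_dvd_of_le (inf_le_left (a := Subgroup.normalizer
        (Subgroup.centralizer ({y} : Set G) : Set G)) (b := stabilizer G α))
      rw [hE.card_normalizer hm hq] at h3 h4
      have h5 := Nat.le_of_dvd Nat.card_pos ((Nat.Coprime.pow_right 2 (Nat.coprime_two_right.2
        (ho.of_dvd_nat (Subgroup.card_dvd_of_le inf_le_right)))).dvd_of_dvd_mul_left h4)
      have h6 : 0 < Nat.card (Subgroup.centralizer ({y} : Set G)) := Nat.card_pos
      omega
    have h4 : Nat.card (stabilizer G α) ∣ Nat.card F - 1 := by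
      have h4 := (stabilizer G α).card_subgroup_dvd_card
      rw [M.card_G] at h4
      refine Nat.Coprime.dvd_of_dvd_mul_left ?_ (Nat.Coprime.dvd_of_dvd_mul_right ?_ h4)
      · rw [hq]; exact ((Nat.coprime_two_right.2 ho).pow_right _).pow_right _
      · refine Nat.coprime_of_dvd fun p hp h5 h6 => ?_
        have := Fact.mk hp
        obtain ⟨⟨y, hy⟩, h7⟩ := exists_prime_orderOf_dvd_card' p h5
        rw [← Subgroup.orderOf_coe] at h7
        exact h3 y hy (M.ell_of_orderOf_dvd (by rintro rfl; simp at h7; exact hp.one_lt.ne h7) (h7 ▸ h6))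
    obtain ⟨x, μ, rfl⟩ := M.exists_conj_h_of_orderOf_dvd
      ((Subgroup.orderOf_dvd_natCard (stabilizer G α) hα).trans h4)
    rw [← M.conj_h] at hα hg1
    generalize M.conj x = M at hα hg1
    have h5 : M.H ≤ stabilizer G α := by
      rintro _ ⟨ν, rfl⟩
      obtain ⟨ν, rfl⟩ := M.exists_unit_sq ν
      rw [sq, map_mul]
      refine sq_mem (hfix _ hg1) M.H ?_ (M.h_mem_H ν)
      rintro _ ⟨ρ, rfl⟩
      rwa [mul_assoc, M.h_comm, inv_mul_cancel_left]
    have h6 : Nat.card (stabilizer G α) = Nat.card F - 1 :=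
      Nat.dvd_antisymm h4 (M.card_H ▸ Subgroup.card_dvd_of_le h5)
    have h7 : Nat.card Ω = Nat.card F ^ 2 * (Nat.card F ^ 2 + 1) := by
      have := hcard α
      rw [h6, M.card_G] at this
      exact Nat.eq_of_mul_eq_mul_left (show 0 < Nat.card F - 1 by omega) (by rw [this]; ring)
    refine ⟨h7, fun β => ?_⟩
    exact Nat.eq_of_mul_eq_mul_right (show 0 < Nat.card Ω by rw [h7]; positivity)
      (by rw [hcard, ← h6, hcard])

end Cfsg.Agent.S3391
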