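import Cfsg.Statements.S3399
import Cfsg.Agent.Lib.PrF.G
-- import your own Cfsg.Agent.* helpers here

set_option autoImplicit false
open Cfsg

namespace Cfsg.Agent.S3399

/-- Let G be a transitive permutation group of finite degree n and K a nontrivial subgroup of G that is pronormal in G (K and gKg⁻¹ are conjugate inside ⟨K, gKg⁻¹⟩ for every g ∈ G). If K fixes exactly f points, then f ≤ (n − 1)/2, that is, 2f + 1 ≤ n. -/
theorem result (n : ℕ) (G : Subgroup (Equiv.Perm (Fin n)))
    (htrans : ∀ a b : Fin n, ∃ g ∈ G, g a = b)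
    (K : Subgroup (Equiv.Perm (Fin n))) (hKG : K ≤ G) (hK : K ≠ ⊥)
    (hpro : ∀ g ∈ G, ∃ w ∈ K ⊔ K.map (MulAut.conj g).toMonoidHom,
      K.map (MulAut.conj w).toMonoidHom = K.map (MulAut.conj g).toMonoidHom) :
    2 * Nat.card {a : Fin n // ∀ k ∈ K, k a = a} + 1 ≤ n := by
  classical
  have := Lib.PrF.St.rel (G := ↥G) (Finset.univ : Finset (Fin n)) (Lib.PrF.main _)
    (K := K.subgroupOf G) (H := ⊤) le_top (Lib.PrF.pro_sub hKG hpro) (by simp)
    (fun a _ b _ => by
      obtain ⟨g, hg, e⟩ := htrans a b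
      exact ⟨⟨g, hg⟩, trivial, e⟩) (by
      by_contra h
      push Not at h
      refine hK (eq_bot_iff.2 fun k hk => Equiv.ext fun x => ?_)
      exact h ⟨k, hKG hk⟩ hk x (Finset.mem_univ _))
  rw [Finset.card_univ, Fintype.card_fin] at this
  rw [Nat.card_eq_fintype_card, Fintype.card_subtype]
  refine Nat.succ_le_of_lt ?_
  convert this using 4 with x
  exact ⟨fun h k hk => h k hk, fun h k hk => h ⟨k, hKG hk⟩ hk⟩

end Cfsg.Agent.S3399
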