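import Cfsg.Statements.S3410
import Cfsg.Agent.Lib.Perm.ONan5
import Cfsg.Agent.Lib.Comp.GenFitting

set_option autoImplicit false
open Cfsg

namespace Cfsg.Agent.S3410

open Cfsg.Lib Subgroup

theorem fstar_simple {L : Type*} [Group L] [Finite L] {N : Subgroup L} [hN : N.Normal] [IsSimpleGroup N]
    (hc : centralizer (N : Set L) = ⊥) : generalizedFittingSubgroup L = N := by
  have c : IsComponent N := ⟨hN.isSubnormal, Comp.isQuasisimple_of_isSimpleGroup fun a => by
    obtain ⟨x, hx⟩ := exists_ne (1 : N)
    exact hx (Subtype.ext (hc.le fun y hy => congrArg Subtype.val (a.is_comm.comm (⟨y, hy⟩ : N) x)))⟩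
  refine le_antisymm (Comp.genFitting_le_of_centralizer_le hN.isSubnormal ?_ (hc.le.trans bot_le))
    ((Comp.le_layer c).trans Comp.layer_le_genFitting)
  exact ((le_centralizer_iff.1 (commutator_eq_bot_iff_le_centralizer.1 (Comp.isComponent_commutator_fitting c))).trans
    hc.le).trans bot_le

/-- Let a finite group G act faithfully and 2-transitively on a finite set X, and let N be an abelian normal subgroup of the stabilizer of a point x which is not semiregular on the remaining points (some non-identity element of N fixes a second point). Then the generalized Fitting subgroup of G is isomorphic to PSL_n(F) for some n ≥ 3 and some finite field F. -/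
theorem result {G X : Type*} [Group G] [Finite G] [Fintype X]
    [MulAction G X] [FaithfulSMul G X] (h2 : MulAction.IsMultiplyPretransitive G X 2) (x : X)
    (N : Subgroup G) (hNle : N ≤ MulAction.stabilizer G x)
    (hNnormal : ∀ g ∈ MulAction.stabilizer G x, ∀ n ∈ N, g * n * g⁻¹ ∈ N) (hNab : IsMulCommutative N)
    (hnsr : ∃ n ∈ N, n ≠ 1 ∧ ∃ y : X, y ≠ x ∧ n • y = y) :
    ∃ (F : Type) (_ : Field F) (_ : Fintype F) (n : ℕ), 3 ≤ n ∧
      Nonempty (↥(Cfsg.generalizedFittingSubgroup G) ≃* Matrix.ProjectiveSpecialLinearGroup (Fin n) F) := by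
  have hf : ∀ g : G, (∀ x : X, g • x = x) → g = 1 := fun g h => eq_of_smul_eq_smul (α := X) fun x => by
    rw [h, one_smul]
  obtain ⟨K, _, _, n, hn, ⟨P⟩⟩ := Perm.ON.onan hf
    (fun a b c d h h' => MulAction.is_two_pretransitive_iff.1 h2 h h') x N hNle hNnormal
    (fun a ha b hb => congrArg Subtype.val (hNab.is_comm.comm (⟨a, ha⟩ : N) ⟨b, hb⟩)) hnsr
  obtain ⟨e⟩ := P.equiv hf
  haveI := P.normal
  haveI := Linear.isSimpleGroup_PSL_fin (F := K) (n := n) (by omega) (by omega)
  haveI := e.isSimpleGroup
  exact ⟨K, inferInstance, inferInstance, n, hn, ⟨(MulEquiv.subgroupCongr (fstar_simple (P.centralizer_eq hf))).trans e⟩⟩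

end Cfsg.Agent.S3410
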