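import Cfsg.Statements.S3413
import Cfsg.Agent.Lib.G23.Rec

set_option autoImplicit false
open Cfsg

namespace Cfsg.Agent.S3413



/-- Let H be a finite group whose commuting graph (vertices the non-identity elements, two joined when they commute) is isomorphic to that of the Mathieu group M_11: there is a bijection between the non-identity elements of H and of M_11 under which two elements commute exactly when their images do. Then H ≅ M_11. -/
theorem result {H : Type*} [Group H] [Finite H]
    (f : {h : H // h ≠ 1} ≃ {g : ↥Cfsg.Spor.M11 // g ≠ 1})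
    (hf : ∀ x y : {h : H // h ≠ 1}, (x : H) * y = y * x ↔ ((f x) : ↥Cfsg.Spor.M11) * (f y) = (f y) * (f x)) :
    Nonempty (H ≃* ↥Cfsg.Spor.M11) := by
  obtain ⟨φ, h⟩ := Lib.G23.cg_M11
  obtain ⟨a, ψ, k⟩ := h.of_graph' f hf
  refine (k.iso (F := ZMod 3) rfl).resolve_left fun ⟨e⟩ => ?_
  rw [Nat.card_congr e.toEquiv, Lib.Mathieu.card_M11, Lib.G23.card_L33 rfl] at a
  omega

end Cfsg.Agent.S3413
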