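import Cfsg.Statements.S3431
import Cfsg.Agent.Lib.FGS.Nse3
import Cfsg.Agent.Lib.Spec.PSL2

set_option autoImplicit false
open Cfsg

namespace Cfsg.Agent.S3431

section
open Cfsg.Lib.FGS Cfsg.Lib.Spec

theorem ns_prime {G : Type*} [Group G] [Fintype G] [DecidableEq G] {p a : ℕ} (hp : p.Prime)
    (h : Fintype.card {g : G // g ^ p = 1} = a + 1) : ns G p = a := by
  have h1 := sum_ns (G := G) hp.ne_zero
  rw [hp.divisors, Finset.sum_pair hp.one_lt.ne, ns_one, Nat.card_eq_fintype_card, h] at h1
  omega

theorem nse_four : nse (alternatingGroup (Fin 4)) = {1, 3, 8} := by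
  show ns _ '' sp _ = _
  rw [sp_alt_four]
  simp only [Set.image_insert_eq, Set.image_singleton, ns_one]
  rw [ns_prime (a := 3) Nat.prime_two (by decide +kernel), ns_prime (a := 8) Nat.prime_three (by decide +kernel)]

theorem nse_five : nse (alternatingGroup (Fin 5)) = {1, 15, 20, 24} := by
  show ns _ '' sp _ = _
  rw [sp_alt_five]
  simp only [Set.image_insert_eq, Set.image_singleton, ns_one]
  rw [ns_prime (a := 15) Nat.prime_two (by decide +kernel), ns_prime (a := 20) Nat.prime_three (by decide +kernel),
    ns_prime (a := 24) Nat.prime_five (by decide +kernel)]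

theorem nse_six : nse (alternatingGroup (Fin 6)) = {1, 45, 80, 90, 144} := by
  have h2 := ns_prime (G := alternatingGroup (Fin 6)) (a := 45) Nat.prime_two (by decide +kernel)
  have h4 : ns (alternatingGroup (Fin 6)) 4 = 90 := by
    have h := sum_ns (G := alternatingGroup (Fin 6)) (m := 4) (by decide)
    rw [show Nat.divisors 4 = {1, 2, 4} by decide, Nat.card_eq_fintype_card,
      show Fintype.card {g : alternatingGroup (Fin 6) // g ^ 4 = 1} = 136 by decide +kernel] at h
    simp [ns_one] at h
    omega
  show ns _ '' sp _ = _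
  rw [sp_alt_six]
  simp only [Set.image_insert_eq, Set.image_singleton, ns_one]
  rw [h2, h4, ns_prime (a := 80) Nat.prime_three (by decide +kernel),
    ns_prime (a := 144) Nat.prime_five (by decide +kernel)]

end

/-- Let n be 4, 5 or 6 and let G be a finite group whose set of sizes of same-order classes (the set of numbers #{g : o(g) = m} over the element orders m of G) equals that of the alternating group of degree n. Then G is isomorphic to that alternating group. -/
theorem result {G : Type*} [Group G] [Finite G] (n : ℕ) (hn : n = 4 ∨ n = 5 ∨ n = 6)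
    (h : ((fun m : ℕ => Nat.card {g : G // orderOf g = m}) '' Set.range (orderOf : G → ℕ)) = ((fun m : ℕ => Nat.card {g : ↥(alternatingGroup (Fin n)) // orderOf g = m}) '' Set.range (orderOf : ↥(alternatingGroup (Fin n)) → ℕ))) :
    Nonempty (G ≃* ↥(alternatingGroup (Fin n))) := by
  open Cfsg.Lib.FGS Cfsg.Lib.Spec in
  rcases hn with rfl | rfl | rfl
  exacts [equiv_four (h.trans nse_four), equiv_five (h.trans nse_five), equiv_six (h.trans nse_six)]

end Cfsg.Agent.S3431
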