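import Cfsg.Statements.S3488
import Cfsg.Agent.Lib.Spec.PSL2

set_option autoImplicit false
open Cfsg

namespace Cfsg.Agent.S3488

section
open Cfsg.Lib.Spec Cfsg.Lib.PSL2 Matrix Finset

variable {F : Type*} [Field F]

/-- The affine matrix with linear part `A` and translation part `v`. -/
def af (A : Matrix (Fin 2) (Fin 2) F) (v : Fin 2 → F) : Matrix (Fin 3) (Fin 3) F :=
  !![A 0 0, A 0 1, v 0; A 1 0, A 1 1, v 1; 0, 0, 1]

theorem af_mul (A B : Matrix (Fin 2) (Fin 2) F) (v w : Fin 2 → F) : af A v * af B w = af (A * B) (A *ᵥ w + v) := by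
  ext i j
  fin_cases i <;> fin_cases j <;> simp [af, mul_apply, Fin.sum_univ_succ, mulVec, dotProduct, add_assoc]

theorem af_one : af (1 : Matrix (Fin 2) (Fin 2) F) 0 = 1 := by
  ext i j; fin_cases i <;> fin_cases j <;> simp [af]

theorem af_pow (A : Matrix (Fin 2) (Fin 2) F) (v : Fin 2 → F) (n : ℕ) :
    af A v ^ n = af (A ^ n) ((∑ i ∈ range n, A ^ i) *ᵥ v) := by
  induction n with
  | zero => simp [af_one]
  | succ n ih => rw [pow_succ, ih, af_mul, sum_range_succ, add_mulVec, pow_succ, add_comm]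

theorem det_af (A : Matrix (Fin 2) (Fin 2) F) (v : Fin 2 → F) : (af A v).det = A.det := by
  simp [af, det_fin_three, det_fin_two]

theorem exists_af [Finite F] {M : SpecialLinearGroup (Fin 3) F} (h : M ∈ Subgroup.closure {M : Matrix.SpecialLinearGroup (Fin 3) F |
    (M : Matrix (Fin 3) (Fin 3) F) 2 0 = 0 ∧ (M : Matrix (Fin 3) (Fin 3) F) 2 1 = 0 ∧ (M : Matrix (Fin 3) (Fin 3) F) 2 2 = 1}) :
    ∃ A v, SpecialLinearGroup.coeMonoidHom M = af A v := by
  induction h using Subgroup.closure_induction with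
  | mem M hM =>
    refine ⟨!![M.1 0 0, M.1 0 1; M.1 1 0, M.1 1 1], ![M.1 0 2, M.1 1 2], ?_⟩
    ext i j
    fin_cases i <;> fin_cases j <;> first | rfl | exact hM.1 | exact hM.2.1 | exact hM.2.2
  | one => exact ⟨1, 0, by rw [map_one, af_one]⟩
  | mul x y _ _ hx hy =>
    obtain ⟨A, v, hx⟩ := hx
    obtain ⟨B, w, hy⟩ := hy
    exact ⟨_, _, by rw [map_mul, hx, hy, af_mul]⟩
  | inv x _ hx =>
    obtain ⟨A, v, hx⟩ := hx
    exact ⟨_, _, by rw [inv_eq_of_mul_eq_one_right (a := x) (b := x ^ (orderOf x - 1)) (by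
      rw [← pow_succ', Nat.sub_add_cancel (orderOf_pos x), pow_orderOf_eq_one]), map_pow, hx, af_pow]⟩

end

/-- Let F be the field with four elements. The affine group F² ⋊ SL(2,F), realised as the subgroup of SL(3,F) of matrices with last row (0, 0, 1), has exactly the same set of element orders as the alternating group of degree 6 (namely {1, 2, 3, 4, 5}); so the alternating group of degree 6 is not determined by its element orders. -/
theorem result {F : Type*} [Field F] [Fintype F] (hF : Fintype.card F = 4) :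
    Set.range (orderOf : Subgroup.closure {M : Matrix.SpecialLinearGroup (Fin 3) F |
        (M : Matrix (Fin 3) (Fin 3) F) 2 0 = 0 ∧ (M : Matrix (Fin 3) (Fin 3) F) 2 1 = 0 ∧ (M : Matrix (Fin 3) (Fin 3) F) 2 2 = 1} → ℕ) =
      Set.range (orderOf : alternatingGroup (Fin 6) → ℕ) := by
  open Cfsg.Lib.Spec Cfsg.Lib.PSL2 Matrix Finset in
  haveI : CharP F 2 := charP_of_card_eq_prime_pow (f := 2) hF
  have hs := sp_sl2_even (F := F)
  rw [Nat.card_eq_fintype_card, hF] at hs
  rw [show Set.range (orderOf : alternatingGroup (Fin 6) → ℕ) = _ from sp_alt_six]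
  set L := Subgroup.closure {M : Matrix.SpecialLinearGroup (Fin 3) F |
    (M : Matrix (Fin 3) (Fin 3) F) 2 0 = 0 ∧ (M : Matrix (Fin 3) (Fin 3) F) 2 1 = 0 ∧ (M : Matrix (Fin 3) (Fin 3) F) 2 2 = 1}
  let ρ : L →* Matrix (Fin 3) (Fin 3) F := SpecialLinearGroup.coeMonoidHom.comp L.subtype
  have hρ : Function.Injective ρ := SpecialLinearGroup.coeMonoidHom_injective.comp L.subtype_injective
  have hex : ∀ (A : Matrix (Fin 2) (Fin 2) F) v, A.det = 1 → ∃ x : L, ρ x = af A v := fun A v h =>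
    ⟨⟨⟨af A v, (det_af A v).trans h⟩, Subgroup.subset_closure ⟨rfl, rfl, rfl⟩⟩, rfl⟩
  refine Set.Subset.antisymm ?_ ?_
  · rintro _ ⟨x, rfl⟩
    obtain ⟨A, v, hx⟩ : ∃ A v, ρ x = af A v := exists_af x.2
    have hA : A.det = 1 := by rw [← det_af A v, ← hx]; exact x.1.2
    let g : SpecialLinearGroup (Fin 2) F := ⟨A, hA⟩
    have hg : ∀ n, orderOf g ∣ n → A ^ n = 1 := fun n h => congrArg Subtype.val ((orderOf_dvd_iff_pow_eq_one (x := g)).1 h)
    have key : ∀ n, orderOf g ∣ n → Odd n → A ≠ 1 → orderOf x ∣ n := fun n h1 h2 h3 =>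
      orderOf_dvd_of_pow_eq_one (hρ (by
        rw [map_pow, hx, af_pow, hg n h1, sl2_geom_sum_eq_zero hA (hg n h1) h3 (by
          rw [Ne, CharP.cast_eq_zero_iff F 2]; exact h2.not_two_dvd_nat), zero_mulVec, af_one, map_one]))
    have h4 : orderOf g ∣ 2 → orderOf x ∣ 4 := fun h => orderOf_dvd_of_pow_eq_one (hρ (by
      rw [map_pow, hx, show 4 = 2 * 2 from rfl, pow_mul, af_pow, hg 2 h, af_pow, map_one, ← af_one]
      simp [sum_range_succ, add_mulVec, CharTwo.two_eq_zero]))
    have h5 : orderOf x ∣ 4 ∨ orderOf x ∣ 3 ∨ orderOf x ∣ 5 := by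
      by_cases h1 : A = 1
      · exact .inl (h4 (by rw [show g = 1 from Subtype.ext h1]; simp))
      rcases hs.subset (orderOf_mem_sp g) with h | h | h
      · exact .inl (h4 h)
      · exact .inr (.inl (key 3 h (by decide) h1))
      · exact .inr (.inr (key 5 h (by decide) h1))
    generalize orderOf x = n at h5
    rcases h5 with h | h | h <;> have := Nat.le_of_dvd (by norm_num) h <;> interval_cases n <;> simp_all
  · have h1 : ∀ n, n ∣ 3 ∨ n ∣ 5 → n ∈ sp L := fun n h => by
      obtain ⟨g, rfl⟩ := hs.superset (Or.inr h)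
      obtain ⟨x, hx⟩ := hex g.1 0 g.2
      refine mem_sp_of_dvd_orderOf x (orderOf_dvd_of_pow_eq_one (Subtype.ext ?_))
      have h2 := congrArg ρ (pow_orderOf_eq_one x)
      rw [map_pow, hx, af_pow, map_one, ← af_one] at h2
      ext i j
      fin_cases i <;> fin_cases j
      exacts [congrFun (congrFun h2 0) 0, congrFun (congrFun h2 0) 1, congrFun (congrFun h2 1) 0,
        congrFun (congrFun h2 1) 1]
    obtain ⟨x, hx⟩ := hex !![1, 1; 0, 1] ![0, 1] (by simp [det_fin_two])
    have h2 : orderOf x = 2 ^ (1 + 1) := orderOf_eq_prime_pow (fun e => by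
      have := congrFun (congrFun (congrArg ρ e) 0) 2
      rw [map_pow, hx, map_one] at this
      simp [af, sq, CharTwo.add_self_eq_zero] at this) (hρ (by
        rw [map_pow, hx, map_one]
        ext i j
        fin_cases i <;> fin_cases j <;> simp [af, pow_succ, CharTwo.add_self_eq_zero]))
    rintro n (rfl | rfl | rfl | rfl | rfl)
    exacts [one_mem_sp, mem_sp_of_dvd ⟨x, h2⟩ (by norm_num), h1 _ (by simp), ⟨x, h2⟩, h1 _ (by simp)]

end Cfsg.Agent.S3488
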