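import Cfsg.Statements.S3493
import Cfsg.Agent.Lib.Perm.Socle
import Cfsg.Agent.Lib.Perm.Prim
import Cfsg.Agent.Lib.PLocal.FPF
import Cfsg.Agent.Lib.PF.Main

set_option autoImplicit false
open Cfsg

namespace Cfsg.Agent.S3493

open MulAction Subgroup Lib.Perm Lib.Core

theorem exists_real {T : Type*} [Group T] [Finite T] [IsSimpleGroup T]
    (hT : ¬ IsMulCommutative T) : ∃ x g : T, g * x * g⁻¹ = x⁻¹ ∧ x * x ≠ 1 := by
  by_contra hc
  push Not at hc
  have he : 2 ∣ Nat.card T := by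
    by_contra h
    exact hT ⟨⟨IsSimpleGroup.comm_iff_isSolvable.2 (Lib.PF.isSolvable_of_odd T
      (Nat.odd_iff.2 (by omega)))⟩⟩
  obtain ⟨t, ht⟩ := exists_prime_orderOf_dvd_card' 2 he
  have h2 : ∀ s t : T, s * s = 1 → t * t = 1 → s * t = t * s := fun s t hs ht => by
    have := hc _ _ (Lib.Inv.pair_left_inv hs ht)
    rw [← Lib.Inv.inv_eq_of_mul_self this, mul_inv_rev, Lib.Inv.inv_eq_of_mul_self hs,
      Lib.Inv.inv_eq_of_mul_self ht]
  let K : Subgroup T :=
    { carrier := {s | s * s = 1}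
      one_mem' := mul_one 1
      mul_mem' := fun {a b} ha hb => hc _ _ (Lib.Inv.pair_left_inv ha hb)
      inv_mem' := fun {a} ha => by rwa [Lib.Inv.inv_eq_of_mul_self ha] }
  have hK : K.Normal := ⟨fun a ha g => by
    change _ * _ = 1
    rw [show g * a * g⁻¹ * (g * a * g⁻¹) = g * (a * a) * g⁻¹ by group, ha]; simp⟩
  rcases hK.eq_bot_or_eq_top with h | h
  · exact Lib.Inv.ne_one_of_orderOf ht (mem_bot.1 (h.le (Lib.Inv.mul_self_of_orderOf ht)))
  · exact hT ⟨⟨fun a b => h2 a b (h.ge (mem_top a)) (h.ge (mem_top b))⟩⟩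

theorem exists_two_orders {T : Type*} [Group T] [Finite T] [IsSimpleGroup T]
    (hT : ¬ IsMulCommutative T) :
    ∃ (x y : T) (p q : ℕ), x ^ p = 1 ∧ y ^ q = 1 ∧ x ^ q ≠ 1 ∧ y ^ p ≠ 1 := by
  obtain ⟨p, hp, hd⟩ := Nat.exists_prime_and_dvd (Finite.one_lt_card (α := T)).ne'
  have := Fact.mk hp
  obtain ⟨q, hq, hqd, hne⟩ : ∃ q : ℕ, q.Prime ∧ q ∣ Nat.card T ∧ q ≠ p := by
    by_contra hc
    push Not at hc
    have := (IsPGroup.of_card (Nat.eq_prime_pow_of_unique_prime_dvd Nat.card_pos.ne'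
      (hc _))).isNilpotent
    exact hT ⟨⟨IsSimpleGroup.comm_iff_isSolvable.2 inferInstance⟩⟩
  have := Fact.mk hq
  obtain ⟨x, hx⟩ := exists_prime_orderOf_dvd_card' p hd
  obtain ⟨y, hy⟩ := exists_prime_orderOf_dvd_card' q hqd
  refine ⟨x, y, p, q, hx ▸ pow_orderOf_eq_one x, hy ▸ pow_orderOf_eq_one y, ?_, ?_⟩
  · rw [ne_eq, ← orderOf_dvd_iff_pow_eq_one, hx, Nat.prime_dvd_prime_iff_eq hp hq]; exact hne.symm
  · rwa [ne_eq, ← orderOf_dvd_iff_pow_eq_one, hy, Nat.prime_dvd_prime_iff_eq hq hp]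

section
variable {G Ω : Type*} [Group G] [MulAction G Ω] [Finite G] [FaithfulSMul G Ω] [IsPreprimitive G Ω]
  (hep : ∀ a w : Ω, IsPreprimitive (stabilizer G a) (orbit (stabilizer G a) w)) {a b : Ω}
  (hH : stabilizer G a ≠ ⊥) (hb : b ≠ a)
include hep hH hb

omit [Finite G] hep in
theorem exists_ne' : ∃ c : orbit (stabilizer G a) b, ⟨b, mem_orbit_self b⟩ ≠ c := by
  obtain ⟨h, h1, h2⟩ := SetLike.not_le_iff_exists.1 (not_stabilizer_le hH hb.symm)
  exact ⟨⟨h • b, ⟨h, h1⟩, rfl⟩, fun e => h2 (congrArg Subtype.val e).symm⟩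

omit [Finite G] in
theorem max {K : Subgroup G} (h1 : ∀ h : G, h • a = a → h • b = b → h ∈ K)
    (h2 : ¬ stabilizer G a ≤ K) : ∀ h ∈ K, h • a = a → h • b = b := by
  have := hep a b
  obtain ⟨c, hc⟩ := exists_ne' hH hb
  intro h hK ha
  rcases (isCoatom_stabilizer (G := stabilizer G a) hc).le_iff.1
    (show _ ≤ K.subgroupOf _ from fun g hg => h1 g g.2 (congrArg Subtype.val hg)) with e | e
  · exact absurd (subgroupOf_eq_top.1 e) h2
  · exact congrArg Subtype.val (e.le (show ⟨h, ha⟩ ∈ K.subgroupOf (stabilizer G a) from hK))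

theorem prime_of_bot (h : ∀ h : G, h • a = a → h • b = b → h = 1) :
    (Nat.card (stabilizer G a)).Prime := by
  have := hep a b
  obtain ⟨c, hc⟩ := exists_ne' hH hb
  exact card_prime_of_stabilizer_eq_bot hc (eq_bot_iff.2 fun g hg =>
    Subtype.ext (h g g.2 (congrArg Subtype.val hg)))

theorem prime_of_le {l : G} (hl : l • a = a) (hlb : l • b ≠ b)
    (h : ∀ h : G, h • a = a → h • b = b → h • l • b = l • b) :
    (Nat.card (stabilizer G a)).Prime := by
  have := hep a b
  have := extPrim_faithfulSMul hep hb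
  refine prime_of_bot hep hH hb fun g h1 h2 => ?_
  by_contra hg
  refine not_stabilizer_le (G := stabilizer G a) (Ω := orbit (stabilizer G a) b)
    (a := ⟨b, mem_orbit_self b⟩) (b := ⟨l • b, ⟨l, hl⟩, rfl⟩) (fun e => hg ?_)
    (fun e => hlb (congrArg Subtype.val e).symm) fun k hk =>
      Subtype.ext (h k k.2 (congrArg Subtype.val hk))
  exact congrArg Subtype.val (mem_bot.1 (e.le (show ⟨g, h1⟩ ∈ _ from Subtype.ext h2)))

end

/-- An extremely primitive permutation group is of affine type or almost simple. Let a finite group G act faithfully and primitively on a finite set Ω with at least two points, in such a way that every point stabilizer acts primitively on each of its own orbits in Ω (an orbit of size one counts as primitive). Then either G has a non-trivial abelian normal subgroup whose elements other than the identity fix no point (affine type), or G has a non-abelian simple normal subgroup with trivial centralizer (almost simple). -/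
theorem result {G : Type*} [Group G] [Finite G] {Ω : Type*} [Fintype Ω] [MulAction G Ω] [FaithfulSMul G Ω] (hΩ : 2 ≤ Fintype.card Ω) (hprim : MulAction.IsPreprimitive G Ω) (hep : ∀ (α : Ω) (ω : Ω), MulAction.IsPreprimitive (MulAction.stabilizer G α) (MulAction.orbit (MulAction.stabilizer G α) ω)) :
    (∃ N : Subgroup G, N.Normal ∧ N ≠ ⊥ ∧ IsMulCommutative N ∧ ∀ ω : Ω, MulAction.stabilizer N ω = ⊥) ∨ (∃ T : Subgroup G, T.Normal ∧ IsSimpleGroup T ∧ ¬ IsMulCommutative T ∧ Subgroup.centralizer (T : Set G) = ⊥) := by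
  classical
  have : Nontrivial Ω := Fintype.one_lt_card_iff_nontrivial.1 hΩ
  obtain ⟨a, b, hab⟩ := exists_pair_ne Ω
  have : Nontrivial G := by
    obtain ⟨g, hg⟩ := exists_smul_eq G a b
    exact ⟨g, 1, fun e => hab (by rw [← hg, e, one_smul])⟩
  obtain ⟨N, hN⟩ := exists_isMinNormal (G := G)
  have hNn := hN.normal
  have ht := isPretransitive_of_normal (α := Ω) N hN.ne_bot
  by_cases hs : IsMulCommutative N
  · exact Or.inl ⟨N, hNn, hN.ne_bot, hs, stabilizer_eq_bot_of_comm ht⟩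
  right
  obtain ⟨T, _, hT, m, hm, ⟨e⟩⟩ := IsMinNormal.exists_equiv_pi hN
  have hTc : ¬ IsMulCommutative T := fun h =>
    have := isMulCommutative_pi (ι := Fin m) (T := T)
    hs ⟨⟨fun a b => e.injective (by rw [map_mul, map_mul, mul_comm'])⟩⟩
  have : Finite (Fin m → T) := Finite.of_equiv _ e.toEquiv
  have : Finite T := Finite.of_injective (fun t : T => fun _ : Fin m => t) fun a b h =>
    congrFun h ⟨0, hm⟩
  have hH : stabilizer G a ≠ ⊥ := fun h =>
    have := Fact.mk (card_prime_of_stabilizer_eq_bot hab h)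
    have := (isCyclic_of_prime_card (α := G) rfl).isMulCommutative
    hs inferInstance
  by_contra hcon
  have hcon' : m = 1 → centralizer (N : Set G) ≠ ⊥ := by
    rintro rfl h
    exact hcon ⟨N, hNn, (e.trans (MulEquiv.piUnique _)).isSimpleGroup, hs, h⟩
  let ι : Fin m → T →* G := fun i =>
    N.subtype.comp (e.symm.toMonoidHom.comp (MonoidHom.mulSingle (fun _ => T) i))
  have hι : ∀ i t, ι i t = e.symm (Pi.mulSingle i t) := fun _ _ => rfl
  have ιN : ∀ i t, ι i t ∈ N := fun i t => (e.symm _).2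
  have ιeq : ∀ {i j s t}, ι i s = ι j t → Pi.mulSingle i s = (Pi.mulSingle j t : Fin m → T) :=
    fun h => e.symm.injective (Subtype.ext h)
  have ιinj : ∀ {i t}, ι i t = 1 → t = 1 := fun {i t} h => by
    simpa using congrFun (ιeq (h.trans (map_one (ι i)).symm)) i
  have ιcomm : ∀ (n : N) i t, e n i = 1 → (n : G) * ι i t = ι i t * n := by
    intro n i t h
    rw [hι, ← coe_mul, ← coe_mul, Subtype.coe_inj, ← e.apply_eq_iff_eq, map_mul, map_mul,
      e.apply_symm_apply]
    ext j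
    by_cases hj : j = i
    · subst hj; simp [h]
    · simp [hj]
  have ιconj : ∀ (n : N) i t, n * ι i t * (n : G)⁻¹ = ι i (e n i * t * (e n i)⁻¹) := by
    intro n i t
    rw [hι, hι, ← coe_inv, ← coe_mul, ← coe_mul, Subtype.coe_inj, ← e.apply_eq_iff_eq, map_mul,
      map_mul, e.apply_symm_apply, e.apply_symm_apply, map_inv]
    ext j
    by_cases hj : j = i
    · subst hj; simp
    · simp [hj]
  have hτ : ∀ (g : G) j, ∃ i, ∀ n : N, e (MulAut.conjNormal g n) j = 1 ↔ e n i = 1 := by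
    intro g j
    obtain ⟨i, hi⟩ := exists_eq_proj_of_surjective hTc ((Pi.evalMonoidHom (fun _ => T) j).comp
      (e.symm.trans ((MulAut.conjNormal g).trans e)).toMonoidHom)
      ((Function.surjective_eval j).comp
        (e.symm.trans ((MulAut.conjNormal g).trans e)).surjective)
    exact ⟨i, fun n => by simpa using hi (e n)⟩
  choose τ hτ using hτ
  obtain ⟨t₀, ht₀⟩ := exists_ne (1 : T)
  have hmove : ∀ (g : G) i, ∃ j, ∀ t, ∃ s, g * ι i t * g⁻¹ = ι j s := by
    intro g i
    have hinj : Function.Injective (τ g) := fun j k h => by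
      by_contra hne
      have := (hτ g j ((MulAut.conjNormal g).symm (e.symm (Pi.mulSingle k t₀)))).1 (by simp [hne])
      rw [h, ← hτ] at this
      exact ht₀ (by simpa using this)
    obtain ⟨j, rfl⟩ := Finite.injective_iff_surjective.1 hinj i
    refine ⟨j, fun t => ⟨e (MulAut.conjNormal g (e.symm (Pi.mulSingle (τ g j) t))) j, ?_⟩⟩
    rw [hι, hι, ← MulAut.conjNormal_apply, Subtype.coe_inj, ← e.apply_eq_iff_eq,
      e.apply_symm_apply]
    ext k
    by_cases hk : k = j
    · subst hk; simp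
    · rw [(hτ g k _).2 (by simp [hinj.ne hk])]; simp [hk]
  have hgen : ∀ K : Subgroup G, (∀ i t, ι i t ∈ K) → N ≤ K := fun K h n hn => by
    have := mem_of_forall_mulSingle_mem (N := (K.subgroupOf N).comap e.symm.toMonoidHom)
      (x := e ⟨n, hn⟩) fun i => h i _
    simpa [mem_subgroupOf] using this
  have key : ∀ i, (∀ t, ι i t • a = a → t = 1) → (∀ g, ∃ l : G, l • a = a ∧
      ∀ t, l * ι i t * l⁻¹ = ι i (g * t * g⁻¹)) → (Nat.card (stabilizer G a)).Prime := by
    intro i h1 h2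
    obtain ⟨x, g, hx, hx2⟩ := exists_real hTc
    obtain ⟨l, hl, hl'⟩ := h2 g
    have hlb : l • ι i x • a = (ι i x)⁻¹ • a := by
      rw [smul_smul_of_fix hl, hl', hx, map_inv]
    refine prime_of_le hep hH (b := ι i x • a) (fun h => hx2 (by rw [h1 x h, mul_one])) hl
      (fun h => hx2 (h1 _ (by rw [map_mul, mul_smul, ← h, hlb, smul_inv_smul]))) fun h ha hb => ?_
    obtain ⟨j, hj⟩ := hmove h i
    obtain ⟨s, hs⟩ := hj x
    rw [smul_smul_of_fix ha, hs] at hb
    have hc : Commute (ι i x) (ι j s) := by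
      by_cases hij : j = i
      · subst hij
        have := h1 (x⁻¹ * s) (by rw [map_mul, mul_smul, hb, map_inv, inv_smul_smul])
        rw [inv_mul_eq_one.1 this]
      · exact ιcomm (e.symm _) j s (by simp [hij])
    rw [hlb, smul_smul_of_fix ha, ← conj_inv, hs, inv_smul_eq_iff, ← mul_smul,
      ← hc.inv_left.eq, mul_smul, hb, inv_smul_smul]
  by_cases hreg : ∀ w : Ω, stabilizer N w = ⊥
  · have h1 : ∀ i t, ι i t • a = a → t = 1 := fun i t h => ιinj (eq_one_of_regular hreg (ιN i t) h)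
    suffices hp : (Nat.card (stabilizer G a)).Prime by
      have := Lib.PLocal.isNilpotent_of_fpf_prime (K := N) le_normalizer_of_normal hp
        (eq_bot_iff.2 fun n hn => by
          by_contra hn1
          refine not_stabilizer_le hH (b := n • a)
            (fun e => hn1 (eq_one_of_regular hreg hn.1 e.symm)) fun h hh => ?_
          rw [mem_stabilizer_iff, ← mul_smul, hn.2 h hh, mul_smul, hh])
      exact hs (hN.isMulCommutative inferInstance)
    obtain rfl | hm2 := hm.eq_or_lt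
    · refine key 0 (h1 0) fun g => ?_
      obtain ⟨⟨c, hc⟩, hca⟩ := (isPretransitive_of_normal (α := Ω) _ (hcon' rfl)).exists_smul_eq
        (ι 0 g • a) a
      refine ⟨c * ι 0 g, by rw [mul_smul]; exact hca, fun t => ?_⟩
      rw [map_mul, map_mul, map_inv, mul_inv_rev, ← hc _ (ιN 0 g), ← mul_assoc, mul_assoc _ c,
        ← hc _ (ιN 0 t), mul_assoc, mul_assoc, mul_assoc, ← mul_assoc c, ← hc _ (inv_mem (ιN 0 g)),
        mul_inv_cancel_right, mul_assoc]
    have : Nontrivial (Fin m) := Fin.nontrivial_iff_two_le.2 hm2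
    have hfix := fun {k n : G} => smul_fix_iff (N := N) hreg (a := a) (k := k) (n := n)
    have hD1 : ∀ i t, t ≠ 1 → ∀ h : G, h * ι i t = ι i t * h →
        h ∈ normalizer ((ι i).range : Set G) := by
      intro i t ht h hh
      obtain ⟨j, hj⟩ := hmove h i
      obtain ⟨s, hs⟩ := hj t
      rw [hh, mul_inv_cancel_right] at hs
      obtain rfl : j = i := by
        by_contra hne
        exact ht (by simpa [Ne.symm hne] using congrFun (ιeq hs) i)
      refine mem_normalizer_fintype ?_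
      rintro _ ⟨t, rfl⟩
      obtain ⟨s, hs⟩ := hj t
      exact ⟨s, hs.symm⟩
    have hD2 : ∀ i, ¬ stabilizer G a ≤ normalizer ((ι i).range : Set G) := by
      intro i hle
      have hn : (ι i).range.Normal := ⟨by
        rintro _ ⟨t, rfl⟩ g
        obtain ⟨n, hn, k, hk, rfl⟩ := exists_mul_stabilizer ht a g
        obtain ⟨s, hs⟩ := (mem_normalizer_iff.1 (hle hk) _).1 ⟨t, rfl⟩
        exact ⟨_, (ιconj ⟨n, hn⟩ i s).symm.trans (by rw [hs]; simp [mul_assoc])⟩⟩
      obtain ⟨j, hj⟩ := exists_ne i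
      obtain ⟨s, hs⟩ := (hN.eq_of_le hn (fun h => ht₀ (ιinj (mem_bot.1 (h.le ⟨t₀, rfl⟩))))
        (by rintro _ ⟨t, rfl⟩; exact ιN i t)).ge (ιN j t₀)
      exact ht₀ (by simpa [hj] using (congrFun (ιeq hs) j).symm)
    have hD3 : ∀ i, ∀ h ∈ normalizer ((ι i).range : Set G), h • a = a →
        ∀ t, h * ι i t = ι i t * h := by
      intro i h hh ha t
      by_cases ht : t = 1
      · simp [ht]
      exact (hfix ha (ιN i t)).1 (max hep hH (fun e => ht (h1 i t e))
        (fun k k1 k2 => hD1 i t ht k ((hfix k1 (ιN i t)).1 k2)) (hD2 i) h hh ha)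
    obtain ⟨x, y, p, q, hxp, hyq, hxq, hyp⟩ := exists_two_orders hTc
    refine prime_of_bot hep hH (b := ι ⟨0, hm⟩ t₀ • a) (fun e => ht₀ (h1 _ _ e)) fun h ha hb => ?_
    have h0 := hD1 _ _ ht₀ h ((hfix ha (ιN _ _)).1 hb)
    refine eq_one_of_centralizes ht (fun n hn => (hgen (centralizer {h}) (fun j => ?_) hn h rfl).symm) ha
    suffices h ∈ normalizer ((ι j).range : Set G) from fun t => by
      exact mem_centralizer_singleton_iff.2 (hD3 j h this ha t).symm
    generalize (⟨0, hm⟩ : Fin m) = i at h0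
    by_cases hij : j = i
    · exact hij ▸ h0
    have hc : Commute (ι i x) (ι j y) := ιcomm (e.symm _) j y (by simp [hij])
    have hz := mul_mem (ιN i x) (ιN j y)
    have e1 : (ι i x * ι j y) ^ q = ι i (x ^ q) := by
      rw [hc.mul_pow, ← map_pow, ← map_pow, hyq, map_one, mul_one]
    have e2 : (ι i x * ι j y) ^ p = ι j (y ^ p) := by
      rw [hc.mul_pow, ← map_pow, ← map_pow, hxp, map_one, one_mul]
    refine hD1 j _ hyp h (e2 ▸ (Commute.pow_right ((hfix ha hz).1 (max hep hH (fun e => hxq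
      (ιinj (by rw [← e1, eq_one_of_regular hreg hz e, one_pow]))) (fun k k1 k2 => hD1 i _ hxq k
        (e1 ▸ (Commute.pow_right ((hfix k1 hz).1 k2) q).eq)) (hD2 i) h h0 ha)) p).eq)
  push Not at hreg
  obtain ⟨w, hw⟩ := hreg
  replace hw := stabilizer_ne_bot hw a
  have hC : centralizer (N : Set G) = ⊥ := by
    by_contra h
    exact hw (stabilizer_eq_bot_of_le_centralizer (isPretransitive_of_normal (α := Ω) _ h)
      (le_centralizer_iff.1 le_rfl) a)
  have : Nontrivial (Fin m) := Fin.nontrivial_iff_two_le.2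
    (hm.lt_of_ne fun h => hcon' h.symm hC)
  have hA : ∀ j (l : N), l • a = a → e l j = 1 → l = 1 := by
    intro j l hl hlj
    obtain ⟨x, hx⟩ : ∃ x, ι j x • a ≠ a := by
      by_contra hc
      push Not at hc
      refine ht₀ (ιinj (i := j) (eq_of_smul_eq_smul (α := Ω) fun y => ?_))
      obtain ⟨n, rfl⟩ := exists_smul_eq N a y
      have := hc ((e n⁻¹ j) * t₀ * (e n⁻¹ j)⁻¹)
      rw [← ιconj, mul_smul, mul_smul, coe_inv, inv_inv, inv_smul_eq_iff] at this
      rw [one_smul]; exact this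
    refine Subtype.ext (extPrim_faithful hep hx hl fun y hy => ?_)
    rw [← extPrim_orbit_eq hep (M := N ⊓ stabilizer G a) (fun h => hw (eq_bot_iff.2 fun n hn =>
      Subtype.ext (mem_bot.1 (h.le ⟨n.2, hn⟩)))) inf_le_right
      (Lib.Coprime.le_normalizer_inf le_normalizer_of_normal le_normalizer)] at hy
    obtain ⟨⟨k, hk, hka⟩, rfl⟩ := hy
    have := ιcomm ((⟨k, hk⟩ : N)⁻¹ * l * ⟨k, hk⟩) j x (by simp [hlj])
    have h2 := congrArg (· • a) this
    simp only [mul_smul, coe_mul, coe_inv, show k • a = a from hka, show (l : G) • a = a from hl,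
      inv_smul_eq_iff.2 (show a = k • a from hka.symm), inv_smul_eq_iff] at h2
    exact h2
  have h1 : ∀ i t, ι i t • a = a → t = 1 := fun i t h => by
    obtain ⟨j, hj⟩ := exists_ne i
    exact ιinj (congrArg Subtype.val (hA j (e.symm _) h (by simp [hj])))
  have hB : ∀ i t, ∃ l : N, l • a = a ∧ e l i = t := by
    let R : Fin m → Subgroup T := fun i =>
      (stabilizer N a).map ((Pi.evalMonoidHom (fun _ => T) i).comp e.toMonoidHom)
    let X : Subgroup G := ((pi Set.univ R).comap e.toMonoidHom).map N.subtype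
    have hX : ∀ n : N, (n : G) ∈ X ↔ ∀ i, ∃ l : N, l • a = a ∧ e l i = e n i := fun n =>
      (mem_map_iff_mem (f := N.subtype) N.subtype_injective).trans (by simp [R, mem_pi])
    have hn : stabilizer G a ≤ normalizer (X : Set G) := by
      rw [le_normalizer_iff]
      rintro h hh _ ⟨n, hn, rfl⟩
      refine (hX (MulAut.conjNormal h n)).2 fun j => ?_
      obtain ⟨l, hl, e1⟩ := (hX n).1 ⟨n, hn, rfl⟩ (τ h j)
      refine ⟨MulAut.conjNormal h l, ?_, ?_⟩
      · change (h * l * h⁻¹) • a = a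
        rw [← smul_smul_of_fix hh, show (l : G) • a = a from hl, hh]
      · simpa [inv_mul_eq_one] using (hτ h j (l⁻¹ * n)).2 (by simp [e1])
    rcases (isCoatom_stabilizer (G := G) hab).le_iff.1 (le_sup_right (a := X)) with h | h
    · intro i t
      obtain ⟨y, hy, z, hz, hyz⟩ := (mem_sup_of_le_normalizer_left hn).1 (h ▸ mem_top (ι i t))
      obtain ⟨y, hy', rfl⟩ := hy
      obtain ⟨l, hl, e1⟩ := (hX y).1 ⟨y, hy', rfl⟩ i
      have hz' : z = (y⁻¹ * e.symm (Pi.mulSingle i t) : N) := eq_inv_mul_iff_mul_eq.2 hyz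
      refine ⟨l * (y⁻¹ * e.symm (Pi.mulSingle i t)), ?_, by simp [e1]⟩
      rw [mul_smul, show (y⁻¹ * e.symm (Pi.mulSingle i t)) • a = a from by
        rw [hz'] at hz; exact hz, hl]
    · refine absurd (eq_bot_iff.2 fun l hl => hA ⟨0, hm⟩ l hl (h1 ⟨0, hm⟩ _
        (h.le (mem_sup_left ((hX _).2 fun i => ?_))))) hw
      by_cases hi : i = ⟨0, hm⟩
      · exact ⟨l, hl, by simp [hi]⟩
      · exact ⟨1, one_smul _ _, by simp [hi]⟩
  have := Fact.mk (key ⟨0, hm⟩ (h1 _) fun g => by
    obtain ⟨l, hl, rfl⟩ := hB ⟨0, hm⟩ g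
    exact ⟨l, hl, ιconj l _⟩)
  have := (isCyclic_of_prime_card (α := stabilizer G a) rfl).isMulCommutative
  refine hTc ⟨⟨fun s t => ?_⟩⟩
  obtain ⟨k, hk, rfl⟩ := hB ⟨0, hm⟩ s
  obtain ⟨l, hl, rfl⟩ := hB ⟨0, hm⟩ t
  rw [← Pi.mul_apply, ← Pi.mul_apply, ← map_mul, ← map_mul, show k * l = l * k from
    Subtype.ext (setLike_mul_comm (s := stabilizer G a) hk hl)]

end Cfsg.Agent.S3493
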