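import Cfsg.Statements.S3496
import Cfsg.Agent.Lib.Perm.Prim
import Cfsg.Agent.Lib.Perm.PrimeDegree
import Cfsg.Agent.Lib.Misc.Derangement

set_option autoImplicit false
open Cfsg

namespace Cfsg.Agent.S3496

open MulAction Subgroup Cfsg.Lib.Perm Cfsg.Lib Cfsg.Lib.Core

theorem isCyclic_ringAut {F : Type*} [Field F] [Finite F] {p : ℕ} [Fact p.Prime] [CharP F p] :
    IsCyclic (F ≃+* F) := by
  letI : Algebra (ZMod p) F := ZMod.algebra F p
  let φ : (F ≃ₐ[ZMod p] F) →* (F ≃+* F) := MonoidHom.mk' (fun σ => σ.toRingEquiv) fun _ _ => rfl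
  exact isCyclic_of_surjective φ fun σ => ⟨AlgEquiv.ofRingEquiv (f := σ) fun x => by
    simpa using RingHom.congr_fun (Subsingleton.elim ((σ : F →+* F).comp (algebraMap (ZMod p) F))
      (algebraMap (ZMod p) F)) x, rfl⟩

/-- The soluble extremely primitive groups. Let a finite solvable group G act faithfully and primitively on a finite set Ω with p ^ d points (p prime), with non-trivial point stabilizers each acting primitively on every one of its orbits. Then there is a prime q such that every orbit of a point stabilizer G_α other than {α} has exactly q points, q divides p ^ d − 1 but no p ^ i − 1 with 0 < i < d, and G_α has a normal subgroup T of order q with G_α generated by T and one further element and the order of G_α dividing q·d (so G_α is cyclic of order q, or an extension of T by a cyclic group of order dividing d). -/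
theorem result {G : Type*} [Group G] [Finite G] {Ω : Type*} [Fintype Ω] [MulAction G Ω] [FaithfulSMul G Ω] [Group.IsSolvable G] (p d : ℕ) (hp : p.Prime) (hcard : Fintype.card Ω = p ^ d)
    (hprim : MulAction.IsPreprimitive G Ω) (hH : ∀ α : Ω, MulAction.stabilizer G α ≠ ⊥) (hep : ∀ (α : Ω) (ω : Ω), MulAction.IsPreprimitive (MulAction.stabilizer G α) (MulAction.orbit (MulAction.stabilizer G α) ω)) (α : Ω) :
    ∃ q : ℕ, q.Prime ∧ (∀ ω : Ω, ω ≠ α → Nat.card (MulAction.orbit (MulAction.stabilizer G α) ω) = q) ∧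
      q ∣ p ^ d - 1 ∧ (∀ i : ℕ, 0 < i → i < d → ¬ q ∣ p ^ i - 1) ∧
      ∃ T : Subgroup G, T ≤ MulAction.stabilizer G α ∧ MulAction.stabilizer G α ≤ Subgroup.normalizer (T : Set G) ∧ Nat.card T = q ∧
        (∃ h : G, MulAction.stabilizer G α = T ⊔ Subgroup.zpowers h) ∧ Nat.card (MulAction.stabilizer G α) ∣ q * d := by
  have := Fact.mk hp
  rw [← Nat.card_eq_fintype_card] at hcard
  have : Nonempty Ω := ⟨α⟩
  obtain ⟨g, hg, hg1⟩ := (bot_or_exists_ne_one _).resolve_left (hH α)
  have : Nontrivial G := ⟨g, 1, hg1⟩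
  obtain ⟨N, r, hN, -, hNe⟩ := exists_isMinNormal_elementary (G := G)
  have := hN.normal
  have := hNe.1
  have hNt := isPretransitive_of_normal (α := Ω) N hN.ne_bot
  have hNr := stabilizer_eq_bot_of_comm hNt
  obtain ⟨T, hT, hTn, hT0, hTm⟩ := exists_minimal_invariant_le (le_normalizer (H := stabilizer G α)) (hH α)
  obtain ⟨q, hq, hTc, hTq⟩ := isElementaryAbelian_of_minimal_invariant hTn hT0 inferInstance hTm
  have horb := extPrim_orbit_eq hep hT0 hT hTn
  have hreg : ∀ w, w ≠ α → ∀ t ∈ T, t • w = w → t = 1 := fun w hw t ht e =>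
    extPrim_faithful hep hw (hT ht) fun x hx => by
      obtain ⟨u, rfl⟩ := (horb w).ge hx
      exact (mul_smul _ _ _).symm.trans (by
        rw [setLike_mul_comm ht u.2, mul_smul, e]; rfl)
  obtain ⟨n, hn, hn1⟩ := N.bot_or_exists_ne_one.resolve_left hN.ne_bot
  obtain ⟨F, _, _, f, ψ, hc, hf⟩ := exists_fieldCoord (V := N) (A := T) hNe.1 le_normalizer_of_normal
    ((commutator_eq_bot_iff_le_centralizer.2 (le_centralizer_iff_isMulCommutative.2 hTc)).le.trans bot_le)
    (fun W hW hA => extPrim_irreducible hep hNr hT0 hT hTn hW hA) hn hn1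
  have hna : n • α ≠ α := fun e => hn1 (eq_one_of_regular hNr hn e)
  have hinj : Function.Injective hc.psiHom := (injective_iff_map_eq_one _).2 fun t ht =>
    Subtype.ext (hreg _ hna t t.2 ((smul_fix_iff hNr (hT t.2) hn).2
      (((hc.psi_eq_one_iff t.2).1 (congrArg Units.val ht)) n hn).symm))
  have hcyc : IsCyclic T := isCyclic_of_injective _ hinj
  have hTcard : Nat.card T = q := by
    rw [← hcyc.exponent_eq_card]
    have : Nontrivial T := (nontrivial_iff_ne_bot T).2 hT0
    have := Fact.mk hq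
    exact (Monoid.exponent_eq_prime_iff hq).2 fun t ht =>
      orderOf_eq_prime (Subtype.ext (hTq t t.2)) ht
  have hsz : ∀ w, w ≠ α → (orbit (stabilizer G α) w).ncard = q := fun w hw => by
    have := ncard_orbit_mul (A := T) w
    rwa [show stabilizer T w = ⊥ from eq_bot_iff.2 fun t ht => Subtype.ext (hreg w hw t t.2 ht),
      card_bot, mul_one, horb, hTcard] at this
  have hF : Nat.card F = p ^ d := hc.card_eq.trans ((card_eq_of_regular hNt hNr).trans hcard)
  have hch : CharP F p := charP_of_card_eq_prime_pow (Nat.card_eq_fintype_card.symm.trans hF)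
  obtain ⟨e, he⟩ := hc.exists_equiv hNt hNr α
  have hb1 : e.symm 1 = n • α := by rw [e.symm_apply_eq, he n hn, hf]
  obtain ⟨φ, hφ, -⟩ := hc.card_dvd_card_aut hNt he (H := stabilizer G α ⊓ stabilizer G (n • α))
    (fun k hk => ⟨hk.1, hb1 ▸ hk.2⟩) (inf_le_left.trans hTn)
  have := isCyclic_ringAut (F := F) (p := p)
  obtain ⟨h, hh⟩ := (isCyclic_iff_exists_zpowers_eq_top.1 (isCyclic_of_injective φ hφ))
  refine ⟨q, hq, hsz, ?_, fun i hi hid hqi => ?_, T, hT, hTn, hTcard, ⟨h, ?_⟩, ?_⟩
  · rw [← hcard]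
    exact Misc.dvd_card_sub_one_of_orbits (G := stabilizer G α) α (fun g => g.2)
      fun b hb => (hsz b hb).symm.dvd
  · have h1 : ∀ x : F, x ^ p ^ i = x := fun x => by
      have : Subring.closure (ψ '' T) ≤ (iterateFrobenius F p i).eqLocus (RingHom.id F) :=
        Subring.closure_le.2 (by
          rintro _ ⟨t, ht, rfl⟩
          obtain ⟨c, hc'⟩ := hqi
          change ψ t ^ p ^ i = ψ t
          rw [← Nat.sub_add_cancel (Nat.one_le_pow i p hp.pos), hc', pow_succ, pow_mul,
            ← hc.psi_pow ht, hTq t ht, hc.psi_one, one_pow, one_mul])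
      exact this (hc.gen ▸ Subring.mem_top x)
    obtain ⟨x, hx⟩ := IsCyclic.exists_ofOrder_eq_natCard (α := Fˣ)
    have h2 : orderOf x ∣ p ^ i - 1 := orderOf_dvd_of_pow_eq_one (mul_right_cancel (b := x) (by
      rw [← pow_succ, Nat.sub_add_cancel (Nat.one_le_pow i p hp.pos), one_mul]
      exact Units.ext (h1 x)))
    rw [hx, Nat.card_units, hF] at h2
    have h3 := Nat.le_of_dvd (Nat.sub_pos_of_lt (Nat.one_lt_pow hi.ne' hp.one_lt)) h2
    have h4 := Nat.pow_lt_pow_right hp.one_lt hid
    have := Nat.one_le_pow i p hp.pos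
    omega
  · refine le_antisymm (fun k hk => ?_) (sup_le hT (zpowers_le.2 h.2.1))
    obtain ⟨t, ht⟩ := (horb (n • α)).ge ⟨⟨k, hk⟩, rfl⟩
    have h1 : (t : G)⁻¹ * k ∈ stabilizer G α ⊓ stabilizer G (n • α) :=
      mem_inf.2 ⟨mul_mem (inv_mem (hT t.2)) hk, by
        rw [mem_stabilizer_iff, mul_smul, inv_smul_eq_iff]; exact ht.symm⟩
    obtain ⟨j, hj⟩ := hh.ge (mem_top ⟨_, h1⟩)
    rw [← mul_inv_cancel_left (t : G) k]
    exact mul_mem (mem_sup_left t.2) (mem_sup_right ⟨j, congrArg Subtype.val hj⟩)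
  · have h1 := card_dvd_of_injective φ hφ
    rw [card_ringAut hF] at h1
    rw [← card_inf_mul_relIndex (stabilizer G (n • α)), ← ncard_orbit_subgroup, hsz _ hna, mul_comm,
      inf_comm]
    exact mul_dvd_mul_left q h1

end Cfsg.Agent.S3496
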