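import Cfsg.Statements.S3497
import Cfsg.Agent.Lib.Perm.Prim
import Cfsg.Agent.Lib.Perm.PrimeDegree
import Cfsg.Agent.Lib.Misc.Derangement
import Cfsg.Agent.Lib.PGroup.SectionRep

set_option autoImplicit false
open Cfsg

namespace Cfsg.Agent.S3497

open MulAction Subgroup Cfsg.Lib.Perm Cfsg.Lib Cfsg.Lib.Core

/-- Restrictions on the point stabilizer of an extremely primitive group. Let a finite group G act faithfully and primitively on a finite set Ω with point stabilizers H = G_α whose order is neither 1 nor a prime, each acting primitively on every one of its orbits. Then H has trivial center, the Fitting subgroup F(H) is an elementary abelian p-group for some prime p, and if F(H) ≠ 1 has order p ^ e then p ^ e divides the number of points minus one and H / F(H) embeds in GL_e(p) (there is a homomorphism from H to GL_e(p) with kernel exactly F(H)). -/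
theorem result {G : Type*} [Group G] [Finite G] {Ω : Type*} [Fintype Ω] [MulAction G Ω] [FaithfulSMul G Ω] (hprim : MulAction.IsPreprimitive G Ω) (hep : ∀ (α : Ω) (ω : Ω), MulAction.IsPreprimitive (MulAction.stabilizer G α) (MulAction.orbit (MulAction.stabilizer G α) ω)) (α : Ω)
    (hH1 : MulAction.stabilizer G α ≠ ⊥) (hHp : ¬ (Nat.card (MulAction.stabilizer G α)).Prime) :
    Subgroup.center (MulAction.stabilizer G α) = ⊥ ∧
    IsMulCommutative (Cfsg.fittingSubgroup (MulAction.stabilizer G α)) ∧
    ∃ p e : ℕ, p.Prime ∧ Nat.card (Cfsg.fittingSubgroup (MulAction.stabilizer G α)) = p ^ e ∧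
      (∀ x ∈ Cfsg.fittingSubgroup (MulAction.stabilizer G α), x ^ p = 1) ∧
      (Cfsg.fittingSubgroup (MulAction.stabilizer G α) ≠ ⊥ →
        p ^ e ∣ Fintype.card Ω - 1 ∧
        ∃ φ : MulAction.stabilizer G α →* GL (Fin e) (ZMod p), φ.ker = Cfsg.fittingSubgroup (MulAction.stabilizer G α)) := by
  obtain ⟨g, hg, hg1⟩ := (bot_or_exists_ne_one _).resolve_left hH1
  obtain ⟨w, hw⟩ := exists_smul_ne (α := Ω) hg1
  have hwa : w ≠ α := by rintro rfl; exact hw hg
  have : ∀ w : Ω, Nonempty (orbit (stabilizer G α) w) := fun w => ⟨⟨w, mem_orbit_self w⟩⟩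
  have key : ∀ w, w ≠ α → ∀ F : Subgroup (stabilizer G α), F.Normal → F ≠ ⊥ → IsMulCommutative F →
      Nat.card F = (orbit (stabilizer G α) w).ncard := fun w hw F hF h0 hc => by
    have := extPrim_faithfulSMul hep hw
    have := hep α w
    have ht := isPretransitive_of_normal (α := orbit (stabilizer G α) w) F h0
    exact card_eq_of_regular ht (stabilizer_eq_bot_of_comm ht)
  have := extPrim_faithfulSMul hep hwa
  have := hep α w
  have hZ : center (stabilizer G α) = ⊥ := by
    by_contra h0
    have ht := isPretransitive_of_normal (α := orbit (stabilizer G α) w) _ h0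
    refine hHp (card_prime_of_stabilizer_eq_bot (Ω := orbit (stabilizer G α) w)
      (a := ⟨w, mem_orbit_self w⟩) (b := ⟨g • w, ⟨g, hg⟩, rfl⟩)
      (fun e => hw (congrArg Subtype.val e).symm) (eq_bot_iff.2 fun x hx => ?_))
    exact eq_one_of_centralizes ht (fun m hm => (mem_center_iff.1 hm x).symm) hx
  refine ⟨hZ, ?_⟩
  by_cases hF : fittingSubgroup (stabilizer G α) = ⊥
  · rw [hF]
    exact ⟨inferInstance, 2, 0, Nat.prime_two, by simp, by simp, fun h => absurd rfl h⟩
  obtain ⟨h1, h2, h3⟩ := fitting_of_primitive (Ω := orbit (stabilizer G α) w) hF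
  obtain ⟨p, hp, h4⟩ := h1.isElementaryAbelian (isSolvable_of_comm fun x y => h2.is_comm.comm x y)
  have := Fact.mk hp
  obtain ⟨e, he⟩ := IsPGroup.iff_card.1 (isPGroup_of_isElementaryAbelian h4)
  refine ⟨h2, p, e, hp, he, h4.2, fun _ => ⟨?_, ?_⟩⟩
  · rw [← he, ← Nat.card_eq_fintype_card]
    exact Misc.dvd_card_sub_one_of_orbits (G := stabilizer G α) α (fun g => g.2)
      fun b hb => (key b hb _ h1.normal hF h2).dvd
  · obtain ⟨ρ, hρ⟩ := PGroup.exists_section_rep (S := ⊥) (V := fittingSubgroup (stabilizer G α))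
      (A := ⊤) (n := e) bot_le
      (commutator_eq_bot_iff_le_centralizer.2 (le_centralizer_iff_isMulCommutative.2 h2)).le
      h4.2 le_normalizer_of_normal le_normalizer_of_normal (by rwa [relIndex_bot_left])
    refine ⟨ρ.comp topEquiv.symm.toMonoidHom, ?_⟩
    rw [← MonoidHom.comap_ker, hρ, PGroup.commStab_bot, h3]
    rfl

end Cfsg.Agent.S3497
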