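import Cfsg.Statements.S3504
import Cfsg.Agent.Lib.Perm.Sym2

set_option autoImplicit false
open Cfsg

namespace Cfsg.Agent.S3504

open Cfsg.Lib Cfsg.Lib.Perm Equiv Equiv.Perm

/-- For n ≥ 5, the fixed-point-free permutations of prime order in the symmetric group of degree n form a single conjugacy class if and only if n is a prime power. -/
theorem result (n : ℕ) (hn : 5 ≤ n) :
    Nat.card {c : ConjClasses (Equiv.Perm (Fin n)) // ∃ g : Equiv.Perm (Fin n), ConjClasses.mk g = c ∧ (orderOf g).Prime ∧ ∀ i : Fin n, g i ≠ i} = 1 ↔ IsPrimePow n := by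
  rw [isPrimePow_iff_card_primeFactors_eq_one, ← Nat.card_eq_finsetCard]
  have key : ∀ r : n.primeFactors, ∃ σ : Perm (Fin n), orderOf σ = r ∧ σ.support.card = n := fun ⟨r, hr⟩ => by
    have h := Nat.div_mul_cancel (Nat.dvd_of_mem_primeFactors hr)
    have := exists_orderOf_card_support (Ω := Fin n) (j := n / r) (Nat.prime_of_mem_primeFactors hr)
      (Nat.pos_of_ne_zero fun e => by rw [e] at h; omega) (by simp [h])
    rwa [h] at this
  choose σ h1 h2 using key
  have fpf : ∀ g : Perm (Fin n), (∀ i, g i ≠ i) ↔ g.support.card = n := fun g => by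
    rw [show g.support.card = n ↔ g.support.card = Fintype.card (Fin n) by rw [Fintype.card_fin]]
    simp only [Finset.card_eq_iff_eq_univ, Finset.eq_univ_iff_forall, mem_support]
  refine iff_of_eq (congrArg (· = 1) (Eq.symm ?_))
  refine Nat.card_eq_of_bijective (fun r => ⟨ConjClasses.mk (σ r), σ r, rfl,
    h1 r ▸ Nat.prime_of_mem_primeFactors r.2, (fpf _).2 (h2 r)⟩) ⟨fun r s h => ?_, ?_⟩
  · obtain ⟨k, hk⟩ := isConj_iff.1 (ConjClasses.mk_eq_mk_iff_isConj.1 (congrArg Subtype.val h))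
    exact Subtype.ext (by rw [← h1, ← h1, ← hk]; exact ((MulAut.conj k).orderOf_eq _).symm)
  · rintro ⟨_, g, rfl, hp, hg⟩
    obtain ⟨j, -, e1, e2⟩ := exists_card_support_eq hp rfl
    rw [(fpf g).1 hg] at e2
    let r : n.primeFactors := ⟨orderOf g, Nat.mem_primeFactors.2 ⟨hp, Dvd.intro_left j e2.symm, by omega⟩⟩
    obtain ⟨j', -, e3, e4⟩ := exists_card_support_eq hp (h1 r)
    refine ⟨r, Subtype.ext (ConjClasses.mk_eq_mk_iff_isConj.2 (isConj_iff_cycleType_eq.2 ?_))⟩
    rw [e1, e3, Nat.eq_of_mul_eq_mul_right hp.pos (e2.symm.trans ((h2 r).symm.trans e4))]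

end Cfsg.Agent.S3504
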