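import Cfsg.Statements.S3508
import Cfsg.Agent.Lib.Perm.Affine
import Cfsg.Agent.Lib.PLocal.ElemAbRep

set_option autoImplicit false
open Cfsg

namespace Cfsg.Agent.S3508

open Cfsg.Lib Cfsg.Lib.Perm Cfsg.Lib.PLocal Subgroup MulAction Matrix

/-- Let a finite group G act faithfully on a set Ω with p ^ m points (p prime) and have an elementary abelian normal p-subgroup N acting regularly on Ω (so G is a group of affine transformations of an m-dimensional space over the field with p elements). If G contains an element of order p ^ r with r ≥ 1, then p ^ (r − 1) ≤ m. In particular an element of order p ^ m forces m ≤ 2, and m ≤ 1 when p is odd. -/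
theorem result {G : Type*} [Group G] [Finite G] {Ω : Type*} [Fintype Ω] [MulAction G Ω] [FaithfulSMul G Ω] (p m : ℕ) (hp : p.Prime) (hcard : Fintype.card Ω = p ^ m)
    (N : Subgroup G) [N.Normal] (hNc : IsMulCommutative N) (hNp : ∀ n ∈ N, n ^ p = 1)
    (hNtr : MulAction.IsPretransitive N Ω) (hNreg : ∀ ω : Ω, MulAction.stabilizer N ω = ⊥)
    (g : G) (r : ℕ) (hr : 1 ≤ r) (hg : orderOf g = p ^ r) :
    p ^ (r - 1) ≤ m ∧ (r = m → m ≤ 2 ∧ (2 < p → m ≤ 1)) := by
  have := Fact.mk hp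
  suffices h : p ^ (r - 1) ≤ m by
    refine ⟨h, ?_⟩
    rintro rfl
    obtain ⟨s, rfl⟩ := Nat.exists_eq_add_of_le' hr
    have h2 : ∀ q k, 2 ≤ q → 1 + k * (q - 1) ≤ q ^ k := fun q k hq => by
      simpa [Nat.add_sub_cancel' (show 1 ≤ q by omega)] using one_add_mul_le_pow_of_sq_nonneg (a := q - 1) (by simp)
        (by simp) (by simp) k
    rw [Nat.add_sub_cancel] at h
    refine ⟨not_lt.1 fun h3 => ?_, fun h3 => ?_⟩
    · obtain ⟨t, rfl⟩ := Nat.exists_eq_add_of_le' (show 2 ≤ s by omega)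
      have := (Nat.pow_le_pow_left hp.two_le _).trans h
      have := t.lt_two_pow_self
      rw [pow_add] at *; omega
    · have := (h2 p s hp.two_le).trans h
      have := Nat.mul_le_mul_left s (show 2 ≤ p - 1 by omega)
      omega
  by_contra! hlt
  obtain ⟨c⟩ := nonempty_elemAbCoord (p := p) (V := N) ⟨hNc, hNp⟩
  obtain ⟨a⟩ := Fintype.card_pos_iff.1 (hcard ▸ pow_pos hp.pos m)
  have hm : c.n = m := Nat.pow_right_injective hp.two_le (by
    have := Nonempty.intro a
    change p ^ _ = p ^ _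
    rw [← hcard, ← Nat.card_eq_fintype_card, ← card_eq_of_regular hNtr hNreg]
    simpa using Nat.card_eq_of_bijective (fun u => (⟨c.e u, c.mem u⟩ : N)) ⟨fun u w e => c.inj (congrArg Subtype.val e),
      fun n => ((c.mem_iff n).1 n.2).imp fun u => Subtype.ext⟩)
  obtain ⟨n0, h0, h1⟩ := exists_regular_smul hNtr a (g • a)
  obtain ⟨w, rfl⟩ := (c.mem_iff _).1 h0
  let U : Module.End (ZMod p) ((Fin c.n → ZMod p) × ZMod p) :=
    (((c.ρ ⟨g, le_normalizer_of_normal (mem_top g)⟩).mulVecLin).coprod (LinearMap.toSpanSingleton _ _ w)).prod (LinearMap.snd ..)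
  have hU : ∀ j u, ∃ u', (U ^ j) (u, 1) = (u', 1) ∧ c.e u' • a = g ^ j • c.e u • a := fun j u => by
    induction j with
    | zero => exact ⟨u, rfl, by simp⟩
    | succ j ih =>
      obtain ⟨v, e1, e2⟩ := ih
      refine ⟨c.ρ ⟨g, le_normalizer_of_normal (mem_top g)⟩ *ᵥ v + w, by simp [pow_succ', e1, U], ?_⟩
      rw [c.map_add, c.conj, mul_smul, h1, pow_succ', mul_smul g (g ^ j), ← e2]
      simp [mul_smul]
  have h2 : U ^ p ^ r = 1 := by
    have : ∀ u, (U ^ p ^ r) (u, 1) = (u, 1) := fun u => by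
      obtain ⟨v, e1, e2⟩ := hU (p ^ r) u
      rw [← hg, pow_orderOf_eq_one, one_smul] at e2
      rw [e1, c.inj (eq_of_smul_eq_of_regular hNreg (c.mem _) (c.mem _) e2)]
    refine LinearMap.ext fun ⟨u, t⟩ => ?_
    rw [show (u, t) = (u, 1) + (t - 1) • ((0 : Fin c.n → ZMod p), (1 : ZMod p)) by simp, map_add, map_smul, this, this]
    rfl
  have : CharP (Module.End (ZMod p) ((Fin c.n → ZMod p) × ZMod p)) p :=
    charP_of_injective_algebraMap (algebraMap (ZMod p) _).injective p
  have h3 : ∀ k, (U - 1) ^ p ^ k = U ^ p ^ k - 1 := fun k => by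
    rw [sub_pow_char_pow_of_commute _ _ (Commute.one_right U), one_pow]
  have h4 : (U - 1) ^ (m + 1) = 0 := by
    have := (U - 1).aeval_self_charpoly
    rwa [(LinearMap.isNilpotent_iff_charpoly _).1 ⟨_, (h3 r).trans (by rw [h2, sub_self])⟩, map_pow, Polynomial.aeval_X,
      show Module.finrank _ _ = m + 1 by simp [hm]] at this
  have h5 : U ^ p ^ (r - 1) = 1 := by rw [← sub_eq_zero, ← h3]; exact pow_eq_zero_of_le hlt h4
  have h6 : g ^ p ^ (r - 1) = 1 := eq_of_smul_eq_smul (α := Ω) fun x => by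
    obtain ⟨n, h0, rfl⟩ := exists_regular_smul hNtr a x
    obtain ⟨u, rfl⟩ := (c.mem_iff _).1 h0
    obtain ⟨v, e1, e2⟩ := hU (p ^ (r - 1)) u
    rw [h5] at e1
    rw [← e2, one_smul, show u = v from (Prod.ext_iff.1 e1).1]
  have := (Nat.pow_dvd_pow_iff_le_right hp.one_lt).1 (hg ▸ orderOf_dvd_of_pow_eq_one h6)
  omega

end Cfsg.Agent.S3508
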