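import Cfsg.Statements.S3511

set_option autoImplicit false
open Cfsg

namespace Cfsg.Agent.S3511



/-- Let a finite group G act faithfully on a set Ω. If every element of G of square-free order has a regular cycle (an orbit of the cyclic group it generates with trivial stabilizer), then every element of G has a regular cycle. -/
theorem result {G : Type*} [Group G] [Finite G] {Ω : Type*} [MulAction G Ω] [FaithfulSMul G Ω]
    (h : ∀ g : G, Squarefree (orderOf g) → ∃ ω : Ω, MulAction.stabilizer (Subgroup.zpowers g) ω = ⊥) (g : G) :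
    ∃ ω : Ω, MulAction.stabilizer (Subgroup.zpowers g) ω = ⊥ := by
  classical
  have hpos : 0 < orderOf g := orderOf_pos g
  set n := orderOf g with hn
  set r := UniqueFactorizationMonoid.radical n with hr
  have hrd : r ∣ n := UniqueFactorizationMonoid.radical_dvd_self
  obtain ⟨m, hm⟩ := hrd
  have hm0 : m ≠ 0 := by rintro rfl; omega
  have hord : orderOf (g ^ m) = r := by
    rw [orderOf_pow_of_dvd hm0 (by rw [← hn, hm]; exact Dvd.intro_left _ rfl), ← hn]
    conv_lhs => rw [hm]
    exact Nat.mul_div_cancel _ (Nat.pos_of_ne_zero hm0)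
  obtain ⟨ω, hω⟩ := h (g ^ m) (by rw [hord]; exact UniqueFactorizationMonoid.squarefree_radical)
  refine ⟨ω, ?_⟩
  rw [eq_bot_iff]
  intro x hx
  by_contra hne
  have hx1 : (x : G) ≠ 1 := fun h => hne (by rw [Subgroup.mem_bot]; exact Subtype.ext h)
  have hxo : orderOf (x : G) ≠ 1 := by simpa using hx1
  obtain ⟨p, hp, hpd⟩ := Nat.exists_prime_and_dvd hxo
  obtain ⟨k, hk⟩ := hpd
  have hk0 : k ≠ 0 := by rintro rfl; have := orderOf_pos (x : G); omega
  have hy : orderOf ((x : G) ^ k) = p := by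
    rw [orderOf_pow_of_dvd hk0 (by rw [hk]; exact Dvd.intro_left _ rfl), hk]
    exact Nat.mul_div_cancel _ (Nat.pos_of_ne_zero hk0)
  have hmem : (x : G) ^ k ∈ Subgroup.zpowers g := Subgroup.pow_mem _ x.2 k
  obtain ⟨j, hj⟩ := (mem_zpowers_iff_mem_range_orderOf.mp hmem |> Finset.mem_image.mp)
  have hj2 : g ^ j = (x : G) ^ k := hj.2
  have hpn : p ∣ n := by
    rw [← hy, hn]; exact orderOf_dvd_of_mem_zpowers hmem
  have hpr : p ∣ r := by
    rw [hr]
    exact (UniqueFactorizationMonoid.dvd_radical_iff_of_irreducible hp.prime.irreducible hpos.ne').mpr hpn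
  have hdiv : n ∣ j * p := by
    rw [hn]; apply orderOf_dvd_of_pow_eq_one
    rw [pow_mul, hj2, ← hy, pow_orderOf_eq_one]
  obtain ⟨s, hs⟩ := hpr
  have hmj : m ∣ j := by
    have : p * (s * m) ∣ p * j := by rw [← mul_assoc, ← hs, ← hm, mul_comm p j]; exact hdiv
    exact (Dvd.intro_left _ rfl : m ∣ s * m).trans (Nat.dvd_of_mul_dvd_mul_left hp.pos this)
  obtain ⟨t, ht⟩ := hmj
  have hmem2 : (x : G) ^ k ∈ Subgroup.zpowers (g ^ m) := by
    rw [← hj2, ht, pow_mul]; exact Subgroup.pow_mem _ (Subgroup.mem_zpowers _) _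
  have hst : (⟨_, hmem2⟩ : Subgroup.zpowers (g ^ m)) ∈ MulAction.stabilizer (Subgroup.zpowers (g ^ m)) ω := by
    have := Subgroup.pow_mem _ hx k
    rw [MulAction.mem_stabilizer_iff] at this ⊢
    exact this
  rw [hω, Subgroup.mem_bot] at hst
  have : (x : G) ^ k = 1 := congrArg Subtype.val hst
  rw [this, orderOf_one] at hy
  exact hp.one_lt.ne hy

end Cfsg.Agent.S3511
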