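import Cfsg.Statements.S3514
import Cfsg.Agent.Lib.Perm.Half
import Cfsg.Agent.Lib.Coprime.SZ

set_option autoImplicit false
open Cfsg

namespace Cfsg.Agent.S3514

open Cfsg.Lib Cfsg.Lib.Perm Subgroup MulAction

/-- Let p be a prime, V a finite vector space over the field with p elements, and H a group of linear transformations of V all of whose orbits on V have size coprime to p. (i) Every normal subgroup K of H has all its orbits on V of size coprime to p. (ii) If N is a group of linear transformations of V of order coprime to p that is normalized by H, then the group generated by N and H has all its orbits on V of size coprime to p. -/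
theorem result (p : ℕ) [Fact p.Prime] {V : Type*} [AddCommGroup V] [Module (ZMod p) V] [Finite V]
    (H : Subgroup (V ≃ₗ[ZMod p] V)) (hH : ∀ v : V, ¬ p ∣ Nat.card {u : V | ∃ h ∈ H, h v = u}) :
    (∀ K : Subgroup (V ≃ₗ[ZMod p] V), K ≤ H → H ≤ Subgroup.normalizer (K : Set (V ≃ₗ[ZMod p] V)) →
        ∀ v : V, ¬ p ∣ Nat.card {u : V | ∃ k ∈ K, k v = u}) ∧
    (∀ N : Subgroup (V ≃ₗ[ZMod p] V), ¬ p ∣ Nat.card N → H ≤ Subgroup.normalizer (N : Set (V ≃ₗ[ZMod p] V)) →
        ∀ v : V, ¬ p ∣ Nat.card {u : V | ∃ x ∈ N ⊔ H, x v = u}) := by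
  have : Finite (V ≃ₗ[ZMod p] V) := Finite.of_injective _ DFunLike.coe_injective
  have e : ∀ (K : Subgroup (V ≃ₗ[ZMod p] V)) v, Nat.card {u : V | ∃ k ∈ K, k v = u} =
      (stabilizer _ v).relIndex K := fun K v => by
    rw [← ncard_orbit_subgroup, Nat.card_coe_set_eq]
    exact congrArg _ (Set.ext fun u => ⟨fun ⟨k, hk, e⟩ => ⟨⟨k, hk⟩, e⟩, fun ⟨k, e⟩ => ⟨k, k.2, e⟩⟩)
  simp only [e] at hH ⊢
  refine ⟨fun K h1 h2 v h => hH v (h.trans ?_), fun N h1 h2 v h => ?_⟩
  · rw [← inf_relIndex_right _ H, ← relIndex_mul_relIndex _ (K ⊔ stabilizer _ v ⊓ H) H le_sup_right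
      (sup_le h1 inf_le_right), Coprime.relIndex_sup_right_of_le_normalizer (inf_le_right.trans h2),
      ← inf_relIndex_right (_ ⊓ H), inf_assoc, inf_eq_right.2 h1, inf_relIndex_right]
    exact dvd_mul_right _ _
  · have h3 := h.trans (relIndex_dvd_of_le_left _ (inf_le_left (b := H)))
    rw [← relIndex_mul_relIndex _ H _ inf_le_right le_sup_right, inf_relIndex_right,
      Coprime.relIndex_sup_right_of_le_normalizer h2] at h3
    exact ((Fact.out : p.Prime).dvd_mul.1 h3).elim (hH v) fun h => h1 (h.trans (relIndex_dvd_card _ _))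

end Cfsg.Agent.S3514
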