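import Cfsg.Statements.S3516
import Cfsg.Agent.Lib.Perm.Basic

set_option autoImplicit false
open Cfsg

namespace Cfsg.Agent.S3516

theorem affine_of_triples {K V : Type*} [Field K] [AddCommGroup V] [Module K V] (h2 : (2 : K) ≠ 0)
    (σ : Equiv.Perm V) (h : ∀ t : Fin 3 → V, ∃ (A : V ≃ₗ[K] V) (b : V), ∀ i, σ (t i) = A (t i) + b) :
    ∃ (A : V ≃ₗ[K] V) (b : V), ∀ x, σ x = A x + b := by
  have key : ∀ (c : K) x y, σ (c • x + (1 - c) • y) = c • σ x + (1 - c) • σ y := fun c x y => by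
    obtain ⟨A, b, h⟩ := h ![x, y, c • x + (1 - c) • y]
    refine (h 2).trans ?_
    rw [show σ x = A x + b from h 0, show σ y = A y + b from h 1]
    simp only [Matrix.cons_val, map_add, map_smul]
    module
  have h1 : ∀ (c : K) x, σ (c • x) - σ 0 = c • (σ x - σ 0) := fun c x => by
    rw [show c • x = c • x + (1 - c) • 0 by simp, key]; module
  refine ⟨{ σ.trans (Equiv.subRight (σ 0)) with map_add' := fun x y => ?_, map_smul' := h1 }, σ 0,
    fun x => (sub_add_cancel _ _).symm⟩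
  have e : 1 - (2⁻¹ : K) = 2⁻¹ := by field_simp; norm_num
  have := key 2⁻¹ x y
  rw [e, ← smul_add, ← sub_left_inj (a := σ 0), h1] at this
  refine smul_right_injective V (inv_ne_zero h2) (this.trans ?_)
  change _ = (2⁻¹ : K) • (σ x - σ 0 + (σ y - σ 0))
  conv_lhs => rw [← one_smul K (σ 0), ← sub_add_cancel (1 : K) 2⁻¹, e]
  module

theorem two_ne {p : ℕ} [Fact p.Prime] (hp : p ≠ 2) : (2 : ZMod p) ≠ 0 := fun h =>
  hp ((Nat.prime_dvd_prime_iff_eq Fact.out Nat.prime_two).1 ((ZMod.natCast_eq_zero_iff 2 p).1 h))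

/-- Let p be an odd prime, d ≥ 3, and G a group of affine permutations x ↦ Ax + b of V = F_p^d containing all translations and all maps x ↦ Ax with A of determinant 1. Then the 3-closure of G is the full affine group: a permutation σ of V agrees on every triple of points with some element of G if and only if σ is an affine map. -/
theorem result (p : ℕ) [Fact p.Prime] (hp : p ≠ 2) (d : ℕ) (hd : 3 ≤ d) (G : Subgroup (Equiv.Perm (Fin d → ZMod p)))
    (haff : (G : Set (Equiv.Perm (Fin d → ZMod p))) ⊆ {τ : Equiv.Perm (Fin d → ZMod p) | ∃ (A : (Fin d → ZMod p) ≃ₗ[ZMod p] (Fin d → ZMod p)) (b : Fin d → ZMod p), ∀ x, τ x = A x + b})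
    (htrans : ∀ b : Fin d → ZMod p, ∃ g ∈ G, ∀ x, g x = x + b)
    (hsl : ∀ A : (Fin d → ZMod p) ≃ₗ[ZMod p] (Fin d → ZMod p), LinearMap.det (A : (Fin d → ZMod p) →ₗ[ZMod p] (Fin d → ZMod p)) = 1 → ∃ g ∈ G, ∀ x, g x = A x)
    (σ : Equiv.Perm (Fin d → ZMod p)) :
    (∀ t : Fin 3 → (Fin d → ZMod p), ∃ g ∈ G, ∀ i, σ (t i) = g (t i)) ↔ σ ∈ {τ : Equiv.Perm (Fin d → ZMod p) | ∃ (A : (Fin d → ZMod p) ≃ₗ[ZMod p] (Fin d → ZMod p)) (b : Fin d → ZMod p), ∀ x, τ x = A x + b} := by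
  refine ⟨fun h => affine_of_triples (two_ne hp) σ fun t => ?_, fun ⟨A, b, h⟩ t => ?_⟩
  · obtain ⟨g, hg, e⟩ := h t
    obtain ⟨A, b, h⟩ := haff hg
    exact ⟨A, b, fun i => (e i).trans (h _)⟩
  obtain ⟨v, -, hv⟩ := SetLike.exists_of_lt (Submodule.lt_top_of_finrank_lt_finrank
    (s := Submodule.span (ZMod p) (Set.range ![t 1 - t 0, t 2 - t 0]))
    ((finrank_range_le_card _).trans_lt (by simp; omega)))
  obtain ⟨f, h1, h2⟩ := Submodule.exists_le_ker_of_notMem hv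
  have h0 := (LinearEquiv.isUnit_det' A).ne_zero
  have e : 1 + f ((((LinearMap.det A.toLinearMap)⁻¹ - 1) / f v) • v) = (LinearMap.det A.toLinearMap)⁻¹ := by
    simp [h1]
  let B := LinearEquiv.dilatransvection (e ▸ (inv_ne_zero h0).isUnit)
  obtain ⟨g, hg, g1⟩ := hsl (B.trans A) (by
    rw [LinearEquiv.coe_trans, LinearMap.det_comp, LinearEquiv.dilatransvection.coe_toLinearMap,
      LinearMap.transvection.det, e, mul_inv_cancel₀ h0])
  obtain ⟨k, hk, k1⟩ := htrans (-t 0)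
  obtain ⟨l, hl, l1⟩ := htrans (A (t 0) + b)
  refine ⟨l * g * k, G.mul_mem (G.mul_mem hl hg) hk, fun i => ?_⟩
  have : f (t i - t 0) = 0 := by
    fin_cases i
    exacts [by simp, h2 (Submodule.subset_span ⟨0, rfl⟩), h2 (Submodule.subset_span ⟨1, rfl⟩)]
  simp [h, l1, g1, k1, ← sub_eq_add_neg, B, LinearEquiv.dilatransvection.apply, -map_sub, this, ← add_assoc,
    ← map_add]

end Cfsg.Agent.S3516
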