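import Cfsg.Statements.S3515
import Cfsg.Agent.S3516

set_option autoImplicit false
open Cfsg

namespace Cfsg.Agent.S3515

/-- Every primitive affine permutation group of degree p² is 3-closed. Let p be a prime and G a group of permutations of the plane V = F_p² consisting of affine maps x ↦ Ax + b, containing all translations, and acting primitively on V. Then any permutation σ of V that agrees on every triple of points with some element of G (σ preserves every G-orbit on ordered triples) already lies in G. -/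
theorem result (p : ℕ) [Fact p.Prime] (G : Subgroup (Equiv.Perm (Fin 2 → ZMod p)))
    (haff : (G : Set (Equiv.Perm (Fin 2 → ZMod p))) ⊆ {τ : Equiv.Perm (Fin 2 → ZMod p) | ∃ (A : (Fin 2 → ZMod p) ≃ₗ[ZMod p] (Fin 2 → ZMod p)) (b : Fin 2 → ZMod p), ∀ x, τ x = A x + b})
    (htrans : ∀ b : Fin 2 → ZMod p, ∃ g ∈ G, ∀ x, g x = x + b) (hprim : MulAction.IsPreprimitive G (Fin 2 → ZMod p))
    (σ : Equiv.Perm (Fin 2 → ZMod p)) (hσ : (∀ t : Fin 3 → (Fin 2 → ZMod p), ∃ g ∈ G, ∀ i, σ (t i) = g (t i))) : σ ∈ G := by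
  obtain ⟨g, hg, e⟩ := hσ ![0, Pi.single 0 1, Pi.single 1 1]
  have e0 : σ 0 = g 0 := e 0
  have e1 : σ (Pi.single 0 1) = g (Pi.single 0 1) := e 1
  have e2 : σ (Pi.single 1 1) = g (Pi.single 1 1) := e 2
  suffices σ = g from this ▸ hg
  refine Equiv.ext fun x => ?_
  by_cases hp : p = 2
  · subst hp
    obtain rfl : ‹Fact (Nat.Prime 2)› = Nat.fact_prime_two := rfl
    have h : ∀ x : Fin 2 → ZMod 2, x = 0 ∨ x = Pi.single 0 1 ∨ x = Pi.single 1 1 ∨ x = 1 := by decide
    rcases h x with rfl | rfl | rfl | rfl <;> try assumption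
    obtain ⟨y, hy⟩ := g.surjective (σ 1)
    rcases h y with rfl | rfl | rfl | rfl
    exacts [absurd (σ.injective (e0.trans hy)) (by decide), absurd (σ.injective (e1.trans hy)) (by decide),
      absurd (σ.injective (e2.trans hy)) (by decide), hy.symm]
  obtain ⟨A, b, h⟩ := S3516.affine_of_triples (S3516.two_ne hp) σ fun t => by
    obtain ⟨g, hg, e⟩ := hσ t
    obtain ⟨A, b, h⟩ := haff hg
    exact ⟨A, b, fun i => (e i).trans (h _)⟩
  obtain ⟨B, c, h'⟩ := haff hg
  simp only [h, h', map_zero, zero_add] at e0 e1 e2 ⊢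
  subst e0
  rw [show A.toLinearMap = B.toLinearMap → A x = B x from fun e => DFunLike.congr_fun e x]
  exact (Pi.basisFun (ZMod p) (Fin 2)).ext (Fin.forall_fin_two.2 (by simpa using And.intro e1 e2))

end Cfsg.Agent.S3515
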