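import Cfsg.Statements.S3518
import Cfsg.Agent.Lib.Perm.PrimeDegree2
import Cfsg.Agent.Lib.Perm.Centralizer
import Cfsg.Agent.S0675

set_option autoImplicit false
open Cfsg

namespace Cfsg.Agent.S3518

open Cfsg.Lib Cfsg.Lib.Perm Subgroup MulAction Equiv

theorem affine_of_solvable {p : ℕ} [hp : Fact p.Prime] (X : Subgroup (Perm (ZMod p))) [Group.IsSolvable X]
    {t : X} (ht : ∀ x, t.1 x = x + 1) (σ : X) : ∃ a b : ZMod p, ∀ x, σ.1 x = a * x + b := by
  have hc : Nat.card (ZMod p) = p := Nat.card_zmod p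
  have h1 : ∀ (n : ℕ) (x : ZMod p), t ^ n • x = x + n := pow_smul_zmod (e := Equiv.refl _) ht
  have : IsPretransitive X (ZMod p) := ⟨fun x y => ⟨t ^ (y - x).val, by simp [h1]⟩⟩
  have : IsPreprimitive X (ZMod p) := .of_prime_card (hc.symm ▸ hp.out)
  have ho : orderOf t = p := orderOf_eq_prime (eq_one_of_forall_smul (α := ZMod p) fun x => by simp [h1])
    fun e => by simpa [e] using ht 0
  obtain ⟨N, _, -, h0, hN⟩ := exists_minimal_normal_le (⊤ : Subgroup X) fun e => by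
    simpa [mem_bot.1 (e.le (mem_top t))] using ht 0
  have := comm_of_minimal_normal_of_solvable hN
  have h2 := isPretransitive_of_normal (α := ZMod p) N h0
  have h3 := (card_eq_of_regular h2 (stabilizer_eq_bot_of_comm h2)).trans hc
  obtain ⟨P, hP⟩ := (IsPGroup.of_card (n := 1) (by rw [Nat.card_zpowers, ho, pow_one]) :
    IsPGroup p (zpowers t)).exists_le_sylow
  have h4 := card_sylow_of_prime_degree hc P
  have h5 : N = zpowers t := (eq_of_le_of_card_ge (IsPGroup.le_sylow_of_normal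
    (IsPGroup.of_card (n := 1) (h3.trans (pow_one p).symm)) P) (h4.trans h3.symm).le).trans
    (eq_of_le_of_card_ge hP (by rw [h4, Nat.card_zpowers, ho])).symm
  obtain ⟨k, hk⟩ := mem_powers_iff_mem_zpowers.2 (h5 ▸ Normal.conj_mem ‹_› t (h5 ▸ mem_zpowers t) σ)
  exact ⟨k, _, affine_of_conj_eq_pow (e := Equiv.refl _) ht hk.symm⟩

/-- Closures of subgroups of the one-dimensional affine group. Let p be a prime and G a group of permutations of F_p lying in the affine group AGL₁(p) = {x ↦ ax + b, a ≠ 0} and containing all translations. (1) If G is a proper subgroup of AGL₁(p), then G is 2-closed: a permutation of F_p agreeing on every ordered pair of points with some element of G lies in G. (2) Every permutation of F_p agrees on every ordered pair with some element of AGL₁(p) (the 2-closure of AGL₁(p) is the symmetric group). (3) AGL₁(p) is 3-closed: a permutation agreeing on every ordered triple with some affine map is affine.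 -/
theorem result (p : ℕ) [Fact p.Prime] (G : Subgroup (Equiv.Perm (ZMod p))) (hG : G ≤ Cfsg.affineGroup (ZMod p))
    (htrans : ∀ b : ZMod p, ∃ g ∈ G, ∀ x, g x = x + b) :
    (G ≠ Cfsg.affineGroup (ZMod p) → ∀ σ : Equiv.Perm (ZMod p), (∀ t : Fin 2 → ZMod p, ∃ g ∈ G, ∀ i, σ (t i) = g (t i)) → σ ∈ G) ∧
    (∀ σ : Equiv.Perm (ZMod p), (∀ t : Fin 2 → ZMod p, ∃ g ∈ Cfsg.affineGroup (ZMod p), ∀ i, σ (t i) = g (t i))) ∧
    (∀ σ : Equiv.Perm (ZMod p), (∀ t : Fin 3 → ZMod p, ∃ g ∈ Cfsg.affineGroup (ZMod p), ∀ i, σ (t i) = g (t i)) → σ ∈ Cfsg.affineGroup (ZMod p)) := by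
  have two : ∀ a b c d : ZMod p, a ≠ b → c ≠ d → ∃ g ∈ affineGroup (ZMod p), g a = c ∧ g b = d :=
    fun a b c d h1 h2 => by
      have h3 := sub_ne_zero.2 h1
      have h4 := div_ne_zero (sub_ne_zero.2 h2) h3
      refine ⟨(Equiv.mulLeft₀ _ h4).trans (Equiv.addRight (c - (c - d) / (a - b) * a)),
        ⟨Units.mk0 _ h4, _, fun _ => rfl⟩, by simp, ?_⟩
      simp only [trans_apply, mulLeft₀_apply, coe_addRight]
      field_simp; ring
  have ext : ∀ {σ g : Perm (ZMod p)} {a b : ZMod p}, (∀ x, σ x = a * x + b) → g ∈ affineGroup (ZMod p) →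
      σ 0 = g 0 → σ 1 = g 1 → σ = g := fun {σ g a b} h ⟨c, d, hg⟩ h0 h1 => Equiv.ext fun x => by
    simp only [h, hg, mul_zero, zero_add, mul_one] at h0 h1 ⊢
    rw [h0] at h1 ⊢
    rw [add_right_cancel h1]
  refine ⟨fun hne σ hσ => ?_, fun σ t => ?_, fun σ hσ => ?_⟩
  · let X : Subgroup (Perm (ZMod p)) :=
      { carrier := {σ | ∀ x y, ∃ g ∈ G, σ x = g x ∧ σ y = g y}
        one_mem' := fun _ _ => ⟨1, one_mem _, rfl, rfl⟩
        mul_mem' := fun {σ τ} h1 h2 x y => by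
          obtain ⟨g, hg, e1, e2⟩ := h2 x y
          obtain ⟨k, hk, e3, e4⟩ := h1 (τ x) (τ y)
          exact ⟨k * g, mul_mem hk hg, e3.trans (congrArg k e1), e4.trans (congrArg k e2)⟩
        inv_mem' := fun {σ} h x y => by
          obtain ⟨g, hg, e1, e2⟩ := h (σ⁻¹ x) (σ⁻¹ y)
          exact ⟨g⁻¹, inv_mem hg, Perm.eq_inv_iff_eq.2 (by simpa using e1.symm),
            Perm.eq_inv_iff_eq.2 (by simpa using e2.symm)⟩ }
    have hGX : G ≤ X := fun g hg _ _ => ⟨g, hg, rfl, rfl⟩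
    have : IsPretransitive X (ZMod p) := ⟨fun x y => (htrans (y - x)).elim fun g hg =>
      ⟨⟨g, hGX hg.1⟩, (hg.2 x).trans (add_sub_cancel _ _)⟩⟩
    have hσX : σ ∈ X := fun x y => (hσ ![x, y]).imp fun g hg => ⟨hg.1, hg.2 0, hg.2 1⟩
    rcases S0675.result (by simpa using Fact.out) X with h | h
    · obtain ⟨t, h1, h2⟩ := htrans 1
      obtain ⟨a, b, h3⟩ := affine_of_solvable X (t := ⟨t, hGX h1⟩) h2 ⟨σ, hσX⟩
      obtain ⟨g, hg, e⟩ := hσX 0 1
      exact ext (σ := σ) h3 (hG hg) e.1 e.2 ▸ hg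
    · refine absurd (hG.antisymm fun τ hτ => ?_) hne
      obtain ⟨k, e1, e2⟩ := two_iff.1 h 0 1 _ _ zero_ne_one (τ.injective.ne zero_ne_one)
      obtain ⟨g, hg, e⟩ := k.2 0 1
      obtain ⟨a, b, h⟩ := hτ
      exact ext h (hG hg) (e1.symm.trans e.1) (e2.symm.trans e.2) ▸ hg
  · by_cases h : t 0 = t 1
    · exact ⟨Equiv.addRight (σ (t 0) - t 0), ⟨1, σ (t 0) - t 0, fun x => by simp⟩, Fin.forall_fin_two.2 (by simp [← h])⟩
    · obtain ⟨g, hg, e⟩ := two _ _ _ _ h (σ.injective.ne h)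
      exact ⟨g, hg, Fin.forall_fin_two.2 ⟨e.1.symm, e.2.symm⟩⟩
  · refine ⟨Units.mk0 (σ 1 - σ 0) (sub_ne_zero.2 (σ.injective.ne one_ne_zero)), σ 0, fun x => ?_⟩
    obtain ⟨g, ⟨a, b, hg⟩, h⟩ := hσ ![0, 1, x]
    have h0 := h 0; have h1 := h 1; have h2 := h 2
    simp [hg] at h0 h1 h2
    simp [h0, h1, h2]

end Cfsg.Agent.S3518
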