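import Cfsg.Statements.S3521
import Cfsg.Agent.Lib.Perm.ExtAff
import Cfsg.Agent.Lib.Perm.FieldOf
import Cfsg.Agent.S3493

set_option autoImplicit false
open Cfsg

namespace Cfsg.Agent.S3521

open MulAction Subgroup Cfsg.Lib.Perm Cfsg.Lib Cfsg.Lib.Core Cfsg.Lib.Transfer
open scoped IsMulCommutative Pointwise

theorem solv_aut (V : Type*) [Group V] [h : IsCyclic V] : Group.IsSolvable (MulAut V) :=
  Group.isSolvable_of_isSolvable_injective (f := (IsCyclic.mulAutMulEquiv V).toMonoidHom) (IsCyclic.mulAutMulEquiv V).injective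

theorem exp_two {H V : Type*} [Group H] [Finite H] [CommGroup V] [MulDistribMulAction H V] [FaithfulSMul H V]
    (hs : ¬ Group.IsSolvable H) (hirr : ∀ L : Subgroup V, (∀ m : H, ∀ x ∈ L, m • x ∈ L) → L = ⊥ ∨ L = ⊤)
    (hmax : ∀ v : V, v ≠ 1 → IsCoatom (stabilizer H v)) (v : V) : v * v = 1 := by
  obtain ⟨t, ht⟩ := exists_prime_orderOf_dvd_card' (G := H) 2 (by
    by_contra h
    exact hs (PF.isSolvable_of_odd H (Nat.odd_iff.2 (by omega))))
  obtain ⟨x, hx⟩ : ∃ x : V, t • x ≠ x := by
    by_contra! h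
    rw [show t = 1 from FaithfulSMul.eq_of_smul_eq_smul (α := V) fun x => (h x).trans (one_smul _ _).symm] at ht
    simp at ht
  obtain ⟨u, u1, hu⟩ : ∃ u : V, u ≠ 1 ∧ t • u = u⁻¹ := ⟨x * (t • x)⁻¹, fun e => hx (mul_inv_eq_one.1 e).symm, by
    rw [smul_mul', smul_inv', ← mul_smul, ← sq, ← ht, pow_orderOf_eq_one, one_smul, mul_inv_rev, inv_inv]⟩
  have h2 : u * u = 1 := by
    by_contra h
    have hz : ∀ g : H, g • zpowers u = zpowers (g • u) := fun g => MonoidHom.map_zpowers _ _
    have h1 : stabilizer H (zpowers u) = ⊤ := (hmax u u1).2 _ (lt_of_le_of_ne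
      (fun g hg => by rw [mem_stabilizer_iff, hz, show g • u = u from hg]) fun e => h (by
        have : t • u = u := e.ge (show t • zpowers u = _ by rw [hz, hu, zpowers_inv])
        rw [← mul_inv_cancel u, ← hu, this]))
    have h3 := (hirr (zpowers u) fun m x hx => by
      rw [← show m • zpowers u = _ from h1.ge (mem_top m)]
      exact smul_mem_pointwise_smul _ _ _ hx).resolve_left (zpowers_ne_bot.2 u1)
    have : IsCyclic V := isCyclic_iff_exists_zpowers_eq_top.2 ⟨u, h3⟩
    have := solv_aut V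
    exact hs (Group.isSolvable_of_isSolvable_injective (f := MulDistribMulAction.toMulAut H V) fun a b e =>
      FaithfulSMul.eq_of_smul_eq_smul (α := V) fun x => DFunLike.congr_fun e x)
  have := (hirr (powMonoidHom 2 : V →* V).ker fun m x hx => by
    rw [MonoidHom.mem_ker, powMonoidHom_apply] at hx ⊢
    rw [← smul_pow', hx, smul_one]).resolve_left fun e => u1 (mem_bot.1 (e.le (show u ^ 2 = 1 by rwa [sq])))
  exact (sq v).symm.trans (this.ge (mem_top v))

/-- Let a finite group G that is not solvable act faithfully and primitively on a finite set with p ^ d points (p prime), with a non-trivial abelian normal subgroup acting regularly (affine type) and with non-trivial point stabilizers each acting primitively on every one of its orbits (an insoluble extremely primitive group of affine type). Then p = 2; and if moreover G is not 2-transitive, then a point stabilizer is almost simple (it has a non-abelian simple normal subgroup with trivial centralizer). -/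
theorem result {G : Type*} [Group G] [Finite G] {Ω : Type*} [Fintype Ω] [MulAction G Ω] [FaithfulSMul G Ω] (p d : ℕ) (hp : p.Prime) (hcard : Fintype.card Ω = p ^ d) (hsol : ¬ Group.IsSolvable G)
    (N : Subgroup G) [N.Normal] (hN : N ≠ ⊥) (hNc : IsMulCommutative N) (hNreg : ∀ ω : Ω, MulAction.stabilizer N ω = ⊥)
    (hprim : MulAction.IsPreprimitive G Ω) (hH : ∀ α : Ω, MulAction.stabilizer G α ≠ ⊥) (hep : ∀ (α : Ω) (ω : Ω), MulAction.IsPreprimitive (MulAction.stabilizer G α) (MulAction.orbit (MulAction.stabilizer G α) ω)) (α : Ω) :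
    p = 2 ∧ (¬ MulAction.IsMultiplyPretransitive G Ω 2 → ∃ T : Subgroup (MulAction.stabilizer G α), T.Normal ∧ IsSimpleGroup T ∧ ¬ IsMulCommutative T ∧ Subgroup.centralizer (T : Set (MulAction.stabilizer G α)) = ⊥) := by
  have := hprim
  have : Nonempty Ω := ⟨α⟩
  have ht := isPretransitive_of_normal (α := Ω) N hN
  let _ : MulDistribMulAction (stabilizer G α) N :=
    MulDistribMulAction.compHom N ((MulAut.conjNormal (H := N)).comp (stabilizer G α).subtype)
  have hsm : ∀ (h : stabilizer G α) (n : N), (h • n).1 = h * n * h.1⁻¹ := fun _ _ => rfl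
  have hfix : ∀ (h : stabilizer G α) (n : N), h • n = n ↔ h.1 • n.1 • α = n.1 • α := fun h n => by
    rw [smul_fix_iff hNreg h.2 n.2, Subtype.ext_iff, hsm, mul_inv_eq_iff_eq_mul]
  have hone : ∀ h : stabilizer G α, (∀ n : N, h • n = n) → h = 1 := fun h e =>
    Subtype.ext (eq_one_of_centralizes ht (fun m hm => ((smul_fix_iff hNreg h.2 hm).1 ((hfix h ⟨m, hm⟩).1 (e _))).symm) h.2)
  have : FaithfulSMul (stabilizer G α) N := ⟨fun {a b} e => (inv_mul_eq_one.1 (hone (b⁻¹ * a) fun n => by
    rw [mul_smul, e, inv_smul_smul])).symm⟩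
  have hne : ∀ v : N, v ≠ 1 → v.1 • α ≠ α := fun v h e =>
    h (mem_bot.1 ((hNreg α).le (show v ∈ stabilizer N α from e)))
  have hmax : ∀ v : N, v ≠ 1 → IsCoatom (stabilizer (stabilizer G α) v) := fun v h => by
    obtain ⟨c, hc⟩ := S3493.exists_ne' (hH α) (hne v h)
    have := hep α (v.1 • α)
    convert isCoatom_stabilizer (G := stabilizer G α) hc using 1
    ext g
    rw [mem_stabilizer_iff, mem_stabilizer_iff, hfix, Subtype.ext_iff]; rfl
  have hirr : ∀ M : Subgroup (stabilizer G α), M.Normal → M ≠ ⊥ → ∀ L : Subgroup N, (∀ m ∈ M, ∀ x ∈ L, m • x ∈ L) →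
      L = ⊥ ∨ L = ⊤ := fun M hM h0 L hL =>
    (extPrim_irreducible hep hNreg (M := M.map (stabilizer G α).subtype) (mt map_subtype_eq_bot_iff.1 h0) (map_subtype_le M)
      (fun g hg => mem_normalizer_of_conj_le (conj_le_iff.2 (by
        rintro _ ⟨x, hx, rfl⟩; exact ⟨_, hM.conj_mem x hx ⟨g, hg⟩, rfl⟩))) (map_subtype_le L) (by
        rintro _ ⟨m, hm, rfl⟩
        exact mem_normalizer_of_conj_le (conj_le_iff.2 (by rintro _ ⟨x, hx, rfl⟩; exact ⟨_, hL m hm x hx, rfl⟩)))).imp
      map_subtype_eq_bot_iff.1 map_subtype_eq_self_iff.1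
  have hs : ¬ Group.IsSolvable (stabilizer G α) := fun _ => hsol (by
    refine (Group.isSolvable_iff_subgroup_quotient N).2 ⟨inferInstance, Group.isSolvable_of_surjective
      (f := (QuotientGroup.mk' N).comp (stabilizer G α).subtype) fun q => ?_⟩
    obtain ⟨g, rfl⟩ := QuotientGroup.mk_surjective q
    obtain ⟨n, hn, k, hk, rfl⟩ := exists_mul_stabilizer ht α g
    exact ⟨⟨k, hk⟩, by simp [(QuotientGroup.eq_one_iff n).2 hn]⟩)
  have := (nontrivial_iff_ne_bot _).2 (hH α)
  have h2 := exp_two hs (fun L h => hirr ⊤ inferInstance top_ne_bot L fun m _ => h m) hmax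
  obtain ⟨v, hv⟩ := ne_bot_iff_exists_ne_one.1 hN
  refine ⟨?_, fun _ => ?_⟩
  · have := orderOf_dvd_natCard v
    rw [orderOf_eq_prime (p := 2) (by rw [sq, h2]) hv, card_eq_of_regular ht hNreg, Nat.card_eq_fintype_card, hcard] at this
    exact ((Nat.prime_dvd_prime_iff_eq Nat.prime_two hp).1 (Nat.prime_two.dvd_of_dvd_pow this)).symm
  obtain ⟨M, hM⟩ := exists_isMinNormal (G := stabilizer G α)
  have := hM.normal
  by_cases hc : IsMulCommutative M
  · obtain ⟨F, _, _, f, ψ, h1, -, h3, -⟩ := exists_field_of_irreducible (MulDistribMulAction.toMonoidEnd M N)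
      (fun a b => by rw [← map_mul, mul_comm, map_mul]) (fun L h => hirr M this hM.ne_bot L fun m hm => h ⟨m, hm⟩) hv
    have : IsCyclic M := isCyclic_of_injective_ringHom ψ ((injective_iff_map_eq_one _).2 fun a h =>
      Subtype.ext (hone a fun n => f.injective ((h3 a n).trans (by rw [h, one_mul]))))
    have := solv_aut M
    have : Nonempty (orbit (stabilizer G α) (v.1 • α)) := ⟨⟨_, mem_orbit_self _⟩⟩
    have := hep α (v.1 • α)
    have := extPrim_faithfulSMul hep (hne v hv)
    have h4 := isPretransitive_of_normal (α := orbit (stabilizer G α) (v.1 • α)) M hM.ne_bot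
    refine absurd (Group.isSolvable_of_ker_le_range M.subtype (MulAut.conjNormal (H := M)) fun g hg => ?_) hs
    rw [range_subtype, ← centralizer_eq_of_transitive h4 h4 (le_centralizer_iff_isMulCommutative.2 hc)]
    refine fun m (hm : m ∈ M) => (mul_inv_eq_iff_eq_mul.1 ?_).symm
    exact congrArg Subtype.val (DFunLike.congr_fun hg ⟨m, hm⟩)
  obtain ⟨T, hT⟩ := exists_fac hM.ne_bot
  obtain rfl := hT.eq_of_extreme hM hc (hirr M this hM.ne_bot) hmax h2
  refine ⟨T, this, hT.simple hM, hc, ?_⟩
  by_contra h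
  obtain ⟨t, h1, t1, t2⟩ := hT.exists_inv hM hc
  obtain ⟨u, u1, hu⟩ : ∃ u : N, u ≠ 1 ∧ t • u = u := by
    by_cases h : t • v = v
    · exact ⟨v, hv, h⟩
    exact ⟨v * t • v, fun e => h (mul_left_cancel (e.trans (h2 v).symm)),
      by rw [smul_mul', ← mul_smul, t2, one_smul, mul_comm]⟩
  have := hep α (u.1 • α)
  have := extPrim_faithfulSMul hep (hne u u1)
  exact t1 (eq_one_of_centralizes (isPretransitive_of_normal (α := orbit (stabilizer G α) (u.1 • α)) _ h)
    (fun m hm => (hm t h1).symm) (a := ⟨_, mem_orbit_self _⟩) (Subtype.ext ((hfix t u).1 hu)))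

end Cfsg.Agent.S3521
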