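import Cfsg.Statements.S3532
import Cfsg.Agent.Lib.Spec.PSL2

set_option autoImplicit false
open Cfsg

namespace Cfsg.Agent.S3532

section
open Cfsg.Lib.Spec Cfsg.Lib.PSL2

theorem aux {p a b n : ℕ} (hpa : a.Coprime p) (hpb : b.Coprime p) :
    (∃ x, (x ∣ p ∨ x ∣ a) ∧ ∃ y, (y ∣ p ∨ y ∣ b) ∧ n = x.lcm y) ↔
      ∃ x, (x ∣ p ∨ x ∣ a ∨ x ∣ b) ∧ ∃ y, (y ∣ p ∨ y ∣ a ∨ y ∣ b) ∧ n = x.lcm y := by
  constructor
  · rintro ⟨x, hx, y, hy, rfl⟩
    exact ⟨x, by tauto, y, by tauto, rfl⟩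
  · rintro ⟨x, hx | hx | hx, y, hy | hy | hy, rfl⟩
    · exact ⟨x, .inl hx, y, .inl hy, rfl⟩
    · exact ⟨y, .inr hy, x, .inl hx, Nat.lcm_comm _ _⟩
    · exact ⟨x, .inl hx, y, .inr hy, rfl⟩
    · exact ⟨x, .inr hx, y, .inl hy, rfl⟩
    · exact ⟨_, .inr (Nat.lcm_dvd hx hy), 1, .inl (one_dvd _), by simp⟩
    · exact ⟨x, .inr hx, y, .inr hy, rfl⟩
    · exact ⟨y, .inl hy, x, .inr hx, Nat.lcm_comm _ _⟩
    · exact ⟨y, .inr hy, x, .inr hx, Nat.lcm_comm _ _⟩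
    · exact ⟨1, .inl (one_dvd _), _, .inr (Nat.lcm_dvd hx hy), by simp⟩

end

/-- Let q ≥ 4 be a prime power and L = PSL(2,q). There is a finite solvable group with the same set of element orders as L × L (so L × L is not determined by its spectrum). -/
theorem result {F : Type*} [Field F] [Fintype F] (hF : 4 ≤ Fintype.card F) :
    ∃ (H : Type) (_ : Group H) (_ : Finite H), Group.IsSolvable H ∧
      Set.range (orderOf : H → ℕ) = Set.range (orderOf : Matrix.ProjectiveSpecialLinearGroup (Fin 2) F × Matrix.ProjectiveSpecialLinearGroup (Fin 2) F → ℕ) := by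
  open Cfsg.Lib.Spec Cfsg.Lib.PSL2 in
  obtain ⟨p, hp⟩ := CharP.exists F
  haveI : Fact p.Prime := ⟨CharP.char_is_prime F p⟩
  have hs := sp_psl2 (F := F) p
  have hpa : ∀ a, a ∈ sp (Matrix.ProjectiveSpecialLinearGroup (Fin 2) F) → (¬ p ∣ a) → a.Coprime p ∧ a ≠ 0 := fun a h1 h2 =>
    ⟨((Fact.out : p.Prime).coprime_iff_not_dvd.2 h2).symm, (pos_of_mem_sp h1).ne'⟩
  obtain ⟨a1, a2⟩ := hpa _ (hs.superset (.inr (.inl dvd_rfl)))
    fun h => not_char_dvd_card_sub_one p (h.trans (Nat.div_dvd_of_dvd (Nat.gcd_dvd_right _ _)))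
  obtain ⟨b1, b2⟩ := hpa _ (hs.superset (.inr (.inr dvd_rfl))) fun h => not_char_dvd_card_add_one p
    (h.trans (Nat.div_dvd_of_dvd ((exists_torusPair_nonsplit (F := F) (K := AlgebraicClosure F)).choose_spec.choose_spec.gcd_dvd)))
  obtain ⟨A, _, _, hA1, hA2, -⟩ := exists_frob Fact.out a1 a2
  obtain ⟨B, _, _, hB1, hB2, -⟩ := exists_frob Fact.out b1 b2
  refine ⟨A × B, inferInstance, inferInstance, inferInstance, Set.ext fun n => ?_⟩
  rw [mem_sp_prod, mem_sp_prod, hs, hA2, hB2]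
  exact aux a1 b1

end Cfsg.Agent.S3532
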