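import Cfsg.Statements.S3547
import Cfsg.Agent.Lib.Misc.Derangement

set_option autoImplicit false
open Cfsg

namespace Cfsg.Agent.S3547



/-- Let G act faithfully and transitively on a finite set Ω, let D be the subgroup generated by the derangements, and let r_G and r_D be the numbers of orbits of G and of D on ordered pairs of points (the permutation ranks). Then r_D − 1 = (r_G − 1)·[G : D]. -/
theorem result {G Ω : Type*} [Group G] [Finite G] [MulAction G Ω] [FaithfulSMul G Ω] [Finite Ω]
    (htrans : MulAction.IsPretransitive G Ω) :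
    Nat.card (MulAction.orbitRel.Quotient ↥(Subgroup.closure {g : G | ∀ ω : Ω, g • ω ≠ ω}) (Ω × Ω)) - 1 =
      (Nat.card (MulAction.orbitRel.Quotient G (Ω × Ω)) - 1) * (Subgroup.closure {g : G | ∀ ω : Ω, g • ω ≠ ω}).index := by
  classical
  set D := Subgroup.closure {g : G | ∀ ω : Ω, g • ω ≠ ω} with hDdef
  rcases isEmpty_or_nonempty Ω with h | h
  · have h1 : IsEmpty (MulAction.orbitRel.Quotient D (Ω × Ω)) := ⟨fun q => h.elim q.out.1⟩
    have h2 : IsEmpty (MulAction.orbitRel.Quotient G (Ω × Ω)) := ⟨fun q => h.elim q.out.1⟩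
    simp
  · obtain ⟨-, h2⟩ := Cfsg.Lib.Misc.transitive_of_derangements_mem (X := Ω) D
      (fun g hg => Subgroup.subset_closure hg)
    have := Fintype.ofFinite G
    have h1 := Cfsg.Lib.Misc.sum_card_fixedBy_eq (G := G) (X := Ω × Ω)
    rw [← Finset.sum_filter_add_sum_filter_not _ (· ∈ D),
      Cfsg.Lib.Misc.sum_card_fixedBy_subgroup_eq] at h1
    have h3 : ∑ g ∈ Finset.univ.filter (· ∉ D), Nat.card (MulAction.fixedBy (Ω × Ω) g)
        = ∑ g ∈ Finset.univ.filter (· ∉ D), 1 := by
      apply Finset.sum_congr rfl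
      intro g hg
      have hg' := h2 g (Finset.mem_filter.1 hg).2
      have e : MulAction.fixedBy (Ω × Ω) g ≃ MulAction.fixedBy Ω g × MulAction.fixedBy Ω g :=
        (Equiv.setCongr (by ext ⟨x, y⟩; simp [Prod.ext_iff])).trans (Equiv.Set.prod _ _)
      rw [Nat.card_congr e, Nat.card_prod, hg']
    have h4 : Nat.card D + (Finset.univ.filter (· ∉ D)).card = Nat.card G := by
      rw [Nat.card_eq_fintype_card, Fintype.card_subtype, Finset.card_filter_add_card_filter_not,
        Nat.card_eq_fintype_card, Finset.card_univ]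
    rw [h3] at h1
    simp only [Finset.sum_const, smul_eq_mul, mul_one] at h1
    have h5 := D.card_mul_index
    have h6 : 0 < Nat.card D := Nat.card_pos
    have : Nonempty (MulAction.orbitRel.Quotient D (Ω × Ω)) := ⟨Quotient.mk'' (Classical.arbitrary _)⟩
    have : Nonempty (MulAction.orbitRel.Quotient G (Ω × Ω)) := ⟨Quotient.mk'' (Classical.arbitrary _)⟩
    have h7 : 0 < Nat.card (MulAction.orbitRel.Quotient D (Ω × Ω)) := Nat.card_pos
    have h8 : 0 < Nat.card (MulAction.orbitRel.Quotient G (Ω × Ω)) := Nat.card_pos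
    obtain ⟨a, ha⟩ := Nat.exists_eq_add_of_lt h7
    obtain ⟨b, hb⟩ := Nat.exists_eq_add_of_lt h8
    rw [ha, hb] at h1 ⊢
    simp only [zero_add, Nat.add_sub_cancel] at h1 ⊢
    apply Nat.eq_of_mul_eq_mul_left h6
    have : Nat.card D * (b * D.index) = b * Nat.card G := by rw [← h5]; ring
    rw [this]
    nlinarith

end Cfsg.Agent.S3547
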