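import Cfsg.Statements.S3548
import Cfsg.Agent.Lib.Misc.Derangement

set_option autoImplicit false
open Cfsg

namespace Cfsg.Agent.S3548



/-- Let G act faithfully and transitively on a finite set with n ≥ 2 points and let D be the subgroup generated by the derangements. Then the index of D in G divides n − 1, and if it equals n − 1 then n is a prime power. -/
theorem result {G Ω : Type*} [Group G] [Finite G] [MulAction G Ω] [FaithfulSMul G Ω] [Finite Ω]
    (htrans : MulAction.IsPretransitive G Ω) (hΩ : 2 ≤ Nat.card Ω) :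
    (Subgroup.closure {g : G | ∀ ω : Ω, g • ω ≠ ω}).index ∣ Nat.card Ω - 1 ∧
    ((Subgroup.closure {g : G | ∀ ω : Ω, g • ω ≠ ω}).index = Nat.card Ω - 1 → IsPrimePow (Nat.card Ω)) := by
  classical
  set D := Subgroup.closure {g : G | ∀ ω : Ω, g • ω ≠ ω} with hDdef
  have hnt : Nontrivial Ω := Finite.one_lt_card_iff_nontrivial.1 hΩ
  have hD : ∀ g : G, (∀ x : Ω, g • x ≠ x) → g ∈ D := fun g hg => Subgroup.subset_closure hg
  refine ⟨Cfsg.Lib.Misc.index_dvd_card_sub_one D hD, fun hidx => ?_⟩
  obtain ⟨h1, h2⟩ := Cfsg.Lib.Misc.transitive_of_derangements_mem (X := Ω) D hD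
  have hnorm : D.Normal := by
    constructor
    intro n hn g
    have : D.map (MulAut.conj g).toMonoidHom ≤ D := by
      rw [hDdef, MonoidHom.map_closure]
      apply Subgroup.closure_mono
      rintro _ ⟨x, hx, rfl⟩ ω hω
      apply hx (g⁻¹ • ω)
      simp only [MulEquiv.toMonoidHom_eq_coe, MonoidHom.coe_coe, MulAut.conj_apply, mul_smul] at hω
      rw [eq_inv_smul_iff]; exact hω
    exact this ⟨n, hn, rfl⟩
  obtain ⟨a⟩ : Nonempty Ω := inferInstance
  -- each nontrivial suborbit is everything but `a`, and two-point stabilisers equal `D ⊓ G_a`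
  have horb : ∀ b ≠ a, MulAction.orbit (MulAction.stabilizer G a) b = {a}ᶜ := by
    intro b hb
    have hdv := Cfsg.Lib.Misc.index_dvd_card_suborbit D h2 hb.symm
    have hsub : MulAction.orbit (MulAction.stabilizer G a) b ⊆ {a}ᶜ := by
      rintro _ ⟨g, rfl⟩ hg
      apply hb
      have h3 : (g : G) • b = (g : G) • a := by rw [g.2]; exact hg
      exact smul_left_cancel _ h3
    apply Set.eq_of_subset_of_ncard_le hsub
    have hpos : 0 < (MulAction.orbit (MulAction.stabilizer G a) b).ncard :=
      (Set.ncard_pos).2 ⟨b, MulAction.mem_orbit_self b⟩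
    have h4 := Set.ncard_add_ncard_compl ({a} : Set Ω)
    rw [Set.ncard_singleton] at h4
    have := Nat.le_of_dvd hpos hdv
    omega
  have hreg : ∀ d ∈ D, d • a = a → d = 1 := by
    intro d hd hda
    apply FaithfulSMul.eq_of_smul_eq_smul (α := Ω)
    intro b
    rw [one_smul]
    by_cases hb : b = a
    · rw [hb, hda]
    · have hle : MulAction.stabilizer (MulAction.stabilizer G a) b ≤ D.subgroupOf (MulAction.stabilizer G a) :=
        fun g hg => Cfsg.Lib.Misc.mem_of_fixes_two h2 (Ne.symm hb) g.2 hg
      have hi : (MulAction.stabilizer (MulAction.stabilizer G a) b).index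
          = (D.subgroupOf (MulAction.stabilizer G a)).index := by
        rw [MulAction.index_stabilizer, horb b hb]
        have h5 := Cfsg.Lib.Misc.relIndex_stabilizer_of_transitive D a
        rw [Subgroup.relIndex] at h5
        have h4 := Set.ncard_add_ncard_compl ({a} : Set Ω)
        rw [Set.ncard_singleton] at h4
        omega
      have heq := Subgroup.eq_of_le_of_card_ge hle (by
        have e1 := (MulAction.stabilizer (MulAction.stabilizer G a) b).card_mul_index
        have e2 := (D.subgroupOf (MulAction.stabilizer G a)).card_mul_index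
        rw [hi, ← e2] at e1
        exact (Nat.eq_of_mul_eq_mul_right (Nat.pos_of_ne_zero Subgroup.FiniteIndex.index_ne_zero) e1).ge)
      have : (⟨d, hda⟩ : MulAction.stabilizer G a) ∈ MulAction.stabilizer (MulAction.stabilizer G a) b := by
        rw [heq]; exact hd
      exact this
  have hcard : Nat.card D = Nat.card Ω := by
    rw [← MulAction.index_stabilizer_of_transitive D a]
    have : MulAction.stabilizer D a = ⊥ := by
      rw [eq_bot_iff]; intro d hd
      exact Subtype.ext (hreg d d.2 hd)
    rw [this, Subgroup.index_bot]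
  obtain ⟨p, hp, hpd⟩ := Nat.exists_prime_and_dvd (show Nat.card D ≠ 1 by omega)
  have := Fact.mk hp
  obtain ⟨c, hc⟩ := exists_prime_orderOf_dvd_card' (G := D) p hpd
  have hc1 : (c : G) • a ≠ a := by
    intro h
    have : c = 1 := Subtype.ext (hreg c c.2 h)
    rw [this, orderOf_one] at hc; exact hp.one_lt.ne hc
  have hcp : (c : G) ^ p = 1 := by
    rw [← hc]; exact congrArg Subtype.val (pow_orderOf_eq_one c)
  have hP : IsPGroup p D := by
    intro d
    refine ⟨1, ?_⟩
    rw [pow_one]
    by_cases hd : (d : G) • a = a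
    · have : d = 1 := Subtype.ext (hreg d d.2 hd)
      rw [this, one_pow]
    · have : (d : G) • a ∈ MulAction.orbit (MulAction.stabilizer G a) ((c : G) • a) := by
        rw [horb _ hc1]; exact hd
      obtain ⟨g, hg⟩ := this
      have hg' : (g : G) • (c : G) • a = (d : G) • a := hg
      have hga : (g : G)⁻¹ • a = a := (Subgroup.inv_mem _ g.2 : (g : G)⁻¹ ∈ MulAction.stabilizer G a)
      have h6 : (d : G)⁻¹ * ((g : G) * c * (g : G)⁻¹) = 1 := by
        apply hreg _ (D.mul_mem (D.inv_mem d.2) (hnorm.conj_mem _ c.2 _))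
        rw [mul_smul, mul_smul, mul_smul, hga, hg', inv_smul_smul]
      rw [inv_mul_eq_one] at h6
      apply Subtype.ext
      rw [Subgroup.coe_pow, h6, conj_pow, hcp]; simp
  obtain ⟨k, hk⟩ := IsPGroup.iff_card.1 hP
  rw [← hcard, hk]
  refine (hp.isPrimePow).pow ?_
  rintro rfl
  rw [pow_zero] at hk; omega

end Cfsg.Agent.S3548
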