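import Cfsg.Statements.S3550
import Cfsg.Agent.Lib.DG.Fin
import Cfsg.Agent.S0675

set_option autoImplicit false
open Cfsg

namespace Cfsg.Agent.S3550

/-- Let G act faithfully and primitively on a finite set with n ≥ 2 points and suppose G has no non-trivial abelian normal subgroup (G is not of affine type). Let D be the subgroup generated by the derangements. Then the index of D in G is at most √n − 1. -/
theorem result {G Ω : Type*} [Group G] [Finite G] [MulAction G Ω] [FaithfulSMul G Ω] [Finite Ω]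
    (hprim : MulAction.IsPreprimitive G Ω) (hΩ : 2 ≤ Nat.card Ω) (hna : ∀ N : Subgroup G, N.Normal → IsMulCommutative ↥N → N = ⊥) :
    ((Subgroup.closure {g : G | ∀ ω : Ω, g • ω ≠ ω}).index : ℝ) ≤ Real.sqrt (Nat.card Ω) - 1 := by
  classical
  have key : ¬ ∃ R : Subgroup G, R.Normal ∧ R ≠ ⊥ ∧ ∀ x ∈ R, ∀ y ∈ R, Commute x y :=
    fun ⟨R, h1, h2, h3⟩ => h2 (hna R h1 ⟨⟨fun a b => Subtype.ext (h3 a a.2 b b.2).eq⟩⟩)
  by_cases h4 : 4 ≤ Nat.card Ω
  · exact (Lib.DG.dich h4).resolve_right fun h => key h.1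
  exfalso
  have := Fintype.ofFinite Ω
  haveI := S0675.solvable_of_le_three (α := Ω) (by rw [← Nat.card_eq_fintype_card]; omega)
    (MulAction.toPermHom G Ω).range
  haveI : Group.IsSolvable G := solvable_of_solvable_injective
    (f := (MulAction.toPermHom G Ω).rangeRestrict)
    ((MonoidHom.rangeRestrict_injective_iff).2 MulAction.toPerm_injective)
  haveI := Finite.one_lt_card_iff_nontrivial.1 (show 1 < Nat.card Ω by omega)
  obtain ⟨a, b, hab⟩ := exists_pair_ne Ω
  obtain ⟨g, hg⟩ := MulAction.exists_smul_eq G a b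
  obtain ⟨M, hM, -, h1, h2⟩ := Lib.Perm.exists_minimal_normal_le (⊤ : Subgroup G) fun e =>
    hab (by rw [← hg, (Subgroup.mem_bot.1 (e ▸ Subgroup.mem_top g) : g = 1), one_smul])
  exact h1 (hna M hM (Lib.Perm.comm_of_minimal_normal_of_solvable h2))

end Cfsg.Agent.S3550
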