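import Cfsg.Statements.S3560
import Mathlib

set_option autoImplicit false
open Cfsg

namespace Cfsg.Agent.S3560

open Equiv MulAction

section
variable {ι A X : Type*}

/-- adjacency in the Hamming graph -/
def Adj (u v : ι → A) : Prop := ∃ i, u i ≠ v i ∧ ∀ j, j ≠ i → u j = v j

/-- automorphisms of the Hamming graph, transported along `e` -/
def Ham (e : X ≃ (ι → A)) : Subgroup (Perm X) where
  carrier := {σ | ∀ a b, Adj (e (σ a)) (e (σ b)) ↔ Adj (e a) (e b)}
  one_mem' := fun _ _ => Iff.rfl
  mul_mem' := fun {a b} ha hb x y => (ha _ _).trans (hb x y)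
  inv_mem' := fun {a} ha x y => by simpa using (ha (a⁻¹ x) (a⁻¹ y)).symm

lemma mem_ham (e : X ≃ (ι → A)) (s : Perm ι) (π : ι → Perm A) :
    ∃ σ ∈ Ham e, ∀ a k, e (σ a) k = π k (e a (s k)) := by
  refine ⟨e.symm.permCongr ((arrowCongr s.symm (Equiv.refl A)).trans (piCongrRight π)), ?_, ?_⟩
  · intro a b
    simp only [Adj, permCongr_apply, symm_symm, apply_symm_apply, trans_apply, piCongrRight_apply,
      Pi.map_apply, arrowCongr_apply, coe_refl, Function.comp, id, ne_eq, EmbeddingLike.apply_eq_iff_eq]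
    constructor
    · rintro ⟨i, h1, h2⟩
      exact ⟨s i, h1, fun j hj => by simpa using h2 (s.symm j) (by rintro rfl; simp at hj)⟩
    · rintro ⟨i, h1, h2⟩
      exact ⟨s.symm i, by simpa using h1, fun j hj => h2 _ (by rintro rfl; simp at hj)⟩
  · intro a k; simp

lemma ham_trans [DecidableEq A] (e : X ≃ (ι → A)) (a b : X) : ∃ σ ∈ Ham e, σ a = b := by
  obtain ⟨σ, h1, h2⟩ := mem_ham e 1 fun k => swap (e a k) (e b k)
  exact ⟨σ, h1, e.injective (funext fun k => by simp [h2])⟩

lemma ham_prim [Fintype ι] [Fintype A] (hA : 3 ≤ Fintype.card A) (e : X ≃ (ι → A)) :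
    IsPreprimitive (Ham e) X := by
  classical
  haveI : IsPretransitive (Ham e) X := ⟨fun a b => by
    obtain ⟨σ, h1, h2⟩ := ham_trans e a b
    exact ⟨⟨σ, h1⟩, h2⟩⟩
  refine ⟨fun {B} hB => ?_⟩
  by_cases hs : B.Subsingleton
  · exact .inl hs
  right
  obtain ⟨x, hx, y, hy, hxy⟩ := Set.not_subsingleton_iff.1 hs
  have hfix : ∀ σ ∈ Ham e, ∀ a ∈ B, σ a ∈ B → ∀ b ∈ B, σ b ∈ B := fun σ hσ a ha h b hb => by
    have := hB.smul_eq_of_mem (g := ⟨σ, hσ⟩) ha h
    rw [← this]; exact ⟨b, hb, rfl⟩
  obtain ⟨i, hi⟩ : ∃ i, e x i ≠ e y i := by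
    by_contra! h; exact hxy (e.injective (funext h))
  obtain ⟨z, hz1, hz2⟩ : ∃ z, z ≠ e x i ∧ z ≠ e y i := by
    by_contra! h
    have : (Finset.univ : Finset A) ⊆ {e x i, e y i} := fun z _ => by
      by_cases h1 : z = e x i
      · simp [h1]
      · simp [h z h1]
    have h1 := (Finset.card_le_card this).trans (Finset.card_le_two)
    rw [Finset.card_univ] at h1
    omega
  obtain ⟨σ, hσ, hσ'⟩ := mem_ham e 1 (Pi.mulSingle i (swap (e y i) z))
  have hy' : σ y ∈ B := hfix σ hσ x hx (by
    convert hx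
    refine e.injective (funext fun k => ?_)
    rw [hσ']
    by_cases hk : k = i
    · subst hk; simp [swap_apply_of_ne_of_ne hi hz1.symm]
    · simp [hk]) y hy
  have hnb : ∀ w, Adj (e y) (e w) → w ∈ B := by
    rintro w ⟨j, hj, hj'⟩
    obtain ⟨τ, hτ, hτ'⟩ := mem_ham e (swap i j) fun k =>
      (if k = j then swap (swap (e y i) (e y j) z) (e w j) else 1) * swap (e y (swap i j k)) (e y k)
    have h1 : τ y = y := e.injective (funext fun k => by
      rw [hτ']
      by_cases hk : k = j
      · subst hk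
        simp only [if_true, Perm.mul_apply, swap_apply_left]
        refine swap_apply_of_ne_of_ne (fun h => hz2 ?_) hj
        rw [eq_comm, swap_apply_eq_iff] at h
        simpa using h
      · simp [hk])
    convert hfix τ hτ y hy (by rwa [h1]) _ hy'
    refine e.injective (funext fun k => ?_)
    rw [hτ', hσ']
    by_cases hk : k = j
    · subst hk; simp
    · have : swap i j k ≠ i := fun h => hk (by rw [swap_apply_eq_iff] at h; simpa using h)
      simp [hk, this, hj' k hk]
  have hnb' : ∀ v ∈ B, ∀ w, Adj (e v) (e w) → w ∈ B := by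
    intro v hv w h
    obtain ⟨τ, hτ, rfl⟩ := ham_trans e y v
    obtain ⟨w, rfl⟩ := τ.surjective w
    exact hfix τ hτ y hy hv _ (hnb w ((hτ _ _).1 h))
  have key : ∀ s : Finset ι, ∀ w, (∀ k ∉ s, e w k = e y k) → w ∈ B := by
    intro s
    induction s using Finset.induction_on with
    | empty => intro w h; rwa [e.injective (funext fun k => h k (by simp))]
    | insert j s hj ih =>
      intro w h
      have h1 := ih (e.symm (Function.update (e w) j (e y j))) fun k hk => by
        by_cases hkj : k = j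
        · simp [hkj]
        · simp [hkj, h k (by simp [hk, hkj])]
      by_cases h2 : e y j = e w j
      · simpa [h2] using h1
      · exact hnb' _ h1 w ⟨j, by simpa using h2, fun k hk => by simp [hk]⟩
  exact Set.eq_univ_of_forall fun w => key Finset.univ w (by simp)

lemma ham_not_two [Nontrivial ι] [Nontrivial A] (e : X ≃ (ι → A)) :
    ¬ IsMultiplyPretransitive (Ham e) X 2 := by
  classical
  rw [is_two_pretransitive_iff]
  intro h
  obtain ⟨i, j, hij⟩ := exists_pair_ne ι
  obtain ⟨a, b, hab⟩ := exists_pair_ne A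
  obtain ⟨σ, h1, h2⟩ := h (a := e.symm fun _ => a) (b := e.symm (Function.update (fun _ => a) i b))
    (c := e.symm fun _ => a) (d := e.symm fun _ => b)
    (fun h => hab (by simpa using congrFun (e.symm.injective h) i))
    (fun h => hab (congrFun (e.symm.injective h) i))
  have := (σ.2 (e.symm fun _ => a) (e.symm (Function.update (fun _ => a) i b))).2
    ⟨i, by simpa using hab, fun k hk => by simp [hk]⟩
  rw [show σ.1 _ = _ from h1, show σ.1 _ = _ from h2] at this
  obtain ⟨k, -, hk⟩ := this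
  simp only [apply_symm_apply] at hk
  by_cases hik : i = k
  · exact hab (hk j (hik ▸ hij.symm))
  · exact hab (hk i hik)

end

/-- Let K be a finite group isomorphic to a direct product of r ≥ 2 groups all of the same order m ≥ 3. Then K is not a B-group: there is a primitive but not doubly transitive permutation group (on some finite set) containing a regular subgroup isomorphic to K. -/
theorem result {K : Type*} [Group K] [Finite K] {ι : Type*} [Fintype ι] (F : ι → Type*) [∀ i, Group (F i)]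
    (hr : 2 ≤ Fintype.card ι) (m : ℕ) (hm : 3 ≤ m) (hcard : ∀ i, Nat.card (F i) = m) (e : K ≃* (∀ i, F i)) :
    ∃ (n : ℕ) (G R : Subgroup (Equiv.Perm (Fin n))), R ≤ G ∧ Nonempty (↥R ≃* K) ∧
      MulAction.IsPretransitive ↥R (Fin n) ∧ (∀ a : Fin n, MulAction.stabilizer ↥R a = ⊥) ∧
      MulAction.IsPreprimitive ↥G (Fin n) ∧ ¬ MulAction.IsMultiplyPretransitive ↥G (Fin n) 2 := by
  classical
  haveI : ∀ i, Finite (F i) := fun i => Nat.finite_of_card_ne_zero (by rw [hcard]; omega)
  let f : ∀ i, F i ≃ Fin m := fun i => Finite.equivFinOfCardEq (hcard i)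
  let c : Fin (Nat.card K) ≃ K := (Finite.equivFin K).symm
  let E : Fin (Nat.card K) ≃ (ι → Fin m) := (c.trans e.toEquiv).trans (Equiv.piCongrRight f)
  let φ : K →* Equiv.Perm (Fin (Nat.card K)) :=
    c.symm.permCongrHom.toMonoidHom.comp (MulAction.toPermHom K K)
  have hφ : ∀ k a, φ k a = c.symm (k * c a) := fun k a => rfl
  have hinj : Function.Injective φ := fun k l h => by
    simpa [hφ] using congrArg (fun σ : Equiv.Perm _ => σ (c.symm 1)) h
  haveI : Nontrivial ι := Fintype.one_lt_card_iff_nontrivial.1 hr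
  haveI : Nontrivial (Fin m) := Fin.nontrivial_iff_two_le.2 (by omega)
  refine ⟨Nat.card K, Ham E, φ.range, ?_, ⟨(MonoidHom.ofInjective hinj).symm⟩, ⟨fun a b => ?_⟩,
    fun a => ?_, ham_prim (by simpa using hm) E, ham_not_two E⟩
  · rintro _ ⟨k, rfl⟩ a b
    simp [Adj, E, hφ]
  · exact ⟨⟨φ (c b * (c a)⁻¹), _, rfl⟩, (hφ _ a).trans (by simp)⟩
  · rw [eq_bot_iff]
    rintro ⟨_, k, rfl⟩ h
    have h1 : φ k a = a := h
    rw [hφ, Equiv.symm_apply_eq, mul_eq_right] at h1
    simp [h1]

end Cfsg.Agent.S3560
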