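import Cfsg.Statements.S3571
import Cfsg.Agent.S0713
import Cfsg.Agent.Lib.Alt.Aut
import Cfsg.Agent.Lib.Inv.Count
import Cfsg.Agent.Lib.Misc.Sylvester

set_option autoImplicit false
open Cfsg

namespace Cfsg.Agent.S3571

open Equiv Equiv.Perm Subgroup MulAction
open scoped Pointwise

theorem fix {P X : Type*} [Group P] [MulAction P X] [Finite X] {p : ℕ} (hp : p.Prime) {y : P} (hy : orderOf y = p) {a : X}
    {S : Set X} (h : ∀ g ∈ zpowers y, g • a ∈ S) (hS : S.ncard < p) : y • a = a := by
  have := Fact.mk hp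
  obtain ⟨n, e⟩ := (IsPGroup.of_card (n := 1) ((Nat.card_zpowers y).trans (hy.trans (pow_one p).symm))).card_orbit a
  have k : (orbit (zpowers y) a).ncard ≤ S.ncard := Set.ncard_le_ncard (by rintro _ ⟨g, rfl⟩; exact h g g.2)
  rw [← Nat.card_coe_set_eq, e] at k
  obtain rfl : n = 0 := by_contra fun n0 => (Nat.le_self_pow n0 p).not_gt (k.trans_lt hS)
  exact (Set.ncard_le_one_iff_subsingleton.1 e.le) (mem_orbit a ⟨y, mem_zpowers y⟩) (mem_orbit_self a)

variable {α : Type*} [Fintype α] [DecidableEq α]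

theorem exists_rep {r j : ℕ} (hr : 2 ≤ r) (hj : j ≠ 0) (h : j * r ≤ Fintype.card α) (e : Even (j * (r + 1))) :
    ∃ x ∈ alternatingGroup α, orderOf x = r ∧ x.cycleType = .replicate j r := by
  obtain ⟨x, k⟩ := (exists_with_cycleType_iff α (m := .replicate j r)).2 ⟨by simpa using h, fun a b =>
    Multiset.eq_of_mem_replicate b ▸ hr⟩
  refine ⟨x, ?_, ?_, k⟩
  · rw [mem_alternatingGroup, sign_of_cycleType, k]; simpa [mul_add] using e.neg_one_pow
  · rw [← lcm_cycleType, k]
    exact Nat.dvd_antisymm (Multiset.lcm_dvd.2 fun a b => (Multiset.eq_of_mem_replicate b).dvd)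
      (Multiset.dvd_lcm (Multiset.mem_replicate.2 ⟨hj, rfl⟩))

theorem ord_eq {x y : Perm α} (h : IsConj x y) : orderOf x = orderOf y := by
  rw [← lcm_cycleType, ← lcm_cycleType, isConj_iff_cycleType_eq.1 h]

theorem of_not_dvd (h5 : 5 ≤ Fintype.card α) {H : Subgroup (Perm α)} {r : ℕ} (hr : r.Prime) (h : r ≤ Fintype.card α)
    (hd : ¬ r ∣ Nat.card H) : ∃ x ∈ alternatingGroup α, orderOf x = r ∧ ∀ y ∈ H, ¬ IsConj x y := by
  obtain ⟨x, a, b, -⟩ : ∃ x ∈ alternatingGroup α, orderOf x = r ∧ ∃ j, x.cycleType = .replicate j r := by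
    rcases hr.eq_two_or_odd' with rfl | e
    · exact let ⟨x, a, b, c⟩ := exists_rep le_rfl two_ne_zero (by omega) (by decide); ⟨x, a, b, _, c⟩
    · exact let ⟨x, a, b, c⟩ := exists_rep hr.two_le one_ne_zero (by omega) (by simpa using e.add_one); ⟨x, a, b, _, c⟩
  exact ⟨x, a, b, fun y c d => hd (b ▸ ord_eq d ▸ H.orderOf_dvd_natCard c)⟩

theorem key (h5 : 5 ≤ Fintype.card α) {G H : Subgroup (Perm α)} (hA : alternatingGroup α ≤ G) (hH : H ≤ G)
    (hm : ∀ K, H ≤ K → K ≤ G → K = H ∨ K = G) (hn : ¬ alternatingGroup α ≤ H) {r : ℕ} (hr : r.Prime)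
    (hd : r ∣ H.relIndex G) (hmax : ∀ s, s.Prime → s ∣ H.relIndex G → s ≤ r) :
    ∃ x ∈ alternatingGroup α, orderOf x = r ∧ ∀ y ∈ H, ¬ IsConj x y := by
  have := Fact.mk hr
  have c : Nat.card H * H.relIndex G = Nat.card G := by
    rw [← relIndex_bot_left, ← relIndex_bot_left, relIndex_mul_relIndex _ _ _ bot_le hH]
  have c' : Nat.card G ∣ (Fintype.card α).factorial := by
    rw [← Fintype.card_perm, ← Nat.card_eq_fintype_card]; exact card_subgroup_dvd_card G
  have rl : r ≤ Fintype.card α := hr.dvd_factorial.1 ((hd.mul_left _).trans (c ▸ c'))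
  by_cases tr : IsPretransitive H α
  · by_cases pr : IsPreprimitive H α
    · rcases le_or_gt (r + 3) (Fintype.card α) with l | l
      · rcases hr.eq_two_or_odd' with rfl | e
        · obtain ⟨x, a, b, c⟩ := exists_rep (α := α) (r := 3) (by decide) one_ne_zero (by omega) (by decide)
          have := Fact.mk Nat.prime_three
          obtain ⟨q, k⟩ := ((IsPGroup.of_card (n := 1) ((Nat.card_zpowers x).trans b)).comap_subtype (K := G)).nonempty_fixed_point_of_prime_not_dvd_card
            (G ⧸ H.subgroupOf G) fun k => absurd (hmax 3 Nat.prime_three k) (by decide)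
          obtain ⟨g, rfl⟩ := QuotientGroup.mk_surjective q
          have m := QuotientGroup.eq.1 (show (g : G ⧸ H.subgroupOf G) = (⟨x, hA a⟩ * g : G) from
            (k ⟨⟨x, hA a⟩, mem_zpowers x⟩).symm)
          refine (hn (alternatingGroup_le_of_isPreprimitive_of_isThreeCycle_mem pr ?_ (mem_subgroupOf.1 m))).elim
          exact (isConj_iff_cycleType_eq.1 (isConj_iff.2 ⟨(g⁻¹ : G), by simp [mul_assoc]⟩)).symm.trans c
        · obtain ⟨x, a, b, c⟩ := exists_rep (α := α) hr.two_le one_ne_zero (by omega) (by simpa using e.add_one)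
          refine ⟨x, a, b, fun y k f => hn ?_⟩
          rw [isConj_iff_cycleType_eq.1 f] at c
          exact S0713.result H pr hr h5 l (card_cycleType_eq_one.1 (by simp [c])) (by simp [← sum_cycleType, c]) k
      · refine of_not_dvd h5 hr rl fun k => ?_
        have := (Nat.mul_dvd_mul k hd).trans (c ▸ c')
        rw [← sq, hr.pow_dvd_iff_le_factorization (Nat.factorial_ne_zero _),
          Nat.factorization_factorial hr (b := 2) (Nat.log_lt_of_lt_pow (by omega) (by nlinarith))] at this
        simp only [Nat.Ico_succ_singleton, Finset.sum_singleton, pow_one, Nat.le_div_iff_mul_le hr.pos] at this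
        omega
    · obtain ⟨B, b1, b2⟩ : ∃ B : Set α, IsBlock H B ∧ ¬ IsTrivialBlock B := by
        by_contra! k; exact pr ⟨fun {B} => k B⟩
      rw [IsTrivialBlock, not_or] at b2
      have n (p) (hp : p.Prime) (l : Fintype.card α < 2 * p) : ¬ p ∣ Nat.card H := fun k => by
        have := Fact.mk hp
        obtain ⟨y, hy⟩ := exists_prime_orderOf_dvd_card' p k
        refine hp.one_lt.ne' (hy.symm.trans (orderOf_eq_one_iff.2 (Subtype.ext (Equiv.ext fun a => ?_))))
        obtain ⟨b, hb⟩ := (Set.not_subsingleton_iff.1 b2.1).nonempty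
        obtain ⟨g, rfl⟩ := exists_smul_eq H b a
        have e := fix hp hy (a := g • B) (S := orbit H B) (fun k _ => ⟨k * g, mul_smul ..⟩) (by
          have := mt b1.subsingleton_of_card_lt b2.1
          rw [Nat.card_eq_fintype_card] at this; omega)
        refine fix hp hy (S := g • B) (fun k m => ?_) (by
          have := mt b1.eq_univ_of_card_lt b2.2
          rw [Nat.card_eq_fintype_card] at this; rw [Set.ncard_smul_set]; omega)
        rw [← mem_stabilizer_iff.1 (zpowers_le.2 (mem_stabilizer_iff.2 e) m)]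
        exact Set.smul_mem_smul_set (Set.smul_mem_smul_set hb)
      obtain ⟨p, a, b, d⟩ := Nat.exists_prime_lt_and_le_two_mul (Fintype.card α / 2) (by omega)
      obtain ⟨x, e, f, -⟩ := of_not_dvd h5 a (by omega) (n p a (by omega))
      have := hmax p a ((a.dvd_mul.1 (c ▸ f ▸ G.orderOf_dvd_natCard (hA e))).resolve_left (n p a (by omega)))
      exact of_not_dvd h5 hr rl (n r hr (by omega))
  · obtain ⟨s, s0, s1, s2⟩ : ∃ s : Finset α, 0 < s.card ∧ 2 * s.card ≤ Fintype.card α ∧ H ≤ stabilizer _ s := by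
      obtain ⟨a, b, e⟩ : ∃ a b : α, b ∉ orbit H a := by
        by_contra! k; exact tr ⟨k⟩
      classical
      have k : H ≤ stabilizer _ (orbit H a).toFinset := fun g m => Finset.coe_injective (by
        rw [Finset.coe_smul_finset, Set.coe_toFinset]; exact smul_orbit (⟨g, m⟩ : H) a)
      rcases le_or_gt (2 * (orbit H a).toFinset.card) (Fintype.card α) with l | l
      · exact ⟨_, Finset.card_pos.2 ⟨a, by simp⟩, l, k⟩
      · exact ⟨(orbit H a).toFinsetᶜ, Finset.card_pos.2 ⟨b, by simpa⟩, by rw [Finset.card_compl]; omega, fun g m =>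
          Finset.coe_injective (by rw [Finset.coe_smul_finset, Finset.coe_compl, Set.smul_set_compl, ← Finset.coe_smul_finset, k m])⟩
    have t := Set.powersetCard.isPretransitive_alternatingGroup (α := α) (n := s.card) (by rw [Nat.card_eq_fintype_card]; omega)
    have t' : IsPretransitive G (Set.powersetCard α s.card) := ⟨fun a b => let ⟨g, e⟩ := t.1 a b; ⟨⟨g, hA g.2⟩, e⟩⟩
    have i : (stabilizer (Perm α) s).relIndex G = (Fintype.card α).choose s.card := by
      rw [← Nat.card_eq_fintype_card, ← Set.powersetCard.card,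
        ← index_stabilizer_of_transitive G (X := Set.powersetCard α s.card) ⟨s, rfl⟩]
      exact congrArg index (Subgroup.ext fun g => ⟨fun h => Subtype.ext h, congrArg Subtype.val⟩)
    obtain ⟨p, a, b, d⟩ := Lib.Syv.sylvester_schur s1 s0
    have e : H.relIndex G = (Fintype.card α).choose s.card := by
      rcases hm (stabilizer _ s ⊓ G) (le_inf s2 hH) inf_le_right with e | e
      · rw [← e, inf_relIndex_right, i]
      · rw [← i, relIndex_eq_one.2 (inf_eq_right.1 e)] at d
        exact absurd (Nat.le_of_dvd one_pos d) a.one_lt.not_ge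
    rw [e] at hd hmax
    replace b := b.trans_le (hmax p a d)
    obtain ⟨x, x1, x2, x3⟩ := exists_rep (α := α) hr.two_le (Nat.div_pos rl hr.pos).ne' (Nat.div_mul_le_self _ r) (by
      rcases hr.eq_two_or_odd' with rfl | o
      · rw [show s.card = 1 by omega, Nat.choose_one_right] at hmax
        have := Nat.eq_prime_pow_of_unique_prime_dvd (n := Fintype.card α) (p := 2) (by omega) fun a b =>
          (hmax _ a b).antisymm a.two_le
        generalize List.length _ = j at this
        obtain ⟨j, rfl⟩ := Nat.exists_eq_add_of_le' (show 2 ≤ j by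
          by_contra k; interval_cases j <;> omega)
        exact .mul_right ⟨2 ^ j, by rw [pow_add] at this; omega⟩ _
      · exact o.add_one.mul_left _)
    refine ⟨x, x1, x2, fun y m k => ?_⟩
    have f : s ⊆ y.supportᶜ := fun a ha => Finset.mem_compl.2 (notMem_support.2 (fix hr (ord_eq k ▸ x2) (S := s)
      (fun g l => by
        rw [← mem_stabilizer_iff.1 (zpowers_le.2 (s2 m) l)]; exact Finset.smul_mem_smul_finset ha) (by simpa)))
    replace f := Finset.card_le_card f
    rw [Finset.card_compl, ← sum_cycleType, ← isConj_iff_cycleType_eq.1 k, x3, Multiset.sum_replicate, smul_eq_mul,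
      ← Nat.mod_eq_sub_div_mul] at f
    have := (Choose.choose_modEq_choose_mod_mul_choose_div_nat (p := r) (n := Fintype.card α) (k := s.card)).dvd_iff dvd_rfl
    rw [Nat.mod_eq_of_lt b, Nat.div_eq_of_lt b, Nat.choose_zero_right, mul_one] at this
    exact hr.coprime_iff_not_dvd.1 (hr.coprime_choose_of_lt (Nat.mod_lt _ hr.pos) f) (this.1 hd)

theorem six {U : Subgroup (alternatingGroup (Fin 6))} (hU : U ≠ ⊤) {r : ℕ} (hr : r.Prime) (hd : r ∣ U.index)
    (hmax : ∀ s, s.Prime → s ∣ U.index → s ≤ r) :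
    ∃ x ∈ alternatingGroup (Fin 6), orderOf x = r ∧ ∀ y ∈ U.map (Subgroup.subtype _), ¬ IsConj x y := by
  have c := U.card_mul_index
  have c0 : Nat.card (alternatingGroup (Fin 6)) = 360 := by rw [nat_card_alternatingGroup]; simp; rfl
  have := alternatingGroup.isSimpleGroup (α := Fin 6) (by simp)
  have f := Lib.Inv.card_dvd_factorial_index hU
  rw [c0] at c f
  by_cases e : r ∣ Nat.card U
  swap
  · exact of_not_dvd (by simp) hr (hr.dvd_factorial.1 ((hd.mul_left _).trans (c.dvd.trans (by decide))))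
      (by rwa [card_map_of_injective (subtype_injective _)])
  have k := c ▸ Nat.mul_dvd_mul e hd
  have l : r ≤ 19 := by have := Nat.le_of_dvd (by decide) k; nlinarith
  have i := Nat.le_of_dvd (by decide) (Dvd.intro_left _ c)
  have h5 : ¬ 5 ∣ U.index := fun k => by have := hmax 5 (by norm_num) k; interval_cases r <;> first | omega | norm_num at hr
  rcases (show r = 2 ∨ r = 3 by interval_cases r <;> first | omega | norm_num at hr) with rfl | rfl
  · have h3 : ¬ 3 ∣ U.index := fun k => absurd (hmax 3 Nat.prime_three k) (by decide)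
    have : U.index ∣ 4 := by
      obtain ⟨a, b⟩ := e
      exact Nat.Coprime.dvd_of_dvd_mul_left (m := 45) (by
        simpa using (Nat.Coprime.mul_left ((Nat.prime_three.coprime_iff_not_dvd.2 h3).pow_left 2)
          ((Nat.prime_five.coprime_iff_not_dvd).2 h5)).symm) ⟨a, by rw [b] at c; linarith⟩
    have := Nat.le_of_dvd (by decide) this
    interval_cases U.index <;> simp [Nat.factorial] at f
  · obtain ⟨x, x1, x2, x3⟩ := exists_rep (α := Fin 6) (r := 3) (by decide) one_ne_zero (by simp) (by decide)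
    obtain ⟨y, y1, y2, y3⟩ := exists_rep (α := Fin 6) (r := 3) (by decide) two_ne_zero (by simp) (by decide)
    by_contra! n
    obtain ⟨a, a1, a2⟩ := n x x1 x2
    obtain ⟨b, b1, b2⟩ := n y y1 y2
    have := Fact.mk Nat.prime_three
    set V := U.map (Subgroup.subtype _)
    have v : ¬ 3 ^ 2 ∣ Nat.card V := fun k => by
      rw [card_map_of_injective (subtype_injective _)] at k
      exact absurd (c ▸ Nat.mul_dvd_mul k hd) (by decide)
    have s (a : V) (h : orderOf (a : Perm (Fin 6)) = 3) : ∃ P : Sylow 3 V, (P : Subgroup V) = zpowers a :=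
      ⟨Sylow.ofCard (zpowers a) (by
        rw [Nat.card_zpowers, ← orderOf_coe, h, show (Nat.card V).factorization 3 = 1 from le_antisymm (Nat.lt_succ_iff.1 (not_le.1
          (mt (Nat.prime_three.pow_dvd_iff_le_factorization Nat.card_pos.ne').2 v))) ((Nat.prime_three.dvd_iff_one_le_factorization
            Nat.card_pos.ne').1 (h ▸ V.orderOf_dvd_natCard a.2))]; rfl), rfl⟩
    obtain ⟨P, hP⟩ := s ⟨a, a1⟩ (ord_eq a2 ▸ x2)
    obtain ⟨Q, hQ⟩ := s ⟨b, b1⟩ (ord_eq b2 ▸ y2)
    obtain ⟨g, rfl⟩ := exists_smul_eq V P Q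
    have m : (⟨b, b1⟩ : V) ∈ MulAut.conj g • zpowers (⟨a, a1⟩ : V) := by
      rw [← hP]; exact hQ.ge (mem_zpowers _)
    obtain ⟨_, ⟨j, rfl⟩, m⟩ := m
    have := Finset.card_le_card (support_zpow_le a j)
    rw [← card_support_conj (τ := a ^ j) (σ := g), show (g : Perm (Fin 6)) * a ^ j * (g : Perm (Fin 6))⁻¹ = b from congrArg Subtype.val m,
      ← sum_cycleType, ← sum_cycleType, ← isConj_iff_cycleType_eq.1 a2, ← isConj_iff_cycleType_eq.1 b2, x3, y3] at this
    simp at this

/-- Let G be an almost simple group whose socle is an alternating group of degree m ≥ 5 (G has a normal subgroup T isomorphic to that alternating group with trivial centralizer), acting faithfully and primitively on a finite set Ω with at least two points, and let r be the largest prime divisor of the number of points. Then G contains an element of order r fixing no point. -/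
theorem result {G Ω : Type*} [Group G] [Finite G] [MulAction G Ω] [FaithfulSMul G Ω] [Finite Ω]
    (T : Subgroup G) (hT : T.Normal) (hTc : Subgroup.centralizer (T : Set G) = ⊥) (m : ℕ) (hm : 5 ≤ m)
    (eT : ↥T ≃* ↥(alternatingGroup (Fin m))) (hprim : MulAction.IsPreprimitive G Ω) (hΩ : 2 ≤ Nat.card Ω)
    (r : ℕ) (hr : r.Prime) (hrd : r ∣ Nat.card Ω) (hmax : ∀ s : ℕ, s.Prime → s ∣ Nat.card Ω → s ≤ r) :
    ∃ g : G, orderOf g = r ∧ ∀ ω : Ω, g • ω ≠ ω := by
  have := Finite.one_lt_card_iff_nontrivial.1 hΩ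
  obtain ⟨ω⟩ : Nonempty Ω := inferInstance
  have := alternatingGroup.isSimpleGroup (α := Fin m) (by simpa)
  have tr : IsPretransitive T Ω := IsPreprimitive.isQuasiPreprimitive.isPretransitive_of_normal fun k => by
    obtain ⟨x, e⟩ := exists_ne (1 : alternatingGroup (Fin m))
    exact e (eT.symm.injective (Subtype.ext (eq_of_smul_eq_smul fun a : Ω =>
      (k.ge trivial (eT.symm x)).trans (k.ge trivial (eT.symm 1)).symm)))
  let U := (stabilizer T ω).map eT.toMonoidHom
  have i : U.index = Nat.card Ω := (index_map_equiv _ eT).trans (index_stabilizer_of_transitive T ω)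
  have n : U ≠ ⊤ := fun e => by rw [e, index_top] at i; omega
  suffices ∃ x ∈ alternatingGroup (Fin m), orderOf x = r ∧ ∀ y ∈ U.map (Subgroup.subtype _), ¬ IsConj x y by
    obtain ⟨x, a, b, c⟩ := this
    refine ⟨eT.symm ⟨x, a⟩, by rw [orderOf_coe, MulEquiv.orderOf_eq, orderOf_mk, b], fun w e => ?_⟩
    obtain ⟨t, rfl⟩ := exists_smul_eq T ω w
    refine c _ ⟨_, ⟨t⁻¹ * eT.symm ⟨x, a⟩ * t, ?_, rfl⟩, rfl⟩ (isConj_iff.2 ⟨(eT t : Perm (Fin m))⁻¹, by simp⟩)
    rw [SetLike.mem_coe, mem_stabilizer_iff, mul_smul, mul_smul, inv_smul_eq_iff]; exact e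
  obtain rfl | h6 := eq_or_ne m 6
  · exact six n hr (i ▸ hrd) (i ▸ hmax)
  let e := MulEquiv.ofBijective _ (Lib.Alt.conjNormal_bijective (α := Fin m) (by simp; omega) (by simpa))
  let φ : G →* Perm (Fin m) := (e.symm.toMonoidHom.comp (MulAut.congr eT).toMonoidHom).comp MulAut.conjNormal
  have f1 (t : T) : φ t = eT t := e.symm_apply_eq.2 (MulEquiv.ext fun x => Subtype.ext (by
    change (eT (t * eT.symm x * t⁻¹) : Perm (Fin m)) = eT t * x * (eT t : Perm (Fin m))⁻¹
    simp))
  have f2 : Function.Injective φ := (injective_iff_map_eq_one _).2 fun g k => hTc.le fun t a => by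
    have := congrArg Subtype.val (DFunLike.congr_fun ((map_eq_one_iff _ (MulAut.congr eT).injective).1
      ((map_eq_one_iff _ e.symm.injective).1 k)) ⟨t, a⟩)
    exact (mul_inv_eq_iff_eq_mul.1 this).symm
  have j : ((stabilizer G ω).map φ).relIndex φ.range = Nat.card Ω := by
    rw [MonoidHom.range_eq_map, relIndex_map_map_of_injective _ _ f2, relIndex_top_right, index_stabilizer_of_transitive]
  obtain ⟨x, a, b, c⟩ := key (α := Fin m) (by simpa) (G := φ.range) (H := (stabilizer G ω).map φ)
    (fun x a => ⟨eT.symm ⟨x, a⟩, by simp [f1]⟩) (map_le_range _ _) (fun K a b => by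
      rw [← map_comap_eq_self b, MonoidHom.range_eq_map]
      exact ((IsPreprimitive.isCoatom_stabilizer_of_isPreprimitive G ω).le_iff.1 (map_le_iff_le_comap.1 a)).symm.imp
        (congrArg _) (congrArg _))
    (fun k => n (eq_top_iff.2 fun x _ => by
      obtain ⟨g, a, b⟩ := k x.2
      exact ⟨eT.symm x, (f2 (b.trans ((f1 (eT.symm x)).trans (by simp)).symm) ▸ a : (eT.symm x : G) ∈ stabilizer G ω), by simp⟩))
    hr (j ▸ hrd) (j ▸ hmax)
  exact ⟨x, a, b, by rintro _ ⟨_, ⟨t, d, rfl⟩, rfl⟩; exact c _ ⟨t, d, f1 t⟩⟩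

end Cfsg.Agent.S3571
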