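import Cfsg.Statements.S3573
import Cfsg.Agent.Lib.Perm.Sym2

set_option autoImplicit false
open Cfsg

namespace Cfsg.Agent.S3573

open Cfsg.Lib Cfsg.Lib.Perm Equiv Equiv.Perm

/-- Let 1 ≤ k with 2k < n and consider the symmetric group of degree n acting on the k-subsets of an n-set. Let r be a prime dividing the number C(n,k) of k-subsets. If r is odd, then every permutation of order r fixes some k-subset if and only if r ≤ k and the remainder of k modulo r is at most the remainder of n modulo r. If r = 2, then every involution fixes some k-subset if and only if k is even or n is odd. -/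
theorem result (n k : ℕ) (hk : 1 ≤ k) (hkn : 2 * k < n) (r : ℕ) (hr : r.Prime) (hrd : r ∣ Nat.choose n k) :
    (r ≠ 2 → ((∀ σ : Equiv.Perm (Fin n), orderOf σ = r → ∃ s : Finset (Fin n), s.card = k ∧ s.image σ = s) ↔
      (r ≤ k ∧ k % r ≤ n % r))) ∧
    (r = 2 → ((∀ σ : Equiv.Perm (Fin n), orderOf σ = 2 → ∃ s : Finset (Fin n), s.card = k ∧ s.image σ = s) ↔
      (Even k ∨ Odd n))) := by
  have hrn : r ≤ n := hr.dvd_factorial.1 (hrd.trans (Dvd.intro _ (by
    rw [← mul_assoc]; exact Nat.choose_mul_factorial_mul_factorial (by omega))))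
  have V : (∀ σ : Perm (Fin n), orderOf σ = r → ∃ s : Finset (Fin n), s.card = k ∧ s.image σ = s) ↔
      k % r ≤ n % r := by
    refine ⟨fun h => ?_, fun h σ hσ => ?_⟩
    · obtain ⟨σ, h1, h2⟩ := exists_orderOf_card_support (Ω := Fin n) hr (Nat.div_pos hrn hr.pos)
        (by simpa using Nat.div_mul_le_self n r)
      obtain ⟨s, rfl, hs⟩ := h σ h1
      have h3 := card_modEq_card_fixed hr (h1 ▸ pow_orderOf_eq_one σ) (T := s)
        fun x hx => hs ▸ Finset.mem_image_of_mem _ hx
      have h4 : (s \ σ.support).card ≤ σ.supportᶜ.card :=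
        Finset.card_le_card fun x hx => Finset.mem_compl.2 (Finset.mem_sdiff.1 hx).2
      rw [Finset.card_compl, Fintype.card_fin, h2] at h4
      have := Nat.div_add_mod' n r
      exact h3.le.trans ((Nat.mod_le _ _).trans (by omega))
    · obtain ⟨j, -, -, hj⟩ := exists_card_support_eq hr hσ
      have h1 : σ.supportᶜ.card + j * r = n := by rw [← hj, Finset.card_compl_add_card, Fintype.card_fin]
      obtain ⟨i, hi, hi'⟩ : ∃ i ≤ j, i * r ≤ k ∧ k - i * r ≤ σ.supportᶜ.card := by
        have := Nat.div_add_mod' k r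
        rcases le_total (k / r) j with h2 | h2
        · refine ⟨k / r, h2, by omega, ?_⟩
          have : n % r ≤ σ.supportᶜ.card := by
            conv_lhs => rw [← h1, Nat.add_mul_mod_self_right]
            exact Nat.mod_le _ _
          omega
        · exact ⟨j, le_rfl, (Nat.mul_le_mul_right r h2).trans (by omega), by omega⟩
      obtain ⟨T, t1, t2, t3⟩ := exists_invariant_subset hr (hσ ▸ pow_orderOf_eq_one σ) i
        (hj ▸ Nat.mul_le_mul_right r hi)
      obtain ⟨U, u1, u2⟩ := Finset.exists_subset_card_eq hi'.2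
      refine ⟨T ∪ U, ?_, Finset.eq_of_subset_of_card_le (Finset.image_subset_iff.2 fun x hx => ?_)
        (Finset.card_image_of_injective _ σ.injective).ge⟩
      · rw [Finset.card_union_of_disjoint (disjoint_compl_right.mono t1 u1), t2, u2]; omega
      · rw [Finset.mem_union] at hx ⊢
        exact hx.imp (t3 x) fun hx => by rwa [notMem_support.1 (Finset.mem_compl.1 (u1 hx))]
  refine ⟨fun _ => V.trans ⟨fun h => ⟨not_lt.1 fun hkr => ?_, h⟩, fun h => h.2⟩, ?_⟩
  · have := Fact.mk hr
    have h1 := Choose.choose_modEq_choose_mod_mul_choose_div_nat (n := n) (k := k) (p := r)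
    rw [Nat.div_eq_of_lt hkr, Nat.choose_zero_right, mul_one] at h1
    have h2 := ((h1.dvd_iff dvd_rfl).1 hrd).trans (Dvd.intro _
      ((mul_assoc _ _ _).symm.trans (Nat.choose_mul_factorial_mul_factorial h)))
    exact (Nat.mod_lt n hr.pos).not_ge (hr.dvd_factorial.1 h2)
  · rintro rfl
    rw [V, Nat.even_iff, Nat.odd_iff]; omega

end Cfsg.Agent.S3573
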