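import Cfsg.Statements.S3575
import Cfsg.Agent.Lib.Perm.Sym2

set_option autoImplicit false
open Cfsg

namespace Cfsg.Agent.S3575

open Cfsg.Lib Cfsg.Lib.Perm Equiv Equiv.Perm Finset

theorem arith {a b r : ℕ} (ha : 2 ≤ a) (hr : 2 ≤ r) (hrn : r ≤ a * b) :
    (∀ f, f + r ≤ a * b → f ≡ a * b [MOD r] → ∃ c ≤ b, c ≡ b [MOD r] ∧ c * (a % r) ≤ f ∧ f ≤ c * a) ↔
      (r ≤ a ∧ (a % r = 0 ∨ (b % r = 0 ∧ a % r = 1) ∨
        (a % r ≠ 0 ∧ b % r ≠ 0 ∧ (b % r) * (a % r) < r ∧ (b < r ∨ (b % r + r) * (a % r) ≤ (b % r) * a + r)))) := by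
  have hl := Nat.mod_lt a (show 0 < r by omega)
  have hk := Nat.mod_lt b (show 0 < r by omega)
  have hkb := Nat.mod_modEq b r
  have hge : ∀ c, c ≡ b [MOD r] → b % r ≤ c := fun c h => h.ge.trans (Nat.mod_le c r)
  have hge' : ∀ c, c ≡ b [MOD r] → b % r < c → b % r + r ≤ c := fun c h => (hkb.trans h.symm).add_le_of_lt
  refine ⟨fun h => ⟨not_lt.1 fun hra => ?_, ?_⟩, fun ⟨hra, h⟩ f h1 h2 => ?_⟩
  · obtain ⟨c, h1, h2, h3, h4⟩ := h (a * b - r) (by omega) (by
      conv_rhs => rw [← Nat.sub_add_cancel hrn]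
      exact (Nat.add_modEq_right ..).symm)
    rw [Nat.mod_eq_of_lt hra] at h3
    rcases h1.eq_or_lt with rfl | h1
    · rw [mul_comm] at h3; omega
    · have := Nat.mul_le_mul_right a (h2.add_le_of_lt h1)
      have : r * 2 ≤ r * a := Nat.mul_le_mul_left r ha
      rw [add_mul, mul_comm b] at *
      omega
  · refine or_iff_not_imp_left.2 fun h0 => ?_
    have key : r ≤ b → (b % r + r) * (a % r) ≤ (b % r) * a + r := fun hb => by
      have h1 := Nat.mul_le_mul_right a (hge' b rfl (by omega))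
      have : r * 2 ≤ r * a := Nat.mul_le_mul_left r ha
      rw [add_mul, mul_comm b] at h1
      obtain ⟨c, -, h2, h3, h4⟩ := h (b % r * a + r) (by omega)
        ((Nat.add_modEq_right ..).trans (mul_comm a b ▸ hkb.mul_right a))
      exact (Nat.mul_le_mul_right _ (hge' c h2 (by nlinarith))).trans h3
    by_cases h1 : b % r = 0
    · have := key (Nat.le_of_dvd (Nat.pos_of_ne_zero (by rintro rfl; omega)) (Nat.dvd_of_mod_eq_zero h1))
      rw [h1, zero_add, zero_mul, zero_add] at this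
      exact .inl ⟨h1, by nlinarith [Nat.pos_of_ne_zero h0]⟩
    obtain ⟨c, -, h2, h3, -⟩ := h (a * b % r) ((Nat.mod_modEq _ r).add_le_of_lt
      ((Nat.mod_lt _ (by omega)).trans_le hrn)) (Nat.mod_modEq _ r)
    exact .inr ⟨h0, h1, ((Nat.mul_le_mul_right _ (hge c h2)).trans h3).trans_lt (Nat.mod_lt _ (by omega)),
      (lt_or_ge b r).imp_right key⟩
  rcases h with h | ⟨h, h'⟩ | ⟨-, -, h, h'⟩
  · exact ⟨b, le_rfl, rfl, by simp [h], by rw [mul_comm]; omega⟩
  · rcases le_total b f with h3 | h3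
    · exact ⟨b, le_rfl, rfl, by rwa [h', mul_one], by rw [mul_comm]; omega⟩
    · refine ⟨f, h3, h2.trans ?_, by rw [h', mul_one], Nat.le_mul_of_pos_right _ (by omega)⟩
      simpa [h'] using ((Nat.mod_modEq a r).mul_right b).symm
  have hb := Nat.mod_add_div' b r
  have hex : ∃ t, f ≤ (b % r + t * r) * a := ⟨b / r, by rw [hb, mul_comm]; omega⟩
  have h3 : Nat.find hex ≤ b / r := Nat.find_min' _ (by rw [hb, mul_comm]; omega)
  have h4 : ∀ t, b % r + t * r ≡ b [MOD r] := fun t => (Nat.add_mul_mod_self_right ..).trans hkb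
  refine ⟨_, hb.le.trans' (by gcongr), h4 _, ?_, Nat.find_spec hex⟩
  rcases ht : Nat.find hex with _ | t
  · rw [zero_mul, add_zero, ← Nat.mod_eq_of_lt h, ← Nat.mul_mod, mul_comm, ← h2]
    exact Nat.mod_le _ _
  have h5 := (mul_comm a b ▸ (h4 t).mul_right a).trans h2.symm |>.add_le_of_lt
    (not_le.1 (Nat.find_min hex (ht ▸ t.lt_succ_self)))
  have h6 := h'.resolve_left fun e => by rw [Nat.div_eq_of_lt e] at h3; omega
  have := Nat.mul_le_mul_left (t * r) (Nat.mod_le a r)
  nlinarith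

theorem exists_pow (Ω : Type*) [Fintype Ω] [DecidableEq Ω] {r j : ℕ} (hr : r.Prime)
    (h : j * r ≤ Fintype.card Ω) : ∃ σ : Perm Ω, σ ^ r = 1 ∧ σ.support.card = j * r := by
  rcases j.eq_zero_or_pos with rfl | hj
  · exact ⟨1, by simp⟩
  obtain ⟨σ, rfl, h⟩ := exists_orderOf_card_support hr hj h
  exact ⟨σ, pow_orderOf_eq_one σ, h⟩

theorem exists_semiconj {Ω Ω' : Type*} [Fintype Ω] [DecidableEq Ω] [Fintype Ω'] [DecidableEq Ω'] {r : ℕ}
    (hr : r.Prime) (e : Ω' ≃ Ω) {σ : Perm Ω} {τ : Perm Ω'} (hσ : σ ^ r = 1) (hτ : τ ^ r = 1)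
    (h : σ.support.card = τ.support.card) : ∃ e : Ω ≃ Ω', ∀ x, e (σ x) = τ (e x) := by
  have := Fact.mk hr
  have h1 := cycleType_of_pow_prime_eq_one hσ
  have h2 := cycleType_of_pow_prime_eq_one (σ := e.permCongrHom τ) (p := r) (by rw [← map_pow, hτ, map_one])
  have h3 : τ.support.card = (e.permCongrHom τ).support.card := card_equiv e fun x => by
    simp [permCongrHom]
  rw [h3, ← sum_cycleType, ← sum_cycleType, h1, h2, Multiset.sum_replicate, Multiset.sum_replicate] at h
  obtain ⟨k, hk⟩ := isConj_iff.1 (isConj_iff_cycleType_eq.2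
    (h1.trans ((congrArg (Multiset.replicate · r) (Nat.eq_of_mul_eq_mul_right hr.pos h)).trans h2.symm)))
  refine ⟨k.trans e.symm, fun x => ?_⟩
  have := DFunLike.congr_fun hk (k x)
  simpa [permCongrHom, Equiv.symm_apply_eq] using this

theorem exists_distrib {ι : Type*} [DecidableEq ι] (m : ℕ) (S : Finset ι) : ∀ u ≤ #S * m,
    ∃ g : ι → ℕ, (∀ i, g i ≤ m) ∧ (∀ i ∉ S, g i = 0) ∧ ∑ i ∈ S, g i = u := by
  induction S using Finset.induction with
  | empty => exact fun u hu => ⟨0, by simp, by simp, by simpa [eq_comm] using hu⟩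
  | insert a S ha ih =>
    intro u hu
    rw [card_insert_of_notMem ha, add_mul] at hu
    obtain ⟨g, h1, h2, h3⟩ := ih (u - m) (by omega)
    refine ⟨Function.update g a (min u m), fun i => ?_, fun i hi => ?_, ?_⟩
    · rcases eq_or_ne i a with rfl | h <;> simp [*]
    · rw [mem_insert, not_or] at hi
      rw [Function.update_of_ne hi.1, h2 i hi.2]
    · rw [sum_insert ha, sum_update_of_notMem ha, h3, Function.update_self]; omega

/-- Let a, b ≥ 2 and consider the symmetric group of degree a·b acting on the partitions of an (a·b)-set into b parts of size a (encoded as maps onto a b-element set all of whose fibres have a elements; a permutation fixes such a partition when it permutes the fibres). Let r be a prime dividing the number (ab)!/((a!)^b·b!) of such partitions, and let ℓ and k be the remainders of a and b modulo r. Then every permutation of order r fixes some such partition if and only if r ≤ a and one of the following holds: ℓ = 0; or k = 0 and ℓ = 1;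 or ℓ and k are non-zero, k·ℓ < r, and either b < r or (k + r)·ℓ ≤ k·a + r. -/
theorem result (a b : ℕ) (ha : 2 ≤ a) (hb : 2 ≤ b) (r : ℕ) (hr : r.Prime)
    (hrd : r ∣ (a * b).factorial / (a.factorial ^ b * b.factorial)) :
    (∀ σ : Equiv.Perm (Fin (a * b)), orderOf σ = r →
        ∃ f : Fin (a * b) → Fin b, (∀ j : Fin b, Nat.card {x : Fin (a * b) // f x = j} = a) ∧
          ∃ π : Equiv.Perm (Fin b), ∀ x : Fin (a * b), f (σ x) = π (f x)) ↔
      (r ≤ a ∧ (a % r = 0 ∨ (b % r = 0 ∧ a % r = 1) ∨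
        (a % r ≠ 0 ∧ b % r ≠ 0 ∧ (b % r) * (a % r) < r ∧ (b < r ∨ (b % r + r) * (a % r) ≤ (b % r) * a + r)))) := by
  have hrn : r ≤ a * b := hr.dvd_factorial.1 (by
    rw [mul_comm a b, ← Nat.uniformBell_eq_div b (by omega)] at hrd
    rw [mul_comm, ← Nat.uniformBell_mul_eq b (by omega), mul_assoc]
    exact hrd.mul_right _)
  rw [← arith ha hr.two_le hrn]
  refine ⟨fun h f0 h1 h2 => ?_, fun h σ hσ => ?_⟩
  · obtain ⟨j, hj⟩ := (Nat.modEq_iff_dvd' (by omega)).1 h2
    obtain ⟨σ, h3, h4⟩ := exists_orderOf_card_support (Ω := Fin (a * b)) (j := j) hr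
      (Nat.pos_of_ne_zero (by rintro rfl; have := hr.pos; omega)) (by rw [Fintype.card_fin, mul_comm]; omega)
    obtain ⟨f, hf, π, hπ⟩ := h σ h3
    have hσ : σ ^ r = 1 := h3 ▸ pow_orderOf_eq_one σ
    have hf' : ∀ i, #{x | f x = i} = a := fun i => by
      rw [← Fintype.card_subtype, ← Nat.card_eq_fintype_card, hf]
    have h5 : π ^ r = 1 := Equiv.ext fun i => by
      obtain ⟨x, hx⟩ := card_pos.1 ((hf' i).ge.trans_lt' (by omega : 0 < a))
      have := (Function.Semiconj.iterate_right hπ r x).symm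
      rwa [← Perm.coe_pow, ← Perm.coe_pow, hσ, Perm.one_apply, (mem_filter.1 hx).2] at this
    have h6 : f0 = ∑ i ∈ π.supportᶜ, #{x ∈ σ.supportᶜ | f x = i} := by
      rw [← card_eq_sum_card_fiberwise fun x hx => ?_, card_compl, h4, Fintype.card_fin, mul_comm j]; · omega
      simp only [coe_compl, Set.mem_compl_iff, mem_coe, notMem_support] at hx ⊢
      rw [← hπ, hx]
    have h7 : ∀ i ∈ π.supportᶜ, a % r ≤ #{x ∈ σ.supportᶜ | f x = i} := fun i hi => by
      have := card_modEq_card_fixed hr hσ (T := {x | f x = i}) fun x hx => mem_filter.2 ⟨mem_univ _, by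
        rw [hπ, (mem_filter.1 hx).2, notMem_support.1 (mem_compl.1 hi)]⟩
      rw [hf'] at this
      exact this.le.trans ((Nat.mod_le _ _).trans (card_le_card fun x hx => by simpa [and_comm] using hx))
    refine ⟨#π.supportᶜ, (card_le_univ _).trans (Fintype.card_fin b).le, ?_, h6 ▸ card_nsmul_le_sum _ _ _ h7,
      h6 ▸ sum_le_card_nsmul _ _ _ fun i _ => (card_le_card (filter_subset_filter _ (subset_univ _))).trans
        (hf' i).le⟩
    simpa [compl_eq_univ_sdiff] using (card_modEq_card_fixed hr h5 (T := univ) (by simp)).symm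
  obtain ⟨j, hj, -, h1⟩ := exists_card_support_eq hr hσ
  have h2 := card_le_univ σ.support
  rw [h1, Fintype.card_fin] at h2
  have := Nat.mul_le_mul_right r hj
  obtain ⟨c, c1, c2, c3, c4⟩ := h (a * b - j * r) (by omega)
    ((Nat.modEq_iff_dvd' (by omega)).2 (by rw [Nat.sub_sub_self h2]; exact Dvd.intro_left j rfl))
  obtain ⟨s, hs⟩ := (Nat.modEq_iff_dvd' c1).1 c2
  obtain rfl : b = c + s * r := by rw [mul_comm]; omega
  obtain ⟨π, p1, p2⟩ := exists_pow (Fin (c + s * r)) (j := s) hr (by simp)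
  have p3 : #π.supportᶜ = c := by simp [card_compl, p2]
  have e1 := Nat.div_add_mod' a r
  have e2 : s * a ≤ j := Nat.le_of_mul_le_mul_right (by
    rw [tsub_le_iff_right] at c4; nlinarith) hr.pos
  obtain ⟨g, g1, g2, g3⟩ := exists_distrib (a / r) π.supportᶜ (j - s * a) (by
    rw [p3, tsub_le_iff_right]
    refine Nat.le_of_mul_le_mul_right ?_ hr.pos
    rw [Nat.le_sub_iff_add_le h2] at c3
    have : c * a = c * (a / r * r + a % r) := by rw [e1]
    nlinarith)
  choose ρ r1 r2 using fun i => exists_pow (Fin a) (j := g i) hr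
    ((Nat.mul_le_mul_right r (g1 i)).trans (by simpa using Nat.div_mul_le_self a r))
  have r3 : ∀ i ∈ π.support, ρ i = 1 := fun i hi =>
    card_support_eq_zero.1 (by rw [r2, g2 i (by simpa using hi), zero_mul])
  have r4 : ∀ i, ρ (π i) = ρ i := fun i => by
    by_cases hi : i ∈ π.support
    · rw [r3 i hi, r3 _ (apply_mem_support.2 hi)]
    · rw [notMem_support.1 hi]
  let τ : Perm (Fin (c + s * r) × Fin a) := prodShear π ρ
  have hτ : ∀ i x, τ (i, x) = (π i, ρ i x) := fun _ _ => rfl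
  have t1 : ∀ n i x, (τ ^ n) (i, x) = ((π ^ n) i, (ρ i ^ n) x) := fun n => by
    induction n with
    | zero => exact fun _ _ => rfl
    | succ n ih => exact fun i x => by simp only [pow_succ, Perm.mul_apply, hτ, ih, r4]
  obtain ⟨e, he⟩ := exists_semiconj hr (finProdFinEquiv.trans (finCongr (mul_comm _ a))) (τ := τ)
    (hσ ▸ pow_orderOf_eq_one σ) (Equiv.ext fun ⟨i, x⟩ => by rw [t1, p1, r1]; rfl) (by
      rw [h1, support, card_filter, Fintype.sum_prod_type, ← sum_add_sum_compl π.support,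
        sum_congr rfl (g := fun _ => a) fun i hi => by simp [hτ, mem_support.1 hi],
        sum_congr (s₁ := π.supportᶜ) rfl (g := fun i => g i * r) fun i hi => by
          simp [hτ, notMem_support.1 (mem_compl.1 hi), ← r2, support, card_filter],
        ← sum_mul, g3, sum_const, p2, smul_eq_mul, Nat.sub_mul, mul_right_comm s r,
        Nat.add_sub_cancel' (Nat.mul_le_mul_right r e2)])
  refine ⟨fun x => (e x).1, fun i => ?_, π, fun x => congrArg Prod.fst (he x)⟩
  rw [Nat.card_congr (e.subtypeEquiv (q := fun y => y.1 = i) fun _ => Iff.rfl),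
    Nat.card_congr (prodSubtypeFstEquivSubtypeProd (p := (· = i)))]
  simp

end Cfsg.Agent.S3575
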