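import Cfsg.Statements.S3580
import Cfsg.Agent.Lib.Fpr.A

set_option autoImplicit false
open Cfsg

namespace Cfsg.Agent.S3580

/-- Let G act faithfully and transitively on a finite set Ω, let p be an odd prime dividing the order of G and P a Sylow p-subgroup of G. Then the number of orbits of P on Ω is at most (p/(2p − 1))·(number of points). -/
theorem result {G Ω : Type*} [Group G] [Finite G] [MulAction G Ω] [FaithfulSMul G Ω] [Finite Ω]
    (htrans : MulAction.IsPretransitive G Ω) (p : ℕ) [Fact p.Prime] (hp2 : p ≠ 2) (hpG : p ∣ Nat.card G)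
    (P : Sylow p G) :
    (2 * p - 1) * Nat.card (MulAction.orbitRel.Quotient ↥(P : Subgroup G) Ω) ≤ p * Nat.card Ω := by
  have h1 := Cfsg.Lib.Fpr.orb_le (Ω := Ω) P.isPGroup'
  have h2 := Cfsg.Lib.Fpr.fix_le' (Ω := Ω) hpG P
  obtain ⟨q, rfl⟩ := Nat.exists_eq_add_of_le' (Fact.out : p.Prime).pos
  rw [show 2 * (q + 1) - 1 = 2 * q + 1 by omega] at *
  rw [Nat.add_sub_cancel] at *
  refine Nat.le_of_mul_le_mul_left ?_ q.succ_pos
  nlinarith [Nat.mul_le_mul_left (2 * q + 1) h1, Nat.mul_le_mul_left q h2]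

end Cfsg.Agent.S3580
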