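import Cfsg.Statements.S3598
import Cfsg.Agent.Lib.Spec2.DegL2
import Cfsg.Agent.Lib.PSL2.SmallIso

set_option autoImplicit false
open Cfsg

namespace Cfsg.Agent.S3598

open Subgroup MulAction Cfsg.Lib Cfsg.Lib.BG Cfsg.Lib.Char Cfsg.Lib.Spec2 Cfsg.Lib.Perm

theorem zt {G : Type*} [Group G] [Finite G] {p b : ℕ} [hp : Fact p.Prime]
    (hG : Nat.card G = p ^ 2 * ((p ^ 2 - 1) * b)) (hb : b ∣ p ^ 2 + 1) (h3 : (p ^ 2 - 1).Coprime b)
    (b1 : 1 < b) (h : ∀ χ : IrrCharacter G, χ = irrOne G ∨ p ^ 2 ∣ charDegree (χ : G → ℂ) ∨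
      p ^ 2 - 1 ∣ charDegree (χ : G → ℂ) ∨ b ∣ charDegree (χ : G → ℂ)) :
    ZT G (Sylow p G) ∧ Nat.card (Sylow p G) = p ^ 2 + 1 := by
  have p2 := hp.out.two_le
  have q4 : 4 ≤ p ^ 2 := by nlinarith
  have h1 : (p ^ 2).Coprime (p ^ 2 - 1) := by
    rw [Nat.coprime_self_sub_right (by omega)]; exact Nat.coprime_one_right _
  have h2 : (p ^ 2).Coprime b := Nat.Coprime.coprime_dvd_right hb (by simp)
  have hc : ∀ Q : Sylow p G, Nat.card Q = p ^ 2 := fun Q => by
    rw [Q.card_eq_multiplicity, hG, Nat.factorization_mul (by omega) (mul_ne_zero (by omega) (by omega)),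
      hp.out.factorization_pow, Finsupp.add_apply, Finsupp.single_eq_same,
      Nat.factorization_eq_zero_of_not_dvd ((Nat.Prime.coprime_iff_not_dvd hp.out).1
        ((h1.mul_right h2).coprime_dvd_left (dvd_pow_self p two_ne_zero)))]
  have hs : SCC p G := SCC.of_abelian (fun Q y hy y1 => isPGroup_cent_of_isolated (fun g hg r hr e =>
    (Nat.prime_dvd_prime_iff_eq hr hp.out).1 (hr.dvd_of_dvd_pow (isolated_of_deg hp.out
      (dvd_pow_self p two_ne_zero) hG h1 h2 h3 (by omega) b1 h hg hr e))) Q.isPGroup' hy y1)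
    fun Q => IsPGroup.isMulCommutative_of_card_eq_prime_sq (hc Q)
  obtain ⟨P⟩ : Nonempty (Sylow p G) := inferInstance
  have hn := hs.card_sylow P (hc P) (by
    rw [hG, show (p ^ 2) ^ 2 - 1 = _ from Nat.sq_sub_sq (p ^ 2) 1, mul_comm (p ^ 2 + 1)]
    exact mul_dvd_mul_left _ (mul_dvd_mul_left _ hb)) (by
    rw [hG]; gcongr; exact lt_mul_of_one_lt_right (by omega) b1) (by omega)
  exact ⟨hs.zt P (by rw [hn, hc]) (by rw [hc]; omega), hn⟩

/-- Let p be a prime and F a field with p² elements. If a finite group G has, for every d, the same number of irreducible complex characters of degree d as PSL(2,F) (the same first column of the character table, with multiplicities), then G is isomorphic to PSL(2,F). -/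
theorem result {F : Type*} [Field F] [Fintype F] (p : ℕ) (hp : p.Prime)
    (hF : Fintype.card F = p ^ 2) {G : Type*} [Group G] [Finite G]
    (h : ∀ d : ℕ, Nat.card {χ : Cfsg.IrrCharacter G // (χ : G → ℂ) 1 = (d : ℂ)} =
      Nat.card {χ : Cfsg.IrrCharacter (Matrix.ProjectiveSpecialLinearGroup (Fin 2) F) // (χ : Matrix.ProjectiveSpecialLinearGroup (Fin 2) F → ℂ) 1 = (d : ℂ)}) :
    Nonempty (G ≃* Matrix.ProjectiveSpecialLinearGroup (Fin 2) F) := by
  have := Fact.mk hp
  have p2 := hp.two_le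
  have q4 : 4 ≤ p ^ 2 := by nlinarith
  obtain ⟨hG, e, he⟩ := exists_irr_equiv h
  have hm := PSL2.card_PSL2_mul (K := F)
  have hF' : Nat.card F = p ^ 2 := by rw [Nat.card_eq_fintype_card, hF]
  have h4 : p ^ 2 % 4 = 1 ∨ p = 2 := by
    rcases hp.eq_two_or_odd' with e | ⟨k, rfl⟩
    · exact .inr e
    · exact .inl (by rw [show (2 * k + 1) ^ 2 = 4 * (k ^ 2 + k) + 1 by ring]; omega)
  have hd := psl_deg (F := F) (by rw [hF]; rcases h4 with e | rfl <;> omega)
  rw [hF] at hd
  have e1 : e (irrOne G) = irrOne _ := by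
    have e0 : charDegree (irrOne G : G → ℂ) = 1 := Nat.cast_injective (R := ℂ) (by
      rw [← (irrOne G).2.apply_one_eq, irrOne_apply, Nat.cast_one])
    rcases hd (e (irrOne G)) with e' | e' | e' | e' | e'
    exacts [e', by rw [he] at e'; omega, by rw [he] at e'; omega, by rw [he] at e'; omega,
      by rw [he] at e'; omega]
  have key : ∀ b, b ∣ p ^ 2 + 1 → (p ^ 2 % 2 = 1 → b = (p ^ 2 + 1) / 2) → ∀ χ : IrrCharacter G,
      χ = irrOne G ∨ p ^ 2 ∣ charDegree (χ : G → ℂ) ∨ p ^ 2 - 1 ∣ charDegree (χ : G → ℂ) ∨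
        b ∣ charDegree (χ : G → ℂ) := fun b hb hb' χ => by
    rw [← he]
    rcases hd (e χ) with e' | e' | e' | e' | e'
    exacts [.inl (e.injective (e'.trans e1.symm)), .inr (.inl e'.symm.dvd),
      .inr (.inr (.inl e'.symm.dvd)), .inr (.inr (.inr (e' ▸ hb))),
      .inr (.inr (.inr (by rw [e'.2, hb' e'.1])))]
  rw [← hG, hF'] at hm
  rcases h4 with h4 | rfl
  · obtain ⟨k, hk⟩ : ∃ k, p ^ 2 = 4 * k + 1 := ⟨p ^ 2 / 4, by omega⟩
    have hG' : Nat.card G = p ^ 2 * ((p ^ 2 - 1) * (2 * k + 1)) := by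
      rw [hk, Nat.add_sub_cancel, Nat.gcd_eq_left ⟨2 * k, by ring⟩,
        show (4 * k + 1) ^ 2 - 1 = 2 * (4 * k * (2 * k + 1)) from Nat.sub_eq_of_eq_add (by ring)] at hm
      rw [hk, Nat.add_sub_cancel]; nlinarith
    obtain ⟨z, hn⟩ := zt hG' ⟨2, by omega⟩ (by
      rw [hk, Nat.add_sub_cancel, show 4 * k = 2 * (2 * k) by ring]
      exact Nat.Coprime.mul_left (by simp) (by simp)) (by omega) (key _ ⟨2, by omega⟩ (by omega))
    obtain ⟨a⟩ := z.nonempty
    obtain ⟨b, hab⟩ := z.exists_ne a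
    have c1 := z.card_zker a
    have c2 := z.card_eq hab.symm
    have c3 : Nat.card (zker G a) = 4 * k + 1 := by omega
    rw [hG', c3, hk, Nat.add_sub_cancel] at c2
    have c4 : Nat.card (stab2 G a b) = 2 * k := Nat.eq_of_mul_eq_mul_left
      (show 0 < (4 * k + 1) * (4 * k + 2) by positivity) (by nlinarith)
    have hs : ∀ s : G, s • a = b → s • b = a → s * s = 1 := fun s h3 h4 =>
      Inv.mul_self_of_orderOf (z.swap_of_even_small hab.symm ⟨k, by omega⟩ (by omega) h3 h4).1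
    obtain ⟨s, h4, h5⟩ := z.two a b b a hab.symm hab
    exact z.nonempty_equiv_PSL hab.symm h4 h5 (hs s h4 h5) (z.inverts_of_forall_swap hs h4 h5)
      (by omega) F (by omega)
  · have hG' : Nat.card G = 60 := by simpa using hm
    obtain ⟨z, hn⟩ := zt (p := 2) (b := 5) hG' (by norm_num) (by norm_num) (by norm_num)
      (key _ (by norm_num) (by norm_num))
    have := z.faithful
    classical
    let _ := Fintype.ofFinite (Sylow 2 G)
    have hi : (toPermHom G (Sylow 2 G)).range.index = 2 := by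
      have := (toPermHom G (Sylow 2 G)).range.index_mul_card
      rw [← Nat.card_congr (MonoidHom.ofInjective toPerm_injective).toEquiv, hG', Nat.card_perm, hn] at this
      norm_num [Nat.factorial] at this; omega
    obtain ⟨f⟩ := PSL2.equiv_psl_alt_five (F := F) (.inl hF')
    exact ⟨((MonoidHom.ofInjective toPerm_injective).trans (MulEquiv.subgroupCongr
      (Equiv.Perm.eq_alternatingGroup_of_index_eq_two hi))).trans
      ((Finite.equivFinOfCardEq hn).altCongrHom.trans f.symm)⟩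

end Cfsg.Agent.S3598
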