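import Cfsg.Statements.S3599
import Cfsg.Agent.Lib.Spec.Basic

set_option autoImplicit false
open Cfsg

namespace Cfsg.Agent.S3599

section
open Cfsg.Lib.Spec Finset

/-- The elements with `x ^ p = 1` are closed under multiplication. -/
def Cl (G : Type*) [Group G] (p : ℕ) : Prop := ∀ x y : G, x ^ p = 1 → y ^ p = 1 → (x * y) ^ p = 1

theorem Cl.of_injective {G H : Type*} [Group G] [Group H] {p : ℕ} (h : Cl H p) (f : G →* H)
    (hf : Function.Injective f) : Cl G p := fun x y hx hy =>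
  hf (by rw [map_pow, map_mul, map_one]; exact h _ _ (by rw [← map_pow, hx, map_one]) (by rw [← map_pow, hy, map_one]))

theorem Cl.of_surjective {G H : Type*} [Group G] [Group H] [Finite G] {p : ℕ} (hp : p.Prime) (h : Cl G p)
    (hs : ∀ x : G, Squarefree (orderOf x)) (f : G →* H) (hf : Function.Surjective f) : Cl H p := by
  have key : ∀ x : H, x ^ p = 1 → ∃ y : G, f y = x ∧ y ^ p = 1 := fun x hx => by
    obtain ⟨y, rfl⟩ := hf x
    by_cases h1 : p ∣ orderOf y
    · obtain ⟨m, hm⟩ := h1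
      have hc : p.Coprime m := Nat.coprime_of_squarefree_mul (hm ▸ hs y)
      obtain ⟨k, -, hk⟩ := Nat.exists_mul_mod_eq_one_of_coprime hc.symm hp.one_lt
      refine ⟨y ^ (m * k), ?_, by rw [← pow_mul, mul_right_comm, mul_comm m, ← hm, pow_mul, pow_orderOf_eq_one, one_pow]⟩
      rw [map_pow, pow_eq_pow_mod _ hx, hk, pow_one]
    · refine ⟨1, ?_, one_pow _⟩
      rw [map_one, eq_comm, ← orderOf_eq_one_iff]
      exact Nat.eq_one_of_dvd_coprimes (hp.coprime_iff_not_dvd.2 h1) (orderOf_dvd_of_pow_eq_one hx) (orderOf_map_dvd f y)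
  intro x y hx hy
  obtain ⟨x, rfl, hx'⟩ := key x hx
  obtain ⟨y, rfl, hy'⟩ := key y hy
  rw [← map_mul, ← map_pow, h x y hx' hy', map_one]

theorem Cl.mul_mem {G : Type*} [Group G] [Finite G] {p q : ℕ} (hp : p.Prime) (hq : q.Prime) (hpq : p ≠ q) (h1 : Cl G p)
    (h2 : Cl G q) (h3 : p ∈ sp G) (h4 : q ∈ sp G) : p * q ∈ sp G := by
  obtain ⟨x, rfl⟩ := h3
  obtain ⟨y, rfl⟩ := h4
  have hc := (Nat.coprime_primes hp hq).2 hpq
  refine mul_mem_sp_of_commute (commutatorElement_eq_one_iff_commute.1 (orderOf_eq_one_iff.1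
    (Nat.eq_one_of_dvd_coprimes hc (orderOf_dvd_of_pow_eq_one ?_) (orderOf_dvd_of_pow_eq_one ?_)))) hc
  · rw [commutatorElement_def, mul_assoc, mul_assoc, ← mul_assoc y]
    exact h1 _ _ (pow_orderOf_eq_one x) (by rw [conj_pow, inv_pow, pow_orderOf_eq_one]; simp)
  · exact h2 _ _ (by rw [conj_pow, pow_orderOf_eq_one]; simp) (by rw [inv_pow, pow_orderOf_eq_one, inv_one])

end

/-- A finite group is critical with respect to a set Ω of natural numbers when its set of element orders is Ω while no proper section H/N (H a subgroup, N normal in H, (H, N) ≠ (whole group, 1)) has Ω as its set of element orders. Let s ≥ 1 and let p(j,0), p(j,1) (j < s) be 2s pairwise distinct primes, and let Ω be the set of all products c(0)·…·c(s−1) with each c(j) ∈ {1, p(j,0), p(j,1)}. Then there are 2^s pairwise non-isomorphic finite groups critical with respect to Ω. -/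
theorem result (s : ℕ) (hs : 1 ≤ s) (p : Fin s → Fin 2 → ℕ)
    (hp : ∀ j i, (p j i).Prime) (hinj : ∀ j i j' i', p j i = p j' i' → j = j' ∧ i = i') :
    ∃ (G : Fin (2 ^ s) → Type) (_ : ∀ a, Group (G a)) (_ : ∀ a, Fintype (G a)),
      (∀ a b, a ≠ b → ¬ Nonempty (G a ≃* G b)) ∧
      ∀ a, Set.range (orderOf : (G a) → ℕ) = {m : ℕ | ∃ c : Fin s → ℕ, (∀ j, c j = 1 ∨ c j = p j 0 ∨ c j = p j 1) ∧ m = ∏ j, c j} ∧
      ∀ (H : Subgroup (G a)) (N : Subgroup ↥H) [N.Normal], (H ≠ ⊤ ∨ N ≠ ⊥) → Set.range (orderOf : (↥H ⧸ N) → ℕ) ≠ {m : ℕ | ∃ c : Fin s → ℕ, (∀ j, c j = 1 ∨ c j = p j 0 ∨ c j = p j 1) ∧ m = ∏ j, c j} := by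
  open Cfsg.Lib.Spec Finset in
  set Ω := {m : ℕ | ∃ c : Fin s → ℕ, (∀ j, c j = 1 ∨ c j = p j 0 ∨ c j = p j 1) ∧ m = ∏ j, c j}
  have hco : ∀ c : Fin s → ℕ, (∀ j, c j = 1 ∨ c j = p j 0 ∨ c j = p j 1) →
      ∀ i ∈ univ, ∀ j ∈ univ, i ≠ j → (c i).Coprime (c j) := fun c hc i _ j _ hij => by
    rcases hc i with e | e | e <;> rcases hc j with e' | e' | e' <;> rw [e, e'] <;>
      first | simp; done | exact (Nat.coprime_primes (hp _ _) (hp _ _)).2 fun h => hij (hinj _ _ _ _ h).1
  have hsq : ∀ m ∈ Ω, Squarefree m := by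
    rintro _ ⟨c, hc, rfl⟩
    refine Finset.squarefree_prod_of_pairwise_isCoprime (fun i _ j _ h => Nat.coprime_iff_isRelPrime.1
      (hco c hc i (mem_univ _) j (mem_univ _) h)) fun i _ => ?_
    rcases hc i with e | e | e <;> rw [e]
    exacts [squarefree_one, (hp _ _).squarefree, (hp _ _).squarefree]
  have hmem : ∀ j i, p j i ∈ Ω := fun j i => ⟨Function.update 1 j (p j i), fun k => by
    by_cases h : k = j
    · subst h; fin_cases i <;> simp
    · simp [h], by simp [prod_update_of_mem]⟩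
  have hnot : ∀ j, p j 0 * p j 1 ∉ Ω := by
    rintro j ⟨c, hc, e⟩
    have key : ∀ i, p j i ∣ ∏ k, c k → c j = p j i := fun i h => by
      obtain ⟨k, -, hk⟩ := (Prime.dvd_finsetProd_iff (hp j i).prime _).1 h
      rcases hc k with e | e | e <;> rw [e] at hk
      · exact absurd hk (hp j i).not_dvd_one
      all_goals
        have := (Nat.prime_dvd_prime_iff_eq (hp _ _) (hp _ _)).1 hk
        obtain rfl := (hinj _ _ _ _ this).1
        exact e.trans this.symm
    exact absurd (hinj _ _ _ _ ((key 0 (e ▸ dvd_mul_right _ _)).symm.trans (key 1 (e ▸ dvd_mul_left _ _)))).2 (by decide)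
  have hex : ∀ a : Fin s → Fin 2, ∃ n, ∃ (G : Type) (_ : Group G) (_ : Fintype G), Nat.card G = n ∧ sp G = Ω ∧
      ∀ j, Cl G (p j (a j)) := fun a => by
    choose A _ _ _ h1 h2 using fun j => exists_frob (a := p j (a j).rev) (hp j (a j))
      ((Nat.coprime_primes (hp _ _) (hp _ _)).2 fun h => by
        have := (hinj _ _ _ _ h).2
        revert this; generalize a j = b; revert b; decide) (hp _ _).ne_zero
    have h3 : ∀ j n, n ∈ sp (A j) ↔ n = 1 ∨ n = p j 0 ∨ n = p j 1 := fun j n => by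
      rw [h1, Set.mem_ofPred_eq, Nat.dvd_prime (hp _ _), Nat.dvd_prime (hp _ _)]
      generalize a j = b
      fin_cases b <;> simp <;> tauto
    have h4 : ∀ x : ∀ j, A j, orderOf x = ∏ j, orderOf (x j) := fun x => by
      rw [Pi.orderOf, Finset.lcm_eq_prod (hco _ fun j => (h3 j _).1 (orderOf_mem_sp _))]
    refine ⟨_, ∀ j, A j, inferInstance, Fintype.ofFinite _, rfl, Set.ext fun n => ⟨?_, ?_⟩, fun j x y hx hy => ?_⟩
    · rintro ⟨x, rfl⟩
      exact ⟨_, fun j => (h3 j _).1 (orderOf_mem_sp _), h4 x⟩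
    · rintro ⟨c, hc, rfl⟩
      choose x hx using fun j => (h3 j _).2 (hc j)
      exact ⟨x, by simp only [h4, hx]⟩
    · funext k
      by_cases h : k = j
      · subst h; exact h2 k _ _ (congrFun hx k) (congrFun hy k)
      have key : ∀ x : ∀ j, A j, x ^ p j (a j) = 1 → x k = 1 := fun x hx => by
        have := orderOf_dvd_of_pow_eq_one (congrFun hx k)
        rcases (h3 k _).1 (orderOf_mem_sp (x k)) with e | e | e
        · exact orderOf_eq_one_iff.1 e
        all_goals exact absurd (hinj _ _ _ _ ((Nat.prime_dvd_prime_iff_eq (hp _ _) (hp _ _)).1 (e ▸ this))).1 h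
      simp [key x hx, key y hy]
  classical
  choose G _ _ h1 h2 h3 using fun a => Nat.find_spec (hex a)
  let e : Fin (2 ^ s) ≃ (Fin s → Fin 2) := finFunctionFinEquiv.symm
  refine ⟨fun a => G (e a), inferInstance, inferInstance, fun a b hab ⟨f⟩ => ?_, fun a => ⟨h2 _, fun H N _ hHN h => ?_⟩⟩
  · obtain ⟨j, hj⟩ := Function.ne_iff.1 (e.injective.ne hab)
    have h4 := Cl.mul_mem (hp _ _) (hp _ _) (fun h => hj (hinj _ _ _ _ h).2) (h3 (e a) j)
      ((h3 (e b) j).of_injective f.toMonoidHom f.injective) (h2 _ ▸ hmem _ _) (h2 _ ▸ hmem _ _)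
    rw [h2] at h4
    apply hnot j
    revert hj h4
    generalize e a j = u, e b j = v
    fin_cases u <;> fin_cases v <;> simp [mul_comm]
  · obtain ⟨L, _, _, ⟨f⟩⟩ := exists_type0 (H ⧸ N)
    refine (Nat.find_min' (hex (e a)) ⟨L, _, inferInstance, rfl, (sp_congr f).trans h, fun j =>
      (((h3 _ j).of_injective H.subtype H.subtype_injective).of_surjective (hp _ _)
        (fun x => hsq _ (h2 _ ▸ sp_subgroup H (orderOf_mem_sp x))) _ (QuotientGroup.mk'_surjective N)).of_injective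
        f.toMonoidHom f.injective⟩).not_gt ?_
    rw [← h1, Nat.card_congr f.toEquiv, ← H.card_mul_index, N.card_eq_card_quotient_mul_card_subgroup, mul_assoc]
    refine lt_mul_of_one_lt_right Nat.card_pos ?_
    rcases hHN with h | h
    · exact (Subgroup.one_lt_index_of_ne_top h).trans_le (Nat.le_mul_of_pos_left _ Nat.card_pos)
    · exact ((Subgroup.one_lt_card_iff_ne_bot N).2 h).trans_le
        (Nat.le_mul_of_pos_right _ (Nat.pos_of_ne_zero Subgroup.index_ne_zero_of_finite))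

end Cfsg.Agent.S3599
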