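import Cfsg.Statements.S3619
import Cfsg.Agent.Lib.Perm.JordanSet2

set_option autoImplicit false
open Cfsg

namespace Cfsg.Agent.S3619

open MulAction Cfsg.Lib.Perm
open scoped Pointwise

/-- Let G act faithfully on a finite set in such a way that every non-trivial normal subgroup of G is transitive (G is quasiprimitive). Let Γ be a subset with more than one point and not the whole set, such that the pointwise stabilizer of the complement of Γ acts transitively on Γ (a Jordan set). If that pointwise stabilizer acts primitively on Γ, then G is k-fold transitive where k is one more than the number of points outside Γ (the Jordan set is a trivial one). -/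
theorem result {G Ω : Type*} [Group G] [Finite G] [MulAction G Ω] [FaithfulSMul G Ω] [Finite Ω]
    (hqp : ∀ N : Subgroup G, N.Normal → N ≠ ⊥ → MulAction.IsPretransitive ↥N Ω)
    (Γ : Set Ω) (hΓ1 : 1 < Γ.ncard) (hΓ2 : Γ.ncard < Nat.card Ω)
    (hJ : MulAction.IsPretransitive ↥(fixingSubgroup G Γᶜ) ↥(SubMulAction.ofFixingSubgroup G Γᶜ))
    (hJp : MulAction.IsPreprimitive ↥(fixingSubgroup G Γᶜ) ↥(SubMulAction.ofFixingSubgroup G Γᶜ)) :
    MulAction.IsMultiplyPretransitive G Ω (Nat.card Ω - Γ.ncard + 1) := by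
  have h := jor_iff.2 hJ
  have hΓ : Γ.Nontrivial := (Set.one_lt_ncard_iff_nontrivial).1 hΓ1
  have hG : IsPreprimitive G Ω := by
    by_contra hG
    haveI : IsPretransitive G Ω := by
      obtain ⟨x, hx, y, hy, hxy⟩ := hΓ
      obtain ⟨g, -, rfl⟩ := h x hx y hy
      haveI : Nontrivial G := ⟨g, 1, by rintro rfl; simp at hxy⟩
      have := hqp ⊤ inferInstance top_ne_bot
      exact ⟨fun a b => (this.exists_smul_eq a b).elim fun g hg => ⟨g, hg⟩⟩
    obtain ⟨B, f, hf, hs, hi, hnt⟩ := exists_quot_of_not_prim hG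
    haveI := quasi_faithful hqp hf hs
    obtain ⟨⟨x, hx, y, hy, hxy⟩, hfib⟩ := h.fiber hf hs hΓ
    obtain ⟨z, hxz, hfz⟩ : ∃ z, x ≠ z ∧ f z = f x := by
      obtain ⟨u, v, huv, hne⟩ := Function.not_injective_iff.1 hi
      obtain ⟨g, rfl⟩ := exists_smul_eq G x u
      exact ⟨g⁻¹ • v, fun e => hne (by rw [e, smul_inv_smul]), by rw [hf, ← huv, hf, inv_smul_smul]⟩
    have hB : IsBlock (fixingSubgroup G Γᶜ) {w : SubMulAction.ofFixingSubgroup G Γᶜ | f w = f x} := by
      rw [isBlock_iff_smul_eq_of_mem]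
      intro g a ha hga
      ext w
      rw [Set.mem_smul_set_iff_inv_smul_mem]
      have h1 : (g : G) • f x = f x := by
        have : f ((g : G) • a) = f x := hga
        rwa [hf, show f a = f x from ha] at this
      change f ((g : G)⁻¹ • w) = f x ↔ f w = f x
      rw [hf, inv_smul_eq_iff, h1]
    rcases hJp.isTrivialBlock_of_isBlock hB with h1 | h1
    · exact hxz (congrArg Subtype.val (h1 (x := ⟨x, not_not.2 hx⟩) rfl
        (y := ⟨z, not_not.2 (hfib x hx z hfz)⟩) hfz))
    · exact hxy (show f y = f x from (h1 ▸ trivial : (⟨y, not_not.2 hy⟩ :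
        SubMulAction.ofFixingSubgroup G Γᶜ) ∈ {w : SubMulAction.ofFixingSubgroup G Γᶜ | f w = f x})).symm
  have hc := Set.ncard_add_ncard_compl Γ
  have := hG.isMultiplyPreprimitive (s := Γᶜ) (n := Nat.card Ω - Γ.ncard - 1) (by omega) (by omega) hJp
  rw [show Nat.card Ω - Γ.ncard + 1 = Nat.card Ω - Γ.ncard - 1 + 2 by omega]
  exact this.isMultiplyPretransitive

end Cfsg.Agent.S3619
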