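import Cfsg.Statements.S3626
import Cfsg.Agent.Lib.Ree.Spec
import Cfsg.Agent.Lib.Ree.Orders
import Cfsg.Agent.Lib.Ree.Inst

set_option autoImplicit false
open Cfsg

namespace Cfsg.Agent.S3626

open Lib.Spec in
theorem aux {H R : Type*} [Group H] [Group R] {k l : ℕ}
    (h : ∀ a, a ∈ sp R ↔ a ∈ sp H ∨ a ∣ k ∨ a ∣ l) : sp (H × R × R) = sp (R × R × R) := by
  ext n
  simp only [mem_sp_prod, h]
  refine ⟨fun ⟨a, ha, h⟩ => ⟨a, Or.inl ha, h⟩, ?_⟩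
  rintro ⟨a, ha | ha, _, ⟨b, hb, c, hc, rfl⟩, rfl⟩
  · exact ⟨a, ha, _, ⟨b, hb, c, hc, rfl⟩, rfl⟩
  have lc : ∀ a b c : ℕ, a.lcm (b.lcm c) = b.lcm (a.lcm c) := fun a b c => by
    rw [← Nat.lcm_assoc, Nat.lcm_comm a, Nat.lcm_assoc]
  rcases hb with hb | hb
  · exact ⟨b, hb, _, ⟨a, Or.inr ha, c, hc, rfl⟩, lc ..⟩
  rcases hc with hc | hc
  · exact ⟨c, hc, _, ⟨a, Or.inr ha, b, Or.inr hb, rfl⟩, by rw [← Nat.lcm_assoc, Nat.lcm_comm]⟩
  refine ⟨1, one_mem_sp, _, ?_, (Nat.lcm_one_left _).symm⟩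
  have h4 : ∀ {x y k : ℕ}, x ∣ k → y ∣ k → x.lcm y ∣ k := Nat.lcm_dvd
  rcases ha with ha | ha <;> rcases hb with hb | hb <;> rcases hc with hc | hc
  all_goals first
    | exact ⟨a, by tauto, _, Or.inr (Or.inl (h4 hb hc)), rfl⟩
    | exact ⟨a, by tauto, _, Or.inr (Or.inr (h4 hb hc)), rfl⟩
    | exact ⟨b, by tauto, _, Or.inr (Or.inl (h4 ha hc)), lc ..⟩
    | exact ⟨b, by tauto, _, Or.inr (Or.inr (h4 ha hc)), lc ..⟩
    | exact ⟨_, Or.inr (Or.inl (h4 ha hb)), c, by tauto, (Nat.lcm_assoc ..).symm⟩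
    | exact ⟨_, Or.inr (Or.inr (h4 ha hb)), c, by tauto, (Nat.lcm_assoc ..).symm⟩

/-- Let R be the small Ree group over the field with q = 3^(2m+1) ≥ 27 elements. Then there are finite groups of arbitrarily large order with exactly the same set of element orders as R × R × R. -/
theorem result {K : Type*} [Field K] [Fintype K] {m : ℕ} (hm : 1 ≤ m) (hK : Fintype.card K = 3 ^ (2 * m + 1)) (N : ℕ) :
    ∃ (H : Type) (_ : Group H) (_ : Fintype H), N < Fintype.card H ∧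
      Set.range (orderOf : H → ℕ) = Set.range (orderOf : ↥(Cfsg.Lie.twistedG2 K (3 ^ m)) × ↥(Cfsg.Lie.twistedG2 K (3 ^ m)) × ↥(Cfsg.Lie.twistedG2 K (3 ^ m)) → ℕ) := by
  obtain ⟨M, -⟩ := Lib.Ree.exists_model hK
  have hq := Lib.Ree.three_lt_card hm hK
  have := M.finite
  have := M.charP
  have h1 := M.exists_orderOf_iff hq (Lib.Ree.sq_eq_three_mul hK)
  obtain ⟨H, _, _, h2, h3⟩ := Lib.Ree.unb_ree (K := K) (by have := M.card_mod; omega) N
  obtain ⟨R, _, _, ⟨e⟩⟩ := Lib.Spec.exists_type0 (Cfsg.Lie.twistedG2 K (3 ^ m))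
  refine ⟨H × R × R, inferInstance, inferInstance, h2.trans_le (Fintype.card_le_of_injective _
    (Prod.mk_left_injective 1)), (Lib.Spec.sp_congr ((MulEquiv.refl H).prodCongr
      (e.prodCongr e))).trans (aux (k := Nat.card K - 3 ^ (m + 1) + 1)
        (l := Nat.card K + 3 ^ (m + 1) + 1) fun a => (h1 a).trans ?_)⟩
  rw [h3, Set.mem_ofPred_eq, or_assoc, or_assoc, or_assoc]

end Cfsg.Agent.S3626
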