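import Cfsg.Statements.S3627
import Cfsg.Agent.Lib.J1.Basic

set_option autoImplicit false
open Cfsg

namespace Cfsg.Agent.S3627

open Cfsg.Lib.Calc Cfsg.Lib.F2 Cfsg.Spor

/-- Inversion. -/
def act (N : ℕ) : ℤˣ →* MulAut (Multiplicative (Fin (N + 1) → ZMod 7)) :=
  (MulAutMultiplicative _).symm.toMonoidHom.comp (DistribMulAction.toAddAut ℤˣ (Fin (N + 1) → ZMod 7))

/-- A generalised dihedral group. -/
abbrev K (N : ℕ) : Type := Multiplicative (Fin (N + 1) → ZMod 7) ⋊[act N] ℤˣ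

theorem sq_one {N : ℕ} (a : Multiplicative (Fin (N + 1) → ZMod 7)) : (⟨a, -1⟩ : K N) ^ 2 = 1 := by
  rw [sq]
  refine SemidirectProduct.ext ?_ (by simp)
  change Multiplicative.ofAdd (a.toAdd + (-1 : ℤˣ) • a.toAdd) = 1
  simp

theorem pow_seven {N : ℕ} (a : Multiplicative (Fin (N + 1) → ZMod 7)) : a ^ 7 = 1 := by
  change Multiplicative.ofAdd (7 • a.toAdd) = 1
  rw [show 7 • a.toAdd = 0 from funext fun i => by
    rw [Pi.smul_apply, nsmul_eq_mul]; exact mul_eq_zero_of_left rfl _]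
  rfl

theorem range_K (N : ℕ) (n : ℕ) : (∃ g : K N, orderOf g = n) ↔ n ∈ [1, 2, 7] := by
  haveI : Fact (Nat.Prime 7) := ⟨by norm_num⟩
  simp only [List.mem_cons, List.not_mem_nil, or_false]
  constructor
  · rintro ⟨⟨a, u⟩, rfl⟩
    rcases Int.units_eq_one_or u with rfl | rfl
    · have : (⟨a, 1⟩ : K N) ^ 7 = 1 := by
        rw [show (⟨a, 1⟩ : K N) = SemidirectProduct.inl a from rfl, ← map_pow, pow_seven, map_one]
      have := (Nat.dvd_prime (by norm_num)).1 (orderOf_dvd_of_pow_eq_one this)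
      tauto
    · have := (Nat.dvd_prime Nat.prime_two).1 (orderOf_dvd_of_pow_eq_one (sq_one a))
      tauto
  · rintro (rfl | rfl | rfl)
    · exact ⟨1, orderOf_one⟩
    · exact ⟨_, orderOf_eq_prime (sq_one 1) fun e => absurd (show (-1 : ℤˣ) = 1 from congrArg SemidirectProduct.right e) (by decide)⟩
    · refine ⟨SemidirectProduct.inl (Multiplicative.ofAdd 1), ?_⟩
      rw [orderOf_injective _ SemidirectProduct.inl_injective]
      exact orderOf_eq_prime (pow_seven _) fun e => absurd (show (1 : ZMod 7) = 0 from congrFun (congrArg Multiplicative.toAdd e) 0) one_ne_zero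

theorem range_J (n : ℕ) : (∃ g : J1, orderOf g = n) ↔ n ∈ [1, 2, 3, 5, 6, 7, 10, 11, 15, 19] := by
  refine (Set.ext_iff.1 Lib.J1.spec_J1 n).trans ⟨fun ⟨j, hj, h⟩ => ?_, fun h => ?_⟩
  · have h0 : ∀ j ∈ [6, 7, 10, 11, 15, 19], 0 < j ∧ j < 20 ∧
        ∀ n < 20, n ∣ j → n ∈ [1, 2, 3, 5, 6, 7, 10, 11, 15, 19] := by decide
    exact (h0 j hj).2.2 n (lt_of_le_of_lt (Nat.le_of_dvd (h0 j hj).1 h) (h0 j hj).2.1) h
  · change ∃ j ∈ [6, 7, 10, 11, 15, 19], n ∣ j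
    revert n; decide

theorem key : allL [1, 2, 3, 5, 6, 7, 10, 11, 15, 19] (fun a => allL [1, 2, 3, 5, 6, 7, 10, 11, 15, 19] fun b =>
    allL [1, 2, 3, 5, 6, 7, 10, 11, 15, 19] fun c => allL [1, 2, 3, 5, 6, 7, 10, 11, 15, 19] fun d =>
      forceB (a.lcm (b.lcm (c.lcm d))) fun n => memN n [1, 2, 3, 5, 6, 7, 10, 11, 14, 15, 19, 21, 22, 30, 33, 35, 38, 42, 55, 57, 66, 70, 77, 95, 105, 110, 114, 133, 154, 165, 190, 209, 210, 231, 266, 285, 330, 385, 399, 418, 462, 570, 627, 665, 770, 798, 1045, 1155, 1254, 1330, 1463, 1995, 2090, 2310, 2926, 3135, 3990, 4389, 6270, 7315, 8778, 14630, 21945]) = true := by decide +kernel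

theorem key2 : ∀ n ∈ [1, 2, 3, 5, 6, 7, 10, 11, 14, 15, 19, 21, 22, 30, 33, 35, 38, 42, 55, 57, 66, 70, 77, 95, 105, 110, 114, 133, 154, 165, 190, 209, 210, 231, 266, 285, 330, 385, 399, 418, 462, 570, 627, 665, 770, 798, 1045, 1155, 1254, 1330, 1463, 1995, 2090, 2310, 2926, 3135, 3990, 4389, 6270, 7315, 8778, 14630, 21945], ∃ w ∈ [(1, 1, 1, 1), (1, 1, 1, 2), (1, 1, 3, 1), (1, 1, 5, 1), (1, 1, 3, 2), (1, 1, 1, 7), (1, 1, 5, 2), (1, 1, 11, 1), (1, 1, 2, 7), (1, 1, 15, 1), (1, 1, 19, 1), (1, 1, 3, 7), (1, 1, 11, 2), (1, 1, 15, 2), (1, 3, 11, 1), (1, 1, 5, 7), (1, 1, 19, 2), (1, 1, 6, 7), (1, 5, 11, 1), (1, 3, 19, 1), (1, 3, 11, 2), (1, 1, 10, 7), (1, 1, 11, 7), (1, 5, 19, 1), (1, 1, 15, 7), (1, 5, 11, 2), (1, 3, 19, 2), (1, 1, 19, 7), (1, 2, 11, 7), (1, 11, 15, 1), (1, 5, 19, 2), (1, 11, 19, 1), (1, 2, 15, 7), (1, 3, 11, 7), (1, 2, 19, 7), (1, 15, 19, 1), (1, 11, 15, 2), (1,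 5, 11, 7), (1, 3, 19, 7), (1, 11, 19, 2), (1, 6, 11, 7), (1, 15, 19, 2), (3, 11, 19, 1), (1, 5, 19, 7), (1, 10, 11, 7), (1, 6, 19, 7), (5, 11, 19, 1), (1, 11, 15, 7), (3, 11, 19, 2), (1, 10, 19, 7), (1, 11, 19, 7), (1, 15, 19, 7), (5, 11, 19, 2), (2, 11, 15, 7), (2, 11, 19, 7), (11, 15, 19, 1), (2, 15, 19, 7), (3, 11, 19, 7), (11, 15, 19, 2), (5, 11, 19, 7), (6, 11, 19, 7), (10, 11, 19, 7), (11, 15, 19, 7)],
    w.1 ∈ [1, 2, 3, 5, 6, 7, 10, 11, 15, 19] ∧ w.2.1 ∈ [1, 2, 3, 5, 6, 7, 10, 11, 15, 19] ∧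
      w.2.2.1 ∈ [1, 2, 3, 5, 6, 7, 10, 11, 15, 19] ∧ w.2.2.2 ∈ [1, 2, 7] ∧
        Nat.lcm w.1 (Nat.lcm w.2.1 (Nat.lcm w.2.2.1 w.2.2.2)) = n := by decide +kernel

/-- Let J be the first Janko group. Then there are finite groups of arbitrarily large order with exactly the same set of element orders as J × J × J × J. -/
theorem result (N : ℕ) : ∃ (H : Type) (_ : Group H) (_ : Fintype H), N < Fintype.card H ∧
      Set.range (orderOf : H → ℕ) = Set.range (orderOf : ↥Cfsg.Spor.J1 × ↥Cfsg.Spor.J1 × ↥Cfsg.Spor.J1 × ↥Cfsg.Spor.J1 → ℕ) := by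
  haveI : Finite (K N) := Finite.of_equiv _ SemidirectProduct.equivProd.symm
  refine ⟨J1 × J1 × J1 × K N, inferInstance, Fintype.ofFinite _, ?_, Set.ext fun n => ⟨?_, ?_⟩⟩
  · rw [← @Nat.card_eq_fintype_card _ (Fintype.ofFinite _)]
    refine lt_of_lt_of_le ?_ (Nat.card_le_card_of_injective
      (fun a : Multiplicative (Fin (N + 1) → ZMod 7) => ((1, 1, 1, SemidirectProduct.inl a) : J1 × J1 × J1 × K N))
      fun a b e => SemidirectProduct.inl_injective (congrArg (·.2.2.2) e))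
    rw [Nat.card_eq_fintype_card, Fintype.card_multiplicative, Fintype.card_fun, ZMod.card, Fintype.card_fin]
    exact (Nat.lt_succ_self N).trans (Nat.lt_pow_self (by norm_num))
  · rintro ⟨⟨a, b, c, d⟩, rfl⟩
    obtain ⟨d', hd⟩ := (range_J (orderOf d)).2 (by have := (range_K N _).1 ⟨d, rfl⟩; revert this; generalize orderOf d = m; revert m; decide)
    exact ⟨(a, b, c, d'), by simp only [Prod.orderOf, hd]⟩
  · rintro ⟨⟨a, b, c, d⟩, rfl⟩
    have h := allL_iff.1 (allL_iff.1 (allL_iff.1 (allL_iff.1 key _ ((range_J _).1 ⟨a, rfl⟩)) _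
      ((range_J _).1 ⟨b, rfl⟩)) _ ((range_J _).1 ⟨c, rfl⟩)) _ ((range_J _).1 ⟨d, rfl⟩)
    rw [forceB_eq] at h
    obtain ⟨w, -, h1, h2, h3, h4, h5⟩ := key2 _ (mem_of_memN h)
    obtain ⟨a', ha⟩ := (range_J _).2 h1
    obtain ⟨b', hb⟩ := (range_J _).2 h2
    obtain ⟨c', hc⟩ := (range_J _).2 h3
    obtain ⟨d', hd⟩ := (range_K N _).2 h4
    exact ⟨(a', b', c', d'), by simp only [Prod.orderOf, ha, hb, hc, hd, h5]⟩

end Cfsg.Agent.S3627
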