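import Cfsg.Statements.S3639
import Cfsg.Agent.Lib.Sz.Tori

set_option autoImplicit false
open Cfsg

namespace Cfsg.Agent.S3639

open Cfsg.Lib.Sz Matrix

variable {F : Type*} [Field F] {G : Type*} [Group G] (M : Model F G)

theorem eq_zero_of_fixed [Finite F] {g : G} (hp : (orderOf g).Prime) (h2 : orderOf g ≠ 2)
    {v : Fin 4 → F} (h : M.mat g *ᵥ v = v) : v = 0 := by
  have h1 : g ≠ 1 := by rintro rfl; simp at hp; exact Nat.not_prime_one hp
  rcases M.trichotomy g with ⟨p, h3⟩ | ⟨x, μ, rfl⟩ | h3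
  · exact absurd h3 (M.not_mem_Up_of_odd h1 (hp.odd_of_ne_two h2) p)
  · have hμ : (μ : F) ≠ 1 := by
      intro h3; apply h1; rw [show μ = 1 from Units.ext h3]; simp
    have h3 : M.mat (M.h μ) *ᵥ (M.mat x⁻¹ *ᵥ v) = M.mat x⁻¹ *ᵥ v := by
      conv_rhs => rw [← h]
      rw [mulVec_mulVec, mulVec_mulVec, ← map_mul, ← map_mul]
      congr 2; group
    have h4 : M.mat x⁻¹ *ᵥ v = 0 := by
      generalize M.mat x⁻¹ *ᵥ v = w at h3
      have hw : w = ![w 0, w 1, w 2, w 3] := by ext i; fin_cases i <;> rfl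
      have h5 : M.σ μ * μ ≠ 1 := fun h => hμ (M.σ_mul_self_eq_one h)
      rw [hw, M.mat_h, Tits.hM, mulVec_fin_four, vec4_ext] at h3
      simp only [zero_mul, add_zero, zero_add, mul_left_eq_self₀, inv_eq_one, hμ, h5, false_or] at h3
      rw [hw, h3.1, h3.2.1, h3.2.2.1, h3.2.2.2]
      ext i; fin_cases i <;> rfl
    rw [← one_mulVec v, ← map_one M.mat, ← mul_inv_cancel x, map_mul, ← mulVec_mulVec, h4, mulVec_zero]
  · rcases h3.irreducible hp (LinearMap.ker (M.rep g - 1)) (fun w hw => by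
      rw [LinearMap.mem_ker, LinearMap.sub_apply, sub_eq_zero] at hw ⊢
      rw [hw]; exact hw) with h4 | h4
    · refine LinearMap.ker_eq_bot'.1 h4 v ?_
      rw [LinearMap.sub_apply, sub_eq_zero]; exact h
    · exact absurd (M.rep_inj ((sub_eq_zero.1 (LinearMap.ker_eq_top.1 h4)).trans (map_one _).symm)) h1

/-- The action on `k` copies of the natural module. -/
noncomputable def φ (k : ℕ) : G →* MulAut (Multiplicative (Matrix (Fin 4) (Fin k) F)) where
  toFun g :=
    { toFun := fun v => Multiplicative.ofAdd (M.mat g * v.toAdd)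
      invFun := fun v => Multiplicative.ofAdd (M.mat g⁻¹ * v.toAdd)
      left_inv := fun v => by simp [← Matrix.mul_assoc, ← map_mul]
      right_inv := fun v => by simp [← Matrix.mul_assoc, ← map_mul]
      map_mul' := fun v w => by simp [Matrix.mul_add] }
  map_one' := by ext v; simp
  map_mul' g h := by ext v; simp [Matrix.mul_assoc]

theorem pow_eq_one_of_ker {k : ℕ} {y : Multiplicative (Matrix (Fin 4) (Fin k) F) ⋊[φ M k] G}
    (h : SemidirectProduct.rightHom y = 1) : y ^ 2 = 1 := by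
  have := M.charP
  obtain ⟨v, rfl⟩ : y ∈ SemidirectProduct.inl.range := by
    rw [SemidirectProduct.range_inl_eq_ker_rightHom]; exact h
  rw [← map_pow, sq, ← map_one SemidirectProduct.inl]
  congr 1
  apply Multiplicative.toAdd.injective
  ext i j
  simp [CharTwo.add_self_eq_zero]

theorem orderOf_rightHom {k : ℕ} {y : Multiplicative (Matrix (Fin 4) (Fin k) F) ⋊[φ M k] G}
    (h : Odd (orderOf y)) : orderOf (SemidirectProduct.rightHom y) = orderOf y := by
  refine Nat.dvd_antisymm (orderOf_map_dvd _ _) ?_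
  have := pow_eq_one_of_ker M (y := y ^ orderOf (SemidirectProduct.rightHom y))
    (by rw [map_pow, pow_orderOf_eq_one])
  rw [← pow_mul] at this
  exact (Nat.coprime_two_right.2 h).dvd_of_dvd_mul_right (orderOf_dvd_of_pow_eq_one this)

theorem orderOf_ne [Finite F] {k s : ℕ} (hs : s.Prime) (h2 : s ≠ 2)
    (y : Multiplicative (Matrix (Fin 4) (Fin k) F) ⋊[φ M k] G) : orderOf y ≠ 2 * s := by
  intro h
  have h1 : orderOf (y ^ 2) = s := by
    rw [orderOf_pow_of_dvd two_ne_zero (h ▸ Dvd.intro _ rfl), h]; simp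
  have h3 : orderOf (y ^ s) = 2 := by
    rw [orderOf_pow_of_dvd hs.ne_zero (h ▸ Dvd.intro_left _ rfl), h, Nat.mul_div_cancel _ hs.pos]
  have h4 := orderOf_rightHom M (y := y ^ 2) (h1 ▸ hs.odd_of_ne_two h2)
  rw [h1] at h4
  have h5 : y ^ 2 * y ^ s = y ^ s * y ^ 2 := by rw [← pow_add, ← pow_add, add_comm]
  have h6 : SemidirectProduct.rightHom (y ^ s) = 1 := by
    by_contra h6
    have h7 : SemidirectProduct.rightHom (y ^ s) ^ 2 ^ 1 = 1 := by
      rw [← map_pow, pow_one, ← h3, pow_orderOf_eq_one, map_one]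
    obtain ⟨p, hp⟩ := M.exists_le_Up (P := Subgroup.zpowers (SemidirectProduct.rightHom (y ^ s)))
      (by
        rintro ⟨_, n, rfl⟩
        refine ⟨1, Subtype.ext ?_⟩
        simp only [SubgroupClass.coe_pow, OneMemClass.coe_one]
        rw [← zpow_natCast, ← _root_.zpow_mul, mul_comm, _root_.zpow_mul, zpow_natCast, h7, _root_.one_zpow])
    refine M.not_mem_Up_of_odd ?_ (h4 ▸ hs.odd_of_ne_two h2) p
      (M.mem_Up_of_commute (hp (Subgroup.mem_zpowers _)) h6 (by rw [← map_mul, h5, map_mul]))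
    intro h8; rw [h8, orderOf_one] at h4; exact hs.one_lt.ne h4
  obtain ⟨v, hv⟩ : y ^ s ∈ SemidirectProduct.inl.range := by
    rw [SemidirectProduct.range_inl_eq_ker_rightHom]; exact h6
  rw [← hv] at h5 h3
  have h7 : M.mat (SemidirectProduct.rightHom (y ^ 2)) * v.toAdd = v.toAdd := by
    have h8 := congrArg SemidirectProduct.left h5
    simp only [SemidirectProduct.mul_left, SemidirectProduct.left_inl, SemidirectProduct.right_inl,
      map_one, MulAut.one_apply] at h8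
    rw [mul_comm v] at h8
    exact congrArg Multiplicative.toAdd (mul_left_cancel h8)
  have h8 : v = 1 := by
    apply Multiplicative.toAdd.injective
    ext i j
    exact congrFun (eq_zero_of_fixed M (h4 ▸ hs) (h4 ▸ h2) (v := fun i => v.toAdd i j)
      (funext fun i => congrFun (congrFun h7 i) j)) i
  rw [h8, map_one, orderOf_one] at h3
  exact absurd h3 (by norm_num)

theorem exists_orderOf_iff [Finite F] {k r s : ℕ} (hr : r.Prime) (hs : s.Prime) (hrs : r ≠ s) :
    (∃ x : G, orderOf x = r * s) ↔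
      ∃ y : Multiplicative (Matrix (Fin 4) (Fin k) F) ⋊[φ M k] G, orderOf y = r * s := by
  constructor
  · rintro ⟨x, hx⟩
    exact ⟨SemidirectProduct.inr x, by rw [orderOf_injective _ SemidirectProduct.inr_injective, hx]⟩
  · rintro ⟨y, hy⟩
    have h1 : r ≠ 2 := by rintro rfl; exact orderOf_ne M hs hrs.symm y hy
    have h2 : s ≠ 2 := by rintro rfl; exact orderOf_ne M hr hrs y (hy.trans (mul_comm _ _))
    exact ⟨_, (orderOf_rightHom M (hy ▸ (hr.odd_of_ne_two h1).mul (hs.odd_of_ne_two h2))).trans hy⟩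

/-- Let S be the Suzuki group over the field with q = 2^(2m+1) ≥ 8 elements. Then there are finite groups of arbitrarily large order with the same prime graph as S. -/
theorem result {F : Type*} [Field F] [Fintype F] {m : ℕ} (hm : 1 ≤ m) (hF : Fintype.card F = 2 ^ (2 * m + 1)) (N : ℕ) :
    ∃ (H : Type) (_ : Group H) (_ : Fintype H), N < Fintype.card H ∧ ((∀ r : ℕ, r.Prime → (r ∣ Nat.card ↥(Cfsg.Lie.Sz F (2 ^ (m + 1))) ↔ r ∣ Nat.card H)) ∧
      (∀ r s : ℕ, r.Prime → s.Prime → r ≠ s → ((∃ x : ↥(Cfsg.Lie.Sz F (2 ^ (m + 1))), orderOf x = r * s) ↔ (∃ y : H, orderOf y = r * s)))) := by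
  have hq : Nat.card F = 2 ^ (2 * m + 1) := by rw [Nat.card_eq_fintype_card, hF]
  generalize lieModel hF = M
  have hc : Nat.card (Multiplicative (Matrix (Fin 4) (Fin N) F) ⋊[φ M N] Cfsg.Lie.Sz F (2 ^ (m + 1))) =
      (2 ^ (2 * m + 1)) ^ (4 * N) * Nat.card (Cfsg.Lie.Sz F (2 ^ (m + 1))) := by
    rw [SemidirectProduct.card, Nat.card_congr Multiplicative.toAdd, Matrix, Nat.card_fun, Nat.card_fun,
      hq, ← pow_mul (2 ^ (2 * m + 1)), mul_comm 4]
    simp
  have := M.finite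
  have hG : 0 < Nat.card (Cfsg.Lie.Sz F (2 ^ (m + 1))) := Nat.card_pos
  have : Finite (Multiplicative (Matrix (Fin 4) (Fin N) F) ⋊[φ M N] Cfsg.Lie.Sz F (2 ^ (m + 1))) :=
    Nat.finite_of_card_ne_zero (by rw [hc]; positivity)
  let e := Shrink.mulEquiv.{0}
    (α := Multiplicative (Matrix (Fin 4) (Fin N) F) ⋊[φ M N] Cfsg.Lie.Sz F (2 ^ (m + 1)))
  have := Finite.of_equiv _ e.toEquiv.symm
  refine ⟨_, inferInstance, Fintype.ofFinite (Shrink.{0}
    (Multiplicative (Matrix (Fin 4) (Fin N) F) ⋊[φ M N] Cfsg.Lie.Sz F (2 ^ (m + 1)))), ?_, ?_, ?_⟩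
  · rw [← @Nat.card_eq_fintype_card _ (_), Nat.card_congr e.toEquiv, hc, ← pow_mul]
    calc N < 2 ^ N := Nat.lt_two_pow_self
      _ ≤ 2 ^ ((2 * m + 1) * (4 * N)) := Nat.pow_le_pow_right (by norm_num) (by nlinarith)
      _ ≤ _ := Nat.le_mul_of_pos_right _ hG
  · intro r hr
    rw [Nat.card_congr e.toEquiv, hc, hr.dvd_mul]
    refine ⟨Or.inr, fun h => h.elim (fun h => ?_) id⟩
    rw [M.card_G, hq]
    exact ((hr.dvd_of_dvd_pow h).trans (dvd_pow_self _ two_ne_zero)).mul_right _ |>.mul_right _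
  · intro r s hr hs hrs
    rw [exists_orderOf_iff M (k := N) hr hs hrs]
    exact ⟨fun ⟨y, hy⟩ => ⟨e.symm y, by rw [MulEquiv.orderOf_eq, hy]⟩,
      fun ⟨y, hy⟩ => ⟨e y, by rw [MulEquiv.orderOf_eq, hy]⟩⟩

end Cfsg.Agent.S3639
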