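import Cfsg.Statements.S3641
import Cfsg.Agent.Lib.Perm.Half
import Cfsg.Agent.Lib.Perm.Hall4
import Cfsg.Agent.Lib.PSL2.Sub
import Cfsg.Agent.Lib.Linear.Basic
import Cfsg.Agent.Lib.PGroup.Basic
import Cfsg.Agent.S0732

set_option autoImplicit false
open Cfsg

namespace Cfsg.Agent.S3641

open MulAction Subgroup Lib.Perm Lib.Transfer

theorem relIndex_dvd {G : Type*} [Group G] [Finite G] {Z T : Subgroup G} [IsCyclic Z]
    (hT : T ≤ normalizer (Z : Set G)) :
    (centralizer (Z : Set G)).relIndex T ∣ (Nat.card Z).totient := by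
  rw [← relIndex_subgroupOf hT, ← normalizerMonoidHom_ker, relIndex_ker, ← IsCyclic.card_mulAut]
  exact card_subgroup_dvd_card _

theorem ker_le {G Γ : Type*} [Group G] [Group Γ] [Finite G] {π : G →* Γ}
    (hπ : Function.Surjective π) {r : ℕ} [Fact r.Prime]
    (h : Nat.card (Sylow r Γ) ∣ Nat.card (Sylow r G) → Nat.card (Sylow r Γ) = Nat.card (Sylow r G))
    (R : Sylow r G) : π.ker ≤ normalizer (R : Set G) := by
  have := Finite.of_surjective _ hπ
  have h1 : normalizer (R : Set G) ≤ (normalizer (R.mapSurjective hπ : Set Γ)).comap π :=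
    map_le_iff_le_comap.1 (le_normalizer_map π)
  have h2 := index_comap_of_surjective (normalizer (R.mapSurjective hπ : Set Γ)) hπ
  rw [R.card_eq_index_normalizer, (R.mapSurjective hπ).card_eq_index_normalizer, ← h2] at h
  have h3 := relIndex_mul_index h1
  rw [← h (index_dvd_of_le h1), mul_eq_right₀ index_ne_zero_of_finite, relIndex_eq_one] at h3
  exact (ker_le_comap _ _).trans h3

variable {Γ Ω : Type*} [Group Γ] [MulAction Γ Ω] (h : ZT Γ Ω) (hΩ : Nat.card Ω = 18) {d : ℕ}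
  (hd : d = 16 ∨ d = 8) (hΓ : Nat.card Γ = 18 * 17 * d)
include h hΩ hd hΓ

theorem two (h2 : Nat.card (Sylow 2 Γ) ∣ 153) : Nat.card (Sylow 2 Γ) = 153 := by
  have := h.finite
  have := h.finite_pts
  have := h.pretransitive
  obtain ⟨T⟩ : Nonempty (Sylow 2 Γ) := inferInstance
  have hT : 2 ^ 4 ∣ Nat.card T := T.pow_dvd_card_of_pow_dvd_card (by
    rw [hΓ]; rcases hd with rfl | rfl <;> norm_num)
  obtain ⟨a, ha⟩ : ∃ a : Ω, (stabilizer Γ a).relIndex T ≤ 2 := by
    by_contra hc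
    push Not at hc
    have := dvd_ncard_of_orbits (A := T) (s := (Set.univ : Set Ω)) (k := 4) (fun _ _ _ => trivial)
      fun x _ => by
        have h1 := hc x
        obtain ⟨k, hk⟩ := T.2.index ((stabilizer Γ x).subgroupOf T)
        rw [ncard_orbit_subgroup]
        rw [relIndex, hk] at h1 ⊢
        refine pow_dvd_pow 2 (show 2 ≤ k from ?_)
        by_contra hc
        interval_cases k <;> omega
    rw [Set.ncard_univ, hΩ] at this
    omega
  have hF : ∀ x ∈ normalizer (T : Set Γ), ∀ c : Ω, (stabilizer Γ c).relIndex T ≤ 2 →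
      (stabilizer Γ (x • c)).relIndex T ≤ 2 := fun x hx c hc => by
    rwa [stabilizer_smul_eq_stabilizer_map_conj, ← conj_eq_self_iff.2 hx,
      show (stabilizer Γ c).map (MulAut.conj x).toMonoidHom = x ⋆ _ from rfl, relIndex_conj]
  obtain ⟨t, ht, hta⟩ : ∃ t ∈ (T : Subgroup Γ), t • a ≠ a := by
    by_contra hc
    push Not at hc
    refine not_dvd_index_of_sylow_le T (H := stabilizer Γ a) hc ?_
    rw [index_stabilizer_of_transitive, hΩ]; norm_num
  have hb := hF t (le_normalizer ht) a ha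
  have key : ∀ c : Ω, (stabilizer Γ c).relIndex T ≤ 2 → c = a ∨ c = t • a := by
    intro c hc
    by_contra hcon
    push Not at hcon
    have h0 : stabilizer Γ a ⊓ stabilizer Γ (t • a) ⊓ stabilizer Γ c = ⊥ := eq_bot_iff.2
      fun g hg => h.three g _ _ _ hta.symm hcon.2.symm hcon.1.symm hg.1.1 hg.1.2 hg.2
    have h1 := relIndex_inf_le (H := stabilizer Γ a ⊓ stabilizer Γ (t • a)) (K := stabilizer Γ c)
      (L := T)
    have h3 := relIndex_inf_le (H := stabilizer Γ a) (K := stabilizer Γ (t • a)) (L := T)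
    rw [h0, relIndex_bot_left] at h1
    have := Nat.le_of_dvd Nat.card_pos hT
    have := Nat.mul_le_mul ha hb
    have := Nat.mul_le_mul (h3.trans this) hc
    omega
  have hN : ∀ s : ℕ, s.Prime → s ≠ 2 → ¬ s ∣ Nat.card (normalizer (T : Set Γ)) := by
    intro s hs hs2 hsd
    have := Fact.mk hs
    obtain ⟨x, hx, hxo⟩ := Lib.Core.exists_mem_orderOf_eq_prime hs hsd
    have ho : Odd (orderOf x) := hxo ▸ hs.odd_of_ne_two hs2
    have hab : x • a = a ∧ x • t • a = t • a := by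
      rcases key _ (hF x hx _ ha) with h1 | h1 <;> rcases key _ (hF x hx _ hb) with h3 | h3
      · exact absurd (smul_left_cancel x (h3.trans h1.symm)) hta
      · exact ⟨h1, h3⟩
      · exact absurd (h1.symm.trans (smul_eq_of_sq_of_odd ho (by rw [h1, h3]))) hta
      · exact absurd (smul_left_cancel x (h3.trans h1.symm)) hta
    have h1 := orderOf_dvd_natCard _ (show x ∈ stab2 Γ a (t • a) from hab)
    have h3 := h.card_eq hta.symm
    rw [hΓ, show Nat.card (zker Γ a) = 17 from Nat.succ_injective ((h.card_zker a).trans hΩ),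
      ← mul_assoc] at h3
    rw [← Nat.eq_of_mul_eq_mul_left (by norm_num) h3, hxo] at h1
    exact hs2 ((Nat.prime_dvd_prime_iff_eq hs Nat.prime_two).1 (hs.dvd_of_dvd_pow (n := 4)
      (h1.trans (by rcases hd with rfl | rfl <;> norm_num))))
  refine Nat.dvd_antisymm h2 (Nat.Coprime.dvd_of_dvd_mul_left (m := Nat.card (normalizer (T : Set Γ)))
    ?_ ?_)
  · exact Nat.Coprime.mul_left (Nat.Coprime.pow_left 2 ((Nat.Prime.coprime_iff_not_dvd
      Nat.prime_three).2 (hN 3 Nat.prime_three (by norm_num)))) ((Nat.Prime.coprime_iff_not_dvd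
      (by norm_num)).2 (hN 17 (by norm_num) (by norm_num)))
  · rw [T.card_eq_index_normalizer, card_mul_index, hΓ]
    exact Dvd.intro (2 * d) (by ring)

theorem three (h9 : ∃ y : Γ, orderOf y = 9) (h3 : Nat.card (Sylow 3 Γ) ∣ 136) :
    Nat.card (Sylow 3 Γ) = 136 := by
  have := h.finite
  have := h.finite_pts
  have := h.pretransitive
  obtain ⟨y, hy⟩ := h9
  have hc : Nat.card (zpowers y) = 3 ^ 2 := by rw [Nat.card_zpowers, hy]; rfl
  obtain ⟨R, hR⟩ : ∃ R : Sylow 3 Γ, (R : Subgroup Γ) = zpowers y :=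
    ⟨(IsPGroup.of_card hc).toSylow (fun h3 => by
      have := (zpowers y).card_mul_index
      obtain ⟨k, hk⟩ := h3
      rw [hc, hk, hΓ] at this
      omega), rfl⟩
  have hfix : ∀ (k : ℕ) (a : Ω), y ^ k • a = a → 3 ∣ k := by
    intro k a hk
    by_contra hk3
    have h1 := orderOf_dvd_natCard _ (show y ^ k ∈ stabilizer Γ a from hk)
    have h2 := card_eq_card_mul_stabilizer (G := Γ) a
    have h4 : (orderOf y).Coprime k :=
      hy ▸ Nat.Coprime.pow_left 2 ((Nat.Prime.coprime_iff_not_dvd Nat.prime_three).2 hk3)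
    rw [h4.orderOf_pow, hy] at h1
    rw [hΓ, hΩ] at h2
    omega
  have h18 := card_dvd_of_semiregular (N := centralizer (zpowers y : Set Γ)) (α := Ω) fun a =>
    eq_bot_iff.2 fun c hc => Subtype.ext (by
      have e : ∀ k : ℕ, (c : Γ) • y ^ k • a = y ^ k • a := fun k => by
        rw [← mul_smul, ← c.2 _ (npow_mem_zpowers y k), mul_smul, show (c : Γ) • a = a from hc]
      refine h.three _ a (y ^ 1 • a) (y ^ 2 • a) (fun e => ?_) (fun e => ?_) (fun e => ?_) hc (e 1) (e 2)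
      · exact absurd (hfix 1 a e.symm) (by norm_num)
      · rw [sq, mul_smul, pow_one, smul_left_cancel_iff] at e
        exact absurd (hfix 1 a (by rw [pow_one, ← e])) (by norm_num)
      · exact absurd (hfix 2 a e.symm) (by norm_num))
  have h6 := relIndex_dvd (Z := zpowers y) le_rfl
  have h1 := mul_dvd_mul h18 h6
  rw [card_mul_relIndex (centralizer_le_normalizer _), hc, hΩ, show Nat.totient (3 ^ 2) = 6 by decide,
    ← hR] at h1
  have h2 := card_mul_index (normalizer (R : Set Γ))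
  have h4 := card_sylow_modEq_one 3 Γ
  rw [← R.card_eq_index_normalizer, hΓ] at h2
  have h5 : 18 * 17 * d ∣ 18 * 6 * Nat.card (Sylow 3 Γ) := h2 ▸ mul_dvd_mul_right h1 _
  have := Nat.le_of_dvd (by norm_num) h3
  generalize Nat.card (Sylow 3 Γ) = n at *
  rw [Nat.ModEq] at h4
  rcases hd with rfl | rfl <;> omega

omit h hΩ hd hΓ

theorem card_range {G : Type*} [Group G] [Finite G] [Fact (Nat.Prime 17)]
    (h17 : Nat.card (Sylow 17 G) = 18) : ∃ d < 17,
    Nat.card (toPermHom G (Sylow 17 G)).range = (17 + 1) * 17 * d := by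
  classical
  set φ := toPermHom G (Sylow 17 G)
  have : Nontrivial (Sylow 17 G) := Finite.one_lt_card_iff_nontrivial.1 (by omega)
  obtain ⟨P, Q, hPQ⟩ := exists_pair_ne (Sylow 17 G)
  have hφ : ∀ (g : G) (x : Sylow 17 G), φ.rangeRestrict g • x = g • x := fun _ _ => rfl
  have : IsPretransitive φ.range (Sylow 17 G) := ⟨fun x y => by
    obtain ⟨g, hg⟩ := exists_smul_eq G x y
    exact ⟨φ.rangeRestrict g, hg⟩⟩
  set Z := (P : Subgroup G).map φ.rangeRestrict with hZ
  have hn : stabilizer φ.range P ≤ normalizer (Z : Set φ.range) := fun g hg => by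
    obtain ⟨g, rfl⟩ := φ.rangeRestrict_surjective g
    exact le_normalizer_map _ ⟨g, Sylow.smul_eq_iff_mem_normalizer.1 hg, rfl⟩
  have hZP : Z ≤ stabilizer φ.range P := by
    rintro _ ⟨g, hg, rfl⟩
    exact Sylow.smul_eq_iff_mem_normalizer.2 (le_normalizer hg)
  have hsub : orbit (stabilizer φ.range P) Q ⊆ {P}ᶜ := by
    rintro _ ⟨g, rfl⟩ e
    exact hPQ (smul_left_cancel g (g.2.trans (Eq.symm e)))
  have hc : ({P}ᶜ : Set (Sylow 17 G)).ncard = 17 := by
    have := Set.ncard_add_ncard_compl {P}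
    rw [Set.ncard_singleton] at this
    omega
  have hle : orbit Z Q ⊆ orbit (stabilizer φ.range P) Q := fun _ ⟨g, hg⟩ => ⟨⟨g, hZP g.2⟩, hg⟩
  have hZp : IsPGroup 17 Z := P.2.map _
  have hZQ : orbit Z Q = {P}ᶜ := by
    refine Set.eq_of_subset_of_ncard_le (hle.trans hsub) ?_
    obtain ⟨k, hk⟩ := hZp.index ((stabilizer φ.range Q).subgroupOf Z)
    rw [hc, ncard_orbit_subgroup, relIndex, hk]
    refine Nat.le_self_pow ?_ _
    rintro rfl
    refine hPQ (Sylow.ext (P.is_maximal' Q.2 (P.2.sylow_mem_fixedPoints_iff.1 fun g => ?_)).symm)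
    exact (subgroupOf_eq_top.1 (index_eq_one.1 hk)) ⟨g, g.2, rfl⟩
  have hC : ∀ g : φ.range, g • P = P → g • Q = Q → g ∈ centralizer (Z : Set φ.range) → g = 1 := by
    intro g h1 h2 h3
    refine eq_one_of_forall_smul fun x => if hx : x = P then hx ▸ h1 else ?_
    obtain ⟨z, rfl⟩ := hZQ.ge hx
    change g • (z : φ.range) • Q = (z : φ.range) • Q
    rw [← mul_smul, ← h3 z z.2, mul_smul, h2]
  have hZc : Nat.card Z = 17 := by
    obtain ⟨k, hk⟩ := hZp.exists_card_eq
    have h1 : Nat.card Z ∣ Nat.factorial 18 := h17 ▸ card_dvd_factorial Z (Sylow 17 G)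
    have h2 := ncard_orbit_mul (A := Z) Q
    rw [hZQ, hc, hk] at h2
    rw [hk] at h1 ⊢
    rcases k with _ | _ | k
    · omega
    · rfl
    · exact absurd ((pow_dvd_pow 17 (Nat.le_add_left 2 k)).trans h1) (by decide)
  have := isCyclic_of_prime_card hZc
  have h16 := relIndex_dvd (Z := Z) (T := stabilizer φ.range P ⊓ stabilizer φ.range Q)
    (inf_le_left.trans hn)
  rw [← inf_relIndex_right, show centralizer (Z : Set φ.range) ⊓ (stabilizer _ P ⊓ stabilizer _ Q) = ⊥ from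
    eq_bot_iff.2 fun g hg => hC g hg.2.1 hg.2.2 hg.1, relIndex_bot_left, hZc,
    Nat.totient_prime Fact.out] at h16
  refine ⟨_, (Nat.le_of_dvd (by norm_num) h16).trans_lt (by norm_num), ?_⟩
  rw [card_eq_card_mul_stabilizer P, h17, ← card_mul_relIndex (inf_le_left (b := stabilizer _ Q)),
    inf_relIndex_left, ← ncard_orbit_subgroup, hsub.antisymm (hZQ ▸ hle), hc]
  ring

/-- Let G be a finite group with trivial centre whose set of Sylow numbers (numbers of Sylow r-subgroups, r over the prime divisors of its order) is exactly {18, 136, 153}. Then G is isomorphic to PSL(2, 17) or to PGL(2, 17). -/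
theorem result {G : Type*} [Group G] [Finite G] (hZ : Subgroup.center G = ⊥) (hNS : {c : ℕ | ∃ r : ℕ, r.Prime ∧ r ∣ Nat.card G ∧ c = Nat.card (Sylow r G)} = ({18, 136, 153} : Set ℕ))
    {F : Type*} [Field F] [Fintype F] (hF : Fintype.card F = 17) :
    Nonempty (G ≃* Matrix.ProjectiveSpecialLinearGroup (Fin 2) F) ∨ Nonempty (G ≃* (GL (Fin 2) F ⧸ Subgroup.center (GL (Fin 2) F))) := by
  classical
  have : Fact (Nat.Prime 17) := ⟨by norm_num⟩
  have hall : ∀ r : ℕ, r.Prime → r ∣ Nat.card G → Nat.card (Sylow r G) = 18 ∨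
      Nat.card (Sylow r G) = 136 ∨ Nat.card (Sylow r G) = 153 := fun r h1 h2 =>
    hNS.le ⟨r, h1, h2, rfl⟩
  have h17 : Nat.card (Sylow 17 G) = 18 := by
    obtain ⟨r, h1, -, h2⟩ := hNS.ge (Or.inl rfl)
    have := Fact.mk h1
    obtain rfl := (Nat.prime_dvd_prime_iff_eq h1 (by norm_num : Nat.Prime 17)).1
      ((Nat.modEq_iff_dvd' (by norm_num)).1 (h2 ▸ card_sylow_modEq_one r G).symm)
    exact h2.symm
  have h18 : 18 ∣ Nat.card G := by
    obtain ⟨P⟩ : Nonempty (Sylow 17 G) := inferInstance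
    rw [← h17, P.card_eq_index_normalizer]; exact index_dvd_card _
  have h2 : Nat.card (Sylow 2 G) = 153 := by
    have := hall 2 Nat.prime_two (dvd_trans (by norm_num) h18)
    have h := card_sylow_modEq_one 2 G
    rw [Nat.ModEq] at h; omega
  have h3 : Nat.card (Sylow 3 G) = 136 := by
    have := hall 3 Nat.prime_three (dvd_trans (by norm_num) h18)
    have h := card_sylow_modEq_one 3 G
    rw [Nat.ModEq] at h; omega
  obtain ⟨d, hd, hΓ⟩ := card_range h17
  set φ := toPermHom G (Sylow 17 G)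
  have := Fintype.ofFinite (Sylow 17 G)
  have : IsPretransitive φ.range (Sylow 17 G) := ⟨fun x y => by
    obtain ⟨g, hg⟩ := exists_smul_eq G x y
    exact ⟨φ.rangeRestrict g, hg⟩⟩
  have hZT := S0732.zt (by norm_num : Nat.Prime 17) h17 hΓ hd
  obtain ⟨y, hy⟩ := Lib.PSL2.exists_orderOf_eq_card_add_one (F := ZMod 17)
  have hy2 : orderOf (y * y) = 9 := by rw [← sq, orderOf_pow' _ two_ne_zero, hy, Nat.card_zmod]; rfl
  have hf : Nonempty (ZMod 17 ≃+* F) := ⟨FiniteField.ringEquivOfCardEq (by rw [hF, ZMod.card])⟩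
  obtain ⟨f⟩ := hf
  obtain ⟨hd', h9, hiso⟩ : (d = 16 ∨ d = 8) ∧ (∃ y : φ.range, orderOf y = 9) ∧
      (Nonempty (φ.range ≃* Matrix.ProjectiveSpecialLinearGroup (Fin 2) F) ∨
        Nonempty (φ.range ≃* Matrix.ProjGenLinGroup (Fin 2) F)) := by
    rcases S0732.result (by norm_num : Nat.Prime 17) (Nat.card_eq_fintype_card.symm.trans h17) φ.range hΓ hd
      with ⟨h, ⟨e⟩⟩ | ⟨h, ⟨e⟩⟩ | ⟨q, -, h, -⟩
    · exact ⟨Or.inl h, ⟨e.symm (y * y), by rw [MulEquiv.orderOf_eq, hy2]⟩,
        Or.inr ⟨e.trans (Lib.Linear.congrPGL (Equiv.refl _) f)⟩⟩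
    · exact ⟨Or.inr (by omega), ⟨e.symm ((Lib.PSL2.pslEquiv _).symm ⟨_, Lib.PSL2.sq_mem_pslSub y⟩),
        by rw [MulEquiv.orderOf_eq, MulEquiv.orderOf_eq, orderOf_mk, hy2]⟩,
        Or.inl ⟨e.trans (Lib.Linear.congrPSL (Equiv.refl _) f)⟩⟩
    · exact absurd (Nat.prime_three.dvd_of_dvd_pow (h ▸ (by norm_num : 3 ∣ 17 + 1))) (by norm_num)
  have k17 : ∀ R : Sylow 17 G, φ.ker ≤ normalizer (R : Set G) := fun R g hg =>
    Sylow.smul_eq_iff_mem_normalizer.1 (congrArg (fun σ : Equiv.Perm _ => σ R) hg)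
  have hpr : ∀ s : ℕ, s.Prime → s ∣ Nat.card G → s = 2 ∨ s = 3 ∨ s = 17 := by
    intro s hs hsd
    by_contra hc
    push Not at hc
    have := Fact.mk hs
    obtain ⟨R⟩ : Nonempty (Sylow s G) := inferInstance
    obtain ⟨P⟩ : Nonempty (Sylow 17 G) := inferInstance
    have n17 : ¬ s ∣ 17 := fun h => hc.2.2 ((Nat.prime_dvd_prime_iff_eq hs (by norm_num)).1 h)
    have n2 : ¬ s ∣ 2 ^ 5 := fun h =>
      hc.1 ((Nat.prime_dvd_prime_iff_eq hs Nat.prime_two).1 (hs.dvd_of_dvd_pow h))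
    have n3 : ¬ s ∣ 3 ^ 2 := fun h =>
      hc.2.1 ((Nat.prime_dvd_prime_iff_eq hs Nat.prime_three).1 (hs.dvd_of_dvd_pow h))
    have hn : Nat.card (Sylow s G) = 136 ∨ Nat.card (Sylow s G) = 153 :=
      (hall s hs hsd).resolve_left fun h =>
        n17 ((Nat.modEq_iff_dvd' (by norm_num)).1 (h ▸ card_sylow_modEq_one s G).symm)
    have hRP : (R : Subgroup G) ≤ normalizer (P : Set G) := by
      refine le_trans (Lib.Core.le_of_isPGroup_of_coprime_index R.2
        (Lib.Core.coprime_iff_not_dvd.2 fun h => ?_)) (k17 P)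
      rw [index_ker, hΓ] at h
      have := h.trans (show _ ∣ 2 ^ 5 * 3 ^ 2 * 17 by rcases hd' with rfl | rfl <;> norm_num)
      rw [hs.dvd_mul, hs.dvd_mul] at this
      tauto
    have h1 := ncard_modEq_fixed R.2 (s := orbit P R) (Set.toFinite _) (by
      rintro u hu _ ⟨x, rfl⟩
      refine ⟨⟨u * x * u⁻¹, (mem_normalizer_iff.1 (hRP hu) x).1 x.2⟩, ?_⟩
      change (u * x * u⁻¹) • R = u • (x : G) • R
      rw [mul_smul, mul_smul, Sylow.smul_eq_iff_mem_normalizer.2 (le_normalizer (inv_mem hu))])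
    rw [show {x | x ∈ orbit P R ∧ ∀ u ∈ (R : Subgroup G), u • x = x} = {R} from Set.ext fun x =>
      ⟨fun h => Sylow.ext (R.is_maximal' x.2 (R.2.sylow_mem_fixedPoints_iff.1 fun g => h.2 g g.2)),
        fun h => h ▸ ⟨mem_orbit_self _, fun u hu =>
          Sylow.smul_eq_iff_mem_normalizer.2 (le_normalizer hu)⟩⟩, Set.ncard_singleton] at h1
    have h4 : (orbit P R).ncard ≤ 153 := (Set.ncard_le_card _).trans (by omega)
    obtain ⟨k, hk⟩ := P.2.index ((stabilizer G R).subgroupOf P)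
    rw [ncard_orbit_subgroup, relIndex, hk] at h1 h4
    rcases k with _ | _ | k
    · refine not_dvd_index_of_sylow_le P (subgroupOf_eq_top.1 (index_eq_one.1 hk)) ?_
      rw [index_stabilizer_of_transitive]
      omega
    · exact n2 (((Nat.modEq_iff_dvd' (by norm_num)).1 h1.symm).trans (by norm_num))
    · exact absurd ((Nat.pow_le_pow_right (n := 17) (by norm_num) (Nat.le_add_left 2 k)).trans h4)
        (by norm_num)
  have kall : ∀ (s : ℕ) [Fact s.Prime], s ∣ Nat.card G → ∀ R : Sylow s G,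
      φ.ker ≤ normalizer (R : Set G) := by
    intro s _ hs
    rw [← φ.ker_rangeRestrict]
    obtain rfl | rfl | rfl := hpr s Fact.out hs
    · exact ker_le φ.rangeRestrict_surjective (h2 ▸ two hZT h17 hd' hΓ)
    · exact ker_le φ.rangeRestrict_surjective (h3 ▸ three hZT h17 hd' hΓ h9)
    · rw [φ.ker_rangeRestrict]; exact k17
  have hK : φ.ker = ⊥ := by
    by_contra h0
    obtain ⟨r, hr, hrd⟩ := Lib.Core.exists_prime_dvd_card h0
    have := Fact.mk hr
    obtain ⟨x, hx, hxo⟩ := Lib.Core.exists_mem_orderOf_eq_prime hr hrd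
    have hrG := hrd.trans (card_subgroup_dvd_card _)
    obtain ⟨R, hR⟩ := (IsPGroup.of_card (n := 1) (by rw [Nat.card_zpowers, hxo, pow_one]) :
      IsPGroup r (zpowers x)).exists_le_sylow
    have hn : (φ.ker ⊓ R).Normal := ⟨fun y hy g => by
      have h1 : g * y * g⁻¹ ∈ φ.ker := (inferInstance : φ.ker.Normal).conj_mem y hy.1 g
      have h2 := (isPGroup_conj (R.2.to_inf_right (H := φ.ker)) g).inf_normalizer_sylow R
      exact ⟨h1, (h2.le ⟨conj_mem_conj.2 hy, kall r hrG R h1⟩).2⟩⟩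
    obtain ⟨⟨z, hz, hzR⟩, hz1⟩ := ne_bot_iff_exists_ne_one.1 (Lib.PGroup.inf_centralizer_ne_bot
      (R.2.to_inf_right (H := φ.ker)) R.2 le_normalizer_of_normal fun e => hr.one_lt.ne' (by
        rw [← hxo, mem_bot.1 (e.le ⟨hx, hR (mem_zpowers x)⟩), orderOf_one]))
    refine hz1 (Subtype.ext (mem_bot.1 (hZ.le (mem_center_iff.2 fun g => ?_))))
    suffices h : centralizer ({z} : Set G) = ⊤ from mem_centralizer_singleton_iff.1 (h ▸ mem_top g)
    rw [← index_eq_one]
    by_contra hc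
    obtain ⟨s, hs, hsd⟩ := Nat.exists_prime_and_dvd hc
    have := Fact.mk hs
    by_cases hsr : s = r
    · subst hsr
      exact not_dvd_index_of_sylow_le R (fun u hu => mem_centralizer_singleton_iff.2 (hzR u hu)) hsd
    obtain ⟨S⟩ : Nonempty (Sylow s G) := inferInstance
    refine not_dvd_index_of_sylow_le S (fun u hu => mem_centralizer_singleton_iff.2 ?_) hsd
    have h1 : u * z * u⁻¹ * z⁻¹ ∈ φ.ker ⊓ R := mul_mem (hn.conj_mem z hz u) (inv_mem hz)
    have h4 : u * z * u⁻¹ * z⁻¹ ∈ (S : Subgroup G) := by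
      rw [mul_assoc, mul_assoc, ← mul_assoc z]
      exact mul_mem hu ((mem_normalizer_iff.1 (kall s (hsd.trans (index_dvd_card _)) S hz.1) _).1
        (inv_mem hu))
    have := (IsPGroup.disjoint_of_ne s r hsr _ _ S.2 R.2).le_bot ⟨h4, h1.2⟩
    rwa [mem_bot, mul_inv_eq_one, mul_inv_eq_iff_eq_mul] at this
  let e := MonoidHom.ofInjective ((MonoidHom.ker_eq_bot_iff φ).1 hK)
  exact hiso.imp (fun ⟨k⟩ => ⟨e.trans k⟩) fun ⟨k⟩ => ⟨e.trans k⟩

end Cfsg.Agent.S3641
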