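import Cfsg.Statements.S3648
import Cfsg.Agent.Lib.Spec2.Nse

set_option autoImplicit false
open Cfsg

namespace Cfsg.Agent.S3648

open Subgroup MulAction Cfsg.Lib Cfsg.Lib.BG Cfsg.Lib.Spec2 Cfsg.Lib.Perm Cfsg.Lib.PSL2
open scoped MatrixGroups

theorem zt (F : Type*) [Field F] [Finite F] : ZT PGL(2, F) (P1 F) := by
  refine ⟨fun a b c d hab hcd => ?_, fun g a b c h1 h2 h3 => eq_one_of_fix_three h1 h3 h2, ?_⟩
  · obtain ⟨g, h1, h2⟩ := exists_smul_inf_zero hab
    obtain ⟨k, h3, h4⟩ := exists_smul_inf_zero hcd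
    exact ⟨k * g⁻¹, by rw [mul_smul, ← h1, inv_smul_smul, h3], by rw [mul_smul, ← h2, inv_smul_smul, h4]⟩
  · have := Finite.one_lt_card (α := F)
    rw [card_P1]; omega

theorem sharp {G Ω : Type*} [Group G] [MulAction G Ω] (h : ZT G Ω) {q : ℕ} (hq : Nat.card Ω = q + 1)
    (hG : Nat.card G = q * (q ^ 2 - 1)) {a b : Ω} (hab : a ≠ b) :
    Nat.card (zker G a) = q ∧ Nat.card (stab2 G a b) + 1 = q := by
  have c1 := h.card_zker a
  have c2 := h.card_eq hab
  have c3 := h.card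
  obtain ⟨r, rfl⟩ : ∃ r, q = r + 1 := ⟨q - 1, by omega⟩
  have c4 : Nat.card (zker G a) = r + 1 := by omega
  rw [hG, c4, show (r + 1) ^ 2 - 1 = r * (r + 2) from Nat.sub_eq_of_eq_add (by ring)] at c2
  exact ⟨c4, congrArg (· + 1) (Nat.eq_of_mul_eq_mul_left
    (show 0 < (r + 1) * (r + 2) by positivity) (by nlinarith))⟩

/-- For a finite group X let nse(X) be the set of values of the function 'number of elements of order k' over the element orders k that occur. Let F be a finite field of odd order q > 3 and P = PGL(2, F) = GL(2, F) modulo its centre. If G is a finite group with the same order as P and nse(G) = nse(P), then G is isomorphic to P. -/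
theorem result {F : Type*} [Field F] [Fintype F] (hodd : Odd (Fintype.card F)) (h3 : 3 < Fintype.card F)
    {G : Type*} [Group G] [Finite G] (hcard : Nat.card G = Nat.card (GL (Fin 2) F ⧸ Subgroup.center (GL (Fin 2) F)))
    (hnse : {c : ℕ | 0 < c ∧ ∃ n : ℕ, c = Nat.card {g : G // orderOf g = n}} = {c : ℕ | 0 < c ∧ ∃ n : ℕ, c = Nat.card {g : (GL (Fin 2) F ⧸ Subgroup.center (GL (Fin 2) F)) // orderOf g = n}}) :
    Nonempty (G ≃* (GL (Fin 2) F ⧸ Subgroup.center (GL (Fin 2) F))) := by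
  change Nat.card G = Nat.card PGL(2, F) at hcard
  have hn : ∀ c, (0 < c ∧ ∃ n, c = nse G n) ↔ (0 < c ∧ ∃ n, c = nse PGL(2, F) n) :=
    Set.ext_iff.1 hnse
  rw [← Nat.card_eq_fintype_card] at hodd h3
  have hL := card_PGL2 (K := F)
  have z := zt F
  have hab : (inf : P1 F) ≠ pt 0 := inf_ne_pt 0
  obtain ⟨c1, c2⟩ := sharp z card_P1 hL hab
  obtain ⟨p, hp, hE⟩ := z.elab_of_large hab (by omega)
  have := Fact.mk hp
  obtain ⟨k, hk⟩ := (PGroup.elemAb_isPGroup hE).exists_card_eq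
  have h1 := nse_zt z hE
  have h2 := (inv_count z hab (c1 ▸ hodd)).2
  have h4 : Nat.card {g : PGL(2, F) // orderOf g = 2 ∧ g • inf = pt (0 : F)} =
      Nat.card (stab2 PGL(2, F) inf (pt (0 : F))) := by
    rw [← z.card_swap hab]
    refine Nat.card_congr (Equiv.subtypeEquivRight fun g => ⟨fun hg => ⟨hg.2, by
      rw [← hg.2, smul_smul, Inv.mul_self_of_orderOf hg.1, one_smul]⟩, fun hg => ⟨?_, hg.1⟩⟩)
    exact orderOf_eq_prime ((sq g).trans (mul_self_of_swap hab hg.1 hg.2)) (by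
      rintro rfl; exact hab ((one_smul _ _).symm.trans hg.1))
  rw [h4, card_P1] at h2
  rw [c1] at h1 hk
  obtain ⟨r, hr⟩ := hodd
  rw [hr] at h1 h2 h3 hk hL c2
  have e0 : (2 * r + 1) ^ 2 - 1 = 2 * r * (2 * r + 2) := Nat.sub_eq_of_eq_add (by ring)
  have h5 := prime_dvd_nse (G := PGL(2, F)) Nat.prime_two (by
    rw [hL, e0]; exact ((dvd_mul_right 2 r).mul_right _).mul_left _)
  have h6 : (2 * r + 1) ^ 2 ≤ nse PGL(2, F) 2 := by
    rcases h1 2 with e | e | ⟨t, e⟩
    · omega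
    · rw [e, e0, mul_assoc] at h5; omega
    · change _ ≤ nse PGL(2, F) 2 * _ at h2
      rw [e] at h2 h5 ⊢
      have h7 : 2 * r ≤ t := by
        rw [show Nat.card (stab2 PGL(2, F) inf (pt (0 : F))) = 2 * r by omega, Nat.add_sub_cancel] at h2
        exact Nat.le_of_mul_le_mul_left (c := (2 * r + 1) * (2 * r + 1 + 1)) (by nlinarith) (by positivity)
      have h8 : t ≠ 2 * r := by
        rintro rfl
        rw [mul_left_comm] at h5; omega
      rw [sq]; gcongr; omega
  have h7 : nse G 2 = nse PGL(2, F) 2 := by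
    obtain ⟨-, n, e⟩ := (hn _).2 ⟨by nlinarith, 2, rfl⟩
    by_cases h1 : n = 1
    · rw [h1, nse_one] at e; nlinarith
    by_cases h2 : n = 2
    · rw [e, h2]
    · obtain ⟨m, hm⟩ := even_nse (G := G) h1 h2
      omega
  rw [hL] at hcard
  have k0 : k ≠ 0 := by rintro rfl; rw [pow_zero] at hk; omega
  have p2 : p ≠ 2 := by
    rintro rfl
    have := dvd_pow_self 2 k0
    omega
  obtain ⟨y, hy⟩ := zt_of_nse (G := G) p2 k0 (hk ▸ hcard) fun n => by
    rw [← hk]
    rcases Nat.eq_zero_or_pos (nse G n) with e | e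
    · exact .inr (.inr (e ▸ dvd_zero _))
    obtain ⟨-, m, e'⟩ := (hn _).1 ⟨e, n, rfl⟩
    rcases h1 m with rfl | e'' | e''
    · refine .inl (by_contra fun h1 => ?_)
      rw [nse_one] at e'
      by_cases h2 : n = 2
      · rw [h2] at e'; nlinarith
      · obtain ⟨m, hm⟩ := even_nse (G := G) h1 h2
        omega
    · exact .inr (.inl (e'.trans e''))
    · exact .inr (.inr (e' ▸ e''))
  rw [← hk] at hy
  obtain ⟨a⟩ := y.nonempty
  obtain ⟨b, hb⟩ := y.exists_ne a
  obtain ⟨d1, d2⟩ := sharp y hy hcard hb.symm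
  have h8 := (inv_count y hb.symm (d1 ▸ ⟨r, rfl⟩)).1
  have hs : ∀ s : G, s • a = b → s • b = a → s * s = 1 := fun s h3 h4 =>
    Inv.mul_self_of_orderOf (y.forall_swap_of_card hb.symm (fun g => orderOf g = 2)
      (fun g => Inv.mul_self_of_orderOf) (by
        change nse G 2 * _ ≤ _ at h8
        rw [hy, h7, Nat.add_sub_cancel, show 2 * r + 1 + 1 - 2 = 2 * r by omega] at h8
        by_contra h9
        obtain ⟨m, hm⟩ : ∃ m, Nat.card {g : G // orderOf g = 2 ∧ g • a = b} + 1 + m = 2 * r :=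
          ⟨2 * r - (Nat.card {g : G // orderOf g = 2 ∧ g • a = b} + 1), by omega⟩
        have := Nat.mul_le_mul_right (2 * r) h6
        nlinarith) h3 h4)
  obtain ⟨s, h9, h10⟩ := y.two a b b a hb.symm hb
  exact y.nonempty_equiv_PGL hb.symm h9 h10 (hs s h9 h10) (y.inverts_of_forall_swap hs h9 h10)
    (by omega) F (by omega)

end Cfsg.Agent.S3648
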