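import Cfsg.Statements.S3660
import Cfsg.Agent.Lib.Spec.PSL2

set_option autoImplicit false
open Cfsg

namespace Cfsg.Agent.S3660

/-- The prime graph of a finite group has the prime divisors of its order as vertices, two distinct primes p, q being joined when the group has an element of order pq; two groups have the same prime graph when they have the same prime divisors and the same joined pairs. Let F be a finite field of characteristic 2 with at least 4 elements. Then there are finite groups of arbitrarily large order with the same prime graph as PSL(2,F); in particular PSL(2,F) is not determined by its prime graph. -/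
theorem result {F : Type*} [Field F] [Fintype F] [CharP F 2] (hF : 4 ≤ Fintype.card F) (N : ℕ) :
    ∃ (H : Type) (_ : Group H) (_ : Finite H), N < Nat.card H ∧
      ((∀ p : ℕ, p.Prime → (p ∣ Nat.card (Matrix.ProjectiveSpecialLinearGroup (Fin 2) F) ↔ p ∣ Nat.card H)) ∧
      (∀ p q : ℕ, p.Prime → q.Prime → p ≠ q → ((∃ g : (Matrix.ProjectiveSpecialLinearGroup (Fin 2) F), orderOf g = p * q) ↔ (∃ g : H, orderOf g = p * q)))) := by
  open Cfsg.Lib.Spec in
  refine (unb_sl2_even (F := F)).primeGraph ?_ N
  rw [sp_psl2_even]
  have key : ∀ n, n ∣ 4 → n = 1 ∨ n = 2 ∨ n = 4 := fun n h => by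
    have := Nat.le_of_dvd (by norm_num) h
    interval_cases n <;> simp_all
  refine ⟨fun p hp => or_congr_left ⟨fun h => h.trans (by norm_num), fun h => ?_⟩,
    fun p q hp hq hpq => or_congr_left ⟨fun h => h.trans (by norm_num), fun h => absurd ?_ hpq⟩⟩
  · exact hp.dvd_of_dvd_pow (n := 2) h
  · exact ((Nat.prime_dvd_prime_iff_eq hp Nat.prime_two).1 (hp.dvd_of_dvd_pow (n := 2) ((dvd_mul_right p q).trans h))).trans
      ((Nat.prime_dvd_prime_iff_eq hq Nat.prime_two).1 (hq.dvd_of_dvd_pow (n := 2) ((dvd_mul_left q p).trans h))).symm

end Cfsg.Agent.S3660
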