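import Cfsg.Statements.S3663
import Cfsg.Agent.Lib.Unitary.U34Chk
import Cfsg.Agent.Lib.Unitary.PrimeGraph
import Cfsg.Agent.Lib.Unitary.U3

set_option autoImplicit false
open Cfsg

namespace Cfsg.Agent.S3663

section

open Cfsg.Lib.Unitary Cfsg.Lib.Unitary.U34 Cfsg.Lib.Calc Matrix Finset

variable {σ : K16 →+* K16}

open Classical in
/-- The form, or the ratio of proportional vectors. -/
noncomputable def G0 (σ : K16 →+* K16) (a u : Fin 3 → K16) : K16 :=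
  if h : ∃ c : K16, u = c • a then h.choose else stdForm σ _ a u

/-- Nonzero isotropic vectors. -/
def Iso (σ : K16 →+* K16) (a : Fin 3 → K16) : Prop := a ≠ 0 ∧ stdForm σ _ a a = 0

theorem G0_smul {a : Fin 3 → K16} (ha : a ≠ 0) (c : K16) : G0 σ a (c • a) = c := by
  have h : ∃ d : K16, c • a = d • a := ⟨c, rfl⟩
  rw [G0, dif_pos h]
  exact (smul_left_injective K16 ha h.choose_spec).symm

theorem G0_ne {a u : Fin 3 → K16} (ha : Iso σ a) (h : stdForm σ _ a u ≠ 0) :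
    G0 σ a u = stdForm σ _ a u := by
  rw [G0, dif_neg]
  rintro ⟨c, rfl⟩
  simp [ha.2] at h

theorem Iso.smul {a : Fin 3 → K16} (ha : Iso σ a) {c : K16} (hc : c ≠ 0) : Iso σ (c • a) :=
  ⟨smul_ne_zero hc ha.1, by simp [ha.2]⟩

theorem mul_act (x y : SU 3 K16 4) (u : Fin 3 → K16) :
    (x * y).1.1 *ᵥ u = x.1.1 *ᵥ y.1.1 *ᵥ u := (mulVec_mulVec u x.1.1 y.1.1).symm

theorem one_act (u : Fin 3 → K16) : (1 : SU 3 K16 4).1.1 *ᵥ u = u := one_mulVec u

variable (h : IsBar 4 σ)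
include h

theorem cases {a u : Fin 3 → K16} (ha : Iso σ a) (hu : Iso σ u) :
    stdForm σ _ a u ≠ 0 ∨ ∃ c : K16, c ≠ 0 ∧ u = c • a := by
  refine (ne_or_eq _ _).imp id fun e => ?_
  obtain ⟨c, rfl⟩ := h.isHerm.exists_smul_of_orth (by simp) ha.1 ha.2 hu.2 e
  exact ⟨c, fun h0 => hu.1 (by simp [h0]), rfl⟩

theorem G0_ne_zero {a u : Fin 3 → K16} (ha : Iso σ a) (hu : Iso σ u) : G0 σ a u ≠ 0 := by
  rcases cases h ha hu with e | ⟨c, hc, rfl⟩
  · rwa [G0_ne ha e]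
  · rwa [G0_smul ha.1]

theorem Iso.mul {a : Fin 3 → K16} (ha : Iso σ a) (g : SU 3 K16 4) : Iso σ (g.1.1 *ᵥ a) :=
  ⟨fun e => ha.1 ((h.suEquiv 3 g).1.map_eq_zero_iff.mp e), (h.mem_SU.mp g.2 a a).trans ha.2⟩

theorem G0_mul {a u : Fin 3 → K16} (ha : Iso σ a) (hu : Iso σ u) (g : SU 3 K16 4) :
    G0 σ (g.1.1 *ᵥ a) (g.1.1 *ᵥ u) = G0 σ a u := by
  rcases cases h ha hu with e | ⟨c, hc, rfl⟩
  · rw [G0_ne ha e, G0_ne (ha.mul h g) ((h.mem_SU.mp g.2 a u).trans_ne e), h.mem_SU.mp g.2]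
  · rw [mulVec_smul, G0_smul ha.1, G0_smul (ha.mul h g).1]

theorem G0_scale {a u : Fin 3 → K16} (ha : Iso σ a) (hu : Iso σ u) {m l : K16} (hm : m ≠ 0)
    (hl : l ≠ 0) : G0 σ (m • a) (l • u) ^ 3 = (l / m) ^ 3 * G0 σ a u ^ 3 := by
  rcases cases h ha hu with e | ⟨c, hc, rfl⟩
  · have h1 : m ^ 15 = 1 := FiniteField.pow_card_sub_one_eq_one m hm
    rw [G0_ne ha e, G0_ne (ha.smul hm) (by simp [e, hm, hl])]
    simp only [LinearMap.map_smulₛₗ, LinearMap.smul_apply, smul_eq_mul, h.eq, RingHom.id_apply]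
    field_simp
    linear_combination h1
  · rw [G0_smul ha.1, show l • c • a = (l * c / m) • m • a by
      rw [smul_smul, smul_smul, div_mul_cancel₀ _ hm], G0_smul (ha.smul hm).1]
    ring

/-- The element of order 13. -/
def g0 : SU 3 K16 4 := ⟨⟨!![TF.of 15, TF.of 15, TF.of 12; TF.of 13, TF.of 15, TF.of 7;
  TF.of 2, TF.of 15, TF.of 11], by decide +kernel⟩, h.mem_SU_iff.mpr (by
    rw [show (σ : K16 → K16) = fun x => x ^ 4 from funext h.eq]; decide +kernel)⟩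

theorem orderOf_g0 : orderOf (g0 h) = 13 :=
  have : Fact (Nat.Prime 13) := ⟨by norm_num⟩
  orderOf_eq_prime (Subtype.ext (Subtype.ext (show (!![TF.of 15, TF.of 15, TF.of 12;
    TF.of 13, TF.of 15, TF.of 7; TF.of 2, TF.of 15, TF.of 11] : Matrix (Fin 3) (Fin 3) K16) ^ 13 = 1
      by decide +kernel)))
    fun e => by simpa [g0] using (show ¬ (TF.of 15 : K16) = 1 by decide) (congrArg (fun g : SU 3 K16 4 => g.1.1 0 0) e)

/-- The product over an orbit. -/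
noncomputable def P (n : ℕ) (a v : Fin 3 → K16) : K16 :=
  ∏ i ∈ range n, G0 σ a ((g0 h ^ i).1.1 *ᵥ v) ^ 3

/-- Normalised vectors. -/
def Nrm (a : Fin 3 → K16) : Prop := a 0 = 1 ∨ a 0 = 0 ∧ a 1 = 1

theorem form_eq (a u : Fin 3 → K16) :
    stdForm σ _ a u = cj (a 0) * u 0 + cj (a 1) * u 1 + cj (a 2) * u 2 := by
  simp [stdForm_apply, Fin.sum_univ_three, cj_eq, h.eq]

theorem gc_eq {a u : Fin 3 → K16} (ha : Iso σ a) (hu : Iso σ u) (hn : Nrm a) :
    gc (a 0) (a 1) (a 2) (u 0) (u 1) (u 2) = G0 σ a u := by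
  rw [gc, fk_eq, ← form_eq h]
  rcases cases h ha hu with e | ⟨c, hc, rfl⟩
  · rw [if_neg e, G0_ne ha e]
  · rw [G0_smul ha.1, if_pos (by simp [ha.2])]
    rcases hn with e | ⟨e, e'⟩ <;> simp [*]

theorem go_eq {a : Fin 3 → K16} (ha : Iso σ a) (hn : Nrm a) (n : ℕ) : ∀ {u : Fin 3 → K16},
    Iso σ u → go (a 0) (a 1) (a 2) n (u 0) (u 1) (u 2) = P h n a u := by
  induction n with
  | zero => intro u _; rfl
  | succ n ih =>
    intro u hu
    have h1 := ih (hu.mul h (g0 h))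
    rw [P, prod_range_succ']
    simp only [pow_succ (g0 h), mul_act]
    rw [P] at h1
    rw [← h1, pow_zero, one_act,
      ← gc_eq h ha hu hn, ← cb_eq]
    simp only [go, fk_eq, g0, mulVec, dotProduct, Fin.sum_univ_three]
    rfl

theorem of_allN {k : K16 → K16 → K16 → Bool} (hk : allN k = true) {a : Fin 3 → K16}
    (ha : Iso σ a) (hn : Nrm a) : k (a 0) (a 1) (a 2) = true := by
  simp only [allN, band_eq_true, TF.all_iff, bor_eq_true, decide_eq_true_eq] at hk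
  have := ha.2
  rw [form_eq h] at this
  rcases hn with e | ⟨e, e'⟩
  · rw [e, cj_eq 1, one_pow, one_mul] at this
    exact e ▸ (hk.1 _ _).resolve_left fun h => h this
  · rw [e, e', cj_eq 1, one_pow, one_mul, mul_zero, zero_add] at this
    exact e ▸ e' ▸ (hk.2 _).resolve_left fun h => h this

theorem exists_nrm {a : Fin 3 → K16} (ha : Iso σ a) :
    ∃ (c : K16) (b : Fin 3 → K16), c ≠ 0 ∧ Iso σ b ∧ Nrm b ∧ a = c • b := by
  by_cases h0 : a 0 = 0
  · have h1 : a 1 ≠ 0 := fun h1 => ha.1 (by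
      have := ha.2
      simp [stdForm_apply, Fin.sum_univ_three, h0, h1] at this
      ext1 i; fin_cases i <;> simp [*])
    exact ⟨a 1, _, h1, ha.smul (inv_ne_zero h1), Or.inr (by simp [h0, h1]), by simp [h1]⟩
  · exact ⟨a 0, _, h0, ha.smul (inv_ne_zero h0), Or.inl (by simp [h0]), by simp [h0]⟩

theorem iso_of {a : Fin 3 → K16} (h0 : a ≠ 0)
    (h1 : cj (a 0) * a 0 + cj (a 1) * a 1 + cj (a 2) * a 2 = 0) : Iso σ a :=
  ⟨h0, (form_eq h a a).trans h1⟩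

theorem P_scale {a u : Fin 3 → K16} (ha : Iso σ a) (hu : Iso σ u) {m l : K16} (hm : m ≠ 0)
    (hl : l ≠ 0) : P h 13 (m • a) (l • u) = ((l / m) ^ 3) ^ 13 * P h 13 a u := by
  simp only [P, mulVec_smul, G0_scale h ha (hu.mul h _) hm hl, prod_mul_distrib, prod_const,
    card_range]

theorem P_eq {a v : Fin 3 → K16} (ha : Iso σ a) (hv : Iso σ v) :
    P h 13 a v = P h 13 a ![0, 1, 1] * P h 13 ![0, 1, 1] v := by
  have h0 : Iso σ ![0, 1, 1] := iso_of h (by decide) (by decide)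
  replace ha := exists_nrm h ha
  replace hv := exists_nrm h hv
  obtain ⟨m, a, hm, ha, ha', rfl⟩ := ha
  obtain ⟨l, v, hl, hv, hv', rfl⟩ := hv
  have h1 := of_allN h chk hv hv'
  rw [TF.force_eq] at h1
  have h2 := of_decide_eq_true (of_allN h h1 ha ha')
  rw [go_eq h ha ha' 13 hv] at h2
  have h3 := P_scale h ha h0 hm one_ne_zero
  have h4 := P_scale h h0 hv one_ne_zero hl
  rw [one_smul] at h3 h4
  rw [P_scale h ha hv hm hl, h3, h4, h2, ← go_eq h ha ha' 13 h0,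
    ← go_eq h h0 (Or.inr ⟨rfl, rfl⟩) 13 hv]
  change _ = _ * go _ _ _ 13 0 1 1 * (_ * go 0 1 1 13 _ _ _)
  ring

theorem exists_fun : ∃ f : SU 3 K16 4 → Additive K16ˣ, f ≠ 0 ∧ (∀ x, 5 • f x = 0) ∧
    ∀ y w, ∑ i ∈ range 13, f (y * g0 h ^ i * w) = 0 := by
  have ha : Iso σ ![0, 1, 1] := iso_of h (by decide) (by decide)
  have hb : Iso σ ![0, 1, TF.of 8] := iso_of h (by decide) (by decide)
  have hv : Iso σ ![0, 1, TF.of 10] := iso_of h (by decide) (by decide)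
  have hw : Iso σ ![1, 0, 1] := iso_of h (by decide) (by decide)
  have hne : G0 σ ![0, 1, 1] ![0, 1, TF.of 10] ^ 3 * G0 σ ![0, 1, TF.of 8] ![1, 0, 1] ^ 3 ≠
      G0 σ ![0, 1, TF.of 8] ![0, 1, TF.of 10] ^ 3 * G0 σ ![0, 1, 1] ![1, 0, 1] ^ 3 := by
    rw [← gc_eq h ha hv (Or.inr ⟨rfl, rfl⟩), ← gc_eq h ha hw (Or.inr ⟨rfl, rfl⟩),
      ← gc_eq h hb hv (Or.inr ⟨rfl, rfl⟩), ← gc_eq h hb hw (Or.inr ⟨rfl, rfl⟩)]
    decide +kernel
  generalize (![0, 1, 1] : Fin 3 → K16) = a at ha hne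
  generalize (![0, 1, TF.of 8] : Fin 3 → K16) = b at hb hne
  generalize (![0, 1, TF.of 10] : Fin 3 → K16) = v at hv hne
  generalize (![1, 0, 1] : Fin 3 → K16) = u at hw hne
  have hn : ∀ {a v}, Iso σ a → Iso σ v → ∀ g : SU 3 K16 4, G0 σ a (g.1.1 *ᵥ v) ≠ 0 :=
    fun ha hv g => G0_ne_zero h ha (hv.mul h g)
  obtain ⟨E, hE⟩ : ∃ E : SU 3 K16 4 → K16ˣ, ∀ g, (E g : K16) =
      G0 σ a (g.1.1 *ᵥ v) * G0 σ b (g.1.1 *ᵥ u) / (G0 σ b (g.1.1 *ᵥ v) * G0 σ a (g.1.1 *ᵥ u)) :=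
    ⟨fun g => Units.mk0 _ (div_ne_zero (mul_ne_zero (hn ha hv g) (hn hb hw g))
      (mul_ne_zero (hn hb hv g) (hn ha hw g))), fun _ => rfl⟩
  refine ⟨fun g => Additive.ofMul (E g ^ 3), fun e => hne ?_, fun x => ?_, fun y w => ?_⟩
  · have h0 : E 1 ^ 3 = 1 := congrFun e 1
    have h1 := G0_ne_zero h hb hv
    have h2 := G0_ne_zero h ha hw
    rw [Units.ext_iff, Units.val_pow_eq_pow_val, hE, one_act, one_act, Units.val_one] at h0
    field_simp at h0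
    exact h0
  · have : ∀ z : K16ˣ, z ^ 15 = 1 := fun z => by
      have := pow_card_eq_one (x := z)
      rwa [Fintype.card_units, card_K16] at this
    rw [← ofMul_pow, ← pow_mul, ofMul_eq_zero]
    exact this _
  · rw [← ofMul_prod, ofMul_eq_zero, Units.ext_iff, Units.coe_prod]
    have key : ∀ {a v}, Iso σ a → Iso σ v → ∏ i ∈ range 13,
        G0 σ a ((y * g0 h ^ i * w).1.1 *ᵥ v) ^ 3 = P h 13 (y⁻¹.1.1 *ᵥ a) (w.1.1 *ᵥ v) := by
      intro a v ha hv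
      refine prod_congr rfl fun i _ => ?_
      rw [← G0_mul h ha (hv.mul h _) y⁻¹, ← mul_act, ← mul_act, mul_assoc, inv_mul_cancel_left]
    have h1 : ∀ {a v}, Iso σ a → Iso σ v → P h 13 a v ≠ 0 := fun ha hv =>
      prod_ne_zero_iff.mpr fun i _ => pow_ne_zero _ (hn ha hv _)
    simp only [Units.val_pow_eq_pow_val, hE, div_pow, mul_pow, prod_div_distrib,
      prod_mul_distrib, key ha hv, key hb hw, key hb hv, key ha hw, Units.val_one]
    rw [div_eq_one_iff_eq (mul_ne_zero (h1 (hb.mul h _) (hv.mul h _)) (h1 (ha.mul h _) (hw.mul h _))),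
      P_eq h (ha.mul h _) (hv.mul h _), P_eq h (hb.mul h _) (hw.mul h _),
      P_eq h (hb.mul h _) (hv.mul h _), P_eq h (ha.mul h _) (hw.mul h _)]
    ring

theorem mul_mem_sp {p : ℕ} [Fact p.Prime] (hp : p.Coprime 5) (X Y : Matrix (Fin 3) (Fin 3) K16)
    (H : ((X.det = 1 ∧ (X.map fun x => x ^ 4)ᵀ * X = 1) ∧ X ≠ 1 ∧ X ^ p = 1) ∧
      ((Y.det = 1 ∧ (Y.map fun x => x ^ 4)ᵀ * Y = 1) ∧ Y ≠ 1 ∧ Y ^ 5 = 1) ∧ X * Y = Y * X) :
    p * 5 ∈ Lib.Spec.sp (SU 3 K16 4) := by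
  rw [← show (σ : K16 → K16) = fun x => x ^ 4 from funext h.eq] at H
  have : Fact (Nat.Prime 5) := ⟨by norm_num⟩
  let x : SU 3 K16 4 := ⟨⟨X, H.1.1.1⟩, h.mem_SU_iff.mpr H.1.1.2⟩
  let y : SU 3 K16 4 := ⟨⟨Y, H.2.1.1.1⟩, h.mem_SU_iff.mpr H.2.1.1.2⟩
  have hx : orderOf x = p := orderOf_eq_prime (Subtype.ext (Subtype.ext (by simpa using H.1.2.2)))
    fun e => H.1.2.1 (congrArg (fun g : SU 3 K16 4 => g.1.1) e)
  have hy : orderOf y = 5 := orderOf_eq_prime (Subtype.ext (Subtype.ext (by simpa using H.2.1.2.2)))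
    fun e => H.2.1.2.1 (congrArg (fun g : SU 3 K16 4 => g.1.1) e)
  rw [← hx, ← hy] at hp ⊢
  exact Lib.Spec.mul_mem_sp_of_commute (Subtype.ext (Subtype.ext H.2.2)) hp

theorem main : ∃ S, Lib.Spec.Unb S ∧ Lib.Spec.SamePG (Lib.Spec.sp (SU 3 K16 4)) S := by
  obtain ⟨f, h1, h2, h3⟩ := exists_fun h
  have hc : Nat.card (SU 3 K16 4) = 62400 := h.card_SU_three
  have : Fact (Nat.Prime 13) := ⟨by norm_num⟩
  have : Fact (Nat.Prime 3) := ⟨by norm_num⟩
  refine unb_samePG_cusp (by norm_num) {13} h1 h2 ?_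
    ((Lib.Spec.prime_mem_sp_iff (by norm_num)).mpr (by rw [hc]; norm_num)) fun s hs h5 h6 h7 => ?_
  · rintro _ rfl x hx
    exact sum_eq_zero_of_sylow (by rw [hc]; norm_num) (orderOf_g0 h) h3 hx
  have h8 : s ∣ 2 ^ 6 * 3 * 5 ^ 2 * 13 := (Lib.Spec.dvd_card_of_mem_sp h6).trans (by rw [hc]; norm_num)
  simp only [hs.dvd_mul, hs.prime.dvd_pow_iff_dvd (show 6 ≠ 0 by norm_num),
    hs.prime.dvd_pow_iff_dvd two_ne_zero, Nat.prime_dvd_prime_iff_eq hs Nat.prime_two,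
    Nat.prime_dvd_prime_iff_eq hs Nat.prime_three, Nat.prime_dvd_prime_iff_eq hs Nat.prime_five,
    Nat.prime_dvd_prime_iff_eq hs this.out,
    Nat.prime_dvd_prime_iff_eq hs (show Nat.Prime 13 by norm_num)] at h8
  rcases h8 with ((rfl | rfl) | rfl) | rfl
  · exact mul_mem_sp h (by norm_num)
      !![0, TF.of 9, TF.of 7; TF.of 14, TF.of 6, TF.of 12; TF.of 7, TF.of 10, TF.of 7]
      !![TF.of 7, TF.of 13, 1; TF.of 13, TF.of 7, 1; TF.of 12, TF.of 12, TF.of 15]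
      (by decide +kernel)
  · exact mul_mem_sp h (by norm_num)
      !![TF.of 10, TF.of 13, TF.of 7; TF.of 6, TF.of 10, TF.of 14; TF.of 14, TF.of 7, 0]
      !![TF.of 6, TF.of 5, TF.of 15; TF.of 9, TF.of 6, 1; 1, TF.of 15, TF.of 10]
      (by decide +kernel)
  · exact absurd rfl h5
  · exact absurd rfl h7

end

/-- The prime graph of a finite group has the prime divisors of its order as vertices, two distinct primes p, q being joined when the group has an element of order pq; two groups have the same prime graph when they have the same prime divisors and the same joined pairs. Let F be the field with 16 elements and L = PSU(3,4) realised over F. There are finite groups of arbitrarily large order with the same prime graph as L. -/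
theorem result {F : Type*} [Field F] [Fintype F] (hF : Fintype.card F = 16) (N : ℕ) :
    ∃ (H : Type) (_ : Group H) (_ : Finite H), N < Nat.card H ∧
      ((∀ p : ℕ, p.Prime → (p ∣ Nat.card (Cfsg.PSU 3 F 4) ↔ p ∣ Nat.card H)) ∧
      (∀ p q : ℕ, p.Prime → q.Prime → p ≠ q → ((∃ g : (Cfsg.PSU 3 F 4), orderOf g = p * q) ↔ (∃ g : H, orderOf g = p * q)))) := by
  obtain ⟨σ, h⟩ := Lib.Unitary.exists_isBar (q := 4) Lib.Unitary.card_K16
  obtain ⟨τ, h'⟩ := Lib.Unitary.exists_isBar (q := 4) hF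
  obtain ⟨S, h1, h2⟩ := main h
  obtain ⟨e⟩ := Lib.Unitary.nonempty_su_congr (q := 4) hF Lib.Unitary.card_K16 3
  have h3 : Subgroup.center (Cfsg.SU 3 F 4) = ⊥ := by
    rw [← Subgroup.card_eq_one, h'.card_center_SU_three]
    rfl
  rw [← Lib.Spec.sp_congr (((QuotientGroup.quotientMulEquivOfEq h3).trans
    QuotientGroup.quotientBot).trans e)] at h2
  exact h1.primeGraph h2 N

end Cfsg.Agent.S3663
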