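import Cfsg.Statements.S3664
import Cfsg.Agent.Lib.Unitary.Sz8
import Cfsg.Agent.Lib.Symp.WallT
import Cfsg.Agent.Lib.GLC.Ord2
import Cfsg.Agent.Lib.Unitary.Wall4

set_option autoImplicit false
open Cfsg

namespace Cfsg.Agent.S3664

section

open Cfsg.Lib Cfsg.Lib.GLC Cfsg.Lib.Symp Polynomial Module

variable {F V : Type*} [Field F] [Fintype F] [AddCommGroup V] [Module F V] [Module.Finite F V]

theorem orderOf_root_dvd {φ : F[X]} (h1 : φ.Monic) (h2 : Irreducible φ) (h0 : φ.coeff 0 ≠ 0)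
    (h : rdual φ = φ) : ∃ i < φ.natDegree,
      orderOf (AdjoinRoot.root φ) ∣ Fintype.card F ^ i + 1 := by
  have := Fact.mk h2
  have := (AdjoinRoot.powerBasis' h1).finite
  have : Finite (AdjoinRoot φ) := Module.finite_of_finite F
  obtain ⟨u, hu⟩ := isUnit_root h0
  have h3 := aeval_rdual u φ
  rw [h, hu, AdjoinRoot.aeval_eq, AdjoinRoot.mk_self, smul_zero, ← hu] at h3
  have h4 : aeval (u⁻¹).1 φ = 0 := (mul_eq_zero.mp h3).resolve_right (pow_ne_zero _ u.ne_zero)
  obtain ⟨i, hi⟩ := (FiniteField.bijective_frobeniusAlgHom_pow F (AdjoinRoot φ)).2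
    (AdjoinRoot.liftAlgHom φ (Algebra.ofId _ _) (u⁻¹).1 h4)
  refine ⟨i, finrank_adjoinRoot φ ▸ i.2, orderOf_dvd_of_pow_eq_one ?_⟩
  have h5 := DFunLike.congr_fun hi (AdjoinRoot.root φ)
  simp only [AlgHom.coe_pow, FiniteField.coe_frobeniusAlgHom, pow_iterate] at h5
  rw [pow_succ, h5.trans (AdjoinRoot.liftAlgHom_root φ _ _ h4), ← hu, Units.inv_mul]

theorem dvd_iff_root {φ : F[X]} {k : ℕ} {c : F} :
    φ ∣ X ^ k - C c ↔ AdjoinRoot.root φ ^ k = algebraMap F _ c := by
  rw [← AdjoinRoot.mk_eq_zero, map_sub, map_pow, AdjoinRoot.mk_X, AdjoinRoot.mk_C, sub_eq_zero]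
  rfl

variable (hF : Fintype.card F = 3) {B : LinearMap.BilinForm F V} {f : End F V} (hf : SpE B f)
  (hV : finrank F V = 6)
include hF hf hV

theorem pow_seven (h : 7 ∣ orderOf f) : f ^ 28 = 1 := by
  have : Fact (Nat.Prime 3) := ⟨Nat.prime_three⟩
  have : CharP F 3 := charP_of_card_eq_prime hF
  obtain ⟨φ, e, h1, h2, he, h3, h4, h5⟩ :=
    exists_block_of_prime_dvd 3 hf.isUnit (r := 7) (by norm_num) (by norm_num) h
  have h6 : orderOf ((3 : ℕ) : ZMod 7) = 6 := orderOf_eq_of_pow_and_pow_div_prime (by norm_num)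
    (by decide) fun p hp hd => by
      have := Nat.le_of_dvd (by norm_num) hd
      interval_cases p <;> first | decide | contradiction
  rw [Nat.card_eq_fintype_card, hF, h6] at h5
  have h7 := mul_natDegree_le (blocks_typ f) h3
  have h8 := Nat.le_of_dvd h2.natDegree_pos h5
  obtain rfl : e = 1 := by nlinarith
  rw [pow_one] at h3
  have h9 := eq_singleton_of_le (blocks_typ f) (typ_pp f) h3 (by omega)
  have h10 := hf.map_rdual_typ
  rw [h9, Multiset.map_singleton, Multiset.singleton_inj] at h10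
  obtain ⟨i, hi, h11⟩ := orderOf_root_dvd h1 h2 (hf.coeff_ne _ h3) h10
  have h12 := h4.trans h11
  rw [hF] at h11 h12
  have : i < 6 := by omega
  rw [(blocks_typ f).pow_eq_one_iff, h9]
  simp only [Multiset.mem_singleton, forall_eq]
  rw [← C_1, dvd_iff_root, map_one, ← orderOf_dvd_iff_pow_eq_one]
  interval_cases i <;> first | exact h11 | norm_num at h12

theorem pow_thirteen (h : 13 ∣ orderOf f) : f ^ 13 = 1 ∨ f ^ 13 = -1 := by
  have : Fact (Nat.Prime 3) := ⟨Nat.prime_three⟩
  have : CharP F 3 := charP_of_card_eq_prime hF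
  obtain ⟨φ, e, h1, h2, he, h3, h4, h5⟩ :=
    exists_block_of_prime_dvd 3 hf.isUnit (r := 13) (by norm_num) (by norm_num) h
  have h6 : orderOf ((3 : ℕ) : ZMod 13) = 3 := orderOf_eq_prime (by decide) (by decide)
  rw [Nat.card_eq_fintype_card, hF, h6] at h5
  have h7 := mul_natDegree_le (blocks_typ f) h3
  have h8 := Nat.le_of_dvd h2.natDegree_pos h5
  have h0 : φ.coeff 0 ≠ 0 := fun e0 => hf.coeff_ne _ h3 (by
    rw [coeff_zero_eq_eval_zero] at e0 ⊢; simp [e0, he.ne'])
  have h9 : rdual (φ ^ e) ≠ φ ^ e := fun e0 => by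
    obtain ⟨i, hi, h11⟩ := orderOf_root_dvd h1 h2 h0 ((rdual_pow_eq_iff h1 h2 h0 he).1 e0)
    have h12 := h4.trans h11
    rw [hF] at h12
    have : i < 6 := by nlinarith
    interval_cases i <;> norm_num at h12
  have h10 : rdual (φ ^ e) ∈ typ f := hf.map_rdual_typ ▸ Multiset.mem_map_of_mem _ h3
  have h11 := add_natDegree_le (blocks_typ f) h10 h3 h9
  rw [Unitary.natDegree_dual (hf.coeff_ne _ h3), h1.natDegree_pow] at h11
  obtain rfl : e = 1 := by nlinarith
  rw [pow_one] at h3 h9 h10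
  have h12 : φ.natDegree = 3 := by omega
  have h13 : ∀ P ∈ typ f, P = φ ∨ P = rdual φ := fun P hP => by
    by_contra! hne
    obtain ⟨ν, hν⟩ := Multiset.exists_cons_of_mem h3
    obtain ⟨ν', rfl⟩ := Multiset.exists_cons_of_mem
      ((Multiset.mem_cons.1 (hν ▸ h10)).resolve_left h9)
    have h14 := (blocks_typ f).finrank_eq
    have h15 := (typ_pp f P hP).natDegree_pos
    rw [hν] at h14 hP
    simp only [Multiset.mem_cons, hne, false_or] at hP
    have h16 := Multiset.single_le_sum (fun _ _ => Nat.zero_le _) _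
      (Multiset.mem_map_of_mem natDegree hP)
    simp only [Multiset.map_cons, Multiset.sum_cons, Unitary.natDegree_dual h0] at h14
    omega
  have h14 := dvd_X_pow_card_sub_one h2 h0 (h12 ▸ dvd_rfl : φ.natDegree ∣ 3)
  rw [Nat.card_eq_fintype_card, hF, ← C_1, dvd_iff_root, map_one] at h14
  have := Fact.mk h2
  have key : ∀ c : F, c * c = 1 → AdjoinRoot.root φ ^ 13 = algebraMap F _ c → f ^ 13 = c • 1 :=
    fun c hc h15 => by
    rw [(blocks_typ f).pow_eq_smul_one_iff]
    intro P hP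
    rcases h13 P hP with rfl | rfl
    · exact dvd_iff_root.2 h15
    · have := Unitary.dvd_X_pow_sub_C_dual (σ := RingHom.id F) (left_ne_zero_of_mul_eq_one hc)
        (by norm_num) (dvd_iff_root.2 h15)
      rwa [RingHom.id_apply, inv_eq_of_mul_eq_one_right hc] at this
  rcases mul_self_eq_one_iff.1 (show AdjoinRoot.root φ ^ 13 * AdjoinRoot.root φ ^ 13 = 1 by
    rw [← pow_add]; exact h14) with h15 | h15
  · exact Or.inl (by simpa using key 1 (by simp) (by simpa using h15))
  · exact Or.inr (by simpa using key (-1) (by simp) (by simpa using h15))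

omit hf hV in
theorem dvd_of_mem {k : ℕ} (h : k ∈ Spec.sp (PSp 3 F)) : (7 ∣ k → k ∣ 28) ∧ (13 ∣ k → k ∣ 13) := by
  obtain ⟨g, hg, h⟩ := (Orth.sc_iff (bil_isAlt _ _) (bil_nondegenerate _ _)
    (Orth.finrank_bil 3)).1 (Orth.mem_range_psp_iff.1 h)
  have hf := SpE.of_isom (bil_isAlt _ _) (bil_nondegenerate _ _) ⟨g, hg⟩
  have h1 : ∀ j, g.toLinearMap ^ j = (g ^ j).toLinearMap := fun j =>
    (map_pow LinearEquiv.automorphismGroup.toLinearMapMonoidHom g j).symm
  have h2 : ∀ j, g.toLinearMap ^ j = 1 ∨ g.toLinearMap ^ j = -1 → k ∣ j := fun j hj => by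
    rw [h1] at hj
    exact (h j).1 (hj.imp (fun e => LinearEquiv.toLinearMap_injective e)
      fun e => LinearEquiv.toLinearMap_injective e)
  have h3 := h2 _ (Or.inl (pow_orderOf_eq_one _))
  exact ⟨fun h4 => h2 _ (Or.inl (pow_seven hF hf (Orth.finrank_bil 3) (h4.trans h3))),
    fun h4 => h2 _ (pow_thirteen hF hf (Orth.finrank_bil 3) (h4.trans h3))⟩

omit hf hV in
theorem pg : Unitary.Sz8.PG (Spec.sp (PSp 3 F)) := by
  have hc : Nat.card F = 3 := by rw [Nat.card_eq_fintype_card, hF]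
  have h1 := card_psp_mul (F := F) (l := Fin 3)
  rw [card_sp, hF, hc] at h1
  have h2 : Nat.card (PSp 3 F) = 4585351680 := by
    simp [Finset.prod_range_succ] at h1
    change 2 * Nat.card (PSp 3 F) = _ at h1
    omega
  have : Finite (PSp 3 F) := Nat.finite_of_card_ne_zero (by simp [h2])
  have : CharP F 3 := have : Fact (Nat.Prime 3) := ⟨Nat.prime_three⟩; charP_of_card_eq_prime hF
  have h3 : (2 : F) ≠ 0 := fun e => by
    have := (CharP.cast_eq_zero_iff F 3 2).1 (by simpa using e)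
    norm_num at this
  obtain ⟨a, ha⟩ := Orth.exists_sp_orderOf (F := F) (n := 2) Nat.prime_five
    (by simp [Orth.cS, hF, Finset.prod_range_succ])
  obtain ⟨b, hb⟩ := Orth.exists_sp_orderOf (F := F) (n := 1) Nat.prime_three
    (by simp [Orth.cS, hF])
  have h4 := Orth.sc_neg_prod h3 (by norm_num) le_rfl a b (by rw [ha]; decide) (by rw [hb]; decide)
  rw [ha, hb] at h4
  have h5 : 30 ∈ Spec.sp (PSp 3 F) := Orth.mem_range_psp_iff.2 h4
  refine ⟨fun m n h hn => Spec.mem_sp_of_dvd hn h, fun p hp h => ?_,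
    (Spec.prime_mem_sp_iff (by norm_num)).2 (by rw [h2]; norm_num),
    ⟨Spec.mem_sp_of_dvd h5 (by norm_num), Spec.mem_sp_of_dvd h5 (by norm_num),
      Orth.mem_range_psp_iff.2 (Orth.sc_of_dvd (by norm_num) (by norm_num)
        (Or.inr (by rw [hc]; norm_num))), Spec.mem_sp_of_dvd h5 (by norm_num)⟩,
    ?_, ?_, ?_, ?_, ?_, ?_⟩
  · have := Spec.dvd_card_of_mem_sp h
    rw [h2] at this
    exact hp.dvd_of_dvd_pow (n := 9) (this.trans (by norm_num))
  all_goals exact fun h => by have := dvd_of_mem hF h; norm_num at this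

end

/-- The prime graph of a finite group has the prime divisors of its order as vertices, two distinct primes p, q being joined when the group has an element of order pq; two groups have the same prime graph when they have the same prime divisors and the same joined pairs. Let F be the field with 3 elements and L = PSp(6,F). There are finite groups of arbitrarily large order with the same prime graph as L (a prime graph shared by the orthogonal groups Ω₇(3) and PΩ⁺₈(3)). -/
theorem result {F : Type*} [Field F] [Fintype F] (hF : Fintype.card F = 3) (N : ℕ) :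
    ∃ (H : Type) (_ : Group H) (_ : Finite H), N < Nat.card H ∧
      ((∀ p : ℕ, p.Prime → (p ∣ Nat.card (Cfsg.PSp 3 F) ↔ p ∣ Nat.card H)) ∧
      (∀ p q : ℕ, p.Prime → q.Prime → p ≠ q → ((∃ g : (Cfsg.PSp 3 F), orderOf g = p * q) ↔ (∃ g : H, orderOf g = p * q)))) := by
  obtain ⟨S, h1, h2⟩ := Lib.Unitary.Sz8.exists_unb
  have : Finite (PSp 3 F) := inferInstance
  exact h1.primeGraph ((pg hF).same h2) N

end Cfsg.Agent.S3664
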