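import Cfsg.Statements.S3670
import Cfsg.Agent.Lib.CharDeg.U33Deg
import Cfsg.Agent.Lib.U3.Model
import Cfsg.Agent.Lib.Unitary.Simple
import Cfsg.Agent.Lib.Clifford.Basic

set_option autoImplicit false
open Cfsg

namespace Cfsg.Agent.S3670

open Cfsg.Lib.U3 Cfsg.Lib.Unitary Cfsg.Lib.CharDeg.U33 Cfsg.Lib.Char Cfsg.Lib.Induce

section

variable {E : Type*} [Field E] {σ : E →+* E} {G : Type*} [Group G] (M : Model σ 3 G)
  [Fact (Function.Involutive σ)]

omit [Fact (Function.Involutive σ)] in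
include M in
theorem hs_one : Hs σ 1 (-1) := by
  have := M.bar.cast_q
  simp only [Hs, map_neg, map_one]
  push_cast at this
  linear_combination -this

theorem uniq {x y a x' y' a' : E} (h : Hs σ x y) (h' : Hs σ x' y') (ha : a ≠ 0) (ha' : a' ≠ 0)
    (e : M.u x y * M.h a = M.u x' y' * M.h a') : a = a' := by
  have h1 := congrArg (· • M.pt 0 0) e
  simp only [mul_smul, M.h_smul_zero ha, M.h_smul_zero ha', M.u_smul_zero h, M.u_smul_zero h',
    M.pt_inj h h'] at h1
  rw [h1.1, h1.2, mul_right_inj] at e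
  have h2 := M.h_conj_u ha (hs_one M)
  rw [e, M.h_conj_u ha' (hs_one M), M.u_inj ((hs_one M).tor ha') ((hs_one M).tor ha),
    M.bar.eq, M.bar.eq] at h2
  have h3 := h2.1
  field_simp at h3
  exact h3

theorem exists_tau : ∃ τ : M.B →* Eˣ, ∀ (b : M.B) x y a, Hs σ x y → a ≠ 0 →
    b = M.u x y * M.h a → τ b = a := by
  choose x y a h ha e using fun b : M.B => M.mem_B'.1 b.2
  refine ⟨MonoidHom.mk' (fun b => Units.mk0 (a b) (ha b)) fun b c => Units.ext ?_,
    fun b x' y' a' h' ha' e' => uniq M (h b) h' (ha b) ha' ((e b).symm.trans e')⟩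
  refine uniq M (a' := a b * a c) (h (b * c)) ((h b).mul ((h c).tor (ha b))) (ha _)
    (mul_ne_zero (ha b) (ha c)) ?_
  rw [Units.val_mk0, ← e, Subgroup.coe_mul, e, e, ← M.u_mul (h b) ((h c).tor (ha b)), ← M.h_mul (ha b) (ha c),
    mul_assoc, mul_assoc, ← mul_assoc (M.h _), M.h_mul_u (ha b) (h c), mul_assoc]

theorem real_u {x y : E} (h : Hs σ x y) : IsConj (M.u x y) (M.u x y)⁻¹ := by
  rw [M.u_inv h]
  by_cases hx : x = 0
  · subst hx
    obtain ⟨a, ha⟩ := M.bar.exists_norm_eq (μ := -1) (by simp)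
    have h0 : a ≠ 0 := by rintro rfl; simp at ha
    refine isConj_iff.2 ⟨M.h a, ?_⟩
    rw [M.h_conj_u h0 h, ha, mul_zero, neg_zero]
    congr 1
    have := h.eq
    linear_combination -this
  have h1 : IsConj (M.u x y) (M.u (-x) y) := isConj_iff.2 ⟨M.h (-1), by
    rw [M.h_conj_u (by simp) h]; simp⟩
  refine h1.trans ?_
  have h2 : Hs σ (-x) y := by simpa [Hs] using h
  obtain ⟨a, ha⟩ := M.bar.exists_heis (y / σ x)
  have h3 : Hs σ (y / σ x) a.y := ha ▸ a.rel
  have h4 := (map_ne_zero σ).2 hx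
  refine isConj_iff.2 ⟨M.u (y / σ x) a.y, ?_⟩
  rw [mul_inv_eq_iff_eq_mul, M.u_mul h3 h2, M.u_mul h.inv h3, add_comm (-x)]
  congr 1
  simp only [map_neg, map_div₀, bb]
  field_simp
  ring

theorem exists_dat [Finite G] (hG : Nat.card G = 6048) : Nonempty (Dat M.B Eˣ) := by
  have := M.bar.finite
  obtain ⟨τ, hτ⟩ := exists_tau M
  have hC : Nat.card Eˣ = 8 := by rw [Nat.card_units, M.bar.card]; rfl
  let ι : Eˣ →* M.B := M.hHom.codRestrict _ fun a => M.T_le_B ⟨a, rfl⟩
  have hι : ∀ a, (ι a : G) = M.h a := fun _ => rfl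
  have sec : ∀ a, τ (ι a) = a := fun a => Units.ext
    (hτ _ 0 0 a Hs.zero a.ne_zero (by rw [M.u_zero, one_mul, hι]))
  have hk : ∀ b : M.B, τ b = 1 ↔ (b : G) ∈ M.U := fun b => by
    obtain ⟨x, y, a, h, ha, e⟩ := M.mem_B'.1 b.2
    constructor
    · intro h1
      have := hτ b x y a h ha e
      rw [h1, Units.val_one] at this
      rw [e, ← this, M.h_one, mul_one]
      exact M.u_mem_U h
    · intro h1
      obtain ⟨x, y, h, e⟩ := M.mem_U.1 h1
      exact Units.ext (hτ b x y 1 h one_ne_zero (by rw [M.h_one, mul_one, e]))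
  have p8 : ∀ a : Eˣ, a ^ 8 = 1 := fun a => hC ▸ pow_card_eq_one'
  obtain ⟨g, hg⟩ := IsCyclic.exists_ofOrder_eq_natCard (α := Eˣ)
  refine ⟨⟨τ, ι, M.w, sec, hG, ?_, hC, fun g hg => ?_, fun b hb => ?_, fun a => ?_, fun u hu => ?_,
    ?_, g, fun e => ?_⟩⟩
  · have := card_ker_mul_card_range' τ
    rw [MonoidHom.range_eq_top.2 fun a => ⟨_, sec a⟩, Subgroup.card_top, hC,
      show τ.ker = M.U.subgroupOf M.B from Subgroup.ext hk,
      Nat.card_congr (Subgroup.subgroupOfEquivOfLe M.U_le_B).toEquiv, M.card_U] at this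
    exact this.symm
  · obtain ⟨c, hc, v, hv, e⟩ := M.canon hg
    exact ⟨c, hc, v, M.U_le_B hv, e⟩
  · rw [M.mem_B, mul_smul, mul_smul, inv_smul_eq_iff, M.w_smul_inf] at hb
    obtain ⟨a, e⟩ := M.mem_T'.2 ⟨b.2, hb⟩
    exact ⟨a, Subtype.ext e.symm⟩
  · rw [hι, hι, M.w_inv, M.w_mul_h a.ne_zero, mul_assoc, M.w_mul_w, mul_one, M.bar.eq]
    congr 1
    refine inv_eq_of_mul_eq_one_right ?_
    rw [Units.val_pow_eq_pow_val, ← pow_add, ← Units.val_pow_eq_pow_val, p8, Units.val_one]
  · obtain ⟨x, y, h, e⟩ := M.mem_U.1 ((hk u).1 hu)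
    rw [e]
    exact real_u M h
  · obtain ⟨a, ha⟩ := M.bar.exists_heis 1
    have : a ∉ Subgroup.center _ := fun h => one_ne_zero (ha.symm.trans (M.bar.mem_center_heis.1 h))
    rw [Subgroup.mem_center_iff] at this
    push Not at this
    obtain ⟨b, hb⟩ := this
    exact ⟨⟨_, M.U_le_B ⟨b, rfl⟩⟩, ⟨_, M.U_le_B ⟨a, rfl⟩⟩, (hk _).2 ⟨b, rfl⟩, (hk _).2 ⟨a, rfl⟩,
      fun e => hb (M.uHom_injective (by simpa using congrArg Subtype.val e))⟩
  · have h4 : g ^ 4 = 1 := by rwa [pow_succ, mul_eq_right] at e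
    have := orderOf_dvd_of_pow_eq_one h4
    rw [hg, hC] at this
    norm_num at this

end

/-- The units acting on the additive group of a ring. -/
def act (R : Type) [CommRing R] : Rˣ →* MulAut (Multiplicative R) where
  toFun u := AddEquiv.toMultiplicative (AddAut.mulLeft u)
  map_one' := MulEquiv.ext fun x => one_mul x.toAdd
  map_mul' u v := MulEquiv.ext fun x => mul_assoc (u : R) v x.toAdd

theorem act_apply {R : Type} [CommRing R] (u : Rˣ) (x : Multiplicative R) :
    (act R u x).toAdd = u * x.toAdd := rfl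

theorem exists_deg {R : Type} [CommRing R] [Finite R] [Fintype (Multiplicative R ⋊[act R] Rˣ)]
    (ψ : AddChar R ℂ) (hψ : ψ.IsPrimitive) :
    ∃ χ, IsIrrCharacter (Multiplicative R ⋊[act R] Rˣ) χ ∧ charDegree χ = Nat.card Rˣ := by
  let N : Subgroup (Multiplicative R ⋊[act R] Rˣ) := SemidirectProduct.rightHom.ker
  have h1 : IsIrrCharacter N fun n => ψ n.1.left.toAdd := isIrrCharacter_of_map_mul (by simp)
    fun a b => by
      have : a.1.right = 1 := a.2
      simp [this, AddChar.map_add_eq_mul]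
  refine ⟨_, Lib.Clifford.isIrrCharacter_indFun_of_inertia_le N h1 fun g hg => ?_,
    charDegree_eq_of_apply_one ?_⟩
  · rw [Lib.Clifford.mem_inertia_iff] at hg
    by_contra h
    refine hψ (a := g.right - 1) (fun e => h (Units.ext (sub_eq_zero.1 e))) (AddChar.ext _ _ fun x => ?_)
    have := hg ⟨SemidirectProduct.inl (Multiplicative.ofAdd x), by simp [N]⟩
    have h2 : (g * SemidirectProduct.inl (Multiplicative.ofAdd x) * g⁻¹).left.toAdd = g.right * x := by
      simp [act_apply]
    simp only [h2, SemidirectProduct.left_inl, toAdd_ofAdd] at this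
    rw [AddChar.mulShift_apply, sub_mul, one_mul, AddChar.map_sub_eq_div, this, AddChar.one_apply,
      div_self]
    exact (ψ.val_isUnit x).ne_zero
  · rw [indFun_one, Subgroup.index_ker, MonoidHom.range_eq_top.2 SemidirectProduct.rightHom_surjective,
      Subgroup.card_top]
    simp

theorem exists_prim : ∃ ψ : AddChar (GaloisField 2 3 × ZMod 18) ℂ, ψ.IsPrimitive := by
  let a := AddChar.FiniteField.primitiveChar_to_Complex (GaloisField 2 3)
  have ha := AddChar.FiniteField.primitiveChar_to_Complex_isPrimitive (GaloisField 2 3)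
  have hb := ZMod.isPrimitive_stdAddChar 18
  refine ⟨a.compAddMonoidHom (AddMonoidHom.fst _ _) *
    (ZMod.stdAddChar (N := 18)).compAddMonoidHom (AddMonoidHom.snd _ _), fun x hx e => hx ?_⟩
  refine Prod.ext (by_contra fun h => ha h (AddChar.ext _ _ fun y => ?_))
    (by_contra fun h => hb h (AddChar.ext _ _ fun y => ?_))
  · simpa using DFunLike.congr_fun e (y, 0)
  · simpa using DFunLike.congr_fun e (0, y)

/-- The character degree graph of a finite group has as vertices the primes dividing some irreducible complex character degree, two distinct primes being joined when their product divides some irreducible character degree; two groups have the same character degree graph when they have the same vertices and the same joined pairs. Let F be the field with 9 elements and L = PSU(3,3) realised over F (order 6048). There is a finite solvable group of order 6048 with the same character degree graph as L; so L is not determined by its order together with its character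 degree graph. -/
theorem result {F : Type*} [Field F] [Fintype F] (hF : Fintype.card F = 9) :
    ∃ (H : Type) (_ : Group H) (_ : Fintype H), Group.IsSolvable H ∧ Nat.card H = 6048 ∧ Cfsg.degreePrimes H = Cfsg.degreePrimes (Cfsg.PSU 3 F 3) ∧ Cfsg.degreeGraph H = Cfsg.degreeGraph (Cfsg.PSU 3 F 3) := by
  let R := GaloisField 2 3 × ZMod 18
  have c1 : Nat.card (GaloisField 2 3) = 8 := GaloisField.card 2 3 (by norm_num)
  have c2 : Nat.card Rˣ = 42 := by
    rw [Nat.card_congr MulEquiv.prodUnits.toEquiv, Nat.card_prod, Nat.card_units, c1,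
      Nat.card_eq_fintype_card, ZMod.card_units_eq_totient]
    decide
  have c3 : Nat.card (Multiplicative R ⋊[act R] Rˣ) = 6048 := by
    rw [SemidirectProduct.card, c2, Nat.card_congr Multiplicative.toAdd, Nat.card_prod, c1,
      Nat.card_zmod]
  have : Finite (Multiplicative R ⋊[act R] Rˣ) := Nat.finite_of_card_ne_zero (by rw [c3]; norm_num)
  have i := Fintype.ofFinite (Multiplicative R ⋊[act R] Rˣ)
  obtain ⟨ψ, hψ⟩ := exists_prim
  obtain ⟨χ, h1, h2⟩ := exists_deg ψ hψ
  rw [c2] at h2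
  obtain ⟨a1, a2⟩ := graph_eq c3 ⟨χ, h1, by rw [h2]; norm_num⟩ ⟨χ, h1, by rw [h2]; norm_num⟩
    ⟨χ, h1, by rw [h2]; norm_num⟩
  obtain ⟨σ, b⟩ := exists_isBar (q := 3) hF
  have : Fact (Function.Involutive σ) := ⟨b.invol⟩
  obtain ⟨M, -⟩ := exists_model_PSU b
  have hG : Nat.card (PSU 3 F 3) = 6048 := by simpa using b.card_PSU_three
  have : Finite (PSU 3 F 3) := Nat.finite_of_card_ne_zero (by rw [hG]; norm_num)
  have := Fintype.ofFinite (PSU 3 F 3)
  have := Fintype.ofFinite M.B
  have := Fintype.ofFinite Fˣ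
  have := isSimpleGroup_PSU (q := 3) hF (n := 3) le_rfl (by norm_num)
  obtain ⟨D⟩ := exists_dat M hG
  obtain ⟨χ1, e1, e2⟩ := D.exists_28
  obtain ⟨χ2, e3, e4⟩ := D.exists_21
  obtain ⟨b1, b2⟩ := graph_eq hG D.exists_six ⟨χ1, e1, by rw [e2]; norm_num⟩ ⟨χ2, e3, by rw [e4]⟩
  refine ⟨_, _, i, Group.isSolvable_of_ker_le_range SemidirectProduct.inl SemidirectProduct.rightHom
    SemidirectProduct.range_inl_eq_ker_rightHom.ge, c3, a1.trans b1.symm, ?_⟩
  ext p q
  rw [a2, b2]

end Cfsg.Agent.S3670
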