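import Cfsg.Statements.S3678
import Cfsg.Agent.Lib.Spec.PSL2

set_option autoImplicit false
open Cfsg

namespace Cfsg.Agent.S3678

/-- The prime graph of a finite group has the prime divisors of its order as vertices, two distinct primes p, q being joined when the group has an element of order pq; two groups have the same prime graph when they have the same prime divisors and the same joined pairs. Let F be the field with 7 elements. There are finite groups of arbitrarily large order with the same prime graph as PSL(2,F) (the graph on {2, 3, 7} with no edges, which is also the prime graph of PSL(2,8)). -/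
theorem result {F : Type*} [Field F] [Fintype F] (hF : Fintype.card F = 7) (N : ℕ) :
    ∃ (H : Type) (_ : Group H) (_ : Finite H), N < Nat.card H ∧
      ((∀ p : ℕ, p.Prime → (p ∣ Nat.card (Matrix.ProjectiveSpecialLinearGroup (Fin 2) F) ↔ p ∣ Nat.card H)) ∧
      (∀ p q : ℕ, p.Prime → q.Prime → p ≠ q → ((∃ g : (Matrix.ProjectiveSpecialLinearGroup (Fin 2) F), orderOf g = p * q) ↔ (∃ g : H, orderOf g = p * q)))) := by
  open Cfsg.Lib.Spec in
  have h := unb_sl2_even (F := GaloisField 2 3)
  rw [GaloisField.card 2 3 (by norm_num)] at h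
  refine h.primeGraph ?_ N
  haveI : Fact (Nat.Prime 7) := ⟨by norm_num⟩
  haveI : CharP F 7 := charP_of_card_eq_prime hF
  rw [sp_psl2 7, Nat.card_eq_fintype_card, hF]
  have key : ∀ p q : ℕ, p.Prime → q.Prime → p ≠ q → ∀ r k : ℕ, r.Prime → ¬ p * q ∣ r ^ k := fun p q hp hq hpq r k hr h =>
    hpq (((Nat.prime_dvd_prime_iff_eq hp hr).1 (hp.dvd_of_dvd_pow ((dvd_mul_right p q).trans h))).trans
      ((Nat.prime_dvd_prime_iff_eq hq hr).1 (hq.dvd_of_dvd_pow ((dvd_mul_left q p).trans h))).symm)
  refine ⟨fun p hp => ?_, fun p q hp hq hpq => iff_of_false ?_ ?_⟩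
  · have : p ∣ 9 ↔ p ∣ 3 := ⟨fun h => hp.dvd_of_dvd_pow (n := 2) h, fun h => h.trans (by norm_num)⟩
    norm_num [this]
    tauto
  · rintro (h | h | h)
    · exact key p q hp hq hpq 7 1 (by norm_num) h
    · exact key p q hp hq hpq 3 1 (by norm_num) h
    · exact key p q hp hq hpq 2 2 (by norm_num) h
  · rintro (h | h | h)
    · exact key p q hp hq hpq 2 2 (by norm_num) h
    · exact key p q hp hq hpq 7 1 (by norm_num) h
    · exact key p q hp hq hpq 3 2 (by norm_num) h

end Cfsg.Agent.S3678
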