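import Cfsg.Statements.S3680
import Cfsg.Agent.Lib.Perm.Socle

set_option autoImplicit false
open Cfsg

namespace Cfsg.Agent.S3680

open Cfsg.Lib.Perm Cfsg.Lib.Core MulAction Subgroup

theorem equiv_of_centralize {G Ω : Type*} [Group G] [MulAction G Ω] [FaithfulSMul G Ω] [Nonempty Ω]
    {M N : Subgroup G} (hMt : IsPretransitive M Ω) (hNt : IsPretransitive N Ω)
    (h1 : N ≤ centralizer (M : Set G)) : Nonempty (M ≃* N) := by
  have hMr := stabilizer_eq_bot_of_le_centralizer hNt (le_centralizer_iff.1 h1)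
  have hNr := stabilizer_eq_bot_of_le_centralizer hMt h1
  obtain ⟨a⟩ := ‹Nonempty Ω›
  have bM := bijective_smul_of_regular hMt hMr a
  have bN := bijective_smul_of_regular hNt hNr a
  let e : M ≃ N := (Equiv.inv M).trans ((Equiv.ofBijective _ bM).trans (Equiv.ofBijective _ bN).symm)
  have he : ∀ m : M, ((e m : N) : G) • a = (m : G)⁻¹ • a := fun m =>
    Equiv.ofBijective_apply_symm_apply _ bN _
  refine ⟨⟨e, fun x y => bN.1 ?_⟩⟩
  change ((e (x * y) : N) : G) • a = ((e x : G) * (e y : G)) • a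
  rw [he, mul_smul, he, ← mul_smul (e x : G), ← h1 (e x).2 _ (M.inv_mem y.2), mul_smul, he,
    ← mul_smul]
  simp

/-- The socle of a finite primitive permutation group. Let a finite group G act faithfully and primitively on a set Ω, and let N be the subgroup generated by the minimal normal subgroups of G. Then either N is an elementary abelian p-group for some prime p and acts regularly on Ω (transitively with trivial point stabilizers), or N is isomorphic to a direct product of m ≥ 1 copies of a non-abelian simple group. -/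
theorem result {G Ω : Type*} [Group G] [Finite G] [MulAction G Ω] [FaithfulSMul G Ω] [Finite Ω]
    (hprim : MulAction.IsPreprimitive G Ω) (N : Subgroup G)
    (hN : N = sSup {V : Subgroup G | V.Normal ∧ V ≠ ⊥ ∧ ∀ M : Subgroup G, M.Normal → M ≤ V → M = ⊥ ∨ M = V}) :
    (∃ p : ℕ, p.Prime ∧ IsMulCommutative N ∧ (∀ x : N, x ^ p = 1) ∧
      MulAction.IsPretransitive N Ω ∧ ∀ ω : Ω, MulAction.stabilizer N ω = ⊥) ∨
    (∃ (T : Type) (_ : Group T) (m : ℕ), 1 ≤ m ∧ IsSimpleGroup T ∧ ¬ IsMulCommutative T ∧ Nonempty (N ≃* (Fin m → T))) := by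
  rcases subsingleton_or_nontrivial G with hG | hG
  · left
    refine ⟨2, Nat.prime_two, ⟨⟨fun _ _ => Subsingleton.elim _ _⟩⟩, fun _ => Subsingleton.elim _ _,
      ⟨fun a b => ?_⟩, fun _ => Subsingleton.elim _ _⟩
    obtain ⟨g, rfl⟩ := exists_smul_eq G a b
    exact ⟨1, by rw [Subsingleton.elim g 1]; simp⟩
  have hne : Nonempty Ω := by
    by_contra h
    obtain ⟨g, hg⟩ := exists_ne (1 : G)
    exact hg (FaithfulSMul.eq_of_smul_eq_smul (α := Ω) fun a => absurd ⟨a⟩ h)
  obtain ⟨M, hM⟩ := exists_isMinNormal (G := G)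
  have htr : ∀ {L : Subgroup G}, IsMinNormal L → IsPretransitive L Ω := fun hL =>
    have := hL.normal
    isPretransitive_of_normal _ hL.ne_bot
  have := hM.normal
  by_cases hab : IsMulCommutative M
  · left
    have : N = M := by
      rw [hN]
      refine le_antisymm (sSup_le ?_) (le_sSup ⟨hM.1, hM.2, hM.3⟩)
      rintro L ⟨h1, h2, h3⟩
      by_cases h : L = M
      · exact h.le
      rw [← centralizer_eq_of_transitive (htr hM) (htr hM) (le_centralizer M)]
      exact IsMinNormal.le_centralizer_of_ne ⟨h1, h2, h3⟩ hM h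
    subst this
    obtain ⟨p, hp, h⟩ := elementary_of_minimal_normal hM.2 hM.3
    exact ⟨p, hp, hab, fun x => Subtype.ext (h x x.2), htr hM, stabilizer_eq_bot_of_comm (htr hM)⟩
  right
  obtain ⟨T, _, hT, m, hm, ⟨e⟩⟩ := IsMinNormal.exists_equiv_pi hM
  have hTab : ¬ IsMulCommutative T := fun h =>
    have := isMulCommutative_pi (ι := Fin m) (T := T)
    hab ⟨⟨fun a b => e.injective (by rw [map_mul, map_mul, mul_comm'])⟩⟩
  by_cases h2 : ∃ L : Subgroup G, IsMinNormal L ∧ L ≠ M
  · obtain ⟨L, hL, hLM⟩ := h2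
    have := hL.normal
    have hc := hL.le_centralizer_of_ne hM hLM
    have : N = M ⊔ L := by
      rw [hN]
      refine le_antisymm (sSup_le ?_)
        (sup_le (le_sSup ⟨hM.1, hM.2, hM.3⟩) (le_sSup ⟨hL.1, hL.2, hL.3⟩))
      rintro K ⟨h1, h2, h3⟩
      by_cases h : K = M
      · exact h.le.trans le_sup_left
      rw [← centralizer_eq_of_transitive (htr hM) (htr hL) hc]
      exact (IsMinNormal.le_centralizer_of_ne ⟨h1, h2, h3⟩ hM h).trans le_sup_right
    subst this
    obtain ⟨f⟩ := nonempty_sup_equiv_prod M L (hM.inf_eq_bot_of_ne hL hLM.symm)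
    obtain ⟨g⟩ := equiv_of_centralize (htr hM) (htr hL) hc
    exact ⟨T, inferInstance, m + m, by omega, hT, hTab,
      ⟨f.trans ((e.prodCongr (g.symm.trans e)).trans (piAddEquiv T m m))⟩⟩
  · push Not at h2
    have : N = M := by
      rw [hN]
      exact le_antisymm (sSup_le fun L ⟨h1, h3, h4⟩ => (h2 L ⟨h1, h3, h4⟩).le)
        (le_sSup ⟨hM.1, hM.2, hM.3⟩)
    subst this
    exact ⟨T, inferInstance, m, hm, hT, hTab, ⟨e⟩⟩

end Cfsg.Agent.S3680
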