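import Cfsg.Statements.S3682
import Cfsg.Agent.Lib.Perm.TW

set_option autoImplicit false
open Cfsg

namespace Cfsg.Agent.S3682

open Cfsg.Lib.Perm Cfsg.Lib.Core Subgroup MulAction

/-- Wielandt's bound toward the Sims conjecture. Let a finite group G act faithfully and primitively on a set Ω, let a and b be points, and suppose the orbit of b under the stabilizer of a has length d ≥ 2. Then there are a prime p and a normal p-subgroup P of the stabilizer of a, all of whose elements fix b, such that the index of P in the stabilizer of a divides d! · ((d - 1)!)^d. -/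
theorem result {G Ω : Type*} [Group G] [Finite G] [MulAction G Ω] [FaithfulSMul G Ω] [Finite Ω]
    (hprim : MulAction.IsPreprimitive G Ω) (a b : Ω) (d : ℕ) (hd : Nat.card (MulAction.orbit (MulAction.stabilizer G a) b) = d) (h2 : 2 ≤ d) :
    ∃ p : ℕ, p.Prime ∧ ∃ P : Subgroup (MulAction.stabilizer G a), P.Normal ∧ IsPGroup p P ∧ (∀ g : P, ((g : MulAction.stabilizer G a) : G) • b = b) ∧
      P.index ∣ Nat.factorial d * (Nat.factorial (d - 1)) ^ d := by
  rw [card_suborbit] at hd
  obtain ⟨g, rfl⟩ := exists_smul_eq G a b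
  have hne : stabilizer G a ≠ stabilizer G (g • a) := fun h => by
    rw [← h, relIndex_self] at hd; omega
  rcases card_dvd_or_thompson_wielandt (isPrimSub_stabilizer a) (stabilizer_smul_eq_conj g a) hne
    with h | ⟨p, hp, -, -, h⟩
  · exact ⟨2, Nat.prime_two, ⊥, inferInstance, IsPGroup.of_bot, fun x => by
      rw [Subsingleton.elim x 1]; simp, by rwa [index_bot, ← hd]⟩
  refine ⟨p, hp, Subgroup.subgroupOf _ _, (normal_subgroupOf_iff_le_normalizer (coreIn_le_left _ _)).2
    (le_normalizer_coreIn _ _), (isPGroup_subgroupOf_iff (coreIn_le_left _ _)).2 h, fun x => ?_, ?_⟩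
  · exact coreIn_le_right _ _ (coreIn_le_right _ _ x.2).1
  · rw [← hd]
    exact relIndex_coreIn_two_dvd (relIndex_comm_of_card_eq (by
      rw [stabilizer_smul_eq_conj, Lib.Transfer.card_conj]))

end Cfsg.Agent.S3682
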