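import Cfsg.Statements.S3683
import Cfsg.Agent.Lib.Perm.Centralizer

set_option autoImplicit false
open Cfsg

namespace Cfsg.Agent.S3683

/-- Let a finite group G act faithfully and primitively on a set Ω, and suppose the stabilizer of a point a fixes a second point b ≠ a (a suborbit of length 1 other than {a}). Then the stabilizer of a is trivial and G is cyclic of prime order. -/
theorem result {G Ω : Type*} [Group G] [Finite G] [MulAction G Ω] [FaithfulSMul G Ω] [Finite Ω]
    (hprim : MulAction.IsPreprimitive G Ω) (a b : Ω) (hab : a ≠ b) (hfix : ∀ g : G, g • a = a → g • b = b) :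
    MulAction.stabilizer G a = ⊥ ∧ IsCyclic G ∧ (Nat.card G).Prime := by
  have : Nontrivial Ω := ⟨a, b, hab⟩
  have hco : IsCoatom (MulAction.stabilizer G a) :=
    MulAction.IsPreprimitive.isCoatom_stabilizer_of_isPreprimitive G a
  obtain ⟨g, rfl⟩ := MulAction.exists_smul_eq G a b
  have hn : (MulAction.stabilizer G a).Normal := by
    rw [← Subgroup.normalizer_eq_top_iff]
    refine hco.2 _ (lt_of_le_of_ne Subgroup.le_normalizer fun h => hab ?_)
    have : g⁻¹ ∈ Subgroup.normalizer (MulAction.stabilizer G a : Set G) :=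
      Subgroup.mem_normalizer_fintype fun x hx => by
        change (g⁻¹ * x * g⁻¹⁻¹) • a = a
        rw [inv_inv, mul_smul, mul_smul, hfix x hx, inv_smul_smul]
    rw [← h, inv_mem_iff] at this
    exact this.symm
  have hbot : MulAction.stabilizer G a = ⊥ := by
    by_contra h
    obtain ⟨k, hk⟩ := (Lib.Perm.isPretransitive_of_normal (α := Ω) _ h).exists_smul_eq a (g • a)
    exact hab (k.2.symm.trans hk)
  rw [hbot] at hco
  have hso : IsSimpleOrder (Subgroup G) := isSimpleOrder_iff_isCoatom_bot.2 hco
  have hnt : Nontrivial G := by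
    rw [← Subgroup.nontrivial_iff]; infer_instance
  obtain ⟨x, hx⟩ := exists_ne (1 : G)
  have hcyc : IsCyclic G := by
    refine ⟨x, fun y => ?_⟩
    have : Subgroup.zpowers x = ⊤ := (eq_bot_or_eq_top _).resolve_left (by simpa using hx)
    have hy : y ∈ Subgroup.zpowers x := this ▸ Subgroup.mem_top _
    exact hy
  have hs : IsSimpleGroup G := ⟨fun N _ => eq_bot_or_eq_top N⟩
  let _ : CommGroup G := IsCyclic.commGroup
  exact ⟨hbot, hcyc, IsSimpleGroup.prime_card⟩

end Cfsg.Agent.S3683
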