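import Cfsg.Statements.S3684
import Cfsg.Agent.Lib.Perm.Multi
import Cfsg.Agent.S0206
import Cfsg.Agent.Lib.Core.MinNormal

set_option autoImplicit false
open Cfsg

namespace Cfsg.Agent.S3684

open Cfsg.Lib.Perm MulAction Subgroup

/-- Let a finite group G act faithfully and primitively on a set Ω, and suppose the stabilizer of a point a has an orbit of length 2. Then the stabilizer of a has order 2 and G is isomorphic to the dihedral group of order 2p for some prime p. -/
theorem result {G Ω : Type*} [Group G] [Finite G] [MulAction G Ω] [FaithfulSMul G Ω] [Finite Ω]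
    (hprim : MulAction.IsPreprimitive G Ω) (a b : Ω) (h2 : Nat.card (MulAction.orbit (MulAction.stabilizer G a) b) = 2) :
    Nat.card (MulAction.stabilizer G a) = 2 ∧ ∃ p : ℕ, p.Prime ∧ Nonempty (G ≃* DihedralGroup p) := by
  have hba : b ∉ fixedPoints (stabilizer G a) Ω := fun h => by
    have := (subsingleton_orbit_iff_mem_fixedPoints.2 h).coe_sort
    have := Finite.card_le_one_iff_subsingleton.2 this
    omega
  have hne : stabilizer G a ≠ stabilizer G b := fun h => hba fun g => (h.le g.2 :)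
  have : Nontrivial Ω := ⟨a, b, by rintro rfl; exact hne rfl⟩
  have hco := IsPreprimitive.isCoatom_stabilizer_of_isPreprimitive G a
  have hco' := IsPreprimitive.isCoatom_stabilizer_of_isPreprimitive G b
  have hsup : stabilizer G a ⊔ stabilizer G b = ⊤ := hco.sup_eq_top_of_ne hco' hne
  have hcard : Nat.card (stabilizer G a) = Nat.card (stabilizer G b) :=
    Nat.eq_of_mul_eq_mul_left Nat.card_pos
      ((card_eq_card_mul_stabilizer a).symm.trans (card_eq_card_mul_stabilizer b))
  have hi1 : (stabilizer G b).relIndex (stabilizer G a) = 2 := by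
    rw [← h2, Nat.card_coe_set_eq, ← index_stabilizer]; rfl
  have hi2 : (stabilizer G a).relIndex (stabilizer G b) = 2 := by
    have e1 := Lib.Core.card_inf_mul_relIndex (stabilizer G b) (stabilizer G a)
    have e2 := Lib.Core.card_inf_mul_relIndex (stabilizer G a) (stabilizer G b)
    rw [hi1] at e1
    rw [inf_comm, ← hcard, ← e1] at e2
    exact Nat.eq_of_mul_eq_mul_left Nat.card_pos e2
  have hn : (stabilizer G a ⊓ stabilizer G b).Normal := by
    rw [← normalizer_eq_top_iff, eq_top_iff, ← hsup]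
    refine sup_le ?_ ?_
    · rw [← normal_subgroupOf_iff_le_normalizer inf_le_left, inf_subgroupOf_left]
      exact normal_of_index_eq_two hi1
    · rw [← normal_subgroupOf_iff_le_normalizer inf_le_right, inf_subgroupOf_right]
      exact normal_of_index_eq_two hi2
  have hbot : stabilizer G a ⊓ stabilizer G b = ⊥ := by
    by_contra h
    obtain ⟨k, hk⟩ := (isPretransitive_of_normal (α := Ω) _ h).exists_smul_eq a b
    exact hne (by rw [← hk, show k • a = a from k.2.1])
  have hc2 : Nat.card (stabilizer G a) = 2 := by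
    have e1 := Lib.Core.card_inf_mul_relIndex (stabilizer G b) (stabilizer G a)
    rwa [hi1, inf_comm, hbot, card_bot, one_mul, eq_comm] at e1
  refine ⟨hc2, ?_⟩
  have hgen : ∀ H : Subgroup G, Nat.card H = 2 → ∃ x : G, orderOf x = 2 ∧ H = zpowers x := by
    intro H hH
    obtain ⟨x, hx, h⟩ := Lib.Core.exists_mem_orderOf_eq_prime (H := H) Nat.prime_two hH.symm.dvd
    exact ⟨x, h, (eq_of_le_of_card_ge (zpowers_le.2 hx) (by rw [Nat.card_zpowers, h, hH])).symm⟩
  obtain ⟨x, hx, ex⟩ := hgen _ hc2
  obtain ⟨y, hy, ey⟩ := hgen _ (hcard ▸ hc2)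
  have hxy : x ≠ y := by rintro rfl; exact hne (ex.trans ey.symm)
  have htop : closure ({x, y} : Set G) = ⊤ := by
    rw [← hsup, ex, ey, zpowers_eq_closure, zpowers_eq_closure, ← Subgroup.closure_union]; rfl
  obtain ⟨e⟩ := S0206.result x y hx hy hxy
  have e' : G ≃* DihedralGroup (orderOf (x * y)) :=
    topEquiv.symm.trans ((MulEquiv.subgroupCongr htop.symm).trans e)
  refine ⟨_, ?_, ⟨e'⟩⟩
  have hx2 : x * x = 1 := by rw [← sq, ← hx, pow_orderOf_eq_one]
  have hy2 : y * y = 1 := by rw [← sq, ← hy, pow_orderOf_eq_one]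
  have hn1 : orderOf (x * y) ≠ 1 := fun h => hxy (by
    rw [orderOf_eq_one_iff] at h
    rw [eq_inv_of_mul_eq_one_left h, eq_inv_of_mul_eq_one_left hy2, inv_inv]
    exact eq_inv_of_mul_eq_one_left hy2)
  have hΩ : Nat.card Ω = orderOf (x * y) := by
    have := card_eq_card_mul_stabilizer (G := G) a
    rw [hc2, Nat.card_congr e'.toEquiv, DihedralGroup.nat_card] at this
    omega
  obtain ⟨p, hp, hpn⟩ := Nat.exists_prime_and_dvd hn1
  obtain ⟨w, hw, hwp⟩ := Lib.Core.exists_mem_orderOf_eq_prime (H := zpowers (x * y)) hp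
    (by rwa [Nat.card_zpowers])
  obtain ⟨k, rfl⟩ := mem_zpowers_iff.1 hw
  have hinv : ∀ u : G, u * (x * y) * u⁻¹ = (x * y)⁻¹ →
      u ∈ normalizer (zpowers ((x * y) ^ k) : Set G) := fun u hu =>
    mem_normalizer_fintype fun v hv => by
      obtain ⟨j, rfl⟩ := mem_zpowers_iff.1 hv
      rw [← conj_zpow, ← conj_zpow, hu, inv_zpow, inv_zpow]
      exact inv_mem (zpow_mem_zpowers _ _)
  have hW : (zpowers ((x * y) ^ k)).Normal := by
    rw [← normalizer_eq_top_iff, eq_top_iff, ← htop, closure_le]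
    have ix : x⁻¹ = x := (eq_inv_of_mul_eq_one_left hx2).symm
    have iy : y⁻¹ = y := (eq_inv_of_mul_eq_one_left hy2).symm
    rintro u (rfl | rfl)
    · exact hinv _ (by rw [mul_inv_rev, ix, iy, ← mul_assoc, hx2, one_mul])
    · exact hinv _ (by rw [mul_inv_rev, ix, iy, mul_assoc, mul_assoc, hy2, mul_one])
  have ht := isPretransitive_of_normal (α := Ω) (zpowers ((x * y) ^ k)) (by
    rw [Ne, zpowers_eq_bot]
    intro h
    rw [h, orderOf_one] at hwp
    exact hp.one_lt.ne hwp)
  have h3 := card_eq_card_mul_stabilizer (G := zpowers ((x * y) ^ k)) a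
  rw [Nat.card_zpowers, hwp, hΩ] at h3
  rwa [Nat.dvd_antisymm ⟨_, h3⟩ hpn]

end Cfsg.Agent.S3684
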