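import Cfsg.Statements.S3687
import Cfsg.Agent.Lib.Perm.AltSub

set_option autoImplicit false
open Cfsg

namespace Cfsg.Agent.S3687

open Subgroup Cfsg.Lib.Perm Cfsg.Lib.Perm.AltSub MulAction in

/-- Let a finite group G act faithfully and primitively on a set Ω, let a and b be points such that the orbit Δ of b under the stabilizer H of a has d ≥ 6 elements, and suppose that the permutation group induced by H on Δ contains the alternating group of Δ (the image of H in the symmetric group of Δ has index at most 2) while H does not act faithfully on Δ. Then either H induces exactly the alternating group of Δ and H is isomorphic to the direct product of the alternating groups of degrees d and d - 1; or H induces the full symmetric group of Δ and H is isomorphic to one of: the direct product of the symmetric groups of degrees d and d - 1, the direct product of the symmetric group of degree d with the alternating group of degree d - 1, or the subgroup of the direct product of the symmetric groups of degrees d and d - 1 consisting of the pairs of permutations with equal signs. -/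
theorem result {G Ω : Type*} [Group G] [Finite G] [MulAction G Ω] [FaithfulSMul G Ω] [Finite Ω]
    (hprim : MulAction.IsPreprimitive G Ω) (a b : Ω) (d : ℕ) (hd : Nat.card (MulAction.orbit (MulAction.stabilizer G a) b) = d) (h6 : 6 ≤ d)
    (halt : (MulAction.toPermHom (MulAction.stabilizer G a) (MulAction.orbit (MulAction.stabilizer G a) b)).range.index ≤ 2)
    (hunf : ¬ Function.Injective (MulAction.toPermHom (MulAction.stabilizer G a) (MulAction.orbit (MulAction.stabilizer G a) b))) :
    ((MulAction.toPermHom (MulAction.stabilizer G a) (MulAction.orbit (MulAction.stabilizer G a) b)).range.index = 2 ∧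
      Nonempty (MulAction.stabilizer G a ≃* alternatingGroup (Fin d) × alternatingGroup (Fin (d - 1)))) ∨
    ((MulAction.toPermHom (MulAction.stabilizer G a) (MulAction.orbit (MulAction.stabilizer G a) b)).range = ⊤ ∧
      (Nonempty (MulAction.stabilizer G a ≃* Equiv.Perm (Fin d) × Equiv.Perm (Fin (d - 1))) ∨
       Nonempty (MulAction.stabilizer G a ≃* Equiv.Perm (Fin d) × alternatingGroup (Fin (d - 1))) ∨
       Nonempty (MulAction.stabilizer G a ≃* ((Equiv.Perm.sign.comp (MonoidHom.fst (Equiv.Perm (Fin d)) (Equiv.Perm (Fin (d - 1))))) *
         (Equiv.Perm.sign.comp (MonoidHom.snd (Equiv.Perm (Fin d)) (Equiv.Perm (Fin (d - 1)))))).ker))) := by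
  have hk : (toPermHom (stabilizer G a) (orbit (stabilizer G a) b)).ker =
      (coreIn (stabilizer G a) (stabilizer G b)).subgroupOf (stabilizer G a) := by
    ext x
    rw [mem_subgroupOf, mem_coreIn_stabilizer, MonoidHom.mem_ker, Equiv.ext_iff]
    exact ⟨fun h => ⟨x.2, fun c hc => congrArg Subtype.val (h ⟨c, hc⟩)⟩, fun h c => Subtype.ext (h.2 c c.2)⟩
  have hi := (toPermHom (stabilizer G a) (orbit (stabilizer G a) b)).range.card_mul_index
  rw [Nat.card_perm, hd, ← index_ker, hk, ← relIndex] at hi
  have h0 : 0 < (coreIn (stabilizer G a) (stabilizer G b)).relIndex (stabilizer G a) :=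
    Nat.pos_of_ne_zero index_ne_zero_of_finite
  rw [card_suborbit] at hd
  obtain ⟨g, hg⟩ := exists_smul_eq G a b
  refine (structure_thm (isPrimSub_stabilizer a) (hg ▸ stabilizer_smul_eq_conj g a) hd h6 ?_ fun e => hunf ?_).imp
    (And.imp_left fun h => ?_) (And.imp_left fun h => index_eq_one.1 ?_)
  · rw [Big, ← hi, mul_comm 2]
    exact Nat.mul_le_mul_left _ halt
  · rw [← MonoidHom.ker_eq_bot_iff, hk, e, bot_subgroupOf]
  · exact Nat.eq_of_mul_eq_mul_left h0 (by rw [hi, ← h, mul_comm])
  · exact Nat.eq_of_mul_eq_mul_left h0 (by rw [hi, mul_one, h])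

end Cfsg.Agent.S3687
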