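import Cfsg.Statements.S3688
import Cfsg.Agent.Lib.Perm.TW

set_option autoImplicit false
open Cfsg

namespace Cfsg.Agent.S3688

open Cfsg.Lib.Perm Cfsg.Lib.Core Subgroup MulAction

/-- Let a finite group G act faithfully and primitively on a set Ω, let a and b be points such that the orbit of b under the stabilizer H of a has length d ≥ 2, and suppose that H is not strongly constrained: for no prime p does the generalized Fitting subgroup of H coincide with the largest normal p-subgroup of H. Then the order of H divides d! · ((d - 1)!)^d. -/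
theorem result {G Ω : Type*} [Group G] [Finite G] [MulAction G Ω] [FaithfulSMul G Ω] [Finite Ω]
    (hprim : MulAction.IsPreprimitive G Ω) (a b : Ω) (d : ℕ) (hd : Nat.card (MulAction.orbit (MulAction.stabilizer G a) b) = d) (h2 : 2 ≤ d)
    (hnc : ∀ p : ℕ, p.Prime → Cfsg.generalizedFittingSubgroup (MulAction.stabilizer G a) ≠ Cfsg.pCore p (MulAction.stabilizer G a)) :
    Nat.card (MulAction.stabilizer G a) ∣ Nat.factorial d * (Nat.factorial (d - 1)) ^ d := by
  rw [card_suborbit] at hd
  obtain ⟨g, rfl⟩ := exists_smul_eq G a b
  have hne : stabilizer G a ≠ stabilizer G (g • a) := fun h => by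
    rw [← h, relIndex_self] at hd; omega
  rcases card_dvd_or_thompson_wielandt (isPrimSub_stabilizer a) (stabilizer_smul_eq_conj g a) hne
    with h | ⟨p, hp, h, -⟩
  · rwa [← hd]
  · exact absurd h (hnc p hp)

end Cfsg.Agent.S3688
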