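import Cfsg.Statements.S3693
import Cfsg.Agent.Lib.Perm.TW

set_option autoImplicit false
open Cfsg

namespace Cfsg.Agent.S3693

open Cfsg.Lib.Perm Cfsg.Lib.Core Cfsg.Lib.Loc Cfsg.Lib.Transfer Subgroup MulAction

/-- If `F(M ∩ N)` lies in the core of `N` in `M`, then it is trivial. -/
theorem fitting_eq_bot {G : Type*} [Group G] [Finite G] {M N : Subgroup G} (hM : IsPrimSub M)
    {g : G} (hN : N = g ⋆ M) (hne : M ≠ N) (h : fittingOf (M ⊓ N) ≤ coreIn M N) :
    fittingOf (M ⊓ N) = ⊥ := by
  rw [fittingOf_eq_iSup_pCoreOf, iSup_eq_bot]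
  rintro ⟨p, hp⟩
  have := Fact.mk hp
  by_contra h0
  change pCoreOf p (M ⊓ N) ≠ ⊥ at h0
  have e : pCoreOf p (coreIn M N) = pCoreOf p (M ⊓ N) := by
    rw [core_eq_inf_of_le_normalizer (le_inf (coreIn_le_left M N) (coreIn_le_right M N))
      (inf_le_left.trans (le_normalizer_coreIn M N)), inf_eq_left]
    exact (pCoreOf_le_fittingOf p _).trans h
  have hn : M ≤ normalizer (pCoreOf p (M ⊓ N) : Set G) :=
    e ▸ (le_normalizer_coreIn M N).trans (normalizer_le_normalizer_core p _)
  have h1 := hM.core_le_of_inf_le (M := N) h0 (core_pgroup p _) ((core_le p _).trans inf_le_right)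
    ((core_le p _).trans inf_le_left) hn ((le_inf inf_le_left (le_inf inf_le_right
      (inf_le_left.trans (core_le p N)))).trans (core_inf_le inf_le_right))
  have h2 : pCoreOf p (M ⊓ N) ≤ pCoreOf p M :=
    le_core ((core_le p _).trans inf_le_left) hn (core_pgroup p _)
  have h3 := eq_of_le_of_card_eq (h1.trans h2) (by rw [hN, ← conj_core, card_conj])
  have h4 := hM.eq_bot (hN ▸ hM.conj g) hne (core_le p M) (h3 ▸ core_le p N)
    (le_normalizer_core p M) (h3 ▸ le_normalizer_core p N)
  exact h0 (eq_bot_iff.2 (h4 ▸ h2))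

theorem fitting_le_coreIn {G Ω : Type*} [Group G] [Finite G] [MulAction G Ω] (a b : Ω)
    (hF : fittingSubgroup ↥(((stabilizer G b).subgroupOf (stabilizer G a)).map
      (toPermHom (stabilizer G a) (orbit (stabilizer G a) b))) = ⊥) :
    fittingOf (stabilizer G a ⊓ stabilizer G b) ≤ coreIn (stabilizer G a) (stabilizer G b) := by
  have h1 := map_fittingOf_le (toPermHom (stabilizer G a) (orbit (stabilizer G a) b))
    ((stabilizer G b).subgroupOf (stabilizer G a))
  rw [fittingOf_def (map _ _), hF, Subgroup.map_bot, le_bot_iff, Subgroup.map_eq_bot_iff,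
    ← inf_subgroupOf_left, fittingOf_subgroupOf inf_le_left] at h1
  intro x hx
  have hxa := (fittingOf_le _ hx).1
  refine mem_coreIn_stabilizer.2 ⟨hxa, fun c hc => ?_⟩
  exact congrArg Subtype.val (Equiv.congr_fun (h1 (x := ⟨x, hxa⟩) hx) ⟨c, hc⟩)

/-- Let a finite group G act faithfully and primitively on a set Ω, let a and b be points such that the orbit Δ of b under the stabilizer H of a has length d ≥ 2, and consider the permutation group induced on Δ by the elements of H fixing b. If that induced group has trivial Fitting subgroup (no non-trivial nilpotent normal subgroup), then the two-point stabilizer of a and b has trivial Fitting subgroup and the order of H divides d! · ((d - 1)!)^d. -/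
theorem result {G Ω : Type*} [Group G] [Finite G] [MulAction G Ω] [FaithfulSMul G Ω] [Finite Ω]
    (hprim : MulAction.IsPreprimitive G Ω) (a b : Ω) (d : ℕ) (hd : Nat.card (MulAction.orbit (MulAction.stabilizer G a) b) = d) (h2 : 2 ≤ d)
    (hF : Cfsg.fittingSubgroup ↥(((MulAction.stabilizer G b).subgroupOf (MulAction.stabilizer G a)).map (MulAction.toPermHom (MulAction.stabilizer G a) (MulAction.orbit (MulAction.stabilizer G a) b))) = ⊥) :
    Cfsg.fittingSubgroup ↥(MulAction.stabilizer G a ⊓ MulAction.stabilizer G b) = ⊥ ∧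
      Nat.card (MulAction.stabilizer G a) ∣ Nat.factorial d * (Nat.factorial (d - 1)) ^ d := by
  rw [card_suborbit] at hd
  have h1 := fitting_le_coreIn a b hF
  obtain ⟨g, rfl⟩ := exists_smul_eq G a b
  have hne : stabilizer G a ≠ stabilizer G (g • a) := fun h => by
    rw [← h, relIndex_self] at hd; omega
  have h3 := fitting_eq_bot (isPrimSub_stabilizer a) (stabilizer_smul_eq_conj g a) hne h1
  refine ⟨map_subtype_eq_bot_iff.1 h3, ?_⟩
  rcases card_dvd_or_thompson_wielandt (isPrimSub_stabilizer a) (stabilizer_smul_eq_conj g a) hne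
    with h | ⟨p, hp, -, h0, h⟩
  · rwa [← hd]
  · have := Fact.mk hp
    refine absurd (eq_bot_iff.2 (h3 ▸ le_fittingOf (le_inf (coreIn_le_left _ _) ?_)
      (inf_le_left.trans (le_normalizer_coreIn _ _)) h.isNilpotent)) h0
    exact (coreIn_le_right _ _).trans (inf_le_left.trans (coreIn_le_right _ _))

end Cfsg.Agent.S3693
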