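import Cfsg.Statements.S3696
import Cfsg.Agent.Lib.Perm.Sym2

set_option autoImplicit false
open Cfsg

namespace Cfsg.Agent.S3696

open Cfsg.Lib Cfsg.Lib.Perm Equiv Equiv.Perm Subgroup MulAction

theorem amgm (q m d e : ℕ) (hq : 0 < q) :
    q ^ d * m ^ e * (d + e) ^ (d + e) ≤ (q + m) ^ (d + e) * (d ^ d * e ^ e) := by
  have key : ∀ (x : ℝ) (j : ℕ), 0 ≤ x → x ^ j ≤ Real.exp (x - j) * j ^ j := fun x j hx => by
    rcases j.eq_zero_or_pos with rfl | hj
    · simpa using hx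
    have hj' : (0 : ℝ) < j := by exact_mod_cast hj
    have := pow_le_pow_left₀ (by rw [sub_add_cancel]; positivity) (Real.add_one_le_exp (x / j - 1)) j
    rwa [sub_add_cancel, ← Real.exp_nat_mul, mul_sub, mul_div_cancel₀ _ hj'.ne', mul_one, div_pow,
      div_le_iff₀ (by positivity)] at this
  have hs : (0 : ℝ) < q + m := by positivity
  have h1 := mul_le_mul (key (q * (d + e) / (q + m)) d (by positivity))
    (key (m * (d + e) / (q + m)) e (by positivity)) (by positivity) (by positivity)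
  rw [mul_mul_mul_comm, ← Real.exp_add, show q * (d + e) / (q + m) - d + (m * (d + e) / (q + m) - e) = (0 : ℝ) by
    field_simp; ring, Real.exp_zero, one_mul, div_pow, div_pow, div_mul_div_comm, ← pow_add,
    div_le_iff₀ (by positivity), mul_pow, mul_pow, mul_mul_mul_comm, ← pow_add, mul_comm _ (_ ^ (d + e))] at h1
  rw [mul_comm _ (_ ^ (d + e)), mul_comm ((q + m) ^ (d + e))]
  exact_mod_cast h1

theorem aux {Ω : Type*} [Fintype Ω] [DecidableEq Ω] {p : ℕ} (hp : p.Prime) (n : ℕ) :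
    ∀ (T : Set Ω) (A E : Subgroup (Perm Ω)) (k : ℕ), T.ncard = n → IsPGroup p A → (∀ a ∈ A, ∀ b ∈ A, a * b = b * a) →
      (∀ g ∈ A, ∀ x, g x ≠ x → x ∈ T) → (∀ g, g ∈ E ↔ g ∈ A ∧ g ^ p = 1) → Nat.card E = p ^ k →
      Nat.card A * k ^ k ≤ n ^ k := by
  have := Fact.mk hp
  induction n using Nat.strong_induction_on with
  | _ n ih =>
  intro T A E k hT hA hc hs hE hk
  have hEA : E ≤ A := fun g hg => ((hE g).1 hg).1
  by_cases h0 : E = ⊥
  · obtain rfl : k = 0 := (Nat.pow_eq_one.1 (by rw [← hk, h0, card_bot])).resolve_left hp.one_lt.ne'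
    obtain ⟨_ | j, hj⟩ := IsPGroup.iff_card.1 hA
    · simp [hj]
    obtain ⟨g, h1, h2⟩ := Core.exists_mem_orderOf_eq_prime hp (hj ▸ dvd_pow_self p j.succ_ne_zero)
    rw [mem_bot.1 (h0.le ((hE g).2 ⟨h1, h2 ▸ pow_orderOf_eq_one g⟩)), orderOf_one] at h2
    exact absurd h2 hp.one_lt.ne
  obtain ⟨⟨g, hg⟩, hg1⟩ := ne_bot_iff_exists_ne_one.1 h0
  obtain ⟨x, hx⟩ := exists_smul_ne (α := Ω) (g := g) fun e => hg1 (Subtype.ext e)
  have hO : orbit A x ⊆ T := by
    rintro _ ⟨⟨a, ha⟩, rfl⟩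
    exact hs g (hEA hg) _ fun e => hx (a.injective ((DFunLike.congr_fun (hc a ha g (hEA hg)) x).trans e))
  obtain ⟨e, he⟩ := IsPGroup.iff_card.1 (hA.to_le (inf_le_right.trans hEA : stabilizer _ x ⊓ E ≤ A))
  have h1 := Core.card_inf_mul_relIndex (stabilizer _ x) E
  have h2 := Core.card_inf_mul_relIndex (stabilizer _ x) A
  rw [← ncard_orbit_subgroup] at h1 h2
  have hq : 0 < (orbit A x).ncard := (Set.ncard_pos).2 (nonempty_orbit x)
  have h3 := ih _ (by have := Set.ncard_diff_add_ncard_of_subset hO; omega) (T \ orbit A x)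
    (stabilizer _ x ⊓ A) (stabilizer _ x ⊓ E) e rfl (hA.to_le inf_le_right)
    (fun a ha b hb => hc a ha.2 b hb.2) (fun a ha y hy => ⟨hs a ha.2 y hy, by
      rintro ⟨⟨b, hb⟩, rfl⟩
      exact hy ((DFunLike.congr_fun (hc a ha.2 b hb) x).trans (congrArg b ha.1))⟩)
    (fun g => by simp only [mem_inf, hE, and_assoc]) he
  obtain ⟨d, rfl⟩ : ∃ d, k = d + e := by
    have := (Nat.pow_dvd_pow_iff_le_right hp.one_lt).1 (Dvd.intro _ (he ▸ h1.trans hk))
    exact ⟨k - e, by omega⟩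
  rw [he, hk, pow_add, mul_comm, Nat.mul_right_cancel_iff (pow_pos hp.pos e)] at h1
  have h4 : p ^ d ≤ (orbit A x).ncard := h1 ▸ Set.ncard_le_ncard (by
    rintro _ ⟨⟨a, ha⟩, rfl⟩; exact ⟨⟨a, hEA ha⟩, rfl⟩)
  have hd : d ≠ 0 := by
    rintro rfl
    rw [← index_stabilizer, pow_zero, index_eq_one] at h1
    exact hx (h1.ge (mem_top ⟨g, hg⟩))
  obtain ⟨d, rfl⟩ := Nat.exists_eq_succ_of_ne_zero hd
  have h5 : (d + 1) ^ (d + 1) ≤ (orbit A x).ncard ^ d :=
    calc _ ≤ (p ^ d) ^ (d + 1) := Nat.pow_le_pow_left (Nat.lt_pow_self hp.one_lt) _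
      _ = (p ^ (d + 1)) ^ d := by ring
      _ ≤ _ := Nat.pow_le_pow_left h4 _
  have h6 := amgm _ (T \ orbit A x).ncard (d + 1) e hq
  rw [add_comm (orbit A x).ncard, Set.ncard_diff_add_ncard_of_subset hO, hT] at h6
  refine Nat.le_of_mul_le_mul_right (le_trans ?_ h6) (Nat.mul_pos (Nat.pow_self_pos) Nat.pow_self_pos)
  rw [← h2, pow_succ (orbit A x).ncard]
  calc _ = (d + 1) ^ (d + 1) * (orbit A x).ncard * (Nat.card (stabilizer _ x ⊓ A :) * e ^ e) *
      (d + 1 + e) ^ (d + 1 + e) := by simp only [Nat.succ_eq_add_one]; ring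
    _ ≤ _ := by gcongr

/-- Let p be a prime, Ω a finite set with n ≥ p elements, and A an abelian p-subgroup of the symmetric group on Ω whose elements of order dividing p number p^k (so k is the rank of A). Then |A| · k^k ≤ n^k, that is, |A| ≤ (n/k)^k. -/
theorem result {Ω : Type*} [Fintype Ω] [DecidableEq Ω]
    (p : ℕ) (hp : p.Prime) (hn : p ≤ Fintype.card Ω) (A : Subgroup (Equiv.Perm Ω)) (hA : IsPGroup p A) (hab : IsMulCommutative A)
    (k : ℕ) (hk : Nat.card {x : A // x ^ p = 1} = p ^ k) :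
    Nat.card A * k ^ k ≤ Fintype.card Ω ^ k := by
  have hc : ∀ a ∈ A, ∀ b ∈ A, a * b = b * a := fun a ha b hb =>
    congrArg Subtype.val (hab.is_comm.comm (⟨a, ha⟩ : A) ⟨b, hb⟩)
  refine aux hp _ Set.univ A
    { carrier := {g | g ∈ A ∧ g ^ p = 1}
      one_mem' := ⟨A.one_mem, one_pow p⟩
      mul_mem' := fun {a b} ha hb => ⟨A.mul_mem ha.1 hb.1, by
        rw [Commute.mul_pow (hc a ha.1 b hb.1), ha.2, hb.2, mul_one]⟩
      inv_mem' := fun ha => ⟨A.inv_mem ha.1, by rw [inv_pow, ha.2, inv_one]⟩ } k (by simp) hA hc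
    (fun _ _ _ _ => trivial) (fun _ => Iff.rfl) (Eq.trans (Nat.card_congr
      ⟨fun g => ⟨⟨g.1, g.2.1⟩, Subtype.ext g.2.2⟩, fun g => ⟨g.1.1, g.1.2, congrArg Subtype.val g.2⟩,
        fun _ => rfl, fun _ => rfl⟩) hk)

end Cfsg.Agent.S3696
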