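import Cfsg.Statements.S3699
import Cfsg.Agent.Lib.CIT.Orders
import Cfsg.Agent.Lib.Sz.Local

set_option autoImplicit false
open Cfsg

namespace Cfsg.Agent.S3699

open Lib Lib.CIT Lib.Spec

theorem dvd_of {m n : ℕ} (h : ∀ s : ℕ, s.Prime → s ∣ (2 ^ (2 * m + 1)) ^ 2 + 1 →
    s ∣ (2 ^ (2 * n + 1)) ^ 2 * (2 ^ (2 * n + 1) - 1) * ((2 ^ (2 * n + 1)) ^ 2 + 1)) : m ≤ n := by
  obtain ⟨s, hs, h1, k⟩ := zsig_two (n := (2 * m + 1) * 2 * 2) (by omega) (by omega)
  have e : ∀ a, 2 ^ (a * 2) - 1 = (2 ^ a + 1) * (2 ^ a - 1) := fun a => by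
    rw [pow_mul, ← Nat.sq_sub_sq, one_pow]
  have h2 := (k _).2 dvd_rfl
  rw [e, hs.dvd_mul, k, pow_mul] at h2
  have h3 := h s hs (h2.resolve_right fun h => by have := Nat.le_of_dvd (by omega) h; omega)
  rw [hs.dvd_mul, hs.dvd_mul, ← pow_mul] at h3
  have h4 := Nat.le_of_dvd (by omega) ((k ((2 * n + 1) * 2 * 2)).1 (by
    rcases h3 with (h3 | h3) | h3
    · exact (not_dvd_two_pow hs (by omega) _ h3).elim
    · rw [e, e]; exact (h3.mul_left _).mul_left _
    · rw [e]; exact h3.mul_right _))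
  omega

/-- Let `q = 2^(2m+1) ≥ 8` and `S = Sz(q)` the Suzuki group. If a finite group `G` has the same prime graph as `S` (same prime divisors of the order; for distinct primes `r, s` an element of order `rs` in one iff in the other), then `G/O₂(G)` is isomorphic to `S`. The known proof uses the classification of finite simple groups. -/
theorem result {F : Type*} [Field F] [Fintype F] (m : ℕ) (hm : 1 ≤ m)
    (hF : Fintype.card F = 2 ^ (2 * m + 1)) {G : Type*} [Group G] [Finite G]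
    (h : ((∀ r : ℕ, r.Prime → (r ∣ Nat.card ↥(Cfsg.Lie.Sz F (2 ^ (m + 1))) ↔ r ∣ Nat.card G)) ∧
      (∀ r s : ℕ, r.Prime → s.Prime → r ≠ s → ((∃ x : ↥(Cfsg.Lie.Sz F (2 ^ (m + 1))), orderOf x = r * s) ↔ (∃ y : G, orderOf y = r * s))))) :
    Nonempty (G ⧸ Cfsg.pCore 2 G ≃* ↥(Cfsg.Lie.Sz F (2 ^ (m + 1)))) := by
  have M := Sz.lieModel hF
  have := M.finite
  have hc := card_sz hF
  have h0 : IsCIT G := isCIT_of_sp fun s hs h2 e => by
    obtain ⟨x, hx⟩ := (h.2 2 s Nat.prime_two hs h2.symm).2 e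
    rcases M.orderOf_dvd x with h1 | h1 | h1 <;> rw [hx] at h1
    · exact not_dvd_two_pow hs h2 2 ((dvd_mul_left s 2).trans h1)
    · exact Nat.not_even_iff_odd.2 (M.odd_card_sub_one.of_dvd_nat h1) (even_two_mul s)
    · exact Nat.not_even_iff_odd.2 (M.odd_sq_add_one.of_dvd_nat h1) (even_two_mul s)
  have h3 : ¬ 3 ∣ Nat.card G := fun e => Sz.Model.three_not_dvd (hc ▸ (h.1 3 Nat.prime_three).2 e)
  have hq := Nat.card_eq_fintype_card.trans hF
  have hn : ¬ Group.IsSolvable G := fun hs => by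
    have h8 : 2 ^ 3 ≤ 2 ^ (2 * m + 1) := Nat.pow_le_pow_right two_pos (by omega)
    obtain ⟨s, hs', h1⟩ := Nat.exists_prime_and_dvd (n := Nat.card F - 1) (by omega)
    have h2 : s ≠ 2 := by rintro rfl; exact absurd (M.odd_card_sub_one.of_dvd_nat h1) (by decide)
    have h5 : 5 ∣ Nat.card F ^ 2 + 1 := hq ▸ five_dvd_sz m
    have h4 : s ≠ 5 := by
      rintro rfl; exact absurd (Nat.eq_one_of_dvd_coprimes M.coprime_tori h1 h5) (by decide)
    have k : ∀ {r : ℕ}, r.Prime → r ≠ 2 → 2 * r ∉ sp G := fun hr h2 ⟨x, hx⟩ =>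
      (h0.orderOf_eq_pow (hx ▸ even_two_mul _)).elim fun k hk =>
        not_dvd_two_pow hr h2 k (hk ▸ hx ▸ dvd_mul_left _ _)
    rcases three_primes_solvable ⊤ (Core.isSolvable_top_iff.2 hs) Nat.prime_two hs' Nat.prime_five
      h2.symm (by decide) h4 (by
        rw [Subgroup.card_top, ← h.1 2 Nat.prime_two, hc]
        exact ((dvd_pow (dvd_pow_self 2 (by omega)) two_ne_zero).mul_right _).mul_right _)
      (by rw [Subgroup.card_top, ← h.1 s hs', hc, ← hq]; exact (h1.mul_left _).mul_right _)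
      (by rw [← h.1 5 Nat.prime_five, hc, ← hq]; exact h5.mul_left _) with e | e | e
    exacts [k hs' h2 e, k Nat.prime_five (by decide) e, by
      obtain ⟨x, hx⟩ := (h.2 s 5 hs' Nat.prime_five h4).2 e
      rcases M.orderOf_dvd x with h6 | h6 | h6 <;> rw [hx] at h6
      · exact absurd ((dvd_mul_left 5 s).trans h6) (by decide)
      · exact absurd (Nat.eq_one_of_dvd_coprimes M.coprime_tori ((dvd_mul_left 5 s).trans h6) h5)
          (by decide)
      · exact hs'.ne_one (Nat.eq_one_of_dvd_coprimes M.coprime_tori h1 ((dvd_mul_right s 5).trans h6))]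
  have k : ∀ {X : Type _} [Group X] {K : Type} [Field K] [Fintype K],
      (X ≃* Matrix.ProjectiveSpecialLinearGroup (Fin 2) K) → 3 ∣ Nat.card X := fun {X} _ K _ _ e => by
    have h1 := PSL2.card_PSL2_mul (K := K)
    rw [Nat.card_congr e.toEquiv]
    refine (Nat.Coprime.coprime_dvd_right (Nat.gcd_dvd_left 2 (Nat.card K - 1))
      (by decide)).dvd_of_dvd_mul_left ?_
    rw [h1, ← one_pow 2, Nat.sq_sub_sq]
    have : 0 < Nat.card K := Nat.card_pos
    rcases (by omega : 3 ∣ Nat.card K ∨ 3 ∣ Nat.card K + 1 ∨ 3 ∣ Nat.card K - 1) with h | h | h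
    exacts [h.mul_right _, (h.mul_right _).mul_left _, (h.mul_left _).mul_left _]
  rcases h0.nonsolv hn with ⟨-, ⟨K, _, _, _, -, -, ⟨e⟩⟩ | ⟨K, _, _, n, -, hK, ⟨e⟩⟩⟩ |
    ⟨-, ⟨K, _, _, -, -, ⟨e⟩⟩ | ⟨N, -, -, K, _, _, -, ⟨e⟩⟩ | ⟨K, _, _, h1, ⟨e⟩⟩⟩
  · exact (h3 ((k e).trans (Subgroup.card_quotient_dvd_card _))).elim
  · have h1 : ∀ s : ℕ, s.Prime → s ≠ 2 → _ := fun s hs h2 =>
      (h.1 s hs).trans (dvd_card_quot hs h2).symm
    have h2 : ∀ {a s : ℕ}, s ∣ (2 ^ (2 * a + 1)) ^ 2 + 1 → s ≠ 2 := fun e => by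
      rintro rfl
      rw [← pow_mul, pow_mul', Nat.dvd_add_right (dvd_pow (by decide) (by omega))] at e
      omega
    rw [hc, Nat.card_congr e.toEquiv, card_sz hK] at h1
    obtain rfl := le_antisymm (dvd_of fun s hs e => (h1 s hs (h2 e)).1 (e.mul_left _))
      (dvd_of fun s hs e => (h1 s hs (h2 e)).2 (e.mul_left _))
    exact (sz_equiv hK hF).map e.trans
  · exact (h3 (k e)).elim
  · exact (h3 ((k e).trans N.card_subgroup_dvd_card)).elim
  · exact (h3 (by
      rw [Nat.card_congr e.toEquiv, card_psl3_four (Nat.card_eq_fintype_card.trans h1)]; decide)).elim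

end Cfsg.Agent.S3699
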