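import Cfsg.Statements.S3700
import Cfsg.Agent.Lib.CIT.Orders

set_option autoImplicit false
open Cfsg

namespace Cfsg.Agent.S3700

/-- Let `F` be a finite field with `2^m` elements, `m ≥ 4`. If a finite group `G` has the same prime graph as `PSL(2, F)` (same prime divisors of the order; for distinct primes `r, s` an element of order `rs` in one iff in the other), then `G/O₂(G)` is isomorphic to `PSL(2, F)`. The known proof uses the classification of finite simple groups. -/
theorem result {F : Type*} [Field F] [Fintype F] (m : ℕ) (hm : 4 ≤ m)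
    (hF : Fintype.card F = 2 ^ m) {G : Type*} [Group G] [Finite G]
    (h : ((∀ r : ℕ, r.Prime → (r ∣ Nat.card (Matrix.ProjectiveSpecialLinearGroup (Fin 2) F) ↔ r ∣ Nat.card G)) ∧
      (∀ r s : ℕ, r.Prime → s.Prime → r ≠ s → ((∃ x : (Matrix.ProjectiveSpecialLinearGroup (Fin 2) F), orderOf x = r * s) ↔ (∃ y : G, orderOf y = r * s))))) :
    Nonempty (G ⧸ Cfsg.pCore 2 G ≃* Matrix.ProjectiveSpecialLinearGroup (Fin 2) F) := by
  open Lib Lib.CIT Lib.Spec in
  have := Sz.charP_of_card hF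
  have hsp := sp_psl2_even (F := F)
  rw [Nat.card_eq_fintype_card, hF] at hsp
  have h16 : 2 ^ 4 ≤ 2 ^ m := Nat.pow_le_pow_right two_pos hm
  have h2m : 2 ∣ 2 ^ m := dvd_pow_self 2 (by omega)
  have e : ∀ a, 2 ^ (a * 2) - 1 = (2 ^ a + 1) * (2 ^ a - 1) := fun a => by
    rw [pow_mul, ← Nat.sq_sub_sq, one_pow]
  have h0 : ∀ s : ℕ, s.Prime → s ≠ 2 → 2 * s ∉ sp G := fun s hs h2 e => by
    rcases hsp.le ((h.2 2 s Nat.prime_two hs h2.symm).2 e) with h1 | h1 | h1
    · have := Nat.le_of_dvd two_pos h1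
      have := hs.two_le
      omega
    all_goals have := (dvd_mul_right 2 s).trans h1; omega
  have hd : ∀ s : ℕ, s.Prime → s ≠ 2 → (s ∣ Nat.card G ↔ s ∣ 2 ^ (m * 2) - 1) := fun s hs h2 => by
    rw [← h.1 s hs, card_psl_even (by omega) hF, hs.dvd_mul, or_iff_right (not_dvd_two_pow hs h2 m),
      pow_mul]
  have hn : ¬ Group.IsSolvable G := fun hs => by
    obtain ⟨r, hr, h1⟩ := Nat.exists_prime_and_dvd (n := 2 ^ m - 1) (by omega)
    obtain ⟨s, hs', h2⟩ := Nat.exists_prime_and_dvd (n := 2 ^ m + 1) (by omega)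
    have h3 : r ≠ 2 := by rintro rfl; omega
    have h4 : s ≠ 2 := by rintro rfl; omega
    have k : ∀ {t : ℕ}, t.Prime → t ∣ 2 ^ m - 1 → t ∣ 2 ^ m + 1 → False := fun {t} ht e1 e2 => by
      have := Nat.dvd_sub e2 e1
      rw [show 2 ^ m + 1 - (2 ^ m - 1) = 2 by omega, Nat.prime_dvd_prime_iff_eq ht Nat.prime_two] at this
      subst this
      omega
    have h5 : r ≠ s := fun e => k hr h1 (e ▸ h2)
    rcases three_primes_solvable ⊤ (Core.isSolvable_top_iff.2 hs) Nat.prime_two hr hs'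
      h3.symm h4.symm h5 (by
        rw [Subgroup.card_top, ← h.1 2 Nat.prime_two, card_psl_even (by omega) hF]
        exact h2m.mul_right _)
      (by rw [Subgroup.card_top, hd r hr h3, e]; exact h1.mul_left _)
      (by rw [hd s hs' h4, e]; exact h2.mul_right _) with e | e | e
    exacts [h0 r hr h3 e, h0 s hs' h4 e, by
      rcases hsp.le ((h.2 r s hr hs' h5).2 e) with h6 | h6 | h6
      · exact h3 ((Nat.prime_dvd_prime_iff_eq hr Nat.prime_two).1 ((dvd_mul_right r s).trans h6))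
      · exact k hs' ((dvd_mul_left s r).trans h6) h2
      · exact k hr h1 ((dvd_mul_right r s).trans h6)]
  obtain ⟨s, hs, h1, k⟩ := zsig_two (n := m * 2) (by omega) (by omega)
  have h2 := (hd s hs (by omega)).2 ((k _).2 dvd_rfl)
  have h3 : ∀ n, Nat.card G ∣ 20160 * n → s ∣ n := fun n hn =>
    (hs.dvd_mul.1 (h2.trans hn)).resolve_left fun e => by
      have := Nat.mem_primeFactors.2 ⟨hs, e, by norm_num⟩
      simp [Nat.primeFactors] at this
      omega
  rcases (isCIT_of_sp h0).nonsolv hn with ⟨-, ⟨K, _, _, n, h4, hK, ⟨f⟩⟩ | ⟨K, _, _, n, -, hK, ⟨f⟩⟩⟩ |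
    ⟨-, ⟨K, _, _, h4, h5, ⟨f⟩⟩ | ⟨N, -, h4, K, _, _, h5, ⟨f⟩⟩ | ⟨K, _, _, h4, ⟨f⟩⟩⟩
  · have h5 : ∀ s : ℕ, s.Prime → s ≠ 2 → (s ∣ 2 ^ (n * 2) - 1 ↔ s ∣ 2 ^ (m * 2) - 1) := fun s hs h2 => by
      rw [← hd s hs h2, ← dvd_card_quot hs h2, Nat.card_congr f.toEquiv, card_psl_even (by omega) hK,
        hs.dvd_mul, or_iff_right (not_dvd_two_pow hs h2 n), pow_mul]
    have h6 := Nat.le_of_dvd (by omega) ((k _).1 ((h5 s hs (by omega)).2 ((k _).2 dvd_rfl)))
    obtain ⟨t, ht, h7, k'⟩ := zsig_two (n := n * 2) (by omega) (by omega)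
    have h8 := Nat.le_of_dvd (by omega) ((k' _).1 ((h5 t ht (by omega)).1 ((k' _).2 dvd_rfl)))
    obtain rfl : n = m := by omega
    exact ⟨f.trans (Linear.congrPSL (.refl _) (FiniteField.ringEquivOfCardEq (hK.trans hF.symm)))⟩
  · have := (dvd_card_quot Nat.prime_three (by decide)).2 ((hd 3 Nat.prime_three (by decide)).2
      (by rw [pow_mul']; exact Nat.sub_one_dvd_pow_sub_one (2 ^ 2) m))
    rw [Nat.card_congr f.toEquiv, card_sz hK] at this
    exact (Sz.Model.three_not_dvd this).elim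
  · exfalso
    rcases h4 with h4 | ⟨hp, j, h4⟩
    · exact hs.ne_one (Nat.dvd_one.1 (h3 1 (by
        rw [Nat.card_congr f.toEquiv, PSL2.card_psl_of_eq (Nat.card_eq_fintype_card.trans h4)
          (n := 360) rfl]; decide)))
    have h6 := PSL2.card_PSL2_mul (K := K)
    rw [← Nat.card_congr f.toEquiv, Nat.card_eq_fintype_card (α := K), ← one_pow 2, Nat.sq_sub_sq,
      one_pow] at h6
    generalize Fintype.card K = p at *
    have h7 : ∀ t : ℕ, t.Prime → t ≠ 2 → (t ∣ 2 ^ (m * 2) - 1 ↔ t = p ∨ t ∣ p + 1 ∨ t ∣ p - 1) :=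
      fun t ht h2 => by
        rw [← hd t ht h2, ← Nat.prime_dvd_prime_iff_eq ht hp, ← ht.dvd_mul, ← ht.dvd_mul, ← h6,
          ht.dvd_mul, or_iff_right fun e => h2 ((Nat.prime_dvd_prime_iff_eq ht Nat.prime_two).1
            (e.trans (Nat.gcd_dvd_left 2 _)))]
    have h8 := (h7 p hp (by omega)).2 (.inl rfl)
    have h9 := (h7 s hs (by omega)).1 ((k _).2 dvd_rfl)
    have hs2 := not_dvd_two_pow hs (by omega)
    have k2 : ∀ {t a}, t.Prime → t ≠ 2 → t ∣ 2 * a → t ∣ a := fun ht h2 e =>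
      (ht.dvd_mul.1 e).resolve_left fun e => h2 ((Nat.prime_dvd_prime_iff_eq ht Nat.prime_two).1 e)
    obtain _ | _ | j := j
    iterate 2 omega
    rcases h4 with rfl | h4
    · have h10 : j + 1 + 1 ≤ m := by
        rw [e, hp.dvd_mul] at h8
        rcases h8 with h8 | h8 <;> have := Nat.le_of_dvd (by omega) h8 <;>
          exact (Nat.pow_le_pow_iff_right one_lt_two).1 (by omega)
      rcases h9 with rfl | h9 | h9
      · have := Nat.le_of_dvd (by omega) ((k ((j + 1 + 1) * 2)).1 (e _ ▸ dvd_mul_right _ _))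
        obtain rfl : m = j + 1 + 1 := by omega
        obtain ⟨b, hb⟩ : ∃ b, 2 ^ (j + 1 + 1) - 1 = 3 ^ b := Nat.eq_prime_pow_of_unique_prime_dvd
          (by omega) (fun {t} ht h10 => by
            have h2 : t ≠ 2 := by rintro rfl; omega
            rcases (h7 t ht h2).1 (e _ ▸ h10.mul_left _) with rfl | h11 | h11
            · have := Nat.le_of_dvd (by omega) h10; omega
            · have := Nat.dvd_sub h11 h10
              rwa [show 2 ^ (j + 1 + 1) + 1 + 1 - (2 ^ (j + 1 + 1) - 1) = 3 by omega,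
                Nat.prime_dvd_prime_iff_eq ht Nat.prime_three] at this
            · exact (not_dvd_two_pow ht h2 _ h11).elim) |> fun e => ⟨_, e⟩
        have h11 : b ≠ 0 := by rintro rfl; omega
        have := three_or_nine (Nat.prime_three.isPrimePow.pow h11) (dvd_pow_self 3 h11) (k := j + 1 + 1)
          (.inr (by omega))
        omega
      · have := Nat.le_of_dvd (by omega) ((k ((j + 1) * 2)).1 (e _ ▸ (k2 (a := 2 ^ (j + 1) + 1) hs
          (by omega) (by rwa [show 2 * (2 ^ (j + 1) + 1) = 2 ^ (j + 1 + 1) + 1 + 1 by ring])).mul_right _))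
        omega
      · exact hs2 _ h9
    · have h10 : j + 1 + 1 ≤ m * 2 := by
        have := Nat.le_of_dvd (by rw [e]; exact Nat.mul_pos (by omega) (by omega)) h8
        exact (Nat.pow_le_pow_iff_right one_lt_two).1 (by omega)
      rcases h9 with rfl | h9 | h9
      · have := Nat.le_of_dvd (by omega) ((k (j + 1 + 1)).1 (by rw [← h4]; simp))
        have := (Nat.prime_dvd_prime_iff_eq Nat.prime_three hp).1 (by
          rw [show s = 2 ^ (2 * m) - 1 by rw [show 2 * m = j + 1 + 1 by omega]; omega, pow_mul]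
          exact Nat.sub_one_dvd_pow_sub_one (2 ^ 2) m)
        omega
      · exact hs2 _ (h4 ▸ h9)
      · have := Nat.le_of_dvd (by omega) ((k (j + 1)).1 (k2 hs (by omega)
          (by rwa [show 2 * (2 ^ (j + 1) - 1) = p - 1 by omega])))
        omega
  · exact (hs.ne_one (Nat.dvd_one.1 (h3 1 (by
      rw [← N.card_mul_index, h4, Nat.card_congr f.toEquiv, PSL2.card_psl_of_eq
        (Nat.card_eq_fintype_card.trans h5) (n := 360) rfl]; decide)))).elim
  · exact (hs.ne_one (Nat.dvd_one.1 (h3 1 (by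
      rw [Nat.card_congr f.toEquiv, card_psl3_four (Nat.card_eq_fintype_card.trans h4)])))).elim

end Cfsg.Agent.S3700
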