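import Cfsg.Statements.S3713
import Cfsg.Agent.Lib.SpA.Main

set_option autoImplicit false
open Cfsg

namespace Cfsg.Agent.S3713

open Cfsg.Lib.SpA

/-- A presentation of the symplectic group as the universal completion of an amalgam of small subgroups. Let F be a field with more than two elements, n ≥ 2, and Sp the group of 2n × 2n matrices over F preserving the standard alternating form, acting on column vectors; write e_k, f_k for the standard basis vectors of the two halves (a hyperbolic basis). For each k let S_k be the subgroup of Sp fixing e_l and f_l for all l ≠ k (a copy of SL(2, F) on the plane of e_k, f_k), and for each i with i + 1 < n let M_i be the subgroup fixing every e_l and fixing f_l for all l other than i, i+1 (an abelian group isomorphic to the additive group of F³). Then Sp is the universal completion of the amalgam formed by the S_k, the M_i and the subgroups generated by two of them: for every group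 H and homomorphisms σ_k : S_k → H, μ_i : M_i → H such that for each pair of these subgroups some homomorphism on the subgroup they generate restricts to the given ones, there is exactly one homomorphism Sp → H restricting to every σ_k and μ_i. -/
theorem result
    (F : Type*) [Field F] (hF : ∃ a : F, a ≠ 0 ∧ a ≠ 1) (n : ℕ) (hn : 2 ≤ n)
    (S M : Fin n → Subgroup ↥(Matrix.symplecticGroup (Fin n) F))
    (hS : ∀ j : Fin n, S j = Subgroup.closure {A : ↥(Matrix.symplecticGroup (Fin n) F) | ∀ k : Fin n, k ≠ j →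
      ((A : ↥(Matrix.symplecticGroup (Fin n) F)) : Matrix (Fin n ⊕ Fin n) (Fin n ⊕ Fin n) F).mulVec (Pi.single (Sum.inl k) (1 : F)) = (Pi.single (Sum.inl k) (1 : F)) ∧ ((A : ↥(Matrix.symplecticGroup (Fin n) F)) : Matrix (Fin n ⊕ Fin n) (Fin n ⊕ Fin n) F).mulVec (Pi.single (Sum.inr k) (1 : F)) = (Pi.single (Sum.inr k) (1 : F))})
    (hM : ∀ i : Fin n, (i : ℕ) + 1 < n → M i = Subgroup.closure {A : ↥(Matrix.symplecticGroup (Fin n) F) |
      (∀ k : Fin n, ((A : ↥(Matrix.symplecticGroup (Fin n) F)) : Matrix (Fin n ⊕ Fin n) (Fin n ⊕ Fin n) F).mulVec (Pi.single (Sum.inl k) (1 : F)) = (Pi.single (Sum.inl k) (1 : F))) ∧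
        ∀ k : Fin n, (k : ℕ) ≠ i → (k : ℕ) ≠ (i : ℕ) + 1 → ((A : ↥(Matrix.symplecticGroup (Fin n) F)) : Matrix (Fin n ⊕ Fin n) (Fin n ⊕ Fin n) F).mulVec (Pi.single (Sum.inr k) (1 : F)) = (Pi.single (Sum.inr k) (1 : F))})
    {H : Type*} [Group H] (σ : ∀ j : Fin n, ↥(S j) →* H) (μ : ∀ i : Fin n, ↥(M i) →* H)
    (hSS : ∀ j l : Fin n, j ≠ l → ∃ Ψ : ↥(S j ⊔ S l) →* H,
      (∀ (g : ↥(Matrix.symplecticGroup (Fin n) F)) (hg : g ∈ S j), Ψ ⟨g, Subgroup.mem_sup_left hg⟩ = σ j ⟨g, hg⟩) ∧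
        (∀ (g : ↥(Matrix.symplecticGroup (Fin n) F)) (hg : g ∈ S l), Ψ ⟨g, Subgroup.mem_sup_right hg⟩ = σ l ⟨g, hg⟩))
    (hMM : ∀ i i' : Fin n, i ≠ i' → (i : ℕ) + 1 < n → (i' : ℕ) + 1 < n → ∃ Ψ : ↥(M i ⊔ M i') →* H,
      (∀ (g : ↥(Matrix.symplecticGroup (Fin n) F)) (hg : g ∈ M i), Ψ ⟨g, Subgroup.mem_sup_left hg⟩ = μ i ⟨g, hg⟩) ∧
        (∀ (g : ↥(Matrix.symplecticGroup (Fin n) F)) (hg : g ∈ M i'), Ψ ⟨g, Subgroup.mem_sup_right hg⟩ = μ i' ⟨g, hg⟩))
    (hMS : ∀ i j : Fin n, (i : ℕ) + 1 < n → ∃ Ψ : ↥(M i ⊔ S j) →* H,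
      (∀ (g : ↥(Matrix.symplecticGroup (Fin n) F)) (hg : g ∈ M i), Ψ ⟨g, Subgroup.mem_sup_left hg⟩ = μ i ⟨g, hg⟩) ∧
        (∀ (g : ↥(Matrix.symplecticGroup (Fin n) F)) (hg : g ∈ S j), Ψ ⟨g, Subgroup.mem_sup_right hg⟩ = σ j ⟨g, hg⟩)) :
    ∃! Φ : ↥(Matrix.symplecticGroup (Fin n) F) →* H,
      (∀ (j : Fin n) (g : ↥(Matrix.symplecticGroup (Fin n) F)) (hg : g ∈ S j), Φ g = σ j ⟨g, hg⟩) ∧
        (∀ (i : Fin n), (i : ℕ) + 1 < n → ∀ (g : ↥(Matrix.symplecticGroup (Fin n) F)) (hg : g ∈ M i), Φ g = μ i ⟨g, hg⟩) := by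
  obtain ⟨m, rfl⟩ : ∃ m, n = m + 1 := ⟨n - 1, by omega⟩
  have h1 : ∀ j, S j = Sa F j := fun j => by
    rw [hS, ← Subgroup.closure_eq (Sa F j)]
    congr 1
    ext A
    refine ⟨fun h x hx => ?_, fun h k hk => ⟨h _ (by simp [hk]), h _ (by simp [hk])⟩⟩
    rcases x with x | x
    exacts [(h x (by simpa using hx)).1, (h x (by simpa using hx)).2]
  have h0 : ∀ i : Fin m, (i.castSucc : ℕ) + 1 < m + 1 := fun i => by simp
  have h2 : ∀ i : Fin m, M i.castSucc = Ma F i.castSucc i.succ := fun i => by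
    rw [hM _ (h0 i), ← Subgroup.closure_eq (Ma F _ _)]
    congr 1
    ext A
    refine ⟨fun h x hx => ?_, fun h => ⟨fun k => h _ (by simp), fun k h1 h2 => h _ ?_⟩⟩
    · rcases x with x | x
      exacts [h.1 x, h.2 x (by simpa [Fin.ext_iff] using hx.1) (by simpa [Fin.ext_iff] using hx.2)]
    · simpa [Fin.ext_iff] using And.intro h1 h2
  obtain ⟨φ, f1, f2, f3⟩ := exists_section hF (S := fun j => gr (σ j))
    (M := fun i => gr (μ i.castSucc)) (fun j => (map_gr _).trans (h1 j))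
    (fun i => (map_gr _).trans (h2 i)) (fun _ => good_gr _) (fun j l h => good_gr_sup (hSS j l h))
    (fun i j h => good_gr_sup (hMM _ _ ((Fin.castSucc_injective _).ne h) (h0 i) (h0 j)))
    fun i j => good_gr_sup (hMS _ j (h0 i))
  have f4 : ∀ i : Fin (m + 1), (i : ℕ) + 1 < m + 1 → ∀ g (hg : g ∈ M i), (φ g).2 = μ i ⟨g, hg⟩ :=
    fun i h => by
      obtain ⟨i, rfl⟩ := Fin.exists_castSucc_eq.2 (show i ≠ .last m by simp [Fin.ext_iff]; omega)
      exact eq_of_gr_le f1 (f3 i)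
  refine ⟨(MonoidHom.snd _ _).comp φ, ⟨fun j => eq_of_gr_le f1 (f2 j), f4⟩, fun Φ h =>
    MonoidHom.ext fun g => (eq_top_of_le (N := Φ.eqLocus _) (fun j g hg => ?_) fun i g hg => ?_).ge
      (Subgroup.mem_top g)⟩
  · exact (h.1 j g (h1 j ▸ hg)).trans (eq_of_gr_le f1 (f2 j) g _).symm
  · exact (h.2 _ (h0 i) g (h2 i ▸ hg)).trans (f4 _ (h0 i) g _).symm

end Cfsg.Agent.S3713
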