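import Cfsg.Statements.S3726
import Cfsg.Agent.Lib.TT.Bender
import Cfsg.Agent.Lib.Perm.Zass7
import Cfsg.Agent.Lib.FGS.Classes

set_option autoImplicit false
open Cfsg

namespace Cfsg.Agent.S3726

open MulAction Subgroup Cfsg.Lib.Perm Cfsg.Lib.TT Cfsg.Lib.Inv Cfsg.Lib.BS

section

variable {G Ω : Type*} [Group G] [MulAction G Ω]

variable (G Ω) in
/-- The consequences of the counting argument. -/
structure CF (i : ℕ) : Prop extends DT G Ω where
  sw : ∀ (s : G) (a b : Ω), a ≠ b → s • a = b → s • b = a → s * s = 1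
  fix : ∀ u g : G, orderOf u = 2 → g * u = u * g → g ≠ 1 → (fixedBy Ω g).ncard = i
  card : ∀ u : G, orderOf u = 2 → Nat.card (centralizer ({u} : Set G)) + i = Nat.card Ω

theorem CF.of [Finite G] [Finite Ω] (h : DT G Ω) {i : ℕ} {t : G} (ht : orderOf t = 2)
    (hC : ∀ g : G, g * t = t * g → g ≠ 1 → (fixedBy Ω g).ncard = i) : CF G Ω i := by
  classical
  have ht1 : t ≠ 1 := by rintro rfl; simp at ht
  have hti := hC t rfl ht1
  set C := centralizer ({t} : Set G)
  have hlt : i < Nat.card Ω := by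
    rw [← hti, ← Set.ncard_univ]
    exact Set.ncard_lt_ncard (Set.ssubset_univ_iff.2 fun e => ht1 (h.faith t fun x =>
      show x ∈ fixedBy Ω t from e ▸ trivial))
  have hle : Nat.card C ≤ Nat.card Ω - i := by
    have := Fintype.ofFinite C
    have h1 := sum_card_fixedBy (G := C) (α := Ω)
    have h2 : ∀ g ∈ Finset.univ.erase (1 : C), Nat.card (fixedBy Ω g) = i := fun g hg =>
      hC g (mem_centralizer_singleton_iff.1 g.2) fun e => (Finset.mem_erase.1 hg).1 (Subtype.ext e)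
    rw [← Finset.add_sum_erase _ _ (Finset.mem_univ 1), Finset.sum_congr rfl h2,
      Finset.sum_const, smul_eq_mul,
      Finset.card_erase_of_mem (Finset.mem_univ _), Finset.card_univ, ← Nat.card_eq_fintype_card,
      fixedBy_one_eq_univ, Nat.card_congr (Equiv.Set.univ Ω)] at h1
    refine Nat.le_of_dvd (by omega) ((Nat.dvd_add_iff_left (dvd_mul_right _ i)).2 ?_)
    have : 0 < Nat.card C := Nat.card_pos
    rw [show Nat.card Ω - i + Nat.card C * i = Nat.card Ω + (Nat.card C - 1) * i by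
      rw [Nat.sub_mul]; have := Nat.le_mul_of_pos_left i this; omega, h1]
    exact dvd_mul_left ..
  have key : ∀ a b : Ω, a ≠ b → Nat.card C + i = Nat.card Ω ∧
      ∀ s : G, s • a = b → s • b = a → IsConj t s := by
    intro a b hab
    obtain ⟨s, h1, h2⟩ := h.swap hab
    have h3 := h.count_move hab t
    have hsub : {s | IsConj t s ∧ s • a = b} ⊆ {k : G | k • a = b ∧ k • b = a} := fun u hu =>
      ⟨hu.2, by
        obtain ⟨c, rfl⟩ := isConj_iff.1 hu.1
        rw [← hu.2, ← mul_smul, ← pow_two, conj_pow, ← ht, pow_orderOf_eq_one]; simp⟩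
    have h4 := Set.ncard_le_ncard hsub
    have h5 := (ncard_carry h1 h2).trans (h.card_stab2 hab.symm hab)
    have h6 : 0 < Nat.card (stab2 G a b) := Nat.card_pos
    rw [hti] at h3
    rw [h5] at h4
    have h7 : Nat.card C = Nat.card Ω - i := le_antisymm hle (by
      refine Nat.le_of_mul_le_mul_left ?_ h6
      rw [← h3, mul_comm]
      exact Nat.mul_le_mul_right _ h4)
    rw [← h7, mul_comm] at h3
    refine ⟨by omega, fun u h8 h9 => ?_⟩
    have := Set.eq_of_subset_of_ncard_le hsub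
      (by rw [h5, Nat.eq_of_mul_eq_mul_right Nat.card_pos h3])
    exact (show u ∈ {s | IsConj t s ∧ s • a = b} from this ▸ ⟨h8, h9⟩).1
  have hinv : ∀ u : G, orderOf u = 2 → ∃ c, c * t * c⁻¹ = u := fun u hu => by
    obtain ⟨x, hx⟩ := not_forall.1 fun e => (by simp [h.faith u e] at hu : False)
    exact isConj_iff.1 ((key x _ (Ne.symm hx)).2 u rfl (by
      rw [← mul_smul, ← pow_two, ← hu, pow_orderOf_eq_one, one_smul]))
  refine ⟨h, fun s a b hab h1 h2 => ?_, fun u g hu e h1 => ?_, fun u hu => ?_⟩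
  · obtain ⟨c, rfl⟩ := isConj_iff.1 ((key a b hab).2 s h1 h2)
    rw [← pow_two, conj_pow, ← ht, pow_orderOf_eq_one]; simp
  · obtain ⟨c, rfl⟩ := hinv u hu
    rw [← ncard_fix_conj c⁻¹ g]
    refine hC _ ?_ (mt conj_eq_one_iff.1 h1)
    calc _ = c⁻¹ * (g * (c * t * c⁻¹)) * c := by group
      _ = _ := by rw [e]; group
  · obtain ⟨c, rfl⟩ := hinv u hu
    obtain ⟨x, hx⟩ := not_forall.1 fun e => ht1 (h.faith t e)
    rw [← (key x _ (Ne.symm hx)).1, Cfsg.Lib.FGS.card_cent1_conj]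

namespace CF

variable {i : ℕ} (h : CF G Ω i) {a b c d e : Ω} {s u x : G}
include h

theorem inv (hab : a ≠ b) (h1 : s • a = b) (h2 : s • b = a) (hx : x ∈ stab2 G a b) :
    s * x * s⁻¹ = x⁻¹ := by
  have h3 := h.sw (s * x) a b hab (by rw [mul_smul, hx.1, h1]) (by rw [mul_smul, hx.2, h2])
  rw [inv_eq_of_mul_eq_one_right (h.sw s a b hab h1 h2), eq_inv_iff_mul_eq_one, ← h3]
  group

theorem comm (hab : a ≠ b) (hx : x ∈ stab2 G a b) (hu : u ∈ stab2 G a b) : x * u = u * x :=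
  let ⟨_, h1, h2⟩ := h.swap hab
  comm_of_inverted (fun _ => h.inv hab h1 h2) hx hu

theorem carry (hcd : c ≠ d) (hce : c ≠ e) : ∃ y : G, y • d = e ∧
    ∀ x : G, x • c = c → x • d = d → x • e = e → y * x = x * y := by
  obtain ⟨s, h1, h2⟩ := h.swap hcd
  obtain ⟨r, h3, h4⟩ := h.swap hce
  refine ⟨r * s, by rw [mul_smul, h2, h3], fun x hc hd he => ?_⟩
  calc _ = r * (s * x * s⁻¹) * r⁻¹ * (r * s) := by group
    _ = _ := by rw [h.inv hcd h1 h2 ⟨hc, hd⟩, h.inv hce h3 h4 (inv_mem ⟨hc, he⟩), inv_inv]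

variable [Finite Ω]

theorem carry' (h3 : 2 < (fixedBy Ω x).ncard) (hd : x • d = d) (he : x • e = e) :
    ∃ y ∈ centralizer ({x} : Set G), y • d = e := by
  obtain ⟨c, hc, h1⟩ := Set.exists_mem_notMem_of_ncard_lt_ncard (s := {d, e})
    (((Set.ncard_insert_le ..).trans (by simp)).trans_lt h3)
  obtain ⟨y, h2, h4⟩ := h.carry (c := c) (d := d) (e := e) (fun e => h1 (by simp [e]))
    fun e => h1 (by simp [e])
  exact ⟨y, mem_centralizer_singleton_iff.2 (h4 x hc hd he), h2⟩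

variable [Finite G]

theorem ord (hab : a ≠ b) (h1 : s • a = b) (h2 : s • b = a) : orderOf s = 2 :=
  orderOf_eq_two_iff.2 ⟨fun e => hab (by rw [← h1, e, one_smul]), h.sw s a b hab h1 h2⟩

theorem card_cent (h3 : 2 < (fixedBy Ω x).ncard) (ha : x • a = a) :
    Nat.card (centralizer ({x} : Set G)) =
      Nat.card ↥(centralizer ({x} : Set G) ⊓ stabilizer G a) * (fixedBy Ω x).ncard :=
  card_eq_mul_ncard fun y => ⟨h.carry' h3 ha, by
    rintro ⟨g, hg, rfl⟩
    rw [mem_fixedBy, ← mul_smul, ← mem_centralizer_singleton_iff.1 hg, mul_smul, ha]⟩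

theorem three (hi : i = 0) (ha : x • a = a) (hb : x • b = b) (hc : x • c = c) (hab : a ≠ b)
    (hbc : b ≠ c) (hac : a ≠ c) : x = 1 := by
  by_contra h1
  have h3 : 2 < (fixedBy Ω x).ncard :=
    (Set.two_lt_ncard (Set.toFinite _)).2 ⟨a, ha, b, hb, c, hc, hab, hac, hbc⟩
  have ho : Odd (Nat.card (centralizer ({x} : Set G))) := odd_card_iff.2 fun u hu h2 => by
    have := h.fix u x h2 (mem_centralizer_singleton_iff.1 hu).symm h1
    omega
  obtain ⟨s, h4, h5⟩ := h.swap hab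
  have hs := h.ord hab h4 h5
  obtain ⟨y, -, hy⟩ := exists_fix_of_odd (mul_self_of_orderOf hs) (X := fixedBy Ω x)
    (fun y hy => by
      rw [← fixedBy_inv, ← h.inv hab h4 h5 ⟨ha, hb⟩, ← smul_fixedBy]
      exact Set.smul_mem_smul_set hy) (Nat.odd_mul.1 (h.card_cent h3 ha ▸ ho)).2
  have := h.fix s s hs rfl (ne_one_of_orderOf hs)
  rw [hi, Set.ncard_eq_zero] at this
  exact (show y ∈ (∅ : Set Ω) from this ▸ hy)

theorem psl (hZ : ZT G Ω) (hab : a ≠ b)
    (hd : 2 * Nat.card (stab2 G a b) + 1 = Nat.card (zker G a)) :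
    ∃ (F : Type) (_ : Field F) (_ : Fintype F),
      Nonempty (G ≃* Matrix.ProjectiveSpecialLinearGroup (Fin 2) F) := by
  obtain ⟨s, h1, h2⟩ := h.swap hab
  obtain ⟨K, _, _, hK⟩ := hZ.exists_field hab (by omega)
  exact ⟨K, _, ‹_›, hZ.nonempty_equiv_PSL hab h1 h2 (h.sw s a b hab h1 h2)
    (fun _ => h.inv hab h1 h2) hd K hK⟩

theorem zero (hi : i = 0) (hr : ¬ Reg G Ω) (hab : a ≠ b) :
    ∃ (F : Type) (_ : Field F) (_ : Fintype F),
      Nonempty (G ≃* Matrix.ProjectiveSpecialLinearGroup (Fin 2) F) := by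
  have : Nontrivial Ω := ⟨a, b, hab⟩
  have h0 : ∃ g : G, g ≠ 1 ∧ ∃ a b : Ω, a ≠ b ∧ g • a = a ∧ g • b = b := by
    by_contra! h0
    obtain ⟨N, h1, -, h2, h3⟩ := exists_regular_normal_of_sharply_two h.mt2
      fun g a b hab ha hb => not_not.1 fun e => h0 g e a b hab ha hb
    exact hr (Reg.of h1 h2 h3)
  have hZ : IsZassenhausGroup G Ω := ⟨h.faithful, h.mt2, fun g a b c h1 h2 h3 h4 h5 h6 =>
    h.three hi h4 h5 h6 h1 h2 h3, h0, fun N h1 h2 => not_forall.1 fun h3 => hr (Reg.of h1 h2 h3)⟩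
  have hT := ZT.of_zassenhaus hZ
  have ho : Odd (Nat.card (stabilizer G a)) := odd_card_iff.2 fun u hu h2 => by
    have := h.fix u u h2 rfl (ne_one_of_orderOf h2)
    rw [hi, Set.ncard_eq_zero] at this
    exact (show a ∈ (∅ : Set Ω) from this ▸ hu)
  rw [hT.card_stabilizer hab, Nat.odd_mul] at ho
  obtain h1 | ⟨h1, -⟩ := feit_zassenhaus hZ hab
  · refine h.psl hT hab ((hT.card_of_large hab h1).resolve_left fun e => ?_)
    exact Nat.not_even_iff_odd.2 ho.1 (e ▸ ho.2.add_one)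
  · obtain ⟨k, hk⟩ := h1.exists_card_eq
    have := hT.two_le_card_zker a
    rw [hk] at this ho
    cases k with
    | zero => simp at this
    | succ k => exact absurd ho.1 (by simp [pow_succ])

theorem one (hi : i = 1) (hr : ¬ Reg G Ω) (hab : a ≠ b) :
    (∃ (F : Type) (_ : Field F) (_ : Fintype F),
      Nonempty (G ≃* Matrix.ProjectiveSpecialLinearGroup (Fin 2) F)) ∨ Lie.IsoSuzuki G := by
  obtain ⟨u, h1, h2⟩ := h.swap hab
  have hu := h.ord hab h1 h2
  obtain ⟨c, hc⟩ := Set.ncard_eq_one.1 ((h.fix u u hu rfl (ne_one_of_orderOf hu)).trans hi)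
  have hc' : u • c = c := show c ∈ fixedBy Ω u from hc ▸ rfl
  have hca : c ≠ a := fun e => hab (by rw [← h1, ← e, hc'])
  obtain ⟨Q, Q₀, K, t, s, r, hS⟩ := h.exists_RS hr hca (even_card_of_involution_mem hu hc')
    (odd_card_iff.2 fun v hv h3 => hca ((Set.ncard_le_one (Set.toFinite _)).1
      ((h.fix v v h3 rfl (ne_one_of_orderOf h3)).trans hi).le c hv.1 a hv.2))
  have hK : stab2 G c (t • c) = K := by
    ext k
    rw [hS.memK, iff_self_and]
    exact h.inv (Ne.symm hS.tH) rfl (by rw [← mul_smul, hS.tt, one_smul])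
  obtain ⟨L, ht, -, -, -, h3, h4, -, h5, -⟩ := exists_simple hS (h.normalCore_stab c)
  have hH : stabilizer G c ≤ L := hS.sup_eq ▸ sup_le h3 (hK ▸ h4)
  obtain rfl : L = ⊤ := eq_top_iff.2 fun g _ => by
    by_cases hg : g ∈ stabilizer G c
    · exact hH hg
    · obtain ⟨k, hk, q, hq, rfl⟩ := hS.canon g hg
      exact mul_mem (mul_mem (hH hk) ht) (h3 hq)
  have := topEquiv.symm.isSimpleGroup (G := G)
  obtain ⟨h6, e | ⟨h7, e⟩⟩ := vone hS hK
  · obtain ⟨F, _, _, n, -, -, -, h8⟩ := idA hS e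
    exact Or.inl ⟨F, _, ‹_›, h8⟩
  · obtain ⟨-, F, _, _, n, h1, h4, -, h5⟩ := idB hS h6 h7 e
    exact Or.inr ⟨F, _, _, n, h1, h4, h5⟩

theorem le_cent (hab : a ≠ b) (hu : u ∈ stab2 G a b) : stab2 G a b ≤ centralizer {u} :=
  fun _ hx => mem_centralizer_singleton_iff.2 (h.comm hab hx hu)

theorem exists_inv (hi : 2 ≤ i) (hab : a ≠ b) : ∃ u ∈ stab2 G a b, orderOf u = 2 := by
  obtain ⟨u, h1, h2⟩ := h.swap hab
  have hu := h.ord hab h1 h2
  obtain ⟨c, hc, d, hd, hcd⟩ := (Set.one_lt_ncard (Set.toFinite _)).1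
    (hi.trans_eq (h.fix u u hu rfl (ne_one_of_orderOf hu)).symm)
  exact exists_involution_mem_of_even (h.card_stab2 hab hcd ▸ even_card_of_involution_mem hu ⟨hc, hd⟩)

theorem two' (hi : i = 2) (hab : a ≠ b) :
    ∃ (F : Type) (_ : Field F) (_ : Fintype F),
      Nonempty (G ≃* Matrix.ProjectiveSpecialLinearGroup (Fin 2) F) := by
  obtain ⟨u, h1, hu⟩ := h.exists_inv hi.ge hab
  have h2 := h.card u hu
  have hZ : ZT G Ω := ⟨h.two, fun g a b c hab hbc hac ha hb hc => not_not.1 fun e => by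
    obtain ⟨v, h1, hv⟩ := h.exists_inv hi.ge hab
    exact ((h.fix v g hv (h.comm hab ⟨ha, hb⟩ h1) e).trans hi).not_gt
      ((Set.two_lt_ncard (Set.toFinite _)).2 ⟨a, ha, b, hb, c, hc, hab, hac, hbc⟩), by
    have : 0 < Nat.card (centralizer ({u} : Set G)) := Nat.card_pos
    omega⟩
  have : centralizer {u} = pairStab G a b := by
    refine le_antisymm (fun g hg => hZ.mem_pairStab_of_conj hab h1 (ne_one_of_orderOf hu) ?_) ?_
    · rwa [mem_centralizer_singleton_iff.1 hg, mul_inv_cancel_right]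
    rintro g (hg | hg)
    · exact h.le_cent hab h1 hg
    · exact mem_centralizer_singleton_iff.2 (mul_inv_eq_iff_eq_mul.1
        ((h.inv hab hg.1 hg.2 h1).trans (inv_eq_of_orderOf hu)))
  rw [this, hZ.card_pairStab hab, ← hZ.card_zker a] at h2
  exact h.psl hZ hab (by omega)

theorem fix_of_odd (hu : orderOf u = 2) (e : x * u = u * x) (h1 : x ≠ 1) (ho : Odd (orderOf x)) :
    u ∈ zpowers (x * u) ∧ fixedBy Ω (x * u) = fixedBy Ω u ∧ fixedBy Ω x = fixedBy Ω u := by
  have hc : Commute x u := e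
  have h2 : u ∈ zpowers (x * u) := ⟨orderOf x, by
    obtain ⟨k, hk⟩ := ho
    simp only [zpow_natCast]
    rw [hc.mul_pow, pow_orderOf_eq_one, hk, pow_succ, pow_mul, ← hu, pow_orderOf_eq_one]; simp⟩
  have h3 : x ∈ zpowers (x * u) := by
    simpa using mul_mem (mem_zpowers (x * u)) (inv_mem h2)
  have h4 := h.fix u (x * u) hu (by rw [← mul_assoc, ← e]) fun e => by
    rw [eq_inv_of_mul_eq_one_left e, orderOf_inv, hu] at ho
    contradiction
  have h5 : ∀ v ∈ zpowers (x * u), (fixedBy Ω v).ncard = i → fixedBy Ω (x * u) = fixedBy Ω v :=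
    fun v hv e => Set.eq_of_subset_of_ncard_le
      (fun y hy => (zpowers_le (H := stabilizer G y)).2 hy hv) (e.trans h4.symm).le
  have h6 := h5 u h2 (h.fix u u hu rfl (ne_one_of_orderOf hu))
  exact ⟨h2, h6, (h5 x h3 (h.fix u x hu e h1)).symm.trans h6⟩

theorem pgroup (hi : 2 < i) (hu : orderOf u = 2) : IsPGroup 2 (centralizer ({u} : Set G)) := by
  obtain ⟨k, hk⟩ | ⟨p, hp, h1, h2⟩ :=
    (Nat.card (centralizer ({u} : Set G))).eq_two_pow_or_exists_odd_prime_and_dvd
  · exact IsPGroup.of_card hk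
  have := Fact.mk hp
  obtain ⟨⟨x, hx⟩, h3⟩ := exists_prime_orderOf_dvd_card' p h1
  rw [orderOf_mk] at h3
  have hx1 : x ≠ 1 := fun e => hp.one_lt.ne (by rw [← h3, e, orderOf_one])
  have e := mem_centralizer_singleton_iff.1 hx
  obtain ⟨h4, h5, -⟩ := h.fix_of_odd hu e hx1 (h3 ▸ h2)
  have key : ∀ n, ∀ z ∈ centralizer ({x * u} : Set G), orderOf z = n →
      ∀ d ∈ fixedBy Ω (x * u), z • d = d := by
    intro n
    induction n using Nat.strong_induction_on with
    | _ n ih =>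
    rintro z hz rfl d hd
    have hz' := mem_centralizer_singleton_iff.1 hz
    obtain he | ho := Nat.even_or_odd (orderOf z)
    · by_contra h6
      have h7 := h.inv (x := x * u) (Ne.symm h6) rfl (by
        rw [← mul_smul, ← pow_two]
        refine ih _ ?_ _ (pow_mem hz 2) rfl d hd
        rw [orderOf_pow_of_dvd two_ne_zero he.two_dvd]
        exact Nat.div_lt_self (orderOf_pos z) one_lt_two)
        (mem_stab2.2 ⟨hd, by rw [← mul_smul, ← hz', mul_smul, hd]⟩)
      rw [hz', mul_inv_cancel_right, eq_inv_iff_mul_eq_one, mul_assoc, ← mul_assoc u, ← e,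
        mul_assoc, mul_self_of_orderOf hu, mul_one] at h7
      exact hx1 (eq_one_of_odd_of_mul_self (h3 ▸ h2) h7)
    · by_cases h1 : z = 1
      · rw [h1, one_smul]
      have : z * u = u * z := by
        obtain ⟨k, hk⟩ := h4
        rw [← hk]
        exact Commute.zpow_right hz' k
      exact (show d ∈ fixedBy Ω z from (h.fix_of_odd hu this h1 ho).2.2 ▸ h5 ▸ hd)
  have h6 : 2 < (fixedBy Ω (x * u)).ncard := by
    rwa [h5, h.fix u u hu rfl (ne_one_of_orderOf hu)]
  obtain ⟨c, hc, d, hd, hcd⟩ := (Set.one_lt_ncard (Set.toFinite _)).1 (one_lt_two.trans h6)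
  obtain ⟨z, hz, rfl⟩ := h.carry' h6 hc hd
  exact absurd (key _ z hz rfl c hc).symm hcd

theorem odd (hi : 2 < i) (hab : a ≠ b) : Odd (i - 1) := by
  obtain ⟨u, h1, hu⟩ := h.exists_inv hi.le hab
  have h2 := h.fix u u hu rfl (ne_one_of_orderOf hu)
  obtain ⟨k, hk⟩ := (h.pgroup hi hu).exists_card_eq
  obtain ⟨j, -, hj⟩ := (Nat.dvd_prime_pow Nat.prime_two).1
    (hk ▸ Dvd.intro_left _ (h.card_cent (h2 ▸ hi) h1.1).symm)
  rw [← h2, hj] at hi ⊢
  cases j with
  | zero => simp at hi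
  | succ j => exact Nat.Even.sub_odd (by omega) (by simp [pow_succ]) odd_one

theorem stab_eq (hi : 2 < i) (hu : orderOf u = 2) (ha : u • a = a) (hb : u • b = b) (hab : a ≠ b) :
    stab2 G a b = centralizer {u} ⊓ stabilizer G a := by
  obtain ⟨c, hc, h1⟩ := exists_fixed_of_not_dvd ((h.pgroup hi hu).to_inf_left (K := stabilizer G a))
    (s := fixedBy Ω u \ {a}) (fun g hg y hy => ⟨by
      rw [mem_fixedBy, ← mul_smul, ← mem_centralizer_singleton_iff.1 hg.1, mul_smul, hy.1],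
      fun e => hy.2 (MulAction.injective g (Eq.trans e (Eq.symm hg.2)))⟩) (by
      rw [Set.ncard_diff_singleton_of_mem (s := fixedBy Ω u) ha, h.fix u u hu rfl (ne_one_of_orderOf hu)]
      exact (h.odd hi hab).not_two_dvd_nat)
  refine eq_of_le_of_card_ge (le_inf (h.le_cent hab ⟨ha, hb⟩) fun _ hg => hg.1) ?_
  rw [h.card_stab2 hab (Ne.symm hc.2)]
  exact card_le_of_le fun g hg => ⟨hg.2, h1 g hg⟩

theorem not_lt (hab : a ≠ b) : ¬ 2 < i := fun hi => by
  have h1 : i - 1 ∣ ({a}ᶜ : Set Ω).ncard := dvd_ncard (stab2 G a) fun y hy => by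
    obtain ⟨u, h1, hu⟩ := h.exists_inv hi.le (Ne.symm hy)
    rw [← h.fix u u hu rfl (ne_one_of_orderOf hu),
      ← Set.ncard_diff_singleton_of_mem (s := fixedBy Ω u) (a := a) h1.1]
    congr 1
    ext z
    exact ⟨fun hz => ⟨(show u ∈ stab2 G a z from hz.2 ▸ h1).2, hz.1⟩, fun hz => ⟨hz.2, by
      rw [h.stab_eq hi hu h1.1 hz.1 (Ne.symm hz.2), h.stab_eq hi hu h1.1 h1.2 (Ne.symm hy)]⟩⟩
  obtain ⟨u, -, hu⟩ := h.exists_inv hi.le hab
  obtain ⟨k, hk⟩ := (h.pgroup hi hu).exists_card_eq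
  rw [Set.ncard_compl, Set.ncard_singleton, ← h.card u hu, hk, Nat.add_sub_assoc (by omega),
    ← Nat.dvd_add_iff_left dvd_rfl] at h1
  have := ((Nat.coprime_two_right.2 (h.odd hi hab)).pow_right k).eq_one_of_dvd h1
  omega

end CF

end

/-- Let a finite group G act faithfully and 2-transitively on a finite set Ω, and suppose there is an involution t of G, fixing exactly i points, such that every non-identity element of the centralizer of t also fixes exactly i points. Then G is isomorphic to PSL₂(q) for some finite field of order q, or to a Suzuki group Sz(q) (q = 2^(2m+1) ≥ 8), or G has a normal subgroup acting regularly on Ω. -/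
theorem result {G Ω : Type*} [Group G] [Finite G] [Fintype Ω] [MulAction G Ω] [FaithfulSMul G Ω]
    (h2 : MulAction.IsMultiplyPretransitive G Ω 2) (i : ℕ) (t : G) (ht : orderOf t = 2)
    (hti : Nat.card {x : Ω // t • x = x} = i)
    (hC : ∀ g : G, Commute g t → g ≠ 1 → Nat.card {x : Ω // g • x = x} = i) :
    (∃ (F : Type) (_ : Field F) (_ : Fintype F), Nonempty (G ≃* Matrix.ProjectiveSpecialLinearGroup (Fin 2) F)) ∨
    Cfsg.Lie.IsoSuzuki G ∨
    (∃ R : Subgroup G, R.Normal ∧ (∀ x y : Ω, ∃ r ∈ R, r • x = y) ∧ ∀ x : Ω, ∀ r ∈ R, r • x = x → r = 1) := by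
  have h := CF.of (DT.of h2) ht fun g e => hC g e
  by_cases hr : Reg G Ω
  · exact Or.inr (Or.inr hr)
  obtain ⟨a, ha⟩ := not_forall.1 fun e => ne_one_of_orderOf ht (h.faith t e)
  have := h.not_lt ha
  obtain hi | hi | hi : i = 0 ∨ i = 1 ∨ i = 2 := by omega
  exacts [Or.inl (h.zero hi hr ha), (h.one hi hr ha).imp_right Or.inl, Or.inl (h.two' hi ha)]

end Cfsg.Agent.S3726
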