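import Cfsg.Statements.S3802
import Cfsg.Agent.Lib.Core.Subnormal
import Cfsg.Agent.Lib.Transfer.SylowIn

set_option autoImplicit false
open Cfsg

namespace Cfsg.Agent.S3802

/-- Let G be a finite group, M a maximal subgroup of G and N a subnormal subgroup of G contained in M. Then N is contained in every conjugate of M, that is, N lies in the core of M in G. -/
theorem result {G : Type*} [Group G] [Finite G] (M N : Subgroup G) (hM : IsCoatom M) (hN : N.IsSubnormal) (hNM : N ≤ M) :
    N ≤ Subgroup.normalCore M := by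
  open Cfsg.Lib Cfsg.Lib.Core Cfsg.Lib.Transfer Subgroup in
  set J := sSup {K : Subgroup G | K.IsSubnormal ∧ K ≤ M} with hJ
  have h1 : J.IsSubnormal := isSubnormal_sSup fun A hA => hA.1
  have h2 : J ≤ M := sSup_le fun A hA => hA.2
  have h3 : ∀ x : G, x ⋆ J ≤ M → x ∈ normalizer (J : Set G) := fun x hx =>
    mem_normalizer_of_conj_le (le_sSup ⟨h1.map (MulAut.conj x).surjective, hx⟩)
  have h4 : M ≤ normalizer (J : Set G) := fun x hx => h3 x (map_conj_le_of_mem h2 hx)
  have h5 : J.Normal := by
    by_contra hn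
    have h6 : ¬ ⊤ ≤ normalizer (J : Set G) := fun h => hn (normal_of_top_le_normalizer h)
    obtain ⟨x, -, hx, hxJ⟩ := (subnormalIn_top.mpr h1).exists_conj_le_normalizer h6
    have h7 : normalizer (J : Set G) = M :=
      ((hM.le_iff.mp h4).resolve_left fun h => h6 h.ge)
    exact hx (h3 x (h7 ▸ hxJ))
  exact (le_sSup ⟨hN, hNM⟩ : N ≤ J).trans (normal_le_normalCore.mpr h2)

end Cfsg.Agent.S3802
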