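import Cfsg.Statements.S3803
import Cfsg.Agent.Lib.BG.T01_Coprime
import Cfsg.Agent.Lib.BG.Hall
import Cfsg.Agent.Lib.PGroup.Critical
import Cfsg.Agent.Lib.PGroup.CyclicMax

set_option autoImplicit false
open Cfsg

namespace Cfsg.Agent.S3803

open Subgroup Cfsg.Lib Cfsg.Lib.BG Cfsg.Lib.Transfer

/-- Let P be a 2-subgroup and A a subgroup of odd order of a finite group, with A normalizing P. Let D ≤ P with 1 < |D| < |P|. If every subgroup of P of order |D|, and also every subgroup of P of order 4 in case |D| = 2, is normalized by A, then A centralizes P. -/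
theorem result {X : Type*} [Group X] [Finite X] (P A D : Subgroup X) (hP : IsPGroup 2 P) (hA : Odd (Nat.card A))
    (hAP : A ≤ Subgroup.normalizer (P : Set X)) (hDP : D ≤ P) (hD1 : 1 < Nat.card D) (hD2 : Nat.card D < Nat.card P)
    (hinv : ∀ E : Subgroup X, E ≤ P → (Nat.card E = Nat.card D ∨ (Nat.card D = 2 ∧ Nat.card E = 4)) → A ≤ Subgroup.normalizer (E : Set X)) :
    A ≤ Subgroup.centralizer (P : Set X) := by
  have hc : (Nat.card A).Coprime 2 := Nat.coprime_two_right.2 hA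
  have cyc : ∀ E : Subgroup X, E ≤ P → IsCyclic E → A ≤ 𝐍(E) → A ≤ 𝐂(E) := fun E hE h1 h2 => by
    by_cases h0 : E = ⊥
    · rw [h0]; exact cent_symm bot_le
    refine coprime_abelian_cent_Ohm1 h2 hc (hP.to_le hE) (abelian_of_cyclic h1) (le_cent_iff.2 fun a ha z hz => ?_)
    have h3 := PGroup.card_omegaOne_of_isCyclic (hP.to_le hE) h1 h0
    have h4 := conj_mem_of_norm (norm_Ohm1 h2 2 ha) hz
    by_cases h5 : z = 1
    · simp [h5]
    obtain ⟨y, -, hy⟩ := (Nat.card_eq_two_iff' (1 : omegaOne 2 E)).1 h3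
    have h6 := (hy ⟨_, h4⟩ (by simpa using h5)).trans (hy ⟨_, hz⟩ (by simpa using h5)).symm
    exact mul_inv_eq_iff_eq_mul.1 (congrArg Subtype.val h6)
  obtain ⟨k, hk⟩ := IsPGroup.iff_card.1 (hP.to_le hDP)
  obtain ⟨m, hm⟩ := IsPGroup.iff_card.1 hP
  rw [hk] at hD1 hD2 hinv
  have hk0 : 0 < k := Nat.pos_of_ne_zero fun e => by simp [e] at hD1
  refine PGroup.le_centralizer_of_fixes_order_four hP hAP hc fun x hx hx4 => ?_
  have h1 : zpowers x ≤ P := zpowers_le_of_mem hx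
  suffices ∃ E : Subgroup X, x ∈ E ∧ A ≤ 𝐂(E) by
    obtain ⟨E, h2, h3⟩ := this
    exact cent_symm h3 h2
  obtain ⟨j, hj, h2⟩ := (Nat.dvd_prime_pow Nat.prime_two).1
    (show orderOf x ∣ 2 ^ 2 from orderOf_dvd_of_pow_eq_one hx4)
  rw [← Nat.card_zpowers] at h2
  by_cases hjk : k < j
  · obtain ⟨rfl, rfl⟩ : k = 1 ∧ j = 2 := by omega
    exact ⟨_, mem_zpowers x, cyc _ h1 inferInstance (hinv _ h1 (Or.inr ⟨rfl, h2⟩))⟩
  obtain ⟨E, hxE, hEP, hE⟩ := PGroup.exists_between_card_eq_pow hP h1 (k := k + 1)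
    (by rw [h2]; exact Nat.pow_le_pow_right (by omega) (by omega))
    (by rw [hm] at hD2 ⊢; exact Nat.pow_le_pow_right (by omega) ((Nat.pow_lt_pow_iff_right (by omega)).1 hD2))
  have key : ∀ H : Subgroup X, H < E → ∃ M : Subgroup X, H ≤ M ∧ M ≤ E ∧ Nat.card M = 2 ^ k := fun H hH => by
    obtain ⟨i, hi⟩ := IsPGroup.iff_card.1 (hP.to_le (hH.le.trans hEP))
    refine PGroup.exists_between_card_eq_pow (hP.to_le hEP) hH.le ?_ (by rw [hE]; exact Nat.pow_le_pow_right (by omega) (by omega))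
    have h3 : Nat.card H < Nat.card E := lt_of_not_ge fun h => hH.ne (eq_of_le_of_card_le hH.le h)
    rw [hi, hE, Nat.pow_lt_pow_iff_right (by omega)] at h3
    rw [hi]; exact Nat.pow_le_pow_right (by omega) (by omega)
  by_cases hE1 : IsCyclic E
  · obtain ⟨M, h3, h4, h5⟩ := key _ (lt_of_le_of_ne hxE fun e => by
      rw [e, hE, Nat.pow_right_inj (by omega)] at h2; omega)
    exact ⟨M, h3 (mem_zpowers x), cyc M (h4.trans hEP) (cyclic_of_le hE1 h4) (hinv M (h4.trans hEP) (Or.inl h5))⟩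
  have h3 : A ≤ 𝐍(E) := le_norm_iff.2 fun a ha y hy => by
    obtain ⟨M, h3, h4, h5⟩ := key _ (lt_of_le_of_ne (zpowers_le_of_mem hy) fun e => hE1 (e ▸ inferInstance))
    exact h4 (conj_mem_of_norm (hinv M (h4.trans hEP) (Or.inl h5) ha) (h3 (mem_zpowers y)))
  refine ⟨E, hxE (mem_zpowers x), cent_symm (by_contra fun h4 => ?_)⟩
  obtain ⟨M, h5, h6, h7⟩ := key (E ⊓ 𝐂(A)) (lt_of_le_of_ne inf_le_left fun e => h4 (e.ge.trans inf_le_right))
  have h8 : M.relIndex E = 2 := Nat.eq_of_mul_eq_mul_left Nat.card_pos (by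
    rw [BG.card_mul_relIndex h6, h7, hE, pow_succ])
  have h9 : ⁅E, A⁆ ≤ M := comm_le_iff.2 fun y hy a ha => by
    have h10 := hinv M (h6.trans hEP) (Or.inl h7) ha
    have h11 := (mul_mem_iff_of_index_two h8 (a := ⟨y, hy⟩)
      (b := ⟨a * y⁻¹ * a⁻¹, conj_mem_of_norm (h3 ha) (inv_mem hy)⟩)).2 (by
        simp only [mem_subgroupOf]
        rw [← mem_normalizer_iff.1 h10, inv_mem_iff])
    simpa [mem_subgroupOf, mul_assoc] using h11
  have h10 := (Coprime.commutator_sup_centralizer h3 (by rw [hE]; exact hc.pow_right _)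
    (Or.inr (pgroup_sol (hP.to_le hEP)))).ge.trans (sup_le h9 h5)
  rw [le_antisymm h6 h10, relIndex_self] at h8
  omega

end Cfsg.Agent.S3803
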