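import Cfsg.Statements.S3817
import Cfsg.Agent.Lib.FTw.Main

set_option autoImplicit false
open Cfsg

namespace Cfsg.Agent.S3817

/-- Let G be a finite group and write F₂(X) for the second term of the upper Fitting chain of a finite group X: the preimage in X of the Fitting subgroup of X/F(X). Then an element x of G lies in F₂(G) if and only if x lies in F₂(⟨x, y⟩) for every y ∈ G. -/
theorem result {G : Type*} [Group G] [Finite G]
    [hF : (Cfsg.fittingSubgroup G).Normal]
    (hK : ∀ K : Subgroup G, (Cfsg.fittingSubgroup ↥K).Normal) (x : G) :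
    x ∈ (Cfsg.fittingSubgroup (G ⧸ Cfsg.fittingSubgroup G)).comap (QuotientGroup.mk' (Cfsg.fittingSubgroup G)) ↔
      ∀ y : G, ∀ hx : x ∈ Subgroup.closure ({x, y} : Set G),
        haveI := hK (Subgroup.closure ({x, y} : Set G));
        (⟨x, hx⟩ : ↥(Subgroup.closure ({x, y} : Set G))) ∈
          (Cfsg.fittingSubgroup (↥(Subgroup.closure ({x, y} : Set G)) ⧸ Cfsg.fittingSubgroup ↥(Subgroup.closure ({x, y} : Set G)))).comap
            (QuotientGroup.mk' (Cfsg.fittingSubgroup ↥(Subgroup.closure ({x, y} : Set G)))) := by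
  constructor
  · intro h y hx
    haveI := hK (Subgroup.closure ({x, y} : Set G))
    refine Lib.FTw.mem_of_parts fun q hq s hs ⟨k, hk⟩ => ?_
    haveI := Fact.mk hq
    obtain ⟨z, rfl⟩ := hs
    refine (Lib.FTw.mem_F2_sub hk).2 (Lib.FTw.Np_inf_le le_top ⟨?_, Subtype.property _⟩)
    exact (Lib.FTw.mem_F2_iff (k := k) (congrArg Subtype.val hk)).1 (zpow_mem h z)
  · intro h
    refine Lib.FTw.mem_of_parts fun q hq s hs ⟨k, hk⟩ => ?_
    haveI := Fact.mk hq
    refine (Lib.FTw.mem_F2_iff hk).2 (Lib.FTw.mem_Np_top ⟨k, hk⟩ (Lib.FTw.hy_of_mem hs fun y => ?_))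
    haveI := hK (Subgroup.closure ({x, y} : Set G))
    obtain ⟨z, rfl⟩ := hs
    exact (Lib.FTw.mem_F2_sub (s := ⟨x, Lib.FTw.l_mem x y⟩ ^ z) (k := k) (Subtype.ext hk)).1
      (zpow_mem (h y (Lib.FTw.l_mem x y)) z)

end Cfsg.Agent.S3817
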