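import Cfsg.Statements.S3818
import Cfsg.Agent.Lib.HH.HalfC

set_option autoImplicit false
open Cfsg

namespace Cfsg.Agent.S3818

open Cfsg.Lib.HH

/-- Let G be a finite solvable group and P a subgroup of G of prime order p > 3 whose conjugates generate G. Let V be a faithful irreducible representation of G over a field of positive characteristic, finite-dimensional. Then the subspace of V fixed by P has dimension less than half the dimension of V. -/
theorem result {G : Type*} [Group G] [Finite G] [Group.IsSolvable G]
    {p : ℕ} [Fact p.Prime] (hp : 3 < p) (P : Subgroup G) (hP : Nat.card P = p) (hgen : Subgroup.normalClosure (P : Set G) = ⊤)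
    {k : Type*} [Field k] (ℓ : ℕ) [Fact ℓ.Prime] [CharP k ℓ]
    {V : Type*} [AddCommGroup V] [Module k V] [FiniteDimensional k V]
    (ρ : Representation k G V) [ρ.IsIrreducible] (hfaith : Function.Injective ρ) :
    2 * Module.finrank k ↥(⨅ g : ↥P, LinearMap.ker (ρ (g : G) - LinearMap.id)) < Module.finrank k V := by
  have : Nontrivial P := Finite.one_lt_card_iff_nontrivial.1 (by omega)
  obtain ⟨x, hx⟩ := exists_ne (1 : P)
  have h1 : ∀ g : P, g ∈ Subgroup.zpowers x := fun g => mem_zpowers_of_prime_card hP hx
  have : Nontrivial V := by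
    by_contra h
    rw [not_nontrivial_iff_subsingleton] at h
    exact (bot_ne_top (α := Subrepresentation ρ)) (Subrepresentation.toSubmodule_injective
      (Subsingleton.elim _ _))
  refine lt_of_eq_of_lt ?_ (Half.half hp inferInstance (ρ := ρ) (fun U hU => (eq_bot_or_eq_top
    (⟨U, fun g v hv => hU g v hv⟩ : Subrepresentation ρ)).imp (congrArg Subrepresentation.toSubmodule)
      (congrArg Subrepresentation.toSubmodule)) (x := x)
    (by rw [← hP, ← Subgroup.coe_pow, pow_card_eq_one', Subgroup.coe_one])
    (fun e => hx (Subtype.ext (hfaith (e.trans ρ.map_one.symm)))) (top_le_iff.1 (hgen ▸ ?_)))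
  · refine congrArg (fun U : Submodule k V => 2 * Module.finrank k U) ?_
    refine le_antisymm (iInf_le _ x) (le_iInf fun g v hv => ?_)
    obtain ⟨n, rfl⟩ := mem_powers_iff_mem_zpowers.2 (h1 g)
    have hv1 : ρ x v = v := sub_eq_zero.1 hv
    refine sub_eq_zero.2 ?_
    change ρ (x ^ n : P) v = v
    induction n with
    | zero => simp
    | succ n ih => rw [pow_succ, Subgroup.coe_mul, map_mul, Module.End.mul_apply, hv1, ih]
  · refine Subgroup.normalClosure_le_normal fun g hg => ?_
    obtain ⟨n, e⟩ := h1 ⟨g, hg⟩
    rw [← show (x : G) ^ n = g from congrArg Subtype.val e]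
    exact Subgroup.zpow_mem _ (Subgroup.subset_normalClosure (Set.mem_singleton _)) n

end Cfsg.Agent.S3818
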