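import Cfsg.Statements.S3819
import Cfsg.Agent.Lib.Coprime.Nilpotent
import Cfsg.Agent.Lib.Core.PSolvable
import Cfsg.Agent.Lib.Core.Solvable

set_option autoImplicit false
open Cfsg

namespace Cfsg.Agent.S3819

open Subgroup Cfsg.Lib Cfsg.Lib.Core in
theorem core {G : Type*} [Group G] [Finite G] {q : ℕ} [Fact q.Prime] {H P D E : Subgroup G}
    [hH : H.Normal] (hPH : H ⊔ P = ⊤) (hcop : (Nat.card P).Coprime (Nat.card H))
    (hPs : Group.IsSolvable P) (hsol : Group.IsSolvable ↥⁅H, P⁆)
    (h0 : ∀ N : Subgroup G, N ≤ H → H ≤ normalizer (N : Set G) → (Nat.card N).Coprime q → N = ⊥)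
    {z : G} (hz : IsPGroup q (zpowers z))
    (hD : D ≤ H ⊓ centralizer (zpowers z : Set G))
    (hDn : H ⊓ centralizer (zpowers z : Set G) ≤ normalizer (D : Set G))
    (hDP : P ≤ normalizer (D : Set G)) (hDq : (Nat.card D).Coprime q)
    (hE : E ≤ H ⊓ centralizer (P : Set G))
    (hEn : H ⊓ centralizer (P : Set G) ≤ normalizer (E : Set G)) (hEq : (Nat.card E).Coprime q) :
    D ⊓ E = ⊥ ∧ ⁅D, P⁆ = ⊥ := by
  have hKn : (⁅H, P⁆ : Subgroup G).Normal := by
    apply normal_of_top_le_normalizer
    rw [← hPH]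
    exact sup_le (normalizer_commutator_ge_left H P) (normalizer_commutator_ge_right H P)
  have hPHn : P ≤ normalizer (H : Set G) := by rw [normalizer_eq_top]; exact le_top
  have hKH : ⁅H, P⁆ ≤ H := commutator_le_left H P
  set K : Subgroup G := ⁅H, P⁆ with hK
  set Q : Subgroup G := (pCore q K).map K.subtype with hQ
  have hQn : Q.Normal := pCoreOf_normal q K
  have hQK : Q ≤ K := pCoreOf_le q K
  have hQq : IsPGroup q Q := pCoreOf_isPGroup q K
  have hK0 : pPrimeCore q K = ⊥ := by
    rw [← pPrimeCoreOf_eq_bot_iff]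
    have := pPrimeCoreOf_normal q K
    exact h0 _ ((pPrimeCoreOf_le q K).trans hKH) (by rw [normalizer_eq_top]; exact le_top)
      (pPrimeCoreOf_coprime q K)
  have hCQ : K ⊓ centralizer (Q : Set G) ≤ Q :=
    inf_centralizer_pCoreOf_le_of_isPSolvable (isPSolvable_of_isSolvable hsol) hK0
  have hQD : Q ⊓ D = ⊥ := inf_eq_bot_of_isPGroup_of_coprime hQq hDq
  have htop : ∀ A : Subgroup G, A ≤ normalizer (Q : Set G) := fun A => by
    rw [normalizer_eq_top]; exact le_top
  have hDQ : D ≤ centralizer (Q : Set G) := by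
    refine Coprime.p_times_q hz hDq hQq (le_centralizer_iff.1 (hD.trans inf_le_right)) (htop _)
      (htop _) ?_
    apply le_centralizer_of_inf_eq_bot
    · exact (inf_le_inf_right _ (hQK.trans hKH)).trans hDn
    · refine le_normalizer_inf (htop _) ?_
      exact le_normalizer_of_le (hD.trans inf_le_right)
    · exact eq_bot_iff.2 (hQD ▸ inf_le_inf_right _ inf_le_left)
  have hCn : (centralizer (Q : Set G)).Normal := inferInstance
  constructor
  · have h1 : D ⊓ E ≤ centralizer (K : Set G) := by
      refine Coprime.le_centralizer_of_commutator_le (N := Q) ?_ (inf_le_left.trans hDQ) ?_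
      · refine le_trans (le_inf (commutator_le_left _ _) ?_) hCQ
        exact (commutator_mono le_rfl (inf_le_left.trans hDQ)).trans (commutator_le_right _ _)
      · exact (coprime_card_of_isPGroup hQq (coprime_of_le inf_le_left hDq)).symm
    have h2 : E ⊓ centralizer (K : Set G) = ⊥ := by
      apply h0 _ (inf_le_left.trans (hE.trans inf_le_left)) _ (coprime_of_le inf_le_left hEq)
      rw [← Coprime.commutator_sup_centralizer hPHn hcop (Or.inl hPs)]
      refine sup_le ?_ (le_normalizer_inf hEn (by rw [normalizer_eq_top]; exact le_top))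
      exact (le_centralizer_iff.1 inf_le_right).trans (centralizer_le_normalizer _)
    exact eq_bot_iff.2 (h2 ▸ le_inf inf_le_right h1)
  · refine eq_bot_iff.2 (hQD ▸ le_inf ?_ (Coprime.commutator_le_of_le_normalizer hDP))
    refine le_trans (le_inf (commutator_mono (hD.trans inf_le_left) le_rfl) ?_) hCQ
    exact (commutator_mono hDQ le_rfl).trans (commutator_le_left _ _)

open Subgroup Cfsg.Lib Cfsg.Lib.Core in
theorem map_norm {G G' : Type*} [Group G] [Group G'] (f : G →* G') {A D : Subgroup G}
    (h : A ≤ normalizer (D : Set G)) : A.map f ≤ normalizer ((D.map f : Subgroup G') : Set G') :=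
  (map_mono h).trans (le_normalizer_map f)

/-- Let G be a finite group with Sylow p-subgroup P and H = O_{p'}(G), and suppose G = PH and the commutator subgroup [H, P] is solvable. Let q be a prime and z an element of q-power order of C_H(P). Then (O_{q'}(C_H(z)) ∩ O_{q'}(C_H(P))) · [O_{q'}(C_H(z)), P] ≤ O_{q'}(H). -/
theorem result {G : Type*} [Group G] [Finite G] {p : ℕ} [Fact p.Prime]
    (P : Sylow p G) (hPH : Cfsg.pPrimeCore p G ⊔ (P : Subgroup G) = ⊤)
    (hsol : Group.IsSolvable ↥⁅Cfsg.pPrimeCore p G, (P : Subgroup G)⁆)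
    {q : ℕ} [Fact q.Prime] (z : G) (hzH : z ∈ Cfsg.pPrimeCore p G) (hzP : z ∈ Subgroup.centralizer ((P : Subgroup G) : Set G))
    (hz : ∃ k : ℕ, orderOf z = q ^ k) :
    ((Cfsg.pPrimeCore q ↥(Cfsg.pPrimeCore p G ⊓ Subgroup.centralizer ({z} : Set G))).map
        (Cfsg.pPrimeCore p G ⊓ Subgroup.centralizer ({z} : Set G)).subtype ⊓
      (Cfsg.pPrimeCore q ↥(Cfsg.pPrimeCore p G ⊓ Subgroup.centralizer ((P : Subgroup G) : Set G))).map
        (Cfsg.pPrimeCore p G ⊓ Subgroup.centralizer ((P : Subgroup G) : Set G)).subtype) ⊔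
    ⁅(Cfsg.pPrimeCore q ↥(Cfsg.pPrimeCore p G ⊓ Subgroup.centralizer ({z} : Set G))).map
        (Cfsg.pPrimeCore p G ⊓ Subgroup.centralizer ({z} : Set G)).subtype, (P : Subgroup G)⁆ ≤
    (Cfsg.pPrimeCore q ↥(Cfsg.pPrimeCore p G)).map (Cfsg.pPrimeCore p G).subtype := by
  open Subgroup Cfsg.Lib Cfsg.Lib.Core in
  set H := pPrimeCore p G with hH
  have hHn : H.Normal := inferInstance
  set N : Subgroup G := (pPrimeCore q H).map H.subtype with hN
  have hNn : N.Normal := pPrimeCoreOf_normal q H
  rw [← centralizer_zpowers z]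
  set D : Subgroup G := (pPrimeCore q ↥(H ⊓ centralizer (zpowers z : Set G))).map
    (H ⊓ centralizer (zpowers z : Set G)).subtype with hD
  set E : Subgroup G := (pPrimeCore q ↥(H ⊓ centralizer ((P : Subgroup G) : Set G))).map
    (H ⊓ centralizer ((P : Subgroup G) : Set G)).subtype with hE
  have hzq : IsPGroup q (zpowers z) := by
    obtain ⟨k, hk⟩ := hz
    exact IsPGroup.of_card (by rw [Nat.card_zpowers, hk])
  have hcop : (Nat.card (P : Subgroup G)).Coprime (Nat.card H) :=
    coprime_card_of_isPGroup P.2 (pPrimeCore_coprime p G)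
  have hPs : Group.IsSolvable (P : Subgroup G) := isSolvable_of_isPGroup P.2
  have htop : ∀ A : Subgroup G, A ≤ normalizer (H : Set G) := fun A => by
    rw [normalizer_eq_top]; exact le_top
  set f := QuotientGroup.mk' N with hf
  have hfs : Function.Surjective f := QuotientGroup.mk'_surjective N
  have hker : f.ker = N := QuotientGroup.ker_mk' N
  have hNq : (Nat.card N).Coprime q := pPrimeCoreOf_coprime q H
  have : (H.map f).Normal := hHn.map f hfs
  have hz1 : H.map f ⊓ centralizer (zpowers (f z) : Set (G ⧸ N)) =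
      (H ⊓ centralizer (zpowers z : Set G)).map f := by
    rw [← MonoidHom.map_zpowers]
    refine Coprime.map_inf_centralizer_map f (htop _) ?_ (Or.inl (isSolvable_of_isPGroup hzq))
    rw [hker]
    exact coprime_card_of_isPGroup hzq (coprime_of_le inf_le_right hNq)
  have hP1 : H.map f ⊓ centralizer (((P : Subgroup G).map f : Subgroup (G ⧸ N)) : Set (G ⧸ N)) =
      (H ⊓ centralizer ((P : Subgroup G) : Set G)).map f :=
    Coprime.map_inf_centralizer_map' f (htop _) hcop (Or.inl hPs)
  have hPz : (P : Subgroup G) ≤ centralizer (zpowers z : Set G) :=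
    le_centralizer_iff.1 (zpowers_le_of_mem hzP)
  have key := core (q := q) (H := H.map f) (P := (P : Subgroup G).map f) (D := D.map f) (E := E.map f)
    (by rw [← Subgroup.map_sup, hPH]; exact map_top_of_surjective f hfs)
    (Nat.Coprime.coprime_dvd_left (card_map_dvd _ f) (Nat.Coprime.coprime_dvd_right (card_map_dvd _ f) hcop))
    (isSolvable_map f hPs) (by rw [← map_commutator]; exact isSolvable_map f hsol)
    (by
      intro M hM hMn hMq
      have h1 : M.comap f ≤ H := by
        have := comap_mono (f := f) hM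
        rw [comap_map_eq, hker, sup_eq_left.2 (pPrimeCoreOf_le q H)] at this
        exact this
      have h2 : M.comap f ≤ N := by
        refine le_pPrimeCoreOf h1 ?_ (coprime_comap f hMq (by rw [hker]; exact hNq))
        intro h hh
        have := hMn (mem_map_of_mem f hh)
        rw [mem_normalizer_iff] at this ⊢
        intro x
        simpa using this (f x)
      rw [← map_comap_eq_self_of_surjective hfs M, Subgroup.map_eq_bot_iff, hker]
      exact h2)
    (z := f z) (by rw [← MonoidHom.map_zpowers]; exact hzq.map f)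
    (by rw [hz1]; exact map_mono (pPrimeCoreOf_le _ _))
    (by rw [hz1]; exact map_norm f (le_normalizer_pPrimeCoreOf _ _))
    (map_norm f (le_trans (le_normalizer_inf (htop _) (le_normalizer_of_le hPz))
      (normalizer_le_normalizer_pPrimeCoreOf _ _)))
    (coprime_map f (pPrimeCoreOf_coprime _ _))
    (by rw [hP1]; exact map_mono (pPrimeCoreOf_le _ _))
    (by rw [hP1]; exact map_norm f (le_normalizer_pPrimeCoreOf _ _))
    (coprime_map f (pPrimeCoreOf_coprime _ _))
  rw [← hker, ← Subgroup.map_eq_bot_iff, Subgroup.map_sup, map_commutator, key.2, sup_bot_eq, eq_bot_iff, ← key.1]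
  exact map_inf_le _ _ f

end Cfsg.Agent.S3819
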