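import Cfsg.Statements.S3821
import Cfsg.Agent.Lib.FGS.Sylow

set_option autoImplicit false
open Cfsg

namespace Cfsg.Agent.S3821

/-- Let A be a normal subgroup of the finite group G and H a subgroup of A. Then H is pronormal in G (H and gHg⁻¹ conjugate inside ⟨H, gHg⁻¹⟩ for every g ∈ G) if and only if H is pronormal in A and G = A · N_G(H). -/
theorem result {G : Type*} [Group G] [Finite G] (A H : Subgroup G) [A.Normal] (hHA : H ≤ A) :
    Cfsg.IsPronormal H ↔ (Cfsg.IsPronormal (H.subgroupOf A) ∧ A ⊔ Subgroup.normalizer (H : Set G) = ⊤) := by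
  open Cfsg.Lib Cfsg.Lib.Transfer Subgroup in
  have e : ∀ a : A, (a ⋆ H.subgroupOf A).map A.subtype = (a : G) ⋆ H := fun a => by
    rw [FGS.map_subtype_conj, map_subgroupOf_eq_of_le hHA]
  have e2 : ∀ a x : A, x ∈ H.subgroupOf A ⊔ a ⋆ H.subgroupOf A ↔ (x : G) ∈ H ⊔ (a : G) ⋆ H :=
    fun a x => by
      rw [← mem_map_iff_mem A.subtype_injective, Subgroup.map_sup, e, map_subgroupOf_eq_of_le hHA]
      rfl
  have hle : ∀ g : G, H ⊔ g ⋆ H ≤ A := fun g =>
    sup_le hHA (Core.map_conj_le_of_mem_normalizer hHA (le_normalizer_of_normal (mem_top g)))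
  constructor
  · intro h
    refine ⟨fun a => ?_, eq_top_iff.mpr fun g _ => ?_⟩
    · obtain ⟨x, hx, hax⟩ := h a
      refine ⟨⟨x, hle a hx⟩, (e2 _ _).mpr hx, map_injective A.subtype_injective ?_⟩
      rw [e, e, hax]
    · obtain ⟨x, hx, hgx⟩ := h g
      have : g = x * (x⁻¹ * g) := by group
      rw [this]
      exact mul_mem_sup (hle g hx) (conj_eq_self_iff.mp (by rw [← conj_conj, hgx, inv_conj_conj]))
  · rintro ⟨h1, h2⟩ g
    obtain ⟨a, ha, n, hn, rfl⟩ := (mem_sup_of_normal_left).mp (h2 ▸ mem_top g : g ∈ A ⊔ _)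
    obtain ⟨x, hx, hax⟩ := h1 ⟨a, ha⟩
    rw [← conj_conj, conj_eq_self_iff.mpr hn]
    refine ⟨x, (e2 ⟨a, ha⟩ x).mp hx, ?_⟩
    rw [← e x, ← hax, e]

end Cfsg.Agent.S3821
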