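import Cfsg.Statements.S3822
import Cfsg.Agent.Lib.HH.HalfD

set_option autoImplicit false
open Cfsg

namespace Cfsg.Agent.S3822

open Cfsg.Lib.HH Cfsg.Lib.BG Subgroup

/-- Let G be a finite group and P a subgroup of prime order p > 3. Consider the solvable subgroups A of G of the form A = ⟨P, aPa⁻¹⟩ for some a ∈ A, and let A be maximal under inclusion among them. Then for every nilpotent subgroup V of G normalized by A, the subgroup F(A)V generated by the Fitting subgroup of A and V is nilpotent. -/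
theorem result {G : Type*} [Group G] [Finite G]
    {p : ℕ} [Fact p.Prime] (hp : 3 < p) (P : Subgroup G) (hP : Nat.card P = p) (A : Subgroup G)
    (hA : Group.IsSolvable ↥A ∧ ∃ a ∈ A, A = P ⊔ P.map (MulAut.conj a).toMonoidHom)
    (hmax : ∀ B : Subgroup G, A ≤ B → Group.IsSolvable ↥B → (∃ b ∈ B, B = P ⊔ P.map (MulAut.conj b).toMonoidHom) → B = A)
    (V : Subgroup G) (hV : Group.IsNilpotent ↥V) (hAV : A ≤ Subgroup.normalizer (V : Set G)) :
    Group.IsNilpotent ↥((Cfsg.fittingSubgroup ↥A).map A.subtype ⊔ V) := by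
  obtain ⟨hs, a, ha, hA⟩ := hA
  have : Nontrivial P := Finite.one_lt_card_iff_nontrivial.1 (by omega)
  obtain ⟨⟨x, hx⟩, hx1⟩ := exists_ne (1 : P)
  have h1 : P = zpowers x := le_antisymm (fun g hg => by
    obtain ⟨n, e⟩ := mem_zpowers_of_prime_card hP hx1 (g' := ⟨g, hg⟩)
    exact ⟨n, congrArg Subtype.val e⟩) (zpowers_le.2 hx)
  have h2 : ∀ b : G, P ⊔ P.map (MulAut.conj b).toMonoidHom = Subgroup.closure {x, b * x * b⁻¹} := fun b => by
    rw [h1, MonoidHom.map_zpowers, zpowers_eq_closure, zpowers_eq_closure, ← Subgroup.closure_union]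
    rfl
  refine Half.nil_sup_of_cent (Fitting_nil A) hV ((Fitting_le A).trans hAV) fun r hr => ?_
  have := Fact.mk hr
  refine Half.cent_of_max hp hs ((Fitting_nml A).pcore _) (pcore_le _ _) (pcore_pi _ _) (x := x)
    (hA ▸ mem_sup_left hx) ha (congrArg Subtype.val (hP ▸ pow_card_eq_one' (x := (⟨x, hx⟩ : P))))
    (fun B h3 h4 => ?_) (fun b h3 h4 h5 => (hmax _ h3 h5 ⟨b, h4, (h2 b).symm⟩).le) _ (pcore_pgroup r V)
    (norm_pcore hAV _)
  rw [hA, h2, Subgroup.closure_le]
  rintro _ (rfl | rfl)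
  exacts [h3, h4]

end Cfsg.Agent.S3822
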