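import Cfsg.Statements.S3825
import Cfsg.Agent.Lib.PGroup.Omega
import Cfsg.Agent.Lib.Core.Basic
import Cfsg.Agent.Lib.Inv.Basic

set_option autoImplicit false
open Cfsg

namespace Cfsg.Agent.S3825

/-- Let U be a subgroup of a finite group H and w an involution of H normalizing U and commuting with exactly two elements of U, the identity and y. If V is a non-cyclic elementary abelian 2-subgroup of U containing y which is normal in U and invariant under w, then V is a Sylow 2-subgroup of U, V has order 4, and U/V is abelian. -/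
theorem result {H : Type*} [Group H] [Finite H] (U : Subgroup H) (w : H) (hw : orderOf w = 2)
    (hwU : w ∈ Subgroup.normalizer (U : Set H)) (y : H) (hy : y ≠ 1) (hyU : y ∈ U)
    (hfix : ∀ u ∈ U, w * u * w⁻¹ = u ↔ (u = 1 ∨ u = y))
    (V : Subgroup H) (hVU : V ≤ U) (hVn : (V.subgroupOf U).Normal) (hVw : ∀ v ∈ V, w * v * w⁻¹ ∈ V)
    (hVe : Cfsg.IsElementaryAbelian 2 V) (hVc : ¬ IsCyclic ↥V) (hyV : y ∈ V) :
    ¬ 2 ∣ V.relIndex U ∧ Nat.card ↥V = 4 ∧ ⁅U, U⁆ ≤ V := by
  open Cfsg.Lib Subgroup in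
  have hw2 : w * w = 1 := Inv.mul_self_of_orderOf hw
  have hwi : w⁻¹ = w := Inv.inv_eq_of_orderOf hw
  have hww : ∀ u : H, w * (w * u * w⁻¹) * w⁻¹ = u := fun u => by
    calc _ = (w * w) * u * (w * w)⁻¹ := by group
      _ = u := by rw [hw2]; group
  have hc : ∀ a ∈ V, ∀ b ∈ V, a * b = b * a := fun a ha b hb => PGroup.elemAb_comm hVe ha hb
  have hinv : ∀ v ∈ V, v⁻¹ = v := fun v hv => Inv.inv_eq_of_mul_self (sq v ▸ hVe.2 v hv)
  have hyw : w * y * w⁻¹ = y := (hfix y hyU).mpr (Or.inr rfl)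
  have hA : ∀ u : H, w * u * w⁻¹ * u⁻¹ ∈ V → w * u * w⁻¹ * u⁻¹ = 1 ∨ w * u * w⁻¹ * u⁻¹ = y := by
    intro u hu
    refine (hfix _ (hVU hu)).mp ?_
    calc _ = (w * (w * u * w⁻¹) * w⁻¹) * (w * u * w⁻¹)⁻¹ := by group
      _ = (w * u * w⁻¹ * u⁻¹)⁻¹ := by rw [hww]; group
      _ = _ := hinv _ hu
  have hm : ∀ v ∈ V, w * v * w⁻¹ * v⁻¹ ∈ V := fun v hv => mul_mem (hVw v hv) (inv_mem hv)
  let φ : V →* H := MonoidHom.mk' (fun a => w * a * w⁻¹ * (a : H)⁻¹) fun a b => by
    simp only [coe_mul]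
    rw [mul_assoc (w * a * w⁻¹) (a : H)⁻¹, hc _ (inv_mem a.2) _ (hm b b.2)]; group
  have hy2 : orderOf y = 2 := orderOf_eq_prime (hVe.2 y hyV) hy
  have hker : Nat.card φ.ker = 2 := by
    have : φ.ker = (zpowers y).subgroupOf V := by
      ext a
      rw [MonoidHom.mem_ker, mem_subgroupOf]
      show w * a * w⁻¹ * (a : H)⁻¹ = 1 ↔ _
      rw [mul_inv_eq_one]
      constructor
      · intro h
        rcases (hfix a (hVU a.2)).mp h with h | h <;> rw [h]
        · exact one_mem _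
        · exact mem_zpowers y
      · rintro ⟨k, hk⟩
        rw [← hk, ← conj_zpow, hyw]
    rw [this, Core.card_subgroupOf_of_le (zpowers_le.mpr hyV), Nat.card_zpowers, hy2]
  have hcard : Nat.card φ.range * 2 = Nat.card V := by rw [← hker, ← index_ker, index_mul_card]
  have hr : φ.range ≤ zpowers y := by
    rintro _ ⟨a, rfl⟩
    rcases hA a (hm a a.2) with h | h
    · exact (show φ a = 1 from h) ▸ one_mem _
    · exact (show φ a = y from h) ▸ mem_zpowers y
  have hr2 : Nat.card φ.range = 2 := by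
    have h1 := card_dvd_of_le hr
    rw [Nat.card_zpowers, hy2] at h1
    refine ((Nat.dvd_prime Nat.prime_two).mp h1).resolve_left fun h => hVc ?_
    exact isCyclic_of_prime_card (p := 2) (by omega)
  obtain ⟨v₀, hv₀⟩ : y ∈ φ.range := by
    rw [Core.eq_of_le_of_card_eq hr (by rw [hr2, Nat.card_zpowers, hy2])]
    exact mem_zpowers y
  have hv₀' : w * v₀ * w⁻¹ * (v₀ : H)⁻¹ = y := hv₀
  have hB : ∀ u ∈ U, w * u * w⁻¹ * u⁻¹ ∈ V → u ∈ V := by
    have h0 : ∀ u ∈ U, w * u * w⁻¹ = u → u ∈ V := fun u hu h => by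
      rcases (hfix u hu).mp h with rfl | rfl
      · exact one_mem _
      · exact hyV
    intro u hu h
    rcases hA u h with h | h
    · exact h0 u hu (mul_inv_eq_one.mp h)
    · refine (mul_mem_cancel_left (inv_mem v₀.2)).mp (h0 _ (mul_mem (inv_mem (hVU v₀.2)) hu) ?_)
      calc _ = (v₀ : H)⁻¹ * (w * v₀ * w⁻¹ * (v₀ : H)⁻¹)⁻¹ * (w * u * w⁻¹ * u⁻¹) * u := by group
        _ = _ := by rw [h, hv₀']; group
  let α : U →* U := (normalizerMonoidHom U ⟨w, hwU⟩).toMonoidHom
  have hα : ∀ u : U, (α u : H) = w * u * w⁻¹ := fun _ => rfl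
  let β := QuotientGroup.map (V.subgroupOf U) (V.subgroupOf U) α fun v hv => hVw v hv
  have hβ0 : ∀ u : U, β (u : U ⧸ V.subgroupOf U) = (α u : U ⧸ V.subgroupOf U) := fun _ => rfl
  have hβ : MonoidHom.FixedPointFree β := by
    intro q hq
    obtain ⟨u, rfl⟩ := QuotientGroup.mk_surjective q
    rw [hβ0, QuotientGroup.eq_iff_div_mem, div_eq_mul_inv] at hq
    exact (QuotientGroup.eq_one_iff _).mpr (hB u u.2 hq)
  have hβ2 : Function.Involutive β := by
    intro q
    obtain ⟨u, rfl⟩ := QuotientGroup.mk_surjective q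
    rw [hβ0, hβ0]
    congr 1
    exact Subtype.ext (hww u)
  refine ⟨(hβ.odd_card_of_involutive hβ2).not_two_dvd_nat, by omega, ?_⟩
  rw [commutator_le]
  intro a ha b hb
  have := hβ.commute_all_of_involutive hβ2 (QuotientGroup.mk' _ (⟨a, ha⟩ : U))
    (QuotientGroup.mk' _ (⟨b, hb⟩ : U))
  rw [← commutatorElement_eq_one_iff_commute, ← map_commutatorElement, QuotientGroup.mk'_apply,
    QuotientGroup.eq_one_iff] at this
  exact this

end Cfsg.Agent.S3825
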