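import Cfsg.Statements.S3836
import Cfsg.Agent.Lib.Core.PCore

set_option autoImplicit false
open Cfsg

namespace Cfsg.Agent.S3836

/-- Let G be a finite group that is p-stable in the normalizer form: for every p-subgroup Q and every x ∈ N_G(Q) with [Q, x, x] = 1, the image of x in N_G(Q)/C_G(Q) lies in O_p(N_G(Q)/C_G(Q)). Then every subgroup of G is p-stable in the same sense. -/
theorem result {G : Type*} [Group G] [Finite G] {p : ℕ} [Fact p.Prime] (hst : Cfsg.IsNormalizerPStable p G) (H : Subgroup G) : Cfsg.IsNormalizerPStable p ↥H := by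
  open Cfsg.Lib Cfsg.Lib.Core Subgroup in
  intro P hP g hg hc
  set P' := P.map H.subtype with hP'
  have hn : ∀ x : H, x ∈ normalizer (P : Set H) → (x : G) ∈ normalizer (P' : Set G) := fun x hx =>
    ((map_subtype_normalizer P).le ⟨x, hx, rfl⟩).2
  have h1 := hst P' (hP.map _) g (hn g hg) (by
    have := congrArg (map H.subtype) hc
    rwa [map_commutator, map_commutator, MonoidHom.map_zpowers, Subgroup.map_bot] at this)
  let f : normalizer (P : Set H) →* normalizer (P' : Set G) :=
    (H.subtype.comp (normalizer (P : Set H)).subtype).codRestrict _ fun x => hn x x.2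
  have hf : (centralizer (P : Set H)).subgroupOf (normalizer (P : Set H)) =
      ((centralizer (P' : Set G)).subgroupOf (normalizer (P' : Set G))).comap f := by
    ext x
    rw [mem_comap, mem_subgroupOf, mem_subgroupOf, ← mem_map_iff_mem H.subtype_injective,
      map_subtype_centralizer]
    exact ⟨fun h => h.2, fun h => ⟨x.1.2, h⟩⟩
  let φ := QuotientGroup.map _ _ f hf.le
  have hφ : φ.ker = ⊥ := by
    rw [QuotientGroup.ker_map, ← hf, map_mk'_eq_bot_iff]
  exact comap_pCore_le (f := φ) (hφ ▸ IsPGroup.of_bot) h1

end Cfsg.Agent.S3836
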