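import Cfsg.Statements.S3838
import Cfsg.Agent.Lib.BG.Hall
import Cfsg.Agent.Lib.Transfer.Criteria

set_option autoImplicit false
open Cfsg

namespace Cfsg.Agent.S3838

/-- Let G be a finite group with Sylow p-subgroup P such that N_G(P) has a normal p-complement. Then N_G(Q) has a normal p-complement for every subgroup Q with [P, P] ≤ Q ≤ Φ(P). -/
theorem result {G : Type*} [Group G] [Finite G] {p : ℕ} [Fact p.Prime] (P : Sylow p G) (hN : Cfsg.HasNormalPComplement p ↥(Subgroup.normalizer ((P : Subgroup G) : Set G))) (Q : Subgroup G) (h1 : (commutator ↥(P : Subgroup G)).map (P : Subgroup G).subtype ≤ Q) (h2 : Q ≤ (frattini ↥(P : Subgroup G)).map (P : Subgroup G).subtype) : Cfsg.HasNormalPComplement p ↥(Subgroup.normalizer (Q : Set G)) := by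
  open Subgroup Cfsg.Lib Cfsg.Lib.BG Cfsg.Lib.Transfer in
  have hPP : ⁅(P : Subgroup G), (P : Subgroup G)⁆ ≤ Q := by
    rw [← map_subtype_commutator]; exact h1
  have hQP : Q ≤ P := h2.trans (map_subtype_le _)
  have hc : ∀ a ∈ (P : Subgroup G), ∀ b ∈ (P : Subgroup G), a⁻¹ * (b * a * b⁻¹) ∈ Q := by
    intro a ha b hb
    have := hPP (commutator_mem_commutator (inv_mem ha) hb)
    rw [commutatorElement_def] at this
    simpa [mul_assoc] using this
  have hPK : (P : Subgroup G) ≤ normalizer (Q : Set G) := by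
    intro b hb
    refine mem_normalizer_of_conj_le (conj_le_iff.2 fun a ha => ?_)
    have := mul_mem ha (hc a (hQP ha) b hb)
    simpa using this
  have hi := sylow_not_dvd_relIndex P hPK
  have hQn : ∀ k ∈ normalizer (Q : Set G), ∀ q ∈ Q, k * q * k⁻¹ ∈ Q := fun k hk q hq =>
    (mem_normalizer_iff.1 hk q).1 hq
  have key : (P : Subgroup G) ⊓ ⁅normalizer (Q : Set G), normalizer (Q : Set G)⁆ ≤ Q := by
    rw [inf_commutator_le_iff hPK P.2 hi]
    intro x hx g hg hgx
    let C : Subgroup G :=
      { carrier := {k | k ∈ normalizer (Q : Set G) ∧ x⁻¹ * (k * x * k⁻¹) ∈ Q}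
        one_mem' := ⟨one_mem _, by simp⟩
        mul_mem' := by
          rintro a b ⟨ha1, ha2⟩ ⟨hb1, hb2⟩
          refine ⟨mul_mem ha1 hb1, ?_⟩
          have := mul_mem ha2 (hQn a ha1 _ hb2)
          convert this using 1
          group
        inv_mem' := by
          rintro a ⟨ha1, ha2⟩
          refine ⟨inv_mem ha1, ?_⟩
          have := hQn a⁻¹ (inv_mem ha1) _ (inv_mem ha2)
          convert this using 1
          group }
    have hPC : (P : Subgroup G) ≤ C := fun b hb => ⟨hPK hb, hc x hx b hb⟩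
    have hgC : g⁻¹ ⋆ (P : Subgroup G) ≤ C := by
      refine conj_le_iff.2 fun b hb => ⟨mul_mem (mul_mem (inv_mem hg) (hPK hb)) (inv_mem (inv_mem hg)), ?_⟩
      have := hQn g⁻¹ (inv_mem hg) _ (hc _ hgx b hb)
      convert this using 1
      group
    obtain ⟨c, hcC, hcn⟩ := exists_mul_mem_normalizer_sylow P hPC hgC
    have hn : g * c⁻¹ ∈ normalizer ((P : Subgroup G) : Set G) := by
      have := inv_mem hcn
      simpa using this
    obtain ⟨s, hs, hs2⟩ := exists_conj_eq_of_coprime_centralize (p := p) (T := P) le_normalizer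
      (sylow_not_dvd_relIndex P le_normalizer)
      (fun y hy hyc => mem_centralizer_of_hasNormalPComplement_subgroup hN P.2 le_normalizer hy hy hyc) hn
    have h3 := hc x hx s hs
    rw [hs2 x hx] at h3
    have h4 := hQn _ (mul_mem hg (inv_mem hcC.1)) _ hcC.2
    have := mul_mem h3 h4
    convert this using 1
    group
  refine hasNormalPComplement_subgroup_of_inf_le_frattini hPK P.2 hi ?_
  obtain ⟨R, hR⟩ := exists_sylow_of_not_dvd_relIndex P.2 hi
  rintro _ ⟨⟨y, hy, rfl⟩, hy2⟩
  refine h2 (key ⟨hy2, ?_⟩)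
  have := pResidual_inf_le_commutator R (⟨hy, by rw [hR]; exact hy2⟩ : y ∈ pResidual p _ ⊓ (R : Subgroup _))
  rw [← map_subtype_commutator]
  exact mem_map_of_mem _ this

end Cfsg.Agent.S3838
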