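import Cfsg.Statements.S3839
import Cfsg.Agent.Lib.BG.Hall
import Cfsg.Agent.Lib.Transfer.Criteria
import Cfsg.Agent.Lib.Transfer.Fusion
import Cfsg.Agent.Lib.PGroup.Basic

set_option autoImplicit false
open Cfsg

namespace Cfsg.Agent.S3839

section
open Subgroup Cfsg.Lib Cfsg.Lib.BG Cfsg.Lib.Transfer

theorem fus {G : Type*} [Group G] [Finite G] {p : ℕ} [Fact p.Prime] (S : Sylow p G) (D : Subgroup G)
    (hD : Cfsg.IsStronglyClosed D (S : Subgroup G))
    (h : ∀ U : Subgroup G, U ≤ D → D ⊓ centralizer (U : Set G) ≤ U →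
      HasNormalPComplement p ↥(normalizer (U : Set G)))
    (H : Subgroup G) (g : G) (hH : H ≤ D) (hg : g ⋆ H ≤ S) :
    ∃ s ∈ (S : Subgroup G), ∀ x ∈ H, s * x * s⁻¹ = g * x * g⁻¹ := by
  induction hn : Nat.card D - Nat.card H using Nat.strong_induction_on generalizing H g with
  | _ n ih =>
  have IH : ∀ (K : Subgroup G) (g : G), Nat.card H < Nat.card K → K ≤ D → g ⋆ K ≤ S →
      ∃ s ∈ (S : Subgroup G), ∀ x ∈ K, s * x * s⁻¹ = g * x * g⁻¹ := by
    intro K g h1 h2 h3
    refine ih _ ?_ K g h2 h3 rfl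
    have : Nat.card K ≤ Nat.card D := card_le_of_le h2
    omega
  have hsc : ∀ (K : Subgroup G) (k : G), K ≤ D → k ⋆ K ≤ S → k ⋆ K ≤ D := fun K k h1 h2 =>
    conj_le_iff.2 fun x hx => hD.2 x (h1 hx) k (conj_le_iff.1 h2 x hx)
  have hDp : IsPGroup p D := S.2.to_le hD.1
  have base : ∀ (U : Subgroup G) (x : G), U ≤ D → Nat.card U = Nat.card H →
      ¬ p ∣ ((S : Subgroup G) ⊓ normalizer (U : Set G)).relIndex (normalizer (U : Set G)) →
      x ∈ normalizer (U : Set G) → ∃ s ∈ (S : Subgroup G), ∀ y ∈ U, s * y * s⁻¹ = x * y * x⁻¹ := by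
    intro U x hU hc hi hx
    by_cases hcen : D ⊓ centralizer (U : Set G) ≤ U
    · obtain ⟨s, hs, hs2⟩ := exists_conj_eq_of_coprime_centralize (p := p) (T := U) inf_le_right hi
        (fun y hy hyc => mem_centralizer_of_hasNormalPComplement_subgroup (h U hU hcen)
          (hDp.to_le hU) le_normalizer hy hy hyc) hx
      exact ⟨s, hs.1, hs2⟩
    · obtain ⟨c, hc1, hc2⟩ := frattini_argument (p := p) (T := (S : Subgroup G) ⊓ centralizer (U : Set G))
        (N := centralizer (U : Set G)) (K := normalizer (U : Set G)) inf_le_right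
        S.2.to_inf_left (not_dvd_relIndex_centralizer (P := (S : Subgroup G)) (Q := U) hi) (normalizer_le_normalizer_centralizer' U) hx
      have hcU : ∀ y ∈ U, c * x * y * (c * x)⁻¹ = x * y * x⁻¹ := by
        intro y hy
        have := mem_centralizer_iff.1 hc1 (x * y * x⁻¹) ((mem_normalizer_iff.1 hx y).1 hy)
        calc c * x * y * (c * x)⁻¹ = c * (x * y * x⁻¹) * c⁻¹ := by group
          _ = _ := by rw [← this]; group
      obtain ⟨s, hs, hs2⟩ := IH (U ⊔ D ⊓ centralizer (U : Set G)) (c * x)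
        (by rw [← hc]; exact card_lt_of_lt (lt_of_le_of_ne le_sup_left fun e => hcen (le_sup_right.trans e.ge)))
        (sup_le hU inf_le_left) (by
          rw [conj_sup]
          refine sup_le (conj_le_iff.2 fun y hy => ?_) ?_
          · rw [hcU y hy]; exact hD.1 (hU ((mem_normalizer_iff.1 hx y).1 hy))
          · refine (conj_mono _ (inf_le_inf_right _ hD.1)).trans ?_
            rw [conj_eq_self_iff.2 hc2]; exact inf_le_left)
      exact ⟨s, hs, fun y hy => (hs2 y (mem_sup_left hy)).trans (hcU y hy)⟩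
  obtain ⟨u, huP, hu⟩ := exists_conj_fully_normalized S (Q := H) (R := H) (hDp.to_le hH) le_normalizer
  rcases hH.eq_or_lt with rfl | hlt
  · refine base H g le_rfl rfl ?_ (mem_normalizer_of_conj_le (hsc H g le_rfl hg))
    rwa [conj_eq_self_iff.2 (mem_normalizer_of_conj_le (hsc H u le_rfl huP))] at hu
  have key : ∀ k : G, k ⋆ H ≤ S → ∃ a : G, a ⋆ (k ⋆ H) = u ⋆ H ∧
      ∃ s ∈ (S : Subgroup G), ∀ x ∈ k ⋆ H, s * x * s⁻¹ = a * x * a⁻¹ := by
    intro k hk
    have hkD := hsc H k hH hk
    have e : (u * k⁻¹) ⋆ (k ⋆ H) = u ⋆ H := by rw [conj_conj, inv_mul_cancel_right]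
    obtain ⟨n, hn, h1⟩ := exists_conj_le_of_not_dvd_relIndex' hu
      (Q := (u * k⁻¹) ⋆ (D ⊓ normalizer ((k ⋆ H : Subgroup G) : Set G)))
      (isPGroup_conj hDp.to_inf_left _)
      (by rw [← e, ← conj_normalizer (u * k⁻¹)]; exact conj_mono _ inf_le_right)
    refine ⟨n * (u * k⁻¹), ?_, ?_⟩
    · rw [← conj_conj, e, conj_eq_self_iff.2 hn]
    · obtain ⟨s, hs, hs2⟩ := IH (D ⊓ normalizer ((k ⋆ H : Subgroup G) : Set G)) (n * (u * k⁻¹)) (by
        rw [← card_conj k H]
        refine card_lt_of_lt (lt_inf_normalizer_of_lt hDp (lt_of_le_of_ne hkD fun e' => ?_))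
        have := card_lt_of_lt hlt
        rw [← card_conj k H, e'] at this
        exact lt_irrefl _ this) inf_le_left (by rw [← conj_conj]; exact h1.trans inf_le_left)
      exact ⟨s, hs, fun x hx => hs2 x ⟨hkD hx, le_normalizer hx⟩⟩
  obtain ⟨a, ha1, s, hs, hs2⟩ := key 1 (by rw [conj_one]; exact hH.trans hD.1)
  obtain ⟨b, hb1, t, ht, ht2⟩ := key g hg
  rw [conj_one] at ha1 hs2
  have hx : (b * g * a⁻¹) ⋆ (u ⋆ H) = u ⋆ H := by
    rw [← conj_conj, ← conj_conj, ← ha1, inv_conj_conj, hb1, ha1]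
  obtain ⟨r, hr, hr2⟩ := base (u ⋆ H) _ (hsc H u hH huP) (card_conj u H) hu (conj_eq_self_iff.1 hx)
  refine ⟨t⁻¹ * r * s, mul_mem (mul_mem (inv_mem ht) hr) hs, fun x hx => ?_⟩
  have e1 := hr2 (a * x * a⁻¹) (ha1 ▸ conj_mem_conj.2 hx)
  have e2 := ht2 (g * x * g⁻¹) (conj_mem_conj.2 hx)
  calc t⁻¹ * r * s * x * (t⁻¹ * r * s)⁻¹ = t⁻¹ * (r * (s * x * s⁻¹) * r⁻¹) * t := by group
    _ = t⁻¹ * (b * (g * x * g⁻¹) * b⁻¹) * t := by rw [hs2 x hx, e1]; group
    _ = _ := by rw [← e2]; group

theorem aux {p : ℕ} [Fact p.Prime] (G : Type*) [Group G] [Finite G] : ∀ (S : Sylow p G) (D : Subgroup G),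
    D ≤ S → (S : Subgroup G) ≤ normalizer (D : Set G) →
    (∀ x ∈ D, ∀ g : G, g * x * g⁻¹ ∈ (S : Subgroup G) →
      ∃ s ∈ (S : Subgroup G), s * x * s⁻¹ = g * x * g⁻¹) →
    HasNormalPComplement p (normalizer (D : Set G)) → HasNormalPComplement p G := by
  refine Core.induction_on_card (P := fun G _ _ => ∀ (S : Sylow p G) (D : Subgroup G),
    D ≤ S → (S : Subgroup G) ≤ normalizer (D : Set G) →
    (∀ x ∈ D, ∀ g : G, g * x * g⁻¹ ∈ (S : Subgroup G) →
      ∃ s ∈ (S : Subgroup G), s * x * s⁻¹ = g * x * g⁻¹) →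
    HasNormalPComplement p (normalizer (D : Set G)) → HasNormalPComplement p G) G ?_
  intro G _ _ ih S D hDS hSD hf hN
  by_cases hD : D = ⊥
  · subst hD
    rw [normalizer_eq_top, hasNormalPComplement_top_iff] at hN
    exact hN
  haveI : Group.IsNilpotent S := S.2.isNilpotent
  haveI : (D.subgroupOf S).Normal := (normal_subgroupOf_iff_le_normalizer hDS).2 hSD
  obtain ⟨⟨z, hz⟩, hz1⟩ := (ne_bot_iff_exists_ne_one).1
    (PGroup.normal_inf_center_ne_bot (D.subgroupOf (S : Subgroup G))
      (fun e => hD (by rwa [subgroupOf_eq_bot, disjoint_iff, inf_eq_left.2 hDS] at e)))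
  have hzD : (z : G) ∈ D := hz.1
  have hz1' : (z : G) ≠ 1 := fun e => hz1 (Subtype.ext (Subtype.ext e))
  have hzc : ∀ s ∈ (S : Subgroup G), s * z * s⁻¹ = z := fun s hs => by
    have := congrArg Subtype.val (mem_center_iff.1 hz.2 ⟨s, hs⟩)
    simp only [coe_mul] at this
    rw [this, mul_inv_cancel_right]
  have hzg : ∀ g : G, g * z * g⁻¹ ∈ (S : Subgroup G) → g * z * g⁻¹ = z := fun g hg => by
    obtain ⟨s, hs, e⟩ := hf z hzD g hg
    rw [← e, hzc s hs]
  by_cases hC : centralizer {(z : G)} = ⊤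
  · have hZ : zpowers (z : G) ≤ center G := by
      rw [zpowers_le, mem_center_iff]
      intro g
      have : g ∈ centralizer {(z : G)} := hC ▸ mem_top g
      exact (mem_centralizer_singleton_iff.1 this)
    haveI : (zpowers (z : G)).Normal := ⟨fun n hn g => by
      rw [mem_center_iff.1 (hZ hn) g, mul_inv_cancel_right]; exact hn⟩
    have hZD : zpowers (z : G) ≤ D := zpowers_le.2 hzD
    have hsurj := QuotientGroup.mk'_surjective (zpowers (z : G))
    have hk : (QuotientGroup.mk' (zpowers (z : G))).ker = zpowers (z : G) := QuotientGroup.ker_mk' _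
    refine hasNormalPComplement_of_quotient_central _ hZ (ih _ ?_ (S.mapSurjective hsurj)
      (D.map (QuotientGroup.mk' _)) (map_mono hDS) ?_ ?_ ?_)
    · exact Core.card_quotient_lt (by rwa [Ne, zpowers_eq_bot])
    · exact (map_mono hSD).trans (le_normalizer_map _)
    · rintro _ ⟨x, hx, rfl⟩ g hg
      obtain ⟨g, rfl⟩ := hsurj g
      have : g * x * g⁻¹ ∈ (S : Subgroup G) := by
        rw [← comap_map_eq_self (f := QuotientGroup.mk' (zpowers (z : G))) (H := (S : Subgroup G))
          (by rw [hk]; exact hZD.trans hDS), mem_comap]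
        simpa using hg
      obtain ⟨s, hs, e⟩ := hf x hx g this
      exact ⟨_, mem_map_of_mem _ hs, by simp only [← map_mul, ← map_inv, e]⟩
    · have e : normalizer ((D.map (QuotientGroup.mk' (zpowers (z : G))) : Subgroup _) : Set _) =
          (normalizer (D : Set G)).map (QuotientGroup.mk' (zpowers (z : G))) := by
        rw [← map_comap_eq_self_of_surjective hsurj (normalizer _),
          comap_normalizer_eq_of_surjective _ hsurj, comap_map_eq_self (by rw [hk]; exact hZD)]
      rw [e]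
      exact hasNormalPComplement_of_surjective hN _ (MonoidHom.subgroupMap_surjective _ _)
  · have hSC : (S : Subgroup G) ≤ centralizer {(z : G)} := fun s hs => by
      rw [mem_centralizer_singleton_iff]
      calc s * z = s * z * s⁻¹ * s := by group
        _ = _ := by rw [hzc s hs]
    have hCn : HasNormalPComplement p (centralizer {(z : G)}) := by
      refine ih _ (Core.card_lt_of_ne_top hC) (S.subtype hSC) (D.subgroupOf _) ?_ ?_ ?_ ?_
      · exact fun x hx => hDS hx
      · rw [← subgroupOf_normalizer_eq (hDS.trans hSC)]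
        exact fun x hx => hSD hx
      · intro x hx g hg
        obtain ⟨s, hs, e⟩ := hf x hx g hg
        exact ⟨⟨s, hSC hs⟩, hs, Subtype.ext e⟩
      · rw [← subgroupOf_normalizer_eq (hDS.trans hSC), hasNormalPComplement_subgroup_iff_mul]
        intro a ha b hb h1 h2
        rw [← orderOf_coe] at h1 h2 ⊢
        exact hasNormalPComplement_subgroup_iff_mul.1 hN _ ha _ hb h1 h2
    have hZS : zpowers (z : G) ≤ S := zpowers_le.2 z.2
    have hW : IsWeaklyClosed (zpowers (z : G)) (S : Subgroup G) := ⟨hZS, fun g hg => by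
      change g ⋆ zpowers (z : G) = _
      change g ⋆ zpowers (z : G) ≤ _ at hg
      rw [conj_zpowers] at hg ⊢
      rw [hzg g (zpowers_le.1 hg)]⟩
    have hZc : zpowers (z : G) ≤ centralizer ((S : Subgroup G) : Set G) := by
      rw [zpowers_le, mem_centralizer_iff]
      exact fun s hs => mem_centralizer_singleton_iff.1 (hSC hs)
    have hNC : normalizer (zpowers (z : G) : Set G) ≤ centralizer {(z : G)} := fun n hn => by
      have := hzg n (hZS ((mem_normalizer_iff.1 hn z).1 (mem_zpowers _)))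
      rw [mem_centralizer_singleton_iff]
      calc n * z = n * z * n⁻¹ * n := by group
        _ = _ := by rw [this]
    refine hasNormalPComplement_of_controls_transfer S hSC ?_ hCn
    rw [gruen_commutator_inf S hZc hW]
    exact inf_le_left.trans (commutator_mono hNC hNC)

end

/-- A Frobenius normal p-complement criterion relative to a strongly closed subgroup. Let G be a finite group, S a Sylow p-subgroup and D a subgroup of S strongly closed in S with respect to G. Then G has a normal p-complement if and only if N_G(U) has a normal p-complement for every subgroup U of D with C_D(U) ≤ U. -/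
theorem result {G : Type*} [Group G] [Finite G] {p : ℕ} [Fact p.Prime] (S : Sylow p G) (D : Subgroup G) (hD : Cfsg.IsStronglyClosed D (S : Subgroup G)) : Cfsg.HasNormalPComplement p G ↔ ∀ U : Subgroup G, U ≤ D → D ⊓ Subgroup.centralizer (U : Set G) ≤ U → Cfsg.HasNormalPComplement p ↥(Subgroup.normalizer (U : Set G)) := by
  open Subgroup Cfsg.Lib Cfsg.Lib.BG Cfsg.Lib.Transfer in
  refine ⟨fun h U _ _ => hasNormalPComplement_subgroup h _, fun h => ?_⟩
  refine aux G S D hD.1 ?_ ?_ (h D le_rfl inf_le_left)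
  · exact fun s hs => mem_normalizer_of_conj_le (conj_le_iff.2 fun x hx =>
      hD.2 x hx s (mul_mem (mul_mem hs (hD.1 hx)) (inv_mem hs)))
  · intro x hx g hg
    obtain ⟨s, hs, e⟩ := fus S D hD h (zpowers x) g (zpowers_le.2 hx)
      (by rw [conj_zpowers]; exact zpowers_le.2 hg)
    exact ⟨s, hs, e x (mem_zpowers x)⟩

end Cfsg.Agent.S3839
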