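import Cfsg.Statements.S3841
import Cfsg.Agent.Lib.Inv.ModBound3
import Cfsg.Agent.Lib.BS.Cor
import Cfsg.Agent.Lib.BS.Main
import Cfsg.Agent.Lib.Coprime.Sylow
import Cfsg.Agent.Lib.PGroup.RankOne
import Cfsg.Agent.S1141

set_option autoImplicit false
open Cfsg

namespace Cfsg.Agent.S3841
open Cfsg.Lib.Inv

open Subgroup Cfsg.Lib Cfsg.Lib.ModBound Cfsg.Lib.BS Module Multiplicative

theorem card_le_of_odd {L : Type*} [Group L] [Finite L] (S : Sylow 2 L) {a m c : ℕ} (hm : Odd m)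
    (h : c * Nat.card L = 2 ^ a * m) : Nat.card S ≤ 2 ^ a := by
  obtain ⟨n, hn⟩ := IsPGroup.iff_card.1 S.isPGroup'
  have h1 := (card_subgroup_dvd_card (S : Subgroup L)).mul_left c
  rw [h, hn] at h1
  rw [hn]
  exact Nat.le_of_dvd (by positivity)
    (((Nat.coprime_two_left.2 hm).pow_left n).dvd_of_dvd_mul_right h1)

theorem bender_gen {L : Type*} [Group L] [Finite L] (h : IsBender L) (S : Sylow 2 L) {z : L}
    (hz : z ∈ S) (z1 : z ≠ 1) (z2 : z * z = 1) : ∃ e j, j ≠ 0 ∧ Gen 2 e j z ∧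
      Nat.card S ^ 2 ≤ 2 ^ e ∧ Nat.card (center (S : Subgroup L)) ^ j ≤ 2 ^ e := by
  have hc : Nat.card (center (S : Subgroup L)) ≤ Nat.card S := card_le_card_group _
  rcases h with ⟨F, _, _, n, hn, hF, ⟨e⟩⟩ | ⟨F, _, _, m, hm, hF, ⟨e⟩⟩ | ⟨F, _, _, n, hn, hF, ⟨e⟩⟩
  · have hF' := Nat.card_eq_fintype_card.trans hF
    have h1 : Nat.card S ≤ 2 ^ n := card_le_of_odd S (m := (2 ^ n) ^ 2 - 1) (Nat.Even.sub_odd
      (Nat.one_le_pow _ _ (by positivity)) (by simp [Nat.even_pow]; omega) odd_one)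
      (by rw [Nat.card_congr e.toEquiv, PSL2.card_PSL2_mul, hF'])
    have h2 := Nat.pow_le_pow_left h1 2
    rw [← pow_mul, mul_comm] at h2
    exact ⟨_, 2, two_ne_zero, Gen.lift (f := e.toMonoidHom) e.surjective (gen_psl hF' (fun h => absurd rfl h)
      (by simpa using z1) (k := 1) (by rw [pow_one, sq, ← map_mul, z2, map_one])), h2,
      (Nat.pow_le_pow_left hc 2).trans h2⟩
  · have hF' := Nat.card_eq_fintype_card.trans hF
    have h1 : Nat.card S ≤ 2 ^ ((2 * m + 1) * 2) := card_le_of_odd S (c := 1)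
      (m := (2 ^ (2 * m + 1) - 1) * ((2 ^ (2 * m + 1)) ^ 2 + 1))
      (Odd.mul (Nat.Even.sub_odd Nat.one_le_two_pow (by simp [Nat.even_pow]) odd_one)
        (Even.add_one (by simp [Nat.even_pow])))
      (by rw [Nat.card_congr e.toEquiv, (Sz.lieModel hF).card_G, hF', one_mul, pow_mul 2 _ 2, mul_assoc])
    have h2 := Nat.pow_le_pow_left h1 2
    rw [← pow_mul, show (2 * m + 1) * 2 * 2 = 4 * (2 * m + 1) by ring] at h2
    exact ⟨_, 2, two_ne_zero, gen_sz ((Sz.lieModel hF).congr e) hm hF' z1 z2, h2,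
      (Nat.pow_le_pow_left hc 2).trans h2⟩
  · let S' := S.mapSurjective (f := e.toMonoidHom) e.surjective
    obtain ⟨h1, h2, -, -, -, -, K, -, hK⟩ := S1141.result hn hF S'
    have f : (S : Subgroup L) ≃* (S' : Subgroup (PSU 3 F (2 ^ n))) :=
      (S : Subgroup L).equivMapOfInjective e.toMonoidHom e.injective
    have hz' : e z ∈ S' := ⟨z, hz, rfl⟩
    have z1' : e z ≠ 1 := by simpa using z1
    have : Nontrivial (S' : Subgroup _) := ⟨⟨⟨_, hz'⟩, 1, fun h => z1' (congrArg Subtype.val h)⟩⟩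
    have := S'.isPGroup'.center_nontrivial
    obtain ⟨w, w1⟩ := exists_ne (1 : center (S' : Subgroup (PSU 3 F (2 ^ n))))
    obtain ⟨i, i1, i2⟩ := exists_pow_invol (S'.isPGroup'.to_subgroup _) w.2 fun h => w1 (Subtype.ext h)
    obtain ⟨k, hk, -⟩ := hK _ ⟨_, hz'⟩ i1 i2 (fun h => z1' (congrArg Subtype.val h))
      (Subtype.ext (by simp [← map_mul, z2]))
    have h3 : (⟨_, hz'⟩ : (S' : Subgroup (PSU 3 F (2 ^ n)))) ∈ center _ :=
      hk ▸ (MulEquivClass.apply_mem_center_iff k.1).2 (pow_mem w.2 i)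
    refine ⟨6 * n, 3, three_ne_zero, Gen.lift (f := e.toMonoidHom) e.surjective (gen_psu hF (fun h => ?_) S' hz'
      (fun x hx => congrArg Subtype.val (mem_center_iff.1 h3 ⟨x, hx⟩)) z1'), ?_, ?_⟩
    · have := Nat.pow_le_pow_right two_pos hn
      omega
    · rw [Nat.card_congr f.toEquiv, h1, ← pow_mul, ← pow_mul, mul_comm]
    · rw [Nat.card_congr (centerCongr f).toEquiv, h2, ← pow_mul]
      exact Nat.pow_le_pow_right two_pos (by omega)

variable {G : Type*} [Group G] [Finite G] {H : Subgroup G}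

theorem rk2_gen (hH : IsStronglyEmbedded H) (h2 : Rk2 G) (S : Sylow 2 G) {z : G}
    (hz : z ∈ S) (z1 : z ≠ 1) (z2 : z * z = 1) : ∃ e j, j ≠ 0 ∧ Gen 2 e j z ∧
      Nat.card S ^ 2 ≤ 2 ^ e ∧ Nat.card (center (S : Subgroup G)) ^ j ≤ 2 ^ e := by
  obtain ⟨Q, D, t, h⟩ := exists_ro_quot hH h2
  obtain ⟨L, hL, hi, -, -, -, hB⟩ := exists_isBender h (rk2_quot h2) (se_quot_normalCore hH h2)
  let f := QuotientGroup.mk' (oddCore G)
  have hf : Function.Surjective f := QuotientGroup.mk'_surjective _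
  let S₁ := S.mapSurjective hf
  have hS : (S₁ : Subgroup _) ≤ L := fun x hx => by
    obtain ⟨n, hn⟩ := S₁.isPGroup' ⟨x, hx⟩
    have h1 := orderOf_dvd_of_pow_eq_one (x := QuotientGroup.mk' L x) (n := 2 ^ n) (by
      rw [← map_pow, show x ^ 2 ^ n = 1 from congrArg Subtype.val hn, map_one])
    exact (QuotientGroup.eq_one_iff x).1 (orderOf_eq_one_iff.1 (Nat.eq_one_of_dvd_coprimes
      ((Nat.coprime_two_left.2 hi).pow_left n) h1 (orderOf_dvd_natCard _)))
  have hinj : ∀ x ∈ S, f x = 1 → x = 1 := fun x hx h1 => by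
    obtain ⟨n, hn⟩ := S.isPGroup' ⟨x, hx⟩
    exact orderOf_eq_one_iff.1 (Nat.eq_one_of_dvd_coprimes
      ((Nat.coprime_two_left.2 (Core.odd_card_oddCore G)).pow_left n)
      (orderOf_dvd_of_pow_eq_one (congrArg Subtype.val hn))
      (orderOf_dvd_natCard _ ((QuotientGroup.eq_one_iff x).1 h1)))
  have e : (S : Subgroup G) ≃* (S₁.subtype hS : Subgroup L) :=
    (MulEquiv.ofBijective (f.subgroupMap S) ⟨(injective_iff_map_eq_one _).2 fun x hx =>
      Subtype.ext (hinj x x.2 (congrArg Subtype.val hx)), f.subgroupMap_surjective _⟩).trans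
      (subgroupOfEquivOfLe hS).symm
  have hz' : f z ∈ S₁ := ⟨z, hz, rfl⟩
  obtain ⟨a, j, j0, h1, h3, h4⟩ := bender_gen hB (S₁.subtype hS) (z := ⟨f z, hS hz'⟩) hz'
    (fun h => z1 (hinj z hz (congrArg Subtype.val h))) (Subtype.ext (by simp [← map_mul, z2]))
  exact ⟨a, j, j0, Gen.lift hf (h1.map (f := L.subtype) L.subtype_injective),
    by rwa [Nat.card_congr e.toEquiv], by rwa [Nat.card_congr (centerCongr e).toEquiv]⟩

variable {V : Type*} [AddCommGroup V] [Module (ZMod 2) V] [Module.Finite (ZMod 2) V]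
  (ρ : Representation (ZMod 2) G V)

/-- The action on the underlying group. -/
def toAut : G →* MulAut (Multiplicative V) where
  toFun g :=
    { toFun v := ofAdd (ρ g v.toAdd)
      invFun v := ofAdd (ρ g⁻¹ v.toAdd)
      left_inv v := by simp
      right_inv v := by simp
      map_mul' v w := by simp }
  map_one' := by ext; simp
  map_mul' g h := by ext; simp

theorem card_V : Nat.card V = 2 ^ finrank (ZMod 2) V := by
  rw [Module.natCard_eq_pow_finrank (K := ZMod 2), Nat.card_zmod]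

theorem index_fx (s : G) :
    (fx (toAut ρ) s).index = 2 ^ finrank (ZMod 2) (LinearMap.range (ρ s - 1)) := by
  have h1 : Nat.card (fx (toAut ρ) s) = Nat.card (LinearMap.ker (ρ s - 1)) :=
    Nat.card_congr (toAdd.subtypeEquiv fun v => by
      rw [mem_fx, LinearMap.mem_ker, LinearMap.sub_apply, sub_eq_zero]; rfl)
  have h2 := (fx (toAut ρ) s).index_mul_card
  rw [h1, card_V, Nat.card_congr toAdd, card_V, ← (ρ s - 1).finrank_range_add_finrank_ker,
    pow_add] at h2
  exact Nat.eq_of_mul_eq_mul_right (by positivity) h2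

theorem lt_finrank (hρ : Function.Injective ρ) {c : G} {m : ℕ} (hc : orderOf c = 2 ^ (m + 1)) :
    2 ^ m < finrank (ZMod 2) V := by
  have h2 : (2 : Module.End (ZMod 2) V) = 0 := by
    ext v; simpa [two_smul] using ZModModule.add_self v
  have key : ∀ j, (ρ c - 1) ^ 2 ^ j = ρ (c ^ 2 ^ j) - 1 := fun j => by
    induction j with
    | zero => simp
    | succ j ih =>
      rw [pow_succ, pow_mul, pow_mul, ih, map_pow ρ _ 2]
      calc _ = ρ (c ^ 2 ^ j) ^ 2 - 1 + 2 * (1 - ρ (c ^ 2 ^ j)) := by noncomm_ring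
        _ = _ := by rw [h2, zero_mul, add_zero]
  by_contra! h
  have h3 := Module.End.ker_pow_eq_ker_pow_finrank_of_le (f := ρ c - 1) h
  have h4 := Module.End.ker_pow_le_ker_pow_finrank (ρ c - 1) (2 ^ (m + 1))
  rw [← h3, key, key, ← hc, pow_orderOf_eq_one, map_one, sub_self, LinearMap.ker_zero, top_le_iff,
    LinearMap.ker_eq_top, sub_eq_zero, ← map_one ρ] at h4
  have h5 := orderOf_dvd_of_pow_eq_one (hρ h4)
  rw [hc, Nat.pow_dvd_pow_iff_le_right one_lt_two] at h5
  omega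

theorem le_finrank_of_norm {S : Subgroup G} [Fintype S] (hS : IsPGroup 2 S) {w : V}
    (hw : ∑ s : S, ρ s w ≠ 0) : Nat.card S ≤ finrank (ZMod 2) V := by
  classical
  let f : (S → ZMod 2) →ₗ[ZMod 2] V := Fintype.linearCombination (ZMod 2) fun s : S => ρ s w
  have hf : ∀ c, f c = ∑ s : S, c s • ρ s w := fun c => Fintype.linearCombination_apply ..
  have hi : LinearMap.ker f = ⊥ := by
    by_contra hne
    letI : MulAction S (LinearMap.ker f) :=
      { smul t c := ⟨fun s => c.1 (t⁻¹ * s), by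
          have h1 := congrArg (ρ t) (LinearMap.mem_ker.1 c.2)
          rw [hf, map_sum, map_zero] at h1
          rw [LinearMap.mem_ker, hf, ← h1, ← Equiv.sum_comp (Equiv.mulLeft t)]
          simp⟩
        one_smul c := Subtype.ext (funext fun s => congrArg c.1 (by simp))
        mul_smul t u c := Subtype.ext (funext fun s => congrArg c.1 (by simp [mul_assoc])) }
    have h1 : 2 ∣ Nat.card (LinearMap.ker f) := by
      rw [card_V]
      exact dvd_pow_self 2 (by rwa [Ne, Submodule.finrank_eq_zero])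
    obtain ⟨c, hc, c0⟩ := hS.exists_fixed_point_of_prime_dvd_card_of_fixed_point _ h1
      (a := 0) fun _ => rfl
    have h2 : ∀ s, c.1 s = c.1 1 := fun s => by
      have : c.1 (s⁻¹ * s) = c.1 s := congrFun (congrArg Subtype.val (hc s)) s
      rw [← this, inv_mul_cancel]
    have h3 : c.1 1 ≠ 0 := fun h => c0 (Subtype.ext (funext fun s => by rw [h2, h]; rfl))
    have h4 := LinearMap.mem_ker.1 c.2
    rw [hf, Finset.sum_congr rfl fun s _ => by rw [h2], ← Finset.smul_sum] at h4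
    exact hw ((smul_eq_zero.1 h4).resolve_left h3)
  have := LinearMap.finrank_le_finrank_of_injective (LinearMap.ker_eq_bot.1 hi)
  rwa [finrank_fintype_fun_eq_card, ← Nat.card_eq_fintype_card] at this

theorem le_finrank_of_frob (hρ : Function.Injective ρ) {S P : Subgroup G} (hS : IsPGroup 2 S)
    (hP : Odd (Nat.card P)) (hn : S ≤ normalizer (P : Set G)) (h0 : P ≠ ⊥)
    (hf : ∀ s ∈ S, s ≠ 1 → ∀ x ∈ P, x * s = s * x → x = 1) : Nat.card S ≤ finrank (ZMod 2) V := by
  classical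
  have := Fintype.ofFinite S
  have := Fintype.ofFinite P
  by_contra hlt
  have hN : ∀ w, ∑ s : S, ρ s w = 0 := fun w => by_contra fun h => hlt (le_finrank_of_norm ρ hS h)
  obtain ⟨y, hy, y1⟩ := (P.bot_or_exists_ne_one).resolve_left h0
  obtain ⟨u, hu⟩ : ∃ u, ρ y u - u ≠ 0 := by
    by_contra! h
    exact y1 (hρ (LinearMap.ext fun u => by rw [map_one]; exact sub_eq_zero.1 (h u)))
  have h1 : ∀ s ∈ S, ∑ x : P, ρ (x * s) (ρ y u - u) = 0 := fun s hs => by
    have hy' : s * y * s⁻¹ ∈ P := (mem_normalizer_iff.1 (hn hs) y).1 hy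
    simp only [map_sub, Finset.sum_sub_distrib, sub_eq_zero]
    rw [← Equiv.sum_comp (Equiv.mulRight (⟨_, hy'⟩ : P)) fun x : P => ρ (x * s) u]
    exact Finset.sum_congr rfl fun x _ => by
      rw [← Module.End.mul_apply, ← map_mul]; simp [mul_assoc]
  have h2 : ∀ s : S, s ≠ 1 → ∑ x : P, ρ (x * s * (x : G)⁻¹) (ρ y u - u) = 0 := fun s s1 => by
    let g : P → P := fun x => ⟨x * (s * (x : G)⁻¹ * (s : G)⁻¹),
      mul_mem x.2 ((mem_normalizer_iff.1 (hn s.2) _).1 (inv_mem x.2))⟩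
    have hg : Function.Injective g := fun a b h => by
      have h3 : (a : G) * (s * (a : G)⁻¹ * (s : G)⁻¹) = b * (s * (b : G)⁻¹ * (s : G)⁻¹) :=
        congrArg Subtype.val h
      have h4 := hf s s.2 (fun h => s1 (Subtype.ext h)) _ (mul_mem (inv_mem b.2) a.2) (by
        calc (b : G)⁻¹ * a * s = (b : G)⁻¹ * (a * (s * (a : G)⁻¹ * (s : G)⁻¹)) * s * a := by group
          _ = _ := by rw [h3]; group)
      exact Subtype.ext (inv_mul_eq_one.1 h4).symm
    rw [← h1 s s.2, ← Equiv.sum_comp (Equiv.ofBijective g hg.bijective_of_finite)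
      fun x : P => ρ (x * s) (ρ y u - u)]
    exact Finset.sum_congr rfl fun x _ => by simp [g, mul_assoc]
  have h3 : ∑ s : S, ∑ x : P, ρ (x * s * (x : G)⁻¹) (ρ y u - u) = 0 := by
    rw [Finset.sum_comm]
    refine Finset.sum_eq_zero fun x _ => ?_
    simp only [map_mul, Module.End.mul_apply]
    rw [← map_sum, hN, map_zero]
  rw [Finset.sum_eq_single 1 (fun s _ => h2 s) (by simp)] at h3
  simp only [OneMemClass.coe_one, mul_one, mul_inv_cancel, map_one, Module.End.one_apply,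
    Finset.sum_const, Finset.card_univ, ← Nat.card_eq_fintype_card] at h3
  rw [← Nat.cast_smul_eq_nsmul (ZMod 2), (ZMod.natCast_eq_one_iff_odd).2 hP, one_smul] at h3
  exact hu h3

theorem card_dvd (hρ : Function.Injective ρ) :
    Nat.card G ∣ ∏ i ∈ Finset.range (finrank (ZMod 2) V), (2 ^ finrank (ZMod 2) V - 2 ^ i) := by
  have h := card_dvd_of_injective
    ((Matrix.GeneralLinearGroup.toLin' (finBasis (ZMod 2) V)).symm.toMonoidHom.comp ρ.asGroupHom)
    fun a b h => hρ (congrArg Units.val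
      ((Matrix.GeneralLinearGroup.toLin' (finBasis (ZMod 2) V)).symm.injective h))
  rwa [Matrix.card_GL_field, ZMod.card, Fin.prod_univ_eq_prod_range
    fun i => 2 ^ finrank (ZMod 2) V - 2 ^ i] at h

set_option synthInstance.maxSize 20000 in
set_option synthInstance.maxHeartbeats 200000 in
theorem num : ∀ N < 10, ∀ r < 513, r % 2 = 1 → 1 < r → r ^ 2 ∣ ∏ i ∈ Finset.range N, (2 ^ N - 2 ^ i) →
    ∀ j < 100, 0 < j → r ^ (j + 1) ∣ ∏ i ∈ Finset.range N, (2 ^ N - 2 ^ i) →
      ∀ k < 6, 2 ^ k ∣ r ^ j - 1 → 2 * k ≤ N := by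
  decide +kernel

theorem num' : ∀ N < 10, ∏ i ∈ Finset.range N, (2 ^ N - 2 ^ i) ≠ 0 ∧
    ∏ i ∈ Finset.range N, (2 ^ N - 2 ^ i) < 2 ^ 100 := by
  decide +kernel

theorem num2 {N r j k : ℕ} (hr : r.Prime) (r2 : r ≠ 2) (hj : 0 < j) (hk : k < 6)
    (h : r ^ (j + 1) ∣ ∏ i ∈ Finset.range N, (2 ^ N - 2 ^ i)) (h' : 2 ^ k ∣ r ^ j - 1) : 2 * k ≤ N := by
  by_contra hlt
  have hN : N < 10 := by omega
  refine hlt (num N hN r ?_ (Nat.odd_iff.1 (hr.odd_of_ne_two r2)) hr.one_lt
    ((pow_dvd_pow r (by omega)).trans h) j ?_ hj h k hk h')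
  · obtain ⟨i, hi, h1⟩ := hr.prime.exists_mem_finset_dvd ((dvd_pow_self r j.succ_ne_zero).trans h)
    have h2 := Nat.pow_lt_pow_right one_lt_two (Finset.mem_range.1 hi)
    have h3 := Nat.le_of_dvd (by omega) h1
    have h4 := Nat.pow_le_pow_right two_pos (by omega : N ≤ 9)
    have h5 : 0 < 2 ^ i := by positivity
    omega
  · have h1 := (Nat.le_of_dvd (Nat.pos_of_ne_zero (num' N hN).1) h).trans_lt (num' N hN).2
    have h2 := (Nat.pow_le_pow_left hr.two_le (j + 1)).trans_lt h1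
    rw [Nat.pow_lt_pow_iff_right one_lt_two] at h2
    omega

theorem card_dvd_index (h2 : ¬ Rk2 G) {S P : Subgroup G} (hS : IsPGroup 2 S)
    (hn : S ≤ normalizer (P : Set G)) {z : G} (hz : z ∈ S) (z1 : z ≠ 1) (z2 : z * z = 1)
    (hu : ∀ w ∈ S, w ≠ 1 → w * w = 1 → w = z) :
    Nat.card S ∣ (centralizer ({z} : Set G)).relIndex P - 1 := by
  letI : MulAction S G := MulAction.compHom G (MulAut.conj.comp S.subtype)
  letI : MulAction P G := MulAction.compHom G (MulAut.conj.comp P.subtype)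
  have e1 : ∀ (s : S) (g : G), s • g = s * g * (s : G)⁻¹ := fun _ _ => rfl
  have e2 : ∀ (s : P) (g : G), s • g = s * g * (s : G)⁻¹ := fun _ _ => rfl
  have hc : ∀ s ∈ S, s * z * s⁻¹ = z := fun s hs => hu _ (mul_mem (mul_mem hs hz) (inv_mem hs))
    (by simpa using z1) (by rw [conj_mul, z2, mul_one, mul_inv_cancel])
  let X : SubMulAction S G :=
    { carrier := MulAction.orbit P z
      smul_mem' := by
        rintro s _ ⟨x, rfl⟩
        refine ⟨⟨_, (mem_normalizer_iff.1 (hn s.2) x).1 x.2⟩, ?_⟩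
        simp only [e1, e2]
        conv_lhs => rw [← hc s s.2]
        group }
  have h1 := Frobenius.card_dvd_card_sub_one_of_free S X ⟨z, MulAction.mem_orbit_self z⟩
    (fun a => Subtype.ext (hc a a.2)) fun a w w1 e => by
      by_contra a1
      obtain ⟨m, m1, m2⟩ := exists_pow_invol hS a.2 fun h => a1 (Subtype.ext h)
      have h3 : Commute (a : G) w := mul_inv_eq_iff_eq_mul.1 (congrArg Subtype.val e)
      have h4 := h3.pow_left m
      rw [hu _ (pow_mem a.2 m) m1 m2] at h4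
      obtain ⟨w, x, rfl⟩ := w
      exact h2 ⟨z, x • z, z1, by simpa [e2] using z1, fun h => w1 (Subtype.ext h.symm), z2,
        by rw [e2, conj_mul, z2, mul_one, mul_inv_cancel], h4⟩
  have h3 : (centralizer ({z} : Set G)).subgroupOf P = MulAction.stabilizer P z := by
    ext x
    rw [mem_subgroupOf, mem_centralizer_singleton_iff, MulAction.mem_stabilizer_iff, e2,
      mul_inv_eq_iff_eq_mul]
  rwa [relIndex, h3, MulAction.index_stabilizer]

theorem rank_one (hH : IsStronglyEmbedded H) (h2 : ¬ Rk2 G) (hρ : Function.Injective ρ)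
    (S : Sylow 2 G) {k : ℕ} (hk : Nat.card S = 2 ^ k) : 2 * k ≤ finrank (ZMod 2) V := by
  rcases Nat.eq_zero_or_pos k with rfl | k0
  · simp
  by_cases k6 : 6 ≤ k
  · obtain ⟨c, m, hc, hm⟩ : ∃ (c : S) (m : ℕ), orderOf c = 2 ^ (m + 1) ∧ k ≤ m + 2 := by
      rcases PGroup.isCyclic_or_quaternion_of_pRankLE_one S.isPGroup' (by
        by_contra h
        exact h2 (rk2_map (rk2_iff_not_pRankLE.2 h) (f := (S : Subgroup G).subtype)
          (by rw [ker_subtype, card_bot]; exact odd_one))) with h | ⟨-, n, ⟨e⟩⟩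
      · obtain ⟨c, hc⟩ := h.exists_ofOrder_eq_natCard
        exact ⟨c, k - 1, by rw [hc, hk, Nat.sub_add_cancel k0], by omega⟩
      · have h3 := Nat.card_congr e.toEquiv
        rw [hk, Nat.card_eq_fintype_card, QuaternionGroup.card, show 4 = 2 ^ 2 from rfl, ← pow_add,
          Nat.pow_right_inj one_lt_two] at h3
        exact ⟨e.symm (.a 1), n + 1, by
          rw [MulEquiv.orderOf_eq, QuaternionGroup.orderOf_a_one, pow_succ' 2 (n + 1)], by omega⟩
    have h3 := lt_finrank ρ hρ (c := c) (by rw [orderOf_coe, hc])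
    obtain ⟨i, rfl⟩ : ∃ i, m = i + 4 := ⟨m - 4, by omega⟩
    have h4 : i < 2 ^ i := Nat.lt_two_pow_self
    rw [pow_add] at h3
    omega
  obtain ⟨⟨z, hz⟩, hz2⟩ := exists_prime_orderOf_dvd_card' (G := S) 2 (hk ▸ dvd_pow_self 2 k0.ne')
  rw [orderOf_mk] at hz2
  obtain ⟨z2, z1⟩ := orderOf_eq_prime_iff.1 hz2
  rw [sq] at z2
  have hu : ∀ w ∈ (S : Subgroup G), w ≠ 1 → w * w = 1 → w = z := fun w hw w1 w2 => by
    have : Nontrivial (S : Subgroup G) := ⟨⟨⟨_, hw⟩, 1, fun h => w1 (congrArg Subtype.val h)⟩⟩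
    have := S.isPGroup'.center_nontrivial
    obtain ⟨c, c1⟩ := exists_ne (1 : center (S : Subgroup G))
    obtain ⟨i, i1, i2⟩ := exists_pow_invol (S.isPGroup'.to_subgroup _) c.2 fun h => c1 (Subtype.ext h)
    have key : ∀ w ∈ (S : Subgroup G), w ≠ 1 → w * w = 1 → w = ↑(c.1 ^ i) := fun w hw w1 w2 => by
      by_contra h
      exact h2 ⟨w, _, w1, fun h => i1 (Subtype.ext h), h, w2, congrArg Subtype.val i2,
        congrArg Subtype.val (mem_center_iff.1 (pow_mem c.2 i) ⟨w, hw⟩)⟩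
    rw [key w hw w1 w2, key z hz z1 z2]
  have hO : ¬ oddCore G ≤ centralizer {z} := fun h => by
    have h3 := sup_centralizer_of_not_rk2 h2 hz2
    rw [sup_eq_right.2 h] at h3
    have h4 : ∀ g, g * z = z * g := fun g => mem_centralizer_singleton_iff.1 (h3 ▸ mem_top g)
    obtain ⟨⟨w, hw⟩, w2⟩ := exists_prime_orderOf_dvd_card' (G := H) 2 hH.2.1.two_dvd
    rw [orderOf_mk, orderOf_eq_prime_iff, sq] at w2
    obtain rfl : w = z := by_contra fun e => h2 ⟨w, z, w2.2, z1, e, w2.1, z2, h4 w⟩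
    obtain ⟨g, hg⟩ : ∃ g, g ∉ H := by_contra fun h => hH.1 (by simpa [eq_top_iff'] using h)
    exact odd_card_iff.1 (hH.2.2 g hg) w ⟨hw, w, hw, by simp [h4 g]⟩ hz2
  have ho := Core.odd_card_oddCore G
  obtain ⟨r, hr, hd⟩ := Nat.exists_prime_and_dvd (mt relIndex_eq_one.1 hO)
  have := Fact.mk hr
  obtain ⟨P, hPO, hP, hi, hn⟩ := Coprime.exists_invariant_sylowIn r (A := S) (K := oddCore G)
    le_normalizer_of_normal (hk ▸ (Nat.coprime_two_left.2 ho).pow_left k)
    (Or.inl (haveI := S.isPGroup'.isNilpotent; inferInstance))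
  have hP0 : ¬ P ≤ centralizer {z} := fun h => hi (by
    rw [← inf_relIndex_right] at hd
    exact hd.trans (relIndex_dvd_of_le_left _ (le_inf h hPO)))
  have hPo : Odd (Nat.card P) := ho.of_dvd_nat (card_dvd_of_le hPO)
  by_cases hC : ∀ x ∈ P, x * z = z * x → x = 1
  · have h3 := le_finrank_of_frob ρ hρ S.isPGroup' hPo hn (fun h => hP0 (h ▸ bot_le))
      fun s hs s1 x hx e => by
        obtain ⟨m, m1, m2⟩ := exists_pow_invol S.isPGroup' hs s1
        exact hC x hx (hu _ (pow_mem hs m) m1 m2 ▸ (Commute.pow_right e m).eq)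
    obtain ⟨i, rfl⟩ : ∃ i, k = i + 1 := ⟨k - 1, by omega⟩
    have h4 : i < 2 ^ i := Nat.lt_two_pow_self
    rw [hk, pow_succ] at h3
    omega
  push Not at hC
  obtain ⟨x, hx, e, x1⟩ := hC
  have h3 := card_dvd_index h2 S.isPGroup' hn hz z1 z2 hu
  obtain ⟨j, hj⟩ := hP.index ((centralizer {z}).subgroupOf P)
  obtain ⟨i, i0, hi'⟩ := (hP.to_subgroup ((centralizer {z}).subgroupOf P)).nontrivial_iff_card.1
    ⟨⟨⟨⟨x, hx⟩, mem_centralizer_singleton_iff.2 e⟩, 1,
      fun h => x1 (congrArg Subtype.val (congrArg Subtype.val h))⟩⟩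
  have h4 := ((centralizer {z}).subgroupOf P).index_mul_card
  rw [hk, relIndex, hj] at h3
  refine num2 hr ?_ (Nat.pos_of_ne_zero ?_) (by omega) ?_ h3
  · rintro rfl
    exact (Nat.not_even_iff_odd.2 hPo) (by
      rw [← h4, hi']; exact (Nat.even_pow.2 ⟨even_two, i0.ne'⟩).mul_left _)
  · rintro rfl
    exact hP0 (relIndex_eq_one.1 hj)
  · refine ((pow_dvd_pow r (by omega : j + 1 ≤ j + i)).trans ?_).trans (card_dvd ρ hρ)
    rw [pow_add, ← hj, ← hi', h4]
    exact card_subgroup_dvd_card P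

/-- Let G be a finite group with a strongly embedded subgroup (a proper subgroup of even order meeting each of its conjugates by outside elements in a group of odd order), S a Sylow 2-subgroup of G, and V a finite-dimensional vector space over the field with two elements on which G acts linearly and faithfully through ρ. If S has order 2ᵏ then dim V ≥ 2k; and if Z(S) is elementary abelian of order 2ⁿ then for every nonidentity s ∈ S the image of ρ(s) − 1 has dimension at least n. -/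
theorem result {G : Type*} [Group G] [Finite G] (H : Subgroup G) (hH : Cfsg.IsStronglyEmbedded H) (S : Sylow 2 G) {V : Type*} [AddCommGroup V] [Module (ZMod 2) V] [Module.Finite (ZMod 2) V] (ρ : Representation (ZMod 2) G V) (hρ : Function.Injective ρ) : (∀ k : ℕ, Nat.card ↥(S : Subgroup G) = 2 ^ k → 2 * k ≤ Module.finrank (ZMod 2) V) ∧ ∀ n : ℕ, (∀ z ∈ (S : Subgroup G) ⊓ Subgroup.centralizer ((S : Subgroup G) : Set G), z ^ 2 = 1) → Nat.card ↥((S : Subgroup G) ⊓ Subgroup.centralizer ((S : Subgroup G) : Set G)) = 2 ^ n → ∀ s ∈ (S : Subgroup G), s ≠ 1 → n ≤ Module.finrank (ZMod 2) ↥(LinearMap.range (ρ s - 1)) := by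
  have := Module.finite_of_finite (ZMod 2) (M := V)
  have hV : IsPGroup 2 (Multiplicative V) := IsPGroup.of_card ((Nat.card_congr toAdd).trans card_V)
  have hφ : Function.Injective (toAut ρ) := fun a b h =>
    hρ (LinearMap.ext fun v => congrArg toAdd (DFunLike.congr_fun h (ofAdd v)))
  refine ⟨fun k hk => ?_, fun n h1 hn s hs s1 => ?_⟩
  · by_cases h2 : Rk2 G
    swap
    · exact rank_one ρ hH h2 hρ S hk
    rcases Nat.eq_zero_or_pos k with rfl | k0
    · simp
    obtain ⟨⟨z, hz⟩, hz2⟩ := exists_prime_orderOf_dvd_card' (G := S) 2 (hk ▸ dvd_pow_self 2 k0.ne')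
    rw [orderOf_mk, orderOf_eq_prime_iff, sq] at hz2
    obtain ⟨e, j, -, h3, h4, -⟩ := rk2_gen hH h2 S hz hz2.2 hz2.1
    have h5 := h4.trans (h3.le_card hV hφ)
    rwa [hk, Nat.card_congr toAdd, card_V, ← pow_mul, Nat.pow_le_pow_iff_right one_lt_two,
      mul_comm] at h5
  rw [← Nat.pow_le_pow_iff_right one_lt_two, ← index_fx, ← hn]
  by_cases h2 : Rk2 G
  · obtain ⟨m, m1, m2⟩ := exists_pow_invol S.isPGroup' hs s1
    obtain ⟨e, j, j0, h3, -, h4⟩ := rk2_gen hH h2 S (pow_mem hs m) m1 m2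
    have h5 := (Nat.pow_le_pow_iff_left j0).1 (h4.trans (h3.le_index hV hφ))
    refine le_trans ?_ (h5.trans (index_antitone (fx_le_pow _ s m)))
    exact Nat.card_le_card_of_injective (fun x => ⟨⟨x.1, x.2.1⟩, mem_center_iff.2 fun y =>
      Subtype.ext (x.2.2 y y.2)⟩) fun a b h => Subtype.ext (congrArg (·.1.1) h)
  · have h3 : (fx (toAut ρ) s).index ≠ 1 := fun h => s1 (hφ (MulEquiv.ext fun v => by
      rw [map_one]; exact mem_fx.1 (index_eq_one.1 h ▸ mem_top v)))
    have h4 : (fx (toAut ρ) s).index ≠ 0 := index_ne_zero_of_finite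
    by_contra h5
    have := Fintype.ofFinite ↥((S : Subgroup G) ⊓ centralizer ((S : Subgroup G) : Set G))
    obtain ⟨a, b, c, hab, hac, hbc⟩ := Fintype.two_lt_card_iff.1 ((by omega :
      2 < Nat.card ↥((S : Subgroup G) ⊓ centralizer ((S : Subgroup G) : Set G))).trans_eq
      Nat.card_eq_fintype_card)
    exact h2 ⟨↑(a⁻¹ * b), ↑(a⁻¹ * c), by simpa [inv_mul_eq_one] using hab,
      by simpa [inv_mul_eq_one] using hac, by simpa using hbc, sq (_ : G) ▸ h1 _ (a⁻¹ * b).2,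
      sq (_ : G) ▸ h1 _ (a⁻¹ * c).2, (a⁻¹ * c).2.2 _ (a⁻¹ * b).2.1⟩

end Cfsg.Agent.S3841
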