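import Cfsg.Statements.S3857
import Cfsg.Agent.Lib.BG.Hall
import Cfsg.Agent.Lib.FGS.TwoFrob

set_option autoImplicit false
open Cfsg

namespace Cfsg.Agent.S3857

/-- A finite solvable group whose prime graph (prime divisors of the order, two distinct primes joined when there is an element of order their product) is disconnected is a Frobenius group or a 2-Frobenius group (it has normal subgroups H < K with K a Frobenius group with kernel H and G/H a Frobenius group with kernel K/H). -/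
theorem result {G : Type*} [Group G] [Finite G] (hsol : Group.IsSolvable G)
    (hdisc : (∃ A : Set ℕ, (∃ a ∈ A, a.Prime ∧ a ∣ Nat.card G) ∧ (∃ b ∉ A, b.Prime ∧ b ∣ Nat.card G) ∧
      ∀ a ∈ A, ∀ b ∉ A, a.Prime → b.Prime → a ∣ Nat.card G → b ∣ Nat.card G → ¬ ∃ g : G, orderOf g = a * b)) :
    (∃ C : Subgroup G, Cfsg.IsFrobeniusComplement C) ∨
    (∃ (H K : Subgroup G) (_ : H.Normal), K.Normal ∧ H < K ∧
      (∃ C : Subgroup ↥K, Cfsg.IsFrobeniusComplement C ∧ Cfsg.frobeniusKernel C = (H.subgroupOf K : Set ↥K)) ∧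
      (∃ C : Subgroup (G ⧸ H), Cfsg.IsFrobeniusComplement C ∧ Cfsg.frobeniusKernel C = (K.map (QuotientGroup.mk' H) : Set (G ⧸ H)))) := by
  open Subgroup Cfsg.Lib Cfsg.Lib.BG Cfsg.Lib.Transfer in
  open Cfsg.Lib.FGS Cfsg.Lib.Spec in
  obtain ⟨A, ⟨a, ha, ha1, ha2⟩, ⟨b, hb, hb1, hb2⟩, h⟩ := hdisc
  have h' : ∀ a ∈ A, ∀ b ∉ A, a.Prime → b.Prime → a * b ∉ sp G := fun a ha b hb h1 h2 h3 =>
    h a ha b hb h1 h2 ((dvd_mul_right a b).trans (dvd_card_of_mem_sp h3))
      ((dvd_mul_left b a).trans (dvd_card_of_mem_sp h3)) h3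
  haveI : Nontrivial G := Finite.one_lt_card_iff_nontrivial.1
    (ha1.one_lt.trans_le (Nat.le_of_dvd Nat.card_pos ha2))
  rcases (Core.IsPiSeparable.of_isSolvable (π := A) hsol).ne_bot with h0 | h0
  · exact frob_or_twoFrob h0 ⟨b, hb, hb1, hb2⟩ h'
  · exact frob_or_twoFrob h0 ⟨a, not_not.2 ha, ha1, ha2⟩ fun a ha b hb h1 h2 =>
      mul_comm b a ▸ h' b (not_not.1 hb) a ha h2 h1

end Cfsg.Agent.S3857
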