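import Cfsg.Statements.S3859
import Cfsg.Agent.Lib.FGS.Sylow

set_option autoImplicit false
open Cfsg

namespace Cfsg.Agent.S3859

section
open Cfsg.Lib Cfsg.Lib.Transfer Subgroup

theorem normalizer_ne_top {G : Type*} [Group G] [Finite G] (T : Subgroup G) (hT : IsSimpleGroup T)
    (hna : ¬ IsMulCommutative T) {r : ℕ} [Fact r.Prime] {R : Subgroup G} (hR : IsPGroup r R)
    (hR0 : R ⊓ T ≠ ⊥) : normalizer ((R ⊓ T : Subgroup G) : Set G) ≠ ⊤ := by
  intro h
  have hn : (R ⊓ T).Normal := normalizer_eq_top_iff.mp h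
  rcases (hn.subgroupOf T).eq_bot_or_eq_top with h1 | h1
  · rw [subgroupOf_eq_bot, disjoint_iff, inf_assoc, inf_idem] at h1
    exact hR0 h1
  · have h2 : IsPGroup r T := hR.to_le ((subgroupOf_eq_top.mp h1).trans inf_le_left)
    have := h2.isNilpotent
    exact hna ⟨⟨IsSimpleGroup.comm_iff_isSolvable.mpr inferInstance⟩⟩

end

/-- Let G be a finite group with a normal non-abelian simple subgroup T whose centralizer is trivial (G almost simple with socle T), r a prime and R a Sylow r-subgroup of G meeting T nontrivially. If R lies in exactly one maximal subgroup of G, then G/T is an r-group. -/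
theorem result {G : Type*} [Group G] [Finite G] (T : Subgroup G) [T.Normal] (hT : IsSimpleGroup T) (hna : ¬ IsMulCommutative T)
    (hC : Subgroup.centralizer (T : Set G) = ⊥) {r : ℕ} [Fact r.Prime] (R : Sylow r G) (hR0 : (R : Subgroup G) ⊓ T ≠ ⊥)
    (huniq : ∃! M : Subgroup G, IsCoatom M ∧ (R : Subgroup G) ≤ M) : IsPGroup r (G ⧸ T) := by
  open Cfsg.Lib Cfsg.Lib.Transfer Subgroup in
  obtain ⟨M, ⟨hM, hRM⟩, hu⟩ := huniq
  have h1 : ∀ K : Subgroup G, K ≠ ⊤ → ↑R ≤ K → K ≤ M := fun K hK hRK => by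
    obtain ⟨L, hL, hKL⟩ := Core.exists_coatom_ge hK
    exact hu L ⟨hL, hRK.trans hKL⟩ ▸ hKL
  have h2 := h1 _ (normalizer_ne_top T hT hna R.isPGroup' hR0)
    (Core.le_normalizer_inf le_normalizer le_normalizer_of_normal)
  have h3 : ↑R ⊔ T = ⊤ := by
    by_contra h
    refine hM.1 (eq_top_iff.mpr fun g _ => ?_)
    obtain ⟨n, hn, hg⟩ := frattini_argument (T := ↑R ⊓ T) (N := T) (K := ⊤) inf_le_right
      R.isPGroup'.to_inf_left (by rw [inf_relIndex_right]; exact sylow_not_dvd_relIndex_normal R T)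
      le_normalizer_of_normal (mem_top g)
    exact (mul_mem_cancel_left (h1 _ h le_sup_left (mem_sup_right hn))).mp (h2 hg)
  rw [← Core.isPGroup_top_iff, ← (Core.map_mk'_eq_top_iff T R).mpr h3]
  exact R.isPGroup'.map _

end Cfsg.Agent.S3859
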