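import Cfsg.Statements.S3858
import Cfsg.Agent.S3859
import Cfsg.Agent.Lib.Core.MinNormal

set_option autoImplicit false
open Cfsg

namespace Cfsg.Agent.S3858

/-- Let G be a finite group with a normal non-abelian simple subgroup T whose centralizer is trivial (G almost simple with socle T), r a prime and R a Sylow r-subgroup of G meeting T nontrivially. Then R lies in exactly one maximal subgroup of G if and only if G has exactly one conjugacy class of maximal subgroups whose index is prime to r. -/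
theorem result {G : Type*} [Group G] [Finite G] (T : Subgroup G) [T.Normal] (hT : IsSimpleGroup T) (hna : ¬ IsMulCommutative T)
    (hC : Subgroup.centralizer (T : Set G) = ⊥) {r : ℕ} [Fact r.Prime] (R : Sylow r G) (hR0 : (R : Subgroup G) ⊓ T ≠ ⊥) :
    (∃! M : Subgroup G, IsCoatom M ∧ (R : Subgroup G) ≤ M) ↔
      ((∃ M : Subgroup G, IsCoatom M ∧ ¬ r ∣ M.index) ∧
        ∀ M₁ M₂ : Subgroup G, IsCoatom M₁ → ¬ r ∣ M₁.index → IsCoatom M₂ → ¬ r ∣ M₂.index → ∃ g : G, M₂ = M₁.map (MulAut.conj g).toMonoidHom) := by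
  open Cfsg.Lib Cfsg.Lib.Transfer Cfsg.Lib.FGS Subgroup in
  constructor
  · rintro ⟨M, ⟨hM, hRM⟩, hu⟩
    have key : ∀ K : Subgroup G, IsCoatom K → ¬ r ∣ K.index → ∃ g : G, g ⋆ K = M := by
      intro K hK hi
      obtain ⟨S, hS⟩ := exists_sylow_le_of_not_dvd_index hi
      obtain ⟨g, hg⟩ := exists_conj_sylow_eq S R
      exact ⟨g, hu _ ⟨Core.isCoatom_map_of_ker_le (MulAut.conj g).surjective
        (((MonoidHom.ker_eq_bot_iff (MulAut.conj g).toMonoidHom).mpr (MulAut.conj g).injective).le.trans bot_le) hK, hg ▸ conj_mono g hS⟩⟩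
    refine ⟨⟨M, hM, not_dvd_index_of_sylow_le R hRM⟩, fun M₁ M₂ h1 h1' h2 h2' => ?_⟩
    obtain ⟨a, ha⟩ := key M₁ h1 h1'
    obtain ⟨b, hb⟩ := key M₂ h2 h2'
    exact ⟨b⁻¹ * a, by rw [← conj_conj, ha, ← hb, inv_conj_conj]⟩
  · rintro ⟨-, h⟩
    have h1 : normalizer ((R : Subgroup G) : Set G) ≠ ⊤ := fun h' =>
      Cfsg.Agent.S3859.normalizer_ne_top T hT hna R.isPGroup' hR0
        (eq_top_iff.mpr (Core.le_normalizer_inf h'.ge le_normalizer_of_normal))
    obtain ⟨M, hM, hNM⟩ := Core.exists_coatom_ge h1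
    have hRM : ↑R ≤ M := le_normalizer.trans hNM
    refine ⟨M, ⟨hM, hRM⟩, fun K ⟨hK, hRK⟩ => ?_⟩
    obtain ⟨g, hg⟩ := h M K hM (not_dvd_index_of_sylow_le R hRM) hK (not_dvd_index_of_sylow_le R hRK)
    obtain ⟨n, hn, he⟩ := exists_normalizer_conj_eq R hRM hRK hg.symm
    rw [← he, conj_eq_self_of_mem (hNM hn)]

end Cfsg.Agent.S3858
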