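import Cfsg.Statements.S3862
import Cfsg.Agent.Lib.Transfer.Alperin

set_option autoImplicit false
open Cfsg

namespace Cfsg.Agent.S3862

open Subgroup Cfsg.Lib

/-- If every 2-element of the finite group G that is conjugate to its inverse lies in the centre of G, then G has a normal 2-complement. -/
theorem result {G : Type*} [Group G] [Finite G] (h : ∀ x : G, (∃ j : ℕ, orderOf x = 2 ^ j) → IsConj x x⁻¹ → x ∈ Subgroup.center G) : Cfsg.HasNormalPComplement 2 G := by
  rw [Transfer.hasNormalPComplement_iff_normalizer_centralizer]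
  intro Q hQ y hy hcop
  have key : ∀ n : ℕ, ∀ x ∈ Q, x ^ 2 ^ n = 1 → y * x * y⁻¹ = x := by
    intro n
    induction n with
    | zero => intro x _ hx; rw [pow_zero, pow_one] at hx; simp [hx]
    | succ n ih =>
      intro x hx hn
      have h2 := ih (x ^ 2) (pow_mem hx 2) (by rw [← pow_mul, ← pow_succ', hn])
      rw [← conj_pow] at h2
      set b := y * x * y⁻¹ with hb
      have hbQ : b ∈ Q := (mem_normalizer_iff.1 hy x).1 hx
      have hu : x * b⁻¹ ∈ Q := mul_mem hx (inv_mem hbQ)
      obtain ⟨j, hj⟩ := IsPGroup.iff_orderOf.1 hQ ⟨_, hu⟩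
      rw [← orderOf_coe] at hj
      have hc : x * b⁻¹ ∈ center G := h _ ⟨j, hj⟩ (isConj_iff.2 ⟨x⁻¹, by
        calc x⁻¹ * (x * b⁻¹) * x⁻¹⁻¹ = b⁻¹ * x ^ 2 * x⁻¹ := by rw [pow_two]; group
          _ = (x * b⁻¹)⁻¹ := by rw [← h2, pow_two]; group⟩)
      set c := x * b⁻¹ with hcd
      have h3 : ∀ k : ℕ, y ^ k * x * (y ^ k)⁻¹ = (c ^ k)⁻¹ * x := by
        intro k
        induction k with
        | zero => simp
        | succ k ihk =>
          have e1 : y * (c ^ k)⁻¹ = (c ^ k)⁻¹ * y :=
            mem_center_iff.1 (inv_mem (pow_mem hc k)) y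
          have e2 : b = c⁻¹ * x := by
            rw [hcd]; group
          calc y ^ (k + 1) * x * (y ^ (k + 1))⁻¹ = y * (y ^ k * x * (y ^ k)⁻¹) * y⁻¹ := by
                rw [pow_succ']; group
            _ = (c ^ k)⁻¹ * b := by rw [ihk, ← mul_assoc, e1, hb]; group
            _ = _ := by rw [e2, pow_succ']; group
      have h4 := h3 (orderOf y)
      rw [pow_orderOf_eq_one, one_mul, inv_one, mul_one, eq_comm, mul_eq_right, inv_eq_one] at h4
      have h5 : orderOf c = 1 := Nat.eq_one_of_dvd_coprimes (Nat.Coprime.pow_right j hcop)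
        (orderOf_dvd_of_pow_eq_one h4) (by rw [← hj])
      rw [orderOf_eq_one_iff, hcd, mul_inv_eq_one] at h5
      exact h5.symm
  intro x hx
  obtain ⟨n, hn⟩ := hQ ⟨x, hx⟩
  have := key n x hx (congrArg Subtype.val hn)
  rw [mul_inv_eq_iff_eq_mul] at this
  exact this.symm

end Cfsg.Agent.S3862
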