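import Cfsg.Statements.S3864
import Cfsg.Agent.Lib.Inv.DihedralSylow
import Cfsg.Agent.Lib.Inv.KleinSylow

set_option autoImplicit false
open Cfsg

namespace Cfsg.Agent.S3864

open Cfsg.Lib.Inv Subgroup

theorem no_four {G : Type*} [Group G] [Finite G] {S : Sylow 2 G} {a b : G} {m : ℕ}
    (h : MC (S : Subgroup G) a b (m + 1) 0 0) {j : ℤ} (hj : IsConj (a ^ j * b) (a ^ ((2 : ℤ) ^ (m + 1))))
    (N : Subgroup G) (hN : N.Normal) : N.index ≠ 4 := fun h4 => by
  have hc : Nat.card (G ⧸ N) = 2 ^ 2 := h4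
  have hcomm := IsPGroup.isMulCommutative_of_card_eq_prime_sq hc
  let π := QuotientGroup.mk' N
  have h1 : π a * π a = 1 := by
    have := congrArg π h.conj
    rw [map_mul, map_mul, mul_comm' (π b), map_inv, mul_inv_cancel_right] at this
    nth_rw 1 [this]
    simp
  have h2 : π (a ^ j * b) = 1 := by
    obtain ⟨c, e⟩ := isConj_iff.1 hj.symm
    rw [← e, map_mul, map_mul, pow_succ', zpow_mul, map_zpow, zpow_two, map_mul, h1, one_zpow,
      mul_one, map_inv, mul_inv_cancel]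
  have h3 : (S : Subgroup G).map π ≤ zpowers (π a) := by
    rw [map_le_iff_le_comap]
    refine h.le_of_mem (mem_zpowers _) ?_
    rw [map_mul, map_zpow, mul_eq_one_iff_inv_eq] at h2
    exact mem_comap.2 (h2 ▸ inv_mem (zpow_mem (mem_zpowers _) j))
  have h5 : (S : Subgroup G).map π = ⊤ :=
    (S.mapSurjective (QuotientGroup.mk'_surjective N)).is_maximal' ((IsPGroup.of_card hc).to_subgroup ⊤)
      le_top |>.symm
  have h6 := card_dvd_of_le h3
  rw [h5, card_top, hc, Nat.card_zpowers] at h6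
  exact absurd (h6.trans (orderOf_dvd_of_pow_eq_one ((sq _).trans h1))) (by decide)

/-- Let G be a finite group whose Sylow 2-subgroups are dihedral of order 2 ^ n with n ≥ 3, and count the conjugacy classes of involutions of G. Then exactly one of the following holds: there is one class of involutions and no normal subgroup of index 2; there are two classes of involutions, a normal subgroup of index 2 and none of index 4; there are three classes of involutions and G has a normal 2-complement. -/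
theorem result {G : Type*} [Group G] [Finite G] (P : Sylow 2 G) (n : ℕ) (hn : 3 ≤ n) (hdih : Nonempty (↥(P : Subgroup G) ≃* DihedralGroup (2 ^ (n - 1)))) : (Nat.card {C : ConjClasses G // ∃ g : G, ConjClasses.mk g = C ∧ orderOf g = 2} = 1 ∧ ∀ N : Subgroup G, N.Normal → N.index ≠ 2) ∨ (Nat.card {C : ConjClasses G // ∃ g : G, ConjClasses.mk g = C ∧ orderOf g = 2} = 2 ∧ (∃ N : Subgroup G, N.Normal ∧ N.index = 2) ∧ ∀ N : Subgroup G, N.Normal → N.index ≠ 4) ∨ (Nat.card {C : ConjClasses G // ∃ g : G, ConjClasses.mk g = C ∧ orderOf g = 2} = 3 ∧ Cfsg.HasNormalPComplement 2 G) := by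
  obtain ⟨e⟩ := hdih
  obtain ⟨a, b, m, hm, h⟩ := exists_mc_of_dihedral P.isPGroup'
    (Nat.le_self_pow (by omega) 2) e
  obtain ⟨m, rfl⟩ : ∃ k, m = k + 1 := ⟨m - 1, by have := Nat.pow_right_injective le_rfl hm; omega⟩
  simp only [and_comm (a := ConjClasses.mk _ = _)]
  have ho : ∀ i : ℤ, orderOf (a ^ i * b) = 2 := fun i =>
    ord_two_iff.2 ⟨h.refl_ne_one i, h.dih_refl_sq i⟩
  have hpar : ∀ i : ℤ, IsConj (a ^ i * b) (a ^ (0 : ℤ) * b) ∨ IsConj (a ^ i * b) (a ^ (1 : ℤ) * b) :=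
    fun i => (show 2 ∣ 0 - i ∨ 2 ∣ 1 - i by omega).imp
      (fun e => let ⟨k, hk⟩ := h.exists_conj_refl e; isConj_iff.2 ⟨_, hk⟩)
      fun e => let ⟨k, hk⟩ := h.exists_conj_refl e; isConj_iff.2 ⟨_, hk⟩
  have hall : ∀ x, orderOf x = 2 → IsConj x (a ^ ((2 : ℤ) ^ (m + 1))) ∨ IsConj x (a ^ (0 : ℤ) * b) ∨
      IsConj x (a ^ (1 : ℤ) * b) := fun x hx => by
    obtain ⟨g, hg⟩ := exists_conj_inv_mem_sylow P (mul_self_of_orderOf hx)
    have h1 : orderOf (g * x * g⁻¹) = 2 := by rw [orderOf_conj', hx]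
    by_cases hga : g * x * g⁻¹ ∈ zpowers a
    · exact .inl (h.eq_z hga (ne_one_of_orderOf h1) (mul_self_of_orderOf h1) ▸ isConj_conj g x)
    · obtain ⟨i, hi⟩ := h.exists_refl hg hga
      exact .inr ((hpar i).imp (hi ▸ isConj_conj g x).trans (hi ▸ isConj_conj g x).trans)
  have h2 : ∀ j : ℤ, ¬ IsConj (a ^ j * b) (a ^ ((2 : ℤ) ^ (m + 1))) →
      ∃ N : Subgroup G, N.Normal ∧ N.index = 2 := fun j hj => by
    by_contra! hn
    exact hj (h.isConj_z (pResidual_two_eq_top_iff.2 fun H hH => hn H (normal_of_index_eq_two hH) hH)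
      (ho j))
  by_cases c0 : IsConj (a ^ (0 : ℤ) * b) (a ^ ((2 : ℤ) ^ (m + 1))) <;>
  by_cases c1 : IsConj (a ^ (1 : ℤ) * b) (a ^ ((2 : ℤ) ^ (m + 1)))
  · have h3 : ∀ x, orderOf x = 2 → IsConj x (a ^ ((2 : ℤ) ^ (m + 1))) := fun x hx =>
      (hall x hx).elim id fun e => e.elim (·.trans c0) (·.trans c1)
    exact .inl ⟨card_classes_eq_one h.z_ord h3, fun N _ =>
      h.dih_index_ne_two (fun x y hx hy => (h3 x hx).trans (h3 y hy).symm) N⟩
  · exact .inr (.inl ⟨card_classes_eq_two (ho 1) h.z_ord c1 fun x hx =>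
      (hall x hx).elim .inr fun e => e.elim (fun e => .inr (e.trans c0)) .inl, h2 1 c1, no_four h c0⟩)
  · exact .inr (.inl ⟨card_classes_eq_two (ho 0) h.z_ord c0 fun x hx =>
      (hall x hx).elim .inr fun e => e.elim .inl fun e => .inr (e.trans c1), h2 0 c0, no_four h c1⟩)
  have h3 : HasNormalPComplement 2 G := h.hasNormalPComplement (fun U hU h4 g hg hg' => by
    by_contra hc
    obtain ⟨hz, i, hi⟩ := h.k4_form hU h4
    have := k4_isConj_of_odd h4 hg hg' hc hi (h.refl_ne_one i) hz h.z_ne_one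
    exact (hpar i).elim (fun e => c0 (e.symm.trans this)) fun e => c1 (e.symm.trans this))
    fun Q hQ h8 => absurd h8 (h.dih_not_q8 hQ)
  refine .inr (.inr ⟨card_classes_eq_three h.z_ord (ho 0) (ho 1) (fun e => c0 e.symm)
    (fun e => c1 e.symm) (fun e => ?_) hall, h3⟩)
  obtain ⟨g, hg⟩ := isConj_iff.1 e
  obtain ⟨s, hs, e⟩ := (Lib.Transfer.hasNormalPComplement_iff_controls_fusion P).1 h3 _ (h.refl_mem 0) g
    (hg ▸ h.refl_mem 1)
  exact absurd (h.parity_of_conj hs (e.trans hg)) (by decide)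

end Cfsg.Agent.S3864
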