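import Cfsg.Statements.S3865
import Cfsg.Agent.Lib.FGS.MaxFus
import Cfsg.Agent.Lib.MaxC.TwoStep
import Cfsg.Agent.Lib.Transfer.Criteria

set_option autoImplicit false
open Cfsg

namespace Cfsg.Agent.S3865

section
open Subgroup Cfsg.Lib Cfsg.Lib.BG Cfsg.Lib.Transfer Cfsg.Lib.MaxC Cfsg.Lib.FGS.MaxFus

theorem exists_uni {Q : Type*} [Group Q] [Finite Q] {p n : ℕ} [hp : Fact p.Prime]
    (m : MC p (n + 1) Q) {N : Subgroup Q} (hN : N ≠ ⊤) : ∃ s, s ∉ N ∧ MU p (n + 1) s := by
  classical
  obtain ⟨M, h1, _, h2⟩ := PGroup.exists_normal_index_eq_of_ne_top m.pg hN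
  obtain ⟨s, hs⟩ := m.exists_mu
  have p1 := hp.out.one_lt
  obtain ⟨x, hx⟩ := exists_not_mem (p := p)
    (fun i => if i < p - 1 ∧ i + 1 < n + 1 then ts Q i else M) (fun i _ => by
      split_ifs with h
      · exact m.index_ts h.2
      · exact h2)
  have hxM : x ∉ M := by simpa using hx (p - 1) (by omega)
  refine ⟨x, fun h => hxM (h1 h), m.mu (fun h => hxM ?_) fun j hj => ?_⟩
  · rw [m.center_eq] at h
    exact PGroup.commutator_le_of_index_prime M h2 (lc_anti (i := 1) (by omega) h)
  · have h3 : j % (p - 1) < p - 1 := Nat.mod_lt _ (by omega)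
    have h4 : j % (p - 1) ≤ j := Nat.mod_le _ _
    have := hx (j % (p - 1)) (by omega)
    rw [if_pos ⟨h3, by omega⟩] at this
    rwa [hs.ts_eq hj]

theorem le_comm {Q : Type*} [Group Q] [Finite Q] {p n : ℕ} [hp : Fact p.Prime]
    (m : MC p n Q) {N : Subgroup Q} [N.Normal] (hN : N ≠ ⊤) (h : ¬ _root_.commutator Q ≤ N) :
    N ≤ _root_.commutator Q := by
  obtain ⟨k, hk⟩ := m.pg.index N
  rcases k with _ | _ | k
  · exact absurd (index_eq_one.1 hk) hN
  · exact absurd (PGroup.commutator_le_of_index_prime N (by simpa using hk)) h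
  · rw [PGroup.maxClass_normal_eq m.card m.ne N hk]
    exact lc_anti (i := 1) (by omega)

theorem exists_sq {Q : Type*} [Group Q] [Finite Q] {p : ℕ} [hp : Fact p.Prime]
    (hQ : IsPGroup p Q) {N : Subgroup Q} [N.Normal] (h : p < Nat.card N) :
    ∃ K ≤ N, Nat.card K = p ^ 2 ∧ _root_.commutator Q ≤ 𝐂(K) := by
  have p1 := hp.out.one_lt
  obtain ⟨Z, _, -, h1, h2, h3⟩ := PGroup.exists_normal_card_eq_mul hQ (M := ⊥) (N := N)
    (bot_lt_iff_ne_bot.2 fun e => by rw [e, card_bot] at h; omega)
  rw [card_bot, mul_one] at h2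
  obtain ⟨K, _, -, h4, h5, h6⟩ := PGroup.exists_normal_card_eq_mul hQ (M := Z) (N := N)
    (lt_of_le_of_ne h1 fun e => by rw [← e] at h; omega)
  refine ⟨K, h4, by rw [h5, h2, sq], comm_eq_bot_iff.1 (le_bot_iff.1 ?_)⟩
  refine Core.three_subgroups_normal ⊥ ?_ ((commutator_mono h6 le_rfl).trans h3)
  rw [commutator_comm ⊤ K]
  exact (commutator_mono h6 le_rfl).trans h3

end

/-- Let G be a finite group whose Sylow p-subgroup P has order p ^ n with n ≥ 2 and nilpotency class n - 1 (maximal class), whose largest normal subgroup of order prime to p is trivial, and which has no proper normal subgroup of index prime to p. Then either some x ∈ P has a centralizer in G whose order has p-part p ^ 2, or G is quasisimple with centre of order at most p. -/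
theorem result {G : Type*} [Group G] [Finite G] (p : ℕ) [Fact p.Prime] (P : Sylow p G) (n : ℕ) (hP : Nat.card P = p ^ n) (hn : 2 ≤ n) (hmax : Group.nilpotencyClass ↥(P : Subgroup G) = n - 1) (hcore : Cfsg.pPrimeCore p G = ⊥) (hres : ∀ N : Subgroup G, N.Normal → (N.index).Coprime p → N = ⊤) : (∃ x ∈ (P : Subgroup G), (Nat.card (Subgroup.centralizer ({x} : Set G))).factorization p = 2) ∨ (Cfsg.IsQuasisimple G ∧ Nat.card (Subgroup.center G) ≤ p) := by
  open Subgroup Cfsg.Lib Cfsg.Lib.BG Cfsg.Lib.Transfer Cfsg.Lib.MaxC Cfsg.Lib.FGS.MaxFus in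
  rename_i hp
  have p1 := hp.out.one_lt
  refine or_iff_not_imp_left.2 fun H => ?_
  push Not at H
  have hS := Syl.of_sylow_top P
  obtain ⟨n, rfl⟩ : ∃ m, n = m + 3 := by
    refine ⟨n - 3, ?_⟩
    by_contra h
    obtain rfl : n = 2 := by omega
    refine H 1 (one_mem _) ?_
    rw [cent1_one, card_top]
    have := P.card_eq_multiplicity
    rw [hP] at this
    exact (Nat.pow_right_injective p1 this).symm
  have m : MC p (n + 1) P := ⟨hP, (PGroup.maxClass_iff hP).1 hmax⟩
  have hcom : (_root_.commutator P).map (P : Subgroup G).subtype = ⁅(P : Subgroup G), (P : Subgroup G)⁆ := by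
    rw [_root_.commutator_def, map_commutator, ← MonoidHom.range_eq_map, range_subtype]
  have hPN : ∀ N : Subgroup G, N.Normal → N ≠ ⊤ → ¬ (P : Subgroup G) ≤ N := fun N hN h1 h2 =>
    h1 (hres N hN (((Nat.Prime.coprime_iff_not_dvd hp.out).2 fun h =>
      P.not_dvd_index (h.trans (index_dvd_of_le h2))).symm))
  have uni : ∀ N : Subgroup G, N.Normal → N ≠ ⊤ → ∃ s ∈ (P : Subgroup G), s ∉ N ∧
      Nat.card ↥(𝐂[s] ⊓ N ⊓ P) ≤ p ∧ ∃ g : G, g * s * g⁻¹ ∈ ⁅(P : Subgroup G), (P : Subgroup G)⁆ := by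
    intro N hN h1
    obtain ⟨s, hs, hu⟩ := exists_uni m (N := N.subgroupOf P)
      (fun e => hPN N hN h1 (subgroupOf_eq_top.1 e))
    have e1 : 𝐂[s] = 𝐂[(s : G)].subgroupOf P := by
      ext y
      rw [mem_subgroupOf, mem_cent1, mem_cent1, Subtype.ext_iff]
      rfl
    have c1 : ∀ X : Subgroup G, Nat.card (X.subgroupOf P) = Nat.card ↥(X ⊓ P) := fun X => by
      rw [← subgroupOf_map_subtype, card_map_of_injective (subtype_injective _)]
    have h2 := hu.card_cen
    rw [e1, c1, inf_comm] at h2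
    refine ⟨s, s.2, hs, ?_, ?_⟩
    · have := hu.card_inf_le hs
      rwa [e1, ← subOf_inf, c1] at this
    · obtain ⟨g, -, hg⟩ := fuse _ le_rfl hS s.2 h2.le (by
        rw [top_inf_eq]
        have h3 : p ^ 2 ∣ Nat.card 𝐂[(s : G)] := h2 ▸ card_dvd_of_le inf_le_right
        rw [hp.out.pow_dvd_iff_le_factorization Nat.card_pos.ne'] at h3 ⊢
        have := H s s.2
        omega)
      exact ⟨g, hg⟩
  have hD : ∀ N : Subgroup G, N.Normal → N ≠ ⊤ → ¬ ⁅(P : Subgroup G), (P : Subgroup G)⁆ ≤ N := by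
    intro N hN h1 h2
    obtain ⟨s, -, hs, -, g, hg⟩ := uni N hN h1
    exact hs (by simpa [mul_assoc] using hN.conj_mem _ (h2 hg) g⁻¹)
  have main : ∀ N : Subgroup G, N.Normal → N ≠ ⊤ → N ≤ center G ∧ Nat.card N ≤ p := by
    intro N hN h1
    have h2 : N.subgroupOf P ≤ _root_.commutator P :=
      le_comm m (fun e => hPN N hN h1 (subgroupOf_eq_top.1 e)) fun h =>
        hD N hN h1 (by rw [← hcom]; exact map_le_iff_le_comap.2 h)
    have h3 : HasNormalPComplement p ↥(N ⊔ P) := by
      have hs : Syl p (P : Subgroup G) (N ⊔ P) := hS.of_le le_sup_right le_top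
      refine hasNormalPComplement_subgroup_of_inf_le_frattini le_sup_right P.isPGroup'
        (Syl.not_dvd' hs) ?_
      rw [PGroup.maxClass_frattini m.card m.ne]
      refine le_trans (inf_le_inf_right _ ?_)
        ((subgroupOf_map_subtype N P).ge.trans (map_mono h2))
      rw [map_le_iff_le_comap, pResidual, closure_le]
      intro y hy
      obtain ⟨a, ha, b, hb, e⟩ := (mem_sup_left_norm (by rw [normalizer_eq_top]; exact le_top)).1 y.2
      have h4 : orderOf (QuotientGroup.mk' N y) ∣ orderOf y :=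
        (orderOf_map_dvd _ _).trans (by rw [orderOf_coe])
      have h5 : orderOf (QuotientGroup.mk' N y) ∣ p ^ (n + 3) := by
        rw [← e, map_mul, QuotientGroup.mk'_apply N a, (QuotientGroup.eq_one_iff a).2 ha, one_mul,
          ← hP]
        exact (orderOf_map_dvd _ _).trans (orderOf_dvd_natCard _ hb)
      exact (QuotientGroup.eq_one_iff (y : G)).1 (orderOf_eq_one_iff.1
        (Nat.eq_one_of_dvd_coprimes (Nat.Coprime.pow_right _ hy) h4 h5))
    have h4 : IsPGroup p N := by
      have h5 := hasNormalPComplement_iff.1 (hasNormalPComplement_of_le le_sup_left h3)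
      have h6 : 𝐎({p}ᶜ, N) = ⊥ := by
        rw [eq_bot_iff, ← hcore]
        refine le_sSup ⟨?_, PiGrp.coprime_p h5.pi⟩
        rw [← normalizer_eq_top_iff, eq_top_iff]
        exact norm_pcore (by rw [normalizer_eq_top]) _
      rw [h6] at h5
      exact PiGrp.pgroup (by simpa using h5.eq_bot_iff.1 rfl)
    have h5 : N ≤ P := Syl.ge_of_norm_p hS le_top h4 (by rw [normalizer_eq_top]; exact le_top)
    have h6 : Nat.card N ≤ p := by
      by_contra! h
      obtain ⟨K, hK, cK, hc⟩ := exists_sq m.pg (N := N.subgroupOf P)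
        (by rwa [Nat.card_congr (subgroupOfEquivOfLe h5).toEquiv])
      obtain ⟨s, -, -, hs, g, hg⟩ := uni N hN h1
      have h7 : ⁅(P : Subgroup G), (P : Subgroup G)⁆ ≤ 𝐂(K.map (P : Subgroup G).subtype) := by
        rw [← hcom]; exact map_cent _ hc
      have h8 : K.map (P : Subgroup G).subtype ≤ N := map_le_iff_le_comap.2 hK
      have h9 : g⁻¹ ⋆ K.map (P : Subgroup G).subtype ≤ 𝐂[s] ⊓ N ⊓ P := by
        have h10 : g⁻¹ ⋆ K.map (P : Subgroup G).subtype ≤ N :=
          conj_le_of_norm h8 (by rw [normalizer_eq_top]; trivial)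
        refine le_inf (le_inf ?_ h10) (h10.trans h5)
        have := Transfer.conj_mono g⁻¹ (le_cent1_iff.2 (h7 hg))
        rwa [conj_cent1, show g⁻¹ * (g * s * g⁻¹) * g⁻¹⁻¹ = s by group] at this
      have := (card_le_of_le h9).trans hs
      rw [Transfer.card_conj, card_map_of_injective (subtype_injective _), cK] at this
      nlinarith
    refine ⟨?_, h6⟩
    have h7 : (P : Subgroup G) ≤ 𝐂(N) := cent_symm (cent_of_card_le P.isPGroup' h5
      (by rw [normalizer_eq_top]; exact le_top) h6)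
    have h8 : 𝐂(N) = ⊤ := by
      by_contra h
      exact hPN _ inferInstance h h7
    exact centralizer_eq_top_iff_subset.1 h8
  have hper : _root_.commutator G = ⊤ := by
    by_contra h
    exact hD _ inferInstance h (commutator_mono le_top le_top)
  have hZ : center G ≠ ⊤ := fun e => by
    have h1 : (⊥ : Subgroup G) ≠ ⊤ := fun e' => by
      have := card_le_of_le (le_top.trans e'.ge : (P : Subgroup G) ≤ ⊥)
      rw [card_bot, show Nat.card (P : Subgroup G) = _ from hP] at this
      exact absurd (Nat.one_lt_pow (by omega) p1) (not_lt.2 this)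
    refine hD ⊥ inferInstance h1 (comm_eq_bot_iff.2 ?_).le
    exact (le_top.trans e.ge).trans (center_le_centralizer _)
  refine ⟨⟨⟨hper⟩, ?_⟩, (main _ inferInstance hZ).2⟩
  haveI : Nontrivial (G ⧸ center G) := QuotientGroup.nontrivial_iff.2 hZ
  refine ⟨fun N hN => ?_⟩
  by_cases h : N.comap (QuotientGroup.mk' (center G)) = ⊤
  · right
    rw [← map_comap_eq_self_of_surjective (QuotientGroup.mk'_surjective _) N, h,
      map_top_of_surjective _ (QuotientGroup.mk'_surjective _)]
  · left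
    rw [← map_comap_eq_self_of_surjective (QuotientGroup.mk'_surjective _) N, Subgroup.map_eq_bot_iff,
      QuotientGroup.ker_mk']
    exact (main _ (hN.comap _) h).1

end Cfsg.Agent.S3865
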