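import Cfsg.Statements.S3867
import Cfsg.Agent.Lib.FGS.Sylow
import Cfsg.Agent.Lib.Loc.Product

set_option autoImplicit false
open Cfsg

namespace Cfsg.Agent.S3867

/-- Let M and N be nontrivial normal subgroups of the finite group G with M ⊓ N trivial, and let p be a prime. Writing n(X) for the number of Sylow p-subgroups of a group X, one has n(G) · n(G/MN) = n(G/M) · n(G/N). -/
theorem result {G : Type*} [Group G] [Finite G] (p : ℕ) [Fact p.Prime] (M N : Subgroup G) [M.Normal] [N.Normal] (hM : M ≠ ⊥) (hN : N ≠ ⊥) (hMN : M ⊓ N = ⊥) : Nat.card (Sylow p G) * Nat.card (Sylow p (G ⧸ (M ⊔ N))) = Nat.card (Sylow p (G ⧸ M)) * Nat.card (Sylow p (G ⧸ N)) := by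
  open Cfsg.Lib Cfsg.Lib.Transfer Cfsg.Lib.FGS Subgroup in
  obtain ⟨P⟩ : Nonempty (Sylow p G) := inferInstance
  rw [card_sylow_eq_index P, card_sylow_quotient P, card_sylow_quotient P, card_sylow_quotient P]
  set K := normalizer ((P : Subgroup G) : Set G) with hK
  have h1 : ((P : Subgroup G) ⊔ N) ⊓ M ≤ P := by
    refine le_sylow_of_sylow_le_normalizer P ?_
      (Core.le_normalizer_inf (le_sup_left.trans le_normalizer) le_normalizer_of_normal)
    have h2 : IsPGroup p ((((P : Subgroup G) ⊔ N) ⊓ M).map (QuotientGroup.mk' N)) :=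
      (P.isPGroup'.map (QuotientGroup.mk' N)).to_le
        ((map_mono inf_le_left).trans (Core.map_mk'_sup N _).le)
    refine h2.of_injective ((QuotientGroup.mk' N).subgroupMap _) ?_
    rw [injective_iff_map_eq_one]
    intro x hx
    have h3 : (x : G) ∈ M ⊓ N := ⟨x.2.2, (QuotientGroup.eq_one_iff _).mp (congrArg Subtype.val hx)⟩
    rw [hMN] at h3
    exact Subtype.ext h3
  have h2 : M ⊓ (K ⊔ N) ≤ K := by
    rw [hK, ← normalizer_sylow_sup]
    refine le_normalizer_iff_commutator_le_right.mpr (le_trans (le_inf ?_ ?_) h1)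
    · exact (commutator_mono inf_le_right le_sup_left).trans
        (le_normalizer_iff_commutator_le_right.mp le_rfl)
    · exact (commutator_mono inf_le_left le_rfl).trans (commutator_le_left _ _)
  have h3 : (K ⊔ M) ⊓ (K ⊔ N) = K := by
    rw [Core.sup_inf_of_le_normalizer le_sup_left le_normalizer_of_normal, sup_eq_left.mpr h2]
  have h4 : Nat.card ↥(K ⊔ (M ⊔ N)) * Nat.card K = Nat.card ↥(K ⊔ M) * Nat.card ↥(K ⊔ N) := by
    have h5 : (K ⊔ M) ⊔ (K ⊔ N) = K ⊔ (M ⊔ N) := (sup_sup_distrib_left _ _ _).symm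
    have h6 := Loc.card_sup_mul_card_inf_of_coe_sup_eq (H := K ⊔ M) (K := K ⊔ N) (by
      apply Set.Subset.antisymm _ (Loc.set_mul_subset_sup _ _)
      intro x hx
      rw [h5, ← sup_assoc] at hx
      obtain ⟨y, hy, z, hz, rfl⟩ := mem_sup_of_normal_right.mp hx
      exact Set.mul_mem_mul hy (mem_sup_right hz))
    rwa [h5, h3] at h6
  have e1 := K.index_mul_card
  have e2 := (K ⊔ (M ⊔ N)).index_mul_card
  have e3 := (K ⊔ M).index_mul_card
  have e4 := (K ⊔ N).index_mul_card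
  refine Nat.eq_of_mul_eq_mul_right (Nat.mul_pos Nat.card_pos Nat.card_pos :
    0 < Nat.card ↥(K ⊔ M) * Nat.card ↥(K ⊔ N)) ?_
  calc _ = (K.index * Nat.card K) * ((K ⊔ (M ⊔ N)).index * Nat.card ↥(K ⊔ (M ⊔ N))) := by
        rw [← h4]; ring
    _ = ((K ⊔ M).index * Nat.card ↥(K ⊔ M)) * ((K ⊔ N).index * Nat.card ↥(K ⊔ N)) := by
        rw [e1, e2, e3, e4]
    _ = _ := by ring

end Cfsg.Agent.S3867
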