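import Cfsg.Statements.S3878
import Cfsg.Agent.Lib.BG.Hall
import Cfsg.Agent.Lib.Perm.Sym2
import Cfsg.Agent.Lib.Perm.PrimeDegree
import Cfsg.Agent.Lib.Solv.Huppert
import Cfsg.Agent.Lib.Char.Burnside

set_option autoImplicit false
open Cfsg

namespace Cfsg.Agent.S3878

section
open Subgroup Cfsg.Lib Cfsg.Lib.BG Cfsg.Lib.Transfer

open Subgroup Cfsg.Lib Cfsg.Lib.BG Cfsg.Lib.Transfer Equiv MulAction in
theorem case1 {π : Set ℕ} {n : ℕ} (hn : n.Prime) (h5 : 5 ≤ n) (hπ : n ∉ π) (h : ∀ p, p.Prime → p < n → p ∈ π) :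
    ¬ IsEPiGroup π (Perm (Fin (n + 1))) := by
  rintro ⟨H, h1, h2⟩
  have hc : Nat.card (Perm (Fin (n + 1))) = (n + 1) * n.factorial := by simp [Fintype.card_perm, Nat.factorial_succ]
  have h3 : H.index = n ^ _ := Nat.eq_prime_pow_of_unique_prime_dvd index_ne_zero_of_finite fun {q} hq hd => by
    have h4 := (hq.dvd_factorial (n := n + 1)).1 (hd.trans (by rw [Nat.factorial_succ, ← hc]; exact H.index_dvd_card))
    have h6 : ¬ q < n := fun e => h2 q hq (h q hq e) hd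
    have h7 : q ≠ n + 1 := fun e => by
      have := hn.eq_two_or_odd
      have := hq.eq_two_or_odd
      omega
    omega
  generalize (Nat.primeFactorsList H.index).length = k at h3
  have h4 : ¬ 2 ≤ k := fun e => Perm.not_sq_dvd_factorial hn (Nat.Coprime.dvd_of_dvd_mul_left
    (Nat.Coprime.pow_left 2 (by simp)) (hc ▸ (pow_dvd_pow n e).trans (h3 ▸ H.index_dvd_card)))
  obtain rfl | rfl : k = 0 ∨ k = 1 := by omega
  · rw [pow_zero, index_eq_one] at h3
    exact hπ (h1 n hn (by rw [h3, card_top, hc]; exact (Nat.dvd_factorial hn.pos le_rfl).mul_left _))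
  rw [pow_one] at h3
  have h6 := Solv.index_normalCore_dvd_factorial H
  by_cases h7 : H.normalCore = ⊥
  · rw [h7, index_bot, hc, h3] at h6
    have := Nat.le_of_dvd n.factorial_pos h6
    nlinarith [n.factorial_pos]
  have h8 := index_dvd_of_le ((Perm.alternatingGroup_le_of_normal (by simp; omega)
    ((nontrivial_iff_ne_bot _).2 h7)).trans H.normalCore_le)
  haveI : Nontrivial (Fin (n + 1)) := Fin.nontrivial_iff_two_le.2 (by omega)
  rw [alternatingGroup.index_eq_two, h3] at h8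
  have := Nat.le_of_dvd two_pos h8
  omega

open Subgroup Cfsg.Lib Cfsg.Lib.BG Cfsg.Lib.Transfer Equiv MulAction in
theorem case2 {π : Set ℕ} {n p : ℕ} (hn : n.Prime) (hp : p.Prime) (h5 : p + 2 ≤ n) (hπ : n ∈ π) (hpπ : p ∈ π)
    (h : ∀ q, q.Prime → q < n → q ∈ π → q = p) : ¬ IsEPiGroup π (Perm (Fin n)) := by
  rintro ⟨H, h1, h2⟩
  haveI := Fact.mk hp
  have hc : Nat.card (Perm (Fin n)) = n.factorial := by simp [Fintype.card_perm]
  have h3 : n ∣ Nat.card H := ((Nat.Prime.dvd_mul hn).1 (by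
    rw [H.card_mul_index, hc]; exact Nat.dvd_factorial hn.pos le_rfl)).resolve_right (h2 n hn hπ)
  haveI := Char.isSolvable_of_forall_prime_dvd H p n fun r hr hd => by
    have := (hr.dvd_factorial (n := n)).1 (hd.trans (hc ▸ H.card_subgroup_dvd_card))
    exact this.eq_or_lt.symm.imp_left fun e => h r hr e (h1 r hr hd)
  haveI := (nontrivial_iff_ne_bot H).2 (ne_bot_of_dvd hn h3)
  obtain ⟨x, hx⟩ := Perm.exists_le_ncard_orbit (Ω := Fin n) hn h3
  haveI : IsPretransitive H (Fin n) := (isPretransitive_iff_orbit_eq_univ x).2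
    (Set.eq_of_subset_of_ncard_le (Set.subset_univ _) (by simpa [Set.ncard_univ] using hx))
  haveI : IsPreprimitive H (Fin n) := IsPreprimitive.of_prime_card (by simpa using hn)
  obtain ⟨N, q, hN, hq, hNq⟩ := Core.exists_isMinNormal_elementary (G := H)
  haveI := hN.normal
  haveI : IsPretransitive N (Fin n) := IsQuasiPreprimitive.isPretransitive_of_normal fun e => hN.ne_bot
    (eq_bot_iff.2 fun g hg => Perm.eq_one_of_forall_smul (α := Fin n) fun a => (e.ge (Set.mem_univ a)) ⟨g, hg⟩)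
  have h4 : n ∣ Nat.card N := by simpa [index_stabilizer_of_transitive] using (stabilizer N x).index_dvd_card
  haveI := Fact.mk hq
  obtain ⟨k, hk⟩ := IsPGroup.exists_card_eq (p := q) (G := N) fun g => ⟨1, Subtype.ext (by simpa using hNq.2 _ g.2)⟩
  obtain rfl : n = q := (Nat.prime_dvd_prime_iff_eq hn hq).1 (hn.dvd_of_dvd_pow (hk ▸ h4))
  have h6 : (Nat.card N).Prime := by
    have h6 : ¬ 2 ≤ k := fun e => Perm.not_sq_dvd_factorial hn ((pow_dvd_pow n e).trans (hk ▸ hc ▸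
      N.card_subgroup_dvd_card.trans H.card_subgroup_dvd_card))
    obtain rfl | rfl : k = 0 ∨ k = 1 := by omega
    · exact absurd (card_eq_one.1 hk) hN.ne_bot
    · rwa [hk, pow_one]
  obtain ⟨σ, h7, h8⟩ := Perm.exists_orderOf_card_support (Ω := Fin n) hp one_pos (by simp; omega)
  obtain ⟨g, hg⟩ := exists_conj_le_of_not_dvd_index (h2 p hp hpπ) (IsPGroup.of_card (G := zpowers σ) (n := 1)
    (by rw [Nat.card_zpowers, h7, pow_one]))
  replace hg : g * σ * g⁻¹ ∈ H := hg (mem_map_of_mem _ (mem_zpowers σ))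
  rw [← Perm.card_support_conj (σ := g)] at h8
  have h9 : g * σ * g⁻¹ ≠ 1 := fun e => hp.ne_zero (by simpa [e] using h8.symm)
  generalize g * σ * g⁻¹ = τ at hg h8 h9
  obtain ⟨a, ha, b, hb, hab⟩ := Finset.one_lt_card.1 (show 1 < τ.supportᶜ.card by rw [Finset.card_compl]; simp; omega)
  rw [Finset.mem_compl, Perm.notMem_support] at ha hb
  obtain ⟨⟨y, hy⟩, rfl⟩ := exists_smul_eq N a b
  have h10 : N ⊓ stabilizer H a = ⊥ := inf_eq_bot_of_prime h6 fun e => hab (e hy).symm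
  have h11 : N ≤ 𝐂[(⟨τ, hg⟩ : H)] := le_of_prime_of_inf_ne_bot h6 fun e => hab (by
    have h11 : y⁻¹ * ((⟨τ, hg⟩ : H) * y * (⟨τ, hg⟩ : H)⁻¹) = 1 := h10.le (mem_inf.2
      ⟨mul_mem (inv_mem hy) (hN.normal.conj_mem y hy _), by
        rw [mem_stabilizer_iff, mul_smul, inv_smul_eq_iff, mul_smul, mul_smul, inv_smul_eq_iff.2 ha.symm]; exact hb⟩)
    obtain rfl : y = 1 := e.le ⟨hy, mem_cent1.2 (by rw [inv_mul_eq_one, eq_mul_inv_iff_mul_eq] at h11; exact h11)⟩
    rfl)
  refine h9 (Perm.ext fun c => ?_)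
  obtain ⟨⟨z, hz⟩, rfl⟩ := exists_smul_eq N a c
  have := congrArg (fun t : H => t • a) (mem_cent1.1 (h11 hz))
  simp only [mul_smul] at this
  exact this.symm.trans (congrArg (z • ·) ha)

end

/-- For a set of primes π the following are equivalent: every finite group has a Hall π-subgroup; in every finite group the maximal π-subgroups are pairwise conjugate; π contains at most one prime or contains every prime. -/
theorem result (π : Set ℕ) :
    ((∀ (G : Type) [Group G] [Finite G], Cfsg.IsEPiGroup π G) ↔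
      ((∀ p q : ℕ, p.Prime → q.Prime → p ∈ π → q ∈ π → p = q) ∨ ∀ p : ℕ, p.Prime → p ∈ π)) ∧
    ((∀ (G : Type) [Group G] [Finite G], Cfsg.IsDPiGroup π G) ↔
      ((∀ p q : ℕ, p.Prime → q.Prime → p ∈ π → q ∈ π → p = q) ∨ ∀ p : ℕ, p.Prime → p ∈ π)) := by
  open Subgroup Cfsg.Lib Cfsg.Lib.BG Cfsg.Lib.Transfer in
  have h1 : (∀ (G : Type) [Group G] [Finite G], IsDPiGroup π G) → ∀ (G : Type) [Group G] [Finite G], IsEPiGroup π G := by
    intro h G _ _
    have hb : IsPiSubgroup π (⊥ : Subgroup G) := fun p hp hd => absurd (Nat.dvd_one.1 (by simpa using hd)) hp.ne_one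
    obtain ⟨H, -, hH⟩ := Finite.exists_le_maximal (p := IsPiSubgroup π) hb
    refine ⟨H, hH.1, fun p hp hpπ hd => ?_⟩
    haveI := Fact.mk hp
    obtain ⟨P⟩ : Nonempty (Sylow p G) := inferInstance
    obtain ⟨k, hk⟩ := P.isPGroup'.exists_card_eq
    obtain ⟨K, h2, hK⟩ := Finite.exists_le_maximal (p := IsPiSubgroup π) (a := (P : Subgroup G)) fun q hq hd =>
      (Nat.prime_dvd_prime_iff_eq hq hp).1 (hq.dvd_of_dvd_pow (hk ▸ hd)) ▸ hpπ
    obtain ⟨g, rfl⟩ := h G H K hH hK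
    exact P.not_dvd_index (hd.trans (index_conj g H ▸ index_dvd_of_le h2))
  have h2 : (∀ (G : Type) [Group G] [Finite G], IsEPiGroup π G) →
      (∀ p q : ℕ, p.Prime → q.Prime → p ∈ π → q ∈ π → p = q) ∨ ∀ p : ℕ, p.Prime → p ∈ π := by
    intro h
    by_contra! h2
    obtain ⟨⟨p, q, hp, hq, hp1, hq1, hpq⟩, r, hr, hr1⟩ := h2
    classical
    have hex : ∃ n, ∃ p ≤ n, ∃ q ≤ n, ∃ r ≤ n, p.Prime ∧ q.Prime ∧ r.Prime ∧ p ∈ π ∧ q ∈ π ∧ r ∉ π ∧ p < q := by
      rcases hpq.lt_or_gt with e | e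
      · exact ⟨p + q + r, p, by omega, q, by omega, r, by omega, hp, hq, hr, hp1, hq1, hr1, e⟩
      · exact ⟨p + q + r, q, by omega, p, by omega, r, by omega, hq, hp, hr, hq1, hp1, hr1, e⟩
    clear hp hq hr hp1 hq1 hr1 hpq
    obtain ⟨p, h1, q, h2, r, h3, hp, hq, hr, hp1, hq1, hr1, hpq⟩ := Nat.find_spec hex
    have hmin := fun m (hm : m < Nat.find hex) => Nat.find_min hex hm
    generalize Nat.find hex = n at h1 h2 h3 hmin
    have h4 : r ≠ p := fun e => hr1 (e ▸ hp1)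
    have h5 : r ≠ q := fun e => hr1 (e ▸ hq1)
    have := hp.two_le
    have := hr.two_le
    have := hp.eq_two_or_odd
    have := hq.eq_two_or_odd
    have := hr.eq_two_or_odd
    rcases h5.lt_or_gt with e | e
    · refine case2 hq hp (by omega) hq1 hp1 (fun s hs h6 h7 => by_contra fun h8 => hmin (q - 1) (by omega) ?_) (h _)
      rcases (Ne.lt_or_gt h8) with e | e
      · exact ⟨s, by omega, p, by omega, r, by omega, hs, hp, hr, h7, hp1, hr1, e⟩
      · exact ⟨p, by omega, s, by omega, r, by omega, hp, hs, hr, hp1, h7, hr1, e⟩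
    · exact case1 hr (by omega) hr1 (fun s hs h6 => by_contra fun h7 => hmin (r - 1) (by omega)
        ⟨p, by omega, q, by omega, s, by omega, hp, hq, hs, hp1, hq1, h7, hpq⟩) (h _)
  have h3 : ((∀ p q : ℕ, p.Prime → q.Prime → p ∈ π → q ∈ π → p = q) ∨ ∀ p : ℕ, p.Prime → p ∈ π) →
      ∀ (G : Type) [Group G] [Finite G], IsDPiGroup π G := by
    rintro (h | h) G _ _ H K hH hK
    · by_cases h3 : ∃ p, p.Prime ∧ p ∈ π
      · obtain ⟨p, hp, h3⟩ := h3
        haveI := Fact.mk hp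
        have h4 : IsPiSubgroup (G := G) π = fun H : Subgroup G => IsPGroup p H := funext fun H => propext ⟨fun h4 =>
          IsPGroup.of_card (Nat.eq_prime_pow_of_unique_prime_dvd Nat.card_pos.ne' fun hq hd => h _ _ hq hp (h4 _ hq hd) h3),
          fun h4 q hq hd => by
            obtain ⟨k, hk⟩ := h4.exists_card_eq
            exact (Nat.prime_dvd_prime_iff_eq hq hp).1 (hq.dvd_of_dvd_pow (hk ▸ hd)) ▸ h3⟩
        rw [h4] at hH hK
        obtain ⟨g, hg⟩ := MulAction.exists_smul_eq G (⟨H, hH.1, fun h1 h2 => le_antisymm (hH.2 h1 h2) h2⟩ : Sylow p G)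
          ⟨K, hK.1, fun h1 h2 => le_antisymm (hK.2 h1 h2) h2⟩
        exact ⟨g, (congrArg Sylow.toSubgroup hg).symm⟩
      · have h4 : ∀ H : Subgroup G, IsPiSubgroup π H → H = ⊥ := fun H h4 => card_eq_one.1
          (Nat.eq_one_iff_not_exists_prime_dvd.2 fun p hp hd => h3 ⟨p, hp, h4 p hp hd⟩)
        exact ⟨1, by rw [h4 H hH.1, h4 K hK.1, Subgroup.map_bot]⟩
    · have h4 : ∀ H : Subgroup G, Maximal (IsPiSubgroup π) H → H = ⊤ := fun H h4 =>
        eq_top_iff.2 (h4.2 (fun p hp _ => h p hp) le_top)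
      exact ⟨1, by rw [h4 H hH, h4 K hK, map_top_of_surjective _ (MulEquiv.surjective _)]⟩
  exact ⟨⟨h2, fun h => h1 (h3 h)⟩, fun h => h2 (h1 h), h3⟩

end Cfsg.Agent.S3878
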