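import Cfsg.Statements.S3881
import Cfsg.Agent.Lib.BG.Hall
import Cfsg.Agent.Lib.FGS.MetaP

set_option autoImplicit false
open Cfsg

namespace Cfsg.Agent.S3881

/-- Let p be an odd prime and G a finite metacyclic p-group (G has a cyclic normal subgroup with cyclic quotient). Suppose G is non-abelian with |G'| = p^n. Then for 1 ≤ i ≤ n the number of elements of G whose conjugacy class has exactly p^i elements is |Z(G)| · (p^(2i) − p^(2i−2)). -/
theorem result {G : Type*} [Group G] [Finite G] {p : ℕ} [Fact p.Prime] (hp : p ≠ 2) (hG : IsPGroup p G) (hmc : Cfsg.IsMetacyclic G) (n : ℕ) (hn : n ≠ 0) (hGn : Nat.card ↥(commutator G) = p ^ n) (i : ℕ) (hi : 1 ≤ i) (hin : i ≤ n) :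
    Nat.card {g : G // (Subgroup.centralizer ({g} : Set G)).index = p ^ i} =
      Nat.card ↥(Subgroup.center G) * (p ^ (2 * i) - p ^ (2 * i - 2)) := by
  open Subgroup Cfsg.Lib Cfsg.Lib.BG Cfsg.Lib.Transfer in
  open Cfsg.Lib.FGS in
  have h := MP.mk hp hG hmc
  have h1 := h.card_pow hGn hin
  have h2 := h.card_pow hGn (i := i - 1) (by omega)
  have hp1 := (Fact.out : p.Prime).one_lt
  rw [Nat.mul_sub, show 2 * i - 2 = 2 * (i - 1) by omega, ← h1, ← h2]
  have h3 : powerClosure p (n - (i - 1)) (⊤ : Subgroup G) ≤ powerClosure p (n - i) ⊤ := by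
    rw [show n - (i - 1) = n - i + 1 by omega]; exact PGroup.powerClosure_succ_le _ _
  refine Eq.trans ?_ (Set.ncard_sdiff (SetLike.coe_subset_coe.2 h3))
  refine congrArg Set.ncard (Set.ext (a := {g : G | (centralizer ({g} : Set G)).index = p ^ i}) fun g => ?_)
  obtain ⟨k, hk⟩ := hG.index (centralizer {g})
  simp only [Set.mem_ofPred_eq, Set.mem_sdiff, SetLike.mem_coe, h.mem_pow_iff hGn (Nat.sub_le _ _), hk,
    Nat.pow_le_pow_iff_right hp1, Nat.pow_right_inj hp1]
  omega

end Cfsg.Agent.S3881
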