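import Cfsg.Statements.S3883
import Cfsg.Agent.Lib.BG.Hall
import Cfsg.Agent.Lib.FGS.MetaP

set_option autoImplicit false
open Cfsg

namespace Cfsg.Agent.S3883

/-- Let p be an odd prime and G a finite metacyclic p-group (G has a cyclic normal subgroup with cyclic quotient). Suppose G is non-abelian. Then an element g of G lies outside the Frattini subgroup if and only if its centralizer C_G(g) is abelian. -/
theorem result {G : Type*} [Group G] [Finite G] {p : ℕ} [Fact p.Prime] (hp : p ≠ 2) (hG : IsPGroup p G) (hmc : Cfsg.IsMetacyclic G) (hna : ¬ IsMulCommutative G) (g : G) :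
    g ∉ frattini G ↔ IsMulCommutative ↥(Subgroup.centralizer ({g} : Set G)) := by
  open Subgroup Cfsg.Lib Cfsg.Lib.BG Cfsg.Lib.Transfer in
  open Cfsg.Lib.FGS in
  have h := MP.mk hp hG hmc
  obtain ⟨n, hn⟩ := (hG.to_subgroup (_root_.commutator G)).exists_card_eq
  have hp1 := (Fact.out : p.Prime).one_lt
  have h0 : n ≠ 0 := by
    rintro rfl
    exact hna ⟨⟨fun a b => PGroup.isMulCommutative_iff.1 (abelian_iff_der.2 (Subgroup.card_eq_one.1 hn :
      ⁅(⊤ : Subgroup G), (⊤ : Subgroup G)⁆ = ⊥)) a trivial b trivial⟩⟩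
  rw [PGroup.frattini_eq_commutator_sup_powerClosure hG, _root_.commutator_def, sup_eq_right.2 (h.der_le ⊤), h.mem_pow_iff hn (by omega),
    h.comm_iff]
  have h1 := (centralizer ({g} : Set G)).index_mul_card
  rw [← (_root_.commutator G).card_mul_index, hn] at h1
  have h2 := h.index_cent_le hn g (Nat.zero_le n)
  rw [pow_zero, pow_one] at h2
  obtain ⟨k, hk⟩ := hG.index (centralizer {g})
  obtain ⟨l, hl⟩ := hG.index (_root_.commutator G)
  obtain ⟨m, hm⟩ := (hG.to_subgroup (centralizer {g})).exists_card_eq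
  rw [hk, hl, hm, ← pow_add, ← pow_add, Nat.pow_right_inj hp1] at h1
  rw [hk, Nat.pow_le_pow_iff_right hp1] at h2
  rw [hk, hl, hm, Nat.pow_le_pow_iff_right hp1, Nat.pow_le_pow_iff_right hp1]
  omega

end Cfsg.Agent.S3883
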