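import Cfsg.Statements.S3884
import Cfsg.Agent.Lib.BG.Hall
import Cfsg.Agent.Lib.FGS.MetaP

set_option autoImplicit false
open Cfsg

namespace Cfsg.Agent.S3884

/-- Let p be an odd prime and G a finite metacyclic p-group (G has a cyclic normal subgroup with cyclic quotient). Then G is the product of two cyclic subgroups with trivial intersection: there are cyclic subgroups A and B with A ∩ B = 1 and |A| · |B| = |G|. -/
theorem result {G : Type*} [Group G] [Finite G] {p : ℕ} [Fact p.Prime] (hp : p ≠ 2) (hG : IsPGroup p G) (hmc : Cfsg.IsMetacyclic G) : ∃ A B : Subgroup G, IsCyclic ↥A ∧ IsCyclic ↥B ∧ A ⊓ B = ⊥ ∧ Nat.card ↥A * Nat.card ↥B = Nat.card G := by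
  open Subgroup Cfsg.Lib Cfsg.Lib.BG Cfsg.Lib.Transfer in
  open Cfsg.Lib.FGS in
  have h := MP.mk hp hG hmc
  have hp' : p.Prime := Fact.out
  by_cases hc : IsCyclic (⊤ : Subgroup G)
  · exact ⟨⊤, ⊥, hc, inferInstance, by simp, by simp⟩
  obtain ⟨x, hx0⟩ := Finite.exists_max (fun g : G => orderOf g)
  obtain ⟨e, he⟩ := (hG.to_subgroup (zpowers x)).exists_card_eq
  rw [Nat.card_zpowers] at he
  have hx : ∀ g : G, orderOf g ∣ orderOf x := fun g => by
    obtain ⟨k, hk⟩ := (hG.to_subgroup (zpowers g)).exists_card_eq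
    have := hx0 g
    rw [Nat.card_zpowers] at hk
    rw [hk, he, Nat.pow_le_pow_iff_right hp'.one_lt] at this
    rw [hk, he]; exact pow_dvd_pow p this
  have hx1 : x ∉ powerClosure p 1 ⊤ := fun h1 => by
    obtain ⟨y, -, rfl⟩ := h.mem_pow.1 h1
    refine hc ?_
    have h2 : (⊤ : Subgroup G) = ⊥ := eq_bot_iff.2 fun g _ => by
      obtain ⟨k, hk⟩ := (hG.to_subgroup (zpowers y)).exists_card_eq
      rw [Nat.card_zpowers] at hk
      have h3 := hx y
      rcases k with - | k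
      · rw [orderOf_eq_one_iff.1 hk, one_pow, orderOf_one] at hx
        exact orderOf_eq_one_iff.1 (Nat.dvd_one.1 (hx g))
      rw [pow_one, orderOf_pow_of_dvd hp'.ne_zero (hk ▸ dvd_pow_self p k.succ_ne_zero), hk, pow_succ,
        Nat.mul_div_cancel _ hp'.pos, ← pow_succ, Nat.pow_dvd_pow_iff_le_right hp'.one_lt] at h3
      omega
    rw [h2]; infer_instance
  classical
  have hex : ∃ f, ∃ y, Subgroup.closure {x, y} = ⊤ ∧ y ^ p ^ f = 1 := by
    obtain ⟨y, hy⟩ := h.exists_closure_eq hc trivial hx1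
    exact ⟨e, y, hy, he ▸ orderOf_dvd_iff_pow_eq_one.1 (hx y)⟩
  obtain ⟨y, hy, hf⟩ := Nat.find_spec hex
  have hfe : Nat.find hex ≤ e := Nat.find_min' hex ⟨y, hy, he ▸ orderOf_dvd_iff_pow_eq_one.1 (hx y)⟩
  have hmin := fun k (hk : k < Nat.find hex) => Nat.find_min hex hk
  generalize Nat.find hex = f at hf hfe hmin
  obtain ⟨k, hk, ho⟩ := (Nat.dvd_prime_pow hp').1 (orderOf_dvd_of_pow_eq_one hf)
  obtain rfl : k = f := hk.eq_or_lt.resolve_right fun h1 => hmin k h1 ⟨y, hy, by rw [← ho, pow_orderOf_eq_one]⟩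
  have hd : zpowers x ⊓ zpowers y = ⊥ := by_contra fun h1 => by
    obtain ⟨k, rfl⟩ : ∃ j, k = j + 1 := ⟨k - 1, by
      by_contra h2
      obtain rfl : k = 0 := by omega
      exact h1 (by simp [orderOf_eq_one_iff.1 ho])⟩
    have key : ∀ (z : G) (j : ℕ), orderOf z = p ^ (j + 1) → Nat.card (zpowers (z ^ p ^ j)) = p := fun z j hz => by
      rw [Nat.card_zpowers, orderOf_pow_of_dvd (pow_pos hp'.pos _).ne' (hz ▸ pow_dvd_pow p j.le_succ), hz, pow_succ,
        Nat.mul_div_cancel_left _ (pow_pos hp'.pos _)]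
    obtain ⟨e, rfl⟩ : ∃ j, e = k + j + 1 := ⟨e - k - 1, by omega⟩
    obtain ⟨X, hX, hXp⟩ := exists_card_eq_prime hp' (pgroup_dvd_card (hG.to_subgroup _) h1)
    have key2 : ∀ (z : G) (j : ℕ), orderOf z = p ^ (j + 1) → X ≤ zpowers z → X = zpowers (z ^ p ^ j) :=
      fun z j hz h2 => by
        rcases le_total_of_isCyclic (hG.to_subgroup _) inferInstance h2
          (zpowers_le.2 (npow_mem_zpowers z (p ^ j))) with h3 | h3
        · exact eq_of_le_of_card_le h3 (by rw [key z j hz, hXp])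
        · exact (eq_of_le_of_card_le h3 (by rw [key z j hz, hXp])).symm
    obtain ⟨i, hi⟩ : y ^ p ^ k ∈ zpowers (x ^ p ^ (k + e)) := by
      rw [← key2 x _ he (hX.trans inf_le_left), key2 y _ ho (hX.trans inf_le_right)]
      exact mem_zpowers _
    refine hmin k k.lt_succ_self ⟨y * ((x ^ p ^ e) ^ i)⁻¹, eq_top_iff.2 (hy.ge.trans (RegP.pair_le (RegP.left_mem _ _) ?_)),
      (h.reg.pow_eq_iff _ _ k).1 ?_⟩
    · simpa using mul_mem (RegP.right_mem x (y * ((x ^ p ^ e) ^ i)⁻¹)) (zpow_mem (pow_mem (RegP.left_mem x _) (p ^ e)) i)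
    · rw [← hi, ← zpow_natCast ((x ^ p ^ e) ^ i), ← zpow_mul, mul_comm, zpow_mul, zpow_natCast, ← pow_mul, ← pow_add,
        add_comm]
  refine ⟨zpowers x, zpowers y, inferInstance, inferInstance, hd, le_antisymm ?_ ?_⟩
  · have := Nat.card_le_card_of_injective (fun w : zpowers x × zpowers y => (w.1 * w.2 : G))
      (mul_injective_of_disjoint (disjoint_iff.2 hd))
    rwa [Nat.card_prod] at this
  have h1 := h.card_le_pow ⊤ k
  have h2 : powerClosure p k ⊤ ≤ zpowers (x ^ p ^ k) := PGroup.powerClosure_le_iff.2 fun g _ => by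
    have h3 : g ∈ h.reg.om k ⊔ zpowers x := (hy.ge.trans (RegP.pair_le (mem_sup_right (mem_zpowers x))
      (mem_sup_left (h.reg.mem_om.2 hf)))) trivial
    obtain ⟨w, hw, i, rfl⟩ := (PGroup.mem_sup_zpowers_iff (le_normalizer_of_normal (mem_top x))).1 h3
    rw [(h.reg.pow_eq_iff (w * x ^ i) (x ^ i) k).2 (by simpa using h.reg.mem_om.1 hw), ← zpow_natCast (x ^ i),
      ← zpow_mul, mul_comm, zpow_mul, zpow_natCast]
    exact zpow_mem_zpowers _ _
  rw [card_top] at h1
  refine h1.trans ((Nat.mul_le_mul_left _ (card_le_of_le h2)).trans (le_of_eq ?_))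
  rw [Nat.card_zpowers, Nat.card_zpowers, Nat.card_zpowers, orderOf_pow_of_dvd (pow_pos hp'.pos _).ne'
    (he ▸ pow_dvd_pow p hfe), he, ho, Nat.pow_div hfe hp'.pos, ← pow_add, ← pow_add]
  congr 1
  omega

end Cfsg.Agent.S3884
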