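import Cfsg.Statements.S3885
import Cfsg.Agent.Lib.BG.Hall
import Cfsg.Agent.Lib.FGS.MetaP

set_option autoImplicit false
open Cfsg

namespace Cfsg.Agent.S3885

/-- Let p be an odd prime and G a finite metacyclic p-group (G has a cyclic normal subgroup with cyclic quotient). Then every abelian subgroup K of G containing the center of G is the center of its own centralizer: K = Z(C_G(K)). -/
theorem result {G : Type*} [Group G] [Finite G] {p : ℕ} [Fact p.Prime] (hp : p ≠ 2) (hG : IsPGroup p G) (hmc : Cfsg.IsMetacyclic G) (K : Subgroup G) (hK : IsMulCommutative ↥K) (hZ : Subgroup.center G ≤ K) :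
    K = Subgroup.centralizer (K : Set G) ⊓ Subgroup.centralizer (Subgroup.centralizer (K : Set G) : Set G) := by
  open Subgroup Cfsg.Lib Cfsg.Lib.BG Cfsg.Lib.Transfer in
  open Cfsg.Lib.FGS in
  have h := MP.mk hp hG hmc
  have h1 := (h.measure_eq hZ).trans (h.measure_eq (center_le_centralizer K)).symm
  rw [mul_comm] at h1
  rw [← eq_of_le_of_card_le (cent_symm (le_refl 𝐂(K))) (Nat.eq_of_mul_eq_mul_left Nat.card_pos h1).ge,
    inf_eq_right.2 (abelian_cent hK)]

end Cfsg.Agent.S3885
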