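import Cfsg.Statements.S3886
import Cfsg.Agent.Lib.BG.Hall
import Cfsg.Agent.Lib.FGS.MetaP

set_option autoImplicit false
open Cfsg

namespace Cfsg.Agent.S3886

/-- Let p be an odd prime and G a finite metacyclic p-group (G has a cyclic normal subgroup with cyclic quotient). Then the largest value of |R| · |Z(R)| over subgroups R of G is |G : G'|², and the subgroups attaining it (the centrally large subgroups) are exactly the non-abelian subgroups together with the maximal abelian subgroups of G. -/
theorem result {G : Type*} [Group G] [Finite G] {p : ℕ} [Fact p.Prime] (hp : p ≠ 2) (hG : IsPGroup p G) (hmc : Cfsg.IsMetacyclic G) : Cfsg.maxCentralProduct G = (commutator G).index ^ 2 ∧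
    ∀ R : Subgroup G, Cfsg.IsCentrallyLarge R ↔ (¬ IsMulCommutative ↥R ∨ Maximal (fun K : Subgroup G => IsMulCommutative ↥K) R) := by
  open Subgroup Cfsg.Lib Cfsg.Lib.BG Cfsg.Lib.Transfer in
  open Cfsg.Lib.FGS in
  have h := MP.mk hp hG hmc
  have h1 : ∀ R : Subgroup G, ¬ IsMulCommutative R →
      Nat.card R * Nat.card (center R) = (_root_.commutator G).index ^ 2 := fun R hR => by
    rw [(MP.mk hp (hG.to_subgroup R) (h.sub R)).card_mul_card_center]
    congr 1
    have h2 := (_root_.commutator R).card_mul_index.trans (h.index_der hR).symm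
    rw [← Subgroup.card_subtype, map_subtype_commutator] at h2
    exact Nat.eq_of_mul_eq_mul_left Nat.card_pos h2
  have h2 : ∀ R : Subgroup G, IsMulCommutative R → Nat.card R * Nat.card (center R) = Nat.card R ^ 2 := fun R hR => by
    rw [center_eq_top_iff.2 hR, card_top, sq]
  have h3 : maxCentralProduct G = (_root_.commutator G).index ^ 2 := by
    refine IsGreatest.csSup_eq ⟨⟨⊤, ?_⟩, ?_⟩
    · rw [← h.card_mul_card_center, card_top, ← Subgroup.card_subtype, PGroup.map_subtype_center]
      simp [centralizer_univ]
    rintro _ ⟨R, rfl⟩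
    by_cases hR : IsMulCommutative R
    · rw [h2 R hR]; exact Nat.pow_le_pow_left ((h.comm_iff R).1 hR) 2
    · exact (h1 R hR).le
  refine ⟨h3, fun R => ?_⟩
  rw [IsCentrallyLarge, h3, h.max_iff]
  by_cases hR : IsMulCommutative R
  · simp [h2 R hR, hR]
  · simp [h1 R hR, hR]

end Cfsg.Agent.S3886
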