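import Cfsg.Statements.S3887
import Cfsg.Agent.Lib.BG.Hall
import Cfsg.Agent.Lib.FGS.MetaP

set_option autoImplicit false
open Cfsg

namespace Cfsg.Agent.S3887

/-- Let p be an odd prime and G a finite metacyclic p-group (G has a cyclic normal subgroup with cyclic quotient). Then a subgroup R of G maximizes |R| · |C_G(R)| over all subgroups of G if and only if R contains the center of G. -/
theorem result {G : Type*} [Group G] [Finite G] {p : ℕ} [Fact p.Prime] (hp : p ≠ 2) (hG : IsPGroup p G) (hmc : Cfsg.IsMetacyclic G) (R : Subgroup G) : Cfsg.IsCentralizerLarge R ↔ Subgroup.center G ≤ R := by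
  open Subgroup Cfsg.Lib Cfsg.Lib.BG Cfsg.Lib.Transfer in
  open Cfsg.Lib.FGS in
  have h := MP.mk hp hG hmc
  have h3 : maxCentralizerProduct G = Nat.card G * Nat.card (center G) :=
    IsGreatest.csSup_eq ⟨⟨⊤, h.measure_eq le_top⟩, by rintro _ ⟨R, rfl⟩; exact h.measure_top⟩
  rw [IsCentralizerLarge, h3]
  refine ⟨fun e => ?_, h.measure_eq⟩
  have h1 := h.measure_eq (le_sup_right (a := R))
  rw [cent_sup, centralizer_eq_top_iff_subset.2 (le_refl (center G)), inf_top_eq, ← e] at h1
  exact eq_of_le_of_card_le le_sup_left (Nat.eq_of_mul_eq_mul_right Nat.card_pos h1).le ▸ le_sup_right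

end Cfsg.Agent.S3887
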