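import Cfsg.Statements.S3888
import Cfsg.Agent.Lib.FGS.RkOddB
-- import your own Cfsg.Agent.* helpers here

set_option autoImplicit false
open Cfsg

namespace Cfsg.Agent.S3888

/-- The classification of the p-groups of rank at most two for odd p. Let p be an odd prime and G a group of order p^n with no elementary abelian subgroup of order p³. Then one of the following holds: G is metacyclic; n ≥ 3 and G is generated by elements x, y, z with x^p = y^p = z^(p^(n−2)) = 1, z commuting with x and y, and x⁻¹yx = y z^(p^(n−3)); n ≥ 4 and G is generated by elements x, y, z with x^p = y^p = z^(p^(n−2)) = 1, yz = zy, x⁻¹yx = y z^(s p^(n−3)) and x⁻¹zx = yz, where s = 1 or s is a quadratic non-residue modulo p; or p = 3 and G has maximal class (nilpotency class n − 1). -/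
theorem result {G : Type*} [Group G] [Finite G] {p : ℕ} [Fact p.Prime] (hp : p ≠ 2) (n : ℕ) (hG : Nat.card G = p ^ n)
    (hrk : Cfsg.PRankLE p 2 G) :
    Cfsg.IsMetacyclic G ∨
    (3 ≤ n ∧ ∃ x y z : G, Subgroup.closure ({x, y, z} : Set G) = ⊤ ∧ x ^ p = 1 ∧ y ^ p = 1 ∧ z ^ p ^ (n - 2) = 1 ∧
        x * z = z * x ∧ y * z = z * y ∧ x⁻¹ * y * x = y * z ^ p ^ (n - 3)) ∨
    (4 ≤ n ∧ ∃ (s : ℕ) (x y z : G), (s = 1 ∨ ¬ IsSquare (s : ZMod p)) ∧ Subgroup.closure ({x, y, z} : Set G) = ⊤ ∧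
        x ^ p = 1 ∧ y ^ p = 1 ∧ z ^ p ^ (n - 2) = 1 ∧ y * z = z * y ∧ x⁻¹ * y * x = y * z ^ (s * p ^ (n - 3)) ∧
        x⁻¹ * z * x = y * z) ∨
    (p = 3 ∧ 2 ≤ n ∧ (⊤ : Subgroup G).lowerCentralSeries (n - 2) ≠ ⊥) := by
  have hP := IsPGroup.of_card hG
  by_cases hc : IsCyclic G
  · obtain ⟨g, hg⟩ := isCyclic_iff_exists_zpowers_eq_top.1 hc
    exact .inl (Cfsg.Lib.PGroup.isMetacyclic_iff_exists.2
      ⟨g, g, Subgroup.le_normalizer (Subgroup.mem_zpowers g), by simp [hg]⟩)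
  obtain ⟨V, h⟩ := Cfsg.Lib.RkOdd.Cfg.of_rank hp hP hrk hc
  by_cases h3 : p = 3
  · rcases h.reduce hG with h1 | h1 | ⟨x, h1, h2, h4⟩
    · exact .inl h1
    · exact .inr (.inr (.inr ⟨h3, h1⟩))
    · exact .inr ((h.types h1 hG h2 h4).imp_right .inl)
  · have h5 := (Fact.out : p.Prime).two_le
    rcases h.reduce_of_three_lt (by omega) hrk with h1 | ⟨x, h1, h2, h4⟩
    · exact .inl h1
    · exact .inr ((h.types h1 hG h2 h4).imp_right .inl)

end Cfsg.Agent.S3888
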