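import Cfsg.Statements.S3895
import Cfsg.Agent.Lib.FGS.KPi

set_option autoImplicit false
open Cfsg

namespace Cfsg.Agent.S3895

open Cfsg.Lib Cfsg.Lib.FGS

/-- Let G be a finite group with Sylow 2-subgroup P, and write k₂(G) for the number of conjugacy classes of G consisting of 2-elements (elements of 2-power order, the identity included). Then k₂(G) > |P|/2 if and only if G has a normal 2-complement and P has more than |P|/2 conjugacy classes. -/
theorem result {G : Type*} [Group G] [Finite G] (P : Sylow 2 G) :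
    Nat.card ↥(P : Subgroup G) < 2 * Nat.card {c : ConjClasses G // ∀ x ∈ c.carrier, ∃ k : ℕ, orderOf x = 2 ^ k} ↔
      Cfsg.HasNormalPComplement 2 G ∧ Nat.card ↥(P : Subgroup G) < 2 * Nat.card (ConjClasses ↥(P : Subgroup G)) := by
  rw [← kp_eq]
  refine ⟨fun h => ⟨npc_two_of_kp P h, h.trans_le (Nat.mul_le_mul_left _
    ((kp_le_kp_of_le P le_rfl).trans ?_))⟩, fun ⟨h1, h2⟩ =>
    h2.trans_le (Nat.mul_le_mul_left _ (card_classes_le_kp P h1))⟩
  exact Nat.card_le_card_of_injective Subtype.val Subtype.val_injective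

end Cfsg.Agent.S3895
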