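import Cfsg.Statements.S3897
import Cfsg.Agent.Lib.FGS.KPi

set_option autoImplicit false
open Cfsg

namespace Cfsg.Agent.S3897

open Cfsg.Lib Cfsg.Lib.FGS

/-- Let p be an odd prime and G a finite group with Sylow p-subgroup P, and write k_p(G) for the number of conjugacy classes of G consisting of p-elements (elements of p-power order, the identity included). Then k_p(G) > (p + 1)|P|/(2p) if and only if G has a normal p-complement and P is abelian. -/
theorem result {G : Type*} [Group G] [Finite G] {p : ℕ} [Fact p.Prime] (hp : p ≠ 2) (P : Sylow p G) :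
    (p + 1) * Nat.card ↥(P : Subgroup G) < 2 * p * Nat.card {c : ConjClasses G // ∀ x ∈ c.carrier, ∃ k : ℕ, orderOf x = p ^ k} ↔
      Cfsg.HasNormalPComplement p G ∧ IsMulCommutative ↥(P : Subgroup G) := by
  rw [← kp_eq]
  refine ⟨npc_of_kp P, fun ⟨h1, h2⟩ => ?_⟩
  have h3 := card_classes_le_kp P h1
  have h4 : Nat.card (P : Subgroup G) ≤ Nat.card (ConjClasses (P : Subgroup G)) :=
    Nat.card_le_card_of_injective ConjClasses.mk fun a b hab => by
      obtain ⟨c, rfl⟩ := isConj_iff.1 (ConjClasses.mk_eq_mk_iff_isConj.1 hab)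
      rw [mul_comm' c a, mul_inv_cancel_right]
  have h5 := (Fact.out : p.Prime).one_lt
  have h6 : 0 < Nat.card (P : Subgroup G) := Nat.card_pos
  nlinarith

end Cfsg.Agent.S3897
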