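import Cfsg.Statements.S3898
import Cfsg.Agent.Lib.FGS.KPi
import Cfsg.Agent.Lib.Hall.Basic

set_option autoImplicit false
open Cfsg

namespace Cfsg.Agent.S3898

open Subgroup Cfsg.Lib Cfsg.Lib.FGS Cfsg.Lib.BG Cfsg.Lib.Transfer

/-- Let π be a finite set of primes containing 2 and G a finite group. Write k_π(G) for the number of conjugacy classes of G consisting of π-elements (elements all of whose order's prime divisors lie in π) and |G|_π for the π-part of the order of G. If k_π(G) > |G|_π/2, then G has a normal π-complement (a normal subgroup of order prime to π whose index is a π-number) and an abelian Hall subgroup for the set of odd primes in π. -/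
theorem result {G : Type*} [Group G] [Finite G] (π : Finset ℕ) (hπ : ∀ r ∈ π, r.Prime) (h2 : 2 ∈ π)
    (hk : π.prod (fun r => r ^ (Nat.card G).factorization r) < 2 * Nat.card {c : ConjClasses G // ∀ x ∈ c.carrier, ∀ r : ℕ, r.Prime → r ∣ orderOf x → r ∈ π}) :
    (∃ N : Subgroup G, N.Normal ∧ (∀ r : ℕ, r.Prime → r ∣ Nat.card ↥N → r ∉ π) ∧ ∀ r : ℕ, r.Prime → r ∣ N.index → r ∈ π) ∧ ∃ H : Subgroup G, Cfsg.IsPiHall ((↑π : Set ℕ) \ {2}) H ∧ IsMulCommutative ↥H := by
  replace hk := hk.trans_eq (congrArg _ (kQ_piElt' (G := G) (π : Set ℕ)).symm)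
  have hk' : ∀ q ∈ π, ∀ [Fact q.Prime] (P : Sylow q G), Nat.card (P : Subgroup G) < 2 * kp q G := by
    intro q hq _ P
    obtain ⟨b, e1, e2⟩ := kQ_le_kp_mul hπ hq P
    rw [e2] at hk
    refine Nat.lt_of_mul_lt_mul_right (a := b) ?_
    rw [mul_assoc]
    exact hk.trans_le (Nat.mul_le_mul_left _ e1)
  obtain ⟨T⟩ : Nonempty (Sylow 2 G) := inferInstance
  have hn := npc_two_of_kp T (hk' 2 h2 T)
  set K := pResidual 2 G with hK
  have hKo : (Nat.card K).Coprime 2 := hasNormalPComplement_iff_card_pResidual.1 hn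
  obtain ⟨k, hKi⟩ := exists_index_pResidual_eq_pow (G := G) (p := 2)
  obtain ⟨L, hL, h1, h3, h4⟩ := exists_char_complement (G := K) (π.erase 2) fun q hq => by
    have hq' := Finset.mem_of_mem_erase hq
    haveI := Fact.mk (hπ q hq')
    obtain ⟨P⟩ : Nonempty (Sylow q G) := inferInstance
    have hPK : ↑P ≤ K := fun x hx => by
      obtain ⟨j, hj⟩ := exists_pow_of_mem P.isPGroup' hx
      exact mem_pResidual_of_coprime (Nat.Coprime.coprime_dvd_left (orderOf_dvd_of_pow_eq_one hj)
        (Nat.Coprime.pow_left _ ((Nat.coprime_primes (hπ q hq') Nat.prime_two).2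
          (Finset.ne_of_mem_erase hq))))
    have e1 := le_cent_of_kp_odd P (N := K ⊓ 𝐍((P : Subgroup G))) (le_inf hPK (le_norm _)) inf_le_right
      ((Nat.coprime_two_right.1 hKo).of_dvd_nat (card_dvd_of_le inf_le_left)) (hk' q hq' P)
    refine ⟨hπ q hq', hasNormalPComplement_subgroup_of_normalizer_le P.isPGroup'
      (fun h => P.not_dvd_index (h.trans (relIndex_dvd_index_of_le hPK))) hPK e1, P.subtype hPK, ?_⟩
    haveI : IsMulCommutative (P : Subgroup G) :=
      le_centralizer_iff_isMulCommutative.1 ((le_inf hPK (le_norm _)).trans e1)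
    rw [Sylow.coe_subtype]
    infer_instance
  obtain ⟨H, hH, hc⟩ := exists_abelian_hall h1 h3 h4
  rw [Finset.coe_erase] at h1 h3 hH
  refine ⟨⟨L.map K.subtype, inferInstance, fun r hr hd hm => ?_, ?_⟩, H.map K.subtype, ?_, inferInstance⟩
  · rw [card_map_of_injective K.subtype_injective] at hd
    refine h1 r hr hd ⟨hm, ?_⟩
    rintro rfl
    exact (Nat.Prime.coprime_iff_not_dvd Nat.prime_two).1 hKo.symm (hd.trans (card_subgroup_dvd_card L))
  · rw [index_map_subtype, hKi]
    exact (h3.mono Set.diff_subset).mul (PiNat.prime_pow Nat.prime_two h2 k)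
  · refine Hall.isPiHallOf_top.1 (Hall.isPiHallOf_trans (Hall.isPiHallOf_map_subtype.2 hH) le_top ?_)
    rw [relIndex_top_right, hKi]
    exact Hall.pi'_prime_pow Nat.prime_two fun h => h.2 rfl

end Cfsg.Agent.S3898
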