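import Cfsg.Statements.S3899
import Cfsg.Agent.Lib.FGS.KPi

set_option autoImplicit false
open Cfsg

namespace Cfsg.Agent.S3899

open Cfsg.Lib Cfsg.Lib.FGS Cfsg.Lib.BG

/-- Let π be a finite non-empty set of odd primes with smallest member p and G a finite group. Write k_π(G) for the number of conjugacy classes of G consisting of π-elements (elements all of whose order's prime divisors lie in π) and |G|_π for the π-part of the order of G. If k_π(G) > (p + 1)|G|_π/(2p), then G has a normal π-complement (a normal subgroup of order prime to π whose index is a π-number) and an abelian Hall π-subgroup. -/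
theorem result {G : Type*} [Group G] [Finite G] (π : Finset ℕ) (hπ : ∀ r ∈ π, r.Prime) (h2 : 2 ∉ π) (p : ℕ) (hp : p ∈ π)
    (hmin : ∀ r ∈ π, p ≤ r) (hk : (p + 1) * π.prod (fun r => r ^ (Nat.card G).factorization r) < 2 * p * Nat.card {c : ConjClasses G // ∀ x ∈ c.carrier, ∀ r : ℕ, r.Prime → r ∣ orderOf x → r ∈ π}) :
    (∃ N : Subgroup G, N.Normal ∧ (∀ r : ℕ, r.Prime → r ∣ Nat.card ↥N → r ∉ π) ∧ ∀ r : ℕ, r.Prime → r ∣ N.index → r ∈ π) ∧ ∃ H : Subgroup G, Cfsg.IsPiHall (↑π : Set ℕ) H ∧ IsMulCommutative ↥H := by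
  replace hk := hk.trans_eq (congrArg _ (kQ_piElt' (G := G) (π : Set ℕ)).symm)
  obtain ⟨L, hL, h1, h2, h3⟩ := exists_char_complement (G := G) π fun q hq => by
    haveI := Fact.mk (hπ q hq)
    obtain ⟨P⟩ : Nonempty (Sylow q G) := inferInstance
    obtain ⟨b, e1, e2⟩ := kQ_le_kp_mul hπ hq P
    rw [e2] at hk
    have e3 : (p + 1) * Nat.card (P : Subgroup G) < 2 * p * kp q G := by
      refine Nat.lt_of_mul_lt_mul_right (a := b) ?_
      rw [mul_assoc, mul_assoc]
      exact hk.trans_le (Nat.mul_le_mul_left _ e1)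
    have e4 := hmin q hq
    have e5 := (hπ p hp).pos
    have e6 := npc_of_kp P (by
      refine Nat.lt_of_mul_lt_mul_left (a := p) ?_
      have e7 : q * ((p + 1) * Nat.card (P : Subgroup G)) < q * (2 * p * kp q G) :=
        Nat.mul_lt_mul_of_pos_left e3 (by omega)
      have e8 := Nat.mul_le_mul_right (Nat.card (P : Subgroup G)) e4
      nlinarith)
    exact ⟨hπ q hq, e6.1, P, e6.2⟩
  exact ⟨⟨L, inferInstance, h1, h2⟩, exists_abelian_hall h1 h2 h3⟩

end Cfsg.Agent.S3899
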