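import Cfsg.Statements.S3904
import Cfsg.Agent.Lib.Misc.MaxCent

set_option autoImplicit false
open Cfsg

namespace Cfsg.Agent.S3904

open Subgroup Cfsg.Lib

/-- Let G be a non-abelian finite group in which the centralizer of every non-central element is a maximal subgroup. Then G/Z(G) is either an elementary abelian p-group for some prime p, or a minimal non-abelian group (non-abelian with all proper subgroups abelian) of order p^a · q for distinct primes p, q with a normal Sylow p-subgroup. -/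
theorem result {G : Type*} [Group G] [Finite G] (hna : ¬ IsMulCommutative G)
    (h : ∀ x : G, x ∉ Subgroup.center G → IsCoatom (Subgroup.centralizer ({x} : Set G))) :
    (∃ p : ℕ, p.Prime ∧ Cfsg.IsElementaryAbelian p (⊤ : Subgroup (G ⧸ Subgroup.center G))) ∨
    (¬ IsMulCommutative (G ⧸ Subgroup.center G) ∧ (∀ H : Subgroup (G ⧸ Subgroup.center G), H ≠ ⊤ → IsMulCommutative ↥H) ∧
      ∃ p q a : ℕ, p.Prime ∧ q.Prime ∧ p ≠ q ∧ Nat.card (G ⧸ Subgroup.center G) = p ^ a * q ∧
        ∀ P : Subgroup (G ⧸ Subgroup.center G), Nat.card ↥P = p ^ a → P.Normal) := by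
  have hs : Function.Surjective ((QuotientGroup.mk' (center G)).comp (⊤ : Subgroup G).subtype) :=
    (QuotientGroup.mk'_surjective _).comp fun g => ⟨⟨g, trivial⟩, rfl⟩
  refine (Misc.maxCent_struct (N := ⊤) (fun x _ hx => h x (by simpa [centralizer_univ] using hx)) _ hs fun x => by
    simp [centralizer_univ]).imp_right ?_
  rintro ⟨H, K, p, hp, hq, hK, h0, h1, h2, h3, h4⟩
  have := Fact.mk hp
  have := Fact.mk hq
  have := h3.1
  obtain ⟨a, ha⟩ := (Core.isPGroup_of_isElementaryAbelian h3).exists_card_eq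
  have hc := Core.isComplement'_of_inf_eq_bot (Frobenius.inf_eq_bot_of_fpf h2) h1
  have hcop := Frobenius.coprime_card_of_fpf le_normalizer_of_normal h2
  have ha0 : a ≠ 0 := fun e => h0 (card_eq_one.1 (by simpa [e] using ha))
  have hne : p ≠ Nat.card H := fun e => by
    rw [ha, ← e, Nat.coprime_pow_right_iff (Nat.pos_of_ne_zero ha0), Nat.coprime_self] at hcop
    exact hp.one_lt.ne' hcop
  have hm : Core.IsMinNormal K := ⟨hK, h0, fun L _ hL => h4 L hL (Normal.map inferInstance _ fun g => ⟨⟨g, trivial⟩, rfl⟩)⟩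
  have key : ∀ L, L ≠ ⊤ → ¬ L ≤ K → Nat.card L = Nat.card H := fun L hL hLK => by
    have h5 : K ⊔ L = ⊤ := by
      refine index_eq_one.1 (((Nat.dvd_prime hq).1 ((index_dvd_of_le le_sup_left).trans
        hc.symm.index_eq_card.dvd)).resolve_right fun e => hLK ((le_sup_right (a := K)).trans (relIndex_eq_one.1 ?_)))
      exact Nat.eq_of_mul_eq_mul_right hq.pos (by
        rw [one_mul, ← e, relIndex_mul_index le_sup_left, e, hc.symm.index_eq_card])
    rw [← (Core.isComplement'_of_inf_eq_bot (hm.inf_eq_bot_of_sup_eq_top hL h5) h5).symm.index_eq_card, hc.symm.index_eq_card]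
  refine ⟨fun e => ?_, fun L hL => ?_, p, _, a, hp, hq, hne, by rw [← hc.card_mul, ha], fun P hP => ?_⟩
  · obtain ⟨x, hx, x1⟩ := H.bot_or_exists_ne_one.resolve_left fun e => hq.one_lt.ne' (card_eq_one.2 e)
    exact h0 (eq_bot_iff.2 fun k hk => (h2 x hx x1).le ⟨hk, mem_centralizer_singleton_iff.2 (mul_comm' _ _)⟩)
  · by_cases hLK : L ≤ K
    · exact ⟨⟨fun a b => Subtype.ext (setLike_mul_comm (s := K) (hLK a.2) (hLK b.2))⟩⟩
    have := isCyclic_of_prime_card (key L hL hLK)
    infer_instance
  · rwa [eq_of_le_of_card_ge (by_contra fun hPK => hne ((Nat.prime_dvd_prime_iff_eq hp hq).1 ?_)) (ha.trans hP.symm).le]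
    rw [← key P (fun e => ?_) hPK, hP]
    · exact dvd_pow_self p ha0
    rw [e, card_top, ← hc.card_mul, ha] at hP
    exact hq.one_lt.ne' (Nat.eq_of_mul_eq_mul_left (pow_pos hp.pos a) (hP.trans (mul_one _).symm))

end Cfsg.Agent.S3904
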