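import Cfsg.Statements.S3905
import Cfsg.Agent.Lib.Misc.MaxCent

set_option autoImplicit false
open Cfsg

namespace Cfsg.Agent.S3905

open Subgroup Cfsg.Lib

/-- Let N be a normal subgroup of the finite group G such that for every element x of N outside the center of N the centralizer C_G(x) is a maximal subgroup of G. Then N/Z(N) is either an elementary abelian p-group for some prime p, or a Frobenius group whose kernel is an elementary abelian normal subgroup and whose complement has prime order. -/
theorem result {G : Type*} [Group G] [Finite G] (N : Subgroup G) [N.Normal]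
    (h : ∀ x : G, x ∈ N → x ∉ Subgroup.centralizer (N : Set G) → IsCoatom (Subgroup.centralizer ({x} : Set G))) :
    (∃ p : ℕ, p.Prime ∧ Cfsg.IsElementaryAbelian p (⊤ : Subgroup (↥N ⧸ Subgroup.center ↥N))) ∨
    (∃ (Q K : Subgroup (↥N ⧸ Subgroup.center ↥N)) (p : ℕ), p.Prime ∧ Cfsg.IsFrobeniusComplement Q ∧ (Nat.card ↥Q).Prime ∧
      K.Normal ∧ (K : Set (↥N ⧸ Subgroup.center ↥N)) = Cfsg.frobeniusKernel Q ∧ Cfsg.IsElementaryAbelian p K) := by
  refine (Misc.maxCent_struct h (QuotientGroup.mk' (center N)) (QuotientGroup.mk'_surjective _) fun x =>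
    (QuotientGroup.eq_one_iff x).trans ⟨fun e g hg => congrArg Subtype.val (mem_center_iff.1 e ⟨g, hg⟩),
      fun e => mem_center_iff.2 fun g => Subtype.ext (e g g.2)⟩).imp_right ?_
  rintro ⟨H, K, p, hp, hq, hK, h0, h1, h2, h3, -⟩
  exact ⟨H, K, p, hp, Frobenius.isFrobeniusComplement_of_fpf h1 h0 (fun e => hq.one_lt.ne' (card_eq_one.2 e)) h2, hq, hK,
    (Frobenius.frobeniusKernel_eq_of_fpf h1 h2).symm, h3⟩

end Cfsg.Agent.S3905
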