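import Cfsg.Statements.S3908
import Cfsg.Agent.Lib.BG.Hall
import Cfsg.Agent.Lib.PGroup.RankOne

set_option autoImplicit false
open Cfsg

namespace Cfsg.Agent.S3908

/-- Let G be a finite group in which any two abelian subgroups of the same order are conjugate. Then a Sylow 2-subgroup of G is cyclic, elementary abelian or generalized quaternion, and for an odd prime p a Sylow p-subgroup of G is cyclic or has exponent dividing p. -/
theorem result {G : Type*} [Group G] [Finite G] (hB : ∀ A B : Subgroup G, IsMulCommutative ↥A → IsMulCommutative ↥B → Nat.card ↥A = Nat.card ↥B → ∃ g : G, B = A.map (MulAut.conj g).toMonoidHom) :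
    (∀ P : Sylow 2 G, IsCyclic ↥(P : Subgroup G) ∨ Cfsg.IsElementaryAbelian 2 (P : Subgroup G) ∨ ∃ k : ℕ, Nonempty (↥(P : Subgroup G) ≃* QuaternionGroup (2 ^ k))) ∧
    ∀ (p : ℕ) [Fact p.Prime], p ≠ 2 → ∀ P : Sylow p G, IsCyclic ↥(P : Subgroup G) ∨ ∀ x ∈ (P : Subgroup G), x ^ p = 1 := by
  open Subgroup Cfsg.Lib Cfsg.Lib.BG Cfsg.Lib.Transfer in
  open Cfsg.Lib.PGroup in
  have key : ∀ (p : ℕ) [Fact p.Prime] (P : Sylow p G), ¬ PRankLE p 1 P → ∀ x ∈ (P : Subgroup G), x ^ p = 1 := by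
    intro p hp P h x hx
    obtain ⟨A, hA, hA2⟩ := PGroup.not_pRankLE_iff.1 h
    by_contra hn
    obtain ⟨k, hk⟩ := (P.isPGroup'.to_subgroup (zpowers ⟨x, hx⟩)).exists_card_eq
    rw [Nat.card_zpowers, ← orderOf_coe] at hk
    obtain ⟨k, rfl⟩ : ∃ j, k = j + 2 := ⟨k - 2, by
      by_contra e
      exact hn (orderOf_dvd_iff_pow_eq_one.1 (hk ▸ (pow_dvd_pow p (by omega : k ≤ 1)).trans (by simp)))⟩
    have h1 : orderOf (x ^ p ^ k) = p ^ 2 := by
      rw [orderOf_pow_of_dvd (pow_pos hp.out.pos _).ne' (hk ▸ pow_dvd_pow p (by omega)), hk, pow_add,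
        Nat.mul_div_cancel_left _ (pow_pos hp.out.pos _)]
    obtain ⟨g, hg⟩ := hB (A.map (P : Subgroup G).subtype) (zpowers (x ^ p ^ k)) (elemAb_map _ hA).1 inferInstance
      (by rw [Subgroup.card_subtype, hA2, Nat.card_zpowers, h1])
    have h2 := Nat.le_of_dvd hp.out.pos (orderOf_dvd_of_pow_eq_one
      ((elemAb_map _ (elemAb_map _ hA)).2 _ (hg.le (mem_zpowers _))))
    rw [h1] at h2
    nlinarith [hp.out.one_lt]
  refine ⟨fun P => ?_, fun p _ hp P => ?_⟩
  · by_cases h : PRankLE 2 1 P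
    · exact (isCyclic_or_quaternion_of_pRankLE_one P.isPGroup' h).imp_right fun ⟨_, n, e⟩ => .inr ⟨_, e⟩
    · exact .inr (.inl (PGroup.elemAb_two_iff.2 (key 2 P h)))
  · exact or_iff_not_imp_left.2 fun h => key p P fun e => h (isCyclic_of_pRankLE_one_of_odd hp P.isPGroup' e)

end Cfsg.Agent.S3908
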