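import Cfsg.Statements.S3909
import Cfsg.Agent.Lib.FGS.Count
import Cfsg.Agent.Lib.Core.MinNormal

set_option autoImplicit false
open Cfsg

namespace Cfsg.Agent.S3909

/-- Let G be a finite group in which any two abelian subgroups of the same order are conjugate. Let M be a normal subgroup of G. If M contains an element of the same order as a ∈ G, then a ∈ M; and if M is elementary abelian of order p^t with p prime and t ≥ 2, then M is the unique Sylow p-subgroup of G. -/
theorem result {G : Type*} [Group G] [Finite G] (hB : ∀ A B : Subgroup G, IsMulCommutative ↥A → IsMulCommutative ↥B → Nat.card ↥A = Nat.card ↥B → ∃ g : G, B = A.map (MulAut.conj g).toMonoidHom) (M : Subgroup G) [M.Normal] :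
    (∀ a : G, (∃ m ∈ M, orderOf m = orderOf a) → a ∈ M) ∧
    ∀ (p t : ℕ) [Fact p.Prime], 2 ≤ t → Nat.card ↥M = p ^ t → Cfsg.IsElementaryAbelian p M → ∀ P : Sylow p G, (P : Subgroup G) = M := by
  open Cfsg.Lib Cfsg.Lib.FGS Cfsg.Lib.Transfer Subgroup in
  have h1 : ∀ A B : Subgroup G, IsMulCommutative A → IsMulCommutative B → Nat.card A = Nat.card B →
      A ≤ M → B ≤ M := fun A B hA hB' h hAM => by
    obtain ⟨g, rfl⟩ := hB A B hA hB' h
    exact Core.map_conj_le_of_mem_normalizer hAM (le_normalizer_of_normal (mem_top g))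
  have h2 : ∀ a : G, (∃ m ∈ M, orderOf m = orderOf a) → a ∈ M := by
    rintro a ⟨m, hm, ho⟩
    exact h1 (zpowers m) (zpowers a) inferInstance inferInstance
      (by rw [Nat.card_zpowers, Nat.card_zpowers, ho]) (zpowers_le.mpr hm) (mem_zpowers a)
  refine ⟨h2, fun p t _ ht hM hE P => le_antisymm (fun x hx => ?_)
    ((PGroup.elemAb_isPGroup hE).le_sylow_of_normal P)⟩
  have hp : p.Prime := Fact.out
  obtain ⟨k, hk⟩ := orderOf_eq_pow_iff.mpr (exists_pow_of_mem P.isPGroup' hx)
  rcases k with _ | _ | k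
  · rw [orderOf_eq_one_iff.mp hk]; exact one_mem _
  · obtain ⟨m, hm, ho⟩ := Core.exists_mem_orderOf_eq_prime (H := M) hp
      (hM ▸ dvd_pow_self p (by omega))
    exact h2 x ⟨m, hm, by rw [ho, hk, zero_add, pow_one]⟩
  · exfalso
    obtain ⟨K, -, hK, hKc⟩ := PGroup.exists_between_card_eq_pow (PGroup.elemAb_isPGroup hE)
      (bot_le : ⊥ ≤ M) (k := 2) (by rw [card_bot]; exact Nat.one_le_pow _ _ hp.pos)
      (hM ▸ Nat.pow_le_pow_right hp.pos ht)
    have ho : orderOf (x ^ p ^ k) = p ^ 2 := by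
      rw [orderOf_pow' _ (pow_ne_zero _ hp.ne_zero), hk, Nat.gcd_eq_right (pow_dvd_pow _ (by omega)),
        Nat.pow_div (by omega) hp.pos]
      congr 1; omega
    have h3 := h1 K (zpowers (x ^ p ^ k)) (PGroup.elemAb_of_le hE hK).1 inferInstance
      (by rw [Nat.card_zpowers, ho, hKc]) hK (mem_zpowers _)
    have h4 := orderOf_dvd_of_pow_eq_one (hE.2 _ h3)
    rw [ho] at h4
    have := Nat.le_of_dvd hp.pos h4
    nlinarith [hp.one_lt]

end Cfsg.Agent.S3909
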