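import Cfsg.Statements.S3910
import Cfsg.Agent.Lib.FGS.Count

set_option autoImplicit false
open Cfsg

namespace Cfsg.Agent.S3910

section
open Cfsg.Lib Cfsg.Lib.FGS Cfsg.Lib.Transfer Subgroup

theorem pcase {G : Type*} [Group G] [Finite G] {p : ℕ} [hp : Fact p.Prime] (hG : IsPGroup p G)
    (hB : ∀ A B : Subgroup G, IsMulCommutative ↥A → IsMulCommutative ↥B → Nat.card ↥A = Nat.card ↥B →
      ∃ g : G, B = A.map (MulAut.conj g).toMonoidHom) : IsCyclic G := by
  have := hG.isNilpotent
  have h1 : ∀ A B : Subgroup G, A.Normal → IsMulCommutative A → IsMulCommutative B →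
      Nat.card A = Nat.card B → B = A := fun A B hA h1 h2 h3 => by
    obtain ⟨g, rfl⟩ := hB A B h1 h2 h3
    exact conj_eq_self_of_normal g A
  obtain ⟨A, -, hAn, hAc, hA⟩ := PGroup.exists_scn_ge (⊥ : Subgroup G)
  have h2 : A = ⊤ := by
    rw [eq_top_iff']
    intro x
    obtain ⟨j, hj⟩ := (hG.to_subgroup (zpowers x)).exists_card_eq
    obtain ⟨a, ha⟩ := (hG.to_subgroup A).exists_card_eq
    rcases le_total (p ^ j) (Nat.card A) with h | h
    · obtain ⟨K, hKn, hKA, hK⟩ := PGroup.exists_normal_le_card_eq_pow hG A h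
      exact hKA (h1 K _ hKn (PGroup.isMulCommutative_of_le hKA hAc) inferInstance
        (hK.trans hj.symm) ▸ mem_zpowers x)
    · obtain ⟨L, -, hL, hLc⟩ := PGroup.exists_between_card_eq_pow (hG.to_subgroup (zpowers x))
        (bot_le : ⊥ ≤ zpowers x) (k := a) (by rw [card_bot]; exact Nat.one_le_pow _ _ hp.out.pos)
        (by rw [← ha, hj]; exact h)
      rw [h1 A L hAn hAc (PGroup.isMulCommutative_of_le hL inferInstance) (ha.trans hLc.symm)] at hL
      rw [← hA]
      exact le_centralizer_iff.mp (hL.trans (le_centralizer _)) (mem_zpowers x)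
  subst h2
  have h3 : IsCyclic (⊤ : Subgroup G) := PGroup.isCyclic_of_isMulCommutative_of_pRankLE_one
    (hG.to_subgroup ⊤) hAc (PGroup.pRankLE_top_iff.mpr (PGroup.pRankLE_one_of_unique_subgroup
      fun H K hH hK => h1 K H ⟨fun n hn g => by
        rwa [PGroup.isMulCommutative_iff.mp hAc g trivial n trivial, mul_inv_cancel_right]⟩
        (PGroup.isMulCommutative_of_le le_top hAc) (PGroup.isMulCommutative_of_le le_top hAc)
        (hK.trans hH.symm)))
  exact isCyclic_of_surjective _ topEquiv.surjective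

end

/-- A finite nilpotent group in which any two abelian subgroups of the same order are conjugate is cyclic. -/
theorem result {G : Type*} [Group G] [Finite G] (hB : ∀ A B : Subgroup G, IsMulCommutative ↥A → IsMulCommutative ↥B → Nat.card ↥A = Nat.card ↥B → ∃ g : G, B = A.map (MulAut.conj g).toMonoidHom) (hnil : Group.IsNilpotent G) : IsCyclic G := by
  open Cfsg.Lib Cfsg.Lib.FGS Cfsg.Lib.Transfer Subgroup in
  refine isCyclic_of_sylow_of_isNilpotent G fun p _ P => pcase P.isPGroup' fun A B hA hB' h => ?_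
  obtain ⟨g, hg⟩ := hB (A.map (P : Subgroup G).subtype) (B.map (P : Subgroup G).subtype)
    (map_isMulCommutative _ _) (map_isMulCommutative _ _)
    (by rw [Core.card_map_subtype, Core.card_map_subtype, h])
  obtain ⟨u, hu, o, ho, rfl⟩ := mem_sup_of_normal_right.mp
    (Core.pCore_sup_pPrimeCore_eq_top (G := G) p ▸ mem_top g : g ∈ pCore p G ⊔ pPrimeCore p G)
  rw [← Core.sylow_eq_pCore P] at hu
  refine ⟨⟨u, hu⟩, map_injective (P : Subgroup G).subtype_injective ?_⟩
  rw [map_subtype_conj, hg, ← conj_conj, conj_eq_self_of_mem_centralizer (g := o)]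
  refine centralizer_le (SetLike.coe_subset_coe.mpr (map_subtype_le A)) ?_
  rw [Core.sylow_eq_pCore P]
  exact Core.pPrimeCore_le_centralizer_pCore p G ho

end Cfsg.Agent.S3910
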