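import Cfsg.Statements.S3917
import Cfsg.Agent.Lib.FGS.Count

set_option autoImplicit false
open Cfsg

namespace Cfsg.Agent.S3917

/-- Say that a group has self-centralizing non-cyclic subgroups when every non-cyclic subgroup H satisfies C_G(H) ≤ H. A finite abelian group with self-centralizing non-cyclic subgroups is cyclic or elementary abelian of order p² for a prime p. -/
theorem result {G : Type*} [CommGroup G] [Finite G] (hX : (∀ H : Subgroup G, ¬ IsCyclic ↥H → Subgroup.centralizer (H : Set G) ≤ H)) :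
    IsCyclic G ∨ ∃ p : ℕ, p.Prime ∧ Nat.card G = p ^ 2 ∧ Monoid.exponent G = p := by
  open Cfsg.Lib Cfsg.Lib.FGS Cfsg.Lib.Transfer Subgroup in
  refine or_iff_not_imp_left.mpr fun h => ?_
  obtain ⟨p, hp, P, hP⟩ : ∃ (p : ℕ) (_ : Fact p.Prime) (P : Sylow p G), ¬ IsCyclic P := by
    by_contra hcon
    push Not at hcon
    exact h (isCyclic_of_sylow_of_isNilpotent G fun q hq P => hcon q hq P)
  obtain ⟨E, -, hE, hc⟩ := PGroup.not_pRankLE_subgroup_iff.mp fun h1 =>
    hP (PGroup.isCyclic_of_isMulCommutative_of_pRankLE_one P.isPGroup' inferInstance h1)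
  have h2 : E = ⊤ := eq_top_iff.mpr fun g _ =>
    hX E (PGroup.elemAb_not_isCyclic hE hc.ge) fun a _ => mul_comm a g
  subst h2
  rw [card_top] at hc
  refine ⟨p, hp.out, hc, ?_⟩
  have : Nontrivial G := by
    by_contra h1
    have := not_nontrivial_iff_subsingleton.mp h1
    exact h inferInstance
  exact (Monoid.exponent_eq_prime_iff hp.out).mpr fun g hg => orderOf_eq_prime (hE.2 g trivial) hg

end Cfsg.Agent.S3917
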