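import Cfsg.Statements.S3918
import Cfsg.Agent.Lib.FGS.Count

set_option autoImplicit false
open Cfsg

namespace Cfsg.Agent.S3918

/-- Say that a group has self-centralizing non-cyclic subgroups when every non-cyclic subgroup H satisfies C_G(H) ≤ H. For an odd prime p, a finite non-abelian p-group has self-centralizing non-cyclic subgroups if and only if it has order p³. -/
theorem result {G : Type*} [Group G] [Finite G] {p : ℕ} [Fact p.Prime] (hp : p ≠ 2) (hG : IsPGroup p G) (hna : ¬ IsMulCommutative G) :
    (∀ H : Subgroup G, ¬ IsCyclic ↥H → Subgroup.centralizer (H : Set G) ≤ H) ↔ Nat.card G = p ^ 3 := by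
  open Cfsg.Lib Cfsg.Lib.FGS Cfsg.Lib.Transfer Subgroup in
  have hp' : p.Prime := Fact.out
  have key : ∀ H : Subgroup G, ¬ IsMulCommutative H → p ^ 3 ≤ Nat.card H := fun H hH => by
    obtain ⟨k, hk⟩ := (hG.to_subgroup H).exists_card_eq
    rw [hk]
    refine Nat.pow_le_pow_right hp'.pos (not_lt.mp fun h => hH ?_)
    rcases (show k ≤ 1 ∨ k = 2 by omega) with h | rfl
    · have : IsCyclic H := isCyclic_of_card_dvd_prime (p := p)
        (by rw [hk]; exact (pow_dvd_pow p h).trans (pow_one p).dvd)
      infer_instance
    · exact IsPGroup.isMulCommutative_of_card_eq_prime_sq hk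
  have htop : ¬ IsMulCommutative (⊤ : Subgroup G) := fun h =>
    hna ⟨⟨fun a b => PGroup.isMulCommutative_iff.mp h a trivial b trivial⟩⟩
  constructor
  · intro h
    obtain ⟨E, -, hn, hE, hc⟩ := PGroup.exists_normal_elemAb_sq_of_odd hp hG ⊤
      fun h => htop inferInstance
    have h1 := index_centralizer_le_of_card_le_sq hG E hc.le
    rw [le_antisymm (h E (PGroup.elemAb_not_isCyclic hE hc.ge)) (PGroup.elemAb_le_centralizer hE)] at h1
    refine le_antisymm ?_ (card_top (G := G) ▸ key ⊤ htop)
    rw [← E.card_mul_index, hc, pow_succ p 2]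
    exact Nat.mul_le_mul_left _ h1
  · intro h H hH
    by_cases hc : IsMulCommutative H
    · obtain ⟨k, hk⟩ := (hG.to_subgroup H).exists_card_eq
      have h1 : 2 ≤ k := not_lt.mp fun h => hH (isCyclic_of_card_dvd_prime (p := p)
        (by rw [hk]; exact (pow_dvd_pow p (by omega)).trans (pow_one p).dvd))
      have h2 : H.index ∣ p := by
        have := H.card_mul_index
        rw [hk, h] at this
        refine Nat.dvd_of_mul_dvd_mul_left (pow_pos hp'.pos k) ?_
        rw [this, ← pow_succ]
        exact pow_dvd_pow p (by omega)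
      rcases (Nat.dvd_prime hp').mp h2 with h3 | h3
      · rw [index_eq_one.mp h3]; exact le_top
      · rcases (PGroup.isCoatom_of_index_prime (h3 ▸ hp')).le_iff.mp (le_centralizer H) with h4 | h4
        · exact absurd (isMulCommutative_of_index_center_dvd_prime hp'
            (centralizer_eq_top_iff_subset.mp h4) h2) hna
        · exact h4.le
    · rw [Core.eq_top_of_card_eq' (H := H) (h ▸ key H hc)]; exact le_top

end Cfsg.Agent.S3918
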