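import Cfsg.Statements.S3919
import Cfsg.Agent.Lib.BG.Hall
import Cfsg.Agent.Lib.FGS.Taussky

set_option autoImplicit false
open Cfsg

namespace Cfsg.Agent.S3919

/-- Say that a group has self-centralizing non-cyclic subgroups when every non-cyclic subgroup H satisfies C_G(H) ≤ H. A finite non-abelian 2-group G of order 2^n has self-centralizing non-cyclic subgroups if and only if G has nilpotency class n − 1 (that is, G is dihedral, semidihedral or generalized quaternion). -/
theorem result {G : Type*} [Group G] [Finite G] (hna : ¬ IsMulCommutative G) (n : ℕ) (hG : Nat.card G = 2 ^ n) :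
    (∀ H : Subgroup G, ¬ IsCyclic ↥H → Subgroup.centralizer (H : Set G) ≤ H) ↔ (⊤ : Subgroup G).lowerCentralSeries (n - 2) ≠ ⊥ := by
  open Subgroup Cfsg.Lib Cfsg.Lib.BG Cfsg.Lib.Transfer in
  open Cfsg.Lib.PGroup Cfsg.Lib.FGS Cfsg.Lib.Inv in
  have hp := IsPGroup.of_card hG
  obtain ⟨n, rfl⟩ : ∃ m, n = m + 3 := ⟨n - 3, by
    by_contra h
    have := isMulCommutative_of_card_le_sq (hp.to_subgroup ⊤) (by
      rw [card_top, hG]; exact Nat.pow_le_pow_right two_pos (by omega))
    exact hna ⟨⟨fun a b => PGroup.isMulCommutative_iff.1 this a trivial b trivial⟩⟩⟩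
  refine ⟨fun h => ?_, fun h H hH => ?_⟩
  · by_cases h1 : ∀ x y : G, orderOf x = 2 → orderOf y = 2 → x = y
    · obtain ⟨a, b, m, h2⟩ := exists_mc_of_unique hp hna h1
      have h3 := h2.card_eq
      rw [card_top, hG] at h3
      obtain rfl : n = m := by have := Nat.pow_right_injective le_rfl h3; omega
      exact mc_lcs_ne_bot h2
    · haveI : Nontrivial G := Finite.one_lt_card_iff_nontrivial.1 (hG ▸ Nat.one_lt_two_pow (by omega))
      obtain ⟨z, -, hz, ho⟩ := exists_mem_center_orderOf_eq hp ⊤ top_ne_bot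
      obtain ⟨t, ht, htz⟩ : ∃ t : G, orderOf t = 2 ∧ t ≠ z := by
        by_contra! h2
        exact h1 fun x y hx hy => (h2 x hx).trans (h2 y hy).symm
      have h4 := k4_sup ht ho htz (mem_center_iff.1 hz t)
      exact maxClass_of_self_centralizing (n := n + 1) hG h4.card_four (le_antisymm (h _ IsKleinFour.not_isCyclic)
        (le_centralizer_iff_isMulCommutative.2 (isMulCommutative_of_card_le_sq (hp.to_subgroup _) h4.card_four.le)))
  · obtain ⟨a, b, ε, δ, h⟩ : ∃ (a b : G) (ε δ : ℤ), MC ⊤ a b (n + 1) ε δ := by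
      obtain ⟨a, b, h | h | ⟨-, h⟩⟩ := exists_mc_of_maxClass hG h <;> exact ⟨a, b, _, _, h⟩
    simpa using mc_centralizer_le h le_top hH

end Cfsg.Agent.S3919
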