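import Cfsg.Statements.S3933
import Cfsg.Agent.Lib.Small.SylNum
import Cfsg.Agent.Lib.FGS.Sylow
import Cfsg.Agent.Lib.Char.Burnside

set_option autoImplicit false
open Cfsg

namespace Cfsg.Agent.S3933

section
open Subgroup Cfsg.Lib.FGS

universe u

/-- Sylow numbers of normal subgroups and quotients divide the Sylow number. -/
theorem dvd_both {G : Type*} [Group G] [Finite G] (p : ℕ) [Fact p.Prime] (K : Subgroup G)
    [K.Normal] : Nat.card (Sylow p K) ∣ Nat.card (Sylow p G) ∧
      Nat.card (Sylow p (G ⧸ K)) ∣ Nat.card (Sylow p G) := by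
  obtain ⟨P⟩ : Nonempty (Sylow p G) := inferInstance
  haveI : (((P : Subgroup G) ⊓ K).subgroupOf (((P : Subgroup G) ⊔ K) ⊓
      normalizer (((P : Subgroup G) ⊓ K : Subgroup G) : Set G))).Normal :=
    (normal_subgroupOf_iff_le_normalizer
      (le_inf (inf_le_left.trans le_sup_left) le_normalizer)).2 inf_le_right
  have h := Cfsg.Lib.Small.card_sylow_eq_mul_three K P rfl
  rw [h]
  exact ⟨Dvd.dvd.mul_right (dvd_mul_left _ _) _, Dvd.dvd.mul_right (dvd_mul_right _ _) _⟩

theorem pp_of_dvd {m n : ℕ} (h : n = 1 ∨ IsPrimePow n) (hd : m ∣ n) : m = 1 ∨ IsPrimePow m := by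
  rcases h with rfl | h
  · exact Or.inl (Nat.dvd_one.1 hd)
  · by_cases h1 : m = 1
    · exact Or.inl h1
    · exact Or.inr (h.dvd hd h1)

/-- The key step: two Sylow normalizers of coprime indices. -/
theorem key {G : Type*} [Group G] [Finite G] [IsSimpleGroup G] {p : ℕ} [hp : Fact p.Prime]
    (hd : p ∣ Nat.card G) (P : Sylow p G) {B : Subgroup G} (hB : B ≠ ⊤)
    (h1 : (normalizer ((P : Subgroup G) : Set G)).index.Coprime B.index) (h2 : ¬ p ∣ B.index) :
    False := by
  obtain ⟨Q, hQ⟩ := exists_sylow_le_of_not_dvd_index h2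
  have h3 : (normalizer ((Q : Subgroup G) : Set G)).index.Coprime B.index := by
    rwa [← card_sylow_eq_index, card_sylow_eq_index P]
  have hn : ∀ g : G, ∀ x ∈ (Q : Subgroup G), g * x * g⁻¹ ∈ B := by
    intro g x hx
    set A := normalizer ((Q : Subgroup G) : Set G)
    -- `B` is transitive on `G ⧸ A`
    have hi : A.relIndex B = A.index := by
      have e1 : (A ⊓ B).index = A.relIndex B * B.index := by
        rw [← inf_relIndex_right, relIndex_mul_index inf_le_right]
      have e2 : A.index * B.index ∣ (A ⊓ B).index :=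
        h3.mul_dvd_of_dvd_of_dvd (index_dvd_of_le inf_le_left) (index_dvd_of_le inf_le_right)
      rw [e1] at e2
      have e3 : A.index ∣ A.relIndex B :=
        Nat.dvd_of_mul_dvd_mul_right (Nat.pos_of_ne_zero index_ne_zero_of_finite) e2
      have e4 : A.relIndex B ≤ A.index := by
        rw [← relIndex_top_right]
        exact relIndex_le_of_le_right le_top (by simpa using index_ne_zero_of_finite)
      exact le_antisymm e4 (Nat.le_of_dvd (Nat.pos_of_ne_zero index_ne_zero_of_finite) e3)
    have hs : Function.Surjective (quotientSubgroupOfEmbeddingOfLE A (le_top : B ≤ ⊤)) := by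
      classical
      haveI := Fintype.ofFinite (B ⧸ A.subgroupOf B)
      haveI := Fintype.ofFinite ((⊤ : Subgroup G) ⧸ A.subgroupOf ⊤)
      refine ((Fintype.bijective_iff_injective_and_card _).2
        ⟨(quotientSubgroupOfEmbeddingOfLE A (le_top : B ≤ ⊤)).injective, ?_⟩).2
      rw [← Nat.card_eq_fintype_card, ← Nat.card_eq_fintype_card]
      change A.relIndex B = A.relIndex ⊤
      rw [hi, relIndex_top_right]
    obtain ⟨y, hy⟩ := hs (QuotientGroup.mk ⟨g, mem_top g⟩)
    obtain ⟨b, rfl⟩ := QuotientGroup.mk_surjective y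
    rw [quotientSubgroupOfEmbeddingOfLE_apply_mk, QuotientGroup.eq] at hy
    have ha : (b : G)⁻¹ * g ∈ A := hy
    have hx' : ((b : G)⁻¹ * g) * x * ((b : G)⁻¹ * g)⁻¹ ∈ (Q : Subgroup G) :=
      (mem_normalizer_iff.1 ha x).1 hx
    have := B.mul_mem (B.mul_mem b.2 (hQ hx')) (B.inv_mem b.2)
    convert this using 1
    group
  have hc : normalClosure ((Q : Subgroup G) : Set G) ≤ B := by
    refine (closure_le _).2 fun y hy => ?_
    obtain ⟨x, hx, hxy⟩ := Group.mem_conjugatesOfSet_iff.1 hy
    obtain ⟨g, rfl⟩ := isConj_iff.1 hxy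
    exact hn g x hx
  rcases (normalClosure_normal (s := ((Q : Subgroup G) : Set G))).eq_bot_or_eq_top with h | h
  · have : (Q : Subgroup G) = ⊥ := le_bot_iff.1 (h ▸ le_normalClosure)
    exact Q.ne_bot_of_dvd_card hd this
  · exact hB (top_le_iff.1 (h ▸ hc))

theorem simple_case {G : Type*} [Group G] [Finite G] [IsSimpleGroup G]
    (h : ∀ (r : ℕ) [Fact r.Prime], Nat.card (Sylow r G) = 1 ∨ IsPrimePow (Nat.card (Sylow r G))) :
    Group.IsSolvable G := by
  by_contra hG
  have hf : ∀ p : ℕ, ∃ q : ℕ, ∀ [Fact p.Prime], p ∣ Nat.card G → q.Prime ∧ q ≠ p ∧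
      q ∣ Nat.card G ∧ ∃ a, 0 < a ∧ Nat.card (Sylow p G) = q ^ a := by
    intro p
    by_cases hp : p.Prime ∧ p ∣ Nat.card G
    · haveI := Fact.mk hp.1
      obtain ⟨P⟩ : Nonempty (Sylow p G) := inferInstance
      rcases h p with h1 | h1
      · exfalso
        rw [card_sylow_eq_index P, index_eq_one, normalizer_eq_top_iff] at h1
        rcases h1.eq_bot_or_eq_top with h2 | h2
        · exact P.ne_bot_of_dvd_card hp.2 h2
        · have : IsPGroup p G := P.isPGroup'.of_equiv ((MulEquiv.subgroupCongr h2).trans topEquiv)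
          haveI := this.isNilpotent
          exact hG inferInstance
      · obtain ⟨q, a, hq, ha, e⟩ := (isPrimePow_nat_iff _).1 h1
        refine ⟨q, fun _ => ⟨hq, ?_, ?_, a, ha, e.symm⟩⟩
        · rintro rfl
          exact not_dvd_card_sylow q G (e ▸ dvd_pow_self q ha.ne')
        · refine (dvd_pow_self q ha.ne').trans ?_
          rw [e, card_sylow_eq_index P]
          exact index_dvd_card _
    · exact ⟨0, fun hd => absurd ⟨Fact.out, hd⟩ hp⟩
  choose f hf using hf
  have hk : ∀ p t : ℕ, p.Prime → t.Prime → p ∣ Nat.card G → t ∣ Nat.card G →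
      f p = f t ∨ f t = p := by
    intro p t hp ht hpd htd
    haveI := Fact.mk hp
    haveI := Fact.mk ht
    by_contra hc
    push Not at hc
    obtain ⟨P⟩ : Nonempty (Sylow p G) := inferInstance
    obtain ⟨T⟩ : Nonempty (Sylow t G) := inferInstance
    obtain ⟨q1, -, -, a, -, ea⟩ := hf p hpd
    obtain ⟨q2, -, -, b, hb, eb⟩ := hf t htd
    refine key hpd P (B := normalizer ((T : Subgroup G) : Set G)) ?_ ?_ ?_
    · intro e
      rw [card_sylow_eq_index T, e, index_top] at eb
      exact absurd eb.symm (Nat.one_lt_pow hb.ne' q2.one_lt).ne'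
    · rw [← card_sylow_eq_index, ← card_sylow_eq_index, ea, eb]
      exact Nat.Coprime.pow _ _ ((Nat.coprime_primes q1 q2).2 hc.1)
    · rw [← card_sylow_eq_index, eb]
      intro hd
      exact hc.2 ((Nat.prime_dvd_prime_iff_eq hp q2).1 (hp.dvd_of_dvd_pow hd)).symm
  obtain ⟨p, hp, hpd⟩ := Nat.exists_prime_and_dvd (Finite.one_lt_card (α := G)).ne'
  haveI := Fact.mk hp
  obtain ⟨q1, q2, q3, -⟩ := hf p hpd
  haveI := Fact.mk q1
  have e1 : f (f p) = p := by
    rcases hk p (f p) hp q1 hpd q3 with e | e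
    · exact absurd e.symm (hf (f p) q3).2.1
    · exact e
  refine hG (Cfsg.Lib.Char.isSolvable_of_forall_prime_dvd G p (f p) fun s hs hsd => ?_)
  by_contra hc
  push Not at hc
  rcases hk s p hs hp hsd hpd with e | e
  · rcases hk s (f p) hs q1 hsd q3 with e' | e'
    · exact q2 (by rw [← e, e', e1])
    · exact hc.1 (by rw [← e', e1])
  · exact hc.2 e.symm

theorem aux (n : ℕ) : ∀ (G : Type u) [Group G] [Finite G], Nat.card G = n →
    (∀ (r : ℕ) [Fact r.Prime], Nat.card (Sylow r G) = 1 ∨ IsPrimePow (Nat.card (Sylow r G))) →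
    Group.IsSolvable G := by
  induction n using Nat.strong_induction_on with
  | _ n ih =>
  intro G _ _ hn h
  rcases subsingleton_or_nontrivial G with hs | hs
  · infer_instance
  by_cases hK : ∀ K : Subgroup G, K.Normal → K = ⊥ ∨ K = ⊤
  · haveI : IsSimpleGroup G := ⟨hK⟩
    exact simple_case h
  push Not at hK
  obtain ⟨K, hKn, h1, h2⟩ := hK
  have e := K.card_mul_index
  have a1 : 1 < Nat.card K := (one_lt_card_iff_ne_bot _).2 h1
  have a2 : 1 < K.index := one_lt_index_of_ne_top h2
  haveI : Group.IsSolvable K := ih _ (by rw [← hn, ← e]; nlinarith) K rfl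
    fun r _ => pp_of_dvd (h r) (dvd_both r K).1
  haveI : Group.IsSolvable (G ⧸ K) := ih K.index (by rw [← hn, ← e]; nlinarith) _ rfl
    fun r _ => pp_of_dvd (h r) (dvd_both r K).2
  exact Group.isSolvable_of_ker_le_range K.subtype (QuotientGroup.mk' K) (by simp)

end

/-- If for every prime r the number of Sylow r-subgroups of the finite group G is a prime power or 1, then G is solvable. -/
theorem result {G : Type*} [Group G] [Finite G] (h : ∀ (r : ℕ) [Fact r.Prime], Nat.card (Sylow r G) = 1 ∨ IsPrimePow (Nat.card (Sylow r G))) :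
    Group.IsSolvable G := by
  open Subgroup Cfsg.Lib.FGS in
  exact aux _ G rfl h

end Cfsg.Agent.S3933
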