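import Cfsg.Statements.S3937
import Cfsg.Agent.Lib.BG.Hall
import Cfsg.Agent.Lib.Core.Subnormal

set_option autoImplicit false
open Cfsg

namespace Cfsg.Agent.S3937

/-- Baer's characterization of the Fitting subgroup: in a finite group G, an element g lies in the Fitting subgroup if and only if g is a left Engel element, that is, for every x there is n with [x, g, g, …, g] = 1 (n entries g, [a, b] = aba⁻¹b⁻¹). -/
theorem result {G : Type*} [Group G] [Finite G] (g : G) :
    g ∈ Cfsg.fittingSubgroup G ↔ ∀ x : G, ∃ n : ℕ, (List.replicate n g).foldl (fun a b => a * b * a⁻¹ * b⁻¹) x = 1 := by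
  open Subgroup Cfsg.Lib Cfsg.Lib.BG Cfsg.Lib.Transfer in
  have e : ∀ (n : ℕ) (x : G), (List.replicate n g).foldl (fun a b => a * b * a⁻¹ * b⁻¹) x =
      (fun a => a * g * a⁻¹ * g⁻¹)^[n] x := by
    intro n
    induction n with
    | zero => intro x; rfl
    | succ n ih => intro x; rw [List.replicate_succ, List.foldl_cons, ih, Function.iterate_succ_apply]
  simp only [e]
  constructor
  · intro hg x
    haveI := Core.fittingSubgroup_normal G
    obtain ⟨n, hn⟩ := (Subgroup.isNilpotent_iff_lowerCentralSeries (fittingSubgroup G)).1 inferInstance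
    have key : ∀ k, (fun a => a * g * a⁻¹ * g⁻¹)^[k + 1] x ∈ (fittingSubgroup G).lowerCentralSeries k := by
      intro k
      induction k with
      | zero => exact mul_mem (Normal.conj_mem inferInstance g hg x) (inv_mem hg)
      | succ k ih =>
        rw [Function.iterate_succ_apply', Subgroup.lowerCentralSeries_succ]
        exact commutator_mem_commutator ih hg
    exact ⟨n + 1, by simpa [hn] using key n⟩
  · intro h
    have key : ∀ H : Subgroup G, zpowers g ≤ H → Core.SubnormalIn (zpowers g) H := by
      intro H
      induction H using WellFoundedLT.induction with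
      | _ H ih =>
      intro hH
      by_contra hn
      obtain ⟨M, hM, hM2⟩ := Core.zipper hH (fun K h1 h2 => ih K h2 h1) hn
      have hAM : zpowers g ≤ M := hM2 _ le_rfl (lt_of_le_of_ne hH fun e => hn (e ▸ Core.SubnormalIn.refl _))
      have hgH : g ∈ H := hH (mem_zpowers g)
      by_cases hN : H ≤ normalizer (M : Set G)
      · exact hn ((ih M hM hAM).tail hM.le hN)
      have h1 : H ⊓ normalizer (M : Set G) ≤ M := hM2 _ (le_inf hH (hAM.trans le_normalizer))
        (lt_of_le_of_ne inf_le_left fun e => hN (inf_eq_left.1 e))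
      have h2 : ∀ n, ∀ x ∈ H, (fun a => a * g * a⁻¹ * g⁻¹)^[n] x ∈ M → x ∈ M := by
        intro n
        induction n with
        | zero => exact fun x _ hx => hx
        | succ n ihn =>
          intro x hx hx2
          rw [Function.iterate_succ_apply] at hx2
          have h3 := ihn _ (mul_mem (mul_mem (mul_mem hx hgH) (inv_mem hx)) (inv_mem hgH)) hx2
          have h4 : x * g * x⁻¹ ∈ M := by simpa using mul_mem h3 (hAM (mem_zpowers g))
          have h5 : x⁻¹ ⋆ M ≤ M := hM2 _ (zpowers_le.2 (mem_conj.2 (by simpa using h4)))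
            (by rw [← conj_eq_self_of_mem (inv_mem hx)]; exact conj_lt_conj_iff.2 hM)
          exact h1 (mem_inf.2 ⟨hx, inv_mem_iff.1 (mem_normalizer_of_conj_le h5)⟩)
      refine hM.not_ge fun x hx => ?_
      obtain ⟨n, hn⟩ := h x
      exact h2 n x hx (hn ▸ one_mem M)
    exact Core.le_fittingSubgroup_of_isSubnormal (Core.subnormalIn_top.1 (key ⊤ le_top))
      (Core.isNilpotent_of_isMulCommutative _) (mem_zpowers g)

end Cfsg.Agent.S3937
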