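import Cfsg.Statements.S3939
import Cfsg.Agent.Lib.BG.Hall
import Cfsg.Agent.Lib.PGroup.Basic
import Cfsg.Agent.Lib.Transfer.Fusion

set_option autoImplicit false
open Cfsg

namespace Cfsg.Agent.S3939

section
open Subgroup Cfsg.Lib Cfsg.Lib.BG Cfsg.Lib.Transfer

theorem map_pair {G H : Type*} [Group G] [Group H] (f : G →* H) (x g : G) :
    (closure ({x, g} : Set G)).map f = closure ({f x, f g} : Set H) := by
  rw [MonoidHom.map_closure, Set.image_pair]

theorem center_ne_bot {G : Type*} [Group G] [Finite G] {g : G} (hg : g ≠ 1)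
    (h : ∀ x : G, Group.IsNilpotent ↥(closure ({x, g} : Set G))) : center G ≠ ⊥ := by
  obtain ⟨p, hp, hd⟩ := Nat.exists_prime_and_dvd (mt orderOf_eq_one_iff.1 hg)
  haveI := Fact.mk hp
  have ho : orderOf (g ^ (orderOf g / p)) = p := orderOf_pow_orderOf_div (orderOf_pos g).ne' hd
  set y := g ^ (orderOf g / p)
  have hy : IsPGroup p (zpowers y) := IsPGroup.of_card (n := 1) (by rw [Nat.card_zpowers, ho, pow_one])
  have hC : pResidual p G ≤ centralizer (zpowers y : Set G) := pResidual_le_iff.2 fun x hx =>
    mem_centralizer_of_nilpotent (h x) hy (zpowers_le.2 (pow_mem (Subgroup.subset_closure (by simp)) _))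
      (Subgroup.subset_closure (by simp)) hx
  obtain ⟨P, hP⟩ := hy.exists_le_sylow
  haveI : Group.IsNilpotent P := P.2.isNilpotent
  haveI := pResidual_normal (p := p) (G := G)
  obtain ⟨⟨z, hz⟩, hz1⟩ := (ne_bot_iff_exists_ne_one).1
    (PGroup.normal_inf_center_ne_bot ((centralizer (pResidual p G : Set G)).subgroupOf (P : Subgroup G))
      (fun e => by
        have : (⟨y, hP (mem_zpowers y)⟩ : P) ∈
            (centralizer (pResidual p G : Set G)).subgroupOf (P : Subgroup G) :=
          le_centralizer_iff.1 hC (mem_zpowers y)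
        rw [e, mem_bot, Subtype.ext_iff] at this
        change y = 1 at this
        rw [this, orderOf_one] at ho
        exact hp.one_lt.ne ho))
  refine (ne_bot_iff_exists_ne_one).2 ⟨⟨z, ?_⟩, fun e => hz1 (Subtype.ext (Subtype.ext (Subtype.ext_iff.1 e :)))⟩
  rw [← centralizer_univ, ← coe_top, ← pResidual_sup_sylow P]
  refine le_centralizer_iff.1 (sup_le ?_ ?_) (mem_zpowers (z : G))
  · exact le_centralizer_iff.1 (zpowers_le.2 hz.1)
  · refine le_centralizer_iff.1 (zpowers_le.2 (mem_centralizer_iff.2 fun s hs => ?_))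
    exact congrArg Subtype.val (mem_center_iff.1 hz.2 ⟨s, hs⟩)

theorem fwd (G : Type*) [Group G] [Finite G] : ∀ g : G,
    (∀ x : G, Group.IsNilpotent ↥(closure ({x, g} : Set G))) → ∃ n, g ∈ Subgroup.upperCentralSeries G n := by
  refine Core.induction_on_card (P := fun G _ _ => ∀ g : G,
    (∀ x : G, Group.IsNilpotent ↥(closure ({x, g} : Set G))) →
      ∃ n, g ∈ Subgroup.upperCentralSeries G n) G fun G _ _ ih g h => ?_
  by_cases hg : g = 1
  · exact ⟨0, hg ▸ one_mem _⟩
  obtain ⟨n, hn⟩ := ih (G ⧸ center G) (Core.card_quotient_lt (center_ne_bot hg h)) g fun x => by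
    obtain ⟨x, rfl⟩ := QuotientGroup.mk_surjective x
    have := Core.isNilpotent_map (QuotientGroup.mk' (center G)) (h x)
    rwa [map_pair] at this
  exact ⟨n + 1, by rw [← Subgroup.comap_upperCentralSeries_quotient_center]; exact hn⟩

theorem bwd (n : ℕ) : ∀ (G : Type*) [Group G] (g x : G), g ∈ Subgroup.upperCentralSeries G n →
    Group.IsNilpotent ↥(closure ({x, g} : Set G)) := by
  induction n with
  | zero =>
    intro G _ g x hg
    obtain rfl : g = 1 := hg
    refine Core.isNilpotent_of_le (K := zpowers x) ?_ (Core.isNilpotent_of_isMulCommutative _)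
    rw [Subgroup.closure_le]
    rintro _ (rfl | rfl)
    exacts [mem_zpowers _, one_mem _]
  | succ n ih =>
    intro G _ g x hg
    rw [← Subgroup.comap_upperCentralSeries_quotient_center] at hg
    have := ih (G ⧸ center G) _ (QuotientGroup.mk' (center G) x) hg
    rw [← map_pair] at this
    refine Subgroup.isNilpotent_of_ker_le_center ((QuotientGroup.mk' (center G)).subgroupMap _) fun y hy => ?_
    have h1 : (y : G) ∈ center G := (QuotientGroup.eq_one_iff _).1 (congrArg Subtype.val hy)
    exact mem_center_iff.2 fun z => Subtype.ext (mem_center_iff.1 h1 z)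

end

/-- In a finite group G the set of elements g such that the subgroup generated by g and x is nilpotent for every x ∈ G is exactly the hypercenter of G (the last term of the upper central series). -/
theorem result {G : Type*} [Group G] [Finite G] (g : G) :
    (∀ x : G, Group.IsNilpotent ↥(Subgroup.closure ({x, g} : Set G))) ↔ g ∈ ⨆ n : ℕ, Subgroup.upperCentralSeries G n := by
  open Subgroup Cfsg.Lib Cfsg.Lib.BG Cfsg.Lib.Transfer in
  rw [mem_iSup_of_directed (Monotone.directed_le (Subgroup.upperCentralSeries_mono G))]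
  exact ⟨fwd G g, fun ⟨n, hn⟩ x => bwd n G g x hn⟩

end Cfsg.Agent.S3939
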