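import Cfsg.Statements.S3941
import Cfsg.Agent.Lib.FGS.Misc

set_option autoImplicit false
open Cfsg

namespace Cfsg.Agent.S3941

section
open Cfsg.Lib.FGS Cfsg.Lib.BG

theorem pclosed_of_equiv {A B : Type*} [Group A] [Group B] [Finite A] [Finite B] {p : ℕ} [Fact p.Prime] (e : A ≃* B)
    (h : Cfsg.IsPClosed p B) : Cfsg.IsPClosed p A := fun P => by
  have : (((P : Subgroup A).map e.toMonoidHom).comap e.toMonoidHom).Normal :=
    (h (P.mapSurjective (f := e.toMonoidHom) e.surjective)).comap e.toMonoidHom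
  rwa [Subgroup.comap_map_eq_self_of_injective e.injective] at this

theorem mul_pow_of_pclosed {A : Type*} [Group A] [Finite A] {p : ℕ} [Fact p.Prime] (h : Cfsg.IsPClosed p A) {x y : A}
    (hx : x ^ p ^ 1 = 1) (hy : y ^ p ^ 1 = 1) : ∃ k, (x * y) ^ p ^ k = 1 := by
  obtain ⟨P, hP⟩ := exists_sylow_mem hx
  haveI := h P
  exact exists_pow_of_mem P.isPGroup' (mul_mem hP (mem_sylow_of_mem_normalizer P hy (by rw [Subgroup.normalizer_eq_top]; trivial)))

end

/-- Let n ≥ 5 and p an odd prime with p ≤ n, and suppose that every proper subgroup of the alternating group of degree n whose order is divisible by p has a normal Sylow p-subgroup. Then n = p. -/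
theorem result (n p : ℕ) (hn : 5 ≤ n) [Fact p.Prime] (hp : p ≠ 2) (hpn : p ≤ n)
    (h : ∀ H : Subgroup ↥(alternatingGroup (Fin n)), H ≠ ⊤ → p ∣ Nat.card ↥H → Cfsg.IsPClosed p ↥H) : n = p := by
  open Cfsg.Lib.FGS Cfsg.Lib.BG in
  by_contra hne
  obtain ⟨m, rfl⟩ : ∃ m, n = m + 1 := ⟨n - 1, by omega⟩
  have hp' : p.Prime := Fact.out
  let e : Fin m ≃ {i : Fin (m + 1) // i ∈ Set.range (Fin.castSuccEmb (n := m))} := (Fin.castSuccEmb).toEquivRange
  let f : alternatingGroup (Fin m) →* alternatingGroup (Fin (m + 1)) :=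
    ((Equiv.Perm.extendDomainHom e).comp (alternatingGroup (Fin m)).subtype).codRestrict _ fun σ => by
      rw [Equiv.Perm.mem_alternatingGroup]
      exact (Equiv.Perm.sign_extendDomain _ e).trans σ.2
  have hf : Function.Injective f := fun a b hab =>
    Subtype.ext (Equiv.Perm.extendDomainHom_injective e (congrArg Subtype.val hab))
  have hc : Nat.card f.range = Nat.card (alternatingGroup (Fin m)) := (Nat.card_congr (MonoidHom.ofInjective hf).toEquiv).symm
  haveI : Nontrivial (Fin m) := Fin.nontrivial_iff_two_le.2 (by omega)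
  haveI : Nontrivial (Fin (m + 1)) := Fin.nontrivial_iff_two_le.2 (by omega)
  have c1 := two_mul_nat_card_alternatingGroup (α := Fin m)
  have c2 := two_mul_nat_card_alternatingGroup (α := Fin (m + 1))
  rw [Nat.card_perm, Nat.card_eq_fintype_card (α := Fin _), Fintype.card_fin] at c1 c2
  have hd : p ∣ Nat.card (alternatingGroup (Fin m)) :=
    ((Nat.coprime_primes hp' Nat.prime_two).2 hp).dvd_of_dvd_mul_left (c1 ▸ hp'.dvd_factorial.2 (by omega))
  have h1 := pclosed_of_equiv (MonoidHom.ofInjective hf) (h f.range (fun ht => by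
    rw [ht, Subgroup.card_top] at hc
    rw [hc, c1, Nat.factorial_succ] at c2
    have := Nat.factorial_pos m
    nlinarith) (hc ▸ hd))
  by_cases hm : m = 4
  · subst hm
    have hp3 : p = 3 := by
      have := hp'.two_le
      have : p ≠ 4 := fun e => by rw [e] at hp'; exact absurd hp' (by decide)
      omega
    subst hp3
    obtain ⟨k, hk⟩ := mul_pow_of_pclosed h1 (x := ⟨Equiv.swap 0 1 * Equiv.swap 1 2, Equiv.Perm.mem_alternatingGroup.2 (by decide)⟩)
      (y := ⟨Equiv.swap 1 2 * Equiv.swap 2 3, Equiv.Perm.mem_alternatingGroup.2 (by decide)⟩) (by decide) (by decide)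
    have h2 := orderOf_dvd_of_pow_eq_one hk
    rw [orderOf_eq_prime (p := 2) (by decide) (by decide)] at h2
    exact absurd (Nat.prime_two.dvd_of_dvd_pow h2) (by decide)
  · haveI := alternatingGroup.isSimpleGroup (α := Fin m) (by simp; omega)
    obtain ⟨P⟩ : Nonempty (Sylow p (alternatingGroup (Fin m))) := inferInstance
    rcases (h1 P).eq_bot_or_eq_top with h2 | h2
    · exact P.ne_bot_of_dvd_card hd h2
    · obtain ⟨k, hk⟩ := P.isPGroup'.exists_card_eq
      rw [h2, Subgroup.card_top] at hk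
      have h3 : 2 * 2 ∣ m.factorial := (show 2 * 2 ∣ (4 : ℕ).factorial by decide).trans
        (Nat.factorial_dvd_factorial (by omega))
      rw [← c1, hk] at h3
      exact hp ((Nat.prime_dvd_prime_iff_eq Nat.prime_two hp').1
        (Nat.prime_two.dvd_of_dvd_pow (Nat.dvd_of_mul_dvd_mul_left two_pos h3))).symm

end Cfsg.Agent.S3941
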