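import Cfsg.Statements.S3946
import Cfsg.Agent.Lib.BG.Hall
import Cfsg.Agent.Lib.FGS.Kegel

set_option autoImplicit false
open Cfsg

namespace Cfsg.Agent.S3946

/-- Call an automorphism α of order n of a group G splitting when x · α(x) · α²(x) ⋯ α^(n−1)(x) = 1 for every x ∈ G. A finite group admitting a splitting automorphism of prime order is nilpotent (this contains the case of a fixed-point-free automorphism of prime order). -/
theorem result {G : Type*} [Group G] [Finite G] (α : MulAut G) (hp : (orderOf α).Prime)
    (hsplit : ∀ x : G, (((List.range (orderOf α)).map (fun i : ℕ => (α ^ i) x)).prod = 1)) : Group.IsNilpotent G := by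
  open Subgroup Cfsg.Lib Cfsg.Lib.BG Cfsg.Lib.Transfer in
  open Cfsg.Lib.FGS SemidirectProduct in
  let X := G ⋊[MonoidHom.id (MulAut G)] MulAut G
  have h1 : ∀ (x : G) (n : ℕ), ((inl x * inr α : X) ^ n) =
      inl ((List.range n).map fun i : ℕ => (α ^ i) x).prod * inr (α ^ n) := fun x n => by
    induction n with
    | zero => simp
    | succ n ih =>
      rw [pow_succ, ih, List.range_succ, List.map_append, List.prod_append, map_mul, pow_succ, map_mul,
        List.map_singleton, List.prod_singleton, show (inl ((α ^ n) x) : X) = _ from inl_aut (α ^ n) x, map_inv]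
      group
  haveI : Finite X := Finite.of_equiv _ SemidirectProduct.equivProd.symm
  haveI : (inl : G →* X).range.Normal := by rw [range_inl_eq_ker_rightHom]; infer_instance
  haveI := kegel hp (K := (inl : G →* X).range) (g := inr α) (le_normalizer_of_normal (mem_top _)) (by
    rintro _ ⟨x, rfl⟩
    rw [h1, hsplit, pow_orderOf_eq_one]; simp)
  exact Group.nilpotent_of_mulEquiv (MonoidHom.ofInjective (inl_injective (φ := MonoidHom.id (MulAut G)))).symm

end Cfsg.Agent.S3946
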