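import Cfsg.Statements.S3972
import Cfsg.Agent.Lib.Perm.SRing2

set_option autoImplicit false
open Cfsg

namespace Cfsg.Agent.S3972

open scoped Pointwise

/-- Let `p` be a prime, `m ≥ 2`, and `G` a transitive but not doubly transitive permutation group on `p ^ m` points containing a permutation of order `p ^ m` (necessarily a full cycle). Then `G` is imprimitive, and the normal closure in `G` of the `p ^ (m - 1)`-th power of that permutation is an intransitive normal subgroup. -/
theorem result {Ω : Type*} [Fintype Ω] [DecidableEq Ω] (p m : ℕ) (hp : p.Prime) (hm : 2 ≤ m) (hΩ : Fintype.card Ω = p ^ m) (G : Subgroup (Equiv.Perm Ω)) (htr : MulAction.IsPretransitive G Ω) (h2 : ¬ MulAction.IsMultiplyPretransitive G Ω 2) (g : G) (hg : orderOf g = p ^ m) : ¬ MulAction.IsPreprimitive G Ω ∧ ¬ MulAction.IsPretransitive (Subgroup.normalClosure ({g ^ (p ^ (m - 1))} : Set G)) Ω := by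
  classical
  set z := g ^ (p ^ (m - 1)) with hz
  have hz1 : z ≠ 1 := fun h => by
    have := orderOf_dvd_of_pow_eq_one h
    rw [hg, Nat.pow_dvd_pow_iff_le_right hp.one_lt] at this
    omega
  have hmem : ∀ d ∈ Subgroup.zpowers g, d ≠ 1 → ∃ n : ℕ, d ^ n = z := by
    intro d hd hd1
    obtain ⟨k, rfl⟩ := (mem_powers_iff_mem_zpowers.2 hd : d ∈ Submonoid.powers g)
    simp only at hd1 ⊢
    obtain ⟨a, u, hu, rfl⟩ := Nat.exists_eq_pow_mul_and_not_dvd (n := k)
      (by rintro rfl; simp at hd1) p hp.ne_one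
    have ha : a < m := by
      by_contra! h
      exact hd1 (orderOf_dvd_iff_pow_eq_one.1 (hg ▸ (pow_dvd_pow p h).mul_right u))
    obtain ⟨v, hv⟩ := exists_pow_eq_self_of_coprime (x := z) (n := u)
      (((hp.coprime_iff_not_dvd.2 hu).symm.pow_right m).coprime_dvd_right (hg ▸ orderOf_pow_dvd _))
    refine ⟨p ^ (m - 1 - a) * v, ?_⟩
    rw [← hv, hz, ← pow_mul, ← pow_mul, ← pow_mul, show m - 1 = a + (m - 1 - a) by omega, pow_add]
    congr 1
    rw [show a + (m - 1 - a) - a = m - 1 - a by omega]; ring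
  have hpow : ∀ {X : Type _} [MulAction G X] (d : G) (x : X), d • x = x → ∀ n : ℕ, d ^ n • x = x :=
    fun d x h n => (MulAction.stabilizer G x).pow_mem h n
  obtain ⟨ω, hω⟩ : ∃ ω : Ω, z • ω ≠ ω := by
    by_contra! h
    exact hz1 (Subtype.ext (Equiv.ext h))
  set D := Subgroup.zpowers g
  letI : CommGroup D := IsCyclic.commGroup
  have hcard : Fintype.card D = p ^ m := by rw [← Nat.card_eq_fintype_card, Nat.card_zpowers, hg]
  have hsurj : Function.Surjective fun d : D => (d : G) • ω := by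
    refine ((Fintype.bijective_iff_injective_and_card _).2 ⟨fun a b h => ?_, by rw [hcard, hΩ]⟩).2
    by_contra hab
    obtain ⟨n, hn⟩ := hmem (b⁻¹ * a : D) (b⁻¹ * a).2 (by
      simpa [inv_mul_eq_one, eq_comm] using hab)
    refine hω (hn ▸ hpow _ _ ?_ n)
    rw [Subgroup.coe_mul, mul_smul, h, Subgroup.coe_inv, inv_smul_smul]
  have hcomm : ∀ a b : D, (a : G) * b = b * a := fun a b => congrArg Subtype.val (mul_comm a b)
  have htr' : ∀ a b : Ω, ∃ d : D, D.subtype d • a = b := by
    intro a b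
    obtain ⟨c, rfl⟩ := hsurj a
    obtain ⟨d, rfl⟩ := hsurj b
    exact ⟨d * c⁻¹, by simp [mul_smul]⟩
  have hfree : ∀ (a : Ω) (d : D), D.subtype d • a = a → d = 1 := by
    intro a d h
    refine Subtype.ext (Subtype.ext (Equiv.ext fun b => ?_))
    obtain ⟨c, rfl⟩ := htr' a b
    change (d : G) • (c : G) • a = (c : G) • a
    rw [← mul_smul, hcomm, mul_smul]; exact congrArg _ h
  have hnp : ¬ MulAction.IsPreprimitive G Ω := fun hprim => h2 <|
    Cfsg.Lib.Perm.SR.two_trans_of_sring hprim D.subtype htr' hfree fun S =>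
      S.cyclic hp (hcard ▸ dvd_pow_self p (by omega)) (by
        rw [hcard]
        exact fun h => absurd (Nat.pow_right_injective hp.two_le (h.trans (pow_one p).symm)) (by omega))
  refine ⟨hnp, fun hN => hnp ⟨fun {B} hB => ?_⟩⟩
  by_cases hs : B.Subsingleton
  · exact .inl hs
  right
  obtain ⟨x, hx, y, hy, hxy⟩ := Set.not_subsingleton_iff.1 hs
  obtain ⟨d, hd⟩ := htr' x y
  have hdB : (d : G) • B = B := hB.smul_eq_of_mem hx (by rwa [← hd] at hy)
  obtain ⟨n, hn⟩ := hmem d d.2 (by
    intro h; apply hxy; rw [← hd]; change x = (d : G) • x; rw [h, one_smul])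
  have hzB : z • B = B := hn ▸ hpow _ _ hdB n
  have hle : Subgroup.normalClosure ({z} : Set G) ≤ MulAction.stabilizer G B := by
    refine Subgroup.closure_le _ |>.2 fun w hw => ?_
    obtain ⟨_, rfl, hc⟩ := Group.mem_conjugatesOfSet_iff.1 hw
    obtain ⟨c, rfl⟩ := isConj_iff.1 hc
    obtain ⟨e, he⟩ := htr' x (c⁻¹ • x)
    have h1 : (c * e) • B = B := hB.smul_eq_of_mem hx (by
      rw [mul_smul, show (e : G) • x = c⁻¹ • x from he, smul_inv_smul]; exact hx)
    have h3 : c⁻¹ • B = (e : G) • B := by rw [inv_smul_eq_iff, ← mul_smul, h1]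
    change (c * z * c⁻¹) • B = B
    rw [mul_smul, mul_smul, h3, ← mul_smul z, show z * e = e * z from
      hcomm ⟨z, D.pow_mem (Subgroup.mem_zpowers g) _⟩ e, mul_smul, hzB, ← mul_smul, h1]
  refine Set.eq_univ_of_forall fun w => ?_
  obtain ⟨t, rfl⟩ := hN.exists_smul_eq x w
  have : (t : G) • B = B := hle t.2
  rw [← this]
  exact ⟨x, hx, rfl⟩

end Cfsg.Agent.S3972
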