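import Cfsg.Statements.S3982
import Cfsg.Agent.Lib.FGS.Misc

set_option autoImplicit false
open Cfsg

namespace Cfsg.Agent.S3982

/-- Let p be an odd prime and G a finite group of even order divisible by p in which the centralizer of every non-identity p-element has odd order. If some nontrivial p-subgroup of G has a normalizer of even order, then the normalizer of every Sylow p-subgroup of G has even order. -/
theorem result {G : Type*} [Group G] [Finite G] (p : ℕ) [Fact p.Prime] (hp2 : p ≠ 2) (hpG : p ∣ Nat.card G) (h2G : 2 ∣ Nat.card G) (hC : ∀ g : G, g ≠ 1 → (∃ k : ℕ, orderOf g = p ^ k) → Odd (Nat.card ↥(Subgroup.centralizer ({g} : Set G)))) (Q : Subgroup G) (hQ : IsPGroup p ↥Q) (hQ1 : Q ≠ ⊥) (hev : Even (Nat.card ↥(Subgroup.normalizer (Q : Set G)))) (P : Sylow p G) : Even (Nat.card ↥(Subgroup.normalizer ((P : Subgroup G) : Set G))) := by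
  open Cfsg.Lib.FGS Cfsg.Lib.BG Cfsg.Lib.Transfer in
  haveI : Fact (Nat.Prime 2) := ⟨Nat.prime_two⟩
  obtain ⟨R, ⟨hR, hR1, hRe⟩, hmax⟩ := Finite.exists_le_maximal
    (p := fun R : Subgroup G => IsPGroup p R ∧ R ≠ ⊥ ∧ Even (Nat.card 𝐍(R))) ⟨hQ, hQ1, hev⟩ |>.imp fun _ h => h.2
  obtain ⟨T, hT, hT2⟩ := exists_card_eq_prime Nat.prime_two hRe.two_dvd
  have hodd : ∀ x ∈ R, x ≠ 1 → Odd (Nat.card 𝐂[x]) := fun x hx h1 =>
    hC x h1 (orderOf_eq_pow_iff.2 (exists_pow_of_mem hR hx))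
  obtain ⟨x, hx, hx1⟩ := exists_ne_one hR1
  have hCodd : Odd (Nat.card 𝐂(R)) := odd_of_le (hodd x hx hx1) (cent_le_cent1 hx)
  obtain ⟨t, ht, ht1⟩ := exists_ne_one (ne_bot_of_prime (hT2 ▸ Nat.prime_two))
  have hzt : Subgroup.zpowers t = T := zpowers_eq_of_prime (hT2 ▸ Nat.prime_two) ht ht1
  have ht2 : orderOf t = 2 := by rw [← Nat.card_zpowers, hzt, hT2]
  have htt : t * t = 1 := by rw [← pow_two, ← ht2, pow_orderOf_eq_one]
  have hti : t⁻¹ = t := inv_eq_of_mul_eq_one_left htt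
  have hp2' : Odd p := (Fact.out : p.Prime).odd_of_ne_two hp2
  -- `t` inverts `R`
  have hinv : ∀ y ∈ R, t * y * t⁻¹ = y⁻¹ := by
    have h1 : ∀ y ∈ R, t * y * t⁻¹ = y → y = 1 := fun y hy h => by_contra fun hy1 =>
      (Nat.not_even_iff_odd.2 (hodd y hy hy1)) (even_iff_two_dvd.2 (ht2 ▸ Subgroup.orderOf_dvd_natCard _
        (mem_cent1.2 (mul_inv_eq_iff_eq_mul.1 h))))
    let f : R → R := fun y => ⟨(y : G)⁻¹ * (t * y * t⁻¹), mul_mem (inv_mem y.2) (conj_mem_of_norm (hT ht) y.2)⟩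
    have hf : Function.Injective f := fun a b hab => by
      have e : (a : G)⁻¹ * (t * a * t⁻¹) = (b : G)⁻¹ * (t * b * t⁻¹) := congrArg Subtype.val hab
      refine Subtype.ext (mul_inv_eq_one.1 (h1 _ (mul_mem a.2 (inv_mem b.2)) ?_))
      calc t * (a * (b : G)⁻¹) * t⁻¹ = a * ((a : G)⁻¹ * (t * a * t⁻¹)) * (t * b * t⁻¹)⁻¹ := by group
        _ = _ := by rw [e]; group
    intro y hy
    obtain ⟨z, hz⟩ := Finite.injective_iff_surjective.1 hf ⟨y, hy⟩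
    have e : (z : G)⁻¹ * (t * z * t⁻¹) = y := congrArg Subtype.val hz
    rw [← e]
    calc t * ((z : G)⁻¹ * (t * z * t⁻¹)) * t⁻¹ = t * (z : G)⁻¹ * (t * z * (t * t)⁻¹) := by group
      _ = t * (z : G)⁻¹ * t⁻¹ * z := by rw [htt, hti]; group
      _ = _ := by group
  obtain ⟨S, hS, hRS⟩ := Syl.exists_ge (M := 𝐍(R)) hR (le_norm R)
  have hn : S ≤ 𝐍(𝐂(R)) := norm_cent hS.le
  have hK : T ≤ 𝐍(𝐂(R) ⊔ S) := by
    rw [← hzt, Subgroup.zpowers_le]
    refine mem_normalizer_of_conj_le ?_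
    rw [conj_sup, conj_eq_of_norm (norm_cent hT ht)]
    refine sup_le le_sup_left (conj_le_iff.2 fun s hs => ?_)
    have : t * s * t⁻¹ * s⁻¹ ∈ 𝐂(R) := mem_cent.2 fun y hy => by
      have e1 := hinv _ (conj_mem_of_norm' (hS.le hs) hy)
      have e2 := hinv _ hy
      have e3 : t⁻¹ * y * t = y⁻¹ := by rw [hti]; nth_rewrite 2 [← hti]; exact e2
      calc y * (t * s * t⁻¹ * s⁻¹) = t * s * (s⁻¹ * (t⁻¹ * y * t) * s) * t⁻¹ * s⁻¹ := by group
        _ = t * s * (s⁻¹ * y * s)⁻¹ * t⁻¹ * s⁻¹ := by rw [e3]; group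
        _ = t * s * t⁻¹ * (t * (s⁻¹ * y * s) * t⁻¹)⁻¹ * s⁻¹ := by group
        _ = _ := by rw [e1]; group
    simpa using mul_mem (Subgroup.mem_sup_left this) (Subgroup.mem_sup_right (S := 𝐂(R)) hs)
  have hKodd : (Nat.card T).Coprime (Nat.card ↥(𝐂(R) ⊔ S)) := by
    have h1 : PiGrp {2}ᶜ 𝐂(R) := PiGrp.p'_iff.2 (by rwa [← even_iff_two_dvd, Nat.not_even_iff_odd])
    rw [hT2]
    exact ((h1.sup (p'_of_pgroup hS.pgroup hp2) hn).coprime_p).symm
  obtain ⟨U, hU, hRU, hTU⟩ := Syl.exists_inv_ge hK hKodd (Or.inl (abelian_sol (abelian_of_cyclic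
    (cyclic_of_prime (hT2 ▸ Nat.prime_two))))) hR (hRS.trans le_sup_right) hT
  have hUR : U ≤ R := hmax ⟨hU.pgroup, ne_bot_mono hR1 hRU, even_iff_two_dvd.2 (hT2 ▸ card_dvd hTU)⟩ hRU
  have hRS' : R = S := eq_of_le_of_card_le hRS ((hU.card_le hS.pgroup le_sup_right).trans (Subgroup.card_le_of_le hUR))
  have h3 : Syl p R ⊤ := Syl.of_norm (by rw [top_inf_eq]; nth_rewrite 1 [hRS']; exact hS)
  obtain ⟨g, -, hg⟩ := h3.exists_conj_eq (Syl.of_sylow_top P)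
  rw [hg, ← conj_normalizer, card_conj]
  exact hRe

end Cfsg.Agent.S3982
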