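import Cfsg.Statements.S3983
import Cfsg.Agent.Lib.FGS.Count

set_option autoImplicit false
open scoped Pointwise
open Cfsg

namespace Cfsg.Agent.S3983

/-- Let P be a Sylow p-subgroup of the finite group G that meets each conjugate g P g⁻¹ with g outside N_G(P) trivially, and let U be a subgroup of G of order divisible by p. Then a Sylow p-subgroup Q of U has the same property inside U: Q meets each conjugate u Q u⁻¹ with u ∈ U outside N_U(Q) trivially. -/
theorem result {G : Type*} [Group G] [Finite G] (p : ℕ) [Fact p.Prime] (P : Sylow p G) (hTI : ∀ g : G, g ∉ Subgroup.normalizer ((P : Subgroup G) : Set G) → (P : Subgroup G) ⊓ (MulAut.conj g • (P : Subgroup G)) = ⊥) (U : Subgroup G) (hU : p ∣ Nat.card ↥U) (Q : Sylow p ↥U) : ∀ u : ↥U, u ∉ Subgroup.normalizer ((Q : Subgroup ↥U) : Set ↥U) → (Q : Subgroup ↥U) ⊓ (MulAut.conj u • (Q : Subgroup ↥U)) = ⊥ := by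
  open Cfsg.Lib Cfsg.Lib.FGS Cfsg.Lib.Transfer Subgroup in
  rw [sylow_ti_iff] at hTI ⊢
  intro A B hAB
  obtain ⟨S, hS⟩ := A.exists_comap_subtype_eq
  obtain ⟨T, hT⟩ := B.exists_comap_subtype_eq
  rw [← hS, ← hT, ← comap_inf, hTI S T (by rintro rfl; exact hAB (Sylow.ext (hS.symm.trans hT))),
    MonoidHom.comap_bot, ker_subtype]

end Cfsg.Agent.S3983
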