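import Cfsg.Statements.S3984
import Cfsg.Agent.Lib.FGS.Count

set_option autoImplicit false
open scoped Pointwise
open Cfsg

namespace Cfsg.Agent.S3984

/-- Let P be a Sylow p-subgroup of the finite group G that meets each conjugate g P g⁻¹ with g outside N_G(P) trivially, and let N be a normal subgroup of G of order prime to p. Then every Sylow p-subgroup Q of G ⧸ N meets each conjugate x Q x⁻¹ with x outside its normalizer trivially. -/
theorem result {G : Type*} [Group G] [Finite G] (p : ℕ) [Fact p.Prime] (P : Sylow p G) (hTI : ∀ g : G, g ∉ Subgroup.normalizer ((P : Subgroup G) : Set G) → (P : Subgroup G) ⊓ (MulAut.conj g • (P : Subgroup G)) = ⊥) (N : Subgroup G) [N.Normal] (hN : (Nat.card ↥N).Coprime p) (Q : Sylow p (G ⧸ N)) : ∀ x : G ⧸ N, x ∉ Subgroup.normalizer ((Q : Subgroup (G ⧸ N)) : Set (G ⧸ N)) → (Q : Subgroup (G ⧸ N)) ⊓ (MulAut.conj x • (Q : Subgroup (G ⧸ N))) = ⊥ := by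
  open Cfsg.Lib Cfsg.Lib.FGS Cfsg.Lib.Transfer Subgroup in
  rw [sylow_ti_iff] at hTI ⊢
  intro A B hAB
  obtain ⟨S, rfl⟩ := Sylow.mapSurjective_surjective (QuotientGroup.mk'_surjective N) p A
  obtain ⟨T, rfl⟩ := Sylow.mapSurjective_surjective (QuotientGroup.mk'_surjective N) p B
  rw [eq_bot_iff]
  rintro _ ⟨⟨x, hx, rfl⟩, y, hy, hxy⟩
  obtain ⟨k, hk⟩ := exists_pow_of_mem S.isPGroup' hx
  obtain ⟨l, hl⟩ := exists_pow_of_mem T.isPGroup' hy
  obtain ⟨n, hn, he⟩ := exists_conj_eq_of_mul_inv_mem hN hk hl (by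
    rw [← div_eq_mul_inv, ← QuotientGroup.eq_iff_div_mem]; exact hxy)
  have h1 : n • S ≠ T := by
    rintro rfl
    apply hAB
    apply Sylow.ext
    rw [Sylow.coe_mapSurjective, Sylow.coe_mapSurjective, coe_smul_sylow, ← Core.map_mk'_sup N (n ⋆ _),
      ← Core.map_mk'_sup N S, ← conj_eq_self_of_mem (mem_sup_right hn : n ∈ ↑S ⊔ N), conj_sup,
      conj_eq_self_of_normal n N]
  have h2 : y ∈ ((n • S : Sylow p G) : Subgroup G) ⊓ T := ⟨he ▸ conj_mem_conj.mpr hx, hy⟩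
  rw [hTI _ _ h1, mem_bot] at h2
  rw [← hxy, h2, map_one]
  exact one_mem _

end Cfsg.Agent.S3984
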