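import Cfsg.Statements.S3985
import Cfsg.Agent.Lib.FGS.Count
import Cfsg.Agent.Lib.Coprime.Nilpotent

set_option autoImplicit false
open scoped Pointwise
open Cfsg

namespace Cfsg.Agent.S3985

/-- Let P be a cyclic Sylow p-subgroup of the finite group G. Then P meets each conjugate g P g⁻¹ with g outside N_G(P) trivially if and only if P is weakly self-centralizing: C_G(x) = C_G(P) for every non-identity x ∈ P. -/
theorem result {G : Type*} [Group G] [Finite G] (p : ℕ) [Fact p.Prime] (P : Sylow p G) (hcyc : IsCyclic ↥(P : Subgroup G)) : (∀ g : G, g ∉ Subgroup.normalizer ((P : Subgroup G) : Set G) → (P : Subgroup G) ⊓ (MulAut.conj g • (P : Subgroup G)) = ⊥) ↔ ∀ x : G, x ∈ (P : Subgroup G) → x ≠ 1 → Subgroup.centralizer ({x} : Set G) = Subgroup.centralizer ((P : Subgroup G) : Set G) := by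
  open Cfsg.Lib Cfsg.Lib.FGS Cfsg.Lib.Transfer Subgroup in
  have hp : p.Prime := Fact.out
  have hPC : (P : Subgroup G) ≤ centralizer ((P : Subgroup G) : Set G) := le_centralizer _
  constructor
  · intro h x hx hx1
    refine le_antisymm (fun c hc => ?_) (centralizer_le (Set.singleton_subset_iff.mpr hx))
    have h1 : centralizer ({x} : Set G) ≤ normalizer ((P : Subgroup G) : Set G) := fun c hc => by
      by_contra h2
      have h3 : x ∈ (P : Subgroup G) ⊓ c ⋆ (P : Subgroup G) := ⟨hx, mem_conj.mpr (by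
        rwa [mul_assoc, ← mem_centralizer_singleton_iff.mp hc, inv_mul_cancel_left])⟩
      exact hx1 (mem_bot.mp ((h c h2).le h3))
    obtain ⟨a, ha, b, hb, ⟨k, hk⟩, hbo, rfl⟩ := exists_p_part_mul_p'_part (p := p) c
    refine mul_mem (hPC (mem_sylow_of_mem_normalizer P hk (h1 (zpowers_le.mpr hc ha)))) ?_
    have hb' := zpowers_le.mpr hc hb
    refine zpowers_le.mp (Coprime.le_centralizer_of_prime_order_fixed inferInstance
      (zpowers_le.mpr (h1 hb')) ?_ fun v hv hvo => ?_)
    · rw [Nat.card_zpowers]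
      exact (Core.coprime_card_of_isPGroup P.isPGroup' hbo).symm
    · obtain ⟨i, hi⟩ := orderOf_eq_pow_iff.mpr (exists_pow_of_mem P.isPGroup' hx)
      obtain ⟨j, hj⟩ := orderOf_eq_pow_iff.mpr (exists_pow_of_mem P.isPGroup' hv)
      have h2 : orderOf v = p := (Nat.prime_dvd_prime_iff_eq hvo hp).mp (hvo.dvd_of_dvd_pow hj.dvd)
      have h3 := Misc.mem_zpowers_of_orderOf_dvd_of_cyclic hcyc hv hx (by
        rw [h2, hi]
        exact dvd_pow_self p fun h0 => hx1 (orderOf_eq_one_iff.mp (by rw [hi, h0, pow_zero])))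
      rw [← Core.centralizer_zpowers] at hb'
      exact le_centralizer_iff.mp (zpowers_le.mpr hb') h3
  · intro h g hg
    rw [eq_bot_iff]
    rintro x ⟨hx, y, hy, rfl⟩
    by_contra hx1
    have hx' : g * y * g⁻¹ ∈ (P : Subgroup G) := hx
    have hx1' : g * y * g⁻¹ ≠ 1 := hx1
    have h1 := h y hy (by rintro rfl; simp at hx1')
    have h2 := h _ hx' hx1'
    rw [← Core.centralizer_zpowers] at h1 h2
    rw [← conj_zpowers, ← conj_centralizer, h1] at h2
    exact hg (mem_normalizer_of_conj_le (le_sylow_of_le_normalizer P (isPGroup_conj P.isPGroup' g)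
      ((conj_mono g hPC).trans (h2.le.trans (centralizer_le_normalizer _)))))

end Cfsg.Agent.S3985
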