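import Cfsg.Statements.S3986
import Cfsg.Agent.Lib.FGS.Count
import Cfsg.Agent.Lib.Coprime.Nilpotent
import Cfsg.Agent.Lib.Core.MinNormal

set_option autoImplicit false
open Cfsg

namespace Cfsg.Agent.S3986

section
open Cfsg.Lib Cfsg.Lib.FGS Cfsg.Lib.Transfer Subgroup

theorem mem_of_prime_ne {G : Type*} [Group G] [Finite G] {p : ℕ} [hp : Fact p.Prime] {P K : Subgroup G}
    (hP : IsPGroup p P) [P.Normal] [K.Normal] (h1 : P ⊓ K = ⊥) (h2 : P ⊔ K = ⊤) {y : G} {q b : ℕ}
    (hq : q.Prime) (hqp : q ≠ p) (hy : orderOf y = q ^ b) : y ∈ K := by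
  obtain ⟨k, hk⟩ := hP.exists_card_eq
  refine mem_of_pow_mem_of_coprime (K.pow_index_mem y) ?_
  rw [Core.index_eq_card_of_inf_eq_bot h1 h2, hk, hy]
  exact Nat.coprime_pow_primes _ _ hq hp.out hqp

end

/-- Let p be a prime and G a finite group. Then some Sylow p-subgroup of G is a direct factor of G (it is normal and has a normal complement) if and only if every element of p-power order commutes with every element whose order is a power of a prime other than p. -/
theorem result {G : Type*} [Group G] [Finite G] (p : ℕ) [Fact p.Prime] : (∃ (P : Sylow p G) (K : Subgroup G), (P : Subgroup G).Normal ∧ K.Normal ∧ (P : Subgroup G) ⊓ K = ⊥ ∧ (P : Subgroup G) ⊔ K = ⊤) ↔ ∀ x y : G, (∃ a : ℕ, orderOf x = p ^ a) → (∃ q b : ℕ, q.Prime ∧ q ≠ p ∧ orderOf y = q ^ b) → x * y = y * x := by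
  open Cfsg.Lib Cfsg.Lib.FGS Cfsg.Lib.Transfer Subgroup in
  constructor
  · rintro ⟨P, K, hP, hK, h1, h2⟩ x y hx ⟨q, b, hq, hqp, hy⟩
    obtain ⟨a, ha⟩ := orderOf_eq_pow_iff.mp hx
    have h3 := mem_sylow_of_mem_normalizer P ha (le_normalizer_of_normal (mem_top x))
    exact (commute_of_normal_of_disjoint _ _ hP hK (disjoint_iff.mpr h1) x y h3
      (mem_of_prime_ne P.isPGroup' h1 h2 hq hqp hy)).eq
  · intro h
    obtain ⟨P⟩ : Nonempty (Sylow p G) := inferInstance
    have h1 : ∀ (q : ℕ) (Q : Subgroup G), q.Prime → q ≠ p → IsPGroup q Q →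
        Q ≤ centralizer ((P : Subgroup G) : Set G) := fun q Q hq hqp hQ y hy x hx => by
      have := Fact.mk hq
      obtain ⟨b, hb⟩ := orderOf_eq_pow_iff.mpr (exists_pow_of_mem hQ hy)
      exact h x y (orderOf_eq_pow_iff.mpr (exists_pow_of_mem P.isPGroup' hx)) ⟨q, b, hq, hqp, hb⟩
    have h2 : (P : Subgroup G).Normal := by
      rw [← normalizer_eq_top_iff]
      refine Core.eq_top_of_forall_sylow_le fun q hq => ?_
      by_cases hqp : q = p
      · subst hqp; exact ⟨P, le_normalizer⟩
      · obtain ⟨Q⟩ : Nonempty (Sylow q G) := inferInstance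
        exact ⟨Q, (h1 q Q hq.out hqp Q.isPGroup').trans (centralizer_le_normalizer _)⟩
    obtain ⟨K, hK⟩ := exists_right_complement'_of_coprime P.card_coprime_index
    have h3 : K ≤ centralizer ((P : Subgroup G) : Set G) := by
      refine Coprime.le_of_forall_pgroup_le fun q Q hq hQK hQ => ?_
      by_cases hqp : q = p
      · subst hqp
        exact (le_inf (le_sylow_of_le_normalizer P hQ le_normalizer_of_normal) hQK).trans (hK.disjoint.le_bot.trans bot_le)
      · exact h1 q Q hq hqp hQ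
    refine ⟨P, K, h2, ?_, hK.disjoint.eq_bot, hK.sup_eq_top⟩
    rw [← normalizer_eq_top_iff, eq_top_iff, ← hK.sup_eq_top]
    exact sup_le ((le_centralizer_iff.mp h3).trans (centralizer_le_normalizer _)) le_normalizer

end Cfsg.Agent.S3986
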