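import Cfsg.Statements.S3987
import Cfsg.Agent.S3986

set_option autoImplicit false
open Cfsg

namespace Cfsg.Agent.S3987

/-- Let p be a prime and G a finite group. Then some Sylow p-subgroup of G is a direct factor of G (normal with a normal complement) if and only if for every element x of p-power order and every element y whose order is a power of a prime other than p, the conjugacy class of x y has as many elements as the product of the sizes of the classes of x and of y. -/
theorem result {G : Type*} [Group G] [Finite G] (p : ℕ) [Fact p.Prime] : (∃ (P : Sylow p G) (K : Subgroup G), (P : Subgroup G).Normal ∧ K.Normal ∧ (P : Subgroup G) ⊓ K = ⊥ ∧ (P : Subgroup G) ⊔ K = ⊤) ↔ ∀ x y : G, (∃ a : ℕ, orderOf x = p ^ a) → (∃ q b : ℕ, q.Prime ∧ q ≠ p ∧ orderOf y = q ^ b) → (Subgroup.centralizer ({x * y} : Set G)).index = (Subgroup.centralizer ({x} : Set G)).index * (Subgroup.centralizer ({y} : Set G)).index := by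
  open Cfsg.Lib Cfsg.Lib.FGS Cfsg.Lib.Transfer Subgroup in
  have hp : p.Prime := Fact.out
  constructor
  · rintro ⟨P, K, hP, hK, h1, h2⟩ x y hx ⟨q, b, hq, hqp, hy⟩
    have hc := (Cfsg.Agent.S3986.result p).mp ⟨P, K, hP, hK, h1, h2⟩ x y hx ⟨q, b, hq, hqp, hy⟩
    obtain ⟨a, ha⟩ := orderOf_eq_pow_iff.mp hx
    obtain ⟨a', ha'⟩ := hx
    have h3 := mem_sylow_of_mem_normalizer P ha (le_normalizer_of_normal (mem_top x))
    have h4 := Cfsg.Agent.S3986.mem_of_prime_ne P.isPGroup' h1 h2 hq hqp hy
    have h5 := commute_of_normal_of_disjoint _ _ hP hK (disjoint_iff.mpr h1)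
    rw [centralizer_mul_of_coprime hc (by rw [ha', hy]; exact Nat.coprime_pow_primes _ _ hp hq hqp.symm)]
    refine Coprime.index_inf_of_coprime ?_
    have h6 : K ≤ centralizer ({x} : Set G) := fun k hk =>
      mem_centralizer_singleton_iff.mpr (h5 x k h3 hk).symm
    have h7 : ↑P ≤ centralizer ({y} : Set G) := fun k hk =>
      mem_centralizer_singleton_iff.mpr (h5 k y hk h4)
    refine Nat.Coprime.coprime_dvd_left (index_dvd_of_le h6)
      (Nat.Coprime.coprime_dvd_right (index_dvd_of_le h7) ?_)
    rw [Core.index_eq_card_of_inf_eq_bot h1 h2]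
    exact P.card_coprime_index
  · intro h
    refine (Cfsg.Agent.S3986.result p).mpr fun x y hx hy => ?_
    have h1 : centralizer ({x} : Set G) ⊓ centralizer ({y} : Set G) ≤ centralizer ({x * y} : Set G) := by
      intro g hg
      have h1 := mem_centralizer_singleton_iff.mp hg.1
      have h2 := mem_centralizer_singleton_iff.mp hg.2
      rw [mem_centralizer_singleton_iff, ← mul_assoc, h1, mul_assoc, h2, mul_assoc]
    have h2 := index_inf_le (H := centralizer ({x} : Set G)) (K := centralizer ({y} : Set G))
    rw [← h x y hx hy] at h2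
    have h3 := eq_of_le_of_card_ge h1 (by
      have e1 := (centralizer ({x * y} : Set G)).index_mul_card
      rw [← (centralizer ({x} : Set G) ⊓ centralizer ({y} : Set G)).index_mul_card] at e1
      exact Nat.le_of_mul_le_mul_left (e1.le.trans (Nat.mul_le_mul_right _ h2))
        (Nat.pos_of_ne_zero index_ne_zero_of_finite))
    have h4 : x * y ∈ centralizer ({x} : Set G) ⊓ centralizer ({y} : Set G) :=
      h3 ▸ mem_centralizer_singleton_iff.mpr rfl
    have h5 := mem_centralizer_singleton_iff.mp h4.1
    rw [mul_assoc] at h5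
    exact (mul_left_cancel h5).symm

end Cfsg.Agent.S3987
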