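import Cfsg.Statements.S3989
import Cfsg.Agent.Lib.Core.PSolvable
import Cfsg.Agent.Lib.Core.MinNormal
import Cfsg.Agent.Lib.Modular.PPart
import Cfsg.Agent.Lib.Transfer.Criteria

set_option autoImplicit false
open Cfsg

namespace Cfsg.Agent.S3989

open Subgroup Cfsg.Lib.Core Cfsg.Lib.Modular Cfsg.Lib.Transfer in
/-- An element all of whose prime-parts lie in `H` lies in `H`. -/
theorem mem_of_parts {G : Type*} [Group G] [Finite G] (H : Subgroup G) (n : ℕ) :
    ∀ g : G, orderOf g = n → (∀ q : ℕ, q.Prime → q ∣ orderOf g → pPart q g ∈ H) → g ∈ H := by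
  induction n using Nat.strong_induction_on with
  | _ n ih =>
  intro g hn h
  by_cases h1 : orderOf g = 1
  · rw [orderOf_eq_one_iff.1 h1]; exact H.one_mem
  obtain ⟨q, hq, hd⟩ := Nat.exists_prime_and_dvd h1
  have hdiv : orderOf (regPart q g) ∣ orderOf g := orderOf_dvd_of_mem_zpowers (regPart_mem_zpowers q g)
  have hne : orderOf (regPart q g) ≠ orderOf g := fun e =>
    not_dvd_orderOf_regPart hq g (e ▸ hd)
  have hlt : orderOf (regPart q g) < n :=
    hn ▸ lt_of_le_of_ne (Nat.le_of_dvd (orderOf_pos g) hdiv) hne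
  have hr : regPart q g ∈ H := by
    refine ih _ hlt _ rfl fun r hr hrd => ?_
    have hrq : r ≠ q := fun e => not_dvd_orderOf_regPart hq g (e ▸ hrd)
    have h2 := h r hr (hrd.trans hdiv)
    have h3 : pPart r (pPart q g) = 1 := by
      refine pPart_of_not_dvd hr fun hd' => hrq ?_
      obtain ⟨k, hk⟩ := pElt_pPart hq g
      rw [hk] at hd'
      exact (Nat.prime_dvd_prime_iff_eq hr hq).1 (hr.dvd_of_dvd_pow hd')
    rw [← pPart_mul_regPart q g, pPart_mul_of_commute r (commute_pPart_regPart q g), h3,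
      one_mul] at h2
    exact h2
  rw [← pPart_mul_regPart q g]
  exact H.mul_mem (h q hq hd) hr

/-- The hypothesis. -/
def Hyp (p : ℕ) (G : Type*) [Group G] : Prop :=
  ∀ x y : G, (∃ a : ℕ, orderOf x = p ^ a) → (∃ q b : ℕ, q.Prime ∧ q ≠ p ∧ orderOf y = q ^ b) →
    ∀ a b : G, IsConj (x * y) (a * x * a⁻¹ * (b * y * b⁻¹))

open Subgroup Cfsg.Lib.Core Cfsg.Lib.Modular Cfsg.Lib.Transfer in
theorem Hyp.quot {G : Type*} [Group G] [Finite G] {p : ℕ} [hp : Fact p.Prime] (h : Hyp p G)
    (N : Subgroup G) [N.Normal] : Hyp p (G ⧸ N) := by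
  rintro x y hx ⟨q, b, hq, hqp, hy⟩ a c
  obtain ⟨x, rfl⟩ := QuotientGroup.mk'_surjective N x
  obtain ⟨y, rfl⟩ := QuotientGroup.mk'_surjective N y
  obtain ⟨a, rfl⟩ := QuotientGroup.mk'_surjective N a
  obtain ⟨c, rfl⟩ := QuotientGroup.mk'_surjective N c
  have e1 : QuotientGroup.mk' N x = QuotientGroup.mk' N (pPart p x) := by
    rw [map_pPart hp.out, pPart_of_pElt hp.out hx]
  have e2 : QuotientGroup.mk' N y = QuotientGroup.mk' N (pPart q y) := by
    rw [map_pPart hq, pPart_of_pElt hq ⟨b, hy⟩]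
  obtain ⟨k, hk⟩ := pElt_pPart hq y
  have := (QuotientGroup.mk' N).map_isConj
    (h _ _ (pElt_pPart hp.out x) ⟨q, k, hq, hqp, hk⟩ a c)
  rw [e1, e2]
  simpa only [map_mul, map_inv] using this

open Subgroup Cfsg.Lib.Core Cfsg.Lib.Modular Cfsg.Lib.Transfer in
theorem Hyp.minNormal {G : Type*} [Group G] [Finite G] {p : ℕ} [hp : Fact p.Prime] (h : Hyp p G)
    {N : Subgroup G} (hN : IsMinNormal N) : HasNormalPComplement p N := by
  refine hasNormalPComplement_subgroup_iff.2 fun Q hQN hQ g hgN hg hc => ?_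
  refine mem_of_parts _ _ g rfl fun q hq hqd => ?_
  have hqp : q ≠ p := fun e => by
    subst e
    exact hq.one_lt.ne' (Nat.Coprime.eq_one_of_dvd hc.symm hqd)
  set y := pPart q g with hy
  have hyN : y ∈ N := pPart_mem q hgN
  have hyQ : y ∈ normalizer (Q : Set G) := pPart_mem q hg
  obtain ⟨k, hk⟩ := pElt_pPart hq g
  rw [mem_centralizer_iff]
  intro u hu
  by_contra hne
  set x := u * (y * u⁻¹ * y⁻¹) with hx
  have hxQ : x ∈ Q := Q.mul_mem hu ((mem_normalizer_iff.1 hyQ _).1 (Q.inv_mem hu))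
  have hx1 : x ≠ 1 := fun e => hne (by
    have : u * y = x * (y * u) := by rw [hx]; group
    rw [this, e, one_mul])
  have hxy : IsConj y (x * y) := isConj_iff.2 ⟨u, by rw [hx]; group⟩
  let M : Subgroup G :=
    { carrier := {m | ∀ b : G, IsConj y (m * (b * y * b⁻¹))}
      one_mem' := fun b => isConj_iff.2 ⟨b, by group⟩
      mul_mem' := fun {m n} hm hn b => by
        obtain ⟨c, hc⟩ := isConj_iff.1 (hn b)
        rw [mul_assoc, ← hc]
        exact hm c
      inv_mem' := fun {m} hm => by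
        have key : ∀ j : ℕ, ∀ b : G, IsConj y (m ^ j * (b * y * b⁻¹)) := by
          intro j
          induction j with
          | zero => intro b; exact isConj_iff.2 ⟨b, by group⟩
          | succ j ih =>
            intro b
            obtain ⟨c, hc⟩ := isConj_iff.1 (ih b)
            rw [pow_succ', mul_assoc, ← hc]
            exact hm c
        have e : m⁻¹ = m ^ (orderOf m - 1) := by
          rw [inv_eq_iff_mul_eq_one, ← pow_succ', Nat.sub_add_cancel (orderOf_pos m),
            pow_orderOf_eq_one]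
        intro b
        rw [e]
        exact key _ b }
  have hMn : M.Normal := ⟨fun m hm a b => by
    have := hm (a⁻¹ * b)
    refine this.trans (isConj_iff.2 ⟨a, by group⟩)⟩
  have hxM : x ∈ M := fun b => by
    have := h x y (pElt_of_mem hp.out hQ hxQ) ⟨q, k, hq, hqp, hk⟩ 1 b
    simpa using hxy.trans this
  have hle : N ≤ M := (hN.inf_eq_bot_or_le M).resolve_left fun e => hx1 (by
    have : x ∈ N ⊓ M := ⟨hQN hxQ, hxM⟩
    rwa [e, mem_bot] at this)
  have h1 := hle (N.inv_mem hyN) 1
  simp only [one_mul, inv_one, mul_one, inv_mul_cancel, isConj_one_left] at h1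
  exact hne (by rw [h1]; simp)

open Subgroup Cfsg.Lib.Core Cfsg.Lib.Modular Cfsg.Lib.Transfer in
theorem main.{u} {p : ℕ} [hp : Fact p.Prime] (n : ℕ) : ∀ (G : Type u) [Group G] [Finite G],
    Nat.card G = n → Hyp p G → IsPSolvable p G := by
  induction n using Nat.strong_induction_on with
  | _ n ih =>
  intro G _ _ hn h
  cases subsingleton_or_nontrivial G with
  | inl _ => exact isPSolvable_of_isPGroup (IsPGroup.of_card (n := 0) (by simp))
  | inr _ =>
  obtain ⟨N, hN⟩ := exists_isMinNormal (G := G)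
  haveI := hN.normal
  obtain ⟨K, hK, h1, h2⟩ := hasNormalPComplement_iff_exists.1 (h.minNormal hN)
  refine isPSolvable_of_normal_quotient N (isPSolvable_of_normal_quotient K
    (isPSolvable_of_coprime h1) (isPSolvable_of_isPGroup h2)) (ih _ ?_ _ rfl (h.quot N))
  rw [← hn, card_eq_card_quotient_mul_card_subgroup N]
  have h3 : 1 < Nat.card N := (one_lt_card_iff_ne_bot N).2 hN.ne_bot
  have h4 : 0 < Nat.card (G ⧸ N) := Nat.card_pos
  nlinarith

/-- Let p be a prime and G a finite group such that for every element x of p-power order and every element y whose order is a power of a prime other than p, the conjugacy class of x y is the set of all products of a conjugate of x with a conjugate of y. Then G is p-solvable. -/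
theorem result {G : Type*} [Group G] [Finite G] (p : ℕ) [Fact p.Prime] (h : ∀ x y : G, (∃ a : ℕ, orderOf x = p ^ a) → (∃ q b : ℕ, q.Prime ∧ q ≠ p ∧ orderOf y = q ^ b) → ∀ z : G, IsConj (x * y) z ↔ ∃ a b : G, z = a * x * a⁻¹ * (b * y * b⁻¹)) : Cfsg.IsPSolvable p G := by
  exact main _ G rfl fun x y hx hy a b => (h x y hx hy _).2 ⟨a, b, rfl⟩

end Cfsg.Agent.S3989
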