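import Cfsg.Statements.S3992
import Cfsg.Agent.Lib.CIT.Orders

set_option autoImplicit false
open Cfsg

namespace Cfsg.Agent.S3992

/-- Let G be a finite non-solvable group in which every element has prime-power order, and let R be its largest solvable normal subgroup. Then R is a p-group for some prime p; G/R has a non-abelian simple normal subgroup contained in every nontrivial normal subgroup of G/R (its unique minimal normal subgroup); and the order of every solvable subgroup of G has at most two prime divisors. -/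
theorem result {G : Type*} [Group G] [Finite G] (hns : ¬ Group.IsSolvable G) (hpp : ∀ g : G, g ≠ 1 → IsPrimePow (orderOf g))
    (R : Subgroup G) [R.Normal] (hRs : Group.IsSolvable ↥R) (hRmax : ∀ N : Subgroup G, N.Normal → Group.IsSolvable ↥N → N ≤ R) :
    (∃ p : ℕ, p.Prime ∧ IsPGroup p ↥R) ∧
      (∃ M : Subgroup (G ⧸ R), M.Normal ∧ IsSimpleGroup ↥M ∧ ¬ IsMulCommutative ↥M ∧
        ∀ N : Subgroup (G ⧸ R), N.Normal → N ≠ ⊥ → M ≤ N) ∧
      ∀ H : Subgroup G, Group.IsSolvable ↥H → (Nat.card ↥H).primeFactors.card ≤ 2 := by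
  open Lib Lib.CIT in
  have hO := Core.pCore_isPGroup 2 G
  have h := (eppo_cit hpp).quot _ hO
  obtain ⟨L, h1, h2, h3, h4⟩ := h.exists_simple (h.rk2 (mt
    (Core.isSolvable_of_normal_quotient _ (BG.pgroup_sol hO)) hns)) (Core.pCore_quotient_pCore 2 G)
  obtain rfl : R = pCore 2 G := le_antisymm (by
    have : R.map (QuotientGroup.mk' (pCore 2 G)) = ⊥ := by
      by_contra h0
      exact h3 ⟨⟨IsSimpleGroup.comm_iff_isSolvable.2 (BG.sol_of_le (BG.sol_map _ hRs)
        (h4 _ (Subgroup.Normal.map ‹_› _ (QuotientGroup.mk'_surjective _)) h0))⟩⟩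
    simpa [Subgroup.map_eq_bot_iff] using this) (hRmax _ inferInstance (BG.pgroup_sol hO))
  refine ⟨⟨2, Nat.prime_two, hO⟩, ⟨L, h1, h2, h3, h4⟩, fun H hH => Nat.le_of_lt_succ (not_le.1 fun h5 =>
    eppo_not_solvable (fun g g1 => ?_) h5 hH)⟩
  rw [← Subgroup.orderOf_coe]
  exact hpp _ fun e => g1 (Subtype.ext e)

end Cfsg.Agent.S3992
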