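import Cfsg.Statements.S4009
import Cfsg.Agent.Lib.Lie.Alperin
import Cfsg.Agent.Lib.FGS.Regular

set_option autoImplicit false
open Cfsg

namespace Cfsg.Agent.S4009

open Subgroup Cfsg.Lib Cfsg.Lib.PGroup
open scoped commutatorElement

section
variable {G : Type*} [Group G] {p : ℕ}

/-- derived series of a subgroup -/
def D : ℕ → Subgroup G → Subgroup G
  | 0, N => N
  | k + 1, N => D k ⁅N, N⁆

theorem D_bot : ∀ k, D k (⊥ : Subgroup G) = ⊥
  | 0 => rfl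
  | k + 1 => by rw [D, commutator_bot_left, D_bot k]

theorem D_der : ∀ k j, D k (derivedSeries G j) = derivedSeries G (j + k)
  | 0, _ => rfl
  | k + 1, j => by
    rw [D, ← derivedSeries_succ, D_der k, add_assoc, add_comm 1]

theorem comm_le_of_gen {N M : Subgroup G} [M.Normal] {S : Set G} (hS : S ⊆ N)
    (hN : N ≤ Subgroup.closure S ⊔ ⁅N, (⊤ : Subgroup G)⁆) (h1 : ⁅⁅N, (⊤ : Subgroup G)⁆, N⁆ ≤ M) (hN1 : ⁅N, (⊤ : Subgroup G)⁆ ≤ N)
    (h : ∀ x ∈ S, ∀ y ∈ S, ⁅x, y⁆ ∈ M) : ⁅N, N⁆ ≤ M := by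
  let f := QuotientGroup.mk' M
  have e : ∀ x y : G, ⁅x, y⁆ ∈ M ↔ y ∈ (centralizer {f x}).comap f := fun x y => by
    rw [mem_comap, mem_centralizer_singleton_iff, eq_comm,
      ← commutatorElement_eq_one_iff_mul_comm, ← map_commutatorElement]
    exact (QuotientGroup.eq_one_iff _).symm
  have sw : ∀ x y : G, ⁅x, y⁆ ∈ M → ⁅y, x⁆ ∈ M := fun x y h => commutatorElement_inv x y ▸ M.inv_mem h
  have a : ∀ x ∈ N, (∀ y ∈ S, ⁅x, y⁆ ∈ M) → ∀ y ∈ N, ⁅x, y⁆ ∈ M := fun x hx hs y hy => by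
    refine (e x y).2 ((hN.trans (sup_le ((Subgroup.closure_le _).2 fun s hs' => (e x s).1 (hs s hs')) fun n hn =>
      (e x n).1 (sw _ _ (h1 (commutator_mem_commutator hn hx))))) hy)
  exact commutator_le.2 fun x hx y hy => a x hx (fun s hs => sw _ _ (a s (hS hs) (h s hs) x hx)) y hy

/-- `N/[N,G]` is cyclic -/
def Cyc (N : Subgroup G) : Prop := ∃ a ∈ N, N ≤ zpowers a ⊔ ⁅N, (⊤ : Subgroup G)⁆

theorem Cyc.comm_le {N : Subgroup G} [N.Normal] (h : Cyc N) : ⁅N, N⁆ ≤ ⁅⁅N, (⊤ : Subgroup G)⁆, N⁆ := by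
  obtain ⟨a, ha, h⟩ := h
  refine comm_le_of_gen (S := {a}) (by simpa using ha) (by rwa [← zpowers_eq_closure]) le_rfl
    (commutator_le_left _ _) ?_
  rintro _ rfl _ rfl
  simp

theorem nt (N : Subgroup G) [N.Normal] : (⊤ : Subgroup G) ≤ normalizer (N : Set G) :=
  (normalizer_eq_top N).ge

theorem Cyc.le_lcs {N : Subgroup G} [N.Normal] (h : Cyc N) {i : ℕ}
    (hN : N ≤ (⊤ : Subgroup G).lowerCentralSeries i) :
    ⁅N, N⁆ ≤ (⊤ : Subgroup G).lowerCentralSeries (2 * i + 2) :=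
  h.comm_le.trans ((commutator_mono (commutator_mono hN le_rfl) hN).trans
    ((RegP.comm_lcs_le ⊤ (i + 1) i).trans (le_of_eq (by congr 1; ring))))

theorem le_lcs {N : Subgroup G} {i : ℕ} (hN : N ≤ (⊤ : Subgroup G).lowerCentralSeries i) :
    ⁅N, N⁆ ≤ (⊤ : Subgroup G).lowerCentralSeries (2 * i + 1) :=
  (commutator_mono hN hN).trans ((RegP.comm_lcs_le ⊤ i i).trans (le_of_eq (by congr 1; ring)))

variable [Finite G] [hp : Fact p.Prime]

theorem iter1 (N : Subgroup G) (i : ℕ) :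
    iterCommutator ⁅N, (⊤ : Subgroup G)⁆ ⊤ i = iterCommutator N ⊤ (i + 1) := by
  rw [add_comm, iterCommutator_add]; rfl

theorem step (hG : IsPGroup p G) (N : Subgroup G) [N.Normal] {i : ℕ}
    (hN : N ≤ (⊤ : Subgroup G).lowerCentralSeries i) (h : ⁅N, N⁆ ≠ ⊥) :
    p ^ (i + 2) * Nat.card ↥⁅N, N⁆ ≤ Nat.card N ∧
      (p ^ (i + 3) * Nat.card ↥⁅N, N⁆ ≤ Nat.card N ∨ Cyc N ∨ Cyc ⁅N, N⁆) := by
  have hT : IsPGroup p (⊤ : Subgroup G) := hG.to_subgroup _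
  have hA : ⁅N, N⁆ ≤ iterCommutator N ⊤ (i + 1) :=
    (commutator_mono le_rfl hN).trans (Lie.comm_lcs_le_iter i N le_top (nt N))
  have hB : ⁅⁅N, (⊤ : Subgroup G)⁆, N⁆ ≤ iterCommutator N ⊤ (i + 2) := by
    rw [← iter1]
    exact (commutator_mono le_rfl hN).trans (Lie.comm_lcs_le_iter i _ le_top (nt _))
  have hne : iterCommutator N ⊤ (i + 1) ≠ ⊥ := fun e => h (eq_bot_iff.2 (e ▸ hA))
  by_cases hc : Cyc N
  · refine ⟨(Nat.mul_le_mul_left _ (card_le_of_le (hc.comm_le.trans hB))).trans ?_, Or.inr (Or.inl hc)⟩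
    exact pow_mul_card_iterCommutator_succ_le (hG.to_subgroup _) hT (nt N) hne
  have h1 : p ^ i * Nat.card (iterCommutator N ⊤ (i + 1)) ≤ Nat.card ↥⁅N, (⊤ : Subgroup G)⁆ := by
    rw [← iter1] at hne ⊢
    refine pow_mul_card_iterCommutator_le (hG.to_subgroup _) hT (nt _) ?_
    exact (Nat.pow_le_pow_right hp.out.pos i.le_succ).trans
      (pow_succ_le_card_of_iterCommutator_ne_bot (hG.to_subgroup _) hT (nt _) hne)
  have hN1 : ⁅N, (⊤ : Subgroup G)⁆ ≤ N := commutator_le_left _ _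
  have hlt : ⁅N, (⊤ : Subgroup G)⁆ < N := commutator_lt (hG.to_subgroup _) hT (nt N)
    fun e => h (by rw [e, commutator_bot_left])
  obtain ⟨a, ha, ha'⟩ := SetLike.exists_of_lt hlt
  obtain ⟨b, hb, hb'⟩ : ∃ b ∈ N, b ∉ zpowers a ⊔ ⁅N, (⊤ : Subgroup G)⁆ := by
    by_contra! H
    exact hc ⟨a, ha, H⟩
  have l1 : ⁅N, (⊤ : Subgroup G)⁆ < zpowers a ⊔ ⁅N, (⊤ : Subgroup G)⁆ := lt_of_le_of_ne le_sup_right fun e =>
    ha' (e ▸ mem_sup_left (mem_zpowers a))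
  have l2 : zpowers a ⊔ ⁅N, (⊤ : Subgroup G)⁆ < Subgroup.closure {a, b} ⊔ ⁅N, (⊤ : Subgroup G)⁆ := lt_of_le_of_ne
    (sup_le_sup_right (zpowers_le.2 (subset_closure (by simp))) _) fun e =>
      hb' (e ▸ mem_sup_left (subset_closure (by simp)))
  have hS : ({a, b} : Set G) ⊆ N := by
    rintro _ (rfl | rfl)
    exacts [ha, hb]
  have l3 : Subgroup.closure {a, b} ⊔ ⁅N, (⊤ : Subgroup G)⁆ ≤ N := sup_le ((Subgroup.closure_le _).2 hS) hN1
  have c1 := mul_card_le_of_lt (hG.to_subgroup _) l1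
  have c2 := mul_card_le_of_lt (hG.to_subgroup _) l2
  have c3 := card_le_of_le l3
  have c4 := card_le_of_le hA
  have key : p ^ (i + 2) * Nat.card (iterCommutator N ⊤ (i + 1)) ≤
      Nat.card ↥(Subgroup.closure {a, b} ⊔ ⁅N, (⊤ : Subgroup G)⁆) := by
    calc _ = p * (p * (p ^ i * Nat.card (iterCommutator N ⊤ (i + 1)))) := by ring
      _ ≤ _ := (Nat.mul_le_mul_left _ ((Nat.mul_le_mul_left _ h1).trans c1)).trans c2
  refine ⟨(Nat.mul_le_mul_left _ c4).trans (key.trans c3), ?_⟩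
  rcases l3.lt_or_eq with l | l
  · refine Or.inl (le_trans ?_ (mul_card_le_of_lt (hG.to_subgroup _) l))
    rw [pow_succ', mul_assoc]
    exact Nat.mul_le_mul_left _ ((Nat.mul_le_mul_left _ c4).trans key)
  rcases hA.lt_or_eq with m | m
  · refine Or.inl (le_trans ?_ (key.trans c3))
    rw [pow_succ, mul_assoc]
    exact Nat.mul_le_mul_left _ (mul_card_le_of_lt (hG.to_subgroup _) m)
  have hab : ⁅a, b⁆ ∈ ⁅N, N⁆ := commutator_mem_commutator ha hb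
  refine Or.inr (Or.inr ⟨⁅a, b⁆, hab, ?_⟩)
  have hle : zpowers ⁅a, b⁆ ⊔ ⁅⁅N, N⁆, (⊤ : Subgroup G)⁆ ≤ ⁅N, N⁆ := sup_le (zpowers_le.2 hab) (commutator_le_left _ _)
  haveI : (zpowers ⁅a, b⁆ ⊔ ⁅⁅N, N⁆, (⊤ : Subgroup G)⁆).Normal := ⟨fun x hx g => by
    have := Subgroup.mul_mem _ (mem_sup_right (S := zpowers ⁅a, b⁆) ((commutator_comm _ _).le
      (commutator_mem_commutator (mem_top g) (hle hx)))) hx
    simpa [commutatorElement_def] using this⟩
  refine comm_le_of_gen hS l.ge (hB.trans (le_trans ?_ le_sup_right)) hN1 ?_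
  · rw [m]; exact le_rfl
  · have hm : ⁅a, b⁆ ∈ zpowers ⁅a, b⁆ ⊔ ⁅⁅N, N⁆, (⊤ : Subgroup G)⁆ := mem_sup_left (mem_zpowers _)
    rintro _ (rfl | rfl) _ (rfl | rfl)
    · simp
    · exact hm
    · simpa only [commutatorElement_inv] using Subgroup.inv_mem _ hm
    · simp

theorem ne_of_D {k : ℕ} {N : Subgroup G} (h : D k N ≠ ⊥) : N ≠ ⊥ := fun e => h (by rw [e, D_bot])

theorem hall (hG : IsPGroup p G) : ∀ (k i : ℕ) (N : Subgroup G) [N.Normal],
    N ≤ (⊤ : Subgroup G).lowerCentralSeries i → D k N ≠ ⊥ →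
      p ^ (2 ^ k * (i + 1) + k + 1) ≤ p ^ (i + 1) * Nat.card N
  | 0, i, N, _, _, h => by
    have := mul_card_le_of_lt (hG.to_subgroup _) (bot_lt_iff_ne_bot.2 h)
    rw [card_bot, mul_one] at this
    rw [pow_zero, one_mul, add_zero, pow_succ]
    exact Nat.mul_le_mul_left _ this
  | k + 1, i, N, _, hN, h => by
    have h1 := hall hG k _ _ (le_lcs hN) h
    have h2 := (step hG N hN (ne_of_D h)).1
    calc _ = p * p ^ (2 ^ k * (2 * i + 1 + 1) + k + 1) := by rw [← pow_succ']; congr 1; ring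
      _ ≤ p * (p ^ (2 * i + 1 + 1) * Nat.card ↥⁅N, N⁆) := Nat.mul_le_mul_left _ h1
      _ = p ^ (i + 1) * (p ^ (i + 2) * Nat.card ↥⁅N, N⁆) := by ring
      _ ≤ _ := Nat.mul_le_mul_left _ h2

theorem hall' (hG : IsPGroup p G) (k i : ℕ) (N : Subgroup G) [N.Normal]
    (hN : N ≤ (⊤ : Subgroup G).lowerCentralSeries (i + 1)) (h : D k N ≠ ⊥) :
    p ^ (2 ^ k * (i + 1) + 2 * k + 1) ≤ p ^ (i + 1) * Nat.card N := by
  have h1 := hall hG k _ N hN h
  have h2 : k + 1 ≤ 2 ^ k := Nat.lt_two_pow_self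
  refine Nat.le_of_mul_le_mul_left ?_ hp.out.pos
  rw [← mul_assoc, ← pow_succ', ← pow_succ']
  exact (Nat.pow_le_pow_right hp.out.pos (by nlinarith)).trans h1

theorem mann (hG : IsPGroup p G) : ∀ (k i : ℕ) (N : Subgroup G) [N.Normal],
    N ≤ (⊤ : Subgroup G).lowerCentralSeries i → D k N ≠ ⊥ →
      p ^ (2 ^ k * (i + 1) + 2 * k) ≤ p ^ (i + 2) * Nat.card N
  | 0, i, N, _, hN, h => by
    refine le_trans ?_ (Nat.le_mul_of_pos_right _ Nat.card_pos)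
    exact Nat.pow_le_pow_right hp.out.pos (by omega)
  | k + 1, i, N, _, hN, h => by
    obtain ⟨h2, h3 | h3 | h3⟩ := step hG N hN (ne_of_D h)
    · have h1 := mann hG k _ _ (le_lcs hN) h
      calc _ = p ^ 2 * p ^ (2 ^ k * (2 * i + 1 + 1) + 2 * k) := by rw [← pow_add]; congr 1; ring
        _ ≤ p ^ 2 * (p ^ (2 * i + 1 + 2) * Nat.card ↥⁅N, N⁆) := Nat.mul_le_mul_left _ h1
        _ = p ^ (i + 2) * (p ^ (i + 3) * Nat.card ↥⁅N, N⁆) := by ring
        _ ≤ _ := Nat.mul_le_mul_left _ h3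
    · have h1 := hall' hG k _ _ (h3.le_lcs hN) h
      calc _ = p * p ^ (2 ^ k * (2 * i + 1 + 1) + 2 * k + 1) := by rw [← pow_succ']; congr 1; ring
        _ ≤ p * (p ^ (2 * i + 1 + 1) * Nat.card ↥⁅N, N⁆) := Nat.mul_le_mul_left _ h1
        _ = p ^ (i + 1) * (p ^ (i + 2) * Nat.card ↥⁅N, N⁆) := by ring
        _ ≤ p ^ (i + 1) * Nat.card N := Nat.mul_le_mul_left _ h2
        _ ≤ _ := Nat.mul_le_mul_right _ (Nat.pow_le_pow_right hp.out.pos (by omega))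
    · rcases k with _ | k
      · have h1 := hall hG 1 i N hN h
        exact h1.trans (Nat.mul_le_mul_right _ (Nat.pow_le_pow_right hp.out.pos (by omega)))
      · have h1 := hall' hG k _ _ (h3.le_lcs (le_lcs hN)) h
        have h4 := (step hG ⁅N, N⁆ (le_lcs hN) (ne_of_D (k := k) h)).1
        calc _ = p ^ 3 * p ^ (2 ^ k * (2 * (2 * i + 1) + 1 + 1) + 2 * k + 1) := by
              rw [← pow_add]; congr 1; ring
          _ ≤ p ^ 3 * (p ^ (2 * (2 * i + 1) + 1 + 1) * Nat.card ↥⁅⁅N, N⁆, ⁅N, N⁆⁆) := Nat.mul_le_mul_left _ h1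
          _ = p ^ (i + 2) * (p ^ (i + 2) * (p ^ (2 * i + 1 + 2) * Nat.card ↥⁅⁅N, N⁆, ⁅N, N⁆⁆)) := by ring
          _ ≤ _ := Nat.mul_le_mul_left _ ((Nat.mul_le_mul_left _ h4).trans h2)

end

/-- Let P be a finite p-group of order p^n whose derived length is exactly k + 1 (the k-th derived subgroup is nontrivial and the (k+1)-st is trivial). Then n ≥ 2^k + 2k − 2. -/
theorem result {P : Type*} [Group P] [Finite P] (p : ℕ) [Fact p.Prime] (n k : ℕ) (hcard : Nat.card P = p ^ n) (hk : derivedSeries P k ≠ ⊥) (hk' : derivedSeries P (k + 1) = ⊥) : 2 ^ k + 2 * k ≤ n + 2 := by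
  have h := mann (IsPGroup.of_card hcard) k 0 ⊤ le_rfl (by
    have := D_der (G := P) k 0
    rw [zero_add] at this
    exact this ▸ hk)
  rw [Subgroup.card_top, hcard, ← pow_add, Nat.pow_le_pow_iff_right (Fact.out : p.Prime).one_lt] at h
  omega

end Cfsg.Agent.S4009
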