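import Cfsg.Statements.S4013
import Cfsg.Agent.Lib.FGS.Count
import Cfsg.Agent.Lib.Small.Basic

set_option autoImplicit false
open Cfsg

namespace Cfsg.Agent.S4013

/-- Let G be a finite p-group (p prime) and N < M normal subgroups of G such that for some g ∈ M ∖ N the conjugacy class of g is exactly M ∖ N. Then p = 2 and N has index 2 in M. -/
theorem result {G : Type*} [Group G] [Finite G] (p : ℕ) [Fact p.Prime] (hG : IsPGroup p G) (N M : Subgroup G) [N.Normal] [M.Normal] (hNM : N < M) (g : G) (hgM : g ∈ M) (hgN : g ∉ N) (hcl : {h : G | IsConj g h} = (M : Set G) \ (N : Set G)) : p = 2 ∧ N.relIndex M = 2 := by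
  open Cfsg.Lib Cfsg.Lib.FGS Cfsg.Lib.Transfer Subgroup in
  have hp : p.Prime := Fact.out
  have h1 := Small.ncard_isConj_eq_index g
  rw [hcl, Set.ncard_sdiff (SetLike.coe_subset_coe.mpr hNM.le)] at h1
  obtain ⟨a, ha⟩ := hG.index (centralizer ({g} : Set G))
  have h2 := Core.card_mul_relIndex hNM.le
  obtain ⟨b, hb⟩ := (hG.to_subgroup M).index (N.subgroupOf M)
  have hb' : N.relIndex M = p ^ b := hb
  have hb0 : b ≠ 0 := by
    rintro rfl
    exact hNM.not_ge (relIndex_eq_one.mp hb')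
  have h3 : Nat.card N * (p ^ b - 1) = p ^ a := by
    rw [Nat.mul_sub_one, ← hb', h2, ← ha, ← h1]; rfl
  have h4 : p ^ b - 1 = 1 := by
    refine Nat.Coprime.eq_one_of_dvd (Nat.Coprime.pow_right a ?_) (Dvd.intro_left _ h3)
    refine Nat.Coprime.coprime_dvd_right (dvd_pow_self p hb0) ?_
    exact (Nat.coprime_self_sub_left (Nat.one_le_pow _ _ hp.pos)).mpr (Nat.coprime_one_left _)
  have h5 : p ^ b = 2 := by omega
  exact ⟨(Nat.prime_dvd_prime_iff_eq hp Nat.prime_two).mp (h5 ▸ dvd_pow_self p hb0), hb'.trans h5⟩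

end Cfsg.Agent.S4013
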