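import Cfsg.Statements.S4015
import Cfsg.Agent.Lib.BG.Hall
import Cfsg.Agent.Lib.FGS.LinDer

set_option autoImplicit false
open Cfsg

namespace Cfsg.Agent.S4015

section
open Subgroup Cfsg.Lib Cfsg.Lib.BG Cfsg.Lib.Transfer
open Cfsg.Lib Cfsg.Lib.FGS Cfsg.Lib.BG Subgroup Module commutatorElement

universe u v
variable {K : Type*} [Field K] {p : ℕ} [hp : Fact p.Prime]

theorem alg [IsAlgClosed K] (h0 : (p : K) ≠ 0) (k : ℕ) :
    ∀ (P : Type u) [Group P] [Finite P] (V : Type v) [AddCommGroup V] [Module K V] [FiniteDimensional K V],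
      IsPGroup p P → finrank K V < p ^ k → ∀ ρ : Representation K P V, ∀ g ∈ derivedSeries P k, ρ g = 1 := by
  induction k with
  | zero =>
    intro P _ _ V _ _ _ _ h ρ g _
    have := Module.finrank_zero_iff.1 (Nat.lt_one_iff.1 (pow_zero p ▸ h))
    exact Subsingleton.elim _ _
  | succ k ih =>
  refine fun P _ _ V _ _ _ hP h => derived_of_irr h0 _ _ ?_ _ P V hP rfl h
  intro P _ _ V _ _ _ _ hP h ρ hρ hi
  have mul : ∀ g h v, ρ (g * h) v = ρ g (ρ h v) := fun g h v => by rw [map_mul]; rfl
  by_cases hc : (⊤ : Subgroup P) ≤ center P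
  · refine le_bot_iff.1 ((derivedSeries_antitone P (Nat.le_add_left 1 k)).trans ?_)
    rw [derivedSeries_one, _root_.commutator_def, commutator_le]
    exact fun a _ b _ => mem_bot.2 (commutatorElement_eq_one_iff_mul_comm.2 (mem_center_iff.1 (hc trivial) a))
  obtain ⟨y, -, y1, y2, y3⟩ := exists_second_center (hP.to_subgroup ⊤) hc
  have sc : ∀ s, ∃ c : K, (∀ v, ρ ⁅y, s⁆ v = c • v) ∧ ∀ b, ∀ w ∈ Module.End.eigenspace (ρ y) b,
      ρ s w ∈ Module.End.eigenspace (ρ y) (c * b) := fun s => by
    obtain ⟨c, hc⟩ := Module.End.exists_eigenvalue (ρ ⁅y, s⁆)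
    have e1 : ∀ v, ρ ⁅y, s⁆ v = c • v := fun v => Module.End.mem_eigenspace_iff.1
      (((hi _ fun g w hw => Module.End.mem_eigenspace_iff.2 (by
        rw [← mul, ← mem_center_iff.1 (y3 s trivial), mul, Module.End.mem_eigenspace_iff.1 hw, map_smul])).resolve_left hc).ge trivial)
    exact ⟨c, e1, fun b w hw => Module.End.mem_eigenspace_iff.2 (by
      rw [← mul, show y * s = ⁅y, s⁆ * (s * y) by group, mul, e1, mul, Module.End.mem_eigenspace_iff.1 hw, map_smul, smul_smul])⟩
  obtain ⟨s, hs⟩ := not_forall.1 (mt mem_center_iff.2 y1)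
  obtain ⟨c, e1, e2⟩ := sc s
  have c1 : c ≠ 1 := fun e => hs (commutatorElement_eq_one_iff_mul_comm.1
    (hρ (by rw [map_one]; exact LinearMap.ext fun v => by rw [e1, e, one_smul]; rfl))).symm
  have inj : ∀ g, Function.Injective (ρ g) := fun g a b e => by
    simpa [← mul] using congrArg (ρ g⁻¹) e
  have e3 : ∀ (i : ℕ) b, ∀ w ∈ Module.End.eigenspace (ρ y) b, ρ (s ^ i) w ∈ Module.End.eigenspace (ρ y) (c ^ i * b) :=
    fun i b w hw => by
      induction i with
      | zero => simpa using hw
      | succ i ih => rw [pow_succ' s, mul, pow_succ', mul_assoc]; exact e2 _ _ ih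
  have rk : ∀ a : K, finrank K (Module.End.eigenspace (ρ y) a) < p ^ k := fun a => by
    by_cases a1 : Module.End.eigenspace (ρ y) a = ⊥
    · rw [a1, finrank_bot]; exact pow_pos hp.out.pos k
    have a0 : a ≠ 0 := fun e => a1 (by rw [e, Module.End.eigenspace_zero, LinearMap.ker_eq_bot.2 (inj y)])
    have cp : orderOf c = p := by
      obtain ⟨w, hw, w0⟩ := (Submodule.ne_bot_iff _).1 a1
      have h1 := Module.End.mem_eigenspace_iff.1 (e3 p a w hw)
      rw [← mul, ← mem_cent1.1 ((second_center_facts y2 y3).2.1 s trivial), mul, Module.End.mem_eigenspace_iff.1 hw, map_smul,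
        ← sub_eq_zero, ← sub_smul, smul_eq_zero, map_eq_zero_iff _ (inj _), sub_eq_zero] at h1
      exact orderOf_eq_prime (mul_right_cancel₀ a0 ((h1.resolve_right w0).symm.trans (one_mul a).symm)) c1
    have ind := (Module.End.eigenspaces_iSupIndep (ρ y)).comp (f := fun i : Fin p => c ^ (i : ℕ) * a) fun i j e =>
      Fin.ext (pow_injOn_Iio_orderOf (cp ▸ i.2) (cp ▸ j.2) (mul_right_cancel₀ a0 e))
    have := LinearMap.finrank_le_finrank_of_injective (f := LinearMap.lsum K (fun _ : Fin p => Module.End.eigenspace (ρ y) a) ℕ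
      fun i => (ρ (s ^ (i : ℕ))).comp (Submodule.subtype _)) ((injective_iff_map_eq_zero _).2 fun w hw => funext fun i =>
        Subtype.ext (inj (s ^ (i : ℕ)) (((iSupIndep_iff_finsetSum_eq_zero_imp_eq_zero _).1 ind Finset.univ
          (fun i => ρ (s ^ (i : ℕ)) (w i)) (fun i _ => e3 _ _ _ (w i).2) (by simpa using hw) i (Finset.mem_univ _)).trans
          (map_zero _).symm)))
    rw [Module.finrank_pi_fintype, Finset.sum_const, Finset.card_univ, Fintype.card_fin, smul_eq_mul] at this
    exact lt_of_mul_lt_mul_left (this.trans_lt (pow_succ' p k ▸ h)) (Nat.zero_le _)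
  have d1 : derivedSeries P (k + 1) ≤ (derivedSeries 𝐂[y] k).map (𝐂[y]).subtype := by
    have : ∀ i, derivedSeries P (i + 1) ≤ (derivedSeries 𝐂[y] i).map (𝐂[y]).subtype := fun i => by
      induction i with
      | zero =>
        rw [derivedSeries_zero, ← MonoidHom.range_eq_map, range_subtype, zero_add, derivedSeries_one, _root_.commutator_def, commutator_le]
        exact fun a _ b _ => (second_center_facts y2 y3).2.2 a trivial b trivial
      | succ i ih => rw [derivedSeries_succ, derivedSeries_succ 𝐂[y] i, map_commutator]; exact commutator_mono ih ih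
    exact this k
  refine eq_bot_iff.2 fun g hg => hρ ?_
  obtain ⟨x, hx, rfl⟩ := d1 hg
  have : ⨆ a, Module.End.eigenspace (ρ y) a = ⊤ := by
    obtain ⟨a, ha⟩ := Module.End.exists_eigenvalue (ρ y)
    refine (hi _ fun s => iSup_le fun b w hw => ?_).resolve_left fun e => ha (le_bot_iff.1 ((le_iSup _ a).trans e.le))
    obtain ⟨c, -, hc⟩ := sc s
    exact Submodule.mem_iSup_of_mem (c * b) (hc b w hw)
  rw [map_one]
  refine LinearMap.ext fun v => Submodule.iSup_induction _ (motive := fun v => ρ x v = v) (this.ge trivial)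
    (fun a w hw => ?_) (map_zero _) fun a b ha hb => by rw [map_add, ha, hb]
  exact congrArg Subtype.val (LinearMap.congr_fun (ih 𝐂[y] _ (hP.to_subgroup _) (rk a)
    (Representation.subrepresentation (ρ.comp (𝐂[y]).subtype) _ fun z w hw => Module.End.mem_eigenspace_iff.2 (by
      change ρ y (ρ z w) = a • ρ z w
      rw [← mul, ← mem_cent1.1 z.2, mul, Module.End.mem_eigenspace_iff.1 hw, map_smul])) x hx) ⟨w, hw⟩)

theorem ne (h0 : (p : K) ≠ 0) {P V : Type*} [Group P] [Finite P] [AddCommGroup V] [Module K V]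
    [FiniteDimensional K V] (hP : IsPGroup p P) (ρ : Representation K P V) {k : ℕ} (h : finrank K V < p ^ k) {g : P}
    (hg : g ∈ derivedSeries P k) : ρ g = 1 := by
  classical
  let f := (Matrix.toLinAlgEquiv' (R := AlgebraicClosure K)).toMonoidHom.comp
    (((algebraMap K (AlgebraicClosure K)).mapMatrix.toMonoidHom.comp
      (LinearMap.toMatrixAlgEquiv (Module.finBasis K V)).toMonoidHom).comp ρ)
  have := alg (K := AlgebraicClosure K) (p := p) (by rwa [← map_natCast (algebraMap K _), map_ne_zero]) k P _ hP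
    (by simpa using h) f g hg
  refine (LinearMap.toMatrixAlgEquiv (Module.finBasis K V)).injective (Matrix.map_injective
    (algebraMap K (AlgebraicClosure K)).injective (Matrix.toLinAlgEquiv'.injective (this.trans ?_)))
  simp

theorem fin [Finite K] (h0 : ¬ p ∣ Nat.card K) {P V : Type*} [Group P] [Finite P] [AddCommGroup V] [Module K V]
    [FiniteDimensional K V] (hP : IsPGroup p P) (ρ : Representation K P V) {k : ℕ}
    (h : finrank K V < orderOf (Nat.card K : ZMod p) * p ^ k) {g : P} (hg : g ∈ derivedSeries P k) : ρ g = 1 := by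
  have := Fintype.ofFinite K
  have h0' : (p : K) ≠ 0 := fun e => h0 (by
    have := (CharP.charP_iff_prime_eq_zero hp.out).2 e
    obtain ⟨n, -, hn⟩ := FiniteField.card K p
    rw [Nat.card_eq_fintype_card, hn]
    exact dvd_pow_self _ n.2.ne')
  refine derived_of_irr (p := p) h0' k _ ?_ _ P V hP rfl h ρ g hg
  intro P _ _ V _ _ _ _ hP h ρ hρ hi
  rcases subsingleton_or_nontrivial P with e | e
  · exact Subsingleton.elim _ _
  have := hP.center_nontrivial
  obtain ⟨n, hn, e⟩ := (hP.to_subgroup (center P)).nontrivial_iff_card.1 this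
  obtain ⟨z, hz⟩ := exists_prime_orderOf_dvd_card' (G := center P) p (e ▸ dvd_pow_self p hn.ne')
  have := Module.finite_of_finite K (M := End K V)
  let L := Subalgebra.centralizer K (Set.range ρ)
  let _ : Field L := (isField_commutant ρ hi).toField
  let t : L := ⟨ρ z, by rintro _ ⟨g, rfl⟩; rw [← map_mul, ← map_mul, mem_center_iff.1 z.2]⟩
  have ht : orderOf t = p := by
    rw [← orderOf_injective L.val.toMonoidHom Subtype.val_injective, ← hz, ← orderOf_coe z, ← orderOf_injective ρ hρ]; rfl
  have := Fintype.ofFinite L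
  have h1 : p ∣ Nat.card L - 1 := by
    rw [← ht, Nat.card_eq_fintype_card]
    refine orderOf_dvd_of_pow_eq_one (FiniteField.pow_card_sub_one_eq_one t fun e => hp.out.ne_zero ?_)
    rw [← ht, e, orderOf_zero]
  rw [Module.natCard_eq_pow_finrank (K := K)] at h1
  have h2 : orderOf (Nat.card K : ZMod p) ≤ finrank K L := by
    refine orderOf_le_of_pow_eq_one Module.finrank_pos ?_
    have := (ZMod.natCast_eq_zero_iff _ _).2 h1
    rwa [Nat.cast_sub (Nat.one_le_pow _ _ Nat.card_pos), Nat.cast_pow, Nat.cast_one, sub_eq_zero] at this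
  have := Module.Finite.of_restrictScalars_finite K L V
  let σ : Representation L P V :=
    { toFun := fun g => { toFun := ρ g, map_add' := map_add _, map_smul' := fun a v => LinearMap.congr_fun (a.2 _ ⟨g, rfl⟩) v }
      map_one' := LinearMap.ext fun v => LinearMap.congr_fun (map_one ρ) v
      map_mul' := fun a b => LinearMap.ext fun v => LinearMap.congr_fun (map_mul ρ a b) v }
  refine eq_bot_iff.2 fun g hg => hρ (LinearMap.ext fun v => ?_)
  rw [map_one]
  refine LinearMap.congr_fun (ne (by rwa [← map_natCast (algebraMap K L), map_ne_zero]) hP σ (k := k) ?_ hg) v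
  rw [← Module.finrank_mul_finrank K L V] at h
  exact lt_of_mul_lt_mul_left (h.trans_le (Nat.mul_le_mul_right _ h2)) (Nat.zero_le _)

theorem low {K : Type v} [Field K] [Fintype K] {e : ℕ} (he : 0 < e) (h : p ∣ Fintype.card K ^ e - 1) (k : ℕ) :
    ∃ (P : Type v) (_ : Group P) (_ : Finite P) (V : Type v) (_ : AddCommGroup V) (_ : Module K V) (_ : FiniteDimensional K V)
      (ρ : Representation K P V), IsPGroup p P ∧ finrank K V = e * p ^ k ∧ Function.Injective ρ ∧ derivedSeries P k ≠ ⊥ := by
  classical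
  induction k with
  | zero =>
    obtain ⟨g, hg⟩ := exists_prime_orderOf_dvd_card' (G := GL (Fin e) K) p (by
      rw [Matrix.card_GL_field]; exact (show p ∣ Fintype.card K ^ e - Fintype.card K ^ 0 from pow_zero (Fintype.card K) ▸ h).trans
        (Finset.dvd_prod_of_mem (fun i : Fin e => Fintype.card K ^ e - Fintype.card K ^ (i : ℕ)) (Finset.mem_univ ⟨0, he⟩)))
    refine ⟨zpowers g, _, inferInstance, Fin e → K, _, _, inferInstance,
      Matrix.toLinAlgEquiv'.toMonoidHom.comp ((Units.coeHom _).comp (Subgroup.subtype _)),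
      .of_card (n := 1) (by rw [Nat.card_zpowers, hg, pow_one]), by simp,
      Matrix.toLinAlgEquiv'.injective.comp (Units.val_injective.comp Subtype.val_injective), fun k => hp.out.one_lt.ne' ?_⟩
    rw [← hg, ← Nat.card_zpowers, ← card_top, ← derivedSeries_zero, k, card_bot]
  | succ k ih =>
    obtain ⟨P, _, _, V, _, _, _, ρ, h1, h2, h3, h4⟩ := ih
    let Q := Multiplicative (ZMod p)
    let σ : Representation K (P ≀ᵣ Q) (Q → V) :=
      { toFun := fun w => LinearMap.pi fun x => (ρ (w.left x)).comp (LinearMap.proj (w.right⁻¹ * x))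
        map_one' := by ext f x; simp
        map_mul' := fun a b => by
          ext f x y
          have : (a.right * b.right)⁻¹ * y = b.right⁻¹ * (a.right⁻¹ * y) := by rw [mul_inv_rev, mul_assoc]
          simp only [LinearMap.comp_apply, LinearMap.pi_apply, Module.End.mul_apply, LinearMap.proj_apply,
            RegularWreathProduct.mul_left, RegularWreathProduct.mul_right, Pi.mul_apply, map_mul, this] }
    obtain ⟨n, hn⟩ := h1.exists_card_eq
    have cQ : Nat.card Q = p := by simp [Q]
    obtain ⟨q, hq⟩ := exists_ne (1 : Q)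
    refine ⟨P ≀ᵣ Q, _, inferInstance, Q → V, _, _, inferInstance, σ,
      .of_card (n := n * p + 1) (by rw [RegularWreathProduct.card, hn, cQ, pow_succ, pow_mul]), ?_,
      (injective_iff_map_eq_one _).2 fun w hw => ?_, fun hk => h4 ?_⟩
    · rw [Module.finrank_pi_fintype, Finset.sum_const, Finset.card_univ, ← Nat.card_eq_fintype_card, cQ, h2, smul_eq_mul]; ring
    · have k1 : ∀ (f : Q → V) x, ρ (w.left x) (f (w.right⁻¹ * x)) = f x := fun f x => congrFun (LinearMap.congr_fun hw f) x
      have : Nontrivial V := Module.nontrivial_of_finrank_pos (R := K) (h2 ▸ mul_pos he (pow_pos hp.out.pos k))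
      obtain ⟨v, hv⟩ := exists_ne (0 : V)
      have k2 : w.right = 1 := by_contra fun n => hv (by simpa [n] using (k1 (Pi.single 1 v) 1).symm)
      refine RegularWreathProduct.ext (funext fun x => h3 (LinearMap.ext fun v => ?_)) k2
      simpa using k1 (fun _ => v) x
    · have : ∀ i, ∀ a ∈ derivedSeries P i, ∃ w ∈ derivedSeries (P ≀ᵣ Q) (i + 1), w.right = 1 ∧ w.left 1 = a := fun i => by
        induction i with
        | zero =>
          refine fun a _ => ⟨⁅(⟨Pi.mulSingle 1 a, 1⟩ : P ≀ᵣ Q), RegularWreathProduct.inl q⁆,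
            commutator_mem_commutator trivial trivial, ?_, ?_⟩ <;> simp [commutatorElement_def, hq]
        | succ i ih =>
          intro a ha
          refine closure_induction (p := fun a _ => ∃ w ∈ derivedSeries (P ≀ᵣ Q) (i + 1 + 1), w.right = 1 ∧ w.left 1 = a)
            ?_ ⟨1, one_mem _, rfl, rfl⟩ ?_ ?_ ha
          · rintro _ ⟨a, ha, b, hb, rfl⟩
            obtain ⟨x, x1, x2, rfl⟩ := ih a ha
            obtain ⟨y, y1, y2, rfl⟩ := ih b hb
            refine ⟨⁅x, y⁆, commutator_mem_commutator x1 y1, ?_, ?_⟩ <;> simp [commutatorElement_def, x2, y2]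
          · rintro _ _ _ _ ⟨x, x1, x2, rfl⟩ ⟨y, y1, y2, rfl⟩
            refine ⟨x * y, mul_mem x1 y1, ?_, ?_⟩ <;> simp [x2, y2]
          · rintro _ _ ⟨x, x1, x2, rfl⟩
            refine ⟨x⁻¹, inv_mem x1, ?_, ?_⟩ <;> simp [x2]
      refine eq_bot_iff.2 fun a ha => ?_
      obtain ⟨w, w1, -, rfl⟩ := this k a ha
      rw [show w = 1 from mem_bot.1 (hk ▸ w1)]
      exact one_mem _

end

/-- Let p be an odd prime, F a finite field with q elements where p does not divide q, and e the multiplicative order of q modulo p. Let n ≥ e and write w = ⌊n/e⌋ and k = ⌊log_p w⌋. Then a Sylow p-subgroup of GL(n, F) has derived length exactly k + 1: its (k+1)-st derived subgroup is trivial and its k-th is not. -/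
theorem result (p : ℕ) [Fact p.Prime] (hp : p ≠ 2) (F : Type*) [Field F] [Fintype F] (q : ℕ) (hq : Fintype.card F = q) (hpq : ¬ p ∣ q) (n : ℕ) (hn : orderOf (q : ZMod p) ≤ n) (P : Sylow p (Matrix.GeneralLinearGroup (Fin n) F)) : derivedSeries ↥(P : Subgroup (Matrix.GeneralLinearGroup (Fin n) F)) (Nat.log p (n / orderOf (q : ZMod p)) + 1) = ⊥ ∧ derivedSeries ↥(P : Subgroup (Matrix.GeneralLinearGroup (Fin n) F)) (Nat.log p (n / orderOf (q : ZMod p))) ≠ ⊥ := by
  open Subgroup Cfsg.Lib Cfsg.Lib.BG Cfsg.Lib.Transfer in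
  open Cfsg.Lib Cfsg.Lib.FGS Cfsg.Lib.BG Subgroup Module commutatorElement in
  classical
  have h0 : 0 < orderOf (q : ZMod p) := (isOfFinOrder_iff_pow_eq_one.2 ⟨p - 1, Nat.sub_pos_of_lt (Fact.out : p.Prime).one_lt,
    ZMod.pow_card_sub_one_eq_one fun k => hpq ((ZMod.natCast_eq_zero_iff _ _).1 k)⟩).orderOf_pos
  constructor
  · rw [← Nat.card_eq_fintype_card] at hq
    subst hq
    refine eq_bot_iff.2 fun g hg => Subtype.ext (Units.ext (Matrix.toLinAlgEquiv'.injective ?_))
    rw [OneMemClass.coe_one, Units.val_one, map_one]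
    refine fin hpq P.2 (Matrix.toLinAlgEquiv'.toMonoidHom.comp ((Units.coeHom _).comp (Subgroup.subtype _))) ?_ hg
    rw [Module.finrank_fin_fun, mul_comm]
    exact (Nat.div_lt_iff_lt_mul h0).1 (Nat.lt_pow_succ_log_self (Fact.out : p.Prime).one_lt _)
  obtain ⟨Q, _, _, V, _, _, _, ρ, h1, h2, h3, h4⟩ := low (p := p) (K := F) h0 (by
    rw [← ZMod.natCast_eq_zero_iff, Nat.cast_sub (Nat.one_le_pow _ _ Fintype.card_pos), Nat.cast_pow, hq, pow_orderOf_eq_one,
      Nat.cast_one, sub_self]) (Nat.log p (n / orderOf (q : ZMod p)))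
  have h5 : finrank F V ≤ n := by
    rw [h2, mul_comm, ← Nat.le_div_iff_mul_le h0]
    exact Nat.pow_log_le_self _ (Nat.div_pos hn h0).ne'
  let b := Module.finBasisOfFinrankEq F (V × (Fin (n - finrank F V) → F)) (n := n) (by simp [h5])
  let f := ((LinearMap.toMatrixAlgEquiv b).toMonoidHom.comp (ρ.prod (Representation.trivial F Q _))).toHomUnits
  have hf : Function.Injective f := fun x y e => h3 (LinearMap.ext fun v =>
    congrArg Prod.fst (LinearMap.congr_fun ((LinearMap.toMatrixAlgEquiv b).injective (congrArg Units.val e)) (v, 0)))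
  obtain ⟨S, hS⟩ := (h1.of_surjective _ f.rangeRestrict_surjective).exists_le_sylow
  let φ := (Sylow.equiv S P).toMonoidHom.comp ((inclusion hS).comp f.rangeRestrict)
  have hφ : Function.Injective φ := (Sylow.equiv S P).injective.comp ((inclusion_injective hS).comp
    fun x y e => hf (congrArg Subtype.val e))
  exact fun e => h4 (eq_bot_iff.2 fun g hg => hφ ((mem_bot.1
    (e ▸ map_derivedSeries_le_derivedSeries φ _ ⟨g, hg, rfl⟩)).trans (map_one φ).symm))

end Cfsg.Agent.S4015
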