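import Cfsg.Statements.S4028
import Cfsg.Agent.Lib.FGS.Count
import Cfsg.Agent.Lib.Small.Basic
import Cfsg.Agent.Lib.Inv.Basic

set_option autoImplicit false
open Cfsg

namespace Cfsg.Agent.S4028

/-- Let G be a finite group with Sylow 2-subgroup P. Then N_G(⟨x⟩) = C_G(x) holds for every 2-element x of G if and only if N_P(⟨y⟩) = C_P(y) holds for every y ∈ P (computed inside P). -/
theorem result {G : Type*} [Group G] [Finite G] (P : Sylow 2 G) :
    (∀ x : G, (∀ r : ℕ, r.Prime → r ∣ orderOf x → r = 2) →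
      Subgroup.normalizer ((Subgroup.zpowers x : Subgroup G) : Set G) ≤ Subgroup.centralizer {x}) ↔
    (∀ y : ↥(P : Subgroup G), Subgroup.normalizer ((Subgroup.zpowers y : Subgroup ↥(P : Subgroup G)) : Set ↥(P : Subgroup G)) ≤
        Subgroup.centralizer {y}) := by
  open Cfsg.Lib Cfsg.Lib.FGS Cfsg.Lib.Transfer Subgroup in
  constructor
  · intro h y n hn
    obtain ⟨k, hk⟩ := orderOf_eq_pow_iff.mpr (exists_pow_of_mem P.isPGroup' y.2)
    have h0 : (n : G) ∈ normalizer (zpowers (y : G) : Set G) := by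
      have := ((Core.map_subtype_normalizer (zpowers y)).le ⟨n, hn, rfl⟩).2
      rwa [MonoidHom.map_zpowers] at this
    have h1 := h y (fun r hr hd => (Nat.prime_dvd_prime_iff_eq hr Nat.prime_two).mp
      (hr.dvd_of_dvd_pow (hk ▸ hd))) h0
    exact mem_centralizer_singleton_iff.mpr (Subtype.ext (mem_centralizer_singleton_iff.mp h1))
  · intro h x hx g hg
    obtain ⟨j, hj⟩ : ∃ j, orderOf x = 2 ^ j :=
      ⟨_, Nat.eq_prime_pow_of_unique_prime_dvd (orderOf_pos x).ne' fun {r} hr hd => hx r hr hd⟩
    obtain ⟨a, ha, b, hb, ⟨k, hk⟩, hbo, rfl⟩ := exists_p_part_mul_p'_part (p := 2) g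
    have ha' := zpowers_le.mpr hg ha
    have hb' := zpowers_le.mpr hg hb
    refine mul_mem ?_ ?_
    · have h1 := PGroup.isPGroup_sup_of_le_normalizer (isPGroup_zpowers_of_pow (hj ▸ pow_orderOf_eq_one x))
        (isPGroup_zpowers_of_pow hk) (zpowers_le.mpr ha')
      obtain ⟨t, ht⟩ := exists_conj_le_sylow P h1
      have hx' := conj_le_iff.mp ht x (mem_sup_left (mem_zpowers x))
      have ha'' := conj_le_iff.mp ht a (mem_sup_right (mem_zpowers a))
      have h0 : (⟨_, ha''⟩ : P) ∈ normalizer (zpowers (⟨_, hx'⟩ : P) : Set P) := by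
        rw [← mem_map_iff_mem (subtype_injective _), Core.map_subtype_normalizer, MonoidHom.map_zpowers]
        refine ⟨ha'', ?_⟩
        show t * a * t⁻¹ ∈ normalizer (zpowers (t * x * t⁻¹) : Set G)
        rw [← conj_zpowers, ← conj_normalizer]
        exact conj_mem_conj.mpr ha'
      have h2 := h ⟨_, hx'⟩ h0
      have h3 := congrArg Subtype.val (mem_centralizer_singleton_iff.mp h2)
      have h' : t * a * x = t * x * a := by simpa [← mul_assoc] using h3
      rwa [mul_assoc, mul_assoc, mul_left_cancel_iff, ← mem_centralizer_singleton_iff] at h'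
    · rw [← Core.centralizer_zpowers]
      have h1 := Small.relIndex_centralizer_dvd_card_mulAut (zpowers x)
      rw [IsCyclic.card_mulAut, Nat.card_zpowers, hj] at h1
      have h2 : (2 ^ j).totient ∣ 2 ^ j := by
        rcases j with _ | j
        · simp
        · rw [Nat.totient_prime_pow_succ Nat.prime_two, pow_succ]; simp
      refine mem_of_pow_mem_of_coprime (mem_subgroupOf.mp
        (((centralizer (zpowers x : Set G)).subgroupOf (normalizer (zpowers x : Set G))).pow_index_mem
          ⟨b, hb'⟩)) ?_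
      exact Nat.Coprime.coprime_dvd_right (h1.trans h2) (Nat.Coprime.pow_right j hbo)

end Cfsg.Agent.S4028
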