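import Cfsg.Statements.S4029
import Cfsg.Agent.Lib.BG.Hall
import Cfsg.Agent.Lib.FGS.SqCount
import Cfsg.Agent.S0160

set_option autoImplicit false
open Cfsg

namespace Cfsg.Agent.S4029

/-- Let P be a finite 2-group in which N_P(⟨y⟩) = C_P(y) for every y ∈ P. If s is the number of conjugacy classes of involutions of P, then #(P/Φ(P)) ≤ s + 1; in particular the subgroup generated by the involutions of P has order at least #(P/Φ(P)). -/
theorem result {P : Type*} [Group P] [Finite P] (hP : IsPGroup 2 P)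
    (hirr : ∀ y : P, Subgroup.normalizer ((Subgroup.zpowers y : Subgroup P) : Set P) ≤ Subgroup.centralizer {y}) :
    Nat.card (P ⧸ frattini P) ≤ Nat.card {c : ConjClasses P // ∃ y : P, ConjClasses.mk y = c ∧ orderOf y = 2} + 1 ∧
    Nat.card (P ⧸ frattini P) ≤ Nat.card (Subgroup.closure {y : P | orderOf y = 2}) := by
  open Subgroup Cfsg.Lib Cfsg.Lib.BG Cfsg.Lib.Transfer in
  open Cfsg.Lib.FGS Cfsg.Lib.Char Cfsg.Lib.CharDeg in
  have h1 : Nat.card (P ⧸ frattini P) ≤
      Nat.card {c : ConjClasses P // ∃ y : P, ConjClasses.mk y = c ∧ orderOf y = 2} + 1 := by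
    refine (index_frattini_le_card_hom hP).trans ((Nat.card_le_card_of_injective
      (β := {χ : IrrCharacter P // ∀ g, ((χ : P → ℂ) g).im = 0}) (fun lam => ⟨⟨_, isIrrCharacter_hom lam.1⟩, fun g => ?_⟩)
        fun a b e => Subtype.ext (hom_coe_injective (congrArg (fun z => z.1.1) e))).trans ?_)
    · have : ((lam.1 g : ℂˣ) : ℂ) ^ 2 = 1 := by
        rw [← Units.val_pow_eq_pow_val, ← MonoidHom.pow_apply, lam.2]; rfl
      rcases sq_eq_one_iff.1 this with h | h <;> simp [h]
    rw [S0160.result]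
    refine le_trans (Set.ncard_le_ncard (t := insert 1 {c | ∃ y : P, ConjClasses.mk y = c ∧ orderOf y = 2})
      (s := {C | ∀ g : P, ConjClasses.mk g = C → IsConj g g⁻¹}) fun C hC => ?_) (Set.ncard_insert_le _ _)
    obtain ⟨g, rfl⟩ := ConjClasses.mk_surjective C
    obtain ⟨c, hc⟩ := isConj_iff.1 (hC g rfl)
    have h2 : c ∈ 𝐍(zpowers g) := norm_of_conj_eq (by rw [Transfer.conj_zpowers, hc, zpowers_inv])
    rw [mem_cent1.1 (hirr g h2), mul_inv_cancel_right, eq_inv_iff_mul_eq_one, ← sq] at hc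
    by_cases h : g = 1
    · exact Or.inl (h ▸ rfl)
    · exact Or.inr ⟨g, rfl, orderOf_eq_prime hc h⟩
  refine ⟨h1, h1.trans ?_⟩
  have h2 : {c : ConjClasses P | ∃ y : P, ConjClasses.mk y = c ∧ orderOf y = 2} =
      ConjClasses.mk '' {y | orderOf y = 2} := Set.ext fun c => exists_congr fun y => and_comm
  change Set.ncard {c : ConjClasses P | _} + 1 ≤ Set.ncard (Subgroup.closure {y : P | orderOf y = 2} : Set P)
  rw [h2]
  refine (Nat.succ_le_succ (Set.ncard_image_le (Set.toFinite _))).trans (Set.ncard_lt_ncard ⟨subset_closure, fun h => ?_⟩)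
  simpa using h (one_mem _)

end Cfsg.Agent.S4029
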