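import Cfsg.Statements.S4032
import Cfsg.Agent.Lib.Core.Frattini
import Cfsg.Agent.Lib.Coprime.Action
import Cfsg.Agent.Lib.Coprime.Nilpotent

set_option autoImplicit false
open Cfsg

namespace Cfsg.Agent.S4032

/-- Let π be a set of primes and G a finite group in which N_G(⟨x⟩) = C_G(x) for every π-element x. If N is a normal subgroup of G whose order is divisible by no prime of π, then G/N has the same property: N_{G/N}(⟨y⟩) = C_{G/N}(y) for every π-element y of G/N. -/
theorem result {G : Type*} [Group G] [Finite G] (π : Set ℕ)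
    (hirr : ∀ x : G, (∀ r : ℕ, r.Prime → r ∣ orderOf x → r ∈ π) →
      Subgroup.normalizer ((Subgroup.zpowers x : Subgroup G) : Set G) ≤ Subgroup.centralizer {x})
    (N : Subgroup G) [N.Normal] (hN : ∀ r : ℕ, r.Prime → r ∣ Nat.card N → r ∉ π) :
    ∀ y : G ⧸ N, (∀ r : ℕ, r.Prime → r ∣ orderOf y → r ∈ π) →
      Subgroup.normalizer ((Subgroup.zpowers y : Subgroup (G ⧸ N)) : Set (G ⧸ N)) ≤ Subgroup.centralizer {y} := by
  open Cfsg.Lib Subgroup in
  intro y hy
  obtain ⟨g, rfl⟩ := QuotientGroup.mk'_surjective N y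
  obtain ⟨K, hK, hsup, hπ⟩ := Core.exists_supplement_isPiSubgroup (π := π) (N := N) (H := zpowers g)
    le_normalizer_of_normal (by
      rw [← Core.card_map_mk'_eq_relIndex, MonoidHom.map_zpowers, Nat.card_zpowers]; exact hy)
  have hc : IsCyclic K := isCyclic_of_le hK
  obtain ⟨x, rfl⟩ := (Subgroup.isCyclic_iff_exists_zpowers_eq_top K).mp hc
  have h1 : (zpowers x).map (QuotientGroup.mk' N) = zpowers (QuotientGroup.mk' N g) := by
    rw [← MonoidHom.map_zpowers, ← Core.map_mk'_sup N (zpowers x), ← Core.map_mk'_sup N (zpowers g),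
      sup_comm, hsup, sup_comm]
  rw [← h1, Coprime.normalizer_map_mk' (Core.IsPiNumber.coprime_of_compl hπ hN)
    (Or.inl (Coprime.isSolvable_of_isMulCommutative inferInstance)), ← Core.centralizer_zpowers, ← h1]
  rintro _ ⟨n, hn, rfl⟩ _ ⟨a, ha, rfl⟩
  have h2 := hirr x (fun r hr hd => hπ r hr (by rwa [Nat.card_zpowers])) hn
  rw [← Core.centralizer_zpowers] at h2
  rw [← map_mul, ← map_mul, h2 a ha]

end Cfsg.Agent.S4032
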