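import Cfsg.Statements.S4033
import Cfsg.Agent.Lib.FGS.TwoReg2

set_option autoImplicit false
open Cfsg

namespace Cfsg.Agent.S4033

/-- Let G be a finite group and p a prime, and suppose the conjugacy classes of p-regular elements of G (elements of order prime to p) have exactly two distinct sizes. Then either G has an abelian p-complement (an abelian subgroup of order prime to p and p-power index), or there are a prime q ≠ p, a Sylow p-subgroup P, a Sylow q-subgroup Q and a central subgroup A such that PQ is a normal subgroup of order #P·#Q and G is the internal direct product PQ × A. -/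
theorem result {G : Type*} [Group G] [Finite G] {p : ℕ} (hp : p.Prime)
    (h2 : Set.ncard (Set.range fun x : {x : G // (orderOf x).Coprime p} => (ConjClasses.mk (x : G)).carrier.ncard) = 2) :
    (∃ H : Subgroup G, IsMulCommutative H ∧ ¬ p ∣ Nat.card H ∧ ∃ k : ℕ, H.index = p ^ k) ∨
    (∃ (q : ℕ) (_ : Fact q.Prime) (P : Sylow p G) (Q : Sylow q G) (A : Subgroup G), q ≠ p ∧
        A ≤ Subgroup.center G ∧ Nat.card ↥((P : Subgroup G) ⊔ (Q : Subgroup G)) = Nat.card P * Nat.card Q ∧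
        ((P : Subgroup G) ⊔ (Q : Subgroup G)).Normal ∧
        ((P : Subgroup G) ⊔ (Q : Subgroup G)) ⊓ A = ⊥ ∧ ((P : Subgroup G) ⊔ (Q : Subgroup G)) ⊔ A = ⊤) := by
  open Subgroup Cfsg.Lib Cfsg.Lib.BG Cfsg.Lib.Transfer Cfsg.Lib.Core Cfsg.Lib.FGS Cfsg.Lib.FGS.TR in
  haveI := Fact.mk hp
  simp only [ncard_carrier_eq_index] at h2
  obtain ⟨k, u, u1, u2, hu, h⟩ : ∃ (k : ℕ) (u : G), u ∉ center G ∧ (orderOf u).Coprime p ∧
      (𝐂[u]).index = k ∧
      ∀ u : G, (orderOf u).Coprime p → (𝐂[u]).index = 1 ∨ (𝐂[u]).index = k := by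
    obtain ⟨a, b, hab, e⟩ := Set.ncard_eq_two.1 h2
    have h0 : ∀ u : G, (orderOf u).Coprime p → (𝐂[u]).index = a ∨ (𝐂[u]).index = b :=
      fun u hu => by simpa using e.subset ⟨⟨u, hu⟩, rfl⟩
    obtain ⟨⟨x, x1⟩, hx⟩ := e.superset (show a ∈ ({a, b} : Set ℕ) by simp)
    obtain ⟨⟨y, y1⟩, hy⟩ := e.superset (show b ∈ ({a, b} : Set ℕ) by simp)
    dsimp only at hx hy
    have h1 := h0 1 (by simp)
    rw [index_cent1_eq_one.2 (one_mem _)] at h1
    rcases h1 with rfl | rfl
    · exact ⟨b, y, fun e => hab (hy ▸ index_cent1_eq_one.2 e).symm, y1, hy, h0⟩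
    · exact ⟨a, x, fun e => hab (hx ▸ index_cent1_eq_one.2 e), x1, hx, fun u hu => (h0 u hu).symm⟩
  rcases two_sizes hp h with ⟨t, ht, htp, H⟩ | ⟨H, a, ha⟩
  · haveI := Fact.mk ht
    obtain ⟨A, hA⟩ := Hall.exists (π := {p, t}ᶜ) (M := center G) (abelian_sol inferInstance)
    have hA' : Hall {p, t}ᶜ A ⊤ := hA.trans_idx le_top fun r hr e => by
      obtain ⟨x, -, x1, x2⟩ := PGroup.exists_not_mem_of_dvd_relIndex hr e
      by_contra e'
      simp only [compl_compl, Set.mem_insert_iff, Set.mem_singleton_iff, not_or] at e'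
      exact x1 (H r hr e'.1 e'.2 x x2)
    have hc : ∀ K : Subgroup G, A ≤ 𝐂(K) := fun K => hA.le.trans (center_le_centralizer _)
    obtain ⟨K, sd, hK⟩ := hA'.exists_compl (norm_of_cent (cent_symm (hc ⊤)))
    rw [compl_compl] at hK
    have hn : ⊤ ≤ 𝐍(K) := sd.sup ▸ sup_le (norm_of_cent (hc K)) (le_norm K)
    obtain ⟨P⟩ : Nonempty (Sylow p G) := inferInstance
    obtain ⟨Q⟩ : Nonempty (Sylow t G) := inferInstance
    have hP : Syl p (P : Subgroup G) K := (Syl.of_sylow_top P).of_le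
      (hK.ge_of_normal hn le_top (PiGrp.of_pgroup P.isPGroup' (by simp))) le_top
    have hQ : Syl t (Q : Subgroup G) K := (Syl.of_sylow_top Q).of_le
      (hK.ge_of_normal hn le_top (PiGrp.of_pgroup Q.isPGroup' (by simp))) le_top
    have e : (P : Subgroup G) ⊔ (Q : Subgroup G) = K := le_antisymm (sup_le hP.le hQ.le)
      (Syl.le_of_forall fun r hr e => by
        rcases hK.pi.mem hr e with rfl | rfl
        · exact ⟨_, hP, le_sup_left⟩
        · exact ⟨_, hQ, le_sup_right⟩)
    refine Or.inr ⟨t, inferInstance, P, Q, A, htp, hA.le, ?_, ?_, ?_, ?_⟩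
    · rw [e]
      refine (hP.card_mul (hQ.congr fun r hr e => ?_)).symm
      rcases hK.pi.mem hr e with rfl | rfl
      · simpa using htp.symm
      · simpa using htp
    · exact e ▸ normalizer_eq_top_iff.1 (eq_top_iff.2 hn)
    · rw [e, inf_comm, sd.inf]
    · rw [e, sup_comm, sd.sup]
  · let L := (pResidual p 𝐂[u]).map (𝐂[u]).subtype
    have h1 : L ≤ 𝐂(𝐂[u]) := map_subtype_pResidual_le_iff.2 fun g hg e =>
      le_cent1_iff.1 (H u u1 u2 g hg e)
    have h3 : IsMulCommutative L := abelian_iff.2 (h1.trans (cent_anti (map_subtype_le _)))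
    obtain ⟨b, hb⟩ := exists_index_pResidual_eq_pow (p := p) (G := 𝐂[u])
    refine Or.inl ⟨L, h3, fun e => ?_, b + a, by rw [index_map_subtype, hb, hu, ha, pow_add]⟩
    obtain ⟨B, hB⟩ := Hall.exists (π := {p}ᶜ) (M := L) (abelian_sol h3)
    have : L ≤ B := map_subtype_pResidual_le_iff.2 fun g hg e =>
      hB.mem_of_normal (abelian_norm h3 hB.le) (mem_map_subtype_pResidual hg e)
        (PiNat.p'_iff_coprime.2 e)
    exact PiGrp.p'_iff.1 (hB.pi.of_le this) e

end Cfsg.Agent.S4033
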