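import Cfsg.Statements.S4036
import Cfsg.Agent.Lib.Core.MinNormal

set_option autoImplicit false
open Cfsg

namespace Cfsg.Agent.S4036

/-- Let P be a finite abelian p-group and K a group of automorphisms of P (a subgroup of Aut P) whose order is divisible by p. If all non-identity elements of K have the same fixed-point subgroup on P, then K has no non-trivial normal subgroup of order prime to p. -/
theorem result {P : Type*} [CommGroup P] [Finite P] {p : ℕ}
    [Fact p.Prime] (hP : IsPGroup p P) (K : Subgroup (MulAut P)) (hK : p ∣ Nat.card K)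
    (hfix : ∀ x y : MulAut P, x ∈ K → y ∈ K → x ≠ 1 → y ≠ 1 → ∀ v : P, x v = v ↔ y v = v) :
    ∀ N : Subgroup ↥K, N.Normal → ¬ p ∣ Nat.card N → N = ⊥ := by
  open Cfsg.Lib Subgroup in
  classical
  intro N hN hpN
  by_contra h0
  have hp : p.Prime := Fact.out
  obtain ⟨⟨y, hyN⟩, hy1⟩ := ne_bot_iff_exists_ne_one.mp h0
  have hy1' : (y : MulAut P) ≠ 1 := fun h => hy1 (Subtype.ext (Subtype.ext h))
  obtain ⟨x, hxK, hxo⟩ := Core.exists_mem_orderOf_eq_prime hp hK
  have hx1 : x ≠ 1 := by rintro rfl; exact hp.one_lt.ne ((orderOf_one).symm.trans hxo)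
  have := Fintype.ofFinite N
  let ν : P →* P := ∏ n : N, ((n : K) : MulAut P).toMonoidHom
  have hν : ∀ v, ν v = ∏ n : N, ((n : K) : MulAut P) v := fun v => by
    simp [ν, MonoidHom.finsetProd_apply]
  have hinv : ∀ k : K, ∀ v, ν v = 1 → ν ((k : MulAut P) v) = 1 := fun k v hv => by
    rw [← map_one (k : MulAut P), ← hv, hν, hν, map_prod]
    symm
    refine Fintype.prod_equiv (MulAut.conjNormal k).toEquiv _ _ fun n => ?_
    simp
  have hfix0 : ∀ v, ν v = 1 → x v = v → v = 1 := fun v hv hxv => by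
    have h1 : ∀ n : N, ((n : K) : MulAut P) v = v := fun n => by
      by_cases hn : ((n : K) : MulAut P) = 1
      · rw [hn]; rfl
      · exact (hfix x _ hxK n.1.2 hx1 hn v).mp hxv
    rw [hν] at hv
    simp only [h1, Finset.prod_const, Finset.card_univ, ← Nat.card_eq_fintype_card] at hv
    obtain ⟨k, hk⟩ := hP v
    have h2 := pow_gcd_eq_one.mpr ⟨hv, hk⟩
    rwa [Nat.Coprime.pow_right k ((Nat.Prime.coprime_iff_not_dvd hp).mpr hpN).symm, pow_one] at h2
  have hne : ν.ker ≠ ⊥ := by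
    intro h
    refine hy1' (MulEquiv.ext fun v => ?_)
    have h1 : (y : MulAut P) v * v⁻¹ ∈ ν.ker := by
      rw [MonoidHom.mem_ker, map_mul, map_inv, mul_inv_eq_one, hν, hν]
      exact Fintype.prod_equiv (Equiv.mulRight (⟨y, hyN⟩ : N)) _ _ fun n => rfl
    rw [h, mem_bot, mul_inv_eq_one] at h1
    exact h1
  have := Fintype.ofFinite ν.ker
  let σ : Equiv.Perm ν.ker := Equiv.Perm.subtypePerm x.toEquiv fun v =>
    ⟨fun h => by simpa using hinv ⟨x, hxK⟩⁻¹ _ h, hinv ⟨x, hxK⟩ v⟩
  have hσ : σ ^ p ^ 1 = 1 := by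
    rw [pow_one, Equiv.Perm.subtypePerm_pow]
    ext v
    have : (x ^ p) (v : P) = v := by rw [← hxo, pow_orderOf_eq_one]; rfl
    rw [Equiv.Perm.subtypePerm_apply, Equiv.Perm.one_apply]
    show (MulAut.toPerm P x ^ p) (v : P) = v
    rwa [← map_pow]
  obtain ⟨k, hk⟩ := (hP.to_subgroup ν.ker).exists_card_eq
  obtain ⟨v, hv, hv1⟩ := Equiv.Perm.exists_fixed_point_of_prime' (p := p) (by
    rw [← Nat.card_eq_fintype_card, hk]
    exact dvd_pow_self p fun h => hne (card_eq_one.mp (by rw [hk, h, pow_zero]))) hσ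
    (a := 1) (Subtype.ext (map_one x))
  exact hv1 (Subtype.ext (hfix0 v v.2 (congrArg Subtype.val hv)))

end Cfsg.Agent.S4036
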