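import Cfsg.Statements.S4038
import Cfsg.Agent.Lib.HH.MaxInv

set_option autoImplicit false
open Cfsg

namespace Cfsg.Agent.S4038

/-- Let A and G be finite groups of coprime orders with A acting on G by automorphisms. Suppose G has a proper A-invariant subgroup M, maximal among proper A-invariant subgroups, which is nilpotent and whose Sylow 2-subgroups have nilpotency class at most 2. Then G is solvable. -/
theorem result {G A : Type*} [Group G] [Finite G]
    [Group A] [Finite A] (φ : A →* MulAut G) (hcop : (Nat.card A).Coprime (Nat.card G))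
    (M : Subgroup G) (hMtop : M ≠ ⊤) (hMinv : ∀ a : A, ∀ m : G, m ∈ M → φ a m ∈ M)
    (hMmax : ∀ H : Subgroup G, M ≤ H → H ≠ ⊤ → (∀ a : A, ∀ h : G, h ∈ H → φ a h ∈ H) → H = M)
    (hnil : Group.IsNilpotent M) (h2 : ∀ S : Sylow 2 ↥M, Group.nilpotencyClass ↥(S : Subgroup ↥M) ≤ 2) :
    Group.IsSolvable G := by
  open Subgroup Cfsg.Lib Cfsg.Lib.BG Cfsg.Lib.PGroup in
  obtain ⟨S⟩ : Nonempty (Sylow 2 M) := inferInstance
  haveI := S.isPGroup'.isNilpotent
  have h := congrArg (fun H => ((H.map S.1.subtype).map M.subtype).map (holL G))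
    (Subgroup.lowerCentralSeries_eq_bot_iff_nilpotencyClass_le.2 (h2 S))
  simp only [Subgroup.lowerCentralSeries, map_commutator, ← MonoidHom.range_eq_map S.1.subtype, range_subtype,
    Subgroup.map_bot] at h
  have := HH.sol_of_max_inv (map_holR_le_normalizer_top φ.range) (by
      rw [card_map_holR, card_map_holL, card_top]; exact hcop.coprime_dvd_left (card_range_dvd φ))
    ((map_lt_map_iff_of_injective holL_injective).2 hMtop.lt_top)
    (map_holR_le_normalizer_iff.2 (by rintro _ ⟨a, rfl⟩; exact hMinv a)) (fun H h1 h2 h3 => ?_) (Core.isNilpotent_map _ hnil)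
    ((Syl.of_sylow S).map _) (comm_eq_bot_iff.1 h)
  · exact Group.isSolvable_of_surjective (f := (topEquiv.symm.trans
      (equivMapOfInjective ⊤ _ holL_injective)).symm.toMonoidHom) (MulEquiv.surjective _)
  obtain ⟨H, rfl⟩ : ∃ K : Subgroup G, K.map (holL G) = H := ⟨_, map_comap_eq_self (h2.trans (map_le_range _ _))⟩
  by_cases e : H = ⊤
  · exact .inr (e ▸ rfl)
  exact .inl (congrArg _ (hMmax H ((map_le_map_iff_of_injective holL_injective).1 h1) e fun a =>
    map_holR_le_normalizer_iff.1 h3 _ ⟨a, rfl⟩))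

end Cfsg.Agent.S4038
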