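import Cfsg.Statements.S4043
import Cfsg.Agent.Lib.BG.Hall

set_option autoImplicit false
open Cfsg

namespace Cfsg.Agent.S4043

open Subgroup Cfsg.Lib Cfsg.Lib.BG Cfsg.Lib.Transfer

/-- Let G be a finite group that is the semidirect product of a normal p-subgroup N by a subgroup A, and also of N by a subgroup A₁, where p is a prime and A and A₁ both have normal p-complements. If C_N(A) = C_N(A₁) = 1, then A₁ is conjugate to A by an element of N. -/
theorem result {G : Type*} [Group G] [Finite G] {p : ℕ}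
    [Fact p.Prime] (N : Subgroup G) [N.Normal] (hN : IsPGroup p N) (A A₁ : Subgroup G)
    (hA : A.IsComplement' N) (hA₁ : A₁.IsComplement' N)
    (hAp : Cfsg.HasNormalPComplement p A) (hA₁p : Cfsg.HasNormalPComplement p A₁)
    (hC : ∀ n : G, n ∈ N → (∀ a : G, a ∈ A → a * n * a⁻¹ = n) → n = 1)
    (hC₁ : ∀ n : G, n ∈ N → (∀ a : G, a ∈ A₁ → a * n * a⁻¹ = n) → n = 1) :
    ∃ n : G, n ∈ N ∧ A₁ = A.map (MulAut.conj n).toMonoidHom := by
  have hn : ∀ X : Subgroup G, X ≤ 𝐍(N) := fun X => by rw [normalizer_eq_top]; exact le_top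
  have sd : ∀ {A : Subgroup G}, A.IsComplement' N → SD N A ⊤ := fun h =>
    SD.mk' (Nml.top_iff.2 inferInstance) le_top (by rw [inf_comm]; exact h.disjoint.eq_bot)
      (by rw [sup_comm]; exact h.sup_eq_top.ge)
  have hall : ∀ {A : Subgroup G}, A.IsComplement' N → HasNormalPComplement p A → Hall {p}ᶜ 𝐎({p}ᶜ, A) ⊤ :=
    fun h h' => (hasNormalPComplement_iff.1 h').trans_idx le_top (by
      rw [(sd h).relIndex_right, compl_compl]; exact PiGrp.p_iff.2 hN)
  have h1 := hall hA hAp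
  have h2 := hall hA₁ hA₁p
  set K := 𝐎({p}ᶜ, A)
  set K₁ := 𝐎({p}ᶜ, A₁)
  have hK : A ≤ 𝐍(K) := (pcore_nml _ _).2
  have h3 : K₁ ≤ N ⊔ K := h2.pi.le_of_relIndex le_top
    ((sd hA).sup.ge.trans (sup_le (le_norm_of_le le_sup_left) (norm_sup (hn _) hK)))
    (h1.idx.of_dvd (relIndex_dvd_left le_sup_right _))
  obtain ⟨n, hnN, h4⟩ := Coprime.exists_map_conj_le_of_le_sup (hn K) h3 (h2.pi.coprime_pgroup hN)
    (Or.inr (pgroup_sol hN))
  have h5 : n ⋆ K₁ = K := (h2.conj_top n).eq_of_le' h1 h4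
  have h6 : N ⊓ 𝐂(K) = ⊥ := by
    by_contra h
    obtain ⟨P, hP⟩ := Syl.exists (p := p) A
    have h7 : A ≤ 𝐍(N ⊓ 𝐂(K)) := norm_inf (hn _) (norm_cent hK)
    obtain ⟨x, hx, hx1⟩ := exists_ne_one (nil_meet_center (pgroup_nil (pgroup_sup (hN.to_le inf_le_left) hP.pgroup
      (hP.le.trans h7))) le_sup_left (sup_le_norm_left (hP.le.trans h7)) h)
    have h8 : K ⊔ P = A := hP.sup_eq (pcore_le _ _) (by simpa using (hasNormalPComplement_iff.1 hAp).idx)
    refine hx1 (hC x hx.1.1 fun a ha => ?_)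
    have : x ∈ 𝐂(A) := by rw [← h8, BG.cent_sup]; exact ⟨hx.1.2, cent_anti le_sup_right hx.2⟩
    rw [mem_cent.1 this a ha, mul_inv_cancel_right]
  have h7 : 𝐍(K) ≤ A := by
    have := modular_right (N := N) hK (hn A)
    rw [(sd hA).sup, top_inf_eq, Coprime.inf_normalizer_eq_inf_centralizer (hn K)
      (h1.pi.inf_eq_bot (by rw [compl_compl]; exact PiGrp.p_iff.2 hN)), h6, bot_sup_eq] at this
    exact this.le
  have h8 : n ⋆ A₁ = A := eq_of_le_of_card_le (((pcore_nml {p}ᶜ A₁).conj n).2.trans (by rw [h5]; exact h7)) (by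
    rw [card_conj, ← (sd hA).relIndex_left, ← (sd hA₁).relIndex_left])
  exact ⟨n⁻¹, inv_mem hnN, conj_eq_iff_eq_inv_conj.1 h8⟩

end Cfsg.Agent.S4043
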