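import Cfsg.Statements.S4050
import Cfsg.Agent.Lib.BG.Hall
import Cfsg.Agent.Lib.Core.PiSeparable
import Cfsg.Agent.Lib.PLocal.Stable

set_option autoImplicit false
open Cfsg

namespace Cfsg.Agent.S4050

open Subgroup Cfsg.Lib Cfsg.Lib.BG Cfsg.Lib.Transfer

theorem closed {G : Type*} [Group G] [Finite G] {π : Set ℕ} (hs : Core.IsPiSeparable π G)
    (h : ∀ H : Subgroup G, H ≠ ⊥ → (∀ p : ℕ, p.Prime → p ∣ Nat.card ↥H → p ∉ π) →
      ∀ p : ℕ, p.Prime → p ∣ (Subgroup.centralizer (H : Set G)).relIndex (Subgroup.normalizer (H : Set G)) → p ∉ π) :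
    ∃ K : Subgroup G, ∀ x : G, x ∈ K ↔ ∀ p : ℕ, p.Prime → p ∣ orderOf x → p ∈ π := by
  have hO : PiGrp π (piCore π G) := Core.piCore_isPiSubgroup π G
  refine ⟨piCore π G, fun x => ⟨fun hx => hO.elt hx, fun hx => ?_⟩⟩
  let f := QuotientGroup.mk' (piCore π G)
  have hf : Function.Surjective f := QuotientGroup.mk'_surjective _
  have hk : f.ker = piCore π G := QuotientGroup.ker_mk' _
  have hL : PiGrp πᶜ (piCore πᶜ (G ⧸ piCore π G)) := Core.piCore_isPiSubgroup _ _
  have h1 := (hs.quotient (piCore π G)).compl.centralizer_piCore_le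
    (by rw [compl_compl]; exact Core.piCore_quotient_piCore π G)
  have h2 : PiGrp π (zpowers (f x)) := PiElt.zpowers (PiElt.map hx f)
  rw [← hk, MonoidHom.mem_ker, ← zpowers_eq_bot]
  refine h2.eq_bot (hL.of_le (le_trans (cent_symm ?_) h1))
  refine Coprime.le_of_forall_invariant_pgroup_le (by rw [normalizer_eq_top]; exact le_top) (h2.coprime hL)
    (Or.inl inferInstance) fun q Q hq hQL hQ _ hn => ?_
  haveI := Fact.mk hq
  by_cases h0 : Q = ⊥
  · rw [h0]; exact bot_le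
  have hq' : q ∈ πᶜ := (hL.of_le hQL).mem_of_pgroup hQ h0
  obtain ⟨R, hR, rfl, -⟩ := PLocal.exists_isPGroup_map_eq hf hQ
  have hR' : PiGrp πᶜ R := PiGrp.of_pgroup hR hq'
  rw [Coprime.normalizer_map_of_surjective f hf (by rw [hk]; exact (hO.coprime hR').symm) (Or.inl (pgroup_sol hR))] at hn
  obtain ⟨y, hy, e⟩ := hn (mem_zpowers _)
  have h3 : PiGrp π (zpowers y) := PiGrp.of_map (f := f) (by rwa [MonoidHom.map_zpowers, e])
    (by rw [hk]; exact hO.of_le inf_le_right)
  have h4 : zpowers y ≤ 𝐂(R) := h3.le_of_relIndex (zpowers_le_of_mem hy) (norm_cent le_rfl)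
    (h R (fun e => h0 (by rw [e, Subgroup.map_bot])) hR')
  rw [← e, ← MonoidHom.map_zpowers]
  exact cent_symm (map_cent f h4)

theorem hall {G : Type*} [Group G] [Finite G] {π : Set ℕ} {K : Subgroup G}
    (h : ∀ x : G, x ∈ K ↔ ∀ p : ℕ, p.Prime → p ∣ orderOf x → p ∈ π) : K.Normal ∧ Hall π K ⊤ := by
  refine ⟨⟨fun x hx g => (h _).2 (PiElt.conj ((h x).1 hx) g)⟩, Hall.mk' le_top (PiGrp.iff_elt.2 fun x hx => (h x).1 hx)
    fun p hp hd hπ => ?_⟩
  haveI := Fact.mk hp
  obtain ⟨P, hP⟩ := Syl.exists (p := p) (⊤ : Subgroup G)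
  exact hP.not_dvd' (hd.trans (relIndex_dvd_left (fun x hx => (h x).2 ((PiGrp.of_pgroup hP.pgroup hπ).elt hx)) _))


/-- Let π be a set of primes and G a finite group. The π-elements of G (elements whose order is divisible only by primes of π) form a subgroup if and only if G is π-separable (it has a chain of normal subgroups from 1 to G with each successive index divisible only by primes in π or only by primes outside π) and N_G(H)/C_G(H) is a π'-group for every nontrivial π'-subgroup H of G. -/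
theorem result {G : Type*} [Group G] [Finite G] (π : Set ℕ)
    (hπ : ∀ p ∈ π, p.Prime) :
    (∃ K : Subgroup G, ∀ x : G, x ∈ K ↔ ∀ p : ℕ, p.Prime → p ∣ orderOf x → p ∈ π) ↔
    ((∃ (n : ℕ) (H : Fin (n + 1) → Subgroup G), H 0 = ⊥ ∧ H (Fin.last n) = ⊤ ∧ Monotone H ∧ (∀ i, (H i).Normal) ∧
      ∀ i : Fin n, (∀ q : ℕ, q.Prime → q ∣ (H i.castSucc).relIndex (H i.succ) → q ∈ π) ∨
        (∀ q : ℕ, q.Prime → q ∣ (H i.castSucc).relIndex (H i.succ) → q ∉ π)) ∧
     (∀ H : Subgroup G, H ≠ ⊥ → (∀ p : ℕ, p.Prime → p ∣ Nat.card ↥H → p ∉ π) →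
        ∀ p : ℕ, p.Prime → p ∣ (Subgroup.centralizer (H : Set G)).relIndex (Subgroup.normalizer (H : Set G)) → p ∉ π)) := by
  refine ⟨fun ⟨K, hK⟩ => ?_, fun ⟨⟨n, H, h0, h1, _, h2, h3⟩, h⟩ => closed ?_ h⟩
  · obtain ⟨h1, h2⟩ := hall hK
    refine ⟨⟨2, ![⊥, K, ⊤], rfl, rfl, Fin.monotone_iff_le_succ.2 fun i => by fin_cases i <;> simp,
      fun i => by fin_cases i <;> simp <;> infer_instance, fun i => ?_⟩, fun H _ hH p hp hd hπ => ?_⟩
    · fin_cases i
      · exact Or.inl (h2.pi.relIndex ⊥)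
      · exact Or.inr h2.idx
    · haveI := Fact.mk hp
      obtain ⟨P, hP⟩ := Syl.exists (p := p) 𝐍(H)
      have h3 : P ≤ K := fun x hx => (hK x).2 ((PiGrp.of_pgroup hP.pgroup hπ).elt hx)
      refine hP.not_dvd' (hd.trans (relIndex_dvd_left (comm_eq_bot_iff.1 (eq_bot_iff.2 ?_)) _))
      rw [← h2.pi.inf_eq_bot hH]
      exact le_inf ((commutator_mono h3 le_rfl).trans (commutator_le_left _ _)) (comm_le_right hP.le)
  · have : ∀ i, Core.IsPiSeparable π (H i) := fun i => by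
      induction i using Fin.induction with
      | zero => rw [h0]; exact Core.IsPiSeparable.of_subsingleton
      | succ i ih =>
        haveI := h2 i.castSucc
        exact ih.of_relIndex (by rw [normalizer_eq_top]; exact le_top) (h3 i)
    exact Core.IsPiSeparable.top_iff.1 (h1 ▸ this _)

end Cfsg.Agent.S4050
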