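import Cfsg.Statements.S4051
import Cfsg.Agent.S4050

set_option autoImplicit false
open Cfsg

namespace Cfsg.Agent.S4051

open Subgroup Cfsg.Lib Cfsg.Lib.BG

theorem sep {G : Type*} [Group G] [Finite G] {π : Set ℕ}
    (h : ∃ L : Subgroup G, ∀ x : G, x ∈ L ↔ ∀ p : ℕ, p.Prime → p ∣ orderOf x → p ∈ π) : Core.IsPiSeparable π G := by
  obtain ⟨L, hL⟩ := h
  obtain ⟨h1, h2⟩ := S4050.hall hL
  exact Core.IsPiSeparable.of_normal_quotient L (Core.IsPiSeparable.of_isPiNumber h2.pi)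
    (Core.IsPiSeparable.of_isPiNumber_compl (by rw [← index_eq_card, ← relIndex_top_right]; exact h2.idx))


/-- Let π be a set of primes and G a finite group such that N_G(H)/C_G(H) is a π'-group for every nontrivial π'-subgroup H of G. If K is a normal subgroup of G such that the π-elements of K form a subgroup and the π-elements of G/K form a subgroup, then the π-elements of G form a subgroup. -/
theorem result {G : Type*} [Group G] [Finite G] (π : Set ℕ)
    (hπ : ∀ p ∈ π, p.Prime) (hhom : (∀ H : Subgroup G, H ≠ ⊥ → (∀ p : ℕ, p.Prime → p ∣ Nat.card ↥H → p ∉ π) →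
        ∀ p : ℕ, p.Prime → p ∣ (Subgroup.centralizer (H : Set G)).relIndex (Subgroup.normalizer (H : Set G)) → p ∉ π))
    (K : Subgroup G) [K.Normal]
    (hK : ∃ L : Subgroup ↥K, ∀ x : ↥K, x ∈ L ↔ ∀ p : ℕ, p.Prime → p ∣ orderOf x → p ∈ π)
    (hQ : ∃ L : Subgroup (G ⧸ K), ∀ x : G ⧸ K, x ∈ L ↔ ∀ p : ℕ, p.Prime → p ∣ orderOf x → p ∈ π) :
    (∃ K : Subgroup G, ∀ x : G, x ∈ K ↔ ∀ p : ℕ, p.Prime → p ∣ orderOf x → p ∈ π) := by
  exact S4050.closed (Core.IsPiSeparable.of_normal_quotient K (sep hK) (sep hQ)) hhom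

end Cfsg.Agent.S4051
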