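import Cfsg.Statements.S4056
import Cfsg.Agent.Lib.PGroup.Frattini
import Cfsg.Agent.Lib.PGroup.Commutator

set_option autoImplicit false
open Cfsg

namespace Cfsg.Agent.S4056

/-- In a finite 2-group of nilpotency class at most 2 and exponent dividing 4, the Frattini subgroup lies in the centre and is elementary abelian. -/
theorem result {P : Type*} [Group P] [Finite P] (hP : IsPGroup 2 P)
    (hcl : Group.nilpotencyClass P ≤ 2) (hexp : Monoid.exponent P ∣ 4) :
    frattini P ≤ Subgroup.center P ∧ Cfsg.IsElementaryAbelian 2 (frattini P) := by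
  open Cfsg.Lib Cfsg.Lib.PGroup Subgroup in
  open scoped commutatorElement in
  have := hP.isNilpotent
  have h4 : ∀ x : P, x ^ 4 = 1 := fun x => Monoid.exponent_dvd_iff_forall_pow_eq_one.mp hexp x
  have hc : ∀ x y : P, ⁅x, y⁆ ∈ center P := fun x y => by
    have h1 := Subgroup.lowerCentralSeries_eq_bot_iff_nilpotencyClass_le.mpr hcl
    have h2 : ⁅_root_.commutator P, ⊤⁆ = ⊥ := h1
    rw [commutator_eq_bot_iff_le_centralizer, coe_top, centralizer_univ] at h2
    exact h2 (commutator_mem_commutator (mem_top x) (mem_top y))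
  have hcm : ∀ g x y : P, Commute g ⁅x, y⁆ := fun g x y => mem_center_iff.mp (hc x y) g
  have h2 : ∀ x : P, x ^ 2 ∈ omegaOne 2 (center P) := fun x => by
    refine mem_omegaOne (mem_center_iff.mpr fun y => ?_) (by rw [← pow_mul, h4])
    have h1 := mul_pow_of_commute_commutator (hcm x y x) (hcm y y x) 4
    rw [h4, h4, h4, mul_one, mul_one, show Nat.choose 4 2 = 4 + 2 from rfl, pow_add, h4, one_mul,
      ← commutator_pow_right_of_commute (hcm x y x)] at h1
    exact commutatorElement_eq_one_iff_mul_comm.mp h1.symm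
  have h3 := (frattini_le_iff_sq_mem hP).mpr h2
  exact ⟨h3.trans (omegaOne_le _), elemAb_of_le (isElementaryAbelian_omegaOne inferInstance) h3⟩

end Cfsg.Agent.S4056
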