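import Cfsg.Statements.S4057
import Cfsg.Agent.Lib.PGroup.GenBound
import Cfsg.Agent.Lib.PGroup.AutGL

set_option autoImplicit false
open Cfsg

namespace Cfsg.Agent.S4057

open Subgroup Cfsg.Lib.PGroup Cfsg.Lib.PGroup.GenBd

/-- Let p be an odd prime and P a finite p-group in which every normal abelian subgroup can be generated by k elements. Then every subgroup of P can be generated by at most ⌊k(k+4)/4⌋ elements. -/
theorem result {P : Type*} [Group P] [Finite P] {p : ℕ} [Fact p.Prime]
    (hp : p ≠ 2) (hP : IsPGroup p P) (k : ℕ)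
    (hab : ∀ A : Subgroup P, A.Normal → IsMulCommutative A → ∃ S : Finset P, S.card ≤ k ∧ Subgroup.closure (S : Set P) = A) :
    ∀ H : Subgroup P, ∃ S : Finset P, S.card ≤ k * (k + 4) / 4 ∧ Subgroup.closure (S : Set P) = H := by
  classical
  intro H
  obtain ⟨A, -, -, hN, hA, hC⟩ := exists_invariant_elemAb_ge hp (P := (⊤ : Subgroup P)) (S := ⊤)
    (hP.to_subgroup ⊤) le_rfl le_normalizer elemAb_bot bot_le (normalizer_eq_top _).ge
  haveI : A.Normal := normalizer_eq_top_iff.1 (top_le_iff.1 hN)
  have hc : ∀ x y : A, x * y = y * x := fun x y => Subtype.ext (elemAb_comm hA x.2 y.2)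
  have he : ∀ x : A, x ^ p = 1 := fun x => Subtype.ext (hA.2 x x.2)
  have hk : Nat.card A ≤ p ^ k := by
    obtain ⟨S, hS, e⟩ := hab A inferInstance hA.1
    have h1 : closure ((S.preimage A.subtype A.subtype_injective.injOn : Finset A) : Set A) = ⊤ := by
      rw [Finset.coe_preimage]
      subst e
      exact closure_preimage_eq_top _
    have h2 := index_frattini_le_pow_card (hP.to_subgroup A) h1
    rw [(frattini_eq_bot_iff (hP.to_subgroup A)).2 ⟨hA.1, he⟩, index_bot] at h2
    refine h2.trans (Nat.pow_le_pow_right (Fact.out : p.Prime).pos (le_trans ?_ hS))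
    exact Finset.card_le_card_of_injOn A.subtype (fun x hx => by simpa using hx) A.subtype_injective.injOn
  obtain ⟨φ, hφ⟩ := exists_aut_hom_GL hc he hk
  set f : H →* _ := φ.comp ((MulAut.conjNormal (H := A)).comp H.subtype)
  obtain ⟨T, hT, eT⟩ := exists_gen_GL (hP.to_subgroup H) f
  have hker : ∀ x ∈ f.ker, (x : P) ∈ centralizer (A : Set P) := fun x hx a ha => by
    have h1 : MulAut.conjNormal (x : P) = (1 : MulAut A) := hφ (hx.trans (map_one φ).symm)
    have h2 := congrArg (fun g : MulAut A => (g ⟨a, ha⟩ : P)) h1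
    simp only [MulAut.conjNormal_apply, MulAut.one_apply] at h2
    exact (mul_inv_eq_iff_eq_mul.1 h2).symm
  have hΩ : ∀ x : f.ker, x ^ p = 1 → ((x : H) : P) ∈ A := fun x hx =>
    hC _ (mem_top _) (hker _ x.2) (congrArg (fun y : f.ker => ((y : H) : P)) hx)
  have hcen : ∀ x : f.ker, x ^ p = 1 → x ∈ center f.ker := fun x hx => mem_center_iff.2 fun y =>
    Subtype.ext (Subtype.ext (hker _ y.2 _ (hΩ x hx)).symm)
  obtain ⟨S, hS, eS⟩ := gen_aux hp _ f.ker k rfl ((hP.to_subgroup H).to_subgroup _) hcen
    (le_trans (Nat.card_le_card_of_injective (fun x => (⟨_, hΩ x.1 ((mem_omega hcen).1 x.2)⟩ : A))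
      fun x y h => Subtype.ext (Subtype.ext (Subtype.ext (Subtype.mk.inj h)))) hk)
  refine ⟨(T ∪ S.image f.ker.subtype).image H.subtype, Finset.card_image_le.trans
    ((Finset.card_union_le _ _).trans ?_), ?_⟩
  · have := Finset.card_image_le (s := S) (f := f.ker.subtype)
    have e : k * (k + 4) = k ^ 2 + k * 4 := by ring
    rw [e, Nat.add_mul_div_right _ _ four_pos]
    omega
  · have h1 := congrArg (map f.ker.subtype) eS
    rw [MonoidHom.map_closure, ← MonoidHom.range_eq_map, range_subtype] at h1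
    rw [Finset.coe_image, ← MonoidHom.map_closure, Finset.coe_union, Subgroup.closure_union, Finset.coe_image,
      h1, eT, ← MonoidHom.range_eq_map, range_subtype]

end Cfsg.Agent.S4057
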