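import Cfsg.Statements.S4066
import Cfsg.Agent.Lib.FGS.Count

set_option autoImplicit false
open Cfsg

namespace Cfsg.Agent.S4066

/-- Let G be a finite group in which the centralizer of every element meets each of its conjugates by elements outside its normalizer trivially. Then any two distinct Sylow p-subgroups of G, for any prime p, intersect trivially. -/
theorem result {G : Type*} [Group G] [Finite G] (hTI : ∀ x : G, Cfsg.IsTISubset (Subgroup.centralizer ({x} : Set G) : Set G))
    {p : ℕ} [Fact p.Prime] (P Q : Sylow p G) (hPQ : P ≠ Q) : (P : Subgroup G) ⊓ (Q : Subgroup G) = ⊥ := by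
  open Cfsg.Lib Cfsg.Lib.FGS Cfsg.Lib.Transfer Subgroup in
  have key : ∀ z : G, z ≠ 1 → Group.IsNilpotent (centralizer ({z} : Set G)) := fun z hz => by
    rw [← Core.fittingSubgroup_eq_top_iff, eq_top_iff']
    intro a
    have h1 : ∀ h : centralizer ({z} : Set G), (h * a * h⁻¹) * a = a * (h * a * h⁻¹) := fun h => by
      have h2 : (h : G) ∈ normalizer (centralizer ({(a : G)} : Set G) : Set G) := by
        have h3 : z ∈ centralizer ({(a : G)} : Set G) :=
          mem_centralizer_singleton_iff.mpr (mem_centralizer_singleton_iff.mp a.2).symm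
        by_contra h4
        refine hz (hTI a h h4 z h3 ?_)
        rwa [mem_centralizer_singleton_iff.mp h.2, mul_inv_cancel_right]
      exact Subtype.ext (mem_centralizer_singleton_iff.mp ((mem_normalizer_iff.mp h2 a).mp
        (mem_centralizer_singleton_iff.mpr rfl)))
    have h2 : IsMulCommutative (normalClosure ({a} : Set (centralizer ({z} : Set G)))) := by
      refine isMulCommutative_closure fun x hx y hy => ?_
      obtain ⟨b, hb, hx'⟩ := Group.mem_conjugatesOfSet_iff.mp hx
      obtain ⟨c, hc, hy'⟩ := Group.mem_conjugatesOfSet_iff.mp hy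
      rw [Set.mem_singleton_iff.mp hb] at hx'
      rw [Set.mem_singleton_iff.mp hc] at hy'
      obtain ⟨g, rfl⟩ := isConj_iff.mp hx'
      obtain ⟨h, rfl⟩ := isConj_iff.mp hy'
      calc _ = h * ((h⁻¹ * g * a * (h⁻¹ * g)⁻¹) * a) * h⁻¹ := by group
        _ = _ := by rw [h1]; group
    exact Core.le_fittingSubgroup (N := normalClosure {a}) inferInstance
      (Core.isNilpotent_of_isMulCommutative _) (subset_normalClosure (Set.mem_singleton a))
  by_contra h0
  have hP0 : (P : Subgroup G) ≠ ⊥ := fun h => h0 (by rw [h, bot_inf_eq])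
  obtain ⟨z, hzP, hzC, hzo⟩ := PGroup.exists_mem_centralizer_orderOf_eq P.isPGroup' P.isPGroup'
    le_normalizer hP0
  have hz1 : z ≠ 1 := by
    rintro rfl; exact (Fact.out : p.Prime).one_lt.ne ((orderOf_one).symm.trans hzo)
  have h1 : ↑P ≤ centralizer ({z} : Set G) := by
    rw [← Core.centralizer_zpowers]; exact le_centralizer_iff.mp (zpowers_le.mpr hzC)
  obtain ⟨g, hg⟩ := exists_conj_sylow_eq P Q
  obtain ⟨⟨x, hxP, hxQ⟩, hx1⟩ := ne_bot_iff_exists_ne_one.mp h0
  have h2 : g⁻¹ ∈ normalizer (centralizer ({z} : Set G) : Set G) := by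
    by_contra h3
    refine hx1 (Subtype.ext (hTI z g⁻¹ h3 x (h1 hxP) (h1 ?_)))
    rw [inv_inv, ← mem_conj, hg]; exact hxQ
  have h3 : ↑Q ≤ centralizer ({z} : Set G) :=
    hg ▸ Core.map_conj_le_of_mem_normalizer h1 (inv_mem_iff.mp h2)
  exact hPQ (sylow_eq_of_le (le_sylow_of_isPGroup_sup Q
    (isPGroup_sup_of_le_nilpotent (key z hz1) h1 h3 P.isPGroup' Q.isPGroup')))

end Cfsg.Agent.S4066
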