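import Cfsg.Statements.S4064
import Cfsg.Agent.Lib.OddChar.TICent
import Cfsg.Agent.Lib.Frobenius.CN
import Cfsg.Agent.Lib.Coprime.FT
import Cfsg.Agent.Lib.PF.Sec3Prod
import Cfsg.Agent.Lib.Inv.Misc
import Cfsg.Agent.Lib.Inv.SylowTwo
import Cfsg.Agent.S0225
import Cfsg.Agent.S4066

set_option autoImplicit false
open Cfsg

namespace Cfsg.Agent.S4064

open Subgroup Cfsg.Lib Cfsg.Lib.OddChar Cfsg.Lib.Frobenius Cfsg.Lib.Inv Cfsg.Lib.Transfer
  Cfsg.Lib.Perm Cfsg.Lib.Small

section
variable {G : Type*} [Group G] (hTI : ∀ x : G, IsTISubset (centralizer ({x} : Set G) : Set G))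
include hTI

theorem mem_norm {x y g : G} (hy : y ≠ 1) (h1 : y * x = x * y)
    (h2 : y * (g * x * g⁻¹) = g * x * g⁻¹ * y) : g ∈ normalizer (centralizer ({x} : Set G) : Set G) := by
  rw [← inv_mem_iff]
  by_contra h
  refine hy (hTI x g⁻¹ h y (mem_centralizer_singleton_iff.2 h1)
    (mem_centralizer_singleton_iff.2 ?_))
  calc _ = g⁻¹ * (y * (g * x * g⁻¹)) * g := by group
    _ = _ := by rw [h2]; group

theorem comm_conj {x y g c : G} (hy : y ≠ 1) (h1 : y * x = x * y)
    (h2 : y * (g * x * g⁻¹) = g * x * g⁻¹ * y) (hc : c * x = x * c) :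
    c * (g * x * g⁻¹) = g * x * g⁻¹ * c := by
  have := mem_centralizer_singleton_iff.1 ((mem_normalizer_iff''.1 (mem_norm hTI hy h1 h2) c).1
    (mem_centralizer_singleton_iff.2 hc))
  calc _ = g * (g⁻¹ * c * g * x) * g⁻¹ := by group
    _ = _ := by rw [this]; group

theorem cn [Finite G] : IsCNGroup G := fun z hz => by
  rw [← Core.fittingSubgroup_eq_top_iff, eq_top_iff']
  intro a
  have h1 : ∀ h : centralizer ({z} : Set G), (h * a * h⁻¹) * a = a * (h * a * h⁻¹) := fun h =>
    Subtype.ext (comm_conj hTI hz (mem_centralizer_singleton_iff.1 a.2).symm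
      (mem_centralizer_singleton_iff.1 (h * a * h⁻¹).2).symm rfl).symm
  have h2 : IsMulCommutative (normalClosure ({a} : Set (centralizer ({z} : Set G)))) := by
    refine isMulCommutative_closure fun x hx y hy => ?_
    obtain ⟨b, hb, hx'⟩ := Group.mem_conjugatesOfSet_iff.mp hx
    obtain ⟨c, hc, hy'⟩ := Group.mem_conjugatesOfSet_iff.mp hy
    rw [Set.mem_singleton_iff.mp hb] at hx'
    rw [Set.mem_singleton_iff.mp hc] at hy'
    obtain ⟨g, rfl⟩ := isConj_iff.mp hx'
    obtain ⟨h, rfl⟩ := isConj_iff.mp hy'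
    calc _ = h * ((h⁻¹ * g * a * (h⁻¹ * g)⁻¹) * a) * h⁻¹ := by group
      _ = _ := by rw [h1]; group
  exact Core.le_fittingSubgroup (N := normalClosure {a}) inferInstance
    (Core.isNilpotent_of_isMulCommutative _) (subset_normalClosure (Set.mem_singleton a))

theorem quat_eq {Q : Subgroup G} {n : ℕ} (e : Q ≃* QuaternionGroup (2 ^ (n + 1))) : n = 0 := by
  by_contra hn
  obtain ⟨n, rfl⟩ := Nat.exists_eq_succ_of_ne_zero hn
  have hz : QuaternionGroup.a (2 ^ (n + 2) : ℕ) ≠ (1 : QuaternionGroup (2 ^ (n + 1 + 1))) := by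
    intro h
    have := (ZMod.natCast_eq_zero_iff _ _).1 (QuaternionGroup.a.inj h)
    have h1 := Nat.le_of_dvd (by positivity) this
    have : 0 < 2 ^ n := by positivity
    simp only [pow_succ] at h1
    omega
  have hc : ∀ x : QuaternionGroup (2 ^ (n + 1 + 1)),
      QuaternionGroup.a (2 ^ (n + 2) : ℕ) * x = x * QuaternionGroup.a (2 ^ (n + 2) : ℕ) := by
    have h2 : ((2 ^ (n + 2) : ℕ) : ZMod (2 * 2 ^ (n + 1 + 1))) + (2 ^ (n + 2) : ℕ) = 0 := by
      rw [← Nat.cast_add, ← two_mul, ZMod.natCast_self]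
    rintro (i | i)
    · simp only [QuaternionGroup.a_mul_a, add_comm]
    · simp only [QuaternionGroup.a_mul_xa, QuaternionGroup.xa_mul_a]
      exact congrArg _ (by linear_combination -h2)
  have key : ∀ x g : QuaternionGroup (2 ^ (n + 1 + 1)), x * (g * x * g⁻¹) = g * x * g⁻¹ * x :=
    fun x g => by
      have := comm_conj hTI (x := e.symm x) (g := e.symm g) (c := e.symm x)
        (y := e.symm (QuaternionGroup.a (2 ^ (n + 2) : ℕ)))
        (fun h => hz (by simpa using congrArg e (Subtype.ext h : _ = (1 : Q))))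
        (by simpa using congrArg (fun y => (e.symm y : G)) (hc x))
        (by simpa using congrArg (fun y => (e.symm y : G)) (hc (g * x * g⁻¹))) rfl
      exact e.symm.injective (Subtype.ext (by simpa using this))
  have h4 := key (QuaternionGroup.xa 0) (QuaternionGroup.a 1)
  rw [show (QuaternionGroup.a 1 : QuaternionGroup (2 ^ (n + 1 + 1)))⁻¹ = QuaternionGroup.a (-1) from
    inv_eq_of_mul_eq_one_right (by simp)] at h4
  simp only [QuaternionGroup.a_mul_xa, QuaternionGroup.xa_mul_a,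
    QuaternionGroup.xa_mul_xa] at h4
  have h5 : ((4 : ℕ) : ZMod (2 * 2 ^ (n + 1 + 1))) = 0 := by
    have := QuaternionGroup.a.inj h4
    push_cast
    linear_combination -this
  have := Nat.le_of_dvd (by norm_num) ((ZMod.natCast_eq_zero_iff _ _).1 h5)
  have : 0 < 2 ^ n := by positivity
  rw [pow_succ, pow_succ] at *
  omega

theorem elemCent [Finite G] (T : Sylow 2 G) (hT : ¬ (T : Subgroup G).Normal) (h2 : Rk2 G) :
    ElemCent T := by
  have hT1 : (T : Subgroup G) ≠ ⊥ := fun e => hT (e ▸ inferInstance)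
  obtain ⟨z, hzT, hzC, hz⟩ := PGroup.exists_mem_centralizer_orderOf_eq T.isPGroup' T.isPGroup'
    le_normalizer hT1
  set C := centralizer ({z} : Set G)
  set H := normalizer (C : Set G)
  have hTC : (T : Subgroup G) ≤ C := fun x hx =>
    mem_centralizer_singleton_iff.2 (mem_centralizer_iff.1 hzC x hx)
  have hnil := cn hTI z (ne_one_of_orderOf hz)
  have hTn : ∀ g ∈ H, g ∈ normalizer ((T : Subgroup G) : Set G) := fun g hg => by
    have h3 : g ⋆ (T : Subgroup G) ≤ C := Core.map_conj_le_of_mem_normalizer hTC hg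
    exact mem_normalizer_of_conj_le (FGS.le_sylow_of_isPGroup_sup T
      (FGS.isPGroup_sup_of_le_nilpotent hnil h3 hTC (T.isPGroup'.map _) T.isPGroup'))
  have hmem : ∀ t ∈ H, orderOf t = 2 → t ∈ C := fun t ht h2 =>
    hTC (ElemCent.mem_of_mul_self (mul_self_of_orderOf h2) (hTn t ht))
  have hzH : z ∈ H := le_normalizer (hTC hzT)
  have hse : IsStronglyEmbedded H := se_iff.2 ⟨fun e => hT (normalizer_eq_top_iff.1
      (eq_top_iff.2 fun g _ => hTn g (e.ge (mem_top g)))), even_card_of_involution_mem hz hzH,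
    fun t g ht htH hg => by
      by_contra h
      exact ne_one_of_orderOf ht (hTI z g h t (hmem t htH ht)
        (hmem _ hg ((orderOf_conj' g t).trans ht)))⟩
  have htwo : 2 ≤ Nat.card {t : G // orderOf t = 2 ∧ t ∈ H} := by
    obtain ⟨x, y, hx1, hy1, hxy, hx, hy, hc⟩ := h2
    obtain ⟨g, hg⟩ := isConj_iff.1 (se_isConj hse (orderOf_eq_two_iff.2 ⟨hx1, hx⟩) hz)
    refine Finite.one_lt_card_iff_nontrivial.2 ⟨⟨⟨z, hz, hzH⟩, ⟨g * y * g⁻¹,
      (orderOf_conj' g y).trans (orderOf_eq_two_iff.2 ⟨hy1, hy⟩),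
      le_normalizer (mem_centralizer_singleton_iff.2 ?_)⟩, fun e => hxy ?_⟩⟩
    · rw [← hg]
      calc _ = g * (y * x) * g⁻¹ := by group
        _ = _ := by rw [← hc]; group
    · simpa using hg.trans (congrArg Subtype.val e)
  have hS : SEC H C := ⟨hse, htwo, fun t ht h2 => by
      obtain ⟨g, hg, rfl⟩ := se_exists_conj_mem hse hz h2 hzH ht
      ext c
      rw [mem_normalizer_iff''.1 hg c, mem_centralizer_singleton_iff, mem_centralizer_singleton_iff]
      exact ⟨fun e => by
        calc _ = g⁻¹ * (c * (g * z * g⁻¹)) * g := by group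
          _ = _ := by rw [e]; group, fun e => by
        calc _ = g * (g⁻¹ * c * g * z) * g⁻¹ := by group
          _ = _ := by rw [e]; group⟩,
    fun g hg x hx hxg => by
      obtain ⟨v, hv, h3, h4⟩ := se_exists_inv_coset hse htwo g
      have hvH : v ∉ H := fun e => hg (by simpa using mul_mem e (inv_mem h3))
      have hi := inv_eq_of_mul_self hv
      have hvv : ∀ y, v * (v * y * v⁻¹) * v⁻¹ = y := fun y => by
        calc _ = (v * v) * y * (v * v)⁻¹ := by group
          _ = y := by rw [hv]; group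
      have h5 : v * x * v⁻¹ ∈ H := by
        have := mem_conj.1 (h4 ▸ hxg)
        rw [hi] at this ⊢
        exact this
      have h6 : x * (v * x * v⁻¹ * x⁻¹ * (v * x * v⁻¹)⁻¹) ∈ C :=
        mul_mem hx ((mem_normalizer_iff.1 h5 _).1 (inv_mem hx))
      have h7 := hTI z v hvH _ h6 (by
        refine (congrArg (· ∈ C) ?_).mpr (inv_mem h6)
        calc _ = v * x * v⁻¹ * (v * (v * x * v⁻¹) * v⁻¹) * (v * x * v⁻¹)⁻¹ *
            (v * (v * x * v⁻¹) * v⁻¹)⁻¹ := by group
          _ = _ := by rw [hvv]; group)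
      by_contra h1
      refine h1 (hTI z v hvH x hx (mem_centralizer_singleton_iff.2 (comm_conj hTI h1 rfl ?_
        (mem_centralizer_singleton_iff.1 hx).symm).symm))
      calc _ = x * (v * x * v⁻¹ * x⁻¹ * (v * x * v⁻¹)⁻¹) * (v * x * v⁻¹) * x := by group
        _ = _ := by rw [h7, one_mul]⟩
  have hsq : ∀ c ∈ C, c * c = 1 := by
    refine hS.sq_or.resolve_right fun ⟨hp, hna, hc⟩ => hna ?_
    have hom : ∀ t ∈ C, t * t = 1 → t ∈ om C := fun t ht h2 => ⟨ht, by rwa [pow_two], fun y hy => by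
      by_cases h1 : t = 1
      · rw [h1]; exact Commute.one_left y
      exact ((hS.mem (hS.le ht) (orderOf_eq_two_iff.2 ⟨h1, h2⟩)).1 hy).symm⟩
    obtain ⟨x, hx, h4⟩ : ∃ x ∈ C, orderOf (x * x) = 2 := by
      by_contra! hn
      refine hna ⟨⟨fun a b => Subtype.ext ((hom a a.2 ?_).2.2 b b.2)⟩⟩
      by_contra h1
      obtain ⟨k, hk⟩ := (IsPGroup.iff_orderOf.1 hp) a
      rw [← orderOf_coe] at hk
      rcases k with _ | _ | k
      · exact h1 (by rw [orderOf_eq_one_iff.1 hk, one_mul])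
      · exact h1 (mul_self_of_orderOf hk)
      refine hn ((a : G) ^ 2 ^ k) (pow_mem a.2 _) ?_
      rw [← pow_two, ← pow_mul, ← pow_succ, orderOf_pow' _ (by positivity), hk,
        Nat.gcd_eq_right (pow_dvd_pow 2 (by omega)), pow_succ, Nat.mul_div_cancel_left _ (by positivity)]
    have hx1 : x ≠ 1 := fun e => ne_one_of_orderOf h4 (by rw [e, one_mul])
    set A := C ⊓ centralizer (centralizer ({x} : Set G) : Set G)
    have hA : ∀ g ∈ H, g * x * g⁻¹ ∈ A := fun g hg => ⟨hS.conj_mem hg hx, fun c hc =>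
      comm_conj hTI (ne_one_of_orderOf hz) (mem_centralizer_singleton_iff.1 hx).symm
        (mem_centralizer_singleton_iff.1 (hS.conj_mem hg hx)).symm
        (mem_centralizer_singleton_iff.1 hc)⟩
    have hxA : x ∈ A := by simpa using hA 1 (one_mem _)
    have hAc : ∀ a ∈ A, ∀ b ∈ A, a * b = b * a := fun a ha b hb =>
      hb.2 a (mem_centralizer_singleton_iff.2 (ha.2 x (mem_centralizer_singleton_iff.2 rfl)).symm)
    have hsub : ∀ t ∈ om C, ∃ a ∈ A, a * a = t := fun t ht => by
      by_cases h1 : t = 1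
      · exact ⟨1, one_mem _, by rw [h1, one_mul]⟩
      obtain ⟨g, hg, e⟩ := se_exists_conj_mem hse h4
        (orderOf_eq_two_iff.2 ⟨h1, by rw [← pow_two]; exact ht.2.1⟩) (hS.le (mul_mem hx hx)) (hS.le ht.1)
      exact ⟨_, hA g hg, by rw [← e]; group⟩
    let f : A →* G := MonoidHom.mk' (fun a => a * a) fun a b => by
      calc _ = (a : G) * (b * a) * b := by push_cast; group
        _ = _ := by rw [← hAc a a.2 b b.2]; group
    have h5 : om C ≤ f.range := fun t ht => by
      obtain ⟨a, ha, e⟩ := hsub t ht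
      exact ⟨⟨a, ha⟩, e⟩
    have h6 : om C ≤ f.ker.map A.subtype := fun t ht => by
      obtain ⟨a, ha, e⟩ := hsub t ht
      exact ⟨⟨t, e ▸ mul_mem ha ha⟩, show t * t = 1 by rw [← pow_two]; exact ht.2.1, rfl⟩
    have h7 : A = C := eq_of_le_of_card_ge inf_le_left (by
      rw [hc, ← f.ker.index_mul_card, index_ker, pow_two, ← Coprime.card_map_subtype]
      exact Nat.mul_le_mul (card_le_of_le h5) (card_le_of_le h6))
    exact ⟨⟨fun a b => Subtype.ext (hAc a (h7.ge a.2) b (h7.ge b.2))⟩⟩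
  refine ⟨fun hc => ?_, hT, fun t c ht e => ?_⟩
  · obtain ⟨⟨a, ha, haH⟩, ⟨b, hb, hbH⟩, hab⟩ := Finite.one_lt_card_iff_nontrivial.1 htwo
    have h3 := ElemCent.mem_of_mul_self (mul_self_of_orderOf ha) (hTn a haH)
    have h4 := ElemCent.mem_of_mul_self (mul_self_of_orderOf hb) (hTn b hbH)
    exact hab (Subtype.ext (eq_of_isCyclic_of_orderOf_two hc h3 h4 ha hb))
  · obtain ⟨g, hg⟩ := isConj_iff.1 (se_isConj hse ht hz)
    have := hsq (g * c * g⁻¹) (mem_centralizer_singleton_iff.2 (by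
      rw [← hg]
      calc _ = g * (c * t) * g⁻¹ := by group
        _ = _ := by rw [e]; group))
    calc _ = g⁻¹ * (g * c * g⁻¹ * (g * c * g⁻¹)) * g := by group
      _ = _ := by rw [this]; group

end

/-- Let G be a finite group in which the centralizer of every element meets each of its conjugates by elements outside its normalizer trivially. Then G is nilpotent; or G is a Frobenius group with a complement that is cyclic or isomorphic to the direct product of a cyclic group of odd order and the quaternion group of order 8; or G is isomorphic to PSL₂(2ⁿ) for some n ≥ 2. -/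
theorem result {G : Type*} [Group G] [Finite G] (hTI : ∀ x : G, Cfsg.IsTISubset (Subgroup.centralizer ({x} : Set G) : Set G)) :
    Group.IsNilpotent G ∨
    (∃ H : Subgroup G, Cfsg.IsFrobeniusComplement H ∧
      (IsCyclic H ∨ ∃ m : ℕ, Odd m ∧ Nonempty (H ≃* Multiplicative (ZMod m) × QuaternionGroup 2))) ∨
    (∃ n : ℕ, 2 ≤ n ∧ Nonempty (G ≃* Matrix.ProjectiveSpecialLinearGroup (Fin 2) (GaloisField 2 n))) := by
  have hCN := cn hTI
  by_cases hnil : Group.IsNilpotent G
  · exact Or.inl hnil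
  right
  by_cases hns : ∃ (p : ℕ) (_ : Fact p.Prime) (P : Sylow p G), (P : Subgroup G) ≠ ⊥ ∧ (P : Subgroup G).Normal
  · obtain ⟨p, _, P, h1, h2⟩ := hns
    obtain ⟨h3, -, E, -, h4, h5, h6⟩ := cn_frobenius_of_normal_sylow hCN hnil P h1 h2
    refine Or.inl ⟨E, h4, (nil_semiReg_structure h3 (le_top.trans (normalizer_eq_top _).ge) h5 h6).imp_right ?_⟩
    rintro ⟨C, Q, rfl, hc, hC, ho, n, ⟨e⟩⟩
    obtain rfl := quat_eq hTI e
    refine ⟨Nat.card C, ho, ⟨(PF.prodEquivSup (disjoint_iff.1 (disjoint_of_coprime_natCard ?_)) hc).symm.trans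
      ((zmodCyclicMulEquiv hC).symm.prodCongr e)⟩⟩
    rw [Nat.card_congr e.toEquiv, Nat.card_eq_fintype_card (α := QuaternionGroup _), QuaternionGroup.card]
    exact (Nat.coprime_two_right.2 ho).pow_right 3
  have hs : ∀ N : Subgroup G, N.Normal → Group.IsSolvable N → N = ⊥ := fun N hN h => by
    by_contra h0
    obtain ⟨q, hq, h1⟩ := Core.exists_pCore_inf_ne_bot h h0
    have := Fact.mk hq
    obtain ⟨P⟩ : Nonempty (Sylow q G) := inferInstance
    have h2 : ∀ P : Sylow q G, pCore q G ⊓ N ≤ P := fun P => inf_le_left.trans (Core.pCore_le_sylow P)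
    refine hns ⟨q, this, P, fun e => h1 (le_bot_iff.1 (e ▸ h2 P)), ?_⟩
    have : Subsingleton (Sylow q G) := ⟨fun A B => by
      by_contra h3
      exact h1 (le_bot_iff.1 (S4066.result hTI A B h3 ▸ le_inf (h2 A) (h2 B)))⟩
    exact P.normal_of_subsingleton
  have hG : (⊤ : Subgroup G) ≠ ⊥ := fun e => hnil (by
    have := (Subgroup.subsingleton_iff.1 (subsingleton_of_bot_eq_top e.symm))
    infer_instance)
  have he : 2 ∣ Nat.card G := by
    by_contra h
    have := Coprime.isSolvable_of_not_two_dvd h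
    exact hG (hs ⊤ inferInstance inferInstance)
  obtain ⟨T⟩ : Nonempty (Sylow 2 G) := inferInstance
  have hT : ¬ (T : Subgroup G).Normal := fun h => hns ⟨2, inferInstance, T, T.ne_bot_of_dvd_card he, h⟩
  have h2 : Rk2 G := by
    by_contra h2
    obtain ⟨z, hz, N, hN, ho, h3⟩ := S0225.result (even_iff_two_dvd.2 he) fun E hE =>
      h2 (rk2_iff.2 ⟨E, hE⟩)
    obtain rfl := hs N hN (Coprime.isSolvable_of_not_two_dvd ho.not_two_dvd_nat)
    have h4 := hCN z (ne_one_of_orderOf hz)
    rw [show centralizer ({z} : Set G) = ⊤ from eq_top_iff.2 fun g _ =>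
      mem_centralizer_singleton_iff.2 (by
        have := mem_bot.1 (h3 g)
        rw [mul_inv_eq_one, mul_inv_eq_iff_eq_mul] at this
        exact this.symm)] at h4
    exact hnil (Group.nilpotent_of_mulEquiv topEquiv)
  have hE := elemCent hTI T hT h2
  obtain ⟨n, hn⟩ := T.isPGroup'.exists_card_eq
  have h4 := hE.four_le
  have h5 : 2 ≤ n := by
    by_contra! h1
    interval_cases n <;> omega
  let _ := Fintype.ofFinite (GaloisField 2 n)
  exact Or.inr ⟨n, h5, hE.equiv_psl _ ((GaloisField.card 2 n (by omega)).trans hn.symm)⟩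

end Cfsg.Agent.S4064
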