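import Cfsg.Statements.S4065
import Cfsg.Agent.Lib.OddChar.AbCent

set_option autoImplicit false
open Cfsg

namespace Cfsg.Agent.S4065

open Subgroup in
theorem ti_of_ca {G : Type*} [Group G]
    (h : ∀ g : G, g ≠ 1 → IsMulCommutative (centralizer ({g} : Set G))) (x : G) :
    Cfsg.IsTISubset (centralizer ({x} : Set G) : Set G) := by
  have key : ∀ a b c : G, a ≠ 1 → b * a = a * b → c * a = a * c → b * c = c * b := by
    intro a b c ha hb hc
    exact congrArg Subtype.val ((h a ha).is_comm.comm
      ⟨b, mem_centralizer_singleton_iff.2 hb⟩ ⟨c, mem_centralizer_singleton_iff.2 hc⟩)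
  intro g hg y hy hgy
  by_contra y1
  apply hg
  by_cases x1 : x = 1
  · subst x1
    rw [mem_normalizer_iff]
    intro a
    simp [mem_centralizer_singleton_iff]
  have e1 : y * x = x * y := mem_centralizer_singleton_iff.1 hy
  have e2 : g * y * g⁻¹ * x = x * (g * y * g⁻¹) := mem_centralizer_singleton_iff.1 hgy
  have gy1 : g * y * g⁻¹ ≠ 1 := by simpa using y1
  rw [mem_normalizer_iff]
  intro a
  simp only [mem_centralizer_singleton_iff]
  constructor
  · intro ha
    have h1 : a * y = y * a := key x a y x1 ha e1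
    refine key (g * y * g⁻¹) _ _ gy1 ?_ e2.symm
    calc g * a * g⁻¹ * (g * y * g⁻¹) = g * (a * y) * g⁻¹ := by group
      _ = g * y * g⁻¹ * (g * a * g⁻¹) := by rw [h1]; group
  · intro ha
    have h1 := key x _ _ x1 ha e2
    refine key y _ _ y1 ?_ e1.symm
    calc a * y = g⁻¹ * (g * a * g⁻¹ * (g * y * g⁻¹)) * g := by group
      _ = y * a := by rw [h1]; group

/-- Let F be a finite field with 2ⁿ elements, n ≥ 2. In PSL₂(F) the centralizer of every element meets each of its conjugates by elements outside its normalizer trivially. -/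
theorem result (n : ℕ) (hn : 2 ≤ n)
    (x : Matrix.ProjectiveSpecialLinearGroup (Fin 2) (GaloisField 2 n)) :
    Cfsg.IsTISubset (Subgroup.centralizer ({x} : Set (Matrix.ProjectiveSpecialLinearGroup (Fin 2) (GaloisField 2 n))) :
      Set (Matrix.ProjectiveSpecialLinearGroup (Fin 2) (GaloisField 2 n))) := by
  exact ti_of_ca (fun g hg => Cfsg.Lib.OddChar.psl_even_centralizer hg) x

end Cfsg.Agent.S4065
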