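import Cfsg.Statements.S4067
import Cfsg.Agent.Lib.HH.Misc
import Cfsg.Agent.Lib.FGS.Misc
import Cfsg.Agent.Lib.Char.Product
import Cfsg.Agent.Lib.Char.Central
import Cfsg.Agent.Lib.Char.Column
import Cfsg.Agent.Lib.PGroup.Commutator
import Cfsg.Agent.Lib.FGS.Classes
import Cfsg.Agent.Lib.FGS.Count
import Cfsg.Agent.Lib.FGS.ClassSize

set_option autoImplicit false
open Cfsg

namespace Cfsg.Agent.S4067

open Subgroup Cfsg.Lib Cfsg.Lib.BG Cfsg.Lib.Transfer Cfsg.Lib.HH
open scoped commutatorElement Classical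

theorem weight_count {A α : Type*} [Group A] [MulAction A α] [Fintype α] (T : ℕ) (wt : α → ℕ)
    (h : ∀ g, T ≤ wt g * (MulAction.orbit A g).ncard) :
    T * Nat.card (MulAction.orbitRel.Quotient A α) ≤ ∑ g, wt g := by
  rw [← Finset.sum_fiberwise (s := Finset.univ) (g := fun g : α => (Quotient.mk _ g : MulAction.orbitRel.Quotient A α)),
    Nat.card_eq_fintype_card, mul_comm, ← smul_eq_mul, ← Finset.card_univ, ← Finset.sum_const]
  refine Finset.sum_le_sum fun ω _ => ?_
  induction ω using Quotient.inductionOn with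
  | h a =>
    set s := Finset.univ.filter fun g : α => (Quotient.mk _ g : MulAction.orbitRel.Quotient A α) = Quotient.mk _ a
    have hs : ∀ g ∈ s, (MulAction.orbit A g).ncard = s.card := by
      intro g hg
      rw [← Set.ncard_coe_finset]
      congr 1
      ext x
      simp only [s, Finset.coe_filter, Finset.mem_univ, true_and, Set.mem_setOf_eq] at hg ⊢
      rw [← (Finset.mem_filter.1 hg).2, Quotient.eq]
      rfl
    have hpos : 0 < s.card := Finset.card_pos.2 ⟨a, by simp [s]⟩
    apply Nat.le_of_mul_le_mul_right _ hpos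
    rw [Finset.sum_mul, mul_comm, ← smul_eq_mul, ← Finset.sum_const]
    exact Finset.sum_le_sum fun g hg => hs g hg ▸ h g

section
variable {G : Type*} [Group G] [Finite G]

theorem exists_aut {p : ℕ} (hp : p.Prime) {M : Subgroup G} [hMn : M.Normal] (hM : M.index = p) {x u : G}
    (hx : x ∉ M) (hu : u ∈ M) (huc : u ∈ 𝐂(M)) (hpow : (x * u) ^ p = x ^ p) :
    ∃ σ : MulAut G, (∀ m ∈ M, σ m = m) ∧ σ x = x * u := by
  haveI := Fact.mk hp
  have hord : orderOf (x : G ⧸ M) = p :=
    orderOf_eq_prime (by rw [← hM]; exact pow_card_eq_one') (by rwa [Ne, QuotientGroup.eq_one_iff])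
  have hex : ∀ g : G, ∃ i : ℕ, (x ^ i)⁻¹ * g ∈ M := by
    intro g
    have := mem_powers_of_prime_card (G := G ⧸ M) (p := p) hM (g := (x : G ⧸ M))
      (by rwa [Ne, QuotientGroup.eq_one_iff]) (g' := (g : G ⧸ M))
    obtain ⟨i, hi⟩ := this
    exact ⟨i, QuotientGroup.eq.1 (by simpa using hi)⟩
  choose ι hι using hex
  let w : ℕ → G := fun i => (x * u) ^ i * (x ^ i)⁻¹
  have hw1 : ∀ i, w i = w (i % p) := by
    intro i
    simp only [w]
    conv_lhs => rw [← Nat.mod_add_div i p, pow_add, pow_add, pow_mul, pow_mul, hpow]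
    group
  have hw : ∀ i j, (x ^ i)⁻¹ * x ^ j ∈ M → w i = w j := by
    intro i j h
    have : (x : G ⧸ M) ^ i = (x : G ⧸ M) ^ j := by simpa using QuotientGroup.eq.2 h
    rw [pow_eq_pow_iff_modEq, hord] at this
    rw [hw1 i, hw1 j, this]
  have hc : ∀ b : ℕ, ∀ m ∈ M, ((x * u) ^ b)⁻¹ * m * (x * u) ^ b = (x ^ b)⁻¹ * m * x ^ b := by
    intro b m hm
    induction b with
    | zero => simp
    | succ b ih =>
      have h1 := mem_cent.1 huc _ (hMn.conj_mem' _ hm (x ^ (b + 1)))
      calc _ = u⁻¹ * x⁻¹ * (((x * u) ^ b)⁻¹ * m * (x * u) ^ b) * x * u := by rw [pow_succ]; group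
        _ = u⁻¹ * ((x ^ (b + 1))⁻¹ * m * x ^ (b + 1) * u) := by rw [ih]; group
        _ = _ := by rw [h1]; group
  have hf : ∀ g : G, ∀ i : ℕ, (x ^ i)⁻¹ * g ∈ M → w (ι g) = w i := fun g i h => hw _ _ (by
    have := mul_mem (hι g) (inv_mem h)
    simpa [mul_assoc] using this)
  let f : G →* G := MonoidHom.mk' (fun g => w (ι g) * g) fun g h => by
    have h1 : (x ^ (ι g + ι h))⁻¹ * (g * h) ∈ M := by
      have := mul_mem (hMn.conj_mem' _ (hι g) (x ^ ι h)) (hι h)
      convert this using 1
      rw [pow_add]; group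
    rw [hf _ _ h1]
    have h2 := hc (ι h) _ (hι g)
    simp only [w]
    calc _ = (x * u) ^ ι g * (x * u) ^ ι h * ((x ^ ι h)⁻¹ * ((x ^ ι g)⁻¹ * g) * x ^ ι h) * (x ^ ι h)⁻¹ * h := by
          rw [pow_add, pow_add]; group
      _ = _ := by rw [← h2]; group
  have hfM : ∀ m ∈ M, f m = m := fun m hm => by
    show w (ι m) * m = m
    rw [hf m 0 (by simpa using hm)]; simp [w]
  have hinj : Function.Injective f := by
    refine (injective_iff_map_eq_one f).2 fun g hg => ?_
    have h1 : (x * u) ^ ι g * ((x ^ ι g)⁻¹ * g) = 1 := by rw [← mul_assoc]; exact hg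
    have h2 : (x * u) ^ ι g ∈ M := by rw [eq_inv_of_mul_eq_one_left h1]; exact inv_mem (hι g)
    have h3 : x ^ ι g ∈ M := by
      rw [← QuotientGroup.eq_one_iff] at h2 ⊢
      rw [QuotientGroup.mk_pow, QuotientGroup.mk_mul, (QuotientGroup.eq_one_iff u).2 hu, mul_one] at h2
      exact h2
    have h4 : g ∈ M := by simpa using mul_mem h3 (hι g)
    rw [← hfM g h4, hg]
  refine ⟨MulEquiv.ofBijective f (Finite.injective_iff_bijective.1 hinj), hfM, ?_⟩
  show w (ι x) * x = x * u
  rw [hf x 1 (by simp)]; simp [w]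

theorem classes_bound {p : ℕ} (hp : ∀ d, d ∣ Nat.card G → d ≠ 1 → p ≤ d) :
    p ^ 2 * Nat.card (ConjClasses G) + (_root_.commutator G).index ≤
      Nat.card G + p ^ 2 * (_root_.commutator G).index := by
  have e1 : Nat.card (ConjClasses G) = ∑ _χ : IrrCharacter G, 1 := by
    rw [← Char.card_irr_eq_card_conjClasses, Nat.card_eq_fintype_card, ← Finset.card_univ, Finset.card_eq_sum_ones]
  have e2 : (_root_.commutator G).index = ∑ χ : IrrCharacter G, if (χ : G → ℂ) 1 = 1 then 1 else 0 := by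
    rw [← Char.card_linear_irr, Nat.card_eq_fintype_card, Fintype.card_subtype, Finset.card_filter]
  rw [e1, e2, ← Char.sum_charDegree_sq G, Finset.mul_sum, Finset.mul_sum, ← Finset.sum_add_distrib,
    ← Finset.sum_add_distrib]
  refine Finset.sum_le_sum fun χ _ => ?_
  split_ifs with h
  · rw [Char.charDegree_eq_of_apply_one (n := 1) (by simpa using h)]; omega
  · have := hp _ (Char.Cfsg.IsIrrCharacter.charDegree_dvd_card χ.2) fun e =>
      h ((Char.Cfsg.IsCharacter.charDegree_eq_one_iff (Char.Cfsg.IsIrrCharacter.isCharacter χ.2)).1 e)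
    have := Nat.pow_le_pow_left this 2
    omega

theorem exists_u {p : ℕ} (hp : p.Prime) (hD : Nat.card (_root_.commutator G) = p)
    (hZ : _root_.commutator G ≤ center G) (hi : p ^ 2 * Nat.card (center G) ≤ Nat.card G)
    (hna : center G ≠ ⊤) : ∃ u, u ∉ _root_.commutator G ∧ ∀ x, (u ∈ center G ∨ x ∉ 𝐂[u]) → (x * u) ^ p = x ^ p := by
  haveI := Fact.mk hp
  have hcm : ∀ a b : G, ⁅a, b⁆ ∈ _root_.commutator G := fun a b => commutator_mem_commutator trivial trivial
  have hmul : ∀ (a b : G) (n : ℕ), (a * b) ^ n = ⁅b, a⁆ ^ n.choose 2 * a ^ n * b ^ n := fun a b n =>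
    PGroup.mul_pow_of_commute_commutator (mem_center_iff.1 (hZ (hcm b a)) a) (mem_center_iff.1 (hZ (hcm b a)) b) n
  have hDp : ∀ d ∈ _root_.commutator G, d ^ p = 1 := fun d hd => by
    have := congrArg Subtype.val (pow_card_eq_one' (x := (⟨d, hd⟩ : _root_.commutator G)))
    rwa [hD] at this
  have hpZ : ∀ a : G, a ^ p ∈ center G := fun a => mem_center_iff.2 fun b => by
    have h1 : b * a * b⁻¹ = ⁅b, a⁆ * a := by rw [commutatorElement_def]; group
    have h2 : b * a ^ p * b⁻¹ = a ^ p := by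
      rw [← conj_pow, h1, (Commute.symm (mem_center_iff.1 (hZ (hcm b a)) a)).mul_pow, hDp _ (hcm b a), one_mul]
    exact mul_inv_eq_iff_eq_mul.1 h2
  by_cases h2 : p = 2
  · subst h2
    by_contra hn
    push Not at hn
    have hD2 : ∀ a ∈ _root_.commutator G, ∀ b ∈ _root_.commutator G, a ≠ 1 → b ≠ 1 → a = b := by
      intro a ha b hb h1 h2
      obtain ⟨y, -, hy⟩ := (Nat.card_eq_two_iff' (1 : _root_.commutator G)).1 hD
      exact congrArg Subtype.val ((hy ⟨a, ha⟩ fun e => h1 (congrArg Subtype.val e)).trans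
        (hy ⟨b, hb⟩ fun e => h2 (congrArg Subtype.val e)).symm)
    have n1 : ∀ u ∈ center G, u ^ 2 = 1 → u ∈ _root_.commutator G := by
      intro u hu h
      by_contra hc
      obtain ⟨x, -, hx⟩ := hn u hc
      exact hx (by rw [Commute.mul_pow (mem_center_iff.1 hu x), h, mul_one])
    have n2 : ∀ u, u ∉ center G → u ^ 2 ∈ _root_.commutator G → u ^ 2 = 1 := by
      intro u hu h
      by_contra hc
      obtain ⟨x, hx1, hx⟩ := hn u fun h => hu (hZ h)
      have h1 : ⁅u, x⁆ ≠ 1 := fun e => hx1.resolve_left hu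
        (mem_cent1.2 (commutatorElement_eq_one_iff_mul_comm.1 e).symm)
      apply hx
      rw [hmul, hD2 _ (hcm u x) _ h h1 hc, Nat.choose_self, pow_one, ← mem_center_iff.1 (hpZ u), mul_assoc,
        ← sq, hDp _ h, mul_one]
    let ψ : G →* Abelianization G := (powMonoidHom 2).comp Abelianization.of
    have hker : ∀ a, a ∈ ψ.ker ↔ a ^ 2 ∈ _root_.commutator G := fun a => by
      rw [← Abelianization.ker_of, MonoidHom.mem_ker, MonoidHom.mem_ker, map_pow]; rfl
    have hr : Nat.card ψ.range * 2 ≤ Nat.card (center G) := by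
      have h1 : ψ.range ≤ (center G).map Abelianization.of := by
        rintro _ ⟨a, rfl⟩
        exact ⟨a ^ 2, hpZ a, map_pow _ _ _⟩
      have h2 := Core.card_comap_of_surjective (f := (Abelianization.of : G →* _))
        QuotientGroup.mk_surjective ((center G).map Abelianization.of)
      rw [comap_map_eq, Abelianization.ker_of, sup_eq_left.2 hZ, hD] at h2
      rw [h2]
      exact Nat.mul_le_mul_right _ (card_le_of_le h1)
    have hk : Nat.card ψ.ker * Nat.card ψ.range = Nat.card G := by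
      rw [← index_ker, card_mul_index]
    have hsup := Core.card_sup_mul_card_inf (H := ψ.ker) (N := center G) (le_top.trans (normalizer_eq_top _).ge)
    by_cases hall : ∀ i ∈ ψ.ker ⊓ center G, i ^ 2 = 1
    · have h1 : Nat.card ↥(ψ.ker ⊓ center G) ≤ 2 := hD ▸ card_le_of_le fun i hi => n1 i hi.2 (hall i hi)
      have h3 : ψ.ker ⊔ center G = ⊤ := by
        apply eq_top_of_le_card
        have := Nat.mul_le_mul_left (Nat.card ↥(ψ.ker ⊔ center G)) h1
        have := Nat.mul_le_mul_left (Nat.card ψ.ker) hr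
        nlinarith
      have h4 : ∀ a ∈ ψ.ker, a ^ 2 = 1 := fun a ha => by
        by_cases hc : a ∈ center G
        · exact hall a ⟨ha, hc⟩
        · exact n2 a hc ((hker a).1 ha)
      have h5 : IsMulCommutative ψ.ker := abelian_iff.2 (le_cent_iff.2 fun a ha b hb => by
        have e := h4 _ (mul_mem ha hb)
        rw [hmul, h4 a ha, h4 b hb, Nat.choose_self, pow_one, mul_one, mul_one] at e
        exact (commutatorElement_eq_one_iff_mul_comm.1 e).symm)
      have h6 := abelian_sup h5 (B := center G) inferInstance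
        (le_cent_iff.2 fun a _ b hb => mem_center_iff.1 hb a)
      rw [h3] at h6
      exact hna (eq_top_iff.2 fun a _ => mem_center_iff.2 fun b =>
        le_cent_iff.1 (abelian_cent h6) b trivial a trivial)
    · push Not at hall
      obtain ⟨i, hi1, hi2⟩ := hall
      have h1 : ψ.ker ≤ center G := by
        intro x hx
        by_contra hc
        have h3 : x * i ∉ center G := fun h => hc (((center G).mul_mem_cancel_right hi1.2).1 h)
        have h4 := n2 _ h3 ((hker _).1 (mul_mem hx hi1.1))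
        rw [Commute.mul_pow (mem_center_iff.1 hi1.2 x), n2 x hc ((hker x).1 hx), one_mul] at h4
        exact hi2 h4
      let θ : ψ.ker →* _root_.commutator G := MonoidHom.mk' (fun a => ⟨(a : G) ^ 2, (hker _).1 a.2⟩)
        fun a b => Subtype.ext (Commute.mul_pow (mem_center_iff.1 (h1 b.2) a) 2)
      have h3 : Nat.card θ.ker ≤ 2 := by
        rw [← hD, ← Core.card_map_subtype]
        refine card_le_of_le ?_
        rintro _ ⟨a, ha, rfl⟩
        exact n1 _ (h1 a.2) (congrArg Subtype.val ha)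
      have h4 : Nat.card θ.range ≤ 2 := hD ▸ card_le_card_group _
      have h5 : Nat.card θ.ker * Nat.card θ.range = Nat.card ψ.ker := by rw [← index_ker, card_mul_index]
      have h6 : Nat.card ψ.ker ≤ 4 := h5 ▸ Nat.mul_le_mul h3 h4
      have := Nat.mul_le_mul_right (Nat.card ψ.range) h6
      have := Nat.card_pos (α := center G)
      omega
  · have hmul' : ∀ a b : G, (a * b) ^ p = a ^ p * b ^ p := fun a b => by
      obtain ⟨k, hk⟩ := PGroup.prime_dvd_choose_two hp h2
      rw [hmul, hk, pow_mul, hDp _ (hcm b a), one_pow, one_mul]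
    let ψ : G →* G := MonoidHom.mk' (fun a => a ^ p) hmul'
    have h1 : Nat.card ψ.range ≤ Nat.card (center G) := card_le_of_le (by rintro _ ⟨a, rfl⟩; exact hpZ a)
    have hk : Nat.card ψ.ker * Nat.card ψ.range = Nat.card G := by
      rw [← index_ker, card_mul_index]
    obtain ⟨u, hu, hn⟩ : ∃ u ∈ ψ.ker, u ∉ _root_.commutator G := by
      by_contra hc
      push Not at hc
      have h3 : Nat.card ψ.ker ≤ p := hD ▸ card_le_of_le hc
      have := Nat.mul_le_mul h3 h1
      have := Nat.card_pos (α := center G)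
      have := hp.two_le
      nlinarith
    exact ⟨u, hn, fun x _ => by rw [hmul', show u ^ p = 1 from hu, mul_one]⟩

end

/-- Let G be a finite non-abelian group and p the least prime dividing its order. Then the automorphism group of G has at most #G/p orbits on G. -/
theorem result {G : Type*} [Group G] [Finite G] (hna : ¬ IsMulCommutative G) :
    Nat.card (MulAction.orbitRel.Quotient (MulAut G) G) ≤ Nat.card G / (Nat.card G).minFac := by
  cases nonempty_fintype G
  have hna' : center G ≠ ⊤ := fun h => hna ⟨⟨fun a b => (mem_center_iff.1 (h.ge (mem_top b)) a)⟩⟩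
  have hG1 : Nat.card G ≠ 1 := fun h => by
    haveI := (Nat.card_eq_one_iff_unique.1 h).1
    exact hna' (Subsingleton.elim _ _)
  have hp := Nat.minFac_prime hG1
  have hpd := Nat.minFac_dvd (Nat.card G)
  have hmin : ∀ d, d ∣ Nat.card G → d ≠ 1 → (Nat.card G).minFac ≤ d := fun d hd h1 =>
    Nat.minFac_le_of_dvd (by have := Nat.pos_of_dvd_of_pos hd Nat.card_pos; omega) hd
  generalize (Nat.card G).minFac = p at hp hpd hmin
  rw [Nat.le_div_iff_mul_le hp.pos]
  set D := _root_.commutator G with hDd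
  have hD1 : D ≠ ⊥ := fun h => hna' ((commutator_eq_bot_iff_center_eq_top G).1 h)
  have hp2 := hp.two_le
  rcases (hmin _ (card_subgroup_dvd_card D) (card_ne_one hD1)).lt_or_eq with hlt | hD
  · have h1 := classes_bound hmin
    have h2 : Nat.card (MulAction.orbitRel.Quotient (MulAut G) G) ≤ Nat.card (ConjClasses G) := by
      refine Nat.card_le_card_of_surjective (Quotient.map' id fun a b h => ?_) fun ω => ?_
      · obtain ⟨c, hc⟩ := isConj_iff.1 (IsConj.symm h)
        exact ⟨MulAut.conj c, hc⟩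
      · induction ω using Quotient.inductionOn with
        | h a => exact ⟨ConjClasses.mk a, rfl⟩
    rw [← hDd, ← card_mul_index D] at h1
    rw [← card_mul_index D]
    refine (Nat.mul_le_mul_right p h2).trans (Nat.le_of_mul_le_mul_left (c := p) ?_ hp.pos)
    obtain ⟨q, rfl⟩ : ∃ q, p = q + 1 := ⟨p - 1, by omega⟩
    obtain ⟨e, he⟩ : ∃ e, Nat.card D = q + 2 + e := ⟨Nat.card D - (q + 2), by omega⟩
    rw [he] at h1 ⊢
    nlinarith [Nat.zero_le (q * e * D.index)]
  have hcl : ∀ y : G, {x | IsConj y x} ⊆ (fun d => y * d) '' (D : Set G) := by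
    intro y x hx
    obtain ⟨c, rfl⟩ := isConj_iff.1 hx
    exact ⟨y⁻¹ * c * y⁻¹⁻¹ * c⁻¹, comm_mem_comm trivial trivial, by group⟩
  have hcard : ∀ y : G, ((fun d => y * d) '' (D : Set G)).ncard = p := fun y => by
    rw [Set.ncard_image_of_injective _ (mul_right_injective y), hD]; rfl
  have hge : ∀ y, y ∉ center G → p ≤ (𝐂[y]).index := fun y hy =>
    hmin _ (index_dvd_card _) fun h => hy (FGS.index_cent1_eq_one.1 h)
  have hidx : ∀ y, y ∉ center G → (𝐂[y]).index = p := fun y hy =>
    le_antisymm (by rw [← FGS.ncard_isConj, ← hcard y]; exact Set.ncard_le_ncard (hcl y)) (hge y hy)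
  have hcl' : ∀ y, y ∉ center G → ∀ d ∈ D, IsConj y (y * d) := by
    intro y hy d hd
    have := Set.eq_of_subset_of_ncard_le (hcl y) (by rw [hcard, FGS.ncard_isConj, hidx y hy])
    exact this.ge ⟨d, hd, rfl⟩
  have hZ : D ≤ center G := by
    intro d hd
    by_contra hc
    have := hcl' d hc d⁻¹ (inv_mem hd)
    rw [mul_inv_cancel, isConj_one_left] at this
    exact hc (this ▸ one_mem _)
  have hMZ : ∀ y, y ∉ center G → p * Nat.card (center G) ≤ Nat.card 𝐂[y] := by
    intro y hy
    have hle : center G ≤ 𝐂[y] := fun a ha => mem_cent1.2 (mem_center_iff.1 ha y).symm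
    rw [← BG.card_mul_relIndex hle, mul_comm]
    refine Nat.mul_le_mul_left _ (hmin _ ((BG.relIndex_dvd_card _ _).trans (card_subgroup_dvd_card _)) fun h => ?_)
    exact hy (relIndex_eq_one.1 h (self_mem_cent1 y))
  obtain ⟨y, hy⟩ : ∃ y, y ∉ center G := by
    by_contra hc
    push Not at hc
    exact hna' (eq_top_iff.2 fun a _ => hc a)
  obtain ⟨u, hu, hux⟩ := exists_u hp hD.symm hZ (by
    rw [← card_mul_index 𝐂[y], hidx y hy]; nlinarith [hMZ y hy]) hna'
  obtain ⟨y, hy, huM, huc, hx⟩ : ∃ y, y ∉ center G ∧ u ∈ 𝐂[y] ∧ u ∈ 𝐂(𝐂[y]) ∧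
      ∀ x, x ∉ 𝐂[y] → (x * u) ^ p = x ^ p := by
    by_cases hc : u ∈ center G
    · exact ⟨y, hy, mem_cent1.2 (mem_center_iff.1 hc y).symm, mem_cent.2 fun h _ => mem_center_iff.1 hc h,
        fun x _ => hux x (Or.inl hc)⟩
    · exact ⟨u, hc, self_mem_cent1 u, le_cent1_iff.1 le_rfl, fun x hx => hux x (Or.inr hx)⟩
  have hM := hidx y hy
  have hMZ' := hMZ y hy
  have hZM : center G ≤ 𝐂[y] := fun a ha => mem_cent1.2 (mem_center_iff.1 ha y).symm
  generalize 𝐂[y] = M at hM hMZ' hZM huM huc hx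
  haveI : M.Normal := Nml.top_iff.1 (Nml.of_der_le (hZ.trans hZM) le_top)
  have hco := FGS.isCoatom_of_index_prime (hM ▸ hp : M.index.Prime)
  obtain ⟨x, hxM⟩ : ∃ x, x ∉ M := by
    by_contra hc
    push Not at hc
    exact hco.1 (eq_top_iff.2 fun a _ => hc a)
  obtain ⟨σ, hσ, hσx⟩ := exists_aut hp hM hxM huM huc (hx x hxM)
  have key := weight_count (A := MulAut G) (p ^ 2)
    (fun g : G => if g ∈ center G then p ^ 2 else if g ∈ M then p else 1) fun g => by
    split_ifs with h1 h2
    · exact Nat.le_mul_of_pos_right _ ((Set.ncard_pos (Set.toFinite _)).2 ⟨g, MulAction.mem_orbit_self g⟩)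
    · rw [sq]
      refine Nat.mul_le_mul_left _ ?_
      rw [← hidx g h1, ← FGS.ncard_isConj]
      refine Set.ncard_le_ncard fun z hz => ?_
      obtain ⟨c, rfl⟩ := isConj_iff.1 hz
      exact ⟨MulAut.conj c, rfl⟩
    · rw [one_mul]
      have eqv : ∀ N : Subgroup G, N.Normal → ∀ a, a ∉ M → a⁻¹ * σ a ∈ N → ∀ b, b⁻¹ * σ b ∈ N := by
        intro N hN a ha h b
        have h3 : M < (QuotientGroup.mk' N).eqLocus ((QuotientGroup.mk' N).comp σ.toMonoidHom) := by
          refine lt_of_le_of_ne (fun m hm => ?_) fun e => ha (e ▸ QuotientGroup.eq.2 h)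
          show ((m : G) : G ⧸ N) = (σ m : G)
          rw [hσ m hm]
        exact QuotientGroup.eq.1 ((hco.2 _ h3).ge (mem_top b))
      have hwM : g⁻¹ * σ g ∈ M := eqv M inferInstance x hxM (by rw [hσx]; simpa using huM) g
      have hwD : g⁻¹ * σ g ∉ D := fun h => hu (by simpa [hσx] using eqv D inferInstance g h2 h x)
      obtain ⟨w, hw⟩ : ∃ w, w = g⁻¹ * σ g := ⟨_, rfl⟩
      rw [← hw] at hwM hwD
      have hpow : ∀ j : ℕ, (σ ^ j) g = g * w ^ j := by
        intro j
        induction j with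
        | zero => simp
        | succ j ih =>
          rw [pow_succ', MulAut.mul_apply, ih, map_mul, hσ _ (pow_mem hwM j), pow_succ', ← mul_assoc]
          congr 1
          rw [hw, mul_inv_cancel_left]
      have hH : p ^ 2 ≤ Nat.card ↥(zpowers w ⊔ D) := by
        rw [← BG.card_mul_relIndex (le_sup_right : D ≤ zpowers w ⊔ D), ← hD, sq]
        refine Nat.mul_le_mul_left _ (hmin _ ((BG.relIndex_dvd_card _ _).trans (card_subgroup_dvd_card _)) fun h => ?_)
        exact hwD (relIndex_eq_one.1 h (mem_sup_left (mem_zpowers w)))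
      refine hH.trans ?_
      show ((zpowers w ⊔ D : Subgroup G) : Set G).ncard ≤ _
      rw [← Set.ncard_image_of_injective _ (mul_right_injective g)]
      refine Set.ncard_le_ncard ?_
      rintro _ ⟨h, hh, rfl⟩
      obtain ⟨a, ha, d, hd, rfl⟩ := (mem_sup_right_norm (le_top.trans (normalizer_eq_top D).ge)).1 hh
      obtain ⟨j, rfl⟩ := mem_powers_iff_mem_zpowers.2 ha
      obtain ⟨c, hc⟩ := isConj_iff.1 (hcl' g h1 d hd)
      refine ⟨σ ^ j * MulAut.conj c, ?_⟩
      show (σ ^ j) (c * g * c⁻¹) = g * (w ^ j * d)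
      have hfix : ∀ j : ℕ, (σ ^ j) d = d := fun j => by
        induction j with
        | zero => rfl
        | succ j ih => rw [pow_succ, MulAut.mul_apply, hσ d (hZM (hZ hd)), ih]
      rw [hc, map_mul, hpow, hfix, mul_assoc]
  have hsum : ∑ g : G, (if g ∈ center G then p ^ 2 else if g ∈ M then p else 1) + p * Nat.card (center G)
      + Nat.card M = p ^ 2 * Nat.card (center G) + p * Nat.card M + Nat.card G := by
    simp only [Nat.card_eq_fintype_card, Fintype.card_subtype, Finset.card_filter]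
    rw [← Finset.card_univ, Finset.card_eq_sum_ones]
    simp only [Finset.mul_sum, ← Finset.sum_add_distrib]
    refine Finset.sum_congr rfl fun g _ => ?_
    by_cases h1 : g ∈ center G
    · simp [h1, hZM h1]
    · by_cases h2 : g ∈ M <;> simp [h1, h2]
  have hn := card_mul_index M
  rw [hM] at hn
  refine Nat.le_of_mul_le_mul_left (c := p) ?_ hp.pos
  obtain ⟨q, rfl⟩ : ∃ q, p = q + 2 := ⟨p - 2, by omega⟩
  rw [← hn] at hsum ⊢
  nlinarith [Nat.mul_le_mul_left (q + 1) hMZ', Nat.zero_le (q * q * Nat.card M), Nat.zero_le (q * Nat.card M)]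

end Cfsg.Agent.S4067
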