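import Cfsg.Statements.S4068
import Cfsg.Agent.Lib.CharDeg.PSL2Prod
import Cfsg.Agent.Lib.PSL2.SmallIso
import Cfsg.Agent.Lib.Char.Burnside
import Cfsg.Agent.Lib.FGS.ClassFour
import Cfsg.Agent.Lib.Inv.SylowTwo
import Cfsg.Agent.S1230

set_option autoImplicit false
open Cfsg

namespace Cfsg.Agent.S4068
open Cfsg.Lib.Inv

open Subgroup Cfsg.Lib Cfsg.Lib.PSL2

/-- A finite non-solvable group on which its automorphism group has exactly four orbits is isomorphic to the alternating group of degree 5. -/
theorem result {G : Type*} [Group G] [Finite G] (hns : ¬ Group.IsSolvable G)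
    (h4 : Nat.card (MulAction.orbitRel.Quotient (MulAut G) G) = 4) : Nonempty (G ≃* alternatingGroup (Fin 5)) := by
  classical
  have hpr : ∀ g : G, orderOf g = 1 ∨ (orderOf g).Prime := by
    haveI : Finite (MulAction.orbitRel.Quotient (MulAut G) G) := Nat.finite_of_card_ne_zero (by omega)
    haveI := Fintype.ofFinite (MulAction.orbitRel.Quotient (MulAut G) G)
    let ω : MulAction.orbitRel.Quotient (MulAut G) G → ℕ := Quotient.lift orderOf (by
      rintro a b ⟨f, rfl⟩
      exact MulEquiv.orderOf_eq f b)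
    have h3 : 3 ≤ (Nat.card G).primeFactors.card := by
      by_contra hh
      exact hns (Char.isSolvable_of_card_primeFactors_le_two G (by omega))
    have hsub : insert 1 (Nat.card G).primeFactors ⊆ Finset.univ.image ω := by
      intro n hn
      rw [Finset.mem_insert] at hn
      rcases hn with rfl | hn
      · exact Finset.mem_image.2 ⟨Quotient.mk _ 1, Finset.mem_univ _, orderOf_one⟩
      · haveI : Fact n.Prime := ⟨Nat.prime_of_mem_primeFactors hn⟩
        obtain ⟨g, hg⟩ := exists_prime_orderOf_dvd_card' n (Nat.dvd_of_mem_primeFactors hn)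
        exact Finset.mem_image.2 ⟨Quotient.mk _ g, Finset.mem_univ _, hg⟩
    have heq := Finset.eq_of_subset_of_card_le hsub (by
      rw [Finset.card_insert_of_notMem (fun h => Nat.not_prime_one (Nat.prime_of_mem_primeFactors h))]
      have := Finset.card_image_le (s := Finset.univ) (f := ω)
      rw [Finset.card_univ, ← Nat.card_eq_fintype_card, h4] at this
      omega)
    intro g
    have : orderOf g ∈ insert 1 (Nat.card G).primeFactors := by
      rw [heq]; exact Finset.mem_image.2 ⟨Quotient.mk _ g, Finset.mem_univ _, rfl⟩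
    rw [Finset.mem_insert] at this
    exact this.imp id Nat.prime_of_mem_primeFactors
  obtain ⟨T⟩ : Nonempty (Sylow 2 G) := inferInstance
  have hsq : ∀ t : G, orderOf t = 2 → ∀ c ∈ centralizer ({t} : Set G), c ^ 2 = 1 := by
    intro t ht c hc
    have hcm : Commute c t := mem_centralizer_singleton_iff.1 hc
    rcases hpr c with h | h
    · rw [orderOf_eq_one_iff.1 h, one_pow]
    by_cases h2 : orderOf c = 2
    · rw [← h2, pow_orderOf_eq_one]
    have hcop : (orderOf c).Coprime (orderOf t) := by
      rw [ht]; exact (Nat.coprime_primes h Nat.prime_two).2 h2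
    have := hcm.orderOf_mul_eq_mul_orderOf_of_coprime hcop
    rcases hpr (c * t) with h' | h'
    · rw [this, ht] at h'; omega
    · rw [this, ht] at h'
      exact absurd h' (Nat.not_prime_mul h.ne_one (by norm_num))
  obtain ⟨F, _, _, hF, ⟨e⟩⟩ := S1230.result T
    (fun hc => hns (FGS.isSolvable_of_hasNormalPComplement_two (Inv.hasNormalPComplement_of_isCyclic T hc)))
    (fun hn => hns (by
      haveI : Group.IsSolvable (G ⧸ (T : Subgroup G)) := Coprime.isSolvable_of_not_two_dvd T.not_dvd_index
      haveI := T.isPGroup'.isNilpotent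
      exact Group.isSolvable_of_ker_le_range (T : Subgroup G).subtype (QuotientGroup.mk' (T : Subgroup G)) (by simp)))
    (fun t ht => ⟨⟨⟨fun a b => Subtype.ext (by
      exact (Commute.of_orderOf_dvd_two (G := centralizer ({t} : Set G)) (fun x => orderOf_dvd_of_pow_eq_one
        (Subtype.ext (hsq t ht _ x.2))) a b) ▸ rfl)⟩⟩, hsq t ht⟩)
  have h4' : 4 ≤ Nat.card F := by
    by_contra hh
    haveI := isSolvable_psl (F := F) (by omega)
    exact hns (Group.isSolvable_of_isSolvable_injective (f := e.toMonoidHom) e.injective)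
  obtain ⟨n, hn⟩ := IsPGroup.iff_card.1 T.isPGroup'
  have hq : Nat.card F = 2 ^ n := by rw [Nat.card_eq_fintype_card, hF, hn]
  have hn0 : n ≠ 0 := by rintro rfl; omega
  obtain ⟨e'⟩ := equiv_sl_psl_of_even (F := F) (by
    rw [hq, Nat.not_odd_iff_even]; exact (Nat.even_pow.2 ⟨even_two, hn0⟩))
  have hpr' : ∀ g : Matrix.SpecialLinearGroup (Fin 2) F, orderOf g = 1 ∨ (orderOf g).Prime := fun g => by
    rw [← MulEquiv.orderOf_eq (e'.trans e.symm) g]; exact hpr _
  obtain ⟨s, hs⟩ := GLTwo.exists_ell_orderOf (F := F)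
  obtain ⟨a, ha⟩ := GLTwo.exists_dgs_orderOf (F := F)
  have h1 := hpr' s
  have h2 := hpr' (GLTwo.dgs a)
  rw [hs, ← Nat.card_eq_fintype_card] at h1
  rw [ha, ← Nat.card_eq_fintype_card] at h2
  have h3 : ¬ 3 ∣ Nat.card F := by
    rw [hq]; intro h
    have := (Nat.prime_dvd_prime_iff_eq Nat.prime_three Nat.prime_two).1 (Nat.prime_three.dvd_of_dvd_pow h)
    omega
  have h5 : Nat.card F = 4 := by
    by_cases hm : 3 ∣ Nat.card F + 1
    · rcases h1 with h1 | h1
      · omega
      · have := (Nat.prime_dvd_prime_iff_eq Nat.prime_three h1).1 hm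
        omega
    · rcases h2 with h2 | h2
      · omega
      · have := (Nat.prime_dvd_prime_iff_eq Nat.prime_three h2).1 (by omega)
        omega
  obtain ⟨e5⟩ := equiv_psl_alt_five (F := F) (Or.inl h5)
  exact ⟨e.trans e5⟩

end Cfsg.Agent.S4068
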