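import Cfsg.Statements.S4070
import Cfsg.Agent.Lib.DL9.Odd

set_option autoImplicit false
open Cfsg

namespace Cfsg.Agent.S4070

/-- Let G be a finite solvable group acting faithfully by additive automorphisms on a finite vector space V over the field with p elements, completely reducibly (every G-invariant subspace has a G-invariant complement). Then some vector v ∈ V has stabilizer C_G(v) of derived length at most 9; and if both #G and p are odd, some vector has abelian stabilizer. -/
theorem result {G V : Type*} [Group G] [Finite G] [Group.IsSolvable G]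
    {p : ℕ} [Fact p.Prime] [AddCommGroup V] [Module (ZMod p) V] [Finite V] [DistribMulAction G V] [FaithfulSMul G V]
    (hcr : ∀ W : Submodule (ZMod p) V, (∀ (g : G) (w : V), w ∈ W → g • w ∈ W) →
      ∃ W' : Submodule (ZMod p) V, (∀ (g : G) (w : V), w ∈ W' → g • w ∈ W') ∧ IsCompl W W') :
    (∃ v : V, derivedSeries ↥(MulAction.stabilizer G v) 9 = ⊥) ∧
    (Odd (Nat.card G) → p ≠ 2 → ∃ v : V, IsMulCommutative ↥(MulAction.stabilizer G v)) := by
  have cr : Cfsg.Lib.DL9.CR G V := fun U hU => by
    obtain ⟨W, h1, h2⟩ := hcr (AddSubgroup.toZModSubmodule p U) fun g w hw => hU g w hw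
    refine ⟨W.toAddSubgroup, fun a w hw => h1 a w hw, eq_bot_iff.2 fun v hv => ?_, eq_top_iff.2 fun v _ => ?_⟩
    · exact h2.disjoint.le_bot (show v ∈ AddSubgroup.toZModSubmodule p U ⊓ W from hv)
    · obtain ⟨x, hx, y, hy, rfl⟩ := Submodule.mem_sup.1 (h2.sup_eq_top.ge (Submodule.mem_top (x := v)))
      exact AddSubgroup.add_mem_sup hx hy
  have key : ∀ {d : ℕ} {v : V}, Cfsg.Lib.DL9.Sm V (MulAction.stabilizer G v) d →
      derivedSeries ↥(MulAction.stabilizer G v) d = ⊥ := fun h => Cfsg.Lib.DL9.derived_bot fun a ha =>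
    eq_of_smul_eq_smul fun x : V => by rw [h a ha x, one_smul]
  refine ⟨(Cfsg.Lib.DL9.vec_cr cr fun M hM irr => ?_).imp fun v => key, fun ho hp => ?_⟩
  · letI := Cfsg.Lib.SL.invAct G M hM
    exact Cfsg.Lib.DL9.nine_irr irr
  have hV : ¬ 2 ∣ Nat.card V := by
    haveI := Module.Finite.of_finite (R := ZMod p) (M := V)
    rw [Module.natCard_eq_pow_finrank (K := ZMod p), Nat.card_zmod]
    exact fun h => hp ((Nat.prime_dvd_prime_iff_eq Nat.prime_two Fact.out).1
      (Nat.prime_two.dvd_of_dvd_pow h)).symm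
  obtain ⟨v, hv⟩ := Cfsg.Lib.DL9.vec_cr cr (d := 1) fun M hM irr => by
    letI := Cfsg.Lib.SL.invAct G M hM
    exact Cfsg.Lib.DL9.odd_irr ho.not_two_dvd_nat
      (fun e => hV (e.trans (AddSubgroup.card_addSubgroup_dvd_card M))) irr
  refine ⟨v, ⟨⟨fun a b => ?_⟩⟩⟩
  have h := key hv
  rw [derivedSeries_one] at h
  exact commutatorElement_eq_one_iff_mul_comm.1 (Subgroup.mem_bot.1
    (h ▸ Subgroup.commutator_mem_commutator (Subgroup.mem_top a) (Subgroup.mem_top b)))

end Cfsg.Agent.S4070
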