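import Cfsg.Statements.S4071
import Cfsg.Agent.Lib.HH.Misc
import Cfsg.Agent.Lib.FGS.Misc
import Cfsg.Agent.Lib.Coprime.Gaschutz
import Cfsg.Agent.Lib.Core.Solvable

set_option autoImplicit false
open Cfsg

namespace Cfsg.Agent.S4071

open Subgroup Cfsg.Lib Cfsg.Lib.BG Cfsg.Lib.Transfer Cfsg.Lib.HH

theorem mem_of_fpf {G : Type*} [Group G] [Finite G] {A H : Subgroup G} [hA : A.Normal] (hab : IsMulCommutative A)
    {x : G} (hx : x ∈ H) (hf : ∀ a ∈ A, a ≠ 1 → x * a * x⁻¹ ≠ a) {a : G} (ha : a ∈ A) (hn : a ∈ 𝐍(H)) :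
    a ∈ H := by
  have hc : ∀ a ∈ A, ∀ b ∈ A, a * b = b * a := le_cent_iff.1 (abelian_cent hab)
  have inj : ∀ a ∈ A, ∀ b ∈ A, a * x * a⁻¹ * x⁻¹ = b * x * b⁻¹ * x⁻¹ → a = b := by
    intro a ha b hb e
    by_contra hne
    refine hf (b⁻¹ * a) (A.mul_mem (A.inv_mem hb) ha) (fun h => hne (inv_mul_eq_one.1 h).symm) ?_
    have e1 : a * x * a⁻¹ = b * x * b⁻¹ := mul_right_cancel e
    calc x * (b⁻¹ * a) * x⁻¹ = b⁻¹ * (b * x * b⁻¹) * a * x⁻¹ := by group
      _ = b⁻¹ * a := by rw [← e1]; group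
  let f : ↥(H ⊓ A) → ↥(H ⊓ A) := fun b => ⟨b * x * (b : G)⁻¹ * x⁻¹,
    H.mul_mem (H.mul_mem (H.mul_mem b.2.1 hx) (H.inv_mem b.2.1)) (H.inv_mem hx), by
      have := A.mul_mem b.2.2 (hA.conj_mem _ (A.inv_mem b.2.2) x)
      show _ ∈ A
      simpa only [mul_assoc] using this⟩
  have hinj : Function.Injective f := fun b c e =>
    Subtype.ext (inj _ b.2.2 _ c.2.2 (congrArg Subtype.val e))
  obtain ⟨b, hb⟩ := Finite.surjective_of_injective hinj ⟨a * x * a⁻¹ * x⁻¹,
    H.mul_mem (conj_mem_of_norm hn hx) (H.inv_mem hx), by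
      have := A.mul_mem ha (hA.conj_mem _ (A.inv_mem ha) x)
      show _ ∈ A
      simpa only [mul_assoc] using this⟩
  rw [← inj _ b.2.2 _ ha (congrArg Subtype.val hb)]
  exact b.2.1

/-- Let G be a finite solvable non-nilpotent group. Every non-abelian subgroup of G is self-normalizing if and only if G is a semidirect product ⟨x⟩ ⋉ A in which ⟨x⟩ is a p-group for some prime p, A is a normal abelian subgroup of order prime to p, x^p is central in G, and x acts fixed-point-freely on A (no non-identity element of A commutes with x). -/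
theorem result {G : Type*} [Group G] [Finite G]
    [Group.IsSolvable G] (hnn : ¬ Group.IsNilpotent G) :
    (∀ H : Subgroup G, ¬ IsMulCommutative H → Subgroup.normalizer (H : Set G) = H) ↔
    ∃ (x : G) (A : Subgroup G) (p : ℕ), p.Prime ∧ A.Normal ∧ IsMulCommutative A ∧ (∃ k : ℕ, orderOf x = p ^ k) ∧
      ¬ p ∣ Nat.card A ∧ (Subgroup.zpowers x).IsComplement' A ∧ x ^ p ∈ Subgroup.center G ∧
      ∀ a : G, a ∈ A → a ≠ 1 → x * a * x⁻¹ ≠ a := by
  classical
  constructor
  · intro h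
    haveI : Nontrivial G := by
      by_contra hc
      rw [not_nontrivial_iff_subsingleton] at hc
      exact hnn inferInstance
    obtain ⟨M, hMn, hp⟩ := Core.exists_normal_index_prime (G := G)
    obtain ⟨p, hpM⟩ : ∃ p, M.index = p := ⟨_, rfl⟩
    have hco := FGS.isCoatom_of_index_prime hp
    rw [hpM] at hp
    haveI := Fact.mk hp
    have hMab : IsMulCommutative M := by
      by_contra hc
      have := h M hc
      rw [normalizer_eq_top] at this
      exact hco.1 this.symm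
    have hA := nil_pcore_Hall (abelian_nil hMab) {p}ᶜ
    have hAn : Nml 𝐎({p}ᶜ, M) ⊤ := (Nml.top_iff.2 hMn).pcore _
    generalize 𝐎({p}ᶜ, M) = A at hA hAn
    haveI := Nml.top_iff.1 hAn
    have hA' : Hall {p}ᶜ A ⊤ := hA.trans_idx le_top (by
      rw [compl_compl, relIndex_top_right, hpM]; exact PiNat.of_prime hp rfl)
    obtain ⟨P, hP⟩ := Syl.exists (p := p) (⊤ : Subgroup G)
    have hsd : SD A P ⊤ := hA'.sd hAn.norm (by rwa [compl_compl])
    obtain ⟨x, hxP, hxM⟩ : ∃ x ∈ P, x ∉ M := by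
      by_contra hc
      push Not at hc
      exact not_dvd_relIndex_of_syl_le hP hc (by rw [relIndex_top_right, hpM])
    have hAab := abelian_of_le hMab hA.le
    have hxA : zpowers x ≤ 𝐍(A) := le_top.trans hAn.norm
    have hcop : (Nat.card (zpowers x)).Coprime (Nat.card A) :=
      (hA.pi.coprime_pgroup (pgroup_of_le hP.pgroup (zpowers_le.2 hxP))).symm
    have hnc : ¬ zpowers x ≤ 𝐂(A) := by
      intro hc
      have h1 : M ⊔ zpowers x = ⊤ := hco.2 _ (left_lt_sup.2 fun h => hxM (h (mem_zpowers x)))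
      have h2 : (⊤ : Subgroup G) ≤ 𝐂(A) := h1 ▸ sup_le (abelian_cent' hMab le_rfl hA.le) hc
      have := (DP.of_sd hsd (cent_symm (le_top.trans h2))).nil (abelian_nil hAab) hP.nil
      exact hnn (Group.nilpotent_of_mulEquiv topEquiv)
    have hPx : zpowers x = P := by
      have hK : 𝐍(A ⊔ zpowers x) = A ⊔ zpowers x := h _ fun hc =>
        hnc (abelian_cent' hc le_sup_right le_sup_left)
      by_contra hne
      have hlt := lt_inf_normalizer_of_lt hP.pgroup (lt_of_le_of_ne (zpowers_le.2 hxP) hne)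
      apply hlt.not_ge
      have h1 : P ⊓ 𝐍(zpowers x) ≤ (A ⊔ zpowers x) ⊓ P :=
        le_inf (hK ▸ norm_sup (le_top.trans hAn.norm) inf_le_right) inf_le_left
      rwa [modular_right (zpowers_le.2 hxP) hxA, hsd.inf, bot_sup_eq] at h1
    have hxp : x ^ p ∈ M := hpM ▸ M.pow_index_mem x
    refine ⟨x, A, p, hp, inferInstance, hAab, pElt_iff_orderOf.1 (pElt_of_mem hP.pgroup hxP),
      PiGrp.p'_iff.1 hA.pi, ?_, ?_, ?_⟩
    · rw [hPx]
      exact (Core.isComplement'_of_inf_eq_bot hsd.inf hsd.sup).symm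
    · have : (⊤ : Subgroup G) ≤ 𝐂[x ^ p] := by
        rw [← hsd.sup, ← hPx]
        exact sup_le (le_cent1_iff.2 (abelian_cent' hMab le_rfl hA.le hxp))
          (zpowers_le.2 (cent1_le_cent1_pow x p (self_mem_cent1 x)))
      exact mem_center_iff.2 fun g => mem_cent1.1 (this (mem_top g))
    · intro a ha h1 e
      have hac : a ∈ 𝐂(zpowers x) := by
        rw [cent_zpowers, mem_cent1]
        exact (mul_inv_eq_iff_eq_mul.1 e).symm
      have hle : ⁅A, zpowers x⁆ ≤ A := comm_le_left hxA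
      have hH : 𝐍(⁅A, zpowers x⁆ ⊔ zpowers x) = ⁅A, zpowers x⁆ ⊔ zpowers x := h _ fun hc => by
        have := coprime_commGid hxA hcop
        rw [comm_eq_bot_iff.2 (abelian_cent' hc le_sup_left le_sup_right)] at this
        exact hnc (comm_eq_bot_iff'.1 this.symm)
      have h2 : a ∈ (⁅A, zpowers x⁆ ⊔ zpowers x) ⊓ A := by
        refine ⟨hH ▸ cent_le_norm _ ?_, ha⟩
        rw [cent_sup]
        exact ⟨abelian_cent' hAab le_rfl hle ha, hac⟩
      rw [modular_left hle (right_norm_comm _ _), inf_comm (zpowers x), hPx, hsd.inf, sup_bot_eq,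
        ← hPx] at h2
      have := Coprime.centralizer_inf_commutator_eq_bot hAab hxA hcop
      exact h1 (mem_bot.1 (this ▸ (⟨hac, h2⟩ : a ∈ 𝐂(zpowers x) ⊓ ⁅A, zpowers x⁆)))
  · rintro ⟨x, A, p, hp, hAn, hAab, hx, hpA, hc, hz, hf⟩ H hH
    haveI := Fact.mk hp
    have hxp : IsPGroup p (zpowers x) := pgroup_zpowers (pElt_iff_orderOf.2 hx)
    have hsd : SD A (zpowers x) ⊤ := SD.mk' (Nml.top_iff.2 hAn) le_top
      (by rw [inf_comm]; exact hc.disjoint.eq_bot) (by rw [sup_comm, hc.sup_eq_top])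
    obtain ⟨hA, hP⟩ := Hall.of_sd (π := {p}ᶜ) hsd (PiGrp.p'_iff.2 hpA) (by
      rw [compl_compl]; exact PiGrp.p_iff.2 hxp)
    rw [compl_compl] at hP
    obtain ⟨Q, hQ⟩ := Syl.exists (p := p) H
    obtain ⟨g, -, hg⟩ := Syl.exists_conj_le hP hQ.pgroup le_top
    suffices 𝐍(g ⋆ H) = g ⋆ H by
      rwa [← conj_normalizer, conj_inj] at this
    have hQ' := hQ.conj g
    have hH' : ¬ IsMulCommutative ↥(g ⋆ H) := by rwa [abelian_conj]
    generalize g ⋆ H = K at hQ' hH'
    generalize g ⋆ Q = R at hQ' hg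
    have hxK : x ∈ K := by
      by_contra hxK
      apply hH'
      have h1 : R ≤ zpowers (x ^ p) := by
        intro y hy
        by_contra hn
        obtain ⟨k, rfl⟩ := (mem_zpowers_iff_mem_range_orderOf.1 (hg hy) |> Finset.mem_image.1 |>
          fun ⟨k, _, e⟩ => (⟨k, e⟩ : ∃ k : ℕ, x ^ k = y))
        have hk : ¬ p ∣ k := by
          rintro ⟨j, rfl⟩
          exact hn (by rw [pow_mul]; exact pow_mem (mem_zpowers _) j)
        obtain ⟨n, hn⟩ := hx
        apply hxK
        refine zpowers_le.2 (hQ'.le hy) (mem_zpowers_pow_iff.2 ?_)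
        rw [hn]
        exact Nat.Coprime.pow_right n ((Nat.Prime.coprime_iff_not_dvd hp).2 hk).symm
      have h2 : (A ⊓ K) ⊔ R = K := hQ'.sup_eq inf_le_right (by
        have := (hA.inf_of_normal hsd.nml.norm (K := K) le_top).idx
        rwa [compl_compl] at this)
      have h3 : IsMulCommutative ↥(A ⊔ zpowers (x ^ p)) :=
        abelian_sup hAab inferInstance (by
          rw [cent_zpowers]
          exact fun a _ => mem_cent1.2 (mem_center_iff.1 hz a))
      exact abelian_of_le h3 (h2 ▸ sup_le_sup inf_le_left h1)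
    refine le_antisymm (fun y hy => ?_) (le_norm K)
    obtain ⟨a, ha, z, hz, rfl⟩ := hsd.mem (mem_top y)
    have hzK : z ∈ K := zpowers_le.2 hxK hz
    exact K.mul_mem (mem_of_fpf hAab hxK hf ha
      ((𝐍(K)).mul_mem_cancel_right (le_norm K hzK) |>.1 hy)) hzK

end Cfsg.Agent.S4071
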