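import Cfsg.Statements.S4073
import Cfsg.Agent.Lib.OddChar.AbCent
import Cfsg.Agent.S0205
import Cfsg.Agent.Lib.PSL2.Maximal

set_option autoImplicit false
open Cfsg

namespace Cfsg.Agent.S4073

section
open Subgroup MulAction Lib.Inv Lib.Transfer Lib.PSL2 Lib.OddChar
open scoped MatrixGroups

theorem comm_of {G : Type*} [Group G] {H : Subgroup G} (h : IsMulCommutative H) (a : G) (ha : a ∈ H)
    (b : G) (hb : b ∈ H) : a * b = b * a :=
  congrArg Subtype.val (h.is_comm.comm ⟨a, ha⟩ ⟨b, hb⟩)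

/-- Every non-abelian subgroup is self-normalizing. -/
def SN (G : Type*) [Group G] : Prop :=
  ∀ H : Subgroup G, ¬ IsMulCommutative H → normalizer (H : Set G) = H

theorem SN.of_equiv {G G' : Type*} [Group G] [Group G'] (h : SN G) (e : G ≃* G') : SN G' := by
  intro H hH
  refine le_antisymm (fun g hg => ?_) le_normalizer
  have := (h (H.comap e.toMonoidHom) fun hc => hH ⟨⟨fun a b => Subtype.ext (e.symm.injective ?_)⟩⟩).le
    (le_normalizer_comap _ (show e.symm g ∈ (normalizer (H : Set G')).comap e.toMonoidHom by simpa))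
  · simpa using this
  · simpa using comm_of hc (e.symm a) (by simp) (e.symm b) (by simp)

theorem SN.normal {G : Type*} [Group G] (h : SN G) (K : Subgroup G) (N : Subgroup K) (hN : N.Normal)
    (h1 : N ≠ ⊤) (a : K) (ha : a ∈ N) (b : K) (hb : b ∈ N) : a * b = b * a := by
  by_contra hn
  refine h1 (eq_top_iff.2 fun g _ => ?_)
  have := (h (N.map K.subtype) fun hc => hn (Subtype.ext (comm_of hc
    _ (mem_map_of_mem _ ha) _ (mem_map_of_mem _ hb)))).le
      (le_normalizer_map K.subtype (mem_map_of_mem _ ((normalizer_eq_top N).ge (mem_top g))))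
  exact (mem_map_iff_mem K.subtype_injective).1 this

variable {G : Type*} [Group G] [Finite G]

theorem npc (h : ∀ N : Subgroup G, N.Normal → N ≠ ⊤ → ∀ a ∈ N, ∀ b ∈ N, a * b = b * a)
    (h1 : pResidual 2 G ≠ ⊤) : HasNormalPComplement 2 G :=
  hasNormalPComplement_iff_mul.2 fun a b ha hb => Nat.Coprime.coprime_dvd_left
    (Commute.orderOf_mul_dvd_mul_orderOf (h _ pResidual_normal h1 a (mem_pResidual_of_coprime ha) b
      (mem_pResidual_of_coprime hb))) (Nat.Coprime.mul_left ha hb)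

theorem comm_of_central (h : ∀ N : Subgroup G, N.Normal → N ≠ ⊤ → ∀ a ∈ N, ∀ b ∈ N, a * b = b * a)
    (P : Sylow 2 G) [IsMulCommutative P] (hP : ¬ IsCyclic P) {t : G} (ht : orderOf t = 2)
    (htP : t ∈ (P : Subgroup G)) (hZ : t ∈ center G) (a b : G) : a * b = b * a := by
  have h1 : pResidual 2 G ≠ ⊤ := fun e => ne_one_of_orderOf ht (mem_bot.1
    ((inf_commutator_inf_center_eq_bot_of_abelian_hall _ P.card_coprime_index).le
      ⟨⟨htP, pResidual_inf_le_commutator P ⟨e.ge (mem_top t), htP⟩⟩, hZ⟩))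
  have h2 := (hasNormalPComplement_iff_pResidual_inf_sylow P).1 (npc h h1)
  have h3 : ∀ s ∈ (P : Subgroup G), ∀ u ∈ pResidual 2 G, s * u = u * s := fun s hs u hu => by
    refine h (pResidual 2 G ⊔ zpowers s) (Normal.of_commutator_le G
      ((commutator_le_pResidual_of_abelian P).trans le_sup_left)) (fun e => hP ?_) s
      (mem_sup_right (mem_zpowers s)) u (mem_sup_left hu)
    refine (Subgroup.isCyclic_iff_exists_zpowers_eq_top _).2 ⟨s, le_antisymm (zpowers_le.2 hs) fun x hx => ?_⟩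
    obtain ⟨y, hy, z, hz, rfl⟩ := mem_sup_of_normal_left.1 (e.ge (mem_top x))
    have : y = 1 := mem_bot.1 (h2.le ⟨hy, (mul_mem_cancel_right (zpowers_le.2 hs hz)).1 hx⟩)
    rwa [this, one_mul]
  obtain ⟨u, hu, s, hs, rfl⟩ := mem_sup_of_normal_left.1 ((pResidual_sup_sylow P).ge (mem_top a))
  obtain ⟨v, hv, r, hr, rfl⟩ := mem_sup_of_normal_left.1 ((pResidual_sup_sylow P).ge (mem_top b))
  exact Commute.mul_left (Commute.mul_right (h _ pResidual_normal h1 u hu v hv) (h3 r hr u hu).symm)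
    (Commute.mul_right (h3 s hs v hv) (comm_of inferInstance s hs r hr))

theorem SN.sylow_comm (h : SN G) (hn : ¬ HasNormalPComplement 2 G) :
    ∃ P : Sylow 2 G, IsMulCommutative P := by
  rw [← hasNormalPComplement_top_iff, hasNormalPComplement_subgroup_iff] at hn
  push Not at hn
  obtain ⟨Q₀, -, h0, g, -, h1, h2, h3⟩ := hn
  obtain ⟨Q, -, ⟨hQ, hg, hgC⟩, hmax⟩ := Finite.exists_le_maximal (p := fun Q : Subgroup G =>
    IsPGroup 2 Q ∧ g ∈ normalizer (Q : Set G) ∧ g ∉ centralizer (Q : Set G)) ⟨h0, h1, h3⟩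
  have hg1 : ∀ n, g ^ 2 ^ n ≠ 1 := fun n e => hgC (by
    rw [orderOf_eq_one_iff.1 ((h2.pow_right n).eq_one_of_dvd (orderOf_dvd_of_pow_eq_one e))]
    exact one_mem _)
  have hc : IsMulCommutative Q := by_contra fun hc => by
    obtain ⟨n, hn⟩ := hQ ⟨g, (h Q hc).le hg⟩
    exact hg1 n (congrArg Subtype.val hn)
  have hQC : Q ≤ centralizer (Q : Set G) := le_centralizer Q
  set K := normalizer (Q : Set G)
  have hC : ∀ a ∈ centralizer (Q : Set G), ∀ b ∈ centralizer (Q : Set G), a * b = b * a :=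
    fun a ha b hb => congrArg Subtype.val (h.normal K ((centralizer (Q : Set G)).subgroupOf K)
      inferInstance (fun e => hgC (e.ge (mem_top (⟨g, hg⟩ : K))))
        ⟨a, centralizer_le_normalizer _ ha⟩ ha ⟨b, centralizer_le_normalizer _ hb⟩ hb)
  have key : ∀ c ∈ centralizer (Q : Set G), ∀ n, c ^ 2 ^ n = 1 → c ∈ Q := by
    let R : Subgroup G :=
      { carrier := {c | c ∈ centralizer (Q : Set G) ∧ ∃ n, c ^ 2 ^ n = 1}
        mul_mem' := fun {a b} ⟨ha, m, hm⟩ ⟨hb, n, hn⟩ => ⟨mul_mem ha hb, m + n, by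
          rw [Commute.mul_pow (hC a ha b hb), pow_add, pow_mul, hm, one_pow, one_mul, mul_comm,
            pow_mul, hn, one_pow]⟩
        one_mem' := ⟨one_mem _, 0, one_pow _⟩
        inv_mem' := fun {a} ⟨ha, m, hm⟩ => ⟨inv_mem ha, m, by rw [inv_pow, hm, inv_one]⟩ }
    have hQR : Q ≤ R := fun a ha => ⟨hQC ha, (hQ ⟨a, ha⟩).imp fun _ e => congrArg Subtype.val e⟩
    intro c hc n hn
    refine hmax (y := R) ⟨fun a => a.2.2.imp fun _ e => Subtype.ext e,
      mem_normalizer_of_conj_le (conj_le_iff.2 fun x hx => ⟨?_, hx.2.imp fun m e => ?_⟩),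
      fun e => hgC (centralizer_le hQR e)⟩ hQR ⟨hc, n, hn⟩
    · exact (normal_subgroupOf_iff (centralizer_le_normalizer _)).1 inferInstance x g hx.1 hg
    · rw [conj_pow, e]; group
  obtain ⟨P, hP⟩ := hQ.exists_le_sylow
  by_contra! hn
  obtain ⟨s, ⟨hsP, hsK⟩, hsQ⟩ := SetLike.exists_of_lt
    (lt_inf_normalizer_of_lt P.isPGroup' (lt_of_le_of_ne hP fun e => hn P (e ▸ hc)))
  obtain ⟨n, hs⟩ := P.isPGroup' ⟨s, hsP⟩
  have hsC : s ∉ centralizer (Q : Set G) := fun e => hsQ (key s e n (congrArg Subtype.val hs))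
  have hA : Q ⊔ zpowers s = P := by
    by_contra hne
    refine (lt_inf_normalizer_of_lt P.isPGroup' (lt_of_le_of_ne (sup_le hP (zpowers_le.2 hsP))
      hne)).not_ge (inf_le_right.trans (h _ fun hc' => hsC (mem_centralizer_iff.2 fun y hy => ?_)).le)
    exact comm_of hc' y (mem_sup_left hy) s (mem_sup_right (mem_zpowers s))
  have hPK : (P : Subgroup G) ≤ K := hA ▸ sup_le le_normalizer (zpowers_le.2 hsK)
  let f := QuotientGroup.mk' ((centralizer (Q : Set G)).subgroupOf K)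
  let T := (P.subtype hPK).mapSurjective (QuotientGroup.mk'_surjective _ : Function.Surjective f)
  have hsT : f ⟨s, hsK⟩ ∈ (T : Subgroup _) := mem_map_of_mem f hsP
  have hT : zpowers (f ⟨s, hsK⟩) = T := le_antisymm (zpowers_le.2 hsT) (by
    rintro _ ⟨x, hx, rfl⟩
    obtain ⟨y, hy, k, e⟩ := (Lib.PGroup.mem_sup_zpowers_iff hsK).1 (hA.ge hx)
    refine ⟨k, ?_⟩
    have e1 : x = ⟨y, le_normalizer hy⟩ * ⟨s, hsK⟩ ^ k := Subtype.ext e
    have e2 : f ⟨y, le_normalizer hy⟩ = 1 := (QuotientGroup.eq_one_iff _).2 (hQC hy)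
    change _ = f x
    simp only [e1, map_mul, e2, one_mul, map_zpow])
  obtain ⟨t, -, ht⟩ := exists_involution_mem_of_isPGroup T.isPGroup' fun e =>
    hsC ((QuotientGroup.eq_one_iff (⟨s, hsK⟩ : K)).1 (mem_bot.1 (e ▸ hsT)))
  obtain ⟨N, hN⟩ := exists_index_two_of_isCyclic (even_iff_two_dvd.2 (ht ▸ orderOf_dvd_natCard t)) T
    (hT ▸ inferInstance)
  exact hgC (hasNormalPComplement_subgroup_iff.1 (npc (h.normal K) fun e =>
    Lib.Inv.pResidual_two_eq_top_iff.1 e (N.comap f)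
      ((index_comap_of_surjective N (QuotientGroup.mk'_surjective _)).trans hN))
    Q le_normalizer hQ g hg hg h2)

theorem SN.equiv_psl [IsSimpleGroup G] (h : SN G) (hna : ¬ IsMulCommutative G) :
    ∃ n : ℕ, 2 ≤ n ∧ Nonempty (G ≃* PSL(2, GaloisField 2 n)) := by
  have he : Even (Nat.card G) := Nat.not_odd_iff_even.1 fun ho =>
    hna ⟨⟨IsSimpleGroup.comm_iff_isSolvable.2 (Lib.PF.isSolvable_of_odd G ho)⟩⟩
  have hn : ¬ HasNormalPComplement 2 G := fun hn => by
    obtain ⟨N, hN⟩ := exists_index_two_of_hasNormalPComplement he hn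
    rcases (N.normal_of_index_eq_two hN).eq_bot_or_eq_top with e | e
    · rw [e, index_bot] at hN
      have := isCyclic_of_prime_card (p := 2) hN
      exact hna inferInstance
    · simp [e] at hN
  obtain ⟨P₀, h0⟩ := h.sylow_comm hn
  refine equiv_psl_of_abCent hna he fun t a b ht ha hb => ?_
  obtain ⟨P, hP⟩ := (isPGroup_zpowers_of_mul_self (mul_self_of_orderOf ht)).exists_le_sylow
  have hc : IsMulCommutative P := ⟨⟨fun x y => (P.equiv P₀).injective (by
    rw [map_mul, map_mul, h0.is_comm.comm])⟩⟩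
  have hPC : (P : Subgroup G) ≤ centralizer {t} := fun x hx => mem_centralizer_singleton.2
    (comm_of hc x hx t (hP (mem_zpowers t)))
  have : IsMulCommutative (P.subtype hPC) := ⟨⟨fun x y => Subtype.ext (Subtype.ext
    (comm_of hc _ x.2 _ y.2))⟩⟩
  exact congrArg Subtype.val (comm_of_central (h.normal (centralizer {t})) (P.subtype hPC)
    (fun e => hn (hasNormalPComplement_of_isCyclic P ((subgroupOfEquivOfLe hPC).isCyclic.1 e)))
    (t := ⟨t, mem_centralizer_singleton.2 rfl⟩) (by rwa [← orderOf_coe]) (hP (mem_zpowers t))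
    (mem_center_iff.2 fun x => Subtype.ext (mem_centralizer_singleton.1 x.2))
    ⟨a, mem_centralizer_singleton.2 ha⟩ ⟨b, mem_centralizer_singleton.2 hb⟩)

variable {F : Type*} [Field F] [Finite F]

theorem SN.prime (h : SN PGL(2, F)) (h4 : 4 ≤ Nat.card F) : (Nat.card F - 1).Prime := by
  have : Nontrivial Fˣ := Finite.one_lt_card_iff_nontrivial.1 (by rw [Nat.card_units]; omega)
  have : IsSimpleGroup Fˣ := ⟨fun R _ => or_iff_not_imp_left.2 fun hR => eq_top_iff.2 fun a _ => by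
    obtain ⟨r, hr, h1⟩ := R.bot_or_exists_ne_one.resolve_left hR
    by_contra ha
    have := h.normal _ (R.comap multInf) inferInstance
      (fun e => ha (multInf_eq (g := ⟨aff a 0, aff_smul_inf a 0⟩) rfl ▸
        mem_comap.1 (e.ge (mem_top _))))
      ⟨aff r 0, aff_smul_inf r 0⟩ (mem_comap.2 (by rwa [multInf_eq rfl]))
      ⟨aff 1 1, aff_smul_inf 1 1⟩ (mem_comap.2 (by rw [multInf_eq rfl]; exact one_mem _))
    have := congrArg Subtype.val this
    simp only [coe_mul, aff_mul, aff_inj] at this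
    exact h1 (Units.ext (by simpa using this.2))⟩
  exact Nat.card_units F ▸ IsSimpleGroup.prime_card

theorem sn_dih [CharP F 2] {a b : P1 (AlgebraicClosure F)} (hab : a ≠ b) {H : Subgroup PGL(2, F)}
    (hH : H ≤ dih F a b) (hn : ¬ IsMulCommutative H) : normalizer (H : Set PGL(2, F)) ≤ H := by
  have hc := isCyclic_torus (F := F) hab
  have hodd : ∀ g ∈ torus F a b, Odd (orderOf g) := fun g hg =>
    Nat.coprime_two_right.1 (coprime_orderOf_of_mem_torus 2 hab hg)
  have hsw : ∀ x ∈ dih F a b, ∀ y ∈ dih F a b, x ∉ torus F a b → y ∉ torus F a b →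
      x * y ∈ torus F a b := fun x hx y hy h1 h2 => mem_torus.2 (by
    rw [map_mul]
    exact mul_mem_fix2_of_swap (swap_of_mem_pairStab hx h1) (swap_of_mem_pairStab hy h2))
  obtain ⟨s, hs, hsT⟩ : ∃ s ∈ H, s ∉ torus F a b := by
    by_contra! e
    exact hn ⟨⟨fun x y => Subtype.ext (commute_of_mem_torus hab (e _ x.2) (e _ y.2))⟩⟩
  have hA : H ⊓ torus F a b ≠ ⊥ := fun e => by
    have h1 : ∀ x ∈ H, x = 1 ∨ x = s⁻¹ := fun x hx => (em (x ∈ torus F a b)).imp
      (fun h => mem_bot.1 (e.le ⟨hx, h⟩)) fun h => eq_inv_of_mul_eq_one_left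
        (mem_bot.1 (e.le ⟨mul_mem hx hs, hsw x (hH hx) s (hH hs) h hsT⟩))
    refine hn ⟨⟨fun x y => Subtype.ext ?_⟩⟩
    rcases h1 x x.2 with e1 | e1 <;> rcases h1 y y.2 with e2 | e2 <;> simp [e1, e2]
  have key : ∀ g ∈ normalizer (H : Set PGL(2, F)), g ∈ torus F a b → g ∈ H := fun g hg hT => by
    by_cases h1 : g * g = 1
    · exact eq_one_of_odd_of_mul_self (hodd g hT) h1 ▸ one_mem _
    rcases conj_eq_or_eq_inv_of_comap toK_injective hab (mem_dih.1 (hH hs)) (mem_torus.1 hT)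
      with e | e
    · exact absurd ((centralizer_of_mem_torus hab hT h1).le
        (mem_centralizer_singleton.2 (mul_inv_eq_iff_eq_mul.1 e))) hsT
    · obtain ⟨k, hk⟩ := exists_sq_pow_eq_of_odd (hodd g hT)
      have h2 := mul_mem ((mem_normalizer_iff.1 hg s).1 hs) (inv_mem hs)
      rw [show g * s * g⁻¹ * s⁻¹ = g * (s * g * s⁻¹)⁻¹ by group, e, inv_inv] at h2
      exact hk ▸ pow_mem h2 k
  intro g hg
  have h1 : g ∈ dih F a b := (normalizer_of_le_torus hab inf_le_right hA).le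
    (mem_normalizer_of_conj_le (conj_le_iff.2 fun x hx => by
      have h2 := (mem_normalizer_iff.1 hg x).1 hx.1
      refine ⟨h2, by_contra fun h3 => h3 ?_⟩
      obtain ⟨k, hk⟩ := exists_sq_pow_eq_of_odd ((orderOf_conj' g x).symm ▸ hodd x hx.2)
      exact hk ▸ pow_mem (hsw _ (hH h2) _ (hH h2) h3 h3) k))
  by_cases h2 : g ∈ torus F a b
  · exact key g hg h2
  · exact (mul_mem_cancel_right hs).1
      (key _ (mul_mem hg (le_normalizer hs)) (hsw g h1 s (hH hs) h2 hsT))

theorem sn_stab (hp : (Nat.card F - 1).Prime) {x : P1 F} {H : Subgroup PGL(2, F)}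
    (hH : H ≤ stabilizer PGL(2, F) x) (hn : ¬ IsMulCommutative H) :
    normalizer (H : Set PGL(2, F)) ≤ H := by
  have h1 : H ⊓ unip x ≠ ⊥ := fun e => by
    have := isCyclic_of_le_stabilizer hH e
    exact hn inferInstance
  have h2 : Nat.card (multOn hH).range = Nat.card F - 1 := (hp.eq_one_or_self_of_dvd _
    (Nat.card_units F ▸ card_subgroup_dvd_card _)).resolve_left fun e => hn ⟨⟨fun a b =>
      Subtype.ext (commute_of_mem_unip
        ((multOn_eq_one_iff hH a).1 (mem_bot.1 ((card_eq_one.1 e).le ⟨a, rfl⟩)))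
        ((multOn_eq_one_iff hH b).1 (mem_bot.1 ((card_eq_one.1 e).le ⟨b, rfl⟩))))⟩⟩
  have h3 := (one_lt_card_iff_ne_bot _).2 h1
  have h4 := Nat.le_of_dvd (by omega) ((card_range_multOn_dvd hH).resolve_right h1)
  have h5 : H = stabilizer PGL(2, F) x := eq_of_le_of_card_ge hH (by
    rw [card_stabilizer_pgl, card_eq_card_unip_mul hH, h2]
    exact Nat.mul_le_mul_right _ (by omega))
  intro g hg
  obtain ⟨u, hu, hu1⟩ := (bot_or_exists_ne_one _).resolve_left h1
  have h6 : (g⁻¹ * u * g) • x = x := hH ((mem_normalizer_iff''.1 hg u).1 hu.1)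
  rw [mul_smul, mul_smul, inv_smul_eq_iff] at h6
  exact h5.ge (eq_of_mem_unip hu.2 hu1 h6)

theorem sn_pgl [CharP F 2] {n : ℕ} (hF : Nat.card F = 2 ^ n) (hp : (2 ^ n - 1).Prime) :
    SN PGL(2, F) := by
  intro H hH
  refine le_antisymm ?_ le_normalizer
  rcases dickson_pgl (AlgebraicClosure F) 2 H with ⟨x, h⟩ | ⟨a, b, m, h1, h⟩ | ⟨h1, h⟩ | ⟨h, -⟩ |
    ⟨x, -, h⟩
  · exact sn_stab (hF ▸ hp) h hH
  · exact sn_dih h1.ne h hH
  · rcases card_of_equiv_exceptional h with e | e | e <;> rw [e] at h1 <;> norm_num at h1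
  · norm_num at h
  obtain ⟨k, _, -, h⟩ := h.exists_equiv
  have hk : ¬ Odd (Nat.card k) := by
    rw [odd_card_of_map k.subtype, hF, Nat.not_odd_iff_even, Nat.even_pow]
    exact ⟨even_two, by rintro rfl; exact absurd hp (by norm_num)⟩
  have h1 : Nat.card H = Nat.card k * (Nat.card k ^ 2 - 1) := by
    obtain ⟨e⟩ := h.elim (fun ⟨e⟩ => (equiv_psl_pgl_of_even hk).map e.trans) id
    rw [Nat.card_congr e.toEquiv, card_PGL2]
  by_cases h2 : k = ⊤
  · rw [h2, Nat.card_congr Subfield.topEquiv.toEquiv, ← card_PGL2] at h1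
    exact (card_eq_iff_eq_top H).1 h1 ▸ le_top
  obtain ⟨j, hj, e⟩ := exists_card_eq_pow_of_ne_top h2
  obtain ⟨i, hi, e1⟩ := exists_card_eq_pow (F := k) 2
  rw [hF, e1, ← pow_mul, Nat.pow_right_inj one_lt_two] at e
  have h3 : i = 1 := ((Nat.prime_of_pow_sub_one_prime (by rintro rfl; nlinarith) hp).2.eq_one_or_self_of_dvd
    i ⟨j, e⟩).resolve_right fun e2 => by rw [← e2] at e; nlinarith
  rw [e1, h3] at h1
  obtain ⟨P⟩ : Nonempty (Sylow 3 H) := inferInstance
  have h4 : Nat.card P = 3 := by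
    rw [P.card_eq_multiplicity, h1, Nat.factorization_def _ Nat.prime_three]
    decide +kernel
  have h5 : (P : Subgroup H).index = 2 := by
    have := (P : Subgroup H).card_mul_index
    rw [h4, h1] at this
    omega
  have h6 : Nat.card ((P : Subgroup H).map H.subtype) = 3 := (card_subtype _ _).trans h4
  obtain ⟨a, b, m, h7, h8⟩ := exists_le_torus_of_odd (AlgebraicClosure F) 2
    (H := (P : Subgroup H).map H.subtype) (by rw [h6]; norm_num) (by rw [h6]; norm_num)
  refine sn_dih h7.ne (fun g hg => (normalizer_of_le_torus h7.ne h8 fun e => by simp [e] at h6).le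
    ?_) hH
  have := (P : Subgroup H).normal_of_index_eq_two h5
  exact le_normalizer_map H.subtype (mem_map_of_mem _ ((normalizer_eq_top _).ge (mem_top (⟨g, hg⟩ : H))))

end

/-- Let G be a finite non-abelian simple group. Every non-abelian subgroup of G is self-normalizing if and only if G is isomorphic to PSL₂(2ⁿ) for some n ≥ 2 with 2ⁿ − 1 prime (this includes the alternating group of degree 5 as PSL₂(4)). -/
theorem result {G : Type*} [Group G] [Finite G] [IsSimpleGroup G]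
    (hna : ¬ IsMulCommutative G) :
    (∀ H : Subgroup G, ¬ IsMulCommutative H → Subgroup.normalizer (H : Set G) = H) ↔
    ∃ n : ℕ, 2 ≤ n ∧ (2 ^ n - 1).Prime ∧ Nonempty (G ≃* Matrix.ProjectiveSpecialLinearGroup (Fin 2) (GaloisField 2 n)) := by
  have key : ∀ n, 2 ≤ n → ¬ Odd (Nat.card (GaloisField 2 n)) := fun n hn => by
    rw [GaloisField.card 2 n (by omega), Nat.not_odd_iff_even, Nat.even_pow]
    exact ⟨even_two, by omega⟩
  constructor
  · intro h
    obtain ⟨n, hn, ⟨e⟩⟩ := SN.equiv_psl h hna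
    obtain ⟨e'⟩ := Lib.PSL2.equiv_psl_pgl_of_even (key n hn)
    have hK := GaloisField.card 2 n (by omega)
    exact ⟨n, hn, hK ▸ (SN.of_equiv h (e.trans e')).prime
      (hK ▸ (Nat.pow_le_pow_right two_pos hn : 2 ^ 2 ≤ 2 ^ n)), ⟨e⟩⟩
  · rintro ⟨n, hn, hp, ⟨e⟩⟩
    obtain ⟨e'⟩ := Lib.PSL2.equiv_psl_pgl_of_even (key n hn)
    exact (sn_pgl (GaloisField.card 2 n (by omega)) hp).of_equiv (e.trans e').symm

end Cfsg.Agent.S4073
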