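import Cfsg.Statements.S4075
import Cfsg.Agent.Lib.FGS.Count

set_option autoImplicit false
open Cfsg

namespace Cfsg.Agent.S4075

/-- Let G be a finite nilpotent group. Every non-abelian subgroup of G is self-normalizing if and only if G is abelian or G is a minimal non-abelian p-group for some prime p (non-abelian of prime-power order with every proper subgroup abelian). -/
theorem result {G : Type*} [Group G] [Finite G]
    [Group.IsNilpotent G] :
    (∀ H : Subgroup G, ¬ IsMulCommutative H → Subgroup.normalizer (H : Set G) = H) ↔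
    (IsMulCommutative G ∨ (IsPrimePow (Nat.card G) ∧ ¬ IsMulCommutative G ∧ ∀ H : Subgroup G, H ≠ ⊤ → IsMulCommutative H)) := by
  open Cfsg.Lib Cfsg.Lib.FGS Cfsg.Lib.Transfer Subgroup in
  constructor
  · intro h
    have h1 : ∀ H : Subgroup G, H ≠ ⊤ → IsMulCommutative H := fun H hH => by
      by_contra hc
      exact (Group.normalizerCondition_of_isNilpotent H hH.lt_top).ne' (h H hc)
    refine or_iff_not_imp_left.mpr fun hna => ⟨?_, hna, h1⟩
    have : Nontrivial G := by
      by_contra h2
      have := not_nontrivial_iff_subsingleton.mp h2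
      exact hna inferInstance
    obtain ⟨p, hp, hd⟩ := Nat.exists_prime_and_dvd (Finite.one_lt_card (α := G)).ne'
    have := Fact.mk hp
    have h2 : pCore p G = ⊤ := by
      by_contra h3
      have h4 := PGroup.isMulCommutative_sup (h1 _ h3) (h1 (pPrimeCore p G) fun h5 =>
        Core.coprime_iff_not_dvd.mp (Core.pPrimeCore_eq_top_iff.mp h5) hd)
        (Core.pCore_le_centralizer_pPrimeCore p G)
      rw [Core.pCore_sup_pPrimeCore_eq_top] at h4
      exact hna ⟨⟨fun a b => PGroup.isMulCommutative_iff.mp h4 a trivial b trivial⟩⟩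
    obtain ⟨k, hk⟩ := (Core.pCore_eq_top_iff.mp h2).exists_card_eq
    refine (isPrimePow_nat_iff _).mpr ⟨p, k, hp, Nat.pos_of_ne_zero ?_, hk.symm⟩
    rintro rfl
    exact (Finite.one_lt_card (α := G)).ne' hk
  · rintro (h | ⟨-, -, h⟩) H hH
    · exact absurd (PGroup.isMulCommutative_iff.mpr fun a _ b _ => h.is_comm.comm a b) hH
    · have : H = ⊤ := by_contra fun h1 => hH (h H h1)
      subst this
      exact normalizer_eq_top _

end Cfsg.Agent.S4075
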