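import Cfsg.Statements.S4079
import Cfsg.Agent.Lib.FGS.MetaP
import Cfsg.Agent.Lib.MaxC.Unif
import Cfsg.Agent.Lib.PGroup.RankOne

set_option autoImplicit false
open Cfsg

namespace Cfsg.Agent.S4079

open Subgroup Cfsg.Lib Cfsg.Lib.FGS Cfsg.Lib.RegP Cfsg.Lib.PGroup SemidirectProduct
open scoped commutatorElement

variable {L : Type*} [Group L] [Finite L] {p : ℕ} [hp : Fact p.Prime]

theorem om (h : MP p L) [Nontrivial L] (hnc : ∀ C : Subgroup L, IsCyclic C → C.index ≠ p) :
    Nat.card h.reg.om1 = p ^ 2 ∧ h.reg.om1 ≤ powerClosure p 1 ⊤ ∧ powerClosure p 1 (⊤ : Subgroup L) ≠ ⊤ := by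
  have nc : ¬ IsCyclic (⊤ : Subgroup L) := fun c => by
    have := topEquiv.isCyclic.1 c
    obtain ⟨M, -, -, e⟩ := exists_normal_index_eq_of_ne_top h.pg (bot_ne_top (α := Subgroup L))
    exact hnc M inferInstance e
  have l := h.card_le ⊤
  have lt := fun x => h.sup_lt nc (mem_top x)
  have : ¬ IsCyclic (powerClosure p 1 (⊤ : Subgroup L)) := fun c => by
    obtain ⟨x, x1, x2⟩ : ∃ x, x ∉ powerClosure p 1 (⊤ : Subgroup L) ∧ powerClosure p 1 ⊤ ≤ zpowers x := by
      obtain ⟨c, hc, e⟩ := BG.cyclic_iff.1 c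
      obtain ⟨x, -, rfl⟩ := h.mem_pow.1 hc
      by_cases hx : x ∈ powerClosure p 1 (⊤ : Subgroup L)
      · obtain ⟨y, -, hy⟩ := SetLike.exists_of_lt (lt 1)
        refine ⟨y, fun f => hy (mem_sup_left f), fun g hg => ?_⟩
        by_cases x1 : zpowers x = ⊥
        · rw [← e, zpowers_eq_bot.1 x1] at hg; simp at hg; simp [hg]
        · obtain ⟨k, hk⟩ := IsPGroup.iff_orderOf.1 h.pg x
          have := card_le_of_le (zpowers_le.2 (e ▸ hx : x ∈ zpowers (x ^ p ^ 1)))
          rcases k with _ | k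
          · exact absurd (zpowers_eq_bot.2 (orderOf_eq_one_iff.1 hk)) x1
          rw [Nat.card_zpowers, Nat.card_zpowers, pow_one, orderOf_pow_of_dvd hp.out.ne_zero (hk ▸ dvd_pow_self p (by omega)),
            hk, pow_succ, Nat.mul_div_cancel _ hp.out.pos] at this
          nlinarith [hp.out.one_lt, pow_pos hp.out.pos k]
      · exact ⟨x, hx, e ▸ zpowers_le.2 (pow_mem (mem_zpowers x) _)⟩
    have c := card_sup_zpowers (h.norm_ge le_rfl le_top (mem_top x)) x1
      (by simpa using pow_mem_powerClosure (p := p) (n := 1) (mem_top x))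
    have lt := lt x
    rw [sup_eq_right.2 x2] at c lt
    obtain ⟨k, hk⟩ := h.pg.index (zpowers x)
    refine hnc (zpowers x) inferInstance ?_
    rw [card_top, ← (zpowers x).index_mul_card, sq, mul_assoc, ← c, hk] at l
    have := (Nat.pow_le_pow_iff_right hp.out.one_lt).1 ((Nat.le_of_mul_le_mul_right l Nat.card_pos).trans (pow_one p).ge)
    rcases k with _ | k
    · exact absurd (index_eq_one.1 hk) lt.ne
    · rw [hk, show k = 0 by omega]; simp
  obtain ⟨A, h1, h2, h3⟩ : ∃ A ≤ powerClosure p 1 (⊤ : Subgroup L), IsElementaryAbelian p A ∧ Nat.card A = p ^ 2 := by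
    by_contra n
    exact (isCyclic_or_of_no_invariant_rank_two (h.pg.to_subgroup _) le_rfl le_normalizer fun A a _ b c =>
      n ⟨A, a, b, c⟩).elim this fun f => h.odd f.1
  have l := h.card_le h.reg.om1
  rw [show powerClosure p 1 h.reg.om1 = ⊥ from eq_bot_iff.2 (powerClosure_le_iff.2 fun x hx => by
    simpa using h.reg.mem_om1.1 hx), card_bot, mul_one, ← h3] at l
  have := eq_of_le_of_card_ge (fun x hx => h.reg.mem_om1.2 (h2.2 x hx)) l
  exact ⟨this ▸ h3, this ▸ h1, fun e => (lt 1).ne (by simp [e])⟩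

theorem comm (h : MP p L) {x y : L} (hx : (x ^ p) ^ p = 1) (hy : (y ^ p) ^ p = 1) : ⁅x, y⁆ ^ p = 1 := by
  have m : ∀ x : L, x ∈ h.reg.om 2 ↔ (x ^ p) ^ p = 1 := fun x => by rw [h.reg.mem_om, sq, pow_mul]
  obtain ⟨z, h1, h2⟩ := h.mem_pow.1 (h.der_le _ (commutator_mem_commutator ((m x).2 hx) ((m y).2 hy)))
  rw [h2, pow_one]; exact (m z).1 h1

theorem three (h : MP p L) (hE : ∀ e : L, e ^ p = 1 → ∃ b, e = b ^ p) {a : MulAut L} (ha : a ^ p = 1)
    (F1 : ∀ e : L, e ^ p = 1 → a (e⁻¹ * a e) = e⁻¹ * a e)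
    (F2 : ∀ z f : L, z ^ p = 1 → f ^ p = 1 → a z = z → a f = f → z ≠ 1 → f ∈ zpowers z)
    {e : L} (e1 : e ^ p = 1) (e2 : a e ≠ e) : p = 3 ∧ ∀ x, a x = x → x ^ p = 1 := by
  have mu : ∀ x y : L, (x ^ p) ^ p = 1 → (y ^ p) ^ p = 1 → (x * y) ^ p = x ^ p * y ^ p := fun x y hx hy =>
    h.reg.mul_pow_of_comm (comm h hx hy)
  have ce : ∀ e y : L, e ^ p = 1 → (y ^ p) ^ p = 1 → Commute e y := fun e y he hy => by
    obtain ⟨b, rfl⟩ := hE e he
    simpa using (h.reg.commute_pow_iff b y 1).2 (by simpa using comm h he hy)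
  have dl : ∀ x : L, (x ^ p) ^ p = 1 → (x⁻¹ * a x) ^ p = (x ^ p)⁻¹ * a (x ^ p) := fun x hx => by
    rw [mu _ _ (by simp [hx]) (by simp [← map_pow, hx]), inv_pow, map_pow]
  obtain ⟨b, rfl⟩ := hE e e1
  have hu := dl b e1
  have z1 : (b ^ p)⁻¹ * a (b ^ p) ≠ 1 := fun f => e2 (inv_mul_eq_one.1 f).symm
  have zp : ((b ^ p)⁻¹ * a (b ^ p)) ^ p = 1 := by rw [dl _ (by simp [e1]), e1]; simp
  have za := F1 _ e1
  have ab : a b = b * (b⁻¹ * a b) := by group
  generalize (b ^ p)⁻¹ * a (b ^ p) = z at *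
  generalize b⁻¹ * a b = u at *
  have u2 : (u ^ p) ^ p = 1 := hu ▸ zp
  have hw := dl u u2
  rw [hu, za, inv_mul_cancel] at hw
  have au : a u = u * (u⁻¹ * a u) := by group
  generalize u⁻¹ * a u = w at *
  have w2 : (w ^ p) ^ p = 1 := by simp [hw]
  have hv := dl w w2
  rw [hw, map_one, inv_mul_cancel] at hv
  have av := F1 w hw
  have aw : a w = w * (w⁻¹ * a w) := by group
  generalize w⁻¹ * a w = v at *
  have c1 := ce w u hw u2
  have c2 := ce v w hv w2
  have it : ∀ n : ℕ, (a ^ n) b = b * u ^ n * w ^ n.choose 2 * v ^ n.choose 3 := fun n => by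
    induction n with
    | zero => simp
    | succ n ih =>
      rw [pow_succ', MulAut.mul_apply, ih, map_mul, map_mul, map_mul, map_pow, map_pow, map_pow, ab, au, aw, av,
        c1.symm.mul_pow, c2.symm.mul_pow, Nat.choose_succ_succ' n 1, Nat.choose_succ_succ' n 2, Nat.choose_one_right,
        pow_add, pow_add, pow_succ']
      group
  have := it p
  have p2 := hp.out.two_le
  have p3 := h.odd
  obtain ⟨k, hk⟩ := hp.out.dvd_choose_self (k := 2) (by omega) (by omega)
  rw [ha, MulAut.one_apply, hk, pow_mul, hw, one_pow, mul_one, hu, mul_assoc, left_eq_mul] at this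
  refine ⟨by_contra fun n => z1 ?_, fun x hx => ?_⟩
  · obtain ⟨k, hk⟩ := hp.out.dvd_choose_self (k := 3) (by omega) (by omega)
    rwa [hk, pow_mul, hv, one_pow, mul_one] at this
  have v1 : v ≠ 1 := by rintro rfl; exact z1 (by simpa using this)
  have key : ∀ x : L, a x = x → (x ^ p) ^ p = 1 → x ^ p = 1 := fun x hx x2 => by
    obtain ⟨k, hk⟩ := mem_powers_iff_mem_zpowers.2 (F2 z _ zp x2 za (by rw [map_pow, hx]) z1)
    dsimp only at hk
    have uk : ((u ^ k)⁻¹ ^ p) = (z ^ k)⁻¹ := by rw [inv_pow, pow_right_comm, hu]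
    have f1 : ((u ^ k)⁻¹ * x) ^ p = 1 := by
      rw [mu _ _ (by rw [uk, inv_pow, pow_right_comm, zp]; simp) x2, uk, hk, inv_mul_cancel]
    have f2 := F1 _ f1
    have f3 : ((u ^ k)⁻¹ * x)⁻¹ * a ((u ^ k)⁻¹ * x) = (w ^ k)⁻¹ := by
      rw [map_mul, map_inv, map_pow, hx, au, c1.symm.mul_pow, mul_inv_rev (u ^ k), mul_assoc (w ^ k)⁻¹, ← mul_assoc,
        ((ce w _ hw (by rw [f1, one_pow])).pow_left k).inv_inv.symm.eq, inv_mul_cancel_right]
    rw [f3, map_inv, inv_inj, map_pow, aw, c2.symm.mul_pow, mul_eq_left, ← orderOf_dvd_iff_pow_eq_one,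
      orderOf_eq_prime hv v1] at f2
    obtain ⟨j, rfl⟩ := f2
    rw [← hk, pow_mul, zp, one_pow]
  obtain ⟨n, hn⟩ := h.pg x
  induction n with
  | zero => rw [pow_zero, pow_one] at hn; simp [hn]
  | succ n ih =>
    rcases n with _ | n
    · simpa using hn
    · exact ih (by
        rw [pow_succ, pow_mul]
        exact key _ (by rw [map_pow, hx]) (by rw [← pow_mul, ← pow_mul, ← hn]; congr 1; ring))

/-- Let p be an odd prime and L a finite metacyclic p-group with no cyclic subgroup of index p, and let a be an automorphism of L of order p. Then a moves some element of order p of L if and only if p = 3 and the semidirect product L ⋊ ⟨a⟩ (of order 3·#L) has maximal class, i.e. nilpotency class m where #L = 3^m. -/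
theorem result {L : Type*} [Group L] [Finite L] {p : ℕ} [Fact p.Prime]
    (hp : p ≠ 2) (hL : IsPGroup p L) (hmc : Cfsg.IsMetacyclic L) (hnc : ∀ C : Subgroup L, IsCyclic C → C.index ≠ p)
    (a : MulAut L) (ha : orderOf a = p) (m : ℕ) (hm : Nat.card L = p ^ m) :
    (∃ x : L, orderOf x = p ∧ a x ≠ x) ↔
    (p = 3 ∧ Group.nilpotencyClass (SemidirectProduct L ↥(Subgroup.zpowers a) (Subgroup.zpowers a).subtype) = m) := by
  have P : p.Prime := Fact.out
  have h : MP p L := ⟨hp, hL, hmc⟩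
  have : Nontrivial L := not_subsingleton_iff_nontrivial.1 fun _ => P.one_lt.ne' (by
    rw [← ha, orderOf_eq_one_iff]; ext; exact Subsingleton.elim _ _)
  obtain ⟨h1, h2, h3⟩ := om h hnc
  set G := SemidirectProduct L ↥(Subgroup.zpowers a) (Subgroup.zpowers a).subtype
  have : Finite G := .of_equiv _ equivProd.symm
  obtain ⟨n, rfl⟩ : ∃ n, m = n + 3 := by
    obtain ⟨M, h4, -, h5⟩ := exists_normal_index_eq_of_ne_top hL h3
    have := card_le_of_le (h2.trans h4)
    have e := M.index_mul_card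
    rw [h5, hm] at e
    refine ⟨m - 3, (Nat.sub_add_cancel ((Nat.pow_le_pow_iff_right P.one_lt).1 ?_)).symm⟩
    rw [← e, pow_succ', ← h1]; exact Nat.mul_le_mul_left _ this
  have cG : Nat.card G = p ^ (n + 2 + 2) := by rw [SemidirectProduct.card, hm, Nat.card_zpowers, ha, ← pow_succ]
  have pG := IsPGroup.of_card cG
  have nm : ∀ K : Subgroup L, K.Characteristic → (K.map (inl : L →* G)).Normal := fun K c => ⟨by
    rintro _ ⟨k, hk, rfl⟩ g
    exact ⟨g.left * (g.right : MulAut L) k * g.left⁻¹, Normal.conj_mem inferInstance ((g.right : MulAut L) k)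
      (mem_comap.1 (characteristic_iff_le_comap.1 c g.right hk)) _, by ext <;> simp [G, mul_assoc]⟩⟩
  have cm : ∀ K : Subgroup L, Nat.card (K.map (inl : L →* G)) = Nat.card K := fun K => card_map_of_injective inl_injective
  have : h.reg.om1.Characteristic := characteristic_iff_le_comap.2 fun φ x hx => h.reg.mem_om1.2 (by
    rw [← map_pow, h.reg.mem_om1.1 hx, map_one])
  have := nm _ this
  set E := h.reg.om1.map (inl : L →* G)
  have hE : ∀ e : L, e ^ p = 1 → ∃ b, e = b ^ p := fun e he => by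
    simpa using h.mem_pow.1 (h2 (h.reg.mem_om1.2 he))
  let s : G := inr ⟨a, mem_zpowers a⟩
  have cs : ∀ g : G, g ∈ centralizer {s} ↔ a g.left = g.left := fun g => by
    rw [mem_centralizer_singleton_iff, SemidirectProduct.ext_iff]
    have : g.right * ⟨a, mem_zpowers a⟩ = ⟨a, mem_zpowers a⟩ * g.right := IsCyclic.commutative.is_comm.comm _ _
    simp [s, G, eq_comm, this]
  rw [maxClass_iff cG]
  constructor
  · rintro ⟨e, e1, e2⟩
    have e3 := ha ▸ e1 ▸ pow_orderOf_eq_one e
    rw [ha] at e3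
    have dl : ∀ x : L, x ^ p = 1 → inl (x⁻¹ * a x) ∈ ⁅E, ⊤⁆ := fun x hx => by
      rw [show (inl (x⁻¹ * a x) : G) = ⁅(inl x)⁻¹, s⁆ by rw [commutatorElement_def]; ext <;> simp [s, G]]
      exact commutator_mem_commutator (inv_mem (mem_map_of_mem _ (h.reg.mem_om1.2 hx))) (mem_top _)
    have lt := commutator_lt (pG.to_subgroup E) (pG.to_subgroup ⊤) le_normalizer_of_normal (fun f => by
      have := cm h.reg.om1
      rw [show h.reg.om1.map inl = ⊥ from f, card_bot, h1] at this
      exact (Nat.one_lt_pow two_ne_zero P.one_lt).ne this)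
    have cz : Nat.card ↥⁅E, (⊤ : Subgroup G)⁆ = p := by
      obtain ⟨k, hk, e⟩ := (Nat.dvd_prime_pow P).1 (h1 ▸ cm _ ▸ card_dvd_of_le lt.le)
      have := Core.card_lt_card_of_lt lt
      rw [e, cm, h1, Nat.pow_lt_pow_iff_right P.one_lt] at this
      rcases k with _ | k
      · exact absurd ((map_eq_one_iff (inl : L →* G) inl_injective).1 (mem_bot.1 ((card_eq_one.1 e).le (dl _ e3))))
          fun f => e2 (inv_mul_eq_one.1 f).symm
      · rw [e, show k = 0 by omega]; simp
    have zc := le_center_of_card_eq pG _ cz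
    have fx : E ⊓ centralizer {s} = ⁅E, ⊤⁆ := (eq_or_eq_of_card_eq_prime_mul P
      (le_inf lt.le (zc.trans (center_le_centralizer _))) inf_le_left (by rw [cm, h1, cz, sq])).resolve_right fun f =>
        e2 ((cs _).1 (f.ge (mem_map_of_mem _ (h.reg.mem_om1.2 e3))).2)
    have fm : ∀ x : L, x ^ p = 1 → a x = x → inl x ∈ ⁅E, ⊤⁆ := fun x h1 h2 =>
      fx.le ⟨mem_map_of_mem _ (h.reg.mem_om1.2 h1), (cs _).2 h2⟩
    obtain ⟨p3, k⟩ := three h hE (ha ▸ pow_orderOf_eq_one a)
      (fun x hx => (cs _).1 (center_le_centralizer _ (zc (dl x hx)))) (fun z f z1 f1 z2 f2 z0 => by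
        have : zpowers (inl z : G) = ⁅E, ⊤⁆ := eq_of_le_of_card_ge (zpowers_le.2 (fm z z1 z2)) (by
          rw [cz, Nat.card_zpowers, orderOf_injective _ inl_injective, orderOf_eq_prime z1 z0])
        obtain ⟨k, hk⟩ := this.ge (fm f f1 f2)
        exact ⟨k, inl_injective (by rw [map_zpow]; exact hk)⟩) e3 e2
    refine ⟨p3, (MaxC.MU.mk (s := s) cG ?_).maxClass⟩
    refine (Nat.card_le_card_of_injective (fun g : centralizer {s} =>
      ((⟨inl g.1.left, fm _ (k _ ((cs _).1 g.2)) ((cs _).1 g.2)⟩, g.1.right) : ↥⁅E, (⊤ : Subgroup G)⁆ × zpowers a)) fun g g' e => ?_).trans ?_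
    · simp only [Prod.mk.injEq, Subtype.mk.injEq] at e
      exact Subtype.ext (SemidirectProduct.ext (inl_injective e.1) e.2)
    · rw [Nat.card_prod, cz, Nat.card_zpowers, ha, sq]
  · rintro ⟨-, mc⟩
    by_contra f
    push Not at f
    have lc : ∀ (K : Subgroup L) (j r : ℕ), K.Characteristic → Nat.card K = p ^ j → j + r = n + 2 →
        K.map inl = (⊤ : Subgroup G).lowerCentralSeries (r + 1) := fun K j r c e1 e2 => by
      have := nm K c
      refine maxClass_normal_eq cG mc _ (Nat.eq_of_mul_eq_mul_right (pow_pos P.pos j) ?_)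
      rw [← pow_add, ← e1, ← cm, index_mul_card, cG]; congr 1; omega
    have eE := lc _ 2 n ‹_› h1 (by omega)
    have d : ∀ x y : L, ⁅x, y⁆ ^ p = 1 := fun x y => by
      obtain ⟨j, hj⟩ := (hL.to_subgroup (commutator L)).exists_card_eq
      rcases le_or_gt j 1 with l | l
      · exact orderOf_dvd_iff_pow_eq_one.1 ((orderOf_dvd_natCard (commutator L)
          (commutator_mem_commutator (mem_top x) (mem_top y))).trans (hj ▸ (pow_dvd_pow p l).trans (pow_one p).dvd))
      have jl : j < n + 3 := by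
        rw [← Nat.pow_lt_pow_iff_right P.one_lt, ← hj, ← hm, ← card_top (G := L)]
        exact Core.card_lt_card_of_lt ((h.der_le ⊤).trans_lt h3.lt_top)
      have : h.reg.om1 ≤ commutator L := (map_le_map_iff_of_injective inl_injective).1 (by
        rw [eE, lc _ j (n + 2 - j) inferInstance hj (by omega)]
        exact Subgroup.lowerCentralSeries_antitone _ (by omega))
      obtain ⟨c, hc, e⟩ := BG.cyclic_iff.1 (BG.cyclic_of_le (h.cyc ⊤) this)
      have := Nat.le_of_dvd P.pos (orderOf_dvd_of_pow_eq_one (h.reg.mem_om1.1 hc))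
      rw [← Nat.card_zpowers, e, h1] at this
      nlinarith [P.one_lt]
    refine mc (eq_bot_iff.2 ?_)
    rw [Subgroup.lowerCentralSeries_succ, ← eE]
    refine commutator_le.2 ?_
    rintro _ ⟨x, hx, rfl⟩ g -
    have x1 := h.reg.mem_om1.1 hx
    have ax : a x = x := (em (x = 1)).elim (fun e => by simp [e]) fun e => f x (orderOf_eq_prime x1 e)
    have : (g.right : MulAut L) x = x := (zpowers_le.2 ax : zpowers a ≤ MulAction.stabilizer _ x) g.right.2
    obtain ⟨b, rfl⟩ := hE x x1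
    have c := (h.reg.commute_pow_iff b g.left 1).2 (by simpa using d _ _)
    rw [mem_bot, commutatorElement_eq_one_iff_mul_comm]
    ext
    · simpa [G, -map_pow, this] using c.eq
    · simp [G, -map_pow]

end Cfsg.Agent.S4079
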