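import Cfsg.Statements.S4080

set_option autoImplicit false
open Cfsg

namespace Cfsg.Agent.S4080

section
open Polynomial

theorem dvd_of_nilpotent {p : ℕ} [hp : Fact p.Prime] {c : ZMod (p ^ 2)} (h : IsNilpotent c) :
    (p : ZMod (p ^ 2)) ∣ c := by
  obtain ⟨n, hn⟩ := h
  haveI : NeZero (p ^ 2) := ⟨pow_ne_zero _ hp.out.ne_zero⟩
  rw [← ZMod.natCast_zmod_val c, ← Nat.cast_pow, ZMod.natCast_eq_zero_iff] at hn
  rw [← ZMod.natCast_zmod_val c]
  exact Nat.cast_dvd_cast (hp.out.dvd_of_dvd_pow ((dvd_pow_self p two_ne_zero).trans hn))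

theorem expand {R : Type*} [Ring R] {N : R} (h : N ^ 4 = 0) (n : ℕ) :
    (1 + N) ^ n = 1 + n • N + n.choose 2 • N ^ 2 + n.choose 3 • N ^ 3 := by
  induction n with
  | zero => simp
  | succ n ih =>
    rw [pow_succ, ih, Nat.choose_succ_succ' n 2, Nat.choose_succ_succ' n 1, Nat.choose_one_right]
    simp only [mul_add, add_mul, mul_one, one_mul, smul_mul_assoc, ← pow_succ, ← pow_two, h, add_smul, smul_zero,
      one_smul]
    abel

theorem core {p : ℕ} [hp : Fact p.Prime] (h3 : 3 < p) (N : Module.End (ZMod (p ^ 2)) (ZMod (p ^ 2) × ZMod (p ^ 2)))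
    (h : (1 + N) ^ p = 1) : p • N = 0 := by
  haveI : Fact (1 < p ^ 2) := ⟨Nat.one_lt_pow two_ne_zero hp.out.one_lt⟩
  have pp : ∀ M : Module.End (ZMod (p ^ 2)) (ZMod (p ^ 2) × ZMod (p ^ 2)), p • p • M = 0 := fun M => by
    rw [smul_smul, ← pow_two, ← Nat.cast_smul_eq_nsmul (ZMod (p ^ 2)), ZMod.natCast_self, zero_smul]
  have hc : Commute 1 N := Commute.one_left N
  obtain ⟨r, hr⟩ := hc.exists_add_pow_prime_eq hp.out
  rw [h, one_pow, add_assoc, left_eq_add, add_eq_zero_iff_eq_neg, mul_one, mul_assoc, ← nsmul_eq_mul] at hr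
  have hnil : IsNilpotent N := ⟨p + p, by
    rw [pow_add, hr]
    exact (neg_mul_neg (p • (N * r)) _).trans (by rw [smul_mul_assoc, mul_smul_comm, pp])⟩
  have h1 : IsNilpotent (N.charpoly - X ^ 2) := by
    have := Matrix.isNilpotent_charpoly_sub_pow_of_isNilpotent
      (hnil.map (LinearMap.toMatrixAlgEquiv (Module.Basis.finTwoProd (ZMod (p ^ 2)))))
    rw [Fintype.card_fin] at this
    rwa [← LinearMap.charpoly_toMatrix N (Module.Basis.finTwoProd (ZMod (p ^ 2)))]
  obtain ⟨s, hs⟩ : C (p : ZMod (p ^ 2)) ∣ N.charpoly - X ^ 2 :=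
    (C_dvd_iff_dvd_coeff _ _).2 fun i => dvd_of_nilpotent (Polynomial.isNilpotent_iff.1 h1 i)
  have h4 := congrArg (aeval N) hs
  rw [map_mul, map_sub, LinearMap.aeval_self_charpoly, map_pow, aeval_X, zero_sub, aeval_C, map_natCast,
    ← nsmul_eq_mul, neg_eq_iff_eq_neg] at h4
  have h5 : N ^ 4 = 0 := by
    rw [show 4 = 2 + 2 from rfl, pow_add, h4]
    exact (neg_mul_neg _ _).trans (by rw [smul_mul_assoc, mul_smul_comm, pp])
  have h6 : p • N ^ 2 = 0 := by rw [h4, smul_neg, pp, neg_zero]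
  obtain ⟨c2, e2⟩ := hp.out.dvd_choose_self (k := 2) (by omega) (by omega)
  obtain ⟨c3, e3⟩ := hp.out.dvd_choose_self (k := 3) (by omega) (by omega)
  rw [expand h5, e2, e3, mul_comm p, mul_comm p, mul_smul, mul_smul, h6, pow_succ _ 2, ← smul_mul_assoc, h6] at h
  simpa using h

end

/-- Let p > 3 be a prime and L the direct product of two cyclic groups of order p². Every automorphism of L of order p fixes every element of order p of L. -/
theorem result {p : ℕ} [Fact p.Prime] (hp : 3 < p)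
    (a : MulAut (Multiplicative (ZMod (p ^ 2) × ZMod (p ^ 2)))) (ha : orderOf a = p)
    (x : Multiplicative (ZMod (p ^ 2) × ZMod (p ^ 2))) (hx : orderOf x = p) : a x = x := by
  open Polynomial in
  let φ : MulAut (Multiplicative (ZMod (p ^ 2) × ZMod (p ^ 2))) →*
      Module.End (ZMod (p ^ 2)) (ZMod (p ^ 2) × ZMod (p ^ 2)) :=
    { toFun := fun b => (AddMonoidHom.toMultiplicative.symm b.toMonoidHom).toZModLinearMap (p ^ 2)
      map_one' := rfl
      map_mul' := fun _ _ => rfl }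
  have h := core hp (φ a - 1) (by rw [add_sub_cancel, ← map_pow, orderOf_dvd_iff_pow_eq_one.1 ha.dvd, map_one])
  have hp' : p.Prime := Fact.out
  haveI : NeZero (p ^ 2) := ⟨pow_ne_zero _ hp'.ne_zero⟩
  have key : ∀ c : ZMod (p ^ 2), p • c = 0 → ∃ d, c = p • d := fun c hc => by
    rw [← ZMod.natCast_zmod_val c, nsmul_eq_mul, ← Nat.cast_mul, ZMod.natCast_eq_zero_iff] at hc
    obtain ⟨d, hd⟩ := Nat.dvd_of_mul_dvd_mul_left hp'.pos ((pow_two p).symm.dvd.trans hc)
    exact ⟨d, by rw [← ZMod.natCast_zmod_val c, hd]; simp⟩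
  have hx' : p • x.toAdd = 0 := by rw [← toAdd_pow, orderOf_dvd_iff_pow_eq_one.1 hx.dvd]; rfl
  obtain ⟨d1, e1⟩ := key _ (congrArg Prod.fst hx')
  obtain ⟨d2, e2⟩ := key _ (congrArg Prod.snd hx')
  have e : x.toAdd = p • (d1, d2) := Prod.ext e1 e2
  have h2 := LinearMap.congr_fun h (d1, d2)
  rw [LinearMap.smul_apply, ← map_nsmul, ← e, LinearMap.sub_apply, LinearMap.zero_apply, sub_eq_zero] at h2
  exact h2

end Cfsg.Agent.S4080
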