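import Cfsg.Statements.S4082
import Cfsg.Agent.Lib.CharDeg.PByCyc
import Cfsg.Agent.Lib.Transfer.Criteria
import Cfsg.Agent.Lib.PGroup.RankOne

set_option autoImplicit false
open Cfsg

namespace Cfsg.Agent.S4082

open Subgroup Cfsg.Lib Cfsg.Lib.BG Cfsg.Lib.Transfer

theorem sq_one {G : Type*} [Group G] {p : ℕ} [hp' : Fact p.Prime] (hp : p ≠ 2) {u : G}
    (hu : PiElt {p} u) (h : u * u = 1) : u = 1 := by
  refine hu.eq_one (PiNat.of_dvd (PiNat.of_prime Nat.prime_two (Ne.symm hp)) ?_)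
  exact orderOf_dvd_of_pow_eq_one (by rwa [sq])

theorem dih {p n : ℕ} [hp' : Fact p.Prime] (hp : p ≠ 2) {u v : DihedralGroup (p ^ n)}
    (hc : u * v = v * u) (hu : PiElt {p} u) (hv : PiElt {p}ᶜ v) (h1 : v ≠ 1) :
    u = 1 ∧ orderOf v = 2 := by
  rcases v with j | j
  · refine absurd (PiElt.eq_one (PiNat.of_dvd (PiNat.prime_pow (π := {p}) hp'.out rfl n) ?_) hv) h1
    refine orderOf_dvd_of_pow_eq_one ?_
    rw [DihedralGroup.r_pow, ZMod.natCast_self, mul_zero, DihedralGroup.r_zero]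
  · refine ⟨sq_one hp hu ?_, DihedralGroup.orderOf_sr j⟩
    rcases u with i | i
    · rw [DihedralGroup.r_mul_sr, DihedralGroup.sr_mul_r] at hc
      have h2 : j - i = j + i := DihedralGroup.sr.inj hc
      rw [DihedralGroup.r_mul_r, show i + i = 0 by linear_combination -h2, DihedralGroup.r_zero]
    · exact DihedralGroup.sr_mul_self i

theorem fwd {G : Type*} [Group G] [Finite G] {p : ℕ} [hp' : Fact p.Prime] (hp : p ≠ 2)
    (h : ∀ (Q : Subgroup G) (c : G), IsPGroup p Q → c ∈ 𝐍(Q) → PiElt {p}ᶜ c →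
      IsCyclic ↥(Q ⊔ zpowers c) ∨ ∃ n : ℕ, Nonempty (↥(Q ⊔ zpowers c) ≃* DihedralGroup (p ^ n))) :
    (∀ Q : Subgroup G, IsPGroup p Q → IsCyclic Q) ∧
    ∀ Q : Subgroup G, IsPGroup p Q → ∀ x ∈ 𝐍(Q), x ∉ 𝐂(Q) →
      orderOf x = 2 ∧ ∀ c ∈ 𝐂(Q), x * c * x⁻¹ = c⁻¹ := by
  have cyc : ∀ Q : Subgroup G, IsPGroup p Q → IsCyclic Q := by
    intro Q hQ
    have h1 := h Q 1 hQ (one_mem _) PiElt.one
    rw [zpowers_one_eq_bot, sup_bot_eq] at h1
    refine h1.resolve_right ?_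
    rintro ⟨n, ⟨e⟩⟩
    have h2 := Nat.card_congr e.toEquiv
    rw [DihedralGroup.nat_card] at h2
    exact hp (PiGrp.p_iff.2 hQ 2 Nat.prime_two ⟨_, h2⟩).symm
  have star : ∀ Q : Subgroup G, IsPGroup p Q → ∀ x ∈ 𝐍(Q), x ∉ 𝐂(Q) → orderOf x = 2 := by
    intro Q hQ x hx hxc
    obtain ⟨y, hy, z, hz, hy', hz', e, hyz⟩ := exists_pi_decomp {p} x
    have hyn : zpowers y ≤ 𝐍(Q) := zpowers_le.2 (zpowers_le.2 hx hy)
    have hR : IsPGroup p ↥(Q ⊔ zpowers y) := pgroup_sup hQ hy'.zpowers.pgroup hyn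
    have hyc : y ∈ 𝐂(Q) := abelian_cent' (abelian_of_cyclic (cyc _ hR)) le_sup_right le_sup_left
      (mem_zpowers y)
    have hzc : z ∉ 𝐂(Q) := fun h' => hxc (e ▸ mul_mem hyc h')
    have hzn : z ∈ 𝐍(Q ⊔ zpowers y) := zpowers_le.1 (norm_sup (zpowers_le.2 (zpowers_le.2 hx hz))
      (norm_of_cent (by rw [cent_zpowers, zpowers_le]; exact mem_cent1.2 hyz.symm)))
    rcases h _ z hR hzn hz' with h1 | ⟨n, ⟨f⟩⟩
    · exact absurd (abelian_cent' (abelian_of_cyclic h1) le_sup_right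
        (le_sup_left.trans le_sup_left) (mem_zpowers z)) hzc
    have hym : y ∈ Q ⊔ zpowers y ⊔ zpowers z := mem_sup_left (mem_sup_right (mem_zpowers y))
    have hzm : z ∈ Q ⊔ zpowers y ⊔ zpowers z := mem_sup_right (mem_zpowers z)
    obtain ⟨h2, h3⟩ := dih hp (u := f ⟨y, hym⟩) (v := f ⟨z, hzm⟩)
      (by rw [← map_mul, ← map_mul]; congr 1; exact Subtype.ext hyz)
      (by unfold PiElt; rw [MulEquiv.orderOf_eq, Subgroup.orderOf_mk]; exact hy')
      (by unfold PiElt; rw [MulEquiv.orderOf_eq, Subgroup.orderOf_mk]; exact hz')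
      (fun h' => hzc (by
        have : z = 1 := congrArg Subtype.val (f.map_eq_one_iff.1 h')
        rw [this]; exact one_mem _))
    have h4 : y = 1 := congrArg Subtype.val (f.map_eq_one_iff.1 h2)
    rw [MulEquiv.orderOf_eq, Subgroup.orderOf_mk] at h3
    rw [e, h4, one_mul, h3]
  refine ⟨cyc, fun Q hQ x hx hxc => ⟨star Q hQ x hx hxc, fun c hc => ?_⟩⟩
  have h1 := star Q hQ x hx hxc
  have h2 := star Q hQ (x * c) (mul_mem hx (cent_le_norm Q hc))
    (fun h' => hxc ((mul_mem_cancel_right hc).1 h'))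
  have h3 : x * x = 1 := by rw [← sq, ← h1, pow_orderOf_eq_one]
  have h4 : x * c * (x * c) = 1 := by rw [← sq, ← h2, pow_orderOf_eq_one]
  rw [← mul_eq_one_iff_eq_inv, inv_eq_of_mul_eq_one_right h3, mul_assoc _ x c, h4]

/-- Let p be an odd prime and G a finite group with Sylow p-subgroup P. Say that G has restricted p-by-cyclic subgroups when every subgroup H of G whose Sylow p-subgroup is normal in H with cyclic quotient is itself cyclic or dihedral of order 2pⁿ for some n. Then G has restricted p-by-cyclic subgroups if and only if P is cyclic and one of the following holds: (1) N_G(P) = C_G(P); or (2) N_G(P)/C_G(P) has order 2 and, for the subgroup Q of order p of P, the centralizer C_G(Q) is abelian and every element of N_G(Q) outside C_G(Q) is an involution inverting every element of C_G(Q). -/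
theorem result {G : Type*} [Group G] [Finite G] {p : ℕ}
    [Fact p.Prime] (hp : p ≠ 2) (P : Sylow p G) :
    (∀ H : Subgroup G, (∀ S : Sylow p ↥H, (S : Subgroup ↥H).Normal) →
        (∀ (S : Sylow p ↥H) [(S : Subgroup ↥H).Normal], IsCyclic (↥H ⧸ (S : Subgroup ↥H))) →
        IsCyclic H ∨ (∃ n : ℕ, Nonempty (H ≃* DihedralGroup (p ^ n)))) ↔
    (IsCyclic P ∧
      (Subgroup.normalizer ((P : Subgroup G) : Set G) = Subgroup.centralizer ((P : Subgroup G) : Set G) ∨
       ((Subgroup.centralizer ((P : Subgroup G) : Set G)).relIndex (Subgroup.normalizer ((P : Subgroup G) : Set G)) = 2 ∧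
        ∀ Q : Subgroup G, Q ≤ P → Nat.card Q = p →
          IsMulCommutative ↥(Subgroup.centralizer (Q : Set G)) ∧
          ∀ x : G, x ∈ Subgroup.normalizer (Q : Set G) → x ∉ Subgroup.centralizer (Q : Set G) →
            orderOf x = 2 ∧ ∀ c : G, c ∈ Subgroup.centralizer (Q : Set G) → x * c * x⁻¹ = c⁻¹))) := by
  rw [Cfsg.Lib.CharDeg.PByCyc.pbc_iff (fun H : Subgroup G => IsCyclic H ∨
    (∃ n : ℕ, Nonempty (H ≃* DihedralGroup (p ^ n))))]
  constructor
  · intro h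
    obtain ⟨cyc, star⟩ := fwd hp h
    have hPc := cyc P P.2
    have hPa := abelian_cent (abelian_of_cyclic hPc)
    refine ⟨hPc, ?_⟩
    by_cases hN : 𝐍((P : Subgroup G)) ≤ 𝐂((P : Subgroup G))
    · exact Or.inl (le_antisymm hN (cent_le_norm _))
    obtain ⟨x, hx, hxc⟩ := SetLike.not_le_iff_exists.1 hN
    have hxi := (star P P.2 x hx hxc).2
    refine Or.inr ⟨relIndex_eq_two_iff_exists_notMem_and.2 ⟨x, hx, hxc, fun b hb => ?_⟩,
      fun Q hQ hcard => ⟨?_, star Q (P.2.to_le hQ)⟩⟩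
    · refine or_iff_not_imp_right.2 fun hbc => mem_cent.2 fun s hs => ?_
      have h1 := hxi s (hPa hs)
      have h2 := (star P P.2 b hb hbc).2 s⁻¹ (hPa (inv_mem hs))
      rw [← h1] at h2
      rw [h1, inv_inv] at h2
      calc s * (b * x) = b * s⁻¹ * b⁻¹ * (b * x) := by rw [h2]
        _ = b * (x * s * x⁻¹) * b⁻¹ * (b * x) := by rw [h1]
        _ = b * x * s := by group
    · have hxn : x ∈ 𝐍(Q) := norm_le_of_le_cyclic hPc hQ hx
      have hxq : x ∉ 𝐂(Q) := fun h' => by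
        obtain ⟨q, hq, hq1⟩ := exists_ne_one (ne_bot_of_prime (A := Q) (hcard ▸ Fact.out))
        have h1 := hxi q (hPa (hQ hq))
        rw [← mem_cent.1 h' q hq, mul_inv_cancel_right] at h1
        exact hq1 (sq_one hp ((PiGrp.p_iff.2 P.2).elt (hQ hq)) (mul_eq_one_iff_eq_inv.2 h1))
      have hi := (star Q (P.2.to_le hQ) x hxn hxq).2
      refine abelian_iff.2 (le_cent_iff.2 fun c hc d hd => ?_)
      have h1 := hi (c * d) (mul_mem hc hd)
      have h2 : x * (c * d) * x⁻¹ = (x * c * x⁻¹) * (x * d * x⁻¹) := by group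
      rw [h2, hi c hc, hi d hd, ← mul_inv_rev] at h1
      exact (inv_injective h1).symm
  · rintro ⟨hPc, h⟩ Q c hQ hc hc'
    obtain ⟨g, -, hg⟩ := (Syl.of_sylow_top P).exists_conj_le hQ le_top
    have hQc : IsCyclic Q := (cyclic_conj g).1 (cyclic_of_le hPc hg)
    by_cases hcc : c ∈ 𝐂(Q)
    · exact Or.inl (cyclic_sup_of_coprime hQc inferInstance (cent_symm (zpowers_le.2 hcc))
        ((PiGrp.p_iff.2 hQ).coprime hc'.zpowers))
    right
    rcases h with h | ⟨-, h⟩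
    · exact absurd (mem_centralizer_of_hasNormalPComplement
        (hasNormalPComplement_of_normalizer_le_centralizer P h.le) hQ hc
        (PiNat.p'_iff_coprime.1 hc')) hcc
    have hQ0 : g ⋆ Q ≠ ⊥ := fun e => hcc (by rw [conj_eq_bot_iff.1 e]; simp)
    obtain ⟨Q1, h1, h2⟩ := exists_card_eq_prime (A := g ⋆ Q) Fact.out
      (pgroup_dvd_card (P.2.to_le hg) hQ0)
    obtain ⟨h3, h4⟩ := h Q1 (h1.trans hg) h2
    have h5 : g ⋆ Q ≤ 𝐂(Q1) := abelian_cent' (abelian_of_cyclic hPc) hg (h1.trans hg)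
    have h6 : g * c * g⁻¹ ∈ 𝐍(Q1) := norm_le_of_le_cyclic (cyclic_of_le hPc hg) h1 (by
      rw [← conj_normalizer]; exact conj_mem_conj.2 hc)
    have h7 : g * c * g⁻¹ ∉ 𝐂(Q1) := fun h' => hcc (by
      have := abelian_cent' h3 (zpowers_le.2 h') h5 (mem_zpowers _)
      rw [← conj_centralizer] at this
      exact conj_mem_conj.1 this)
    obtain ⟨h8, h9⟩ := h4 _ h6 h7
    obtain ⟨a, ha, rfl⟩ := cyclic_iff.1 hQc
    have h10 := h9 _ (h5 (conj_mem_conj.2 ha))
    obtain ⟨k, hk⟩ := IsPGroup.iff_card.1 hQ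
    rw [Nat.card_zpowers] at hk
    refine ⟨k, PGroup.nonempty_sup_mulEquiv_dihedral hk ?_ ?_ fun h' => hcc ?_⟩
    · have : (g * c * g⁻¹) ^ 2 = 1 := by rw [← h8, pow_orderOf_eq_one]
      rwa [conj_pow, conj_eq_one_iff] at this
    · calc c * a * c⁻¹ = g⁻¹ * (g * c * g⁻¹ * (g * a * g⁻¹) * (g * c * g⁻¹)⁻¹) * g := by group
        _ = a⁻¹ := by rw [h10]; group
    · exact abelian_cent (abelian_of_cyclic hQc) h'

end Cfsg.Agent.S4082
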