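import Cfsg.Statements.S4083
import Cfsg.Agent.Lib.CharDeg.PByCyc
import Cfsg.Agent.Lib.Inv.DihedralSylow
import Cfsg.Agent.Lib.PSL2.Classify

set_option autoImplicit false
open Cfsg

namespace Cfsg.Agent.S4083

open Subgroup Cfsg.Lib Cfsg.Lib.BG Cfsg.Lib.Transfer Cfsg.Lib.Inv

theorem klein {G : Type*} [Group G] [Finite G] {V : Subgroup G} (h4 : Nat.card V = 4)
    (h : ∀ v ∈ V, v ^ 2 = 1) : IsKleinFour V := by
  refine ⟨h4, ?_⟩
  have h1 : Monoid.exponent V ∣ 2 :=
    Monoid.exponent_dvd_of_forall_pow_eq_one fun x => Subtype.ext (h x x.2)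
  refine ((Nat.dvd_prime Nat.prime_two).1 h1).resolve_left fun e => ?_
  have := Monoid.exp_eq_one_iff.1 e
  have h2 : Nat.card V = 1 := Nat.card_eq_one_iff_unique.2 ⟨this, inferInstance⟩
  omega

theorem sub_dih {G : Type*} [Group G] [Finite G] {S Q : Subgroup G} {a b : G} {m : ℕ}
    (h : MC S a b m 0 0) (hQ : Q ≤ S) (hc : ¬ IsCyclic Q) :
    (∃ n : ℕ, Nonempty (Q ≃* DihedralGroup (2 ^ n))) ∧ ∃ U ≤ Q, IsKleinFour U := by
  have hC : IsCyclic ↥(Q ⊓ zpowers a) := isCyclic_of_le inf_le_right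
  obtain ⟨c, hcm, hcC⟩ := cyclic_iff.1 hC
  have h1 : ¬ Q ≤ zpowers a := fun h' => hc (isCyclic_of_le h')
  obtain ⟨s, hs, hsa⟩ := SetLike.not_le_iff_exists.1 h1
  have hQe : zpowers c ⊔ zpowers s = Q := by
    refine le_antisymm (sup_le (zpowers_le.2 hcm.1) (zpowers_le.2 hs)) fun x hx => ?_
    by_cases hxa : x ∈ zpowers a
    · exact mem_sup_left (hcC ▸ ⟨hx, hxa⟩)
    · have h2 : x * s⁻¹ ∈ zpowers c :=
        hcC ▸ ⟨Q.mul_mem hx (Q.inv_mem hs), h.mul_inv_mem (hQ hx) hxa (hQ hs) hsa⟩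
      have := mul_mem (mem_sup_left h2 : _ ∈ zpowers c ⊔ zpowers s) (mem_sup_right (mem_zpowers s))
      rwa [inv_mul_cancel_right] at this
  obtain ⟨i, rfl⟩ := h.exists_refl (hQ hs) hsa
  have hsq := h.dih_refl_sq i
  have hc2 : IsPGroup 2 (zpowers c) := h.isPGroup.to_le ((zpowers_le.2 hcm.1).trans hQ)
  constructor
  · obtain ⟨n, hn⟩ := IsPGroup.iff_card.1 hc2
    rw [Nat.card_zpowers] at hn
    refine ⟨n, hQe ▸ PGroup.nonempty_sup_mulEquiv_dihedral hn (by rwa [sq]) ?_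
      fun h' => hsa (zpowers_le.2 hcm.2 h')⟩
    obtain ⟨j, rfl⟩ := hcm.2
    change _ * a ^ j * _ = (a ^ j)⁻¹
    rw [h.refl_conj, ← zpow_neg]
    congr 1
    ring
  · have hc1 : zpowers c ≠ ⊥ := fun e => hc (by rw [← hQe, e, bot_sup_eq]; infer_instance)
    obtain ⟨z, hz⟩ := exists_prime_orderOf_dvd_card' 2 (pgroup_dvd_card hc2 hc1)
    rw [← Subgroup.orderOf_coe] at hz
    obtain ⟨hz1, hz2⟩ := ord_two_iff.1 hz
    have e := h.eq_z (zpowers_le.2 hcm.2 z.2) hz1 hz2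
    exact ⟨_, sup_le (zpowers_le.2 (e ▸ zpowers_le.2 hcm.1 z.2)) (zpowers_le.2 hs), h.k4_refl hsq⟩

/-- Let G be a finite group with Sylow 2-subgroup P. Every subgroup H of G whose Sylow 2-subgroup is normal in H with cyclic quotient is cyclic, dihedral of 2-power order, or isomorphic to the alternating group of degree 4, if and only if either P is cyclic, or P is dihedral (of order at least 4) and every elementary abelian subgroup K of order 4 of P satisfies C_G(K) = K. -/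
theorem result {G : Type*} [Group G] [Finite G] (P : Sylow 2 G) :
    (∀ H : Subgroup G, (∀ S : Sylow 2 ↥H, (S : Subgroup ↥H).Normal) →
        (∀ (S : Sylow 2 ↥H) [(S : Subgroup ↥H).Normal], IsCyclic (↥H ⧸ (S : Subgroup ↥H))) →
        IsCyclic H ∨ (∃ n : ℕ, Nonempty (H ≃* DihedralGroup (2 ^ n))) ∨ Nonempty (H ≃* alternatingGroup (Fin 4))) ↔
    (IsCyclic P ∨
      ((∃ n : ℕ, 1 ≤ n ∧ Nonempty ((P : Subgroup G) ≃* DihedralGroup (2 ^ n))) ∧
        ∀ K : Subgroup G, K ≤ P → Nat.card K = 4 → (∀ k ∈ K, k ^ 2 = 1) → Subgroup.centralizer (K : Set G) = K)) := by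
  rw [Cfsg.Lib.CharDeg.PByCyc.pbc_iff (fun H : Subgroup G => IsCyclic H ∨
    (∃ n : ℕ, Nonempty (H ≃* DihedralGroup (2 ^ n))) ∨ Nonempty (H ≃* alternatingGroup (Fin 4)))]
  constructor
  · intro h
    have h1 := h P 1 P.2 (one_mem _) PiElt.one
    rw [zpowers_one_eq_bot, sup_bot_eq] at h1
    rcases h1 with h1 | ⟨n, ⟨e⟩⟩ | ⟨⟨e⟩⟩
    · exact Or.inl h1
    · rcases Nat.eq_zero_or_pos n with rfl | hn
      · haveI : IsCyclic (DihedralGroup (2 ^ 0)) := DihedralGroup.isCyclic_iff.2 rfl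
        exact Or.inl (isCyclic_of_surjective e.symm e.symm.surjective)
      refine Or.inr ⟨⟨n, hn, ⟨e⟩⟩, fun K hK h4 h2 => ?_⟩
      have hK4 := klein h4 h2
      refine le_antisymm (fun x hx => ?_) (k4_le_centralizer hK4)
      obtain ⟨y, hy, z, hz, hy', hz', e', hyz⟩ := exists_pi_decomp {2} x
      have hyc : zpowers y ≤ 𝐂(K) := zpowers_le.2 (zpowers_le.2 hx hy)
      have hzc : zpowers z ≤ 𝐂(K ⊔ zpowers y) := le_cent_sup (zpowers_le.2 (zpowers_le.2 hx hz))
        (by rw [cent_zpowers, zpowers_le]; exact mem_cent1.2 hyz.symm)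
      have hab : IsMulCommutative ↥(K ⊔ zpowers y ⊔ zpowers z) :=
        abelian_sup (abelian_sup (abelian_iff.2 (k4_le_centralizer hK4)) inferInstance
          (cent_symm hyc)) inferInstance (cent_symm hzc)
      have hKH : K ≤ K ⊔ zpowers y ⊔ zpowers z := le_sup_left.trans le_sup_left
      have hxH : x ∈ K ⊔ zpowers y ⊔ zpowers z := e' ▸ mul_mem
        (mem_sup_left (mem_sup_right (mem_zpowers y))) (mem_sup_right (mem_zpowers z))
      rcases h _ z (pgroup_sup (k4_isPGroup hK4) hy'.zpowers.pgroup (norm_of_cent hyc))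
        (cent_le_norm _ (zpowers_le.1 hzc)) hz' with h3 | ⟨k, ⟨f⟩⟩ | ⟨⟨f⟩⟩
      · exact absurd (cyclic_of_le h3 hKH) IsKleinFour.not_isCyclic
      · have h5 : IsMulCommutative (DihedralGroup (2 ^ k)) := ⟨⟨fun u v => by
          obtain ⟨u, rfl⟩ := f.surjective u
          obtain ⟨v, rfl⟩ := f.surjective v
          rw [← map_mul, ← map_mul, hab.is_comm.comm]⟩⟩
        have h6 := Nat.card_congr f.toEquiv
        rw [DihedralGroup.nat_card] at h6
        have h7 := DihedralGroup.commutative_iff.1 h5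
        rw [eq_of_le_of_card_le hKH (by omega)]
        exact hxH
      · exfalso
        have h5 : ∀ u v : alternatingGroup (Fin 4), u * v = v * u := fun u v => by
          obtain ⟨u, rfl⟩ := f.surjective u
          obtain ⟨v, rfl⟩ := f.surjective v
          rw [← map_mul, ← map_mul, hab.is_comm.comm]
        revert h5
        decide
    · exfalso
      have h2 := Nat.card_congr e.toEquiv
      rw [nat_card_alternatingGroup, Nat.card_eq_fintype_card (α := Fin 4), Fintype.card_fin] at h2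
      have h3 := PiGrp.p_iff.2 P.2 3 Nat.prime_three (by rw [h2]; decide)
      exact absurd h3 (by decide)
  · intro h Q c hQ hc hc'
    have ho : Odd (orderOf c) := odd_of_coprime_two (PiNat.p'_iff_coprime.1 hc')
    have hcyc : IsCyclic Q → IsCyclic ↥(Q ⊔ zpowers c) := fun hQc =>
      cyclic_sup_of_coprime hQc inferInstance (cent_symm (zpowers_le.2
        (mem_centralizer_of_odd_of_isCyclic hQ hQc hc ho))) ((PiGrp.p_iff.2 hQ).coprime hc'.zpowers)
    by_cases hQc : IsCyclic Q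
    · exact Or.inl (hcyc hQc)
    obtain ⟨g, -, hg⟩ := (Syl.of_sylow_top P).exists_conj_le hQ le_top
    rcases h with h | ⟨⟨n, hn, ⟨e⟩⟩, h⟩
    · exact absurd ((cyclic_conj g).1 (cyclic_of_le h hg)) hQc
    have hU : ∀ U ≤ Q, IsKleinFour U → 𝐂(U) = U := fun U hUQ hU => by
      have h1 := k4_conj hU g
      have h2 := h _ ((conj_mono g hUQ).trans hg) h1.card_four
        fun k hk => by rw [sq]; exact k4_mul_self h1 hk
      rw [← conj_centralizer] at h2
      exact conj_inj.1 h2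
    obtain ⟨a, b, m, -, hm⟩ := exists_mc_of_dihedral P.2
      (by calc 2 = 2 ^ 1 := rfl
        _ ≤ 2 ^ n := Nat.pow_le_pow_right (by norm_num) hn) e
    have hone : ∀ x ∈ Q, ∀ k : ℕ, x = c ^ k → x = 1 := fun x hx k e =>
      ((PiGrp.p_iff.2 hQ).elt hx).eq_one (e ▸ hc'.pow k)
    by_cases hcc : c ∈ 𝐂(Q)
    · obtain ⟨S', a', b', h1, h2⟩ := hm.exists_conj_ge hQ
      obtain ⟨h3, U, h4, h5⟩ := sub_dih h2 h1 hQc
      have h6 : c = 1 := hone c (h4 (hU U h4 h5 ▸ cent_anti h4 hcc)) 1 (pow_one c).symm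
      rw [h6, zpowers_one_eq_bot, sup_bot_eq]
      exact Or.inr (Or.inl h3)
    have hK := hm.dih_odd_aut hQ hc ho hcc
    have h6 : c ^ 6 = 1 := by
      obtain ⟨k, hk⟩ := k4_relIndex_dvd_six hK
      refine hone _ ?_ 6 rfl
      rw [← hU Q le_rfl hK, hk, pow_mul]
      exact pow_mem (pow_relIndex_mem_of_le_normalizer (norm_cent le_rfl) hc) k
    have h3 : c ^ 3 = 1 := by
      have h7 : PiElt {2} (c ^ 3) := PiNat.of_dvd (PiNat.of_prime Nat.prime_two rfl)
        (orderOf_dvd_of_pow_eq_one (by rw [← pow_mul]; exact h6))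
      exact h7.eq_one (hc'.pow 3)
    obtain ⟨t, ht, -, -, ht1, -, -⟩ := k4_exists hK
    have hfix : ∀ u ∈ Q, u ≠ 1 → c * u * c⁻¹ ≠ u := fun u hu hu1 e =>
      hcc (k4_mem_centralizer_of_odd hK hc ho hu hu1 e)
    have hs : c * t * c⁻¹ ∈ Q := conj_mem_of_norm hc ht
    have hs1 : c * t * c⁻¹ ≠ 1 := conj_ne_one ht1
    have hA : PSL2.A4Gen t (c * t * c⁻¹) c := by
      refine ⟨⟨ht1, hs1, (hfix t ht ht1).symm, k4_mul_self hK ht, k4_mul_self hK hs,
        k4_comm hK ht hs⟩, rfl, ?_, h3⟩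
      refine k4_eq_mul hK ht hs (conj_mem_of_norm hc hs) ht1 hs1 (hfix t ht ht1).symm
        (conj_ne_one hs1) (fun e => hfix t ht ht1 ?_) (hfix _ hs hs1)
      have h8 : c * c * c = 1 := by rw [← h3]; simp [pow_succ]
      calc c * t * c⁻¹ = c * (c * (c * t * c⁻¹) * c⁻¹) * c⁻¹ := by rw [e]
        _ = (c * c * c) * t * (c * c * c)⁻¹ := by group
        _ = t := by rw [h8]; group
    obtain ⟨A, h9, h10, h11, h12, h13⟩ := hA.exists_equiv
    have : Q ⊔ zpowers c = A := by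
      refine le_antisymm (sup_le ?_ (zpowers_le.2 h11))
        (h12 _ (mem_sup_left ht) (mem_sup_right (mem_zpowers c)))
      rw [k4_eq_sup hK ht hs ht1 hs1 (hfix t ht ht1).symm]
      exact sup_le (zpowers_le.2 h9) (zpowers_le.2 h10)
    rw [this]
    exact Or.inr (Or.inr h13)

end Cfsg.Agent.S4083
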