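import Cfsg.Statements.S4084
import Cfsg.Agent.Lib.Core.MinNormal

set_option autoImplicit false
open Cfsg

namespace Cfsg.Agent.S4084

section
open Cfsg.Lib Subgroup

theorem aux {G H : Type*} [Group G] [Finite G] [Group H] [Finite H] (e : G ≃ H)
    (he : ∀ x y : G, Commute x y ↔ Commute (e x) (e y))
    {p q : ℕ} (hp : p.Prime) (hq : q.Prime) (hpq : p ≠ q) (h : ∃ g : G, orderOf g = p * q) :
    ∃ h : H, orderOf h = p * q := by
  obtain ⟨g, hg⟩ := h
  have h1 : Nat.card (centralizer (centralizer ({g} : Set G) : Set G)) =
      Nat.card (centralizer (centralizer ({e g} : Set H) : Set H)) := by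
    refine Nat.card_congr (e.subtypeEquiv fun x => ?_)
    simp only [mem_centralizer_iff, SetLike.mem_coe, Set.mem_singleton_iff, forall_eq]
    rw [e.forall_congr_left]
    refine forall_congr' fun y => ?_
    obtain ⟨y, rfl⟩ := e.surjective y
    rw [e.symm_apply_apply]
    exact imp_congr (he g y) (he y x)
  have h2 : p * q ∣ Nat.card (centralizer (centralizer ({e g} : Set H) : Set H)) := by
    rw [← h1, ← hg]
    exact orderOf_dvd_natCard _ fun y hy => mem_centralizer_singleton_iff.mp hy
  obtain ⟨a, ha, hao⟩ := Core.exists_mem_orderOf_eq_prime hp ((Dvd.intro _ rfl).trans h2)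
  obtain ⟨b, hb, hbo⟩ := Core.exists_mem_orderOf_eq_prime hq ((Dvd.intro_left _ rfl).trans h2)
  have h3 : Commute a b := hb a (mem_centralizer_singleton_iff.mpr
    (ha _ (mem_centralizer_singleton_iff.mpr rfl)).symm)
  exact ⟨a * b, by rw [h3.orderOf_mul_eq_mul_orderOf_of_coprime
    (by rw [hao, hbo]; exact (Nat.coprime_primes hp hq).mpr hpq), hao, hbo]⟩

end

/-- Let G and H be finite groups whose commuting graphs are isomorphic: there is a bijection e : G → H with x, y commuting exactly when e(x), e(y) commute. Then G and H have the same prime graph: for distinct primes p, q, G has an element of order pq if and only if H does (and #G = #H, so the prime divisors agree). -/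
theorem result {G H : Type*} [Group G] [Finite G] [Group H] [Finite H] (e : G ≃ H)
    (he : ∀ x y : G, Commute x y ↔ Commute (e x) (e y))
    {p q : ℕ} (hp : p.Prime) (hq : q.Prime) (hpq : p ≠ q) :
    (∃ g : G, orderOf g = p * q) ↔ (∃ h : H, orderOf h = p * q) := by
  open Cfsg.Lib Subgroup in
  exact ⟨aux e he hp hq hpq, aux e.symm (fun x y => by
    rw [he, e.apply_symm_apply, e.apply_symm_apply]) hp hq hpq⟩

end Cfsg.Agent.S4084
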