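import Cfsg.Statements.S4086
import Cfsg.Agent.Lib.Misc.Cyclic

set_option autoImplicit false
open Cfsg

namespace Cfsg.Agent.S4086

/-- For a finite group G the following are equivalent: every non-identity element has prime-power order; whenever two elements generate a cyclic subgroup, one of them is a power of the other (the enhanced power graph of G coincides with its power graph). -/
theorem result {G : Type*} [Group G] [Finite G] :
    (∀ g : G, g ≠ 1 → IsPrimePow (orderOf g)) ↔
    (∀ x y : G, IsCyclic ↥(Subgroup.closure ({x, y} : Set G)) → (x ∈ Subgroup.zpowers y ∨ y ∈ Subgroup.zpowers x)) := by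
  open Cfsg.Lib Subgroup in
  constructor
  · intro h x y hc
    have hx : x ∈ closure ({x, y} : Set G) := subset_closure (by simp)
    have hy : y ∈ closure ({x, y} : Set G) := subset_closure (by simp)
    obtain ⟨g, hg⟩ := (Subgroup.isCyclic_iff_exists_zpowers_eq_top _).mp hc
    by_cases h1 : g = 1
    · rw [← hg, h1, zpowers_one_eq_bot, mem_bot] at hx
      exact Or.inl (hx ▸ one_mem _)
    · obtain ⟨p, k, hp, -, hk⟩ := (isPrimePow_nat_iff _).mp (h g h1)
      obtain ⟨i, -, hi⟩ := (Nat.dvd_prime_pow hp).mp (hk ▸ orderOf_dvd_of_mem_zpowers (hg ▸ hx))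
      obtain ⟨j, -, hj⟩ := (Nat.dvd_prime_pow hp).mp (hk ▸ orderOf_dvd_of_mem_zpowers (hg ▸ hy))
      exact (le_total i j).imp
        (fun h => Misc.mem_zpowers_of_orderOf_dvd_of_cyclic hc hx hy (hi ▸ hj ▸ pow_dvd_pow p h))
        (fun h => Misc.mem_zpowers_of_orderOf_dvd_of_cyclic hc hy hx (hi ▸ hj ▸ pow_dvd_pow p h))
  · intro h g hg
    obtain ⟨p, hp, hd⟩ := Nat.exists_prime_and_dvd (mt orderOf_eq_one_iff.mp hg)
    refine isPrimePow_iff_unique_prime_dvd.mpr ⟨p, ⟨hp, hd⟩, fun q hq => ?_⟩
    have h1 := orderOf_pow_orderOf_div (orderOf_pos g).ne' hd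
    have h2 := orderOf_pow_orderOf_div (orderOf_pos g).ne' hq.2
    have h3 : closure ({g ^ (orderOf g / p), g ^ (orderOf g / q)} : Set G) ≤ zpowers g := by
      rw [closure_le]
      rintro _ (rfl | rfl) <;> exact pow_mem (mem_zpowers g) _
    rcases h _ _ (isCyclic_of_le h3) with h4 | h4
    · have := orderOf_dvd_of_mem_zpowers h4
      rw [h1, h2] at this
      exact ((Nat.prime_dvd_prime_iff_eq hp hq.1).mp this).symm
    · have := orderOf_dvd_of_mem_zpowers h4
      rw [h1, h2] at this
      exact (Nat.prime_dvd_prime_iff_eq hq.1 hp).mp this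

end Cfsg.Agent.S4086
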