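import Cfsg.Statements.S4088
import Cfsg.Agent.Lib.HH.Casolo

set_option autoImplicit false
open Cfsg

namespace Cfsg.Agent.S4088

open Subgroup Cfsg.Lib Cfsg.Lib.BG Cfsg.Lib.Transfer Cfsg.Lib.HH

/-- Let G be a finite group, p a prime dividing the order of G, H a p-subgroup of G and P a Sylow p-subgroup of G. Call the subnormalizer of H the set of elements g of G such that H is subnormal in the subgroup generated by H and g. Then the number of elements of the subnormalizer of H equals the number of Sylow p-subgroups of G containing H times the order of N_G(P), and also equals the number of conjugates of H contained in P times the order of N_G(H). -/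
theorem result {G : Type*} [Group G] [Finite G] (p : ℕ) [Fact p.Prime]
    (hp : p ∣ Nat.card G) (H : Subgroup G) (hH : IsPGroup p H) (P : Sylow p G) :
    Nat.card {g : G // ((H).subgroupOf (H ⊔ Subgroup.zpowers g)).IsSubnormal} =
        Nat.card {Q : Sylow p G // H ≤ (Q : Subgroup G)} * Nat.card (Subgroup.normalizer ((P : Subgroup G) : Set G)) ∧
    Nat.card {g : G // ((H).subgroupOf (H ⊔ Subgroup.zpowers g)).IsSubnormal} =
        Nat.card {K : Subgroup G // K ≤ (P : Subgroup G) ∧ ∃ g : G, K = H.map (MulAut.conj g).toMonoidHom} *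
          Nat.card (Subgroup.normalizer (H : Set G)) := by
  rw [casolo hH (Syl.of_sylow_top P)]
  constructor
  · rw [card_conj_pred (P : Subgroup G) (H ≤ ·)]
    congr 1
    refine (Nat.card_congr (Equiv.ofBijective (fun Q : {Q : Sylow p G // H ≤ (Q : Subgroup G)} =>
      (⟨Q.1, Q.2, ?_⟩ : {K : Subgroup G // H ≤ K ∧ ∃ g : G, K = g ⋆ (P : Subgroup G)})) ⟨?_, ?_⟩)).symm
    · obtain ⟨g, -, e⟩ := Syl.exists_conj_eq (Syl.of_sylow_top P) (Syl.of_sylow_top Q.1)
      exact ⟨g, e⟩
    · intro a b h
      exact Subtype.ext (Sylow.ext (congrArg Subtype.val h))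
    · rintro ⟨K, hK, g, rfl⟩
      exact ⟨⟨g • P, by rw [coe_smul_sylow]; exact hK⟩, Subtype.ext (coe_smul_sylow g P)⟩
  · rw [← card_conj_pred H (· ≤ (P : Subgroup G))]
    exact Nat.card_congr ((Equiv.inv G).subtypeEquiv fun x => by
      simp only [Equiv.inv_apply]; exact le_conj_iff_inv_conj_le)

end Cfsg.Agent.S4088
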