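import Cfsg.Statements.S4089
import Cfsg.Agent.Lib.HH.Casolo

set_option autoImplicit false
open Cfsg

namespace Cfsg.Agent.S4089

open Subgroup Cfsg.Lib Cfsg.Lib.BG Cfsg.Lib.Transfer Cfsg.Lib.HH

/-- Let G be a finite group, p a prime and H a p-subgroup of G. Then the set of elements g of G such that H is subnormal in the subgroup generated by H and g is the union of the normalizers N_G(R) over the subgroups R of G containing H with R = O_p(N_G(R)); and this set does not change when H is replaced by the intersection of all Sylow p-subgroups of G containing H. -/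
theorem result {G : Type*} [Group G] [Finite G] (p : ℕ) [Fact p.Prime]
    (H : Subgroup G) (hH : IsPGroup p H) :
    {g : G | ((H).subgroupOf (H ⊔ Subgroup.zpowers g)).IsSubnormal} =
      {g : G | ∃ R : Subgroup G, H ≤ R ∧ (Cfsg.pCore p (Subgroup.normalizer (R : Set G))).map (Subgroup.normalizer (R : Set G)).subtype = R ∧ g ∈ Subgroup.normalizer (R : Set G)} ∧
    ∀ g : G, (((H).subgroupOf (H ⊔ Subgroup.zpowers g)).IsSubnormal ↔
      (((sInf {K : Subgroup G | ∃ Q : Sylow p G, H ≤ (Q : Subgroup G) ∧ K = (Q : Subgroup G)})).subgroupOf ((sInf {K : Subgroup G | ∃ Q : Sylow p G, H ≤ (Q : Subgroup G) ∧ K = (Q : Subgroup G)}) ⊔ Subgroup.zpowers g)).IsSubnormal) := by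
  constructor
  · ext g
    simp only [Set.mem_setOf_eq, subn_iff hH]
    constructor
    · intro h
      obtain ⟨R, hR⟩ := (Set.toFinite {R : Subgroup G | IsPGroup p R ∧ H ≤ R ∧ g ∈ 𝐍(R)}).exists_maximal h
      obtain ⟨⟨h1, h2, h3⟩, hmax⟩ := hR
      have hle := Core.le_pCoreOf_normalizer h1
      refine ⟨R, h2, le_antisymm (hmax ⟨Core.pCoreOf_isPGroup p _, h2.trans hle, ?_⟩ hle) hle, h3⟩
      exact Core.le_normalizer_pCoreOf p _ h3
    · rintro ⟨R, h1, h2, h3⟩
      exact ⟨R, h2 ▸ Core.pCoreOf_isPGroup p _, h1, h3⟩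
  · intro g
    have key : ∀ K : Subgroup G, IsPGroup p K →
        IsPGroup p ↥(sInf {L : Subgroup G | ∃ Q : Sylow p G, K ≤ (Q : Subgroup G) ∧ L = (Q : Subgroup G)}) := by
      intro K hK
      obtain ⟨Q, hQ⟩ := hK.exists_le_sylow
      exact pgroup_of_le Q.isPGroup' (sInf_le ⟨Q, hQ, rfl⟩)
    rw [subn_iff hH, subn_iff (key H hH)]
    constructor
    · rintro ⟨R, h1, h2, h3⟩
      refine ⟨_, key R h1, le_sInf ?_, mem_normalizer_of_conj_le (le_sInf ?_)⟩
      · rintro _ ⟨Q, hQ, rfl⟩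
        exact sInf_le ⟨Q, h2.trans hQ, rfl⟩
      · rintro _ ⟨Q, hQ, rfl⟩
        rw [conj_le_iff_le_inv_conj]
        refine sInf_le ⟨g⁻¹ • Q, ?_, (coe_smul_sylow _ _).symm⟩
        rw [coe_smul_sylow, ← conj_le_iff_le_inv_conj, conj_eq_of_norm h3]
        exact hQ
    · rintro ⟨R, h1, h2, h3⟩
      refine ⟨R, h1, le_trans (le_sInf ?_) h2, h3⟩
      rintro _ ⟨Q, hQ, rfl⟩
      exact hQ

end Cfsg.Agent.S4089
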