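import Cfsg.Statements.S4090
import Cfsg.Agent.Lib.HH.NavRizo

set_option autoImplicit false
open scoped BigOperators
open Cfsg

namespace Cfsg.Agent.S4090

open Subgroup Cfsg.Lib Cfsg.Lib.BG Cfsg.Lib.Transfer Cfsg.Lib.HH

theorem telescope : ∀ (n : ℕ) (r : Fin (n + 1) → ℚ) (c : Fin n → ℚ),
    (∀ i, r i.castSucc = c i * r i.succ) → r 0 = (∏ i, c i) * r (Fin.last n)
  | 0, r, c, _ => by simp
  | n + 1, r, c, h => by
    have := telescope n (fun i => r i.succ) (fun i => c i.succ) fun i => by
      simpa only [Fin.succ_castSucc] using h i.succ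
    rw [Fin.prod_univ_succ, mul_assoc, ← Fin.succ_last, ← this]
    exact h 0

/-- Let G be a finite p-solvable group, H a p-subgroup of G and P a Sylow p-subgroup, and fix a chain of normal subgroups 1 = M₀ ≤ M₁ ≤ ⋯ ≤ Mₙ = G of G each of whose factors is a p-group or a p'-group. Then the number of elements g of G such that H is subnormal in the subgroup generated by H and g equals the order of P times the product, over the factors Mᵢ₊₁/Mᵢ of order prime to p, of the order of the centralizer of H in Mᵢ₊₁/Mᵢ (counted as the number of u ∈ Mᵢ₊₁ with [h, u] ∈ Mᵢ for all h ∈ H, divided by the order of Mᵢ). -/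
theorem result {G : Type*} [Group G] [Finite G] (p : ℕ) [Fact p.Prime]
    (hG : Cfsg.IsPSolvable p G) (H : Subgroup G) (hH : IsPGroup p H) (P : Sylow p G)
    (n : ℕ) (M : Fin (n + 1) → Subgroup G) (h0 : M 0 = ⊥) (hn : M (Fin.last n) = ⊤) (hmono : Monotone M)
    (hnormal : ∀ i, (M i).Normal)
    (hfac : ∀ i : Fin n, (∃ m : ℕ, (M i.castSucc).relIndex (M i.succ) = p ^ m) ∨ ((M i.castSucc).relIndex (M i.succ)).Coprime p) :
    Nat.card {g : G // ((H).subgroupOf (H ⊔ Subgroup.zpowers g)).IsSubnormal} =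
      Nat.card (P : Subgroup G) *
        ∏ i : Fin n, (if ((M i.castSucc).relIndex (M i.succ)).Coprime p then
          Nat.card {u : G // u ∈ M i.succ ∧ ∀ h ∈ H, h * u * h⁻¹ * u⁻¹ ∈ M i.castSucc} / Nat.card (M i.castSucc)
          else 1) := by
  have hP := Syl.of_sylow_top P
  have e0 : Nat.card {g : G // ((H).subgroupOf (H ⊔ Subgroup.zpowers g)).IsSubnormal} = amod P ⊥ H := by
    rw [casolo hH hP, amod, sup_bot_eq]
    exact Nat.card_congr ((Equiv.inv G).subtypeEquiv fun x => by
      simp only [Equiv.inv_apply]; exact le_conj_iff_inv_conj_le)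
  rw [e0]
  have key := telescope n (fun i => (amod P (M i) H : ℚ) / Nat.card ↥((P : Subgroup G) ⊔ M i))
    (fun i => ((if ((M i.castSucc).relIndex (M i.succ)).Coprime p then
          cmod (M i.castSucc) (M i.succ) H / Nat.card (M i.castSucc) else 1 : ℕ) : ℚ)) ?_
  · simp only [h0, hn, amod_top, sup_bot_eq, sup_top_eq, card_top] at key
    have h1 : (Nat.card G : ℚ) ≠ 0 := Nat.cast_ne_zero.2 Nat.card_pos.ne'
    have h2 : (Nat.card (P : Subgroup G) : ℚ) ≠ 0 := Nat.cast_ne_zero.2 Nat.card_pos.ne'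
    rw [div_self h1, mul_one, div_eq_iff h2, mul_comm] at key
    exact_mod_cast key
  · intro i
    haveI := hnormal i.castSucc
    haveI := hnormal i.succ
    have hle : M i.castSucc ≤ M i.succ := hmono (Fin.castSucc_lt_succ (i := i)).le
    split_ifs with hc
    · have h1 := amod_step hP hle hc hH
      have h2 := card_sup_step hP.pgroup hle hc
      rw [cmod_eq hle] at h1 ⊢
      rw [Nat.mul_div_cancel _ Nat.card_pos]
      have a1 : (Nat.card ↥((P : Subgroup G) ⊔ M i.castSucc) : ℚ) ≠ 0 := Nat.cast_ne_zero.2 Nat.card_pos.ne'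
      have a2 : (Nat.card ↥((P : Subgroup G) ⊔ M i.succ) : ℚ) ≠ 0 := Nat.cast_ne_zero.2 Nat.card_pos.ne'
      have a3 : (Nat.card ↥(M i.castSucc) : ℚ) ≠ 0 := Nat.cast_ne_zero.2 Nat.card_pos.ne'
      have a4 : (Nat.card ↥(M i.succ) : ℚ) ≠ 0 := Nat.cast_ne_zero.2 Nat.card_pos.ne'
      have h1' := congrArg (Nat.cast : ℕ → ℚ) h1
      have h2' := congrArg (Nat.cast : ℕ → ℚ) h2
      push_cast at h1' h2'
      field_simp
      apply mul_right_cancel₀ a3
      apply mul_right_cancel₀ a4
      linear_combination (Nat.card ↥((P : Subgroup G) ⊔ M i.castSucc) : ℚ) * (Nat.card ↥(M i.succ) : ℚ) * h1' +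
        (amod P (M i.castSucc) H : ℚ) * (Nat.card ↥(M i.succ) : ℚ) * h2'
    · have := sup_eq_of_pow hP hle ((hfac i).resolve_right hc)
      simp only [amod, this, Nat.cast_one, one_mul]

end Cfsg.Agent.S4090
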