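import Cfsg.Statements.S4091
import Cfsg.Agent.Lib.HH.NavRizo

set_option autoImplicit false
open Cfsg

namespace Cfsg.Agent.S4091

open Subgroup Cfsg.Lib Cfsg.Lib.BG Cfsg.Lib.Transfer Cfsg.Lib.HH
open scoped Classical

theorem amgm {ι : Type*} [Fintype ι] [Nonempty ι] (z : ι → ℝ) (hz : ∀ i, 0 ≤ z i) :
    ∏ i, z i ≤ ((∑ i, z i) / Fintype.card ι) ^ Fintype.card ι := by
  have hc : (0 : ℝ) < Fintype.card ι := Nat.cast_pos.2 Fintype.card_pos
  have := Real.geom_mean_le_arith_mean Finset.univ (fun _ => (1 : ℝ)) z (fun _ _ => zero_le_one)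
    (by simpa using hc) (fun i _ => hz i)
  simp only [Real.rpow_one, Finset.sum_const, Finset.card_univ, nsmul_eq_mul, mul_one, one_mul] at this
  rw [Real.rpow_inv_le_iff_of_pos (Finset.prod_nonneg fun i _ => hz i)
    (div_nonneg (Finset.sum_nonneg fun i _ => hz i) hc.le) hc, Real.rpow_natCast] at this
  exact this

theorem amgm' {ι : Type*} [Fintype ι] [Nonempty ι] (a : ι → ℝ) (ha : ∀ i, 0 < a i) :
    (Nat.card ι : ℝ) ^ Nat.card ι ≤ (∑ i, (a i)⁻¹) ^ Nat.card ι * ∏ i, a i := by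
  have hag := amgm (fun i => (a i)⁻¹) fun i => (inv_pos.2 (ha i)).le
  rw [← Nat.card_eq_fintype_card, Finset.prod_inv_distrib] at hag
  have hm' : (0 : ℝ) < Nat.card ι := Nat.cast_pos.2 Nat.card_pos
  rwa [div_pow, inv_le_iff_one_le_mul₀ (Finset.prod_pos fun y _ => ha y), div_mul_eq_mul_div,
    one_le_div (pow_pos hm' _)] at hag

theorem step {G : Type*} [Group G] [Finite G] {p : ℕ} [hp : Fact p.Prime] {P L N : Subgroup G} [Fintype P]
    [L.Normal] [N.Normal] (hP : Syl p P ⊤) (h : L ≤ N) (hi : (L.relIndex N).Coprime p)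
    (ih : (∏ y : P, amod P N (zpowers (y : G))) ^ p ≤
      Nat.card G ^ Nat.card P * amod P N P ^ ((p - 1) * Nat.card P)) :
    (∏ y : P, amod P L (zpowers (y : G))) ^ p ≤
      Nat.card G ^ Nat.card P * amod P L P ^ ((p - 1) * Nat.card P) := by
  set π := QuotientGroup.mk' L
  have hN : Nat.card N = Nat.card (N.map π) * Nat.card L := by
    rw [← Core.card_comap_mk', QuotientGroup.comap_map_mk', sup_eq_right.2 h]
  have hN' : Nat.card (N.map π) = L.relIndex N := by
    apply Nat.eq_of_mul_eq_mul_right (Nat.card_pos (α := L))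
    rw [← hN, mul_comm, BG.card_mul_relIndex h]
  have key : ∀ H : Subgroup G, IsPGroup p H →
      amod P L H * Nat.card (N.map π) = amod P N H * Nat.card ↥(N.map π ⊓ 𝐂(H.map π)) := by
    intro H hH
    have := amod_step hP h hi hH
    rw [cmod_eq h, hN, ← mul_assoc, ← mul_assoc] at this
    exact Nat.eq_of_mul_eq_mul_right Nat.card_pos this
  haveI : (N.map π).Normal := Normal.map inferInstance π (QuotientGroup.mk'_surjective L)
  have nr := navarro_rizo hP.pgroup (π.comp P.subtype) (V := N.map π)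
    (fun a => by rw [normalizer_eq_top]; trivial) (hN' ▸ hi)
  have e1 : (⊤ : Subgroup P).map (π.comp P.subtype) = P.map π := by
    rw [← Subgroup.map_map, ← MonoidHom.range_eq_map, range_subtype]
  have e2 : ∀ y : P, (zpowers y).map (π.comp P.subtype) = (zpowers (y : G)).map π := by
    intro y
    rw [← Subgroup.map_map, MonoidHom.map_zpowers]; rfl
  simp only [e1, e2] at nr
  have e3 : (∏ y : P, amod P L (zpowers (y : G))) * Nat.card (N.map π) ^ Nat.card P =
      (∏ y : P, amod P N (zpowers (y : G))) * ∏ y : P, Nat.card ↥(N.map π ⊓ 𝐂((zpowers (y : G)).map π)) := by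
    rw [← Finset.prod_mul_distrib, ← Finset.prod_congr rfl fun (y : P) _ => key (zpowers (y : G))
      (pgroup_of_le hP.pgroup (zpowers_le.2 y.2)), Finset.prod_mul_distrib, Finset.prod_const,
      Finset.card_univ, Nat.card_eq_fintype_card (α := P)]
  apply Nat.le_of_mul_le_mul_right (c := (Nat.card (N.map π) ^ Nat.card P) ^ p) _
    (pow_pos (pow_pos Nat.card_pos _) _)
  rw [← mul_pow, e3, mul_pow]
  refine (Nat.mul_le_mul ih nr).trans (le_of_eq ?_)
  obtain ⟨q, rfl⟩ : ∃ q, p = q + 1 := ⟨p - 1, (Nat.sub_add_cancel hp.out.one_le).symm⟩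
  rw [Nat.add_sub_cancel]
  calc _ = Nat.card G ^ Nat.card P * (amod P N P * Nat.card ↥(N.map π ⊓ 𝐂(P.map π))) ^ (q * Nat.card P) *
      Nat.card (N.map π) ^ Nat.card P := by rw [mul_pow]; ring
    _ = _ := by rw [← key P hP.pgroup, mul_pow]; ring

theorem numer {p m : ℕ} {s A ν n g : ℝ} (hp : 1 ≤ p) (hs : 0 ≤ s) (hA : 0 ≤ A) (hn : 0 ≤ n) (hν : 0 ≤ ν)
    (hag : (m : ℝ) ^ m ≤ s ^ m * A) (k1 : A ^ p ≤ g ^ m * ν ^ ((p - 1) * m)) (e : ν * n = g) :
    ((m : ℝ) ^ p * n ^ (p - 1)) ^ m ≤ ((g * s) ^ p) ^ m := by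
  obtain ⟨q, rfl⟩ : ∃ q, p = q + 1 := ⟨p - 1, (Nat.sub_add_cancel hp).symm⟩
  rw [Nat.add_sub_cancel] at k1 ⊢
  calc _ = ((m : ℝ) ^ m) ^ (q + 1) * n ^ (q * m) := by ring
    _ ≤ (s ^ m * A) ^ (q + 1) * n ^ (q * m) := by gcongr
    _ = (s ^ m) ^ (q + 1) * A ^ (q + 1) * n ^ (q * m) := by ring
    _ ≤ (s ^ m) ^ (q + 1) * (g ^ m * ν ^ (q * m)) * n ^ (q * m) := by gcongr
    _ = (s ^ m) ^ (q + 1) * g ^ m * (ν * n) ^ (q * m) := by ring
    _ = _ := by rw [e]; ring

theorem numer2 {p : ℕ} (hp : 1 ≤ p) (g m : ℕ) : (g ^ m) ^ p ≤ g ^ m * g ^ ((p - 1) * m) := by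
  obtain ⟨q, rfl⟩ : ∃ q, p = q + 1 := ⟨p - 1, (Nat.sub_add_cancel hp).symm⟩
  rw [Nat.add_sub_cancel]
  apply le_of_eq; ring

theorem amod_conj {G : Type*} [Group G] (P L H : Subgroup G) (g : G) : amod P L (g ⋆ H) = amod P L H :=
  Nat.card_congr ((Equiv.mulRight g).subtypeEquiv fun x => by simp only [conj_conj, Equiv.coe_mulRight])

theorem count {G : Type*} [Group G] [Finite G] {p : ℕ} [hp : Fact p.Prime] {P : Subgroup G} [Fintype P]
    (hP : Syl p P ⊤) : (Nat.card {g : G // ∃ k : ℕ, orderOf g = p ^ k} : ℝ) =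
      Nat.card G * ∑ y : P, (amod P ⊥ (zpowers (y : G)) : ℝ)⁻¹ := by
  cases nonempty_fintype G
  have e1 : (Nat.card {g : G // ∃ k : ℕ, orderOf g = p ^ k} : ℝ) =
      ∑ x : G, ∑ g ∈ Finset.univ.filter (fun g : G => g * x * g⁻¹ ∈ P), (amod P ⊥ (zpowers x) : ℝ)⁻¹ := by
    rw [Nat.card_eq_fintype_card, Fintype.card_subtype, Finset.card_filter]
    push_cast
    refine Finset.sum_congr rfl fun x _ => ?_
    have e : amod P ⊥ (zpowers x) = (Finset.univ.filter (fun g : G => g * x * g⁻¹ ∈ P)).card := by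
      rw [amod, Nat.card_eq_fintype_card, Fintype.card_subtype]
      simp only [sup_bot_eq, conj_zpowers, zpowers_le]
    rw [Finset.sum_const, nsmul_eq_mul, ← e]
    split_ifs with hx
    · rw [mul_inv_cancel₀]
      obtain ⟨g, -, hg⟩ := Syl.exists_conj_le hP (pgroup_zpowers (pElt_iff_orderOf.2 hx)) le_top
      rw [e, Nat.cast_ne_zero, Finset.card_ne_zero]
      exact ⟨g, by simpa only [Finset.mem_filter, Finset.mem_univ, true_and, conj_zpowers, zpowers_le] using hg⟩
    · rw [e, Finset.filter_eq_empty_iff.2]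
      · simp
      · intro g _ hg
        apply hx
        have := (pElt_of_mem hP.pgroup hg).conj g⁻¹
        exact pElt_iff_orderOf.1 (by simpa [mul_assoc] using this)
  rw [e1, Finset.sum_comm' (t' := Finset.univ) (s' := fun g => Finset.univ.filter fun x : G => g * x * g⁻¹ ∈ P)
    (by intro x g; simp), Nat.card_eq_fintype_card, ← nsmul_eq_mul, ← Finset.card_univ, ← Finset.sum_const]
  refine Finset.sum_congr rfl fun g _ => ?_
  refine Finset.sum_bij (fun x hx => ⟨g * x * g⁻¹, (Finset.mem_filter.1 hx).2⟩) (fun _ _ => Finset.mem_univ _)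
    ?_ ?_ ?_
  · intro a _ b _ h
    simpa using h
  · intro y _
    exact ⟨g⁻¹ * y * g, by simp [mul_assoc], Subtype.ext (by simp [mul_assoc])⟩
  · intro x _
    rw [← conj_zpowers, amod_conj]

/-- Let G be a finite p-solvable group, P a Sylow p-subgroup of G, u the number of p-elements of G (elements of p-power order, the identity included) and n the number of Sylow p-subgroups of G. Then u/#P ≥ n^((p−1)/p), stated as u^p ≥ #P^p · n^(p−1). -/
theorem result {G : Type*} [Group G] [Finite G] (p : ℕ) [Fact p.Prime]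
    (hG : Cfsg.IsPSolvable p G) (P : Sylow p G) :
    Nat.card (P : Subgroup G) ^ p * Nat.card (Sylow p G) ^ (p - 1) ≤ Nat.card {g : G // ∃ k : ℕ, orderOf g = p ^ k} ^ p := by
  have hP := Syl.of_sylow_top P
  obtain ⟨n, M, h0, hn, hmono, hnormal, hfac⟩ := hG
  cases nonempty_fintype (P : Subgroup G)
  have key : ∀ i, (∏ y : (P : Subgroup G), amod P (M i) (zpowers (y : G))) ^ p ≤
      Nat.card G ^ Nat.card (P : Subgroup G) * amod P (M i) P ^ ((p - 1) * Nat.card (P : Subgroup G)) := by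
    intro i
    induction i using Fin.reverseInduction with
    | last =>
      simp only [hn, amod_top, Finset.prod_const, Finset.card_univ, ← Nat.card_eq_fintype_card]
      exact numer2 (Fact.out : p.Prime).one_le _ _
    | cast i ih =>
      haveI := hnormal i.castSucc
      haveI := hnormal i.succ
      have hle : M i.castSucc ≤ M i.succ := hmono (Fin.castSucc_lt_succ (i := i)).le
      rcases hfac i with hc | hc
      · simpa only [amod, sup_eq_of_pow hP hle hc] using ih
      · exact step hP hle hc ih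
  have k0 := key 0
  rw [h0] at k0
  have hν : amod (P : Subgroup G) ⊥ P * Nat.card (Sylow p G) = Nat.card G := by
    rw [Sylow.card_eq_index_normalizer P, ← card_mul_index (𝐍((P : Subgroup G)))]
    congr 1
    refine Nat.card_congr (Equiv.subtypeEquivRight fun x => ?_)
    rw [sup_bot_eq]
    exact ⟨mem_normalizer_of_conj_le, fun h => (conj_eq_of_norm h).le⟩
  have hu := count hP
  have ha : ∀ y : (P : Subgroup G), (0 : ℝ) < amod P ⊥ (zpowers (y : G)) := by
    intro y
    refine Nat.cast_pos.2 (@Nat.card_pos _ ⟨⟨1, ?_⟩⟩ _)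
    rw [conj_one, sup_bot_eq, zpowers_le]
    exact y.2
  have hag := amgm' _ ha
  have hs : 0 ≤ ∑ y : (P : Subgroup G), (amod P ⊥ (zpowers (y : G)) : ℝ)⁻¹ :=
    Finset.sum_nonneg fun y _ => (inv_pos.2 (ha y)).le
  have hA : (0 : ℝ) < ∏ y : (P : Subgroup G), (amod P ⊥ (zpowers (y : G)) : ℝ) := Finset.prod_pos fun y _ => ha y
  have k1 := (Nat.cast_le (α := ℝ)).2 k0
  rw [Nat.cast_pow, Nat.cast_prod, Nat.cast_mul, Nat.cast_pow, Nat.cast_pow] at k1
  have hν' := congrArg (Nat.cast : ℕ → ℝ) hν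
  rw [Nat.cast_mul] at hν'
  have hm : 0 < Nat.card (P : Subgroup G) := Nat.card_pos
  generalize (∑ y : (P : Subgroup G), (amod P ⊥ (zpowers (y : G)) : ℝ)⁻¹) = s at hu hag hs
  generalize (∏ y : (P : Subgroup G), (amod P ⊥ (zpowers (y : G)) : ℝ)) = A at hag hA k1
  generalize Nat.card (P : Subgroup G) = m at hag k1 hm
  generalize Nat.card {g : G // ∃ k : ℕ, orderOf g = p ^ k} = u at hu
  generalize Nat.card (Sylow p G) = n at hν'
  generalize amod (P : Subgroup G) ⊥ P = ν at hν' k1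
  have goal := numer (Fact.out : p.Prime).one_le hs hA.le (Nat.cast_nonneg _) (Nat.cast_nonneg _) hag k1 hν'
  have := (pow_le_pow_iff_left₀ (by positivity) (by positivity) hm.ne').1 goal
  rw [← hu] at this
  exact_mod_cast this

end Cfsg.Agent.S4091
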