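import Cfsg.Statements.S4092
import Cfsg.Agent.Lib.FGS.Misc

set_option autoImplicit false
open Cfsg

namespace Cfsg.Agent.S4092

/-- Let G be a finite group, p a prime and P a Sylow p-subgroup of G that is not normal in G. Then G has at least p·#P elements of p-power order (the identity included). -/
theorem result {G : Type*} [Group G] [Finite G] (p : ℕ) [Fact p.Prime]
    (P : Sylow p G) (hP : ¬ (P : Subgroup G).Normal) :
    p * Nat.card (P : Subgroup G) ≤ Nat.card {g : G // ∃ k : ℕ, orderOf g = p ^ k} := by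
  open Cfsg.Lib.FGS Cfsg.Lib.BG Cfsg.Lib.Transfer Finset in
  classical
  haveI := Fintype.ofFinite G
  haveI := Fintype.ofFinite (Sylow p G)
  have hp : p.Prime := Fact.out
  obtain ⟨Q, hQ⟩ : ∃ Q : Sylow p G, Q ≠ P := by
    by_contra hc
    push Not at hc
    haveI : Subsingleton (Sylow p G) := ⟨fun a b => (hc a).trans (hc b).symm⟩
    exact hP P.normal_of_subsingleton
  obtain ⟨D, ⟨A, B, hAB, rfl⟩, hmax⟩ := Finite.exists_le_maximal
    (p := fun D : Subgroup G => ∃ A B : Sylow p G, A ≠ B ∧ D = (A : Subgroup G) ⊓ B) ⟨Q, P, hQ, rfl⟩ |>.imp fun _ h => h.2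
  set D : Subgroup G := (A : Subgroup G) ⊓ B with hD
  have hDp : IsPGroup p D := A.isPGroup'.to_inf_left
  let S : Finset (Sylow p G) := univ.filter fun R => D ≤ R
  have hS1 : #S ≡ 1 [MOD p] := by
    have h1 := hDp.card_modEq_card_fixedPoints (Sylow p G)
    have h2 : Nat.card (MulAction.fixedPoints D (Sylow p G)) = #S := by
      rw [Nat.card_eq_fintype_card, Fintype.card_subtype]
      congr 1
      ext R
      simp only [S, mem_filter, mem_univ, true_and]
      exact IsPGroup.sylow_mem_fixedPoints_iff hDp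
    rw [← h2]
    exact h1.symm.trans (card_sylow_modEq_one p G)
  have hS2 : p + 1 ≤ #S := by
    have h1 : 1 < #S := one_lt_card.2 ⟨A, by simp [S, hD], B, by simp [S, hD], hAB⟩
    have := Nat.le_of_dvd (by omega) ((Nat.modEq_iff_dvd' h1.le).1 hS1.symm)
    omega
  let F : Sylow p G → Finset G := fun R => univ.filter fun x => x ∈ R ∧ x ∉ D
  have hF : ∀ R ∈ S, #(F R) + Nat.card D = Nat.card (P : Subgroup G) := by
    intro R hR
    have h1 : Nat.card (R : Subgroup G) = Nat.card (P : Subgroup G) := by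
      rw [R.card_eq_multiplicity, P.card_eq_multiplicity]
    rw [← h1, Nat.card_eq_fintype_card, Nat.card_eq_fintype_card, Fintype.card_subtype, Fintype.card_subtype,
      ← card_union_of_disjoint (by simp [F, disjoint_left])]
    congr 1
    ext x
    have := @(mem_filter.1 hR).2 x
    simp only [F, mem_union, mem_filter, mem_univ, true_and]
    constructor
    · rintro (h | h)
      exacts [h.1, this h]
    · intro h; by_cases h' : x ∈ D
      exacts [Or.inr h', Or.inl ⟨h, h'⟩]
  have hdisj : (S : Set (Sylow p G)).PairwiseDisjoint F := by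
    intro R hR T hT hne
    rw [Function.onFun, disjoint_left]
    intro x h1 h2
    simp only [F, mem_filter, mem_univ, true_and] at h1 h2
    exact h1.2 (hmax ⟨R, T, hne, rfl⟩ (le_inf (mem_filter.1 hR).2 (mem_filter.1 hT).2) ⟨h1.1, h2.1⟩)
  have hsub : S.biUnion F ⊆ univ.filter fun g : G => ∃ k : ℕ, orderOf g = p ^ k := by
    intro x hx
    obtain ⟨R, -, hR⟩ := mem_biUnion.1 hx
    simp only [F, mem_filter, mem_univ, true_and] at hR ⊢
    exact orderOf_eq_pow_iff.2 (exists_pow_of_mem R.isPGroup' hR.1)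
  have hsub2 : S.biUnion F ∪ univ.filter (· ∈ D) ⊆ univ.filter fun g : G => ∃ k : ℕ, orderOf g = p ^ k := by
    refine union_subset hsub fun x hx => ?_
    simp only [mem_filter, mem_univ, true_and] at hx ⊢
    exact orderOf_eq_pow_iff.2 (exists_pow_of_mem hDp hx)
  have h5 := card_le_card hsub2
  rw [card_union_of_disjoint (by
    rw [disjoint_left]; intro x hx h
    obtain ⟨R, -, hR⟩ := mem_biUnion.1 hx
    exact (mem_filter.1 hR).2.2 (mem_filter.1 h).2), card_biUnion hdisj,
    sum_congr rfl fun R hR => Nat.eq_sub_of_add_eq (hF R hR), sum_const, smul_eq_mul] at h5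
  rw [Nat.card_eq_fintype_card (α := {g : G // ∃ k : ℕ, orderOf g = p ^ k}), Fintype.card_subtype]
  refine le_trans ?_ h5
  have h6 : #(univ.filter (· ∈ D)) = Nat.card D := by rw [Nat.card_eq_fintype_card, Fintype.card_subtype]
  have h7 : p * Nat.card D ≤ Nat.card (P : Subgroup G) := by
    have h1 : Nat.card (A : Subgroup G) = Nat.card (P : Subgroup G) := by
      rw [A.card_eq_multiplicity, P.card_eq_multiplicity]
    rw [← h1, ← Cfsg.Lib.BG.card_mul_relIndex (inf_le_left : D ≤ A), mul_comm]
    refine Nat.mul_le_mul_left _ (Nat.le_of_dvd (Nat.pos_of_ne_zero Subgroup.index_ne_zero_of_finite) ?_)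
    obtain ⟨k, hk⟩ := A.isPGroup'.index (D.subgroupOf A)
    rw [Subgroup.relIndex, hk]
    refine dvd_pow_self p fun e => hAB (sylow_eq_of_le ?_)
    rw [e, pow_zero] at hk
    exact (Subgroup.relIndex_eq_one.1 hk).trans inf_le_right
  rw [h6]
  have h8 := Nat.mul_le_mul_right (Nat.card (P : Subgroup G) - Nat.card D) hS2
  have h9 : Nat.card D ≤ Nat.card (P : Subgroup G) := by nlinarith [hp.pos]
  obtain ⟨c, hc⟩ := Nat.exists_eq_add_of_le h9
  rw [hc] at h7 h8 ⊢
  rw [Nat.add_sub_cancel_left] at h8 ⊢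
  nlinarith

end Cfsg.Agent.S4092
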