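import Cfsg.Statements.S4093
import Cfsg.Agent.Lib.FGS.Classes

set_option autoImplicit false
open scoped BigOperators
open Cfsg

namespace Cfsg.Agent.S4093

/-- Let G be a finite group with a normal subgroup N complementing a Sylow p-subgroup P (a normal p-complement). Then the number of elements of G of p-power order equals the sum over x ∈ P of the index of C_N(x) in N. -/
theorem result {G : Type*} [Group G] [Finite G] (p : ℕ) [Fact p.Prime]
    (P : Sylow p G) (N : Subgroup G) [N.Normal] (hNP : N.IsComplement' (P : Subgroup G)) :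
    Nat.card {g : G // ∃ k : ℕ, orderOf g = p ^ k} =
      ∑ᶠ x : (P : Subgroup G), Nat.card N / Nat.card ↥(N ⊓ Subgroup.centralizer ({(x : G)} : Set G)) := by
  open Cfsg.Lib.FGS Cfsg.Lib.BG Finset in
  classical
  haveI := Fintype.ofFinite G
  have hc : (Nat.card N).Coprime p := by
    rw [← hNP.index_eq_card]
    exact ((Fact.out : p.Prime).coprime_iff_not_dvd.2 P.not_dvd_index).symm
  have hx : ∀ g : G, ∃ x : (P : Subgroup G), g * (x : G)⁻¹ ∈ N := fun g => by
    obtain ⟨⟨n, x⟩, h⟩ := hNP.2 g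
    exact ⟨x, by rw [← h]; simp⟩
  choose f hf using hx
  have hu : ∀ (g : G) (x : (P : Subgroup G)), g * (x : G)⁻¹ ∈ N → f g = x := by
    intro g x h
    have h1 : (x : G) * (f g : G)⁻¹ ∈ N ⊓ (P : Subgroup G) := by
      refine Subgroup.mem_inf.2 ⟨?_, mul_mem x.2 (inv_mem (f g).2)⟩
      have := mul_mem (inv_mem h) (hf g)
      simpa [mul_assoc] using this
    rw [hNP.disjoint.eq_bot, Subgroup.mem_bot, mul_inv_eq_one] at h1
    exact Subtype.ext h1.symm
  rw [finsum_eq_sum_of_fintype, Nat.card_eq_fintype_card, Fintype.card_subtype,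
    card_eq_sum_card_fiberwise (f := f) (t := univ) fun _ _ => mem_univ _]
  refine sum_congr rfl fun x _ => ?_
  rw [← ncard_hcl_mul N (x : G), Nat.mul_div_cancel _ Nat.card_pos, ← Set.ncard_coe_finset]
  congr 1
  ext g
  obtain ⟨k, hk⟩ := exists_pow_of_mem P.isPGroup' x.2
  simp only [coe_filter, mem_filter, mem_univ, true_and, Set.mem_ofPred_eq, orderOf_eq_pow_iff]
  constructor
  · rintro ⟨⟨l, hl⟩, rfl⟩
    exact exists_conj_eq_of_mul_inv_mem hc hk hl (hf g)
  · rintro ⟨n, hn, rfl⟩
    refine ⟨⟨k, conj_pow_eq_one hk⟩, hu _ _ ?_⟩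
    have := mul_mem hn (‹N.Normal›.conj_mem _ (inv_mem hn) x)
    simpa [mul_assoc] using this

end Cfsg.Agent.S4093
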