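import Cfsg.Statements.S4097
import Cfsg.Agent.Lib.BG.Hall
import Cfsg.Agent.Lib.FGS.TwoFrob

set_option autoImplicit false
open Cfsg

namespace Cfsg.Agent.S4097

/-- Let A be a solvable subgroup of a finite group G such that A lies in the centre of every solvable subgroup of G containing A. Then A lies in the centre of G. -/
theorem result {G : Type*} [Group G] [Finite G]
    (A : Subgroup G) (hA : Group.IsSolvable A)
    (hc : ∀ S : Subgroup G, A ≤ S → Group.IsSolvable S → ∀ a ∈ A, ∀ s ∈ S, a * s = s * a) : A ≤ Subgroup.center G := by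
  open Subgroup Cfsg.Lib Cfsg.Lib.BG Cfsg.Lib.Transfer in
  open Cfsg.Lib.BG Cfsg.Lib.FGS in
  generalize hn : Nat.card G = n
  induction n using Nat.strong_induction_on generalizing G with | _ n ih =>
  subst hn
  by_cases h1 : ∃ R : Subgroup G, R.Normal ∧ R ≠ ⊥ ∧ Group.IsSolvable R
  · obtain ⟨R, _, h0, hR⟩ := h1
    have k : ∀ S : Subgroup (G ⧸ R), Group.IsSolvable S → Group.IsSolvable (S.comap (QuotientGroup.mk' R)) :=
      fun S hS => Core.isSolvable_comap_mk' hS hR
    have := ih _ (Core.card_quotient_lt h0) (A.map (QuotientGroup.mk' R)) (Core.isSolvable_map _ hA) (by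
      rintro S h hS _ ⟨a, ha, rfl⟩ s hs
      obtain ⟨s, rfl⟩ := QuotientGroup.mk'_surjective R s
      rw [← map_mul, hc _ (map_le_iff_le_comap.1 h) (k S hS) a ha s hs, map_mul]) rfl
    exact fun a ha => mem_center_iff.2 fun g => (hc _ (map_le_iff_le_comap.1 (this.trans le_sup_right))
      (k (zpowers (g : G ⧸ R) ⊔ center _) (Core.isSolvable_sup_of_normal (Core.isSolvable_of_isMulCommutative _)
        (Core.isSolvable_of_isMulCommutative _))) a ha g (mem_comap.2 (mem_sup_left (mem_zpowers _)))).symm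
  by_contra h0
  have hH : A ≤ 𝐂(A) := fun a ha => mem_cent.2 fun b hb => hc A le_rfl hA b hb a ha
  have k : ∀ (p : ℕ) [Fact p.Prime] (R : Subgroup G), IsPGroup p R → R ≠ ⊥ → R ≤ 𝐂(A) → 𝐍(R) ≤ 𝐂(A) := fun p _ R hR r0 h => by
    have l : A ≤ 𝐍(R) := (le_centralizer_iff.1 h).trans (cent_le_norm R)
    have := ih _ (Core.card_lt_of_ne_top (H := 𝐍(R)) fun e => h1 ⟨R, normalizer_eq_top_iff.1 e, r0, Core.isSolvable_of_isPGroup hR⟩)
      (A.subgroupOf 𝐍(R)) (Core.isSolvable_subgroupOf _ hA) (fun S h hS a ha s hs => Subtype.ext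
        (hc (S.map (Subgroup.subtype _)) (by rw [← map_subgroupOf_eq_of_le l]; exact map_mono h) (Core.isSolvable_map _ hS) a ha s
          (mem_map_of_mem _ hs))) rfl
    exact fun x hx => mem_cent.2 fun a ha => (congrArg Subtype.val (mem_center_iff.1 (this (x := ⟨a, l ha⟩) ha) ⟨x, hx⟩)).symm
  have hF : IsFrobeniusComplement 𝐂(A) := by
    refine ⟨fun e => h0 ((hH.trans e.le).trans bot_le), fun e => h0 fun a ha => mem_center_iff.2 fun g =>
      (mem_cent.1 (e.ge (mem_top g)) a ha).symm, fun g hg => by_contra fun n => hg ?_⟩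
    obtain ⟨p, hp, d⟩ := Nat.exists_prime_and_dvd (card_eq_one.not.2 n)
    have := Fact.mk hp
    obtain ⟨R, hR⟩ := Syl.exists (p := p) (𝐂(A) ⊓ g ⋆ 𝐂(A))
    have r0 := hR.ne_bot' d
    have l1 := k p R hR.pgroup r0 (hR.le.trans inf_le_left)
    have l0 := le_conj_iff_inv_conj_le.1 (hR.le.trans inf_le_right)
    have l2 := k p (g⁻¹ ⋆ R) (isPGroup_conj hR.pgroup _) (conj_eq_bot_iff.not.2 r0) l0
    rw [← conj_normalizer, ← le_conj_iff_inv_conj_le] at l2
    obtain ⟨P, rfl⟩ := Syl.top_iff_sylow.1 (hR.of_norm_le le_top (inf_le_right.trans (le_inf l1 l2)))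
    obtain ⟨c, h, e⟩ := exists_mul_mem_normalizer_sylow P (hR.le.trans inf_le_left) l0
    simpa using inv_mem (mul_mem (inv_mem h) (l1 e))
  obtain ⟨K, _, e, h2, -⟩ := Frobenius.exists_kernel hF
  exact h1 ⟨K, ‹_›, h2, Core.isSolvable_of_isNilpotent (frob_facts hF e.symm).2.2.2.2.1⟩

end Cfsg.Agent.S4097
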