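import Cfsg.Statements.S4100
import Cfsg.Agent.Lib.AltC.Main

set_option autoImplicit false
open Cfsg

namespace Cfsg.Agent.S4100

open Cfsg.Lib.AltC


/-- Let G be a finite group and p a prime other than 3 such that the centralizer of every non-central element of p-power order is solvable. Then every alternating group of degree at least 5 involved in G (as a section) has degree at most p + 4, or at most p + 6 = 8 when p = 2. -/
theorem result {G : Type*} [Group G] [Finite G] (p : ℕ) [Fact p.Prime] (hp3 : p ≠ 3)
    (h : ∀ x : G, x ∉ Subgroup.center G → (∃ k : ℕ, orderOf x = p ^ k) → Group.IsSolvable (Subgroup.centralizer ({x} : Set G)))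
    (d : ℕ) (hd : 5 ≤ d) (hinv : Cfsg.Involves (alternatingGroup (Fin d)) G) :
    d ≤ p + 4 + (if p = 2 then 2 else 0) := by
  by_contra hlt
  obtain ⟨K, R, hR, ⟨e⟩⟩ := hinv
  have hs : Function.Surjective (e.toMonoidHom.comp (QuotientGroup.mk' (R.subgroupOf K))) :=
    e.surjective.comp (QuotientGroup.mk'_surjective _)
  have hK : SC p K := SC.sub h K
  have hp : p.Prime := Fact.out
  by_cases h2 : p = 2
  · subst h2
    obtain ⟨H, π, hπ⟩ := exists_sec _ hs (Fin 9) (by simp at hlt ⊢; omega)
    exact no_sec_two H (hK.sub H) π hπ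
  by_cases h5 : p = 5
  · subst h5
    obtain ⟨H, π, hπ⟩ := exists_sec _ hs (Fin 10) (by simp at hlt ⊢; omega)
    exact no_sec_five H (hK.sub H) π hπ
  have h7 : 7 ≤ p := by
    by_contra h7
    have := hp.two_le
    have h8 : p < 7 := by omega
    interval_cases p <;> first | omega | exact absurd hp (by norm_num)
  obtain ⟨H, π, hπ⟩ := exists_sec _ hs (Fin 5 ⊕ ZMod p) (by simp [h2] at hlt ⊢; omega)
  exact no_sec_big h7 H (hK.sub H) π hπ

end Cfsg.Agent.S4100
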