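import Cfsg.Statements.S4106
import Cfsg.Agent.Lib.FGS.Classes

set_option autoImplicit false
open Cfsg

namespace Cfsg.Agent.S4106

/-- Let G be a finite group, π a set of primes and m the π-part of the order of G. Then the number of conjugacy classes of G consisting of π-elements (elements whose order is divisible only by primes in π) is at most m. -/
theorem result {G : Type*} [Group G] [Finite G]
    (π : Set ℕ) (hπ : ∀ q ∈ π, q.Prime)
    (m : ℕ) (hm : m ∣ Nat.card G) (hmπ : ∀ q : ℕ, q.Prime → q ∣ m → q ∈ π)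
    (hm' : ∀ q ∈ π, ¬ q ∣ Nat.card G / m) :
    Nat.card {C : ConjClasses G // ∀ q : ℕ, q.Prime → (∃ g : G, ConjClasses.mk g = C ∧ q ∣ orderOf g) → q ∈ π} ≤ m := by
  open Cfsg.Lib.FGS Cfsg.Lib.BG in
  classical
  rw [← kQ_piElt]
  have hG : Nat.card G ≠ 0 := Nat.card_pos.ne'
  have hm0 : m ≠ 0 := fun h => hG (by rw [h] at hm; exact Nat.eq_zero_of_zero_dvd hm)
  have h := kQ_piElt_le_prod m.primeFactors (fun q hq => Nat.prime_of_mem_primeFactors hq) (Nat.card G) hG G dvd_rfl
  have e1 : kQ (PiElt π : G → Prop) = kQ (PiElt (m.primeFactors : Set ℕ) : G → Prop) := by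
    refine kQ_congr fun x => ⟨fun hx q hq hd => ?_, fun hx q hq hd => ?_⟩
    · have h1 : q ∣ m * (Nat.card G / m) := by
        rw [Nat.mul_div_cancel' hm]; exact hd.trans (orderOf_dvd_natCard x)
      have := (hq.dvd_mul.1 h1).resolve_right (hm' q (hx q hq hd))
      simp [hq, this, hm0]
    · exact hmπ q hq (Nat.dvd_of_mem_primeFactors (hx q hq hd))
  rw [e1]
  refine h.trans (le_of_eq ?_)
  conv_rhs => rw [← Nat.prod_factorization_pow_eq_self hm0]
  refine Finset.prod_congr rfl fun q hq => ?_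
  have hq' := Nat.prime_of_mem_primeFactors hq
  have h2 : (Nat.card G / m).factorization q = 0 :=
    Nat.factorization_eq_zero_of_not_dvd (hm' q (hmπ q hq' (Nat.dvd_of_mem_primeFactors hq)))
  have h3 : Nat.card G / m ≠ 0 := fun h => hG (by rw [← Nat.mul_div_cancel' hm, h, mul_zero])
  conv_lhs => rw [← Nat.mul_div_cancel' hm, Nat.factorization_mul hm0 h3]
  simp [h2]

end Cfsg.Agent.S4106
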