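import Cfsg.Statements.S4107
import Cfsg.Agent.Lib.HH.Misc
import Cfsg.Agent.Lib.Core.Fitting

set_option autoImplicit false
open Cfsg

namespace Cfsg.Agent.S4107

open Subgroup Cfsg.Lib Cfsg.Lib.BG Cfsg.Lib.Transfer Cfsg.Lib.HH

theorem key {G : Type*} [Group G] [Finite G] {N : Subgroup G}
    (heq : ∀ x : G, x ∉ N → ∀ n ∈ N, orderOf (x * n) = orderOf x) {p : ℕ} [Fact p.Prime] {x : G}
    (hx : x ∈ fittingSubgroup G) (hN : x ∉ N) (hp : PiElt {p} x) : IsPGroup p N := by
  have hO : x ∈ pCore p G :=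
    Core.le_pCore_of_le_fittingSubgroup (zpowers_le.2 hx) (pgroup_zpowers hp) (mem_zpowers x)
  let f := QuotientGroup.mk' (pCore p G)
  have hk : f.ker = pCore p G := QuotientGroup.ker_mk' _
  refine (PiGrp.of_map (f := f) (PiGrp.iff_elt.2 ?_) ?_).pgroup
  · rintro _ ⟨n, hn, rfl⟩
    have h1 : PiElt {p} (x * n) := by unfold PiElt; rw [heq x hN n hn]; exact hp
    have h2 := h1.map f
    rwa [map_mul, (MonoidHom.mem_ker.1 (hk.ge hO) : f x = 1), one_mul] at h2
  · rw [hk]
    exact (PiGrp.p_iff.2 (Core.pCore_isPGroup p G)).of_le inf_le_right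


/-- Let G be a finite group and N a proper non-trivial normal subgroup such that for every x outside N all elements of the coset xN have the same order as x. Then N ≤ F(G) or F(G) ≤ N, where F(G) is the Fitting subgroup; and if N is properly contained in F(G) then F(G) has prime-power order. -/
theorem result {G : Type*} [Group G] [Finite G] (N : Subgroup G) [N.Normal] (hN1 : N ≠ ⊥) (hN2 : N ≠ ⊤)
    (heq : ∀ x : G, x ∉ N → ∀ n ∈ N, orderOf (x * n) = orderOf x) :
    (N ≤ Cfsg.fittingSubgroup G ∨ Cfsg.fittingSubgroup G ≤ N) ∧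
    (N < Cfsg.fittingSubgroup G → IsPrimePow (Nat.card (Cfsg.fittingSubgroup G))) := by
  have h1 : ¬ fittingSubgroup G ≤ N → ∃ p : ℕ, p.Prime ∧ IsPGroup p N := by
    intro h
    obtain ⟨x, hx, hN⟩ := SetLike.not_le_iff_exists.1 h
    obtain ⟨p, hp, y, hy, hyN, hpy⟩ := exists_pElt_not_mem hN
    haveI := Fact.mk hp
    exact ⟨p, hp, key heq (zpowers_le.2 hx hy) hyN hpy⟩
  refine ⟨?_, fun hlt => ?_⟩
  · by_cases h : fittingSubgroup G ≤ N
    · exact Or.inr h
    · obtain ⟨p, hp, hN⟩ := h1 h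
      haveI := Fact.mk hp
      exact Or.inl (Core.le_fittingSubgroup inferInstance (pgroup_nil hN))
  · obtain ⟨p, hp, hN⟩ := h1 (not_le_of_gt hlt)
    haveI := Fact.mk hp
    have hF : IsPGroup p (fittingSubgroup G) := by
      refine (show PiGrp {p} (fittingSubgroup G) from fun q hq hd => ?_).pgroup
      haveI := Fact.mk hq
      obtain ⟨y, hy, ho⟩ := Core.exists_mem_orderOf_eq_prime hq hd
      by_cases hyN : y ∈ N
      · exact pElt_of_mem hN hyN q hq (ho ▸ dvd_rfl)
      · have h2 := key heq hy hyN (pElt_iff_orderOf.2 ⟨1, by simpa using ho⟩ : PiElt {q} y)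
        exact (pgroup_eq_of_dvd h2 hp (pgroup_dvd_card hN hN1)).symm
    obtain ⟨k, hk⟩ := IsPGroup.iff_card.1 hF
    refine ⟨p, k, hp.prime, Nat.pos_of_ne_zero ?_, hk.symm⟩
    rintro rfl
    exact card_ne_one (ne_bot_mono hN1 hlt.le) (by simpa using hk)

end Cfsg.Agent.S4107
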