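import Cfsg.Statements.S4108
import Cfsg.Agent.Lib.BG.Hall
import Cfsg.Agent.Lib.BG.T03_1

set_option autoImplicit false
open Cfsg

namespace Cfsg.Agent.S4108

/-- Let G be a finite group, p a prime and N a proper non-trivial normal p-subgroup such that for every x outside N all elements of the coset xN have the same order as x. Then every non-trivial subgroup H of G of order prime to p acts fixed-point-freely on N: NH is a Frobenius group with complement H and kernel N. -/
theorem result {G : Type*} [Group G] [Finite G] (N : Subgroup G) [N.Normal] (hN1 : N ≠ ⊥) (hN2 : N ≠ ⊤)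
    (heq : ∀ x : G, x ∉ N → ∀ n ∈ N, orderOf (x * n) = orderOf x)
    (p : ℕ) [Fact p.Prime] (hNp : IsPGroup p N) :
    ∀ H : Subgroup G, H ≠ ⊥ → (Nat.card H).Coprime p →
      Cfsg.IsFrobeniusComplement (H.subgroupOf (N ⊔ H)) ∧ Cfsg.frobeniusKernel (H.subgroupOf (N ⊔ H)) = (N.subgroupOf (N ⊔ H) : Set ↥(N ⊔ H)) := by
  open Subgroup Cfsg.Lib Cfsg.Lib.BG in
  intro H hH hc
  have hd : N ⊓ H = ⊥ := Core.inf_eq_bot_of_isPGroup_of_coprime hNp hc
  refine Frob.isFrobeniusComplement ⟨SD.of_norm le_normalizer_of_normal hd, hN1, hH, fun x hx h1 => eq_bot_iff.2 fun n hn => ?_⟩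
  have h2 := heq x (fun h => h1 (mem_bot.1 (hd ▸ mem_inf.2 ⟨h, hx⟩))) n hn.1
  rw [Commute.orderOf_mul_eq_mul_orderOf_of_coprime (mem_cent1.1 hn.2).symm (Coprime.orderOf_coprime_of_mem
    (Core.coprime_card_of_isPGroup hNp hc).symm hx hn.1), mul_eq_left₀ (orderOf_pos x).ne', orderOf_eq_one_iff] at h2
  exact h2

end Cfsg.Agent.S4108
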