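import Cfsg.Statements.S4112
import Cfsg.Agent.Lib.BG.Hall
import Cfsg.Agent.Lib.BG.T03_1

set_option autoImplicit false
open Cfsg

namespace Cfsg.Agent.S4112

/-- Let G be a finite group and M ≤ N non-trivial proper normal subgroups such that for every g outside N the conjugacy class of g is a union of cosets of M (equivalently gm is conjugate to g for every m ∈ M). Then (1) and (2) below are equivalent, and they imply (3): (1) every g outside N acts fixed-point-freely on M, that is C_G(x) ≤ N for every x ∈ M, x ≠ 1; (2) the index of N in G is coprime to the order of M; (3) there is a subgroup H of G with HN = G and H ∩ M = 1. -/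
theorem result {G : Type*} [Group G] [Finite G] (N M : Subgroup G) [N.Normal] [M.Normal] (hMN : M ≤ N) (hM1 : M ≠ ⊥) (hN2 : N ≠ ⊤)
    (hcam : ∀ g : G, g ∉ N → ∀ m ∈ M, ∃ x : G, x * g * x⁻¹ = g * m) :
    ((∀ x ∈ M, x ≠ 1 → Subgroup.centralizer ({x} : Set G) ≤ N) ↔ N.index.Coprime (Nat.card M)) ∧
    ((∀ x ∈ M, x ≠ 1 → Subgroup.centralizer ({x} : Set G) ≤ N) → ∃ H : Subgroup G, H ⊔ N = ⊤ ∧ H ⊓ M = ⊥) := by
  open Subgroup Cfsg.Lib Cfsg.Lib.BG in
  have key : (∀ x ∈ M, x ≠ 1 → Subgroup.centralizer ({x} : Set G) ≤ N) → N.index.Coprime (Nat.card M) := fun h => by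
    refine Nat.coprime_of_dvd fun r hr h1 h2 => ?_
    haveI := Fact.mk hr
    obtain ⟨P, hP⟩ := Syl.exists (p := r) (⊤ : Subgroup G)
    obtain ⟨x, hx, h3⟩ := exists_ne_one (PGroup.inf_centralizer_ne_bot (pgroup_of_le hP.pgroup inf_le_left) hP.pgroup
      (norm_inf (le_norm P) le_normalizer_of_normal) (Syl.ne_bot' (hP.inf le_top le_normalizer_of_normal) h2))
    refine hP.not_dvd' (h1.trans ?_)
    rw [relIndex_top_right]
    exact index_dvd_of_le ((le_cent1_iff.2 hx.2).trans (h x hx.1.2 h3))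
  refine ⟨⟨key, fun h x hx h1 g hg => ?_⟩, fun h => ?_⟩
  · obtain ⟨y, hy, z, hz, a, b, rfl, -⟩ := exists_pi_decomp {q | q ∣ Nat.card M} g
    have h2 : y ∈ N := PiGrp.le_of_relIndex a.zpowers le_top le_normalizer_of_normal
      (by rw [relIndex_top_right]; exact PiNat.of_coprime h) (mem_zpowers y)
    refine N.mul_mem h2 (by_contra fun h3 => h1 ?_)
    obtain ⟨w, e⟩ := hcam z h3 x hx
    refine ((PiGrp.self M).elt hx).eq_one ?_
    have := (pi_decomp_mem ((PiGrp.self M).elt hx) b (mem_cent1.1 (zpowers_le.2 hg hz)).symm).1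
    rw [← mem_cent1.1 (zpowers_le.2 hg hz), ← e] at this
    exact (b.conj w).zpowers.elt this
  · obtain ⟨K, -, h1, h2⟩ := Core.exists_supplement_isPiSubgroup (π := {q | q ∣ Nat.card M}ᶜ) (N := N) (H := ⊤)
      le_normalizer_of_normal (by rw [relIndex_top_right]; exact PiNat.of_coprime (key h))
    exact ⟨K, by rw [sup_comm, h1, sup_top_eq], by rw [inf_comm]; exact (PiGrp.self M).inf_eq_bot h2⟩

end Cfsg.Agent.S4112
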