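import Cfsg.Statements.S4115
import Cfsg.Agent.Lib.BG.Hall
import Cfsg.Agent.Lib.FGS.FrobComp2
import Cfsg.Agent.Lib.Coprime.FT

set_option autoImplicit false
universe u
open Cfsg

namespace Cfsg.Agent.S4115

/-- Let G be a finite group and H a subgroup that meets each of its conjugates by elements outside N_G(H) trivially and whose order is coprime to its index in N_G(H). Then H has a normal complement in N_G(H) if and only if H has a normal complement in G. Moreover, if H is not normal in G and has a normal complement in N_G(H), then H is isomorphic to a Frobenius complement of some finite Frobenius group. -/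
theorem result {G : Type u} [Group G] [Finite G] (H : Subgroup G)
    (hTI : Cfsg.IsTISubset (H : Set G)) (hHall : (Nat.card H).Coprime (H.subgroupOf (Subgroup.normalizer (H : Set G))).index) :
    ((∃ K : Subgroup (Subgroup.normalizer (H : Set G)), K.Normal ∧ K.IsComplement' (H.subgroupOf (Subgroup.normalizer (H : Set G)))) ↔
      (∃ N : Subgroup G, N.Normal ∧ N.IsComplement' H)) ∧
    (¬ H.Normal → (∃ K : Subgroup (Subgroup.normalizer (H : Set G)), K.Normal ∧ K.IsComplement' (H.subgroupOf (Subgroup.normalizer (H : Set G)))) →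
      ∃ (F : Type u) (_ : Group F) (_ : Finite F) (C : Subgroup F), Cfsg.IsFrobeniusComplement C ∧ Nonempty (H ≃* C)) := by
  open Subgroup Cfsg.Lib Cfsg.Lib.BG Cfsg.Lib.Transfer in
  have h1 : Hall {q | q ∣ Nat.card H} H 𝐍(H) := Hall.of_coprime (le_norm H) hHall
  have key : (∃ K : Subgroup 𝐍(H), K.Normal ∧ K.IsComplement' (H.subgroupOf 𝐍(H))) →
      ∃ N : Subgroup G, N.Normal ∧ N.IsComplement' H ∧ N ⊓ 𝐍(H) ≤ 𝐂(H) := by
    rintro ⟨K, _, hK⟩
    have h2 : SD (K.map (Subgroup.subtype _)) H 𝐍(H) := by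
      have := SD.map_of_injective (f := Subgroup.subtype _) ⟨le_normalizer_of_normal, hK.disjoint.eq_bot, hK.sup_eq_top⟩
        Subtype.val_injective
      rwa [subgroupOf_map_subtype, inf_eq_left.2 (le_norm H), ← MonoidHom.range_eq_map, range_subtype] at this
    have h3 : Hall {q | q ∣ Nat.card H}ᶜ (K.map (Subgroup.subtype _)) 𝐍(H) :=
      (Hall.of_sd h2 (by rw [PiGrp, ← h2.relIndex_right]; exact h1.idx) (by simpa using h1.pi)).1
    obtain ⟨N, a, -, b, c⟩ := Frobenius.wielandt h2.left_le h2.nml.norm fun g hg x hx h4 => by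
      obtain ⟨y, hy, z, hz, a, b, rfl, -⟩ := exists_pi_decomp {q | q ∣ Nat.card H} x
      obtain rfl : y = 1 := hTI g hg y (h1.mem_of_normal le_rfl (zpowers_le.2 hx hy) a) (h1.mem_of_normal le_rfl
        (zpowers_le.2 h4 (by obtain ⟨k, e⟩ := hy; exact ⟨k, by simp only [conj_zpow, e]⟩)) (a.conj g))
      exact h3.mem_of_normal h2.nml.norm hx (by rwa [one_mul])
    refine ⟨N, a, isComplement'_of_disjoint_and_mul_eq_univ (disjoint_iff.2 ?_) ?_, ?_⟩
    · rw [← h2.inf, ← b, inf_assoc, inf_eq_right.2 (le_norm H)]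
    · rw [← normal_mul, ← h2.sup, ← b, ← sup_assoc, sup_inf_self] at *
      rw [c]; rfl
    · exact b ▸ h2.nml.cent_of_disjoint (Nml.norm_self H) h2.inf
  refine ⟨⟨fun h => (key h).imp fun _ h => ⟨h.1, h.2.1⟩, fun ⟨N, _, h⟩ => ⟨N.subgroupOf _, inferInstance, ?_⟩⟩, fun hn h => ?_⟩
  · have := (SD.restrict_left ⟨le_normalizer_of_normal, h.disjoint.eq_bot, h.sup_eq_top⟩ (le_norm H) le_top).isComplement'
    rwa [inf_subgroupOf_right] at this
  obtain ⟨N, _, h2, h3⟩ := key h
  have h4 : (Nat.card H).Coprime (Nat.card N) := Nat.coprime_of_dvd fun p hp a b => by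
    haveI := Fact.mk hp
    obtain ⟨P, hP⟩ := Syl.exists (p := p) H
    obtain ⟨x, hx, h5⟩ := exists_ne_one (hP.ne_bot' a)
    have := Syl.of_norm_le (hP.of_Hall h1 a) le_top fun g hg => by_contra fun h6 =>
      h5 (hTI g h6 x (hP.le hx) (hP.le (conj_mem_of_norm hg.2 hx)))
    exact this.not_dvd' (b.trans (by rw [relIndex_top_right, ← h2.index_eq_card]; exact index_dvd_of_le hP.le))
  obtain ⟨q, hq, Q, hQ, h5, h6⟩ : ∃ q : ℕ, q.Prime ∧ ∃ Q, Syl q Q N ∧ H ≤ 𝐍(Q) ∧ ¬ Q ≤ 𝐂(H) := by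
    by_contra! h
    refine hn (normalizer_eq_top_iff.1 (top_le_iff.1 (h2.sup_eq_top ▸ sup_le (norm_of_cent (Syl.le_of_forall fun q hq _ => ?_))
      (le_norm H))))
    haveI := Fact.mk hq
    obtain ⟨Q, a, b⟩ := Syl.exists_inv (p := q) le_normalizer_of_normal h4 (Coprime.isSolvable_or_of_coprime h4)
    exact ⟨Q, a, h q hq Q a b⟩
  haveI := Fact.mk hq
  refine FGS.exists_fc_of_section (U := Q ⊓ 𝐍(Q ⊓ 𝐂(H))) (W := Q ⊓ 𝐂(H)) (fun e => hn (e ▸ inferInstance))
    (norm_inf h5 (norm_norm (norm_inf h5 (norm_cent (le_norm H))))) (norm_inf h5 (norm_cent (le_norm H))) inf_le_right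
    (nil_norm_grow hQ.nil (inf_lt_left.2 h6)).not_ge fun x hx h7 u hu e => ⟨hu.1, h3 ⟨hQ.le hu.1, by_contra fun h8 => h7 ?_⟩⟩
  have := Coprime.commutator_eq_one_of_commute (mem_cent.1 e.2 x hx) (Coprime.orderOf_coprime_of_mem h4 hx (hQ.le e.1))
  exact hTI u h8 x hx (by rwa [← this, mul_inv_cancel_right])

end Cfsg.Agent.S4115
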