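import Cfsg.Statements.S4116
import Cfsg.Agent.Lib.BG.T14_7Aux

set_option autoImplicit false
open Cfsg

namespace Cfsg.Agent.S4116

open Subgroup Cfsg.Lib Cfsg.Lib.BG Cfsg.Lib.Transfer

/-- Let G be a finite group with a subgroup H whose order is coprime to its index (a Hall subgroup) and which meets each of its conjugates by elements outside N_G(H) trivially. Then every subgroup of G whose order is divisible only by primes dividing the order of H lies in a conjugate of H. -/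
theorem result {G : Type*} [Group G] [Finite G] (H : Subgroup G)
    (hHall : (Nat.card H).Coprime H.index) (hTI : Cfsg.IsTISubset (H : Set G))
    (K : Subgroup G) (hK : ∀ q : ℕ, q.Prime → q ∣ Nat.card K → q ∣ Nat.card H) :
    ∃ g : G, K ≤ H.map (MulAut.conj g).toMonoidHom := by
  have hH : Hall {q | q ∣ Nat.card H} H ⊤ := Hall.of_coprime le_top (by rwa [relIndex_top_right])
  have hK' : PiGrp {q | q ∣ Nat.card H} K := hK
  have ha : ∀ x ∈ K, ∀ g : G, x ∈ 𝐍(g ⋆ H) → x ∈ g ⋆ H := fun x hx g h =>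
    (hH.conj_top g).ge_of_norm' le_top (hK'.elt hx).zpowers (zpowers_le_of_mem h) (mem_zpowers x)
  have hb : ∀ x : G, x ≠ 1 → ∀ g h : G, x ∈ g ⋆ H → x ∈ h ⋆ H → g ⋆ H = h ⋆ H := fun x h1 g h h2 h3 => by
    have : h⁻¹ * g ∈ 𝐍(H) := by_contra fun e => h1 (by
      have := hTI _ e _ (mem_conj.1 h2) (by
        rw [show h⁻¹ * g * (g⁻¹ * x * g) * (h⁻¹ * g)⁻¹ = h⁻¹ * x * h by group]; exact mem_conj.1 h3)
      calc x = g * (g⁻¹ * x * g) * g⁻¹ := by group
        _ = 1 := by rw [this]; group)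
    calc g ⋆ H = h ⋆ ((h⁻¹ * g) ⋆ H) := by rw [conj_conj, mul_inv_cancel_left]
      _ = h ⋆ H := by rw [conj_eq_of_norm this]
  have hc : ∀ x ∈ K, x ≠ 1 → ∃ g : G, x ∈ g ⋆ H := fun x hx h1 => by
    obtain ⟨Y, hY, hp⟩ := exists_prime_le (A := zpowers x) (by simpa using h1)
    haveI := Fact.mk hp
    obtain ⟨P, hP⟩ := Syl.exists (p := Nat.card Y) H
    obtain ⟨g, -, hg⟩ := (hP.of_Hall hH (hK _ hp (card_dvd (hY.trans (zpowers_le_of_mem hx))))).exists_le_conj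
      (IsPGroup.of_card (n := 1) (pow_one _).symm) (le_top (a := Y))
    obtain ⟨y, hy, hy1⟩ := exists_ne_one (ne_bot_of_prime hp)
    have h2 : y ∈ g ⋆ H := conj_mono g hP.le (hg hy)
    refine ⟨g, ha x hx g (norm_of_conj_eq ?_)⟩
    rw [conj_conj]
    refine hb y hy1 _ _ ?_ h2
    obtain ⟨k, rfl⟩ := hY hy
    rw [← conj_conj, mem_conj]
    convert h2 using 1
    group
  have key : ∀ g : G, (g ⋆ H).subgroupOf K ≠ ⊥ → ∃ i, (((g ⋆ H).subgroupOf K).index = i ∧ 2 * i ≤ Nat.card K) ∧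
      (clsupp (((g ⋆ H).subgroupOf K : Set K) \ {1}) ⊤).ncard + i = Nat.card K := fun g h => by
    have h1 := (one_lt_card_iff_ne_bot _).2 h
    have h2 := ((g ⋆ H).subgroupOf K).card_mul_index
    refine ⟨_, ⟨rfl, by nlinarith⟩, ?_⟩
    rw [S14.card_clsupp_TI (A := ((g ⋆ H).subgroupOf K : Set K) \ {1}) (L := (g ⋆ H).subgroupOf K) fun a ha' k => ⟨fun e => ha k k.2 g (norm_of_conj_eq ?_), fun e =>
      ⟨mul_mem (mul_mem e ha'.1) (inv_mem e), by simpa using ha'.2⟩⟩, Set.ncard_diff_singleton_of_mem (one_mem _), ← h2]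
    · change (Nat.card ((g ⋆ H).subgroupOf K) - 1) * _ + _ = _
      rw [← add_one_mul, Nat.sub_add_cancel h1.le]
    · rw [conj_conj]
      refine hb (k * a * k⁻¹ : K) (by simpa using ha'.2) _ _ ?_ e.1
      rw [← conj_conj]
      exact conj_mem_conj.2 ha'.1
  have sub : ∀ A : Set K, clsupp (A \ {1}) ⊤ ⊆ {1}ᶜ := fun A => by
    rintro _ ⟨k, -, a, ha, rfl⟩
    simpa using ha.2
  have hu : ({1}ᶜ : Set K).ncard + 1 = Nat.card K := by
    rw [← Set.ncard_univ, ← Set.ncard_singleton (1 : K), add_comm, Set.ncard_add_ncard_compl, Set.ncard_univ]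
  by_cases h0 : K = ⊥
  · exact ⟨1, h0 ▸ bot_le⟩
  obtain ⟨x, hx, hx1⟩ := exists_ne_one h0
  obtain ⟨g, hg⟩ := hc x hx hx1
  obtain ⟨i, ⟨h1, h2⟩, h3⟩ := key g (ne_bot_of_mem (x := ⟨x, hx⟩) hg (by simpa using hx1))
  by_cases h4 : {1}ᶜ ⊆ clsupp (((g ⋆ H).subgroupOf K : Set K) \ {1}) ⊤
  · rw [(sub _).antisymm h4] at h3
    exact ⟨g, subgroupOf_eq_top.1 (index_eq_one.1 (by omega))⟩
  obtain ⟨y, hy1, hy⟩ := Set.not_subset.1 h4
  obtain ⟨g', hg'⟩ := hc y y.2 (by simpa using hy1)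
  obtain ⟨j, ⟨-, h5⟩, h6⟩ := key g' (ne_bot_of_mem (x := y) hg' hy1)
  have h7 := Set.ncard_le_ncard (Set.union_subset (sub ((g ⋆ H).subgroupOf K)) (sub ((g' ⋆ H).subgroupOf K)))
  rw [Set.ncard_union_eq] at h7
  · omega
  rw [Set.disjoint_left]
  rintro _ ⟨k, -, a, ha, rfl⟩ ⟨l, -, b, hb', e⟩
  have h8 : ((k : G) * g) ⋆ H = ((l : G) * g') ⋆ H := hb (k * a * k⁻¹ : K) (by simpa using ha.2) _ _
    (by rw [← conj_conj]; exact conj_mem_conj.2 ha.1) (by rw [← conj_conj, e]; exact conj_mem_conj.2 hb'.1)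
  refine hy ⟨l⁻¹ * k, trivial, k⁻¹ * l * y * l⁻¹ * k, ⟨?_, ?_⟩, by group⟩
  · have := (conj_mem_conj (g := (l : G))).2 hg'
    rw [conj_conj, ← h8, ← conj_conj, mem_conj] at this
    simpa [mem_subgroupOf, mul_assoc] using this
  · intro e
    refine hy1 (?_ : y = 1)
    calc y = l⁻¹ * k * (k⁻¹ * l * y * l⁻¹ * k) * k⁻¹ * l := by group
      _ = 1 := by rw [show k⁻¹ * l * y * l⁻¹ * k = 1 from e]; group

end Cfsg.Agent.S4116
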