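import Cfsg.Statements.S4117
import Cfsg.Agent.Lib.BG.Hall
import Cfsg.Agent.Lib.BG.T01_Cyclic
import Cfsg.Agent.Lib.PGroup.Holomorph
import Cfsg.Agent.Lib.Coprime.Gaschutz

set_option autoImplicit false
open Cfsg

namespace Cfsg.Agent.S4117

open Subgroup Cfsg.Lib Cfsg.Lib.BG Cfsg.Lib.Transfer Cfsg.Lib.PGroup

theorem amb {G : Type*} [Group G] [Finite G] {X A : Subgroup G} (hA : A ≤ 𝐍(X))
    (hc : (Nat.card A).Coprime (Nat.card X)) (hZ : IsZGroup X) :
    IsCyclic ↥⁅X, A⁆ ∧ 𝐂(A) ⊓ ⁅X, A⁆ = ⊥ ∧ ⁅X, A⁆ ⊔ (X ⊓ 𝐂(A)) = X ∧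
      (Nat.card ↥(X ⊓ 𝐂(A))).Coprime (Nat.card ↥⁅X, A⁆) := by
  have hs : Group.IsSolvable A ∨ Group.IsSolvable X := Or.inr inferInstance
  have h1 : ⁅X, A⁆ ≤ X := comm_le_left hA
  have z : ∀ Y ≤ X, IsZGroup Y := fun Y h => IsZGroup.of_injective (inclusion_injective h)
  have h2 : ⁅X, A⁆ ≤ 𝐂(⁅X, X⁆) := (comm_le_der le_sup_left le_sup_right).trans
    (der1_cent_cyclic (Zgroup_der1_Hall hZ).1 (norm_der (sup_le_norm_left hA)))
  have h3 : IsCyclic ↥⁅X, A⁆ := nil_Zgroup_cyclic (z _ h1) (Core.isNilpotent_of_commutator_commutator_eq_bot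
    (comm_eq_bot_iff'.2 (h2.trans (cent_anti (der_mono h1)))))
  have h4 := Coprime.centralizer_inf_commutator_eq_bot (abelian_of_cyclic h3) (right_norm_comm X A)
    (coprime_mono hc le_rfl h1)
  rw [Coprime.commutator_commutator_eq hA hc hs] at h4
  refine ⟨h3, h4, Coprime.commutator_sup_centralizer hA hc hs, Nat.coprime_of_dvd fun p hp d1 d2 => ?_⟩
  haveI := Fact.mk hp
  obtain ⟨Y, hY, eY⟩ := exists_card_eq_prime hp d1
  obtain ⟨W, hW, eW⟩ := exists_card_eq_prime hp d2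
  have h5 : Y ≤ 𝐍(W) := hY.trans (inf_le_left.trans ((left_norm_comm X A).trans (norm_le_of_le_cyclic h3 hW)))
  have h6 := pgroup_sup (IsPGroup.of_card (n := 1) (by rw [eW, pow_one])) (IsPGroup.of_card (n := 1) (by rw [eY, pow_one])) h5
  haveI := z _ (sup_le (hW.trans h1) (hY.trans inf_le_left))
  haveI := IsZGroup.of_injective (f := (topEquiv (G := ↥(W ⊔ Y))).toMonoidHom) topEquiv.injective
  have h7 : IsCyclic ↥(W ⊔ Y) := by
    haveI := (h6.to_subgroup ⊤).isCyclic_of_isZGroup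
    exact isCyclic_of_surjective _ (topEquiv (G := ↥(W ⊔ Y))).surjective
  have h8 := cyclic_eq_of_card h7 le_sup_left le_sup_right (eW.trans eY.symm)
  exact ne_bot_of_dvd hp eW.symm.dvd (eq_bot_mono h4 (le_inf (h8.le.trans (hY.trans inf_le_right)) hW))


/-- Let A be a finite group acting on the finite group G by automorphisms with the orders of A and G coprime, and suppose every Sylow subgroup of G is cyclic. Then the fixed-point subgroup C_G(A) is a Hall subgroup of G (its order is coprime to its index), the subgroup [G, A] generated by the elements g⁻¹·a(g) is cyclic and normal with [G, A] ∩ C_G(A) = 1 and [G, A]·C_G(A) = G. -/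
theorem result {G A : Type*} [Group G] [Finite G] [Group A] [Finite A]
    [MulDistribMulAction A G] (hcop : (Nat.card A).Coprime (Nat.card G))
    (hcyc : ∀ (p : ℕ) [Fact p.Prime] (P : Sylow p G), IsCyclic (P : Subgroup G)) :
    (Nat.card (MulAction.fixedPoints A G : Set G)).Coprime (Nat.card G / Nat.card (MulAction.fixedPoints A G : Set G)) ∧
    IsCyclic (Subgroup.closure {y : G | ∃ (a : A) (g : G), y = g⁻¹ * a • g}) ∧
    (Subgroup.closure {y : G | ∃ (a : A) (g : G), y = g⁻¹ * a • g}).Normal ∧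
    (Subgroup.closure {y : G | ∃ (a : A) (g : G), y = g⁻¹ * a • g} : Set G) ∩ MulAction.fixedPoints A G = {1} ∧
    Subgroup.closure {y : G | ∃ (a : A) (g : G), y = g⁻¹ * a • g} ⊔ Subgroup.closure (MulAction.fixedPoints A G) = ⊤ := by
  let φ := MulDistribMulAction.toMulAut A G
  haveI : IsZGroup G := ⟨fun p hp P => by haveI := Fact.mk hp; exact hcyc p P⟩
  obtain ⟨h1, h2, h3, h4⟩ := amb (map_holR_le_normalizer_top φ.range)
    (by rw [card_map_holR, card_map_holL, card_top]; exact hcop.coprime_dvd_left (card_range_dvd φ))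
    (IsZGroup.of_surjective (f := (holEquiv G).toMonoidHom) (holEquiv G).surjective)
  set K := Subgroup.closure {y : G | ∃ (a : A) (g : G), y = g⁻¹ * a • g}
  let C := FixedPoints.subgroup A G
  have e1 : ⁅(⊤ : Subgroup G).map (holL G), φ.range.map (holR G)⁆ = K.map (holL G) := by
    rw [commutator_map_holL_map_holR]
    congr 2
    ext x
    exact ⟨fun ⟨g, _, _, ⟨a, rfl⟩, h⟩ => ⟨a, g, h⟩, fun ⟨a, g, h⟩ => ⟨g, trivial, _, ⟨a, rfl⟩, h⟩⟩
  have e2 : (⊤ : Subgroup G).map (holL G) ⊓ 𝐂(φ.range.map (holR G)) = C.map (holL G) := by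
    ext x
    exact ⟨fun ⟨⟨g, _, e⟩, h⟩ => ⟨g, fun a => (holL_mem_centralizer_iff (A := φ.range)).1 (e ▸ h) _ ⟨a, rfl⟩, e⟩,
      fun ⟨g, h, e⟩ => ⟨⟨g, trivial, e⟩, e ▸ holL_mem_centralizer_iff.2 fun _ ⟨a, e⟩ => e ▸ h a⟩⟩
  have h5 : K ⊓ C = ⊥ := by
    rw [← (map_injective holL_injective).eq_iff, map_inf _ _ _ holL_injective, ← e1, ← e2, Subgroup.map_bot]
    exact eq_bot_mono h2 (le_inf (inf_le_right.trans inf_le_right) inf_le_left)
  have h6 : K.Normal := ⟨fun x hx g => by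
    have := conj_mem_of_norm (left_norm_comm _ (φ.range.map (holR G)) (mem_map_of_mem (holL G) (mem_top g)))
      (e1 ▸ mem_map_of_mem (holL G) hx)
    rwa [e1, ← map_inv, ← map_mul, ← map_mul, mem_map_iff_mem holL_injective] at this⟩
  rw [e2, e1, ← Subgroup.map_sup, (map_injective holL_injective).eq_iff] at h3
  rw [e2, e1, card_map_holL, card_map_holL] at h4
  rw [e1] at h1
  have h7 : Nat.card K * Nat.card C = Nat.card G := (Core.isComplement'_of_inf_eq_bot h5 h3).card_mul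
  refine ⟨?_, isCyclic_of_surjective _ (K.equivMapOfInjective _ holL_injective).symm.surjective, h6,
    congrArg SetLike.coe h5, (closure_eq C).symm ▸ h3⟩
  change (Nat.card C).Coprime (Nat.card G / Nat.card C)
  rwa [← h7, Nat.mul_div_cancel _ Nat.card_pos]

end Cfsg.Agent.S4117
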