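import Cfsg.Statements.S4118
import Cfsg.Agent.Lib.Frobenius.TIHall

set_option autoImplicit false
open Cfsg

namespace Cfsg.Agent.S4118

/-- Let G be a finite group and H a non-normal subgroup meeting each of its conjugates by elements outside N_G(H) trivially, with the order of H coprime to its index in N_G(H); let π be the set of primes dividing the order of H and suppose G is π-separable (it has a chain of normal subgroups from 1 to G each of whose factors has order divisible only by primes in π or coprime to the order of H). Let O be the largest normal subgroup of G of order coprime to the order of H. Then G = O·N_G(H), O·H is normal in G, and G is solvable if and only if O is solvable and H has no subgroup isomorphic to SL₂(5). -/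
theorem result {G : Type*} [Group G] [Finite G] (H : Subgroup G)
    (hTI : Cfsg.IsTISubset (H : Set G)) (hnn : ¬ H.Normal)
    (hHall : (Nat.card H).Coprime (H.subgroupOf (Subgroup.normalizer (H : Set G))).index)
    (hsep : ∃ (n : ℕ) (M : Fin (n + 1) → Subgroup G), M 0 = ⊥ ∧ M (Fin.last n) = ⊤ ∧ Monotone M ∧ (∀ i, (M i).Normal) ∧
      ∀ i : Fin n, (∀ q : ℕ, q.Prime → q ∣ (M i.castSucc).relIndex (M i.succ) → q ∣ Nat.card H) ∨
        ((M i.castSucc).relIndex (M i.succ)).Coprime (Nat.card H))
    (O : Subgroup G) (hO : O = sSup {K : Subgroup G | K.Normal ∧ (Nat.card K).Coprime (Nat.card H)}) :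
    O ⊔ Subgroup.normalizer (H : Set G) = ⊤ ∧ (O ⊔ H).Normal ∧
    (Group.IsSolvable G ↔ Group.IsSolvable O ∧
      ∀ K : Subgroup G, K ≤ H → ¬ Nonempty (K ≃* Matrix.SpecialLinearGroup (Fin 2) (ZMod 5))) := by
  open Subgroup Cfsg.Lib Cfsg.Lib.BG Cfsg.Lib.Core Cfsg.Lib.Frobenius in
  obtain rfl : O = pPrimeCore (Nat.card H) G := hO
  have h1 := core_sup_norm_of_ti hTI hnn hHall hsep
  have hO := pPrimeCore_coprime (Nat.card H) G
  generalize hO' : pPrimeCore (Nat.card H) G = O at h1 hO
  haveI : O.Normal := hO' ▸ inferInstance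
  have hn : ∀ K : Subgroup G, 𝐍(H) ≤ 𝐍(K) → (O ⊔ K).Normal := fun K hK =>
    normalizer_eq_top_iff.1 (eq_top_iff.2 (h1 ▸ sup_le (le_norm_of_le le_sup_left)
      (norm_sup le_normalizer_of_normal hK)))
  refine ⟨h1, hn H le_rfl, fun _ => ⟨inferInstance, fun K _ ⟨e⟩ =>
    not_isSolvable_sl_two_five (isSolvable_of_equiv e inferInstance)⟩, fun ⟨h2, h3⟩ => ?_⟩
  have hF := fpf_of_ti_separable hTI hnn hHall hsep
  have h4 : Group.IsSolvable H := by
    by_contra h4
    obtain ⟨J, -, ⟨e⟩, -⟩ := hF.exists_sl_two_five h4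
    exact h3 (J.map H.subtype) (map_subtype_le J)
      ⟨(J.equivMapOfInjective _ H.subtype_injective).symm.trans e⟩
  obtain ⟨Q, hQ, hQ'⟩ := (Hall.of_coprime (le_norm H) hHall).exists_compl le_rfl
  have hc : (Nat.card Q).Coprime (Nat.card H) := ((PiGrp.self H).coprime hQ'.pi).symm
  have h5 : Group.IsSolvable Q := by
    by_cases h5 : 2 ∣ Nat.card H
    · exact Coprime.isSolvable_of_not_two_dvd fun h => absurd
        (Nat.eq_one_of_dvd_coprimes hc h h5) (by decide)
    have h6 : ⁅Q, Q⁆ ≤ 𝐂(H) := cent_symm (Coprime.le_of_forall_invariant_pgroup_le hQ'.le hc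
      (Or.inr h4) fun q P hq hP h7 _ h8 => by
        haveI := Fact.mk hq
        haveI := hF.isZGroup_of_odd (A := ⊤) (by rwa [card_top, ← Nat.not_even_iff_odd, even_iff_two_dvd])
        haveI : IsZGroup H := IsZGroup.of_surjective (f := (⊤ : Subgroup H).subtype)
          fun x => ⟨⟨x, trivial⟩, rfl⟩
        exact cent_symm (der1_cent_cyclic ((subgroupOfEquivOfLe hP).isCyclic.1
          (h7.comap_subtype (K := H)).isCyclic_of_isZGroup) h8))
    refine isSolvable_of_commutator_le (le_sup_right.trans (hO' ▸ le_pPrimeCore (hn ⁅Q, Q⁆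
      (hQ.sup ▸ sup_le (norm_of_cent (cent_symm h6)) (norm_der (le_norm Q)))) ?_)) h2
    exact (hO.mul_left (hc.coprime_dvd_left (card_dvd (der_le Q)))).coprime_dvd_left
      (Coprime.card_sup_dvd le_normalizer_of_normal)
  have h6 := isSolvable_sup_of_normal (isSolvable_sup hQ'.le h5 h4) h2
  rw [sup_comm Q, hQ.sup, sup_comm, h1] at h6
  exact isSolvable_top_iff.1 h6

end Cfsg.Agent.S4118
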