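import Cfsg.Statements.S4120
import Cfsg.Agent.Lib.FH.C
import Cfsg.Agent.Lib.FH.Hol

set_option autoImplicit false
open Cfsg

namespace Cfsg.Agent.S4120

/-- Let the finite group A act faithfully on the finite group G by automorphisms, and suppose A is a Frobenius group with kernel F and complement H such that F fixes only the identity of G. If the fixed-point subgroup C_G(H) is nilpotent, then G is nilpotent. -/
theorem result {G A : Type*} [Group G] [Finite G] [Group A] [Finite A] [MulDistribMulAction A G] [FaithfulSMul A G]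
    (Fk Hc : Subgroup A) [Fk.Normal] (hHc : Cfsg.IsFrobeniusComplement Hc) (hker : Cfsg.frobeniusKernel Hc = (Fk : Set A))
    (hCF : ∀ g : G, (∀ f ∈ Fk, f • g = g) → g = 1) (hnil : Group.IsNilpotent (Subgroup.closure {g : G | ∀ h ∈ Hc, h • g = g})) : Group.IsNilpotent G := by
  open Subgroup Lib.BG Lib.FH Lib.PGroup Lib.Transfer in
  have h := fr_op (K := ⊤) hHc hker (fun _ _ _ => mem_top _) fun g _ => hCF g
  set C := closure {g : G | ∀ h ∈ Hc, h • g = g}
  have hC : ∀ g, g ∈ C ↔ ∀ a ∈ Hc, a • g = g := fun g => ⟨fun hg => by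
    refine closure_induction (k := {g : G | ∀ h ∈ Hc, h • g = g}) (p := fun g _ => ∀ a ∈ Hc, a • g = g) (fun _ hx => hx)
      (fun a _ => smul_one a) (fun x y _ _ hx hy a ha => by rw [smul_mul', hx a ha, hy a ha])
      (fun x _ hx a ha => by rw [smul_inv', hx a ha]) hg, fun hg => subset_closure hg⟩
  have h1 : Group.IsNilpotent ↥((⊤ : Subgroup G).map (holL G) ⊓ centralizer (Hc.map (op A G) : Set (Hol G))) := by
    rw [map_inf_cent_op hC, top_inf_eq]
    exact Group.nilpotent_of_mulEquiv (C.equivMapOfInjective _ holL_injective)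
  have h2 := h.nilpotent h1
  have h3 := Group.nilpotent_of_mulEquiv ((⊤ : Subgroup G).equivMapOfInjective _ (holL_injective (G := G))).symm
  exact Group.nilpotent_of_mulEquiv topEquiv

end Cfsg.Agent.S4120
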