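import Cfsg.Statements.S4121
import Cfsg.Agent.Lib.FH.Hol

set_option autoImplicit false
open Cfsg

namespace Cfsg.Agent.S4121

/-- Let the finite group A act faithfully on the finite group G by automorphisms, A a Frobenius group with kernel F and complement H, and let N be an A-invariant normal subgroup of G on which F fixes only the identity. Then the fixed points of H on G/N are covered by C_G(H): every coset gN fixed by H contains an element fixed by H. -/
theorem result {G A : Type*} [Group G] [Finite G] [Group A] [Finite A] [MulDistribMulAction A G] [FaithfulSMul A G]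
    (Fk Hc : Subgroup A) [Fk.Normal] (hHc : Cfsg.IsFrobeniusComplement Hc) (hker : Cfsg.frobeniusKernel Hc = (Fk : Set A))
    (N : Subgroup G) [N.Normal] (hNA : ∀ (a : A) (n : G), n ∈ N → a • n ∈ N)
    (hCNF : ∀ n ∈ N, (∀ f ∈ Fk, f • n = n) → n = 1)
    (g : G) (hg : ∀ h ∈ Hc, g⁻¹ * h • g ∈ N) : ∃ c : G, (∀ h ∈ Hc, h • c = c) ∧ c⁻¹ * g ∈ N := by
  open Subgroup Lib.BG Lib.FH Lib.PGroup Lib.Transfer in
  obtain ⟨_, ⟨v, hv, rfl⟩, e⟩ := (fr_op hHc hker hNA hCNF).cover (g := holL G g)
    (map_norm _ (le_normalizer_of_normal (K := ⊤)) ⟨_, mem_top _, rfl⟩) (by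
      rintro _ ⟨h, hh, rfl⟩
      exact ⟨_, hg h hh, by rw [map_mul, ← op_conj, map_inv]; group⟩)
  rw [← map_mul] at e
  exact ⟨g * v, mem_cent_op.1 e, by simpa using hv⟩

end Cfsg.Agent.S4121
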