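import Cfsg.Statements.S4122
import Cfsg.Agent.Lib.FH.Hol

set_option autoImplicit false
open Cfsg

namespace Cfsg.Agent.S4122

/-- Let the finite group A act faithfully on the finite group G by automorphisms, A a Frobenius group with kernel F and complement H such that F fixes only the identity of G. Then G is generated by the images under elements of F of the fixed-point subgroup C_G(H). -/
theorem result {G A : Type*} [Group G] [Finite G] [Group A] [Finite A] [MulDistribMulAction A G] [FaithfulSMul A G]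
    (Fk Hc : Subgroup A) [Fk.Normal] (hHc : Cfsg.IsFrobeniusComplement Hc) (hker : Cfsg.frobeniusKernel Hc = (Fk : Set A))
    (hCF : ∀ g : G, (∀ f ∈ Fk, f • g = g) → g = 1) : Subgroup.closure {x : G | ∃ f ∈ Fk, ∃ c : G, (∀ h ∈ Hc, h • c = c) ∧ x = f • c} = ⊤ := by
  open Subgroup Lib.BG Lib.FH Lib.PGroup Lib.Transfer in
  refine eq_top_iff.2 ((map_le_map_iff_of_injective holL_injective).1 ?_)
  rw [← (fr_op (K := ⊤) hHc hker (fun _ _ _ => mem_top _) fun g _ => hCF g).gen_eq]
  refine iSup₂_le ?_
  rintro _ ⟨f, hf, rfl⟩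
  refine conj_le_iff.2 ?_
  rintro _ ⟨⟨c, -, rfl⟩, hc⟩
  exact ⟨_, subset_closure ⟨f, hf, c, mem_cent_op.1 hc, rfl⟩, (op_conj f c).symm⟩

end Cfsg.Agent.S4122
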