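import Cfsg.Statements.S4123
import Cfsg.Agent.Lib.FH.Hol

set_option autoImplicit false
open Cfsg

namespace Cfsg.Agent.S4123

/-- Let the finite group A act faithfully on the finite group G by automorphisms, A a Frobenius group with kernel F and complement H such that F fixes only the identity of G. Then for every prime p there is exactly one A-invariant Sylow p-subgroup of G. -/
theorem result {G A : Type*} [Group G] [Finite G] [Group A] [Finite A] [MulDistribMulAction A G] [FaithfulSMul A G]
    (Fk Hc : Subgroup A) [Fk.Normal] (hHc : Cfsg.IsFrobeniusComplement Hc) (hker : Cfsg.frobeniusKernel Hc = (Fk : Set A))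
    (hCF : ∀ g : G, (∀ f ∈ Fk, f • g = g) → g = 1) (p : ℕ) [Fact p.Prime] : ∃! P : Sylow p G, ∀ (a : A) (x : G), x ∈ (P : Subgroup G) → a • x ∈ (P : Subgroup G) := by
  open Subgroup Lib.BG Lib.FH Lib.PGroup Lib.Transfer in
  have h := fr_op (K := ⊤) hHc hker (fun _ _ _ => mem_top _) fun g _ => hCF g
  obtain ⟨S, hS, h1⟩ := h.syl p
  obtain ⟨T, rfl⟩ : ∃ T : Subgroup G, T.map (holL G) = S := ⟨S.comap (holL G), map_comap_eq_self
    (hS.le.trans (map_le_range _ _))⟩
  obtain ⟨P, rfl⟩ := Syl.top_iff_sylow.1 ((Hall.map_iff holL_injective).1 hS)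
  refine ⟨P, fun a => norm_op.1 (le_trans (le_inf (norm_op.2 fun _ _ _ _ => mem_top _)
    (map_norm _ (le_normalizer_of_normal (K := ⊤)))) (h.syl_norm hS h1)) a (mem_top a), fun Q hQ => ?_⟩
  exact Sylow.ext (map_injective holL_injective (h.syl_uniq ((Syl.of_sylow_top Q).map _) hS
    (norm_op.2 fun a _ => hQ a) h1))

end Cfsg.Agent.S4123
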