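import Cfsg.Statements.S4126
import Cfsg.Agent.Lib.BG.Hall
import Cfsg.Agent.Lib.FGS.CycSylow
import Cfsg.Agent.Lib.Transfer.SmallOrder

set_option autoImplicit false
open Cfsg

namespace Cfsg.Agent.S4126

/-- Let G be a finite group and p a prime. Suppose every element of order p, and when p = 2 also every element of order 4, has a conjugacy class of p-power size. Then G has a normal p-complement. -/
theorem result {G : Type*} [Group G] [Finite G] (p : ℕ) [Fact p.Prime]
    (h : ∀ x : G, (orderOf x = p ∨ (p = 2 ∧ orderOf x = 4)) → ∃ a : ℕ, (Subgroup.centralizer ({x} : Set G)).index = p ^ a) :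
    Cfsg.HasNormalPComplement p G := by
  open Subgroup Cfsg.Lib Cfsg.Lib.BG Cfsg.Lib.Transfer in
  open Cfsg.Lib.FGS in
  have h0 : ∀ x : G, (x ^ p = 1 ∨ (p = 2 ∧ x ^ 4 = 1)) → ∃ a, (𝐂[x]).index = p ^ a := fun x hx => by
    by_cases h1 : x = 1
    · exact ⟨0, by simp [h1, index_eq_one, eq_top_iff, SetLike.le_def, mem_centralizer_iff]⟩
    by_cases h2 : x ^ p = 1
    · exact h x (.inl (orderOf_eq_prime h2 h1))
    obtain ⟨rfl, h3⟩ := hx.resolve_left h2
    exact h x (.inr ⟨rfl, orderOf_eq_prime_pow (p := 2) (n := 1) (by simpa using h2) (by simpa using h3)⟩)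
  obtain ⟨P⟩ : Nonempty (Sylow p G) := inferInstance
  by_contra hn
  obtain ⟨D, -, hD, g, hg, hc, hgD⟩ := exists_small_normalizes_not_centralizes P hn
  obtain ⟨E, hE, hEn, hE1, -, hE2⟩ := exists_critical_small (Core.pCore_isPGroup p G)
  haveI : E.Normal := normalizer_eq_top_iff.1 (top_le_iff.1 (le_normalizer_of_normal.trans hEn))
  have h1 := hE2 (zpowers g) le_normalizer_of_normal (by rwa [Nat.card_zpowers]) ((zpowers_le.2 (mem_pResidual_of_coprime hc)).trans
    (pResidual_le_cent_of_index ((Core.pCore_isPGroup p G).to_le hE) fun x hx => h0 x (hE1 x hx)))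
  refine hgD (centralizer_le (fun x hx => ?_) (h1 (mem_zpowers g)))
  obtain ⟨a, ha⟩ := h0 x (hD x hx)
  rcases hD x hx with h2 | ⟨rfl, h2⟩
  · exact mem_pCore_of_index_cent (k := 1) (by simpa using h2) ha
  · exact mem_pCore_of_index_cent (k := 2) (by simpa using h2) ha

end Cfsg.Agent.S4126
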