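import Cfsg.Statements.S4127
import Cfsg.Agent.Lib.BG.Hall
import Cfsg.Agent.Lib.FGS.ClassSize

set_option autoImplicit false
open Cfsg

namespace Cfsg.Agent.S4127

/-- Let G be a finite group, p a prime and p^a the largest power of p dividing the size of any conjugacy class of G. If some element of p-power order has a conjugacy class of size exactly p^a, then G has a normal p-complement. -/
theorem result {G : Type*} [Group G] [Finite G] (p : ℕ) [Fact p.Prime]
    (a : ℕ) (hmax : ∀ y : G, ¬ p ^ (a + 1) ∣ (Subgroup.centralizer ({y} : Set G)).index)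
    (hx : ∃ x : G, (∃ k : ℕ, orderOf x = p ^ k) ∧ (Subgroup.centralizer ({x} : Set G)).index = p ^ a) :
    Cfsg.HasNormalPComplement p G := by
  open Subgroup Cfsg.Lib Cfsg.Lib.BG Cfsg.Lib.Transfer in
  open Cfsg.Lib.FGS in
  obtain ⟨x, ⟨k, hk⟩, hx⟩ := hx
  have hp : p.Prime := Fact.out
  have hxk : x ^ p ^ k = 1 := hk ▸ pow_orderOf_eq_one x
  have key : ∀ y ∈ 𝐂[x], (orderOf y).Coprime p → ¬ p ∣ (𝐂[y]).relIndex 𝐂[x] := fun y hy hc h => by
    refine hmax (x * y) ?_
    rw [centralizer_mul_of_coprime (mem_centralizer_singleton_iff.1 hy).symm (hk ▸ (hc.symm.pow_left k)),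
      ← relIndex_mul_index (inf_le_left (a := 𝐂[x])), hx, inf_relIndex_left, pow_succ']
    exact Nat.mul_dvd_mul_right h _
  obtain ⟨b, hb⟩ := exists_index_eq_pow (p := p) (H := 𝐂(pCore p G)) fun q hq hqp => by
    haveI := Fact.mk hq
    obtain ⟨Q, hQ⟩ := exists_sylow_le_of_not_dvd_index (p := q) (H := 𝐂[x]) (fun h => hqp ((Nat.prime_dvd_prime_iff_eq hq hp).1
      (hq.dvd_of_dvd_pow (hx ▸ h))))
    refine not_dvd_index_of_sylow_le Q fun y hy => ?_
    obtain ⟨l, hl⟩ := exists_pow_of_mem Q.isPGroup' hy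
    have := Nat.Coprime.coprime_dvd_left (orderOf_dvd_of_pow_eq_one hl) (((Nat.coprime_primes hq hp).2 hqp).pow_left l)
    exact mem_cent_pCore_of_not_dvd hxk (hQ hy) this (key y (hQ hy) this)
  exact hasNormalPComplement_of_pResidual_le ((pResidual_le_of_index_eq_pow _ hb).trans (centralizer_le
    (Set.singleton_subset_iff.2 (mem_pCore_of_index_cent hxk hx)))) (hasNormalPComplement_of_not_dvd_index fun y hy => by
      rw [index_cent1_subtype]; exact key y y.2 (by simpa using hy))

end Cfsg.Agent.S4127
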