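import Cfsg.Statements.S4130
import Cfsg.Agent.Lib.BG.Hall
import Cfsg.Agent.Lib.FGS.ClassSqf

set_option autoImplicit false
open Cfsg

namespace Cfsg.Agent.S4130

/-- Let G be a finite group all of whose conjugacy class sizes are square-free. Then G is supersolvable, G/F(G) and the derived subgroup G′ are cyclic of square-free order (F(G) the Fitting subgroup, which is normal), F(G) has nilpotency class at most 2, and G is metabelian. -/
theorem result {G : Type*} [Group G] [Finite G]
    (h : ∀ x : G, Squarefree (Subgroup.centralizer ({x} : Set G)).index) :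
    Cfsg.IsSupersolvable G ∧ (Cfsg.fittingSubgroup G).Normal ∧
    (∀ _h : (Cfsg.fittingSubgroup G).Normal, IsCyclic (G ⧸ Cfsg.fittingSubgroup G) ∧ Squarefree (Cfsg.fittingSubgroup G).index) ∧
    IsCyclic (commutator G) ∧ Squarefree (Nat.card (commutator G)) ∧
    Subgroup.upperCentralSeries ↥(Cfsg.fittingSubgroup G) 2 = ⊤ ∧ commutator ↥(commutator G) = ⊥ := by
  open Subgroup Cfsg.Lib Cfsg.Lib.BG Cfsg.Lib.Transfer in
  open Cfsg.Lib.FGS in
  obtain ⟨v, hv, hF⟩ := exists_fitting_eq_cent1 h
  have h1 : Squarefree (fittingSubgroup G).index := hF ▸ h v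
  have h2 := isCyclic_commutator_of_squarefree h
  have h3 : commutator G ≤ fittingSubgroup G := Core.le_fittingSubgroup inferInstance
    (Solv.isNilpotent_commutator (isSupersolvable_of_squarefree G h))
  refine ⟨isSupersolvable_of_squarefree G h, inferInstance, fun _ => ⟨?_, h1⟩, h2,
    squarefree_card_commutator h, eq_top_iff.2 fun x _ => ?_, (commutator_eq_bot_iff _).2 inferInstance⟩
  · haveI := IsZGroup.of_squarefree (G := G ⧸ fittingSubgroup G) h1
    haveI := (Normal.quotient_commutative_iff_commutator_le (N := fittingSubgroup G)).2 h3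
    open scoped IsMulCommutative in
    exact isCyclic_of_sylow_of_isNilpotent _ fun q _ P => IsZGroup.isZGroup q Fact.out P
  · rw [Subgroup.mem_upperCentralSeries_succ_iff, Subgroup.upperCentralSeries_one]
    refine fun y => mem_center_iff.2 fun z => Subtype.ext (mem_centralizer_singleton_iff.1 ?_)
    exact cent1_le_cent1_of_mem_zpowers
      (hv.ge (commutator_mem_commutator (mem_top (x : G)) (mem_top (y : G)))) (hF.le z.2)

end Cfsg.Agent.S4130
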