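import Cfsg.Statements.S4134
import Cfsg.Agent.Lib.BG.Hall
import Cfsg.Agent.Lib.FGS.ClassSize2

set_option autoImplicit false
open Cfsg

namespace Cfsg.Agent.S4134

/-- Let G be a finite group whose conjugacy classes have exactly two sizes, 1 and n > 1. Then n is a power of a prime p and G is the direct product of a p-group and an abelian group of order prime to p: its Sylow p-subgroup P is normal with an abelian normal complement centralizing it; moreover P has an abelian normal subgroup A with P/A of exponent dividing p. -/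
theorem result {G : Type*} [Group G] [Finite G] (n : ℕ) (hn : 1 < n)
    (h : ∀ x : G, (Subgroup.centralizer ({x} : Set G)).index = 1 ∨ (Subgroup.centralizer ({x} : Set G)).index = n) (hex : ∃ x : G, (Subgroup.centralizer ({x} : Set G)).index = n) :
    ∃ (p : ℕ) (_ : Fact p.Prime) (a : ℕ), n = p ^ a ∧ ∀ P : Sylow p G, (P : Subgroup G).Normal ∧
      (∃ N : Subgroup G, N.Normal ∧ N.IsComplement' (P : Subgroup G) ∧ IsMulCommutative N ∧
        ∀ x ∈ N, ∀ y ∈ (P : Subgroup G), x * y = y * x) ∧
      ∃ A : Subgroup (P : Subgroup G), A.Normal ∧ IsMulCommutative A ∧ ∀ y : (P : Subgroup G), y ^ p ∈ A := by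
  open Subgroup Cfsg.Lib Cfsg.Lib.BG Cfsg.Lib.Transfer in
  open Cfsg.Lib.FGS in
  obtain ⟨p, hp, h1⟩ := exists_pResidual_le_center_of_rankOne h
  haveI := Fact.mk hp
  have h2 : ∀ y : G, (orderOf y).Coprime p → ¬ p ∣ (𝐂[y]).index := fun y hy => by
    rw [index_cent1_eq_one.2 (h1 (mem_pResidual_of_coprime hy))]; exact hp.not_dvd_one
  obtain ⟨x, hx⟩ := hex
  obtain ⟨k, hk⟩ := exists_index_pResidual_eq_pow (p := p) (G := G)
  obtain ⟨a, -, ha⟩ := (Nat.dvd_prime_pow hp).1 (hk ▸ index_dvd_of_le (h1.trans (center_le_centralizer {x})))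
  refine ⟨p, inferInstance, a, hx ▸ ha, fun P => ⟨(sylow_normal_of_not_dvd_index h2 P).1, ?_, center P,
    inferInstance, inferInstance, pow_mem_center_of_rankOne (n := n) (fun y => ?_) P.2⟩⟩
  · obtain ⟨N, hN, h3⟩ := (hasNormalPComplement_iff_sylow P).1 (hasNormalPComplement_of_not_dvd_index h2)
    have h4 := (eq_pResidual_of_isComplement' h3).le.trans h1
    exact ⟨N, hN, h3, PGroup.isMulCommutative_iff.2 fun a _ b hb => mem_center_iff.1 (h4 hb) a,
      fun a ha b _ => (mem_center_iff.1 (h4 ha) b).symm⟩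
  · rw [index_cent1_subtype, relIndex_eq_index_of_coprime]
    · exact h y
    · obtain ⟨b, -, hb⟩ := (Nat.dvd_prime_pow hp).1
        (hk ▸ index_dvd_of_le (h1.trans (center_le_centralizer {(y : G)})))
      rw [hb]
      exact ((Nat.Prime.coprime_iff_not_dvd hp).2 P.not_dvd_index).pow_left b

end Cfsg.Agent.S4134
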