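import Cfsg.Statements.S4139
import Cfsg.Agent.Lib.BG.Hall
import Cfsg.Agent.Lib.FGS.ClassSize2

set_option autoImplicit false
open Cfsg

namespace Cfsg.Agent.S4139

section
open Subgroup Cfsg.Lib Cfsg.Lib.BG Cfsg.Lib.Transfer
open Cfsg.Lib.FGS

open scoped commutatorElement

theorem card_pre {G : Type*} [Group G] [Finite G] {p : ℕ} [hp : Fact p.Prime] {N : Subgroup G} [N.Normal]
    (hN : pResidual p G ≤ 𝐂(N)) (h1 : IsPGroup p N) :
    Nat.card {x : G // ∃ k, (𝐂[x]).index = p ^ k} =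
      Nat.card N * Nat.card {x : G ⧸ N // ∃ k, (𝐂[x]).index = p ^ k} := by
  rw [← Nat.card_prod]
  refine Nat.card_congr ((Equiv.subtypeEquivRight fun x => ?_).trans
    (QuotientGroup.preimageMkEquivSubgroupProdSet N {x : G ⧸ N | ∃ k, (𝐂[x]).index = p ^ k}))
  refine ⟨fun ⟨k, hk⟩ => ((Nat.dvd_prime_pow hp.out).1 (hk ▸ index_cent1_map_dvd
    (QuotientGroup.mk'_surjective N) x)).imp fun _ h => h.2, fun ⟨k, hk⟩ => exists_index_eq_pow fun q hq hqp e => ?_⟩
  haveI := Fact.mk hq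
  obtain ⟨Q, hQ⟩ := exists_sylow_le_of_not_dvd_index (p := q) (H := (𝐂[(x : G ⧸ N)]).comap (QuotientGroup.mk' N))
    (by rw [index_comap_of_surjective _ (QuotientGroup.mk'_surjective N), hk]
        exact fun e => hqp ((Nat.prime_dvd_prime_iff_eq hq hp.out).1 (hq.dvd_of_dvd_pow e)))
  refine not_dvd_index_of_sylow_le Q (fun d hd => ?_) e
  obtain ⟨l, hl⟩ := exists_pow_of_mem Q.2 hd
  have h2 : ⁅d, x⁆ ∈ N := (QuotientGroup.eq_one_iff _).1
    (commutatorElement_eq_one_iff_mul_comm.2 (mem_centralizer_singleton_iff.1 (hQ hd)))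
  have h3 := PGroup.commutator_pow_left_of_commute (hN (mem_pResidual_of_coprime
    (PGroup.coprime_orderOf_of_pow_pow_eq_one hq hqp hl)) _ h2).symm (q ^ l)
  obtain ⟨m, hm⟩ := exists_pow_of_mem h1 h2
  rw [hl, commutatorElement_one_left] at h3
  exact mem_centralizer_singleton_iff.2 (commutatorElement_eq_one_iff_mul_comm.1 (mem_bot.1
    (Inv.mem_of_pow_mem_of_pow_mem (mem_bot.2 h3.symm) (mem_bot.2 hm)
      (Nat.Coprime.pow _ _ ((Nat.coprime_primes hq hp.out).2 hqp)))))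

theorem card_modEq {G : Type*} [Group G] [Finite G] {p : ℕ} [hp : Fact p.Prime] :
    Nat.card {x : G // ∃ k, (𝐂[x]).index = p ^ k} ≡ Nat.card (center G) [MOD p] := by
  let S : SubMulAction (ConjAct G) G := ⟨{x : G | ∃ k, (𝐂[x]).index = p ^ k}, fun c x ⟨k, hk⟩ =>
    ⟨k, (index_cent1_of_isConj (isConj_iff.2 ⟨_, rfl⟩)).trans hk⟩⟩
  obtain ⟨P⟩ : Nonempty (Sylow p G) := inferInstance
  have h := (P.2.map (ConjAct.toConjAct (G := G)).toMonoidHom).card_modEq_card_fixedPoints S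
  refine h.trans (Eq.subst (motive := fun m => _ ≡ m [MOD p]) ?_ (Nat.ModEq.refl _))
  refine Nat.card_congr ⟨fun x => ⟨x.1.1, ?_⟩, fun z => ⟨⟨z, 0, index_cent1_eq_one.2 z.2⟩, ?_⟩,
    fun _ => rfl, fun _ => rfl⟩
  · obtain ⟨⟨x, k, hk⟩, hx⟩ := x
    have : ¬ p ∣ (𝐂[x]).index := not_dvd_index_of_sylow_le P fun g hg => mem_centralizer_singleton_iff.2
      (mul_inv_eq_iff_eq_mul.1 (congrArg Subtype.val (hx ⟨_, mem_map_of_mem _ hg⟩)))
    refine index_cent1_eq_one.1 (hk.trans ?_)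
    rcases k with _ | k
    · rfl
    · exact absurd (hk ▸ dvd_pow_self p k.succ_ne_zero) this
  · exact fun g => Subtype.ext (mul_inv_eq_iff_eq_mul.2 (mem_center_iff.1 z.2 _))

theorem not_dvd_center {G : Type*} [Group G] [Finite G] {p : ℕ} [hp : Fact p.Prime] :
    ¬ p ∣ Nat.card (center (G ⧸ pCore p G ⊓ 𝐂(pResidual p G))) := fun h => by
  set N := pCore p G ⊓ 𝐂(pResidual p G)
  have hN : IsPGroup p N := (Core.pCore_isPGroup p G).to_le inf_le_left
  obtain ⟨⟨z, hz⟩, h1⟩ := exists_prime_orderOf_dvd_card' p h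
  obtain ⟨z, rfl⟩ := QuotientGroup.mk_surjective z
  rw [Subgroup.orderOf_mk] at h1
  haveI : (zpowers (z : G ⧸ N)).Normal := ⟨fun a ha g => by
    rwa [mem_center_iff.1 (zpowers_le.2 hz ha) g, mul_inv_cancel_right]⟩
  have h2 : z ∈ pCore p G := Core.le_pCore (N := (zpowers (z : G ⧸ N)).comap (QuotientGroup.mk' N))
    inferInstance ((IsPGroup.of_card (n := 1) (by rw [Nat.card_zpowers, h1, pow_one])).comap_of_ker_isPGroup _
      (by rwa [QuotientGroup.ker_mk'])) (mem_zpowers _)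
  have h3 : z ∈ N := ⟨h2, (le_centralizer_iff.1 (pResidual_le_iff (H := 𝐂(zpowers z)).2 fun d hd => ?_))
    (mem_zpowers z)⟩
  · rw [(QuotientGroup.eq_one_iff z).2 h3, orderOf_one] at h1
    exact hp.out.one_lt.ne h1
  have h4 : ⁅d, z⁆ ∈ N := (QuotientGroup.eq_one_iff _).1
    (commutatorElement_eq_one_iff_mul_comm.2 (mem_center_iff.1 hz d))
  have h5 := PGroup.commutator_pow_left_of_commute (h4.2 d (mem_pResidual_of_coprime hd)) (orderOf d)
  obtain ⟨m, hm⟩ := exists_pow_of_mem hN h4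
  rw [pow_orderOf_eq_one, commutatorElement_one_left] at h5
  have h6 := commutatorElement_eq_one_iff_mul_comm.1 (mem_bot.1
    (Inv.mem_of_pow_mem_of_pow_mem (mem_bot.2 h5.symm) (mem_bot.2 hm) (hd.pow_right m)))
  rintro _ ⟨k, rfl⟩
  exact (Commute.zpow_right h6 k).symm

end

/-- Let G and H be finite groups such that for every natural number k, G and H have the same number of conjugacy classes of size k. If H is nilpotent then G is nilpotent. -/
theorem result {G H : Type*} [Group G] [Finite G] [Group H] [Finite H]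
    (hH : Group.IsNilpotent H)
    (h : ∀ k : ℕ, Nat.card {C : ConjClasses G // Nat.card C.carrier = k} = Nat.card {C : ConjClasses H // Nat.card C.carrier = k}) :
    Group.IsNilpotent G := by
  open Subgroup Cfsg.Lib Cfsg.Lib.BG Cfsg.Lib.Transfer in
  open Cfsg.Lib.FGS in
  let e0 : ConjClasses G ≃ ConjClasses H := Equiv.ofFiberEquiv fun m => (Finite.card_eq.mp (h m)).some
  have he0 : ∀ C, Nat.card (e0 C).carrier = Nat.card C.carrier := fun C =>
    Equiv.ofFiberEquiv_map (fun m => (Finite.card_eq.mp (h m)).some) C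
  have h1 : ∀ D : ConjClasses H, Nat.card {x : G // e0 (ConjClasses.mk x) = D} =
      Nat.card {y : H // ConjClasses.mk y = D} := fun D => by
    obtain ⟨C, rfl⟩ := e0.surjective D
    simp only [e0.apply_eq_iff_eq, ← ConjClasses.mem_carrier_iff_mk_eq]
    exact (he0 C).symm
  let e : G ≃ H := Equiv.ofFiberEquiv fun D => (Finite.card_eq.mp (h1 D)).some
  have he : ∀ x, (𝐂[e x]).index = (𝐂[x]).index := fun x => by
    rw [← card_carrier_eq_index, ← card_carrier_eq_index, ← he0]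
    exact congrArg _ (congrArg _ (congrArg _ (Equiv.ofFiberEquiv_map (fun D => (Finite.card_eq.mp (h1 D)).some) x)))
  refine ((Group.isNilpotent_of_finite_tfae (G := G)).out 0 3).2
    fun (p : ℕ) (hp : Fact p.Prime) (P : Sylow p G) => ?_
  obtain ⟨Q⟩ : Nonempty (Sylow p H) := inferInstance
  haveI : (Q : Subgroup H).Normal := inferInstance
  have h2 := card_pre (N := (Q : Subgroup H)) (pResidual_le_iff.2 fun y hy z hz => by
    obtain ⟨k, hk⟩ := exists_pow_of_mem Q.2 hz
    exact (Core.commute_of_coprime_orderOf ((hy.pow_right k).coprime_dvd_right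
      (orderOf_dvd_of_pow_eq_one hk))).symm) Q.2
  rw [← Nat.card_congr (e.subtypeEquiv (p := fun x => ∃ k, (𝐂[x]).index = p ^ k) fun x => by rw [he]),
    card_pre (N := pCore p G ⊓ 𝐂(pResidual p G)) (le_centralizer_iff.1 inf_le_right)
      ((Core.pCore_isPGroup p G).to_le inf_le_left)] at h2
  have h3 : Nat.card Q ∣ Nat.card ↥(pCore p G ⊓ 𝐂(pResidual p G)) := by
    refine Nat.Coprime.dvd_of_dvd_mul_right ?_ ⟨_, h2⟩
    rw [Q.card_eq_multiplicity]
    exact ((Nat.Prime.coprime_iff_not_dvd hp.out).2 fun e =>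
      not_dvd_center ((card_modEq.dvd_iff dvd_rfl).1 e)).pow_left _
  rw [Q.card_eq_multiplicity, ← Nat.card_congr e, ← P.card_eq_multiplicity] at h3
  have h4 : pCore p G = P := eq_of_le_of_card_ge (Core.pCore_le_sylow P)
    (Nat.le_of_dvd Nat.card_pos (h3.trans (card_dvd_of_le inf_le_left)))
  exact h4 ▸ inferInstance

end Cfsg.Agent.S4139
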