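import Cfsg.Statements.S4142
import Cfsg.Agent.Lib.FGS.Classes

set_option autoImplicit false
open Cfsg

namespace Cfsg.Agent.S4142

/-- Let G be a finite group and N a normal subgroup. Then the conjugacy class of every element g outside N is a union of cosets of N (gn is conjugate to g for all n ∈ N) if and only if for every g outside N the centralizer of g in G has the same order as the centralizer of gN in G/N. -/
theorem result {G : Type*} [Group G] [Finite G] (N : Subgroup G) [N.Normal] :
    (∀ g : G, g ∉ N → ∀ n ∈ N, ∃ x : G, x * g * x⁻¹ = g * n) ↔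
      ∀ g : G, g ∉ N → Nat.card (Subgroup.centralizer ({g} : Set G)) =
        Nat.card (Subgroup.centralizer ({(QuotientGroup.mk g : G ⧸ N)} : Set (G ⧸ N))) := by
  open Cfsg.Lib.FGS Cfsg.Lib.BG in
  refine forall_congr' fun g => forall_congr' fun _ => ?_
  set D : Subgroup G := (𝐂[(QuotientGroup.mk g : G ⧸ N)]).comap (QuotientGroup.mk' N) with hD
  have hCD : 𝐂[g] ≤ D := fun x hx => by
    rw [hD, Subgroup.mem_comap, mem_cent1]
    simpa using congrArg (QuotientGroup.mk' N) (mem_cent1.1 hx)
  have h1 := ncard_hcl_mul D g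
  rw [inf_eq_right.2 hCD] at h1
  have h2 : Nat.card D = Nat.card N * Nat.card 𝐂[(QuotientGroup.mk g : G ⧸ N)] := by
    have a1 := D.card_mul_index
    have a2 := (𝐂[(QuotientGroup.mk g : G ⧸ N)]).card_mul_index
    rw [hD, Subgroup.index_comap_of_surjective _ (QuotientGroup.mk'_surjective N), ← hD,
      N.card_eq_card_quotient_mul_card_subgroup, ← a2] at a1
    refine Nat.eq_of_mul_eq_mul_right (Nat.pos_of_ne_zero (Subgroup.index_ne_zero_of_finite
      (H := 𝐂[(QuotientGroup.mk g : G ⧸ N)]))) ?_
    rw [a1]; ring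
  have hsub : hcl D g ⊆ (fun n => g * n) '' (N : Set G) := by
    rintro _ ⟨x, hx, rfl⟩
    refine ⟨g⁻¹ * (x * g * x⁻¹), ?_, by group⟩
    rw [hD, Subgroup.mem_comap, mem_cent1] at hx
    refine QuotientGroup.eq.1 ?_
    simp only [QuotientGroup.mk'_apply] at hx
    rw [QuotientGroup.mk_mul, QuotientGroup.mk_mul, hx]; simp
  have h3 : ((fun n => g * n) '' (N : Set G)).ncard = Nat.card N := by
    rw [Set.ncard_image_of_injective _ (mul_right_injective g)]; rfl
  constructor
  · intro h
    have : hcl D g = (fun n => g * n) '' (N : Set G) := by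
      refine hsub.antisymm ?_
      rintro _ ⟨n, hn, rfl⟩
      obtain ⟨x, hx⟩ := h n hn
      refine ⟨x, ?_, hx⟩
      rw [hD, Subgroup.mem_comap, mem_cent1]
      have := congrArg (QuotientGroup.mk' N) hx
      simp only [map_mul, map_inv, QuotientGroup.mk'_apply, (QuotientGroup.eq_one_iff n).2 hn, mul_one] at this
      simpa [mul_inv_eq_iff_eq_mul] using this
    rw [this, h3, h2] at h1
    exact Nat.eq_of_mul_eq_mul_left Nat.card_pos h1
  · intro h n hn
    rw [h2, h] at h1
    have h4 := Nat.eq_of_mul_eq_mul_right Nat.card_pos h1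
    have : hcl D g = (fun n => g * n) '' (N : Set G) := Set.eq_of_subset_of_ncard_le hsub (by rw [h3, h4])
    obtain ⟨x, -, hx⟩ : g * n ∈ hcl D g := this ▸ ⟨n, hn, rfl⟩
    exact ⟨x, hx⟩

end Cfsg.Agent.S4142
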