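import Cfsg.Statements.S4144
import Cfsg.Agent.Lib.MaxC.Engel

set_option autoImplicit false
open Cfsg

namespace Cfsg.Agent.S4144

open Cfsg.Lib Cfsg.Lib.MaxC Cfsg.Lib.RegP Subgroup
open scoped commutatorElement

/-- Let X be a finite p-group of order p^n, n ≥ 2, of nilpotency class n − 1 (maximal class), and H any subgroup of X. Then the index in H of the subgroup generated by the p-th powers of elements of H is at most p^p. -/
theorem result {X : Type*} [Group X] [Finite X] {p : ℕ} [Fact p.Prime] (n : ℕ) (hn : 2 ≤ n) (hX : Nat.card X = p ^ n)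
    (hmax : Group.nilpotencyClass X = n - 1) (H : Subgroup X) :
    (Subgroup.closure {y : X | ∃ h ∈ H, y = h ^ p}).relIndex H ≤ p ^ p := by
  have hp : p.Prime := Fact.out
  obtain ⟨n, rfl⟩ : ∃ m, n = m + 2 := ⟨n - 2, by omega⟩
  have m : MC p n X := ⟨hX, (PGroup.maxClass_iff hX).1 hmax⟩
  obtain ⟨s, u⟩ := m.exists_mu
  set U := Subgroup.closure {y : X | ∃ h ∈ H, y = h ^ p}
  have h1 : ∀ x ∈ H, x ^ p ∈ U := fun x hx => subset_closure ⟨x, hx, rfl⟩
  by_cases hH : H = ⊤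
  swap
  · exact u.relIndex_le hH ((Subgroup.closure_le _).2 (by rintro _ ⟨h, hh, rfl⟩; exact H.pow_mem hh p)) h1
  subst hH
  have : U.Normal := ⟨fun x hx g => (Subgroup.closure_le (U.comap (MulAut.conj g).toMonoidHom)).2 (by
    rintro _ ⟨h, -, rfl⟩
    exact mem_comap.2 (by rw [map_pow]; exact h1 _ trivial)) hx⟩
  rw [relIndex_top_right]
  obtain ⟨r, hr, e⟩ := (Nat.dvd_prime_pow hp).1 (hX ▸ U.index_dvd_card)
  rw [e]
  refine Nat.pow_le_pow_right hp.pos (not_lt.1 fun h => ?_)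
  have h2 := hp.two_le
  obtain ⟨r, rfl⟩ : ∃ k, r = k + 2 := ⟨r - 2, by omega⟩
  have h3 : U ≤ lc X p := (PGroup.maxClass_normal_eq hX m.ne U e).le.trans (lc_anti (by omega))
  obtain ⟨b, hb, hb'⟩ := SetLike.not_le_iff_exists.1 (m.not_le (j := 0) (by omega))
  obtain ⟨a, rfl⟩ := u.exists_comm hb
  have h4 := engel_mem (p := p) (lc X p) (fun b => h3 (h1 b trivial)) le_rfl s a
  obtain ⟨q, rfl⟩ : ∃ q, p = q + 2 := ⟨p - 2, by omega⟩
  refine u.uni.iter_not_mem (j := 0) hb hb' (i := q) (fun e => m.ne (le_bot_iff.1 (le_trans ?_ e.le))) ?_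
  · exact lc_anti (show 0 + q + 2 - 1 ≤ n by omega)
  · rw [zero_add]
    exact h4

end Cfsg.Agent.S4144
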