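import Cfsg.Statements.S4149
import Cfsg.Agent.Lib.FGS.Sylow
import Cfsg.Agent.Lib.Transfer.Criteria

set_option autoImplicit false
open Cfsg

namespace Cfsg.Agent.S4149

open Subgroup Finset Cfsg.Lib Cfsg.Lib.Transfer
open scoped Classical

theorem half {G : Type*} [Group G] [Fintype G] {p : ℕ} [hp : Fact p.Prime]
    (h : ¬ HasNormalPComplement p G) :
    Fintype.card G ≤ 2 * #{x : G | p ∣ (centralizer ({x} : Set G)).index} := by
  haveI : Fintype (Sylow p G) := Fintype.ofFinite _
  have h1 : ∀ Q : Sylow p G, 2 * Nat.card (centralizer ((Q : Subgroup G) : Set G)) *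
      Nat.card (Sylow p G) ≤ Nat.card G := by
    intro Q
    rw [FGS.card_sylow_eq_index Q, ← (normalizer ((Q : Subgroup G) : Set G)).card_mul_index]
    refine Nat.mul_le_mul_right _ ?_
    have hle : centralizer ((Q : Subgroup G) : Set G) ≤ normalizer ((Q : Subgroup G) : Set G) :=
      centralizer_le_normalizer _
    have hne : ¬ normalizer ((Q : Subgroup G) : Set G) ≤ centralizer ((Q : Subgroup G) : Set G) := by
      intro hc
      apply h
      rw [← hasNormalPComplement_top_iff]
      exact hasNormalPComplement_subgroup_of_normalizer_le Q.isPGroup'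
        (by rw [relIndex_top_right]; exact Q.not_dvd_index) le_top (inf_le_right.trans hc)
    obtain ⟨c, hc⟩ := card_dvd_of_le hle
    have h0 : c ≠ 0 := by
      rintro rfl
      exact Nat.card_pos.ne' (hc.trans (mul_zero _))
    have h1 : c ≠ 1 := by
      rintro rfl
      exact hne (eq_of_le_of_card_ge hle (by rw [hc, mul_one])).ge
    rw [hc, mul_comm]
    exact Nat.mul_le_mul_left _ (by omega)
  have h2 : (univ.filter fun x : G => ¬ p ∣ (centralizer ({x} : Set G)).index) ⊆
      (univ : Finset (Sylow p G)).biUnion fun Q =>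
        univ.filter fun x => x ∈ centralizer ((Q : Subgroup G) : Set G) := by
    intro x hx
    simp only [mem_filter, mem_univ, true_and, mem_biUnion] at hx ⊢
    obtain ⟨Q, hQ⟩ := FGS.exists_sylow_le_of_not_dvd_index hx
    refine ⟨Q, fun y hy => ?_⟩
    exact (mem_centralizer_iff.mp (hQ hy) x rfl).symm
  have h3 := (card_le_card h2).trans card_biUnion_le
  have hpos : 0 < Nat.card (Sylow p G) := Nat.card_pos
  have h4 : 2 * (∑ Q : Sylow p G, #(univ.filter fun x => x ∈ centralizer ((Q : Subgroup G) : Set G))) *
      Nat.card (Sylow p G) ≤ Nat.card G * Nat.card (Sylow p G) := by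
    rw [mul_sum, sum_mul]
    refine (sum_le_card_nsmul _ _ (Nat.card G) fun Q _ => ?_).trans ?_
    · have := h1 Q
      rwa [Nat.card_eq_fintype_card (α := centralizer _), Fintype.card_subtype] at this
    · simp [mul_comm]
  have h5 := Nat.le_of_mul_le_mul_right h4 hpos
  have h6 := card_filter_add_card_filter_not (s := (univ : Finset G))
    (fun x : G => p ∣ (centralizer ({x} : Set G)).index)
  rw [Nat.card_eq_fintype_card] at h5
  rw [card_univ] at h6
  omega

/-- Let G be a finite group that has a normal p-complement for at most one prime p dividing its order, and let σ be a natural number such that every conjugacy class size of G has at most σ distinct prime divisors. Then the number of primes dividing at least one conjugacy class size of G is at most 2σ. -/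
theorem result {G : Type*} [Group G] [Finite G] (σ : ℕ)
    (hσ : ∀ x : G, ((Subgroup.centralizer ({x} : Set G)).index).primeFactors.card ≤ σ)
    (hnil : ∀ p q : ℕ, p.Prime → q.Prime → p ∣ Nat.card G → q ∣ Nat.card G →
      Cfsg.HasNormalPComplement p G → Cfsg.HasNormalPComplement q G → p = q) :
    Nat.card {p : ℕ | p.Prime ∧ ∃ x : G, p ∣ (Subgroup.centralizer ({x} : Set G)).index} ≤ 2 * σ := by
  haveI := Fintype.ofFinite G
  set R : Finset ℕ := (Nat.card G).primeFactors.filter
    fun p => ∃ x : G, p ∣ (centralizer ({x} : Set G)).index with hR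
  have hRe : {p : ℕ | p.Prime ∧ ∃ x : G, p ∣ (centralizer ({x} : Set G)).index} = ↑R := by
    ext p
    simp only [hR, Set.mem_setOf_eq, coe_filter, Nat.mem_primeFactors]
    constructor
    · rintro ⟨hp, x, hx⟩
      exact ⟨⟨hp, hx.trans (index_dvd_card _), Nat.card_pos.ne'⟩, x, hx⟩
    · rintro ⟨⟨hp, -⟩, h⟩
      exact ⟨hp, h⟩
  rw [hRe, Nat.card_coe_set_eq, Set.ncard_coe_finset]
  set b : ℕ → ℕ := fun p => #{x : G | p ∣ (centralizer ({x} : Set G)).index} with hb
  have h1 : ∑ p ∈ R, b p ≤ Fintype.card G * σ := by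
    have : ∑ p ∈ R, b p = ∑ x : G, #{p ∈ R | p ∣ (centralizer ({x} : Set G)).index} := by
      simp only [hb, card_filter]
      exact sum_comm
    rw [this]
    refine (sum_le_card_nsmul _ _ σ fun x _ => (card_le_card ?_).trans (hσ x)).trans (by simp)
    intro p hp
    simp only [hR, mem_filter, Nat.mem_primeFactors] at hp ⊢
    exact ⟨hp.1.1.1, hp.2, FiniteIndex.index_ne_zero⟩
  have hpos : 0 < Fintype.card G := Fintype.card_pos
  have h2 : ∀ p ∈ R, ¬ HasNormalPComplement p G → Fintype.card G ≤ 2 * b p := by
    intro p hp h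
    haveI := Fact.mk (Nat.prime_of_mem_primeFactors (mem_filter.mp hp).1)
    exact half h
  by_cases hex : ∃ p ∈ R, HasNormalPComplement p G
  · obtain ⟨p, hp, hn⟩ := hex
    have h3 : (R.erase p).card * Fintype.card G ≤ ∑ q ∈ R.erase p, 2 * b q := by
      refine card_nsmul_le_sum _ _ _ fun q hq => h2 q (mem_of_mem_erase hq) fun hq' => ?_
      have e1 := Nat.mem_primeFactors.mp (mem_filter.mp hp).1
      have e2 := Nat.mem_primeFactors.mp (mem_filter.mp (mem_of_mem_erase hq)).1
      exact ne_of_mem_erase hq (hnil q p e2.1 e1.1 e2.2.1 e1.2.1 hq' hn)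
    have h4 : 0 < b p := by
      obtain ⟨x, hx⟩ := (mem_filter.mp hp).2
      exact card_pos.mpr ⟨x, by simpa using hx⟩
    rw [← mul_sum] at h3
    rw [← add_sum_erase _ _ hp] at h1
    rw [← card_erase_add_one hp]
    have : (R.erase p).card * Fintype.card G < (2 * σ) * Fintype.card G := by nlinarith
    have := Nat.lt_of_mul_lt_mul_right this
    omega
  · push Not at hex
    have h3 : R.card * Fintype.card G ≤ ∑ q ∈ R, 2 * b q :=
      card_nsmul_le_sum _ _ _ fun q hq => h2 q hq (hex q hq)
    rw [← mul_sum] at h3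
    have : R.card * Fintype.card G ≤ (2 * σ) * Fintype.card G := by nlinarith
    exact Nat.le_of_mul_le_mul_right this hpos

end Cfsg.Agent.S4149
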