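import Cfsg.Statements.S4150
import Cfsg.Agent.Lib.Perm.TwoGen
import Cfsg.Agent.Lib.Perm.TwoPrimes
import Cfsg.Agent.Lib.Inv.Count
import Cfsg.Agent.Lib.Small.Recog
import Cfsg.Agent.Lib.Spec.PSL2

set_option autoImplicit false
open Cfsg

namespace Cfsg.Agent.S4150

open Equiv Equiv.Perm Subgroup Cfsg.Lib Cfsg.Lib.Perm

theorem exists_restrict {α : Type*} [Fintype α] [DecidableEq α] (D : Finset α) (x : Perm α)
    (h : x.support ⊆ D) : ∃ x' : Perm {a // a ∈ D}, ofSubtype x' = x ∧
      ∀ a : {a // a ∈ D}, a ∈ x'.support ↔ (a : α) ∈ x.support := by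
  have h1 : ∀ a, x a ∈ D ↔ a ∈ D := fun a => by
    by_cases e : x a = a
    · rw [e]
    · exact iff_of_true (h (apply_mem_support.2 (mem_support.2 e))) (h (mem_support.2 e))
  refine ⟨x.subtypePerm h1, ofSubtype_subtypePerm h1 fun a e => h (mem_support.2 e), fun a => ?_⟩
  simp [Subtype.ext_iff]

theorem general {m p q : ℕ} (hp : p.Prime) (hq : q.Prime) (h1 : m ≤ 2 * p) (hpq : p < q)
    (h5 : 5 ≤ q) (h : ∀ d, q ≤ d → d ≤ m → (d < 2 * p ∧ p + 3 ≤ d) ∨ q + 3 ≤ d ∨
      (d = 7 ∧ p = 5 ∧ q = 7) ∨ (d = 13 ∧ p = 11 ∧ q = 13))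
    (x y : alternatingGroup (Fin m)) (hx : orderOf x = p) (hy : orderOf y = q) :
    ∃ d : ℕ, 5 ≤ d ∧ Nonempty (Subgroup.closure ({x, y} : Set (alternatingGroup (Fin m))) ≃*
      alternatingGroup (Fin d)) := by
  set D := (x : Perm (Fin m)).support ∪ (y : Perm (Fin m)).support with hD
  obtain ⟨x', hx1, hx2⟩ := exists_restrict D x Finset.subset_union_left
  obtain ⟨y', hy1, hy2⟩ := exists_restrict D y Finset.subset_union_right
  have hinj : Function.Injective (ofSubtype : Perm {a // a ∈ D} →* Perm (Fin m)) :=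
    ofSubtype_injective
  have hy' : orderOf (y : Perm (Fin m)) = q := by rw [Subgroup.orderOf_coe, hy]
  have hyc : (y : Perm (Fin m)).IsCycle := isCycle_of_prime_order' (hy' ▸ hq) (by
    rw [Fintype.card_fin]; omega)
  have hd : Fintype.card {a // a ∈ D} = D.card := Fintype.card_coe D
  have hqd : q ≤ D.card := by
    rw [← hy', hyc.orderOf]; exact Finset.card_le_card Finset.subset_union_right
  have hdm : D.card ≤ m := by simpa using Finset.card_le_univ D
  have key := closure_eq_alt (x := x') (y := y') hp hq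
    (by rw [← orderOf_injective _ hinj, hx1, Subgroup.orderOf_coe, hx])
    (by rw [← orderOf_injective _ hinj, hy1, hy'])
    (by rw [mem_alternatingGroup, ← sign_ofSubtype, hx1]; exact x.2)
    (by rw [mem_alternatingGroup, ← sign_ofSubtype, hy1]; exact y.2)
    (fun a => by rw [hx2, hy2]; exact Finset.mem_union.1 a.2) (by omega) hpq (by omega)
    (hd ▸ h _ hqd hdm)
  have e : (closure ({x, y} : Set (alternatingGroup (Fin m)))).map (alternatingGroup _).subtype =
      (alternatingGroup {a // a ∈ D}).map ofSubtype := by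
    rw [← key, MonoidHom.map_closure, MonoidHom.map_closure, Set.image_pair, Set.image_pair, hx1,
      hy1]
    rfl
  exact ⟨D.card, by omega, ⟨(equivMapOfInjective _ _ (subtype_injective _)).trans
    ((MulEquiv.subgroupCongr e).trans ((equivMapOfInjective _ _ hinj).symm.trans
      (Fintype.equivFinOfCardEq hd).altCongrHom))⟩⟩

theorem card_alt (n : ℕ) [Nontrivial (Fin n)] :
    2 * Nat.card (alternatingGroup (Fin n)) = n.factorial := by
  rw [Nat.card_eq_fintype_card, two_mul_card_alternatingGroup, Fintype.card_perm, Fintype.card_fin]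

theorem fifteen_dvd {X : Type*} [Group X] [Finite X] {x y : X} (hx : orderOf x = 3)
    (hy : orderOf y = 5) : 15 ∣ Nat.card (closure ({x, y} : Set X)) :=
  Nat.Coprime.mul_dvd_of_dvd_of_dvd (m := 3) (n := 5) (by norm_num)
    (hx ▸ Subgroup.orderOf_dvd_natCard _ (subset_closure (by simp)))
    (hy ▸ Subgroup.orderOf_dvd_natCard _ (subset_closure (by simp)))

theorem no_fifteen {X : Type*} [Group X] [Finite X] (ho : ∀ g : X, orderOf g ≤ 5) :
    Nat.card X ≠ 15 ∧ Nat.card X ≠ 45 := by
  have := Fact.mk Nat.prime_three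
  have := Fact.mk Nat.prime_five
  rw [← not_or]
  intro h
  obtain ⟨y, hy⟩ := exists_prime_orderOf_dvd_card' (G := X) 5 (by omega)
  obtain ⟨j, n, h1, h2, -, h3⟩ := sylow_count hy (by omega)
  have h4 : ¬ 3 ∣ Nat.card (centralizer ({y} : Set X)) := fun e => by
    obtain ⟨w, hw⟩ := exists_prime_orderOf_dvd_card' 3 e
    have hc : Commute (w : X) y := mem_centralizer_singleton_iff.1 w.2
    have := ho (w * y)
    rw [hc.orderOf_mul_eq_mul_orderOf_of_coprime (by rw [Subgroup.orderOf_coe, hw, hy]; norm_num),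
      Subgroup.orderOf_coe, hw, hy] at this
    omega
  obtain ⟨c, hc⟩ : 5 ∣ Nat.card (centralizer ({y} : Set X)) :=
    hy ▸ Subgroup.orderOf_dvd_natCard _ (mem_centralizer_singleton_iff.2 rfl)
  rw [hc] at h3 h4
  have h5 : c ∣ 45 := (Dvd.intro_left (5 * j * n) (by rw [h3]; ring) : c ∣ Nat.card X).trans
    (by rcases h with h | h <;> rw [h] <;> norm_num)
  have := Nat.le_of_dvd (by norm_num) h5
  have := Nat.le_of_dvd (by norm_num) h1
  interval_cases c <;> interval_cases j <;> omega

theorem cyc_two {X : Type*} [Group X] [Finite X] (ho : ∀ g : X, orderOf g ≤ 5) (P : Sylow 2 X)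
    (hP : IsCyclic (P : Subgroup X)) (h2 : 2 ∣ Nat.card X) :
    Nat.card X ≠ 15 * Nat.card (P : Subgroup X) := fun e => by
  have hm : (Nat.card X).minFac = 2 := (Nat.minFac_eq_two_iff _).2 h2
  have := (IsCyclic.isComplement' hm hP).card_mul_card
  rw [e] at this
  exact (no_fifteen fun g => by rw [← Subgroup.orderOf_coe]; exact ho g).1
    (Nat.eq_of_mul_eq_mul_right Nat.card_pos this)

theorem six (x y : alternatingGroup (Fin 6)) (hx : orderOf x = 3) (hy : orderOf y = 5) :
    ∃ d : ℕ, 5 ≤ d ∧ Nonempty (Subgroup.closure ({x, y} : Set (alternatingGroup (Fin 6))) ≃*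
      alternatingGroup (Fin d)) := by
  set H := closure ({x, y} : Set (alternatingGroup (Fin 6)))
  by_cases hH : H = ⊤
  · exact ⟨6, by norm_num, ⟨(MulEquiv.subgroupCongr hH).trans topEquiv⟩⟩
  have := alternatingGroup.isSimpleGroup (α := Fin 6) (by simp)
  have h1 := Inv.card_dvd_factorial_index hH
  have h2 := H.card_mul_index
  have h3 : Nat.card (alternatingGroup (Fin 6)) = 360 := by
    have := card_alt 6
    norm_num [Nat.factorial] at this ⊢
    omega
  obtain ⟨t, ht⟩ : 15 ∣ Nat.card H := fifteen_dvd hx hy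
  have ho : ∀ g : H, orderOf g = 1 ∨ orderOf g = 2 ∨ orderOf g = 3 ∨ orderOf g = 4 ∨
      orderOf g = 5 := fun g => by
    have := Spec.orderOf_mem_sp (g : alternatingGroup (Fin 6))
    rw [Spec.sp_alt_six, Subgroup.orderOf_coe] at this
    simpa using this
  have ho' : ∀ g : H, orderOf g ≤ 5 := fun g => by have := ho g; omega
  rw [h3] at h1 h2
  have h4 : 6 ≤ H.index := by
    by_contra h
    have h5 : H.index.factorial ≤ Nat.factorial 5 := Nat.factorial_le (by omega)
    have := Nat.le_of_dvd (Nat.factorial_pos _) h1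
    norm_num [Nat.factorial] at h5
    omega
  have h5 := no_fifteen ho'
  have h6 : t ≤ 4 := by rw [ht] at h2; nlinarith
  have hP : ∀ P : Sylow 2 H, Nat.card (P : Subgroup H) = 2 ^ (Nat.card H).factorization 2 :=
    fun P => P.card_eq_multiplicity
  have h0 : 0 < Nat.card H := Nat.card_pos
  interval_cases t
  · omega
  · omega
  · obtain ⟨P⟩ : Nonempty (Sylow 2 H) := inferInstance
    have h7 := hP P
    rw [ht, show (15 * 2 : ℕ).factorization 2 = 1 by decide +kernel, pow_one] at h7
    exact absurd (by rw [ht, h7]) (cyc_two ho' P (isCyclic_of_prime_card h7) (by omega))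
  · omega
  · refine ⟨5, le_rfl, Small.equiv_alt_five_of_orders ht fun g => ?_⟩
    have h8 : orderOf g ≠ 4 := fun e => by
      have h9 : Nat.card (zpowers g) = 2 ^ 2 := by rw [Nat.card_zpowers, e]; rfl
      have h10 : ¬ 2 ∣ (zpowers g).index := fun e' => by
        have := (zpowers g).card_mul_index
        rw [h9, ht] at this
        omega
      exact cyc_two ho' ((IsPGroup.of_card h9).toSylow h10) (inferInstanceAs (IsCyclic (zpowers g)))
        (by omega) (by rw [IsPGroup.toSylow_coe, h9, ht]; rfl)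
    have := ho g
    omega

/-- Let m ≥ 5. Then there are primes p < q with m/2 ≤ p and q ≤ m such that any two elements x, y of the alternating group of degree m with x of order p and y of order q generate a subgroup isomorphic to an alternating group of some degree d ≥ 5. -/
theorem result (m : ℕ) (hm : 5 ≤ m) :
    ∃ p q : ℕ, p.Prime ∧ q.Prime ∧ m ≤ 2 * p ∧ p < q ∧ q ≤ m ∧
      ∀ x y : alternatingGroup (Fin m), orderOf x = p → orderOf y = q →
        ∃ d : ℕ, 5 ≤ d ∧ Nonempty (Subgroup.closure ({x, y} : Set (alternatingGroup (Fin m))) ≃* alternatingGroup (Fin d)) := by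
  by_cases h : 17 ≤ m
  · obtain ⟨p, q, hp, hq, h1, h2, h3⟩ := exists_two_primes h
    exact ⟨p, q, hp, hq, h1.le, by omega, h3, general hp hq h1.le (by omega) (by omega)
      fun d _ _ => by omega⟩
  by_cases h : 14 ≤ m
  · exact ⟨11, 13, by norm_num, by norm_num, by omega, by omega, by omega, general (by norm_num)
      (by norm_num) (by omega) (by omega) (by omega) fun d _ _ => by omega⟩
  by_cases h : 11 ≤ m
  · exact ⟨7, 11, by norm_num, by norm_num, by omega, by omega, by omega, general (by norm_num)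
      (by norm_num) (by omega) (by omega) (by omega) fun d _ _ => by omega⟩
  by_cases h : 7 ≤ m
  · exact ⟨5, 7, by norm_num, by norm_num, by omega, by omega, by omega, general (by norm_num)
      (by norm_num) (by omega) (by omega) (by omega) fun d _ _ => by omega⟩
  refine ⟨3, 5, by norm_num, by norm_num, by omega, by omega, hm, fun x y hx hy => ?_⟩
  rcases (by omega : m = 5 ∨ m = 6) with rfl | rfl
  · refine ⟨5, le_rfl, ⟨(MulEquiv.subgroupCongr ?_).trans topEquiv⟩⟩
    by_contra hH
    have := alternatingGroup.isSimpleGroup (α := Fin 5) (by simp)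
    have h1 := Inv.card_dvd_factorial_index hH
    have h2 := (closure ({x, y} : Set (alternatingGroup (Fin 5)))).card_mul_index
    have h3 : Nat.card (alternatingGroup (Fin 5)) = 60 := by
      have := card_alt 5
      norm_num [Nat.factorial] at this ⊢
      omega
    obtain ⟨t, ht⟩ := fifteen_dvd hx hy
    rw [h3] at h1 h2
    rw [ht] at h2
    have h4 : (closure ({x, y} : Set (alternatingGroup (Fin 5)))).index ≤ 4 := by
      rcases Nat.eq_zero_or_pos t with rfl | h0
      · omega
      · nlinarith
    have h5 := Nat.factorial_le h4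
    have := Nat.le_of_dvd (Nat.factorial_pos _) h1
    norm_num [Nat.factorial] at h5
    omega
  · exact six x y hx hy

end Cfsg.Agent.S4150
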