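import Cfsg.Statements.S4151
import Cfsg.Agent.Lib.Frobenius.TIHall

set_option autoImplicit false
open Cfsg

namespace Cfsg.Agent.S4151

/-- Let G be a finite group and H a non-normal subgroup meeting each of its conjugates by elements outside N_G(H) trivially, with the order of H coprime to its index in N_G(H), such that G is π-separable for π the set of primes dividing the order of H (G has a chain of normal subgroups from 1 to G each of whose factors has order divisible only by primes dividing the order of H or coprime to it). Suppose a Sylow 2-subgroup of H is abelian and Q is a complement of H in N_G(H). Then C_H(Q), the subgroup of elements of H commuting with Q, has order coprime to its index in G and has a normal complement in G. -/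
theorem result {G : Type*} [Group G] [Finite G] (H : Subgroup G)
    (hTI : Cfsg.IsTISubset (H : Set G)) (hnn : ¬ H.Normal)
    (hHall : (Nat.card H).Coprime (H.subgroupOf (Subgroup.normalizer (H : Set G))).index)
    (hsep : ∃ (n : ℕ) (M : Fin (n + 1) → Subgroup G), M 0 = ⊥ ∧ M (Fin.last n) = ⊤ ∧ Monotone M ∧ (∀ i, (M i).Normal) ∧
      ∀ i : Fin n, (∀ q : ℕ, q.Prime → q ∣ (M i.castSucc).relIndex (M i.succ) → q ∣ Nat.card H) ∨
        ((M i.castSucc).relIndex (M i.succ)).Coprime (Nat.card H))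
    (h2 : ∀ P : Sylow 2 H, IsMulCommutative (P : Subgroup H))
    (Q : Subgroup G) (hQ : Q ≤ Subgroup.normalizer (H : Set G)) (hQH : Q ⊓ H = ⊥) (hQH' : Q ⊔ H = Subgroup.normalizer (H : Set G)) :
    (Nat.card ↥(H ⊓ Subgroup.centralizer (Q : Set G))).Coprime (H ⊓ Subgroup.centralizer (Q : Set G)).index ∧
    ∃ N : Subgroup G, N.Normal ∧ N.IsComplement' (H ⊓ Subgroup.centralizer (Q : Set G)) := by
  open Subgroup Cfsg.Lib Cfsg.Lib.BG Cfsg.Lib.Core Cfsg.Lib.Frobenius in
  have h1 := core_sup_norm_of_ti hTI hnn hHall hsep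
  have hO := pPrimeCore_coprime (Nat.card H) G
  generalize hO' : pPrimeCore (Nat.card H) G = O at h1 hO
  haveI : O.Normal := hO' ▸ inferInstance
  have hF := fpf_of_ti_separable hTI hnn hHall hsep
  obtain ⟨P⟩ : Nonempty (Sylow 2 H) := inferInstance
  haveI := hF.isZGroup_of_sylow P (hF.isCyclic_of_comm (h2 P))
  have hc : (Nat.card Q).Coprime (Nat.card H) := by
    rw [← (SD.mk hQ (inf_comm Q H ▸ hQH) (sup_comm Q H ▸ hQH')).relIndex_left]
    exact hHall.symm
  have hX : 𝐍(H) ≤ 𝐍(⁅H, Q⁆ ⊔ Q) := hQH' ▸ sup_le (le_norm_of_le le_sup_right)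
    (norm_of_comm_le (comm_le_iff.2 fun x hx y hy => by
      obtain ⟨a, ha, b, hb, rfl⟩ := (mem_sup_left_norm (right_norm_comm H Q)).1 hx
      have h3 := conj_mem_of_norm (left_norm_comm H Q hy) (inv_mem ha)
      have h4 := comm_mem_comm hy (inv_mem hb)
      rw [show a * b * y * (a * b)⁻¹ * y⁻¹ =
        a * b * (y * b⁻¹ * y⁻¹ * b⁻¹⁻¹) * b⁻¹ * (y * a⁻¹ * y⁻¹) by group]
      exact mul_mem (mul_mem (mul_mem hx (mem_sup_left h4)) (mem_sup_right (inv_mem hb)))
        (mem_sup_left h3)))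
  haveI : (O ⊔ (⁅H, Q⁆ ⊔ Q)).Normal := normalizer_eq_top_iff.1 (eq_top_iff.2 (h1 ▸
    sup_le (le_norm_of_le le_sup_left) (norm_sup le_normalizer_of_normal hX)))
  have h3 : (Nat.card ↥(O ⊔ (⁅H, Q⁆ ⊔ Q))).Coprime (Nat.card ↥(H ⊓ 𝐂(Q))) := by
    refine Nat.coprime_of_dvd fun p hp a b => ?_
    haveI := Fact.mk hp
    have hpH := b.trans (card_dvd inf_le_left)
    obtain ⟨Z, hZ, hZp⟩ := exists_card_eq_prime hp b
    have h4 : H ≤ 𝐍(Z) := by
      have := map_norm H.subtype (hF.le_norm_of_prime (A := ⊤) (X := Z.subgroupOf H) inferInstance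
        le_top (by rwa [card_subgroupOf_of_le (hZ.trans inf_le_left), hZp]))
      rwa [← MonoidHom.range_eq_map, range_subtype, map_subgroupOf_eq_of_le
        (hZ.trans inf_le_left)] at this
    obtain ⟨S, hS, h5⟩ := Syl.exists_ge (IsPGroup.of_card (n := 1) (by rw [hZp, pow_one]))
      (hZ.trans inf_le_left)
    obtain ⟨T, rfl⟩ := Syl.top_iff_sylow.1 (hS.of_Hall (hall_of_ti hTI hHall) hpH)
    have h6 := hasNormalPComplement_iff.1 (FGS.hasNormalPComplement_cent_of_cyclic T
      ((subgroupOfEquivOfLe hS.le).isCyclic.1 (hS.pgroup.comap_subtype (K := H)).isCyclic_of_isZGroup)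
      h5 (ne_bot_of_prime (hZp ▸ hp)))
    have h7 : Q ≤ 𝐎({p}ᶜ, 𝐂(Z)) := h6.ge_of_normal (norm_pcore (le_norm _) _)
      (cent_symm (hZ.trans inf_le_right)) (PiGrp.p'_iff.2 fun h =>
        hp.one_lt.ne' (Nat.eq_one_of_dvd_coprimes hc h hpH))
    have h8 : ⁅H, Q⁆ ⊔ Q ≤ 𝐎({p}ᶜ, 𝐂(Z)) := sup_le ((commutator_mono le_rfl h7).trans
      (comm_le_right (norm_pcore (norm_cent h4) _))) h7
    rcases (Nat.Prime.dvd_mul hp).1 (a.trans (Coprime.card_sup_dvd le_normalizer_of_normal)) with h | h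
    swap
    · exact PiGrp.p'_iff.1 (h6.pi.of_le h8) h
    · exact hp.one_lt.ne' (Nat.eq_one_of_dvd_coprimes hO h hpH)
  have h4 : (O ⊔ (⁅H, Q⁆ ⊔ Q)).IsComplement' (H ⊓ 𝐂(Q)) := by
    refine isComplement'_of_disjoint_and_mul_eq_univ (disjoint_of_coprime_natCard h3) ?_
    rw [← normal_mul, sup_assoc, sup_right_comm, Coprime.commutator_sup_centralizer hQ hc
      (Coprime.isSolvable_or_of_coprime hc), sup_comm H, hQH', h1, coe_top]
  exact ⟨h4.index_eq_card ▸ h3.symm, _, inferInstance, h4⟩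

end Cfsg.Agent.S4151
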