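import Cfsg.Statements.S4153
import Cfsg.Agent.Lib.FGS.Misc

set_option autoImplicit false
open Cfsg

namespace Cfsg.Agent.S4153

section
open Cfsg.Lib.FGS Cfsg.Lib.BG Cfsg.Lib.Transfer Finset

theorem card_fiber {G : Type*} [Group G] [Finite G] {N S : Subgroup G} [N.Normal] {g : G} (hg : g ∈ S) :
    {x : G | x ∈ S ∧ (x : G ⧸ N) = g}.ncard = Nat.card ↥(S ⊓ N) := by
  have : {x : G | x ∈ S ∧ (x : G ⧸ N) = g} = (fun n => g * n) '' ((S ⊓ N : Subgroup G) : Set G) := by
    ext x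
    constructor
    · rintro ⟨h1, h2⟩
      exact ⟨g⁻¹ * x, Subgroup.mem_inf.2 ⟨mul_mem (inv_mem hg) h1, QuotientGroup.eq.1 h2.symm⟩, by simp⟩
    · rintro ⟨n, hn, rfl⟩
      exact ⟨mul_mem hg hn.1, (QuotientGroup.eq.2 (by simpa using hn.2)).symm⟩
  rw [this, Set.ncard_image_of_injective _ (mul_right_injective g)]
  rfl

end

/-- Let G be a finite group, p a prime, N a normal subgroup, P a Sylow p-subgroup of G and P̄ a Sylow p-subgroup of G/N. Count the elements of p-power order, the identity included. Then (number of such elements of G/N)/#P̄ ≤ (number of such elements of G)/#P, stated as a cross-multiplied inequality, with equality when N is central. -/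
theorem result {G : Type*} [Group G] [Finite G] (p : ℕ) [Fact p.Prime] (N : Subgroup G) [N.Normal]
    (P : Sylow p G) (Pbar : Sylow p (G ⧸ N)) :
    Nat.card {g : (G ⧸ N) // ∃ k : ℕ, orderOf g = p ^ k} * Nat.card (P : Subgroup G) ≤ Nat.card {g : G // ∃ k : ℕ, orderOf g = p ^ k} * Nat.card (Pbar : Subgroup (G ⧸ N)) ∧
    (N ≤ Subgroup.center G → Nat.card {g : (G ⧸ N) // ∃ k : ℕ, orderOf g = p ^ k} * Nat.card (P : Subgroup G) = Nat.card {g : G // ∃ k : ℕ, orderOf g = p ^ k} * Nat.card (Pbar : Subgroup (G ⧸ N))) := by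
  open Cfsg.Lib.FGS Cfsg.Lib.BG Cfsg.Lib.Transfer Finset in
  classical
  haveI := Fintype.ofFinite G
  haveI := Fintype.ofFinite (G ⧸ N)
  have hp : p.Prime := Fact.out
  obtain ⟨T, hT⟩ := Syl.exists (p := p) N
  have hN : Nml N ⊤ := Nml.top_iff.2 inferInstance
  have hcard : Nat.card (P : Subgroup G) = Nat.card (Pbar : Subgroup (G ⧸ N)) * Nat.card T := by
    obtain ⟨T', rfl⟩ := Syl.iff_sylow.1 hT
    rw [Subgroup.card_map_of_injective N.subtype_injective, P.card_eq_multiplicity, Pbar.card_eq_multiplicity,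
      T'.card_eq_multiplicity, N.card_eq_card_quotient_mul_card_subgroup,
      Nat.factorization_mul Nat.card_pos.ne' Nat.card_pos.ne', Finsupp.add_apply, pow_add]
  have key : ∀ c : G ⧸ N, (∃ k : ℕ, orderOf c = p ^ k) → ∃ S : Subgroup G, IsPGroup p S ∧ Nat.card ↥(S ⊓ N) = Nat.card T ∧
      ∃ g ∈ S, (g : G ⧸ N) = c := by
    intro c hc
    obtain ⟨k, hk⟩ := orderOf_eq_pow_iff.1 hc
    obtain ⟨R, hR⟩ := exists_sylow_mem hk
    obtain ⟨S, rfl⟩ := Sylow.mapSurjective_surjective (QuotientGroup.mk'_surjective N) p R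
    exact ⟨S, S.isPGroup', ((Syl.of_sylow_top S).inf_nml hN).card_eq hT, hR⟩
  have hm : ∀ x ∈ (univ.filter fun g : G => ∃ k : ℕ, orderOf g = p ^ k), (x : G ⧸ N) ∈
      (univ.filter fun g : G ⧸ N => ∃ k : ℕ, orderOf g = p ^ k) := by
    intro x hx
    simp only [mem_filter, mem_univ, true_and, orderOf_eq_pow_iff] at hx ⊢
    obtain ⟨k, hk⟩ := hx
    exact ⟨k, by rw [← QuotientGroup.mk_pow, hk]; rfl⟩
  rw [Nat.card_eq_fintype_card (α := {g : G // ∃ k : ℕ, orderOf g = p ^ k}), Fintype.card_subtype,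
    Nat.card_eq_fintype_card (α := {g : G ⧸ N // ∃ k : ℕ, orderOf g = p ^ k}), Fintype.card_subtype,
    card_eq_sum_card_fiberwise hm, hcard, mul_comm _ (Nat.card T), ← mul_assoc, ← smul_eq_mul _ (Nat.card T), ← sum_const]
  refine ⟨Nat.mul_le_mul_right _ (sum_le_sum fun c hc => ?_), fun hZ => congrArg (· * _) (sum_congr rfl fun c hc => ?_)⟩
  · obtain ⟨S, hS, e, g, hg, rfl⟩ := key c (mem_filter.1 hc).2
    rw [← e, ← card_fiber hg, ← Set.ncard_coe_finset]
    refine Set.ncard_le_ncard fun x hx => ?_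
    simp only [coe_filter, mem_filter, mem_univ, true_and, Set.mem_ofPred_eq]
    exact ⟨orderOf_eq_pow_iff.2 (exists_pow_of_mem hS hx.1), hx.2⟩
  · obtain ⟨S, hS, e, g, hg, rfl⟩ := key c (mem_filter.1 hc).2
    rw [← e, ← card_fiber hg, ← Set.ncard_coe_finset]
    congr 1
    ext x
    simp only [coe_filter, mem_filter, mem_univ, true_and, Set.mem_ofPred_eq]
    refine ⟨fun hx => ⟨orderOf_eq_pow_iff.2 (exists_pow_of_mem hS hx.1), hx.2⟩, fun hx => ⟨?_, hx.2⟩⟩
    have h1 : g⁻¹ * x ∈ N := QuotientGroup.eq.1 hx.2.symm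
    have h2 : Syl p (S ⊓ N) N := hT.of_card_le' hS.to_inf_left inf_le_right e.ge
    have hab : IsMulCommutative N := abelian_iff.2 fun a ha => mem_cent.2 fun b _ => Subgroup.mem_center_iff.1 (hZ ha) b
    have hc : g⁻¹ * x = x * g⁻¹ := by
      have := Subgroup.mem_center_iff.1 (hZ h1) g
      calc g⁻¹ * x = g⁻¹ * x * g * g⁻¹ := by group
        _ = _ := by rw [← this]; group
    obtain ⟨k, hk⟩ := hx.1
    have h3 : PiElt {p} (g⁻¹ * x) := PiElt.mul ((PiGrp.of_pgroup (π := {p}) hS rfl).elt (inv_mem hg))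
      (by unfold PiElt; rw [hk]; exact PiNat.prime_pow (π := {p}) hp rfl k) hc
    simpa using mul_mem hg (h2.mem_of_normal (abelian_norm hab inf_le_right) h1 h3).1

end Cfsg.Agent.S4153
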