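import Cfsg.Statements.S4154
import Cfsg.Agent.Lib.FGS.Misc

set_option autoImplicit false
open Cfsg

namespace Cfsg.Agent.S4154

/-- Let G be a finite group and α an automorphism of G such that every element of G is the product of an element fixed by α and an element of the form g⁻¹α(g). If N is a normal α-invariant subgroup, then the automorphism ᾱ induced on G/N has the same property, and every coset fixed by ᾱ contains an element fixed by α (so the fixed points of ᾱ are the images of the fixed points of α). -/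
theorem result {G : Type*} [Group G] [Finite G] (α : MulAut G)
    (hccp : ∀ x : G, ∃ c g : G, α c = c ∧ x = c * (g⁻¹ * α g))
    (N : Subgroup G) [N.Normal] (hN : ∀ n ∈ N, α n ∈ N) :
    (∀ x : G, ∃ c g : G, c⁻¹ * α c ∈ N ∧ x⁻¹ * (c * (g⁻¹ * α g)) ∈ N) ∧
    (∀ x : G, x⁻¹ * α x ∈ N → ∃ c : G, α c = c ∧ c⁻¹ * x ∈ N) := by
  open Cfsg.Lib.FGS Cfsg.Lib.BG in
  refine ⟨fun x => ?_, ?_⟩
  · obtain ⟨c, g, hc, rfl⟩ := hccp x
    exact ⟨c, g, by simp [hc], by simp⟩
  let π := QuotientGroup.mk' N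
  let C : Subgroup G := (α.toMonoidHom).eqLocus (MonoidHom.id G)
  let D : Subgroup G := π.eqLocus (π.comp α.toMonoidHom)
  have hD : ∀ x, x ∈ D ↔ x⁻¹ * α x ∈ N := fun x => QuotientGroup.eq
  have hND : N ≤ D := fun n hn => (hD n).2 (mul_mem (inv_mem hn) (hN n hn))
  have hCD : C ≤ D := fun c hc => (hD c).2 (by rw [show α c = c from hc]; simp)
  let ψ : G ⧸ D → G ⧸ N := Quotient.lift (fun g => π (g * α g⁻¹)) fun a b hab => by
    have h : π (a⁻¹ * b) = π (α (a⁻¹ * b)) := QuotientGroup.leftRel_apply.1 hab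
    simp only [map_mul, map_inv] at h ⊢
    calc π a * (π (α a))⁻¹ = π a * ((π (α a))⁻¹ * π (α b)) * (π (α b))⁻¹ := by group
      _ = _ := by rw [← h]; group
  have hs : Function.Surjective fun z : C.map π × (G ⧸ D) => (z.1 : G ⧸ N) * ψ z.2 := by
    intro q
    obtain ⟨x, rfl⟩ := QuotientGroup.mk'_surjective N q
    obtain ⟨c, g, hc, rfl⟩ := hccp x
    refine ⟨(⟨π c, c, hc, rfl⟩, QuotientGroup.mk g⁻¹), ?_⟩
    change π c * π (g⁻¹ * α g⁻¹⁻¹) = π _
    rw [inv_inv, ← map_mul]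
  have h1 := Nat.card_le_card_of_surjective _ hs
  rw [Nat.card_prod, ← (D.map π).card_mul_index,
    Subgroup.index_map_eq _ (QuotientGroup.mk'_surjective N) (by rwa [QuotientGroup.ker_mk'])] at h1
  have h2 : C.map π = D.map π := eq_of_le_of_card_le (Subgroup.map_mono hCD)
    (Nat.le_of_mul_le_mul_right h1 (Nat.pos_of_ne_zero D.index_ne_zero_of_finite))
  intro x hx
  obtain ⟨c, hc, e⟩ : π x ∈ C.map π := h2 ▸ ⟨x, (hD x).2 hx, rfl⟩
  exact ⟨c, hc, QuotientGroup.eq.1 e⟩

end Cfsg.Agent.S4154
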