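import Cfsg.Statements.S4155
import Cfsg.Agent.Lib.BG.Hall
import Cfsg.Agent.Lib.FGS.Camina

set_option autoImplicit false
open Cfsg

namespace Cfsg.Agent.S4155

/-- Let G be a finite group and N a proper non-trivial normal nilpotent subgroup whose order is not a prime power, such that for every x outside N all elements of the coset xN have the same order as x. Then N is the Fitting subgroup of G, and for every prime q every Sylow q-subgroup of G/N is cyclic or generalized quaternion. -/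
theorem result {G : Type*} [Group G] [Finite G] (N : Subgroup G) [N.Normal] (hN1 : N ≠ ⊥) (hN2 : N ≠ ⊤)
    (heq : ∀ x : G, x ∉ N → ∀ n ∈ N, orderOf (x * n) = orderOf x)
    (hnil : Group.IsNilpotent N) (hnpp : ¬ IsPrimePow (Nat.card N)) :
    N = Cfsg.fittingSubgroup G ∧
    ∀ (q : ℕ) [Fact q.Prime] (Q : Sylow q (G ⧸ N)), IsCyclic (Q : Subgroup (G ⧸ N)) ∨ ∃ n : ℕ, Nonempty ((Q : Subgroup (G ⧸ N)) ≃* QuaternionGroup (2 ^ n)) := by
  open Subgroup Cfsg.Lib Cfsg.Lib.BG Cfsg.Lib.Transfer in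
  open Cfsg.Lib.FGS in
  have key : ∀ q : ℕ, ∃ r, r.Prime ∧ r ∣ Nat.card N ∧ r ≠ q := fun q => by
    by_contra! e
    obtain ⟨r, hr, hd⟩ := Core.exists_prime_dvd_card hN1
    exact hnpp (isPrimePow_iff_unique_prime_dvd.2 ⟨r, ⟨hr, hd⟩, fun s hs => (e s hs.1 hs.2).trans (e r hr hd).symm⟩)
  have h1 := Core.le_fittingSubgroup inferInstance hnil
  refine ⟨h1.antisymm fun x hx => by_contra fun e => ?_, fun q hq Q => ?_⟩
  · obtain ⟨q, hq, y, hy, h2, k, hk⟩ := exists_primePow_not_mem e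
    obtain ⟨r, hr, h3, hrq⟩ := key q
    obtain ⟨v, hv, h4⟩ := Core.exists_mem_orderOf_eq_prime hr h3
    have h5 : v ^ r ^ 1 = 1 := by rw [pow_one, ← h4, pow_orderOf_eq_one]
    refine hr.one_lt.ne' (h4.symm.trans (orderOf_eq_one_iff.2 (eq_one_of_equalOrder heq hq hr hrq h2
      (hk.symm ▸ one_mem N) hv h5 (mem_centralizer_singleton_iff.2 ?_))))
    exact Frobenius.commute_of_mem_nil inferInstance (h1 hv) (zpowers_le.2 hx hy)
      (Frobenius.coprime_orderOf_of_pelt hr hq hrq h5 hk)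
  · obtain ⟨r, hr, h3, hrq⟩ := key q
    haveI := Fact.mk hr
    exact (PGroup.isCyclic_or_quaternion_of_pRankLE_one Q.2 (PGroup.pRankLE_subgroup (pRankLE_of_equalOrder heq hrq h3
      hasNormalPComplement_of_isNilpotent) _)).imp_right fun ⟨_, n, h⟩ => ⟨n + 1, h⟩

end Cfsg.Agent.S4155
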