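import Cfsg.Statements.S4156

set_option autoImplicit false
open Cfsg

namespace Cfsg.Agent.S4156

section

variable {n : ℕ} {F : Type*} [Field F]

/-- The deleted permutation module. -/
def rho (F : Type*) [Field F] (n : ℕ) : Equiv.Perm (Fin (n + 1)) →* Module.End F (Fin n → F) where
  toFun σ :=
    { toFun := fun v i => (Fin.cons 0 v : Fin (n + 1) → F) (σ⁻¹ i.succ) - (Fin.cons 0 v : Fin (n + 1) → F) (σ⁻¹ 0)
      map_add' := fun v w => by
        have : (Fin.cons 0 (v + w) : Fin (n + 1) → F) = Fin.cons 0 v + Fin.cons 0 w := by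
          ext j; refine Fin.cases ?_ (fun j => ?_) j <;> simp
        ext i; simp only [this, Pi.add_apply]; ring
      map_smul' := fun c v => by
        have : (Fin.cons 0 (c • v) : Fin (n + 1) → F) = c • Fin.cons 0 v := by
          ext j; refine Fin.cases ?_ (fun j => ?_) j <;> simp
        ext i; simp only [this, Pi.smul_apply, smul_eq_mul, RingHom.id_apply]; ring }
  map_one' := by ext v i; simp
  map_mul' σ τ := by
    refine LinearMap.ext fun v => funext fun i => ?_
    have : ∀ j : Fin (n + 1), (Fin.cons 0 (fun i : Fin n => (Fin.cons 0 v : Fin (n + 1) → F) (τ⁻¹ i.succ) -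
        (Fin.cons 0 v : Fin (n + 1) → F) (τ⁻¹ 0)) : Fin (n + 1) → F) j =
        (Fin.cons 0 v : Fin (n + 1) → F) (τ⁻¹ j) - (Fin.cons 0 v : Fin (n + 1) → F) (τ⁻¹ 0) := fun j => by
      refine Fin.cases ?_ (fun j => ?_) j <;> simp
    simp only [LinearMap.coe_mk, AddHom.coe_mk, Module.End.mul_apply, this, mul_inv_rev, Equiv.Perm.mul_apply]
    ring

end

/-- Let n ≥ 5 and F a finite field. Then the projective special linear group PSL_n(F) contains a subgroup isomorphic to the alternating group of degree n + 1. -/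
theorem result (n : ℕ) (hn : 5 ≤ n) (F : Type*) [Field F] [Finite F] :
    ∃ f : alternatingGroup (Fin (n + 1)) →* Matrix.ProjectiveSpecialLinearGroup (Fin n) F, Function.Injective f := by
  classical
  haveI := alternatingGroup.isSimpleGroup (α := Fin (n + 1)) (by simp; omega)
  let g : alternatingGroup (Fin (n + 1)) →* Matrix (Fin n) (Fin n) F :=
    ((LinearMap.toMatrixAlgEquiv' (R := F) (n := Fin n)).toMonoidHom.comp (rho F n)).comp (Subgroup.subtype _)
  have hperf : commutator (alternatingGroup (Fin (n + 1))) = ⊤ := commutator_alternatingGroup_eq_top (by simp; omega)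
  have hdet : ∀ σ, (g σ).det = 1 := by
    intro σ
    let d : alternatingGroup (Fin (n + 1)) →* Fˣ := (Matrix.detMonoidHom.comp g).toHomUnits
    have : σ ∈ d.ker := Abelianization.commutator_subset_ker d (hperf ▸ trivial)
    exact congrArg Units.val this
  let g' : alternatingGroup (Fin (n + 1)) →* Matrix.SpecialLinearGroup (Fin n) F :=
    { toFun := fun σ => ⟨g σ, hdet σ⟩
      map_one' := Subtype.ext (map_one g)
      map_mul' := fun a b => Subtype.ext (map_mul g a b) }
  refine ⟨(QuotientGroup.mk' _).comp g', (MonoidHom.ker_eq_bot_iff _).1 ?_⟩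
  refine ((MonoidHom.normal_ker _).eq_bot_or_eq_top).resolve_right fun h => ?_
  obtain ⟨m, rfl⟩ : ∃ m, n = m + 5 := ⟨n - 5, by omega⟩
  let σ : alternatingGroup (Fin (m + 5 + 1)) := ⟨Equiv.swap 1 2 * Equiv.swap 3 4, by
    rw [Equiv.Perm.mem_alternatingGroup, map_mul, Equiv.Perm.sign_swap, Equiv.Perm.sign_swap]
    · simp
    · simp [Fin.ext_iff, Nat.mod_eq_of_lt]
    · simp [Fin.ext_iff, Nat.mod_eq_of_lt]⟩
  have h0 := Subgroup.mem_top σ
  rw [← h] at h0
  have h1 : g' σ ∈ Subgroup.center _ := (QuotientGroup.eq_one_iff _).1 h0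
  obtain ⟨r, -, hr⟩ := Matrix.SpecialLinearGroup.mem_center_iff.1 h1
  have h2 := congrFun (congrFun hr 0) 1
  rw [Matrix.scalar_apply, Matrix.diagonal_apply_ne _ (by simp [Fin.ext_iff])] at h2
  change (0 : F) = LinearMap.toMatrix' (rho F (m + 5) σ) 0 1 at h2
  rw [LinearMap.toMatrix'_apply] at h2
  change (0 : F) = (Fin.cons 0 _ : Fin (m + 5 + 1) → F) ((σ : Equiv.Perm (Fin (m + 5 + 1)))⁻¹ 1) -
    (Fin.cons 0 _ : Fin (m + 5 + 1) → F) ((σ : Equiv.Perm (Fin (m + 5 + 1)))⁻¹ 0) at h2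
  have e1 : (σ : Equiv.Perm (Fin (m + 5 + 1)))⁻¹ 1 = Fin.succ 1 := by
    rw [Equiv.Perm.inv_eq_iff_eq]; simp [σ, Equiv.swap_apply_def, Fin.ext_iff, Nat.mod_eq_of_lt]
  have e2 : (σ : Equiv.Perm (Fin (m + 5 + 1)))⁻¹ 0 = 0 := by
    rw [Equiv.Perm.inv_eq_iff_eq]; simp [σ, Equiv.swap_apply_def, Fin.ext_iff, Nat.mod_eq_of_lt]
  rw [e1, e2, Fin.cons_succ] at h2
  simp at h2

end Cfsg.Agent.S4156
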