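import Cfsg.Statements.S4161
import Cfsg.Agent.Lib.FGS.Diam2

set_option autoImplicit false
open Cfsg

namespace Cfsg.Agent.S4161

/-- Let G be a finite non-solvable group and p ≠ q primes each dividing the size of some conjugacy class of G. Then either some class size is divisible by pq, or there is a prime r, different from p and q, such that some class size is divisible by pr and some class size is divisible by rq. -/
theorem result {G : Type*} [Group G] [Finite G] (hG : ¬ Group.IsSolvable G)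
    (p q : ℕ) (hp : p.Prime) (hq : q.Prime) (hpq : p ≠ q) (hp' : ∃ x : G, p ∣ (Subgroup.centralizer ({x} : Set G)).index) (hq' : ∃ x : G, q ∣ (Subgroup.centralizer ({x} : Set G)).index) :
    (∃ x : G, p * q ∣ (Subgroup.centralizer ({x} : Set G)).index) ∨ ∃ r : ℕ, r.Prime ∧ r ≠ p ∧ r ≠ q ∧ (∃ x : G, p * r ∣ (Subgroup.centralizer ({x} : Set G)).index) ∧ (∃ y : G, r * q ∣ (Subgroup.centralizer ({y} : Set G)).index) := by
  open Subgroup Cfsg.Lib Cfsg.Lib.BG Cfsg.Lib.FGS.Diam in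
  haveI := Fact.mk hp
  haveI := Fact.mk hq
  by_contra! H
  refine hG (sol (p := p) (q := q) (π := {r | ∃ x : G, p ∣ (𝐂[x]).index ∧ r ∣ (𝐂[x]).index ∧ r.Prime})
    (σ := {r | ∃ x : G, q ∣ (𝐂[x]).index ∧ r ∣ (𝐂[x]).index ∧ r.Prime}) ?_
    ⟨hp', fun x hx r hr h => ⟨x, hx, h, hr⟩⟩ ⟨hq', fun x hx r hr h => ⟨x, hx, h, hr⟩⟩)
  rw [Set.disjoint_left]
  rintro r ⟨x, h1, h2, hr⟩ ⟨y, h3, h4, -⟩
  have mul : ∀ {a b n : ℕ}, a.Prime → b.Prime → a ≠ b → a ∣ n → b ∣ n → a * b ∣ n :=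
    fun ha hb h => Nat.Coprime.mul_dvd_of_dvd_of_dvd ((Nat.coprime_primes ha hb).2 h)
  by_cases e : r = p
  · exact H.1 y (mul hp hq hpq (e ▸ h4) h3)
  by_cases e' : r = q
  · exact H.1 x (mul hp hq hpq h1 (e' ▸ h2))
  exact H.2 r hr e e' ⟨x, mul hp hr (Ne.symm e) h1 h2⟩ y (mul hr hq e' h4 h3)

end Cfsg.Agent.S4161
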