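import Cfsg.Statements.S4168
import Cfsg.Agent.Lib.Comp.Quasisimple
import Cfsg.Agent.Lib.Transfer.NormalComplement
import Cfsg.Agent.Lib.BG.Basic

set_option autoImplicit false
open Cfsg

namespace Cfsg.Agent.S4168

/-- Let L be a finite quasisimple group (perfect with L/Z(L) simple). Then every prime dividing the order of the centre Z(L) also divides the order of L/Z(L). -/
theorem result {L : Type*} [Group L] [Finite L] (hL : Cfsg.IsQuasisimple L)
    (p : ℕ) (hp : p.Prime) (hdiv : p ∣ Nat.card (Subgroup.center L)) : p ∣ (Subgroup.center L).index := by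
  open Cfsg.Lib.BG in
  by_contra hn
  haveI := Fact.mk hp
  obtain ⟨P⟩ : Nonempty (Sylow p L) := inferInstance
  have hP : (P : Subgroup L) ≤ Subgroup.center L := by
    refine (PiGrp.of_pgroup (π := {p}) P.isPGroup' rfl).le_of_relIndex (M := ⊤) le_top
      (by rw [Subgroup.normalizer_eq_top]) ?_
    rw [Subgroup.relIndex_top_right]
    exact PiNat.p'_iff.2 hn
  have hN : Subgroup.normalizer ((P : Subgroup L) : Set L) ≤ Subgroup.centralizer ((P : Subgroup L) : Set L) :=
    fun x _ => mem_cent.2 fun h hh => (Subgroup.mem_center_iff.1 (hP hh) x).symm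
  have hc := MonoidHom.ker_transferSylow_isComplement' P hN
  have h1 : commutator L ≤ (MonoidHom.transferSylow P hN).ker := by
    letI : IsMulCommutative (P : Subgroup L) := abelian_iff.2 (le_norm _ |>.trans hN)
    rw [commutator_def, Subgroup.commutator_le]
    intro a _ b _
    rw [MonoidHom.mem_ker, map_commutatorElement, commutatorElement_eq_one_iff_mul_comm]
    exact IsMulCommutative.is_comm.comm _ _
  have h2 : commutator L = ⊤ := hL.1.commutator_eq_top
  rw [h2, top_le_iff] at h1
  have h3 := hc.index_eq_card
  have h4 : P.index = Nat.card L := by rw [h3, h1, Subgroup.card_top]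
  exact P.not_dvd_index (h4 ▸ hdiv.trans (Subgroup.card_subgroup_dvd_card _))

end Cfsg.Agent.S4168
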