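import Cfsg.Statements.S4169
import Cfsg.Agent.Lib.BG.Hall
import Cfsg.Agent.Lib.FGS.ClassSize2

set_option autoImplicit false
open Cfsg

namespace Cfsg.Agent.S4169

/-- Let P be a finite p-group whose conjugacy classes have exactly two sizes (1 and one other value). Then P has nilpotency class at most 3. -/
theorem result {P : Type*} [Group P] [Finite P] {p : ℕ} [Fact p.Prime] (hP : IsPGroup p P)
    (m : ℕ) (hm : 1 < m) (h : ∀ x : P, (Subgroup.centralizer ({x} : Set P)).index = 1 ∨ (Subgroup.centralizer ({x} : Set P)).index = m) :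
    upperCentralSeries P 3 = ⊤ := by
  open Subgroup Cfsg.Lib Cfsg.Lib.BG Cfsg.Lib.Transfer in
  open Cfsg.Lib.FGS in
  haveI := hP.isNilpotent
  obtain ⟨A, -, h1, h2, h3⟩ := PGroup.exists_scn_ge (⊥ : Subgroup P)
  have h4 := upperCentralSeries_three_eq_top h2 h3.le (S := Set.univ) fun x _ y hy => index_cent1_eq_one.1 (by
    have := h x
    have := h y
    omega)
  refine eq_top_iff.2 fun x _ => ?_
  have h5 : ∀ x : P, x ∈ closure (Set.univ : Set P) := fun x => Subgroup.subset_closure trivial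
  have h6 := h4.ge (mem_top ⟨x, h5 x⟩)
  simp only [Subgroup.mem_upperCentralSeries_succ_iff, Subgroup.upperCentralSeries_zero, mem_bot] at h6 ⊢
  exact fun y z w => congrArg Subtype.val (h6 ⟨y, h5 y⟩ ⟨z, h5 z⟩ ⟨w, h5 w⟩)

end Cfsg.Agent.S4169
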