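import Cfsg.Statements.S4170
import Mathlib

set_option autoImplicit false
open scoped Pointwise
open Cfsg

namespace Cfsg.Agent.S4170

open MulAction Subgroup in
open scoped Pointwise in

/-- Let p be an odd prime and G a nontrivial group of permutations of a finite set Ω that is generated by its elements of p-power order. Then Ω has two disjoint nonempty subsets Δ₁ and Δ₂ such that the index in G of the subgroup of elements mapping Δ₁ onto Δ₁ and Δ₂ onto Δ₂ (and hence also the complement of their union onto itself) is divisible by p. -/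
theorem result {Ω : Type*} [Fintype Ω] (p : ℕ) [Fact p.Prime] (hp : p ≠ 2) (G : Subgroup (Equiv.Perm Ω)) (hG : G ≠ ⊥) (hgen : Subgroup.closure {g : G | ∃ k : ℕ, orderOf g = p ^ k} = ⊤) :
    ∃ Δ₁ Δ₂ : Set Ω, Δ₁.Nonempty ∧ Δ₂.Nonempty ∧ Disjoint Δ₁ Δ₂ ∧ p ∣ (MulAction.stabilizer G Δ₁ ⊓ MulAction.stabilizer G Δ₂).index := by
  classical
  have hpp : p.Prime := Fact.out
  obtain ⟨g, ⟨k, hk⟩, hg1⟩ : ∃ g ∈ {g : G | ∃ k : ℕ, orderOf g = p ^ k}, g ≠ 1 := by
    by_contra h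
    push Not at h
    apply hG
    rw [eq_bot_iff]
    intro x hx
    have : (⟨x, hx⟩ : G) ∈ Subgroup.closure {g : G | ∃ k : ℕ, orderOf g = p ^ k} := hgen ▸ mem_top _
    exact congrArg Subtype.val (mem_bot.1 ((closure_le ⊥).2 h this))
  have hP : IsPGroup p (zpowers g) := IsPGroup.of_card (n := k) (by rw [Nat.card_zpowers, hk])
  obtain ⟨c, hc⟩ : ∃ c : Ω, g • c ≠ c := by
    by_contra h
    push Not at h
    exact hg1 (Subtype.ext (Equiv.ext h))
  let C : Set Ω := orbit (zpowers g) c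
  have hcC : c ∈ C := mem_orbit_self c
  refine ⟨{c}, C \ {c}, ⟨c, rfl⟩, ⟨g • c, ⟨⟨g, mem_zpowers g⟩, rfl⟩, hc⟩, Set.disjoint_sdiff_right, ?_⟩
  have hle : stabilizer G ({c} : Set Ω) ⊓ stabilizer G (C \ {c}) ≤ stabilizer G C ⊓ stabilizer G c := by
    rintro x ⟨h1, h2⟩
    have h3 : x • c = c := (mem_stabilizer_set.1 h1 c).2 rfl
    refine ⟨mem_stabilizer_set.2 fun b => ?_, h3⟩
    by_cases hb : b = c
    · rw [hb, h3]
    · have h4 := mem_stabilizer_set.1 h2 b
      have h5 : x • b ≠ c := fun e => hb ((mem_stabilizer_set.1 h1 b).1 e)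
      exact ⟨fun h => (h4.1 ⟨h, h5⟩).1, fun h => (h4.2 ⟨h, hb⟩).1⟩
  refine Dvd.dvd.trans ?_ (index_dvd_of_le hle)
  refine Dvd.dvd.trans ?_ (relIndex_dvd_index_of_le (inf_le_left : _ ≤ stabilizer G C))
  rw [inf_relIndex_left]
  have h1 : (stabilizer G c).relIndex (stabilizer G C) = (orbit (stabilizer G C) c).ncard :=
    index_stabilizer (stabilizer G C) c
  have h2 : orbit (stabilizer G C) c = C := by
    apply Set.Subset.antisymm
    · rintro _ ⟨x, rfl⟩
      exact (mem_stabilizer_set.1 x.2 c).2 hcC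
    · rintro _ ⟨x, rfl⟩
      exact ⟨⟨x, smul_orbit x c⟩, rfl⟩
  obtain ⟨j, hj⟩ := hP.card_orbit c
  rw [h1, h2]
  change p ∣ Nat.card C
  rw [hj]
  refine dvd_pow_self p ?_
  rintro rfl
  have : C.ncard = 1 := hj
  obtain ⟨a, ha⟩ := Set.ncard_eq_one.1 this
  have h3 : g • c ∈ C := ⟨⟨g, mem_zpowers g⟩, rfl⟩
  rw [ha] at h3 hcC
  exact hc (h3.trans hcC.symm)

end Cfsg.Agent.S4170
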