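import Cfsg.Statements.S4172
import Cfsg.Agent.Lib.BG.Hall
import Cfsg.Agent.Lib.Comp.GenFitting
import Cfsg.Agent.Lib.BG.T01_Coprime
import Cfsg.Agent.Lib.FGS.CycSylow
import Cfsg.Agent.Lib.PGroup.RankTwo
import Cfsg.Agent.Lib.Transfer.Criteria

set_option autoImplicit false
open Cfsg

namespace Cfsg.Agent.S4172

/-- Let p be a prime and G a finite group with a non-commutative Sylow p-subgroup P whose Frattini subgroup has index p² in P (P is generated by two elements). Suppose G has no nontrivial normal subgroup of order prime to p and the Frattini subgroup of P contains no nontrivial normal subgroup of G. Then the generalized Fitting subgroup F*(G) is the unique minimal normal subgroup of G, the image of P in G/F*(G) is cyclic, and if F*(G) is not commutative then P permutes the components of G transitively by conjugation. -/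
theorem result {G : Type*} [Group G] [Finite G] (p : ℕ) [Fact p.Prime] (P : Sylow p G) (hna : ¬ IsMulCommutative (P : Subgroup G)) (hgen : (frattini ↥(P : Subgroup G)).index = p ^ 2) (hcore : Cfsg.pPrimeCore p G = ⊥) (hfrat : ((frattini ↥(P : Subgroup G)).map (P : Subgroup G).subtype).normalCore = ⊥) [hFn : (Cfsg.generalizedFittingSubgroup G).Normal] :
    (Cfsg.generalizedFittingSubgroup G ≠ ⊥ ∧ ∀ K : Subgroup G, K.Normal → K ≠ ⊥ → Cfsg.generalizedFittingSubgroup G ≤ K) ∧
      IsCyclic ↥((P : Subgroup G).map (QuotientGroup.mk' (Cfsg.generalizedFittingSubgroup G))) ∧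
      (¬ IsMulCommutative (Cfsg.generalizedFittingSubgroup G) → ∀ K L : Subgroup G, Cfsg.IsComponent K → Cfsg.IsComponent L → ∃ x ∈ (P : Subgroup G), L = K.map (MulAut.conj x).toMonoidHom) := by
  open Subgroup Cfsg.Lib Cfsg.Lib.BG Cfsg.Lib.Transfer in
  open Cfsg.Lib.Comp in
  have hp : p.Prime := Fact.out
  have hP := P.isPGroup'
  have g1 : ∀ A : Subgroup G, ¬ A ⊓ P ≤ 𝚽((P : Subgroup G)) → ∃ x ∈ A, ∃ y, zpowers x ⊔ zpowers y = (P : Subgroup G) := by
    intro A h
    obtain ⟨x, hx, h1⟩ := SetLike.not_le_iff_exists.1 h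
    obtain ⟨y, hy⟩ := PGroup.exists_generator_pair_of_not_mem_frattini hP hgen.le (x := ⟨x, hx.2⟩)
      fun e => h1 ⟨_, e, rfl⟩
    refine ⟨x, hx.1, y, ?_⟩
    simpa [Subgroup.map_sup, ← MonoidHom.range_eq_map] using congrArg (map (P : Subgroup G).subtype) hy
  have g2 : ∀ A : Subgroup G, (P : Subgroup G) ≤ 𝐍(A) → ¬ A ⊓ P ≤ 𝚽((P : Subgroup G)) → ⁅(P : Subgroup G), (P : Subgroup G)⁆ ≤ A := by
    intro A hA h
    obtain ⟨x, hx, y, e⟩ := g1 A h
    exact PGroup.commutator_le_of_pair e hA (comm_le_left hA (commutator_mem_commutator hx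
      (e.le (mem_sup_right (mem_zpowers y)))))
  have g3 : ∀ A : Subgroup G, A.IsSubnormal → (P : Subgroup G) ≤ 𝐍(A) → A ⊓ P ≤ 𝚽((P : Subgroup G)) → IsPGroup p A := by
    intro A hA hn h
    obtain ⟨k, hk⟩ := hP.exists_card_eq
    have h1 := hasNormalPComplement_of_le (le_sup_left (a := A)) (hasNormalPComplement_subgroup_of_inf_le_frattini
      le_sup_right hP (sylow_not_dvd_relIndex P le_sup_right) ((inf_le_inf_right _
        (map_subtype_pResidual_le_iff.2 fun g hg hc => (Core.SubnormalIn.of_le_normalizer le_sup_left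
          (sup_le (le_norm A) hn)).le_of_coprime (zpowers_le.2 hg) (by
            rw [Nat.card_zpowers, PGroup.relIndex_sup_of_le_normalizer hn]
            exact (hc.pow_right k).coprime_dvd_right (hk ▸ BG.relIndex_dvd_card _ _)) (mem_zpowers g))).trans h))
    rw [← pResidual_eq_bot_iff, pResidual_eq_pPrimeCore h1, ← map_eq_bot_iff_of_injective _ A.subtype_injective]
    exact eq_bot_mono hcore (Core.pPrimeCoreOf_le_pPrimeCore_of_isSubnormal hA)
  have g4 : ∀ A : Subgroup G, A.Normal → A ≠ ⊥ → ¬ A ⊓ P ≤ 𝚽((P : Subgroup G)) := fun A hA h1 h => by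
    have h2 := (Core.le_pCore hA (g3 A hA.isSubnormal le_normalizer_of_normal h)).trans (Core.pCore_le_sylow P)
    exact h1 (eq_bot_mono hfrat (normal_le_normalCore.2 (by rwa [inf_eq_left.2 h2] at h)))
  have h0 : ⁅(P : Subgroup G), (P : Subgroup G)⁆ ≠ ⊥ := fun e => hna (abelian_iff_der.2 e)
  haveI : Nontrivial G := not_subsingleton_iff_nontrivial.1 fun _ => h0 (Subsingleton.elim _ _)
  obtain ⟨K, hK⟩ := Core.exists_isMinNormal (G := G)
  haveI := hK.normal
  have g5 : ∀ N : Subgroup G, N.Normal → N ≠ ⊥ → K ≤ N := fun N hN h => (hK.inf_eq_bot_or_le N).resolve_left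
    (ne_bot_mono h0 (le_inf (g2 K le_normalizer_of_normal (g4 K hK.normal hK.ne_bot))
      (g2 N le_normalizer_of_normal (g4 N hN h))))
  have hF := Core.fittingSubgroup_eq_pCore hcore
  have g6 : layer G ≠ ⊥ → fittingSubgroup G = ⊥ := fun h => by_contra fun h1 => g4 K hK.normal hK.ne_bot (by
    have h2 := g5 _ inferInstance h
    have h3 := g5 _ inferInstance h1
    rintro x ⟨hx, hxP⟩
    obtain ⟨k, hk⟩ := IsPGroup.iff_orderOf.1 hP ⟨x, hxP⟩
    rw [orderOf_mk] at hk
    have h4 := mem_commutator_of_mem_center (H := (P : Subgroup G).subgroupOf (layer G)) (x := ⟨x, h2 hx⟩) hxP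
      (by rw [layer_isPerfect.commutator_eq_top]; trivial)
      (mem_center_iff.2 fun g => Subtype.ext (mem_cent.1 (fitting_le_centralizer_layer (h3 hx)) g g.2))
      (by rw [orderOf_mk, hk]; exact (hp.coprime_iff_not_dvd.2 (sylow_not_dvd_relIndex_normal P _)).pow_left k)
    have h5 := mem_map_of_mem (layer G).subtype h4
    rw [map_commutator, subgroupOf_map_subtype] at h5
    exact PGroup.commutator_le_map_subtype_frattini hP (der_mono inf_le_left h5))
  have g7 : generalizedFittingSubgroup G ≤ K := by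
    by_cases h : layer G = ⊥
    swap
    · rw [genFitting_def, g6 h, sup_bot_eq]
      refine layer_le fun L hL => (isComponent_le_or_commutator_eq_bot_of_normal hL K).resolve_right fun e => ?_
      have h1 := g5 𝐂(K) inferInstance (ne_bot_mono (isComponent_ne_bot hL) (comm_eq_bot_iff.1 e))
      exact hK.ne_bot (eq_bot_mono (g6 h) (Core.le_fittingSubgroup hK.normal
        (inf_eq_left.2 h1 ▸ isNilpotent_inf_centralizer K)))
    have h1 : generalizedFittingSubgroup G = pCore p G := genFitting_eq_pCore_iff.2 ⟨h, hcore⟩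
    have h2 := centralizer_genFitting_le (G := G)
    have h3 := g5 _ hFn genFitting_ne_bot
    rw [h1] at h2 h3 ⊢
    have hV := Core.pCore_isPGroup p G
    have h4 := Core.pCore_le_sylow P
    have hm := fun N => Core.le_pCore (G := G) (p := p) (N := N)
    have hn : (pCore p G).Normal := inferInstance
    generalize pCore p G = V at *
    have h5 : IsMulCommutative V := abelian_iff_der.2 (eq_bot_mono hfrat (normal_le_normalCore.2
      ((der_mono h4).trans (PGroup.commutator_le_map_subtype_frattini hP))))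
    by_contra h6
    let f := QuotientGroup.mk' K
    have hf := QuotientGroup.mk'_surjective K
    obtain ⟨x, hx, y, e⟩ := g1 K (g4 K hK.normal hK.ne_bot)
    have h7 : IsCyclic ((P : Subgroup G).map f) := by
      rw [← e, Subgroup.map_sup, MonoidHom.map_zpowers, MonoidHom.map_zpowers, show f x = 1 from
        (QuotientGroup.eq_one_iff x).2 hx, zpowers_one_eq_bot, bot_sup_eq]
      infer_instance
    have h8 := FGS.hasNormalPComplement_cent_of_cyclic (P.mapSurjective hf) h7 (Q := V.map f) (map_mono h4)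
      (by rwa [Ne, Subgroup.map_eq_bot_iff, QuotientGroup.ker_mk'])
    haveI : (V.map f).Normal := hn.map f hf
    have h9 := hasNormalPComplement_iff.1 h8
    have h10 := pcore_le {p}ᶜ 𝐂(V.map f)
    have h11 : 𝐎({p}ᶜ, 𝐂(V.map f)).Normal := Nml.top_iff.1 ((Nml.top_iff.2 inferInstance).pcore _)
    generalize 𝐎({p}ᶜ, 𝐂(V.map f)) = L at h9 h10 h11
    haveI := h11.comap f
    obtain ⟨H, h12, h13⟩ := (Hall.mk' (π := {p}) (QuotientGroup.le_comap_mk' K L) (PiGrp.of_pgroup (pgroup_of_le hV h3) rfl) (by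
      have := relIndex_ker (L.comap f) f
      rw [QuotientGroup.ker_mk', map_comap_eq_self_of_surjective hf] at this
      rw [this]; exact h9.pi)).exists_compl le_normalizer_of_normal
    have h14 := coprime_abelian_cent_dprod (A := H) le_normalizer_of_normal (h13.pi.coprime_pgroup hV) h5
    have h15 : ⁅V, H⁆ ≤ K := by
      rw [← QuotientGroup.ker_mk' K, ← Subgroup.map_eq_bot_iff, map_commutator, comm_eq_bot_iff]
      exact cent_symm ((map_le_iff_le_comap.2 h12.right_le).trans h10)
    have h16 : V ⊓ 𝐂(H) = V ⊓ 𝐂(L.comap f) := by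
      rw [← h12.sup, cent_sup, ← inf_assoc, inf_eq_left.2 ((abelian_cent h5).trans (cent_anti h3))]
    by_cases h17 : V ⊓ 𝐂(H) = ⊥
    · exact h6 (h14.sup ▸ sup_le h15 (h17.le.trans bot_le))
    have h18 : H = ⊥ := ((PiGrp.p_iff.2 hV).of_le ((cent_symm (comm_eq_bot_iff.1 (eq_bot_mono h14.inf (le_inf le_rfl
      (h15.trans (g5 _ (h16 ▸ inferInstance) h17)))))).trans h2)).eq_bot h13.pi
    have h19 : L = ⊥ := by
      rw [← map_comap_eq_self_of_surjective hf L, ← h12.sup, h18, sup_bot_eq, Subgroup.map_eq_bot_iff, QuotientGroup.ker_mk']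
    have h20 : IsPGroup p 𝐂(V.map f) := by
      have := h9.idx
      rw [h19, relIndex_bot_left, compl_compl] at this
      exact PiGrp.pgroup this
    refine hna (abelian_of_le h5 ((map_le_iff_le_comap.1 ((abelian_cent (abelian_of_cyclic h7)).trans
      (cent_anti (map_mono h4)))).trans (hm _ inferInstance ?_)))
    exact h20.comap_of_ker_isPGroup f (by rw [QuotientGroup.ker_mk']; exact pgroup_of_le hV h3)
  refine ⟨⟨genFitting_ne_bot, fun N hN h => g7.trans (g5 N hN h)⟩, ?_, fun _ K L hK hL => by_contra fun h => ?_⟩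
  · obtain ⟨x, hx, y, e⟩ := g1 _ (g4 _ hFn genFitting_ne_bot)
    rw [← e, Subgroup.map_sup, MonoidHom.map_zpowers, MonoidHom.map_zpowers, show QuotientGroup.mk' _ x = 1 from
      (QuotientGroup.eq_one_iff x).2 hx, zpowers_one_eq_bot, bot_sup_eq]
    infer_instance
  have key : ∀ Q : Subgroup G → Prop, (∀ x ∈ (P : Subgroup G), ∀ L, Q L → Q (x ⋆ L)) → ∀ L, IsComponent L → Q L →
      ⁅(P : Subgroup G), (P : Subgroup G)⁆ ≤ sSup {K | IsComponent K ∧ Q K} := fun Q hQ L h1 h2 => by
    have h3 : (P : Subgroup G) ≤ 𝐍(sSup {K | IsComponent K ∧ Q K}) := fun x hx => norm_of_conj_eq (eq_of_le_of_card_le (by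
      rw [Subgroup.gc_map_comap _ |>.l_sSup]
      exact iSup₂_le fun K hK => le_sSup ⟨isComponent_map_conj hK.1 x, hQ x hx K hK.2⟩) (card_conj _ _).ge)
    refine g2 _ h3 fun e => ?_
    have h4 := pgroup_of_le (g3 _ (isSubnormal_sSup_components fun _ h => h.1) h3 e) (le_sSup ⟨h1, h2⟩)
    exact (PGroup.commutator_lt h4 h4 (le_norm L) (isComponent_ne_bot h1)).ne (isComponent_commutator_self h1)
  have h1 := key (fun L => ∃ x ∈ (P : Subgroup G), L = x ⋆ K) (by
    rintro x hx _ ⟨y, hy, rfl⟩; exact ⟨x * y, mul_mem hx hy, conj_conj ..⟩) K hK ⟨1, one_mem _, (conj_one K).symm⟩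
  have h2 := key (fun L => ¬ ∃ x ∈ (P : Subgroup G), L = x ⋆ K) (by
    rintro x hx L h ⟨y, hy, e⟩
    exact h ⟨x⁻¹ * y, mul_mem (inv_mem hx) hy, by rw [← conj_conj, ← e, inv_conj_conj]⟩) L hL h
  have h3 := comm_eq_bot_iff.1 (commutator_sSup_sSup_not fun L => ∃ x ∈ (P : Subgroup G), L = x ⋆ K)
  refine h0 (eq_bot_mono (g6 (ne_bot_mono (isComponent_ne_bot hK) (le_layer hK))) (le_trans (le_inf
    (h1.trans (sSup_le_layer fun _ h => h.1)) ?_) center_layer_le_fitting))
  rw [layer_eq_sSup_sup_sSup fun L => ∃ x ∈ (P : Subgroup G), L = x ⋆ K]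
  exact le_cent_sup (h2.trans (cent_symm h3)) (h1.trans h3)

end Cfsg.Agent.S4172
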