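import Cfsg.Statements.S4177
import Cfsg.Agent.Lib.FGS.Misc

set_option autoImplicit false
open Cfsg

namespace Cfsg.Agent.S4177

section
open Cfsg.Lib.FGS Cfsg.Lib.BG Cfsg.Lib.Transfer

variable {k V H : Type*} [Field k] [AddCommGroup V] [Module k V] [Group H] [Finite H] (ρ : Representation k H V)

/-- The stabilizer of a vector. -/
def stab (a : V) : Subgroup H where
  carrier := {h | ρ h a = a}
  mul_mem' {x y} hx hy := by
    simp only [Set.mem_ofPred_eq, map_mul, Module.End.mul_apply] at *
    rw [hy, hx]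
  one_mem' := by simp
  inv_mem' {x} hx := by
    simp only [Set.mem_ofPred_eq] at *
    conv_lhs => rw [← hx]
    rw [← Module.End.mul_apply, ← map_mul]; simp

omit [Finite H] in
theorem card_orbit (a : V) : Nat.card {u : V | ∃ h : H, ρ h a = u} = (stab ρ a).index := by
  letI : MulAction H V := MulAction.compHom V ρ
  exact (Nat.card_coe_set_eq _).trans (MulAction.index_stabilizer H a).symm

open scoped Classical in
/-- The sum of the elements of a subgroup. -/
noncomputable def tot (N : Subgroup H) : Module.End k V :=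
  ∑ n ∈ (Set.toFinite (N : Set H)).toFinset, ρ n

theorem mul_tot {N : Subgroup H} {n : H} (hn : n ∈ N) : ρ n * tot ρ N = tot ρ N := by
  classical
  unfold tot
  rw [Finset.mul_sum]
  refine Finset.sum_bij (fun x _ => n * x) ?_ ?_ ?_ ?_
  · intro x hx; simpa using mul_mem hn (by simpa using hx)
  · intro x _ y _ h; exact mul_left_cancel h
  · intro y hy; exact ⟨n⁻¹ * y, by simpa using mul_mem (inv_mem hn) (by simpa using hy), by simp⟩
  · intro x _; rw [map_mul]

theorem tot_mul {N : Subgroup H} {n : H} (hn : n ∈ N) : tot ρ N * ρ n = tot ρ N := by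
  classical
  unfold tot
  rw [Finset.sum_mul]
  refine Finset.sum_bij (fun x _ => x * n) ?_ ?_ ?_ ?_
  · intro x hx; simpa using mul_mem (by simpa using hx) hn
  · intro x _ y _ h; exact mul_right_cancel h
  · intro y hy; exact ⟨y * n⁻¹, by simpa using mul_mem (by simpa using hy) (inv_mem hn), by simp⟩
  · intro x _; rw [map_mul]

theorem tot_comm (N : Subgroup H) [hN : N.Normal] (g : H) : ρ g * tot ρ N = tot ρ N * ρ g := by
  classical
  unfold tot
  rw [Finset.sum_mul, Finset.mul_sum]
  refine Finset.sum_bij (fun x _ => g * x * g⁻¹) ?_ ?_ ?_ ?_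
  · intro x hx; simpa using hN.conj_mem _ (by simpa using hx) g
  · intro x _ y _ h; simpa using h
  · intro y hy; exact ⟨g⁻¹ * y * g, by simpa using hN.conj_mem' _ (by simpa using hy) g, by group⟩
  · intro x _; rw [← map_mul, ← map_mul]; simp

theorem tot_apply {N : Subgroup H} {v : V} (hv : ∀ n ∈ N, ρ n v = v) : tot ρ N v = (Nat.card N : k) • v := by
  classical
  unfold tot
  rw [LinearMap.sum_apply, Finset.sum_congr rfl fun n hn => hv n (by simpa using hn), Finset.sum_const,
    ← Set.ncard_eq_toFinset_card, Nat.cast_smul_eq_nsmul]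
  rfl

theorem tot_mul_of {M N : Subgroup H} (h : ∀ n ∈ N, tot ρ M * ρ n = tot ρ M) :
    tot ρ M * tot ρ N = (Nat.card N : k) • tot ρ M := by
  classical
  conv_lhs => rw [tot.eq_def ρ N]
  rw [Finset.mul_sum, Finset.sum_congr rfl fun n hn => h n (by simpa using hn), Finset.sum_const,
    ← Set.ncard_eq_toFinset_card, Nat.cast_smul_eq_nsmul]
  rfl

theorem relIndex_dvd_index' (A N : Subgroup H) [N.Normal] : A.relIndex N ∣ A.index := by
  rw [← Cfsg.Lib.Coprime.relIndex_sup_right_of_le_normalizer (N := N) (A := A) (by simp [Subgroup.normalizer_eq_top])]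
  exact Subgroup.relIndex_dvd_index_of_le le_sup_right

theorem fixed_of_coprime (N : Subgroup H) [N.Normal] (hN : (Nat.card N : k) ≠ 0) {a b : V} {A B : Subgroup H}
    (hA : A ≤ stab ρ a) (hB : B ≤ stab ρ b) (hc : A.index.Coprime B.index)
    (hspan : Submodule.span k {u : V | ∃ h : H, ρ h a = u} = ⊤) : ∀ n ∈ N, ρ n b = b := by
  have h1 : ∀ n ∈ N, tot ρ (B ⊓ N) * ρ n = tot ρ (B ⊓ N) := by
    intro n hn
    refine LinearMap.ext_on hspan ?_
    rintro _ ⟨h, rfl⟩
    have hc' : (B.subgroupOf N).index.Coprime ((h ⋆ A).subgroupOf N).index := by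
      refine (hc.symm.coprime_dvd_left ?_).coprime_dvd_right ?_
      · exact relIndex_dvd_index' B N
      · rw [← index_conj h A]; exact relIndex_dvd_index' _ N
    obtain ⟨y, hy, s, hs, e⟩ := exists_mul_of_coprime_index hc' ⟨n, hn⟩
    have e' : n = y * s := congrArg Subtype.val e
    have hs' : ρ s (ρ h a) = ρ h a := by
      have : ρ (h⁻¹ * s * h) a = a := hA (mem_conj.1 hs)
      conv_rhs => rw [← this]
      rw [← Module.End.mul_apply, ← Module.End.mul_apply, ← map_mul, ← map_mul]; simp [mul_assoc]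
    rw [e', map_mul, ← mul_assoc, tot_mul ρ (n := (y : H)) (Subgroup.mem_inf.2 ⟨hy, y.2⟩), Module.End.mul_apply, hs']
  have h2 := tot_mul_of ρ h1
  have hBN : (Nat.card ↥(B ⊓ N) : k) ≠ 0 := fun h => hN (by
    obtain ⟨c, hc⟩ := card_dvd (inf_le_right : B ⊓ N ≤ N)
    rw [hc, Nat.cast_mul, h, zero_mul])
  have h3 : tot ρ N b = (Nat.card N : k) • b := by
    have e1 := tot_apply ρ (N := B ⊓ N) (v := tot ρ N b) fun n hn => by
      rw [← Module.End.mul_apply, mul_tot ρ hn.2]
    rw [← Module.End.mul_apply, h2, LinearMap.smul_apply, tot_apply ρ (N := B ⊓ N) fun n hn => hB hn.1,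
      smul_comm] at e1
    exact (smul_right_injective V hBN e1).symm
  intro n hn
  refine smul_right_injective V hN ?_
  change (Nat.card N : k) • _ = (Nat.card N : k) • _
  rw [← map_smul, ← h3, ← Module.End.mul_apply, mul_tot ρ hn]

end

/-- Let k be a field whose characteristic does not divide the order of the finite group H (for instance a field of characteristic zero), and ρ a k-linear representation of H on V. Let a be a vector whose H-orbit spans V. Then the space of H-fixed vectors has dimension at most 1, and every vector b whose H-orbit has size coprime to the size of the orbit of a is fixed by H. -/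
theorem result {k V H : Type*} [Field k] [AddCommGroup V] [Module k V] [Group H] [Finite H]
    (hchar : ¬ ringChar k ∣ Nat.card H) (ρ : Representation k H V) (a : V)
    (hspan : Submodule.span k {u : V | ∃ h : H, ρ h a = u} = ⊤) :
    Module.finrank k ρ.invariants ≤ 1 ∧
    ∀ b : V, (Nat.card {u : V | ∃ h : H, ρ h a = u}).Coprime (Nat.card {u : V | ∃ h : H, ρ h b = u}) → ∀ h : H, ρ h b = b := by
  open Cfsg.Lib.FGS Cfsg.Lib.BG Cfsg.Lib.Transfer in
  have hN : (Nat.card (⊤ : Subgroup H) : k) ≠ 0 := by
    rw [Subgroup.card_top, Ne, ringChar.spec]; exact hchar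
  refine ⟨?_, fun b hb h => fixed_of_coprime ρ ⊤ hN le_rfl le_rfl (by rwa [card_orbit, card_orbit] at hb) hspan h trivial⟩
  have h1 : ∀ v, tot ρ ⊤ v ∈ Submodule.span k {tot ρ ⊤ a} := by
    intro v
    have hv : v ∈ Submodule.span k {u : V | ∃ h : H, ρ h a = u} := hspan ▸ trivial
    refine (Submodule.span_le (p := (Submodule.span k {tot ρ ⊤ a}).comap (tot ρ ⊤))).2 ?_ hv
    rintro _ ⟨h, rfl⟩
    change tot ρ ⊤ (ρ h a) ∈ Submodule.span k {tot ρ ⊤ a}
    rw [← Module.End.mul_apply, tot_mul ρ (Subgroup.mem_top h)]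
    exact Submodule.mem_span_singleton_self _
  have h2 : ρ.invariants ≤ Submodule.span k {tot ρ ⊤ a} := fun v hv => by
    have := h1 v
    rw [tot_apply ρ fun n _ => hv n] at this
    exact (Submodule.smul_mem_iff _ hN).1 this
  exact (Submodule.finrank_mono h2).trans ((finrank_span_le_card ({tot ρ ⊤ a} : Set V)).trans (by simp))

end Cfsg.Agent.S4177
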