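import Cfsg.Statements.S4176
import Cfsg.Agent.S4177
import Cfsg.Agent.Lib.Core.PSolvable

set_option autoImplicit false
open Cfsg

namespace Cfsg.Agent.S4176

section
open Cfsg.Lib.FGS Cfsg.Lib.BG Cfsg.Lib.Transfer Cfsg.Agent.S4177 Cfsg.Lib.Core

universe u v w

theorem core {k : Type u} [Field k] (p : ℕ) [Fact p.Prime] [CharP k p] (n : ℕ) :
    ∀ {V : Type v} {H : Type w} [AddCommGroup V] [Module k V] [Group H] [Finite H], Nat.card H = n →
    IsPiSeparable {p} H → ∀ (ρ : Representation k H V) (a : V) (A : Subgroup H), A ≤ stab ρ a → ¬ p ∣ A.index →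
    Submodule.span k {u : V | ∃ h : H, ρ h a = u} = ⊤ → Module.finrank k ρ.invariants ≤ 1 ∧
    ∀ (b : V) (B : Subgroup H), B ≤ stab ρ b → A.index.Coprime B.index → ∀ h : H, ρ h b = b := by
  induction n using Nat.strong_induction_on with
  | _ n ih =>
  intro V H _ _ _ _ hn hsol ρ a A hA hp hspan
  by_cases hH : Subsingleton H
  · refine ⟨?_, fun b _ _ _ h => by rw [Subsingleton.elim h 1, map_one]; rfl⟩
    have h1 : ρ.invariants ≤ Submodule.span k {a} := by
      refine le_top.trans (hspan.ge.trans (Submodule.span_mono ?_))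
      rintro _ ⟨h, rfl⟩
      rw [Subsingleton.elim h 1, map_one]; rfl
    exact (Submodule.finrank_mono h1).trans ((finrank_span_le_card ({a} : Set V)).trans (by simp))
  haveI := not_subsingleton_iff_nontrivial.1 hH
  obtain ⟨N, hN, hN1, π, hπ1, hπ2, hπ3, hfix⟩ : ∃ N : Subgroup H, N.Normal ∧ N ≠ ⊥ ∧ ∃ π : Module.End k V,
      (∀ g, ρ g * π = π * ρ g) ∧ (∀ n ∈ N, ρ n * π = π) ∧ (∀ v, (∀ n ∈ N, ρ n v = v) → π v = v) ∧
      ∀ (b : V) (B : Subgroup H), B ≤ stab ρ b → A.index.Coprime B.index → ∀ n ∈ N, ρ n b = b := by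
    rcases hsol.ne_bot with h | h
    · have h1 : ∀ n ∈ piCore {p} H, ρ n = 1 := by
        intro n hn
        refine LinearMap.ext_on hspan ?_
        rintro _ ⟨g, rfl⟩
        obtain ⟨P, hP⟩ := exists_sylow_le_of_not_dvd_index hp
        have h2 : piCore {p} H ≤ P := by rw [piCore_singleton]; exact pCore_le_sylow P
        have : ρ (g⁻¹ * n * g) a = a := hA (hP (h2 (Subgroup.Normal.conj_mem' inferInstance n hn g)))
        conv_rhs => rw [← this]
        rw [Module.End.one_apply, ← Module.End.mul_apply, ← Module.End.mul_apply, ← map_mul, ← map_mul]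
        simp [mul_assoc]
      exact ⟨_, inferInstance, h, 1, by simp, by simpa using h1, by simp, fun b _ _ _ n hn => by rw [h1 n hn]; rfl⟩
    · have h1 : (Nat.card (piCore {p}ᶜ H) : k) ≠ 0 := by
        rw [Ne, CharP.cast_eq_zero_iff k p]
        exact PiGrp.p'_iff.1 (piCore_isPiSubgroup _ H)
      refine ⟨_, inferInstance, h, (Nat.card (piCore {p}ᶜ H) : k)⁻¹ • tot ρ (piCore {p}ᶜ H), fun g => ?_,
        fun n hn => ?_, fun v hv => ?_, fun b B hB hc => fixed_of_coprime ρ _ h1 hA hB hc hspan⟩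
      · rw [mul_smul_comm, smul_mul_assoc, tot_comm]
      · rw [mul_smul_comm, mul_tot ρ hn]
      · rw [LinearMap.smul_apply, tot_apply ρ hv, smul_smul, inv_mul_cancel₀ h1, one_smul]
  let W := Representation.invariants (ρ.comp N.subtype)
  have hW : ∀ v, π v ∈ W := fun v n => by
    change ρ n (π v) = _
    rw [← Module.End.mul_apply, hπ2 _ n.2]
  let σ := ρ.quotientToInvariants N
  have hσ : ∀ (g : H) (w : W), (σ (g : H ⧸ N) w : V) = ρ g w := fun _ _ => rfl
  have hlt : Nat.card (H ⧸ N) < n := by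
    rw [← hn, N.card_eq_card_quotient_mul_card_subgroup]
    exact lt_mul_of_one_lt_right Nat.card_pos (N.one_lt_card_iff_ne_bot.2 hN1)
  have hs := QuotientGroup.mk'_surjective N
  obtain ⟨h1, h2⟩ := ih _ hlt rfl (hsol.quotient N) σ ⟨π a, hW a⟩ (A.map (QuotientGroup.mk' N)) (by
    rintro _ ⟨x, hx, rfl⟩
    refine Subtype.ext ?_
    change ρ x (π a) = π a
    rw [← Module.End.mul_apply, hπ1, Module.End.mul_apply, show ρ x a = a from hA hx])
    (fun h => hp (h.trans (A.index_map_dvd hs))) (by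
    rw [eq_top_iff]
    rintro ⟨w, hw⟩ -
    have e : (⟨w, hw⟩ : W) = π.codRestrict W hW w := Subtype.ext (hπ3 w fun n hn => hw ⟨n, hn⟩).symm
    rw [e]
    refine Submodule.mem_comap.1 ((Submodule.span_le (p := Submodule.comap (π.codRestrict W hW) _)).2 ?_
      (hspan.ge (Submodule.mem_top (x := w))))
    rintro _ ⟨g, rfl⟩
    refine Submodule.subset_span ⟨(g : H ⧸ N), Subtype.ext ?_⟩
    change ρ g (π a) = π (ρ g a)
    rw [← Module.End.mul_apply, hπ1, Module.End.mul_apply])
  refine ⟨le_trans ?_ h1, fun b B hB hc g => ?_⟩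
  · have : ρ.invariants = σ.invariants.map W.subtype := by
      ext v
      constructor
      · intro hv
        refine ⟨⟨v, fun n => hv n⟩, fun g => ?_, rfl⟩
        obtain ⟨g, rfl⟩ := QuotientGroup.mk_surjective g
        exact Subtype.ext (hv g)
      · rintro ⟨w, hw, rfl⟩ g
        exact congrArg Subtype.val (hw (g : H ⧸ N))
    rw [this, Submodule.finrank_map_subtype_eq]
  · exact congrArg Subtype.val (h2 ⟨b, fun n => hfix b B hB hc n n.2⟩ (B.map (QuotientGroup.mk' N)) (by
      rintro _ ⟨x, hx, rfl⟩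
      exact Subtype.ext (hB hx)) ((hc.coprime_dvd_left (A.index_map_dvd hs)).coprime_dvd_right (B.index_map_dvd hs))
      (g : H ⧸ N))

end

/-- Let k be a field of prime characteristic p, H a finite p-soluble group and ρ a k-linear representation of H on V. Let a be a vector that is fixed by some Sylow p-subgroup of H and whose H-orbit spans V. Then the space of H-fixed vectors has dimension at most 1, and every vector b whose H-orbit has size coprime to the size of the orbit of a is fixed by H. -/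
theorem result {k V H : Type*} [Field k] (p : ℕ) [Fact p.Prime] [CharP k p] [AddCommGroup V] [Module k V]
    [Group H] [Finite H] (hsol : Cfsg.IsPSolvable p H) (ρ : Representation k H V) (a : V)
    (hfix : ∃ P : Sylow p H, ∀ x : H, x ∈ (P : Subgroup H) → ρ x a = a)
    (hspan : Submodule.span k {u : V | ∃ h : H, ρ h a = u} = ⊤) :
    Module.finrank k ρ.invariants ≤ 1 ∧
    ∀ b : V, (Nat.card {u : V | ∃ h : H, ρ h a = u}).Coprime (Nat.card {u : V | ∃ h : H, ρ h b = u}) → ∀ h : H, ρ h b = b := by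
  open Cfsg.Lib.FGS Cfsg.Lib.BG Cfsg.Lib.Transfer Cfsg.Agent.S4177 Cfsg.Lib.Core in
  obtain ⟨P, hP⟩ := hfix
  obtain ⟨h1, h2⟩ := core p _ rfl (isPSolvable_iff_isPiSeparable.1 hsol) ρ a (stab ρ a) le_rfl
    (fun h => P.not_dvd_index (h.trans (Subgroup.index_dvd_of_le hP))) hspan
  exact ⟨h1, fun b hb => h2 b _ le_rfl (by rwa [card_orbit, card_orbit] at hb)⟩

end Cfsg.Agent.S4176
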