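import Cfsg.Statements.S4178

set_option autoImplicit false
open Cfsg

namespace Cfsg.Agent.S4178

section

theorem index_le {F V W : Type*} [Field F] [Fintype F] [AddCommGroup V] [Module F V] [AddCommGroup W] [Module F W]
    [FiniteDimensional F W] [Nontrivial W] {H : Type*} [Group H] (ρ : H →* Module.End F W) {R : Subgroup H}
    (h : ∀ (g : H) (w : W), w ≠ 0 → ρ g w = w → g ∈ R) : R.index ≤ Fintype.card F ^ Module.finrank F W - 1 := by
  classical
  letI : MulAction H W := MulAction.compHom W ρ
  haveI : Finite W := Module.finite_of_finite F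
  obtain ⟨w, hw⟩ := exists_ne (0 : W)
  have h1 : MulAction.stabilizer H w ≤ R := fun g hg => h g w hw hg
  have h2 : MulAction.orbit H w ⊆ {0}ᶜ := by
    rintro _ ⟨g, rfl⟩ e
    refine hw ?_
    have e' : ρ g w = 0 := e
    calc w = ρ (g⁻¹ * g) w := by simp
      _ = 0 := by rw [map_mul, Module.End.mul_apply, e', map_zero]
  have h3 := Set.ncard_le_ncard h2
  rw [← MulAction.index_stabilizer, Set.ncard_compl, Set.ncard_singleton, Module.natCard_eq_pow_finrank (K := F),
    Nat.card_eq_fintype_card] at h3
  refine le_trans (Nat.le_of_dvd (Nat.pos_of_ne_zero ?_) (Subgroup.index_dvd_of_le h1)) h3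
  rw [MulAction.index_stabilizer]
  exact ((Set.ncard_pos).2 ⟨w, MulAction.mem_orbit_self w⟩).ne'

end

/-- Let F be a finite field with q elements, V a non-zero finite-dimensional F-space of dimension d, H a group of invertible linear maps of V, and R the subgroup of H generated by the elements of H that fix some non-zero vector (have eigenvalue 1). Then the index of R in H is at most q^d − 1; and if H leaves invariant some proper non-zero subspace, the index is at most q^(d/2) − 1. -/
theorem result {F V : Type*} [Field F] [Fintype F] [AddCommGroup V] [Module F V] [FiniteDimensional F V] [Nontrivial V]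
    (H : Subgroup (V ≃ₗ[F] V)) :
    (Subgroup.closure {h : ↥H | ∃ v : V, v ≠ 0 ∧ (h : V ≃ₗ[F] V) v = v}).index ≤ Fintype.card F ^ Module.finrank F V - 1 ∧
    ((∃ W : Submodule F V, W ≠ ⊥ ∧ W ≠ ⊤ ∧ ∀ h ∈ H, ∀ w ∈ W, h w ∈ W) →
      ((Subgroup.closure {h : ↥H | ∃ v : V, v ≠ 0 ∧ (h : V ≃ₗ[F] V) v = v}).index : ℝ) ≤ Real.sqrt ((Fintype.card F : ℝ) ^ Module.finrank F V) - 1) := by
  let ρ : H →* Module.End F V := (LinearEquiv.automorphismGroup.toLinearMapMonoidHom).comp H.subtype
  refine ⟨index_le (V := V) ρ fun g w hw e => Subgroup.subset_closure ⟨w, hw, e⟩, ?_⟩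
  rintro ⟨W, h0, h1, hW⟩
  haveI : Nontrivial W := Submodule.nontrivial_iff_ne_bot.2 h0
  haveI : Nontrivial (V ⧸ W) := Submodule.Quotient.nontrivial_iff.2 h1
  have hW' : ∀ g : H, W ≤ W.comap (ρ g) := fun g w hw => hW g g.2 w hw
  have a1 := index_le (V := V) (R := Subgroup.closure {h : ↥H | ∃ v : V, v ≠ 0 ∧ (h : V ≃ₗ[F] V) v = v})
    (Representation.subrepresentation ρ W hW') fun g w hw e =>
    Subgroup.subset_closure ⟨w, fun h => hw (Subtype.ext h), congrArg Subtype.val e⟩
  have a2 := index_le (V := V) (R := Subgroup.closure {h : ↥H | ∃ v : V, v ≠ 0 ∧ (h : V ≃ₗ[F] V) v = v})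
    (Representation.quotient ρ W hW') fun g w hw e => by
    refine Subgroup.subset_closure ?_
    by_contra hc
    simp only [Set.mem_ofPred_eq, not_exists, not_and] at hc
    have i1 : Function.Injective (ρ g - 1 : Module.End F V) := by
      rw [← LinearMap.ker_eq_bot, eq_bot_iff]
      intro v hv
      by_contra hv0
      exact hc v hv0 (sub_eq_zero.1 hv)
    have s1 := LinearMap.injective_iff_surjective.1 i1
    have s2 : Function.Surjective (Representation.quotient ρ W hW' g - 1 : Module.End F (V ⧸ W)) := fun y => by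
      obtain ⟨v, rfl⟩ := Submodule.Quotient.mk_surjective W y
      obtain ⟨u, rfl⟩ := s1 v
      exact ⟨Submodule.Quotient.mk u, rfl⟩
    exact hw (LinearMap.injective_iff_surjective.2 s2 (by rw [map_zero]; exact sub_eq_zero.2 e))
  have hd := W.finrank_quotient_add_finrank
  set R := (Subgroup.closure {h : ↥H | ∃ v : V, v ≠ 0 ∧ (h : V ≃ₗ[F] V) v = v}).index
  have hq : 0 < Fintype.card F := Fintype.card_pos
  have b1 : R + 1 ≤ Fintype.card F ^ Module.finrank F W := by have := pow_pos hq (Module.finrank F W); omega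
  have b2 : R + 1 ≤ Fintype.card F ^ Module.finrank F (V ⧸ W) := by
    have := pow_pos hq (Module.finrank F (V ⧸ W)); omega
  have b3 := Nat.mul_le_mul b2 b1
  rw [← pow_add, hd] at b3
  rw [le_sub_iff_add_le]
  refine Real.le_sqrt_of_sq_le ?_
  rw [sq]
  exact_mod_cast b3

end Cfsg.Agent.S4178
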