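import Cfsg.Statements.S4182

set_option autoImplicit false
open Cfsg
open scoped Pointwise

namespace Cfsg.Agent.S4182

universe u

/-- the subgroup generated by the `p`-elements of `H` -/
def gen {G : Type u} [Group G] (p : ℕ) (H : Subgroup G) : Subgroup G :=
  Subgroup.closure {g : G | g ∈ H ∧ ∃ k : ℕ, orderOf g = p ^ k}

theorem gen_le {G : Type u} [Group G] (p : ℕ) (H : Subgroup G) : gen p H ≤ H :=
  (Subgroup.closure_le _).2 fun _ h => h.1

theorem gen_mono {G : Type u} [Group G] (p : ℕ) {H K : Subgroup G} (h : H ≤ K) : gen p H ≤ gen p K :=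
  Subgroup.closure_mono fun _ hg => ⟨h hg.1, hg.2⟩

theorem gen_gen {G : Type u} [Group G] (p : ℕ) (H : Subgroup G) : gen p H ≤ gen p (gen p H) :=
  Subgroup.closure_mono fun _ hg => ⟨Subgroup.subset_closure hg, hg.2⟩

theorem gen_map {G : Type u} [Group G] (p : ℕ) (H : Subgroup G) (e : G ≃* G) (h : H ≤ gen p H) :
    H.map e.toMonoidHom ≤ gen p (H.map e.toMonoidHom) := by
  refine (Subgroup.map_mono h).trans ?_
  rw [gen, MonoidHom.map_closure]
  refine Subgroup.closure_mono ?_
  rintro _ ⟨g, ⟨hg, k, hk⟩, rfl⟩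
  exact ⟨⟨g, hg, rfl⟩, k, by rw [← hk]; exact e.orderOf_eq g⟩

theorem pgrp {G : Type u} [Group G] [Finite G] (p : ℕ) [hp : Fact p.Prime] (hG : IsPGroup p G)
    {ι : Type*} [Fintype ι] (K : ι → Subgroup G) (hK : ∀ i, K i ≠ ⊤) (hcov : ∀ g : G, ∃ i, g ∈ K i) :
    p + 1 ≤ Fintype.card ι := by
  classical
  have := Fintype.ofFinite G
  by_contra hlt
  have hn : Fintype.card ι ≤ p := by omega
  have hKi : ∀ i, p * Nat.card (K i) ≤ Nat.card G := by
    intro i
    obtain ⟨j, hj⟩ := (IsPGroup.index hG (K i))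
    have h1 : (K i).index ≠ 1 := fun h => hK i (Subgroup.index_eq_one.1 h)
    have hj0 : j ≠ 0 := by rintro rfl; exact h1 (by simpa using hj)
    have : p ≤ (K i).index := by rw [hj]; exact Nat.le_self_pow hj0 p
    calc p * Nat.card (K i) ≤ (K i).index * Nat.card (K i) := Nat.mul_le_mul_right _ this
      _ = Nat.card G := (K i).index_mul_card
  have hsub : (Finset.univ.erase (1 : G)) ⊆
      Finset.univ.biUnion fun i => (Finset.univ.filter fun g : G => g ∈ K i).erase 1 := by
    intro g hg
    obtain ⟨i, hi⟩ := hcov g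
    simp only [Finset.mem_biUnion, Finset.mem_univ, true_and, Finset.mem_erase, Finset.mem_filter]
    exact ⟨i, (Finset.mem_erase.1 hg).1, hi⟩
  have hc := (Finset.card_le_card hsub).trans Finset.card_biUnion_le
  have hci : ∀ i, p * ((Finset.univ.filter fun g : G => g ∈ K i).erase 1).card ≤ Nat.card G - p := by
    intro i
    have h1 : (Finset.univ.filter fun g : G => g ∈ K i).card = Nat.card (K i) := by
      rw [Nat.card_eq_fintype_card, Fintype.card_subtype]
    rw [Finset.card_erase_of_mem (by simp [(K i).one_mem]), h1, Nat.mul_sub, mul_one]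
    exact Nat.sub_le_sub_right (hKi i) p
  have hs : p * ∑ i, ((Finset.univ.filter fun g : G => g ∈ K i).erase 1).card ≤ p * (Nat.card G - p) := by
    rw [Finset.mul_sum]
    calc _ ≤ ∑ _i : ι, (Nat.card G - p) := Finset.sum_le_sum fun i _ => hci i
      _ = Fintype.card ι * (Nat.card G - p) := by simp
      _ ≤ _ := Nat.mul_le_mul_right _ hn
  have hs' := Nat.le_of_mul_le_mul_left hs hp.out.pos
  rw [Finset.card_erase_of_mem (Finset.mem_univ _), Finset.card_univ, ← Nat.card_eq_fintype_card] at hc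
  obtain ⟨i, -⟩ := hcov 1
  have h2 := hKi i
  have h3 : 1 ≤ Nat.card (K i) := Nat.card_pos
  have h4 : p ≤ Nat.card G := le_trans (Nat.le_mul_of_pos_right p h3) h2
  have := hp.out.two_le
  omega

theorem main (p : ℕ) [hp : Fact p.Prime] {ι : Type*} [Fintype ι] (n : ℕ) :
    ∀ (G : Type u) [Group G] [Finite G], Nat.card G = n → (⊤ : Subgroup G) ≤ gen p ⊤ →
      ∀ (K : ι → Subgroup G), (∀ i, K i ≠ ⊤) →
      (∀ g : G, (∃ k : ℕ, orderOf g = p ^ k) → ∃ i, g ∈ K i) → p + 1 ≤ Fintype.card ι := by
  induction n using Nat.strong_induction_on with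
  | _ n ih =>
  intro G _ _ hn hgen K hK hcov
  by_contra hlt
  have hι : Fintype.card ι ≤ p := by omega
  -- every proper subgroup generated by `p`-elements lies in some `K i`
  have hin : ∀ H : Subgroup G, H ≠ ⊤ → H ≤ gen p H → ∃ i, H ≤ K i := by
    intro H hH hg
    by_contra hne
    push Not at hne
    have hlt' : Nat.card H < n := by
      rw [← hn]
      refine lt_of_le_of_ne (Subgroup.card_le_card_group H) fun h => hH ?_
      exact (Subgroup.card_eq_iff_eq_top H).1 h
    refine hlt (ih _ hlt' H rfl ?_ (fun i => (K i).subgroupOf H) ?_ ?_)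
    · intro x _
      have hx : (x : G) ∈ (gen p (⊤ : Subgroup H)).map H.subtype := by
        refine (show gen p H ≤ _ from ?_) (hg x.2)
        refine (Subgroup.closure_le _).2 ?_
        rintro g ⟨hgH, k, hk⟩
        exact ⟨⟨g, hgH⟩, Subgroup.subset_closure ⟨trivial, k, by rw [← hk]; exact (Subgroup.orderOf_mk g hgH)⟩, rfl⟩
      obtain ⟨y, hy, hyx⟩ := hx
      rwa [show x = y from Subtype.ext hyx.symm]
    · intro i hi
      exact hne i (Subgroup.subgroupOf_eq_top.1 hi)
    · rintro g ⟨k, hk⟩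
      obtain ⟨i, hi⟩ := hcov g ⟨k, by rw [← hk]; exact Subgroup.orderOf_coe g⟩
      exact ⟨i, hi⟩
  obtain ⟨P⟩ : Nonempty (Sylow p G) := inferInstance
  by_cases hP : (P : Subgroup G) = ⊤
  · have hG : IsPGroup p G := by
      have := P.isPGroup'
      rw [hP] at this
      exact this.of_equiv Subgroup.topEquiv
    exact hlt (pgrp p hG K hK fun g => hcov g (IsPGroup.iff_orderOf.1 hG g))
  have hPg : (P : Subgroup G) ≤ gen p P := by
    intro x hx
    obtain ⟨k, hk⟩ := IsPGroup.iff_orderOf.1 P.isPGroup' ⟨x, hx⟩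
    exact Subgroup.subset_closure ⟨hx, k, by rw [← hk]; exact (Subgroup.orderOf_mk x hx).symm⟩
  obtain ⟨M, hPM, hM⟩ := Finite.exists_le_maximal (p := fun H : Subgroup G => H ≠ ⊤ ∧ H ≤ gen p H)
    (a := (P : Subgroup G)) ⟨hP, hPg⟩
  -- every conjugate of `M` is some `gen (K i)`
  have hconj : ∀ g : G, ∃ i, M.map (MulAut.conj g).toMonoidHom = gen p (K i) := by
    intro g
    have h1 : M.map (MulAut.conj g).toMonoidHom ≠ ⊤ := by
      intro h
      apply hM.prop.1
      rw [eq_top_iff]
      intro x _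
      have : (MulAut.conj g) x ∈ M.map (MulAut.conj g).toMonoidHom := by rw [h]; trivial
      obtain ⟨y, hy, hyx⟩ := this
      rwa [← (MulAut.conj g).injective hyx]
    have h2 := gen_map p M (MulAut.conj g) hM.prop.2
    obtain ⟨i, hi⟩ := hin _ h1 h2
    refine ⟨i, le_antisymm (h2.trans (gen_mono p hi)) ?_⟩
    have h3 : (gen p (K i)).map (MulAut.conj g).symm.toMonoidHom ≠ ⊤ := by
      intro h
      apply hK i
      rw [eq_top_iff]
      intro x _
      have : (MulAut.conj g).symm x ∈ (gen p (K i)).map (MulAut.conj g).symm.toMonoidHom := by rw [h]; trivial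
      obtain ⟨y, hy, hyx⟩ := this
      rw [← (MulAut.conj g).symm.injective hyx]
      exact gen_le p _ hy
    have h4 : M ≤ (gen p (K i)).map (MulAut.conj g).symm.toMonoidHom := by
      intro x hx
      exact ⟨MulAut.conj g x, h2.trans (gen_mono p hi) ⟨x, hx, rfl⟩, (MulAut.conj g).symm_apply_apply x⟩
    have h5 := hM.le_of_ge ⟨h3, gen_map p _ _ (gen_gen p _)⟩ h4
    intro x hx
    exact ⟨(MulAut.conj g).symm x, h5 ⟨x, hx, rfl⟩, (MulAut.conj g).apply_symm_apply x⟩
  choose f hf using hconj
  set N : Subgroup G := Subgroup.normalizer (M : Set G) with hN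
  have hidx : N.index ≤ Fintype.card ι := by
    rw [← Nat.card_eq_fintype_card]
    refine Nat.card_le_card_of_injective (fun q : G ⧸ N => f q.out) ?_
    intro q q' hq
    have h1 : M.map (MulAut.conj q.out).toMonoidHom = M.map (MulAut.conj q'.out).toMonoidHom := by
      rw [hf, hf]; exact congrArg (fun i => gen p (K i)) hq
    rw [← q.out_eq', ← q'.out_eq', QuotientGroup.eq]
    rw [Subgroup.mem_normalizer_iff]
    intro x
    constructor
    · intro hx
      have : MulAut.conj q'.out x ∈ M.map (MulAut.conj q.out).toMonoidHom := by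
        rw [h1]; exact ⟨x, hx, rfl⟩
      obtain ⟨y, hy, hyx⟩ := this
      have hyx' : q.out * y * q.out⁻¹ = q'.out * x * q'.out⁻¹ := hyx
      have : q.out⁻¹ * q'.out * x * (q.out⁻¹ * q'.out)⁻¹ = y := by
        calc _ = q.out⁻¹ * (q'.out * x * q'.out⁻¹) * q.out := by group
          _ = y := by rw [← hyx']; group
      rw [this]; exact hy
    · intro hx
      have : MulAut.conj q.out (q.out⁻¹ * q'.out * x * (q.out⁻¹ * q'.out)⁻¹) ∈
          M.map (MulAut.conj q'.out).toMonoidHom := by
        rw [← h1]; exact ⟨_, hx, rfl⟩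
      obtain ⟨y, hy, hyx⟩ := this
      have hyx' : q'.out * y * q'.out⁻¹ = q.out * (q.out⁻¹ * q'.out * x * (q.out⁻¹ * q'.out)⁻¹) * q.out⁻¹ := hyx
      have : x = y := by
        calc x = q'.out⁻¹ * (q.out * (q.out⁻¹ * q'.out * x * (q.out⁻¹ * q'.out)⁻¹) * q.out⁻¹) * q'.out := by group
          _ = y := by rw [← hyx']; group
      rw [this]; exact hy
  have hMnd : ¬ p ∣ M.index := fun h => P.not_dvd_index (h.trans (Subgroup.index_dvd_of_le hPM))
  have hNnd : ¬ p ∣ N.index := fun h => hMnd (h.trans (Subgroup.index_dvd_of_le Subgroup.le_normalizer))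
  have hNlt : N.index < p := lt_of_le_of_ne (hidx.trans hι) fun h => hNnd (h ▸ dvd_rfl)
  have hNtop : N = ⊤ := by
    rw [eq_top_iff]
    refine hgen.trans ((Subgroup.closure_le _).2 ?_)
    rintro x ⟨-, k, hk⟩
    have h1 : N.relIndex (Subgroup.zpowers x) ∣ p ^ k := by
      rw [← hk, ← Nat.card_zpowers]
      exact Subgroup.relIndex_dvd_card _ _
    obtain ⟨j, -, hj⟩ := (Nat.dvd_prime_pow hp.out).1 h1
    have h2 : N.relIndex (Subgroup.zpowers x) ≤ N.index := by
      rw [← Subgroup.relIndex_top_right]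
      exact Subgroup.relIndex_le_of_le_right le_top (by rw [Subgroup.relIndex_top_right]; exact N.index_ne_zero_of_finite)
    have hj0 : j = 0 := by
      by_contra h
      have := Nat.le_self_pow h p
      omega
    rw [hj0, pow_zero, Subgroup.relIndex_eq_one] at hj
    exact hj (Subgroup.mem_zpowers x)
  have hMn : M.Normal := Subgroup.normalizer_eq_top_iff.1 hNtop
  apply hM.prop.1
  rw [eq_top_iff]
  refine hgen.trans ((Subgroup.closure_le _).2 ?_)
  rintro x ⟨-, k, hk⟩
  have h1 : x ∈ Subgroup.zpowers (x ^ M.index) := by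
    rw [mem_zpowers_pow_iff, hk]
    exact (Nat.Coprime.pow_right k ((Nat.Prime.coprime_iff_not_dvd hp.out).2 hMnd).symm)
  exact (Subgroup.zpowers_le.2 (M.pow_index_mem x)) h1

/-- Let p be a prime and G a finite group generated by its p-elements. If a finite family of proper subgroups of G covers the set of p-elements of G (every element of p-power order lies in one of them), then the family has at least p + 1 members. -/
theorem result {G : Type*} [Group G] [Finite G] (p : ℕ) [Fact p.Prime] (hgen : Subgroup.closure {g : G | ∃ k : ℕ, orderOf g = p ^ k} = ⊤)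
    {ι : Type*} [Fintype ι] (K : ι → Subgroup G) (hK : ∀ i, K i ≠ ⊤)
    (hcov : ∀ g : G, (∃ k : ℕ, orderOf g = p ^ k) → ∃ i, g ∈ K i) :
    p + 1 ≤ Fintype.card ι := by
  refine main p _ G rfl ?_ K hK hcov
  rw [← hgen]
  exact Subgroup.closure_mono fun g hg => ⟨by rw [hgen]; trivial, hg⟩

end Cfsg.Agent.S4182
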