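import Cfsg.Statements.S4186
import Cfsg.Agent.Lib.PGroup.Basic
import Cfsg.Agent.Lib.Coprime.SZ

set_option autoImplicit false
open Cfsg

namespace Cfsg.Agent.S4186

/-- Let T and X be subgroups of a group with T a finite 2-group normalizing X but not centralizing it. Then some element of T inverts some non-identity element of X under conjugation. -/
theorem result {G : Type*} [Group G] (T X : Subgroup G) [Finite ↥T] (hT : IsPGroup 2 ↥T) (hTN : T ≤ Subgroup.normalizer (X : Set G)) (hTC : ¬ T ≤ Subgroup.centralizer (X : Set G)) : ∃ t ∈ T, ∃ x ∈ X, x ≠ 1 ∧ t * x * t⁻¹ = x⁻¹ := by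
  obtain ⟨s, hs, hsC⟩ := SetLike.not_le_iff_exists.mp hTC
  obtain ⟨k, h1, h2⟩ := Lib.PGroup.exists_pow_not_mem_pow_mem (p := 2) (by
    obtain ⟨k, hk⟩ := hT ⟨s, hs⟩
    exact ⟨k, congrArg Subtype.val hk⟩) hsC
  have ht : s ^ 2 ^ k ∈ T := T.pow_mem hs _
  generalize s ^ 2 ^ k = t at h1 h2 ht
  rw [Subgroup.mem_centralizer_iff] at h1
  push Not at h1
  obtain ⟨x, hx, hxt⟩ := h1
  have h3 := h2 x hx
  refine ⟨t, ht, x⁻¹ * (t * x * t⁻¹), X.mul_mem (X.inv_mem hx)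
    (Lib.Coprime.conj_mem_of_mem_normalizer (hTN ht) hx), fun h => hxt ?_, ?_⟩
  · rw [inv_mul_eq_one, eq_mul_inv_iff_mul_eq] at h
    exact h
  · calc t * (x⁻¹ * (t * x * t⁻¹)) * t⁻¹ = t * x⁻¹ * t⁻¹ * (t ^ 2 * x) * (t ^ 2)⁻¹ := by
          rw [pow_two]; group
      _ = (x⁻¹ * (t * x * t⁻¹))⁻¹ := by rw [← h3]; group

end Cfsg.Agent.S4186
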