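import Cfsg.Statements.S4188
import Cfsg.Agent.Lib.PGroup.RankOne
import Cfsg.Agent.Lib.PGroup.Frattini

set_option autoImplicit false
open Cfsg

namespace Cfsg.Agent.S4188

open Subgroup Cfsg.Lib.PGroup

universe u

/-- The bound for the Frattini index of a `2`-group acting faithfully on an odd abelian group of order `n`. -/
def β (n : ℕ) : ℕ := if n = 1 then 1 else if n = 3 then 2 else (n - 1) / 2

theorem β_mul {a b : ℕ} (ha : Odd a) (hb : Odd b) (h1 : a ≠ 1) (h2 : b ≠ 1) : β a * β b ≤ β (a * b) := by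
  obtain ⟨a, rfl⟩ := ha
  obtain ⟨b, rfl⟩ := hb
  have : 0 < a * b := Nat.mul_pos (by omega) (by omega)
  have e : (2 * a + 1) * (2 * b + 1) = 4 * (a * b) + 2 * a + 2 * b + 1 := by ring
  have e1 : (2 * a + 1 - 1) / 2 = a := by omega
  have e2 : (2 * b + 1 - 1) / 2 = b := by omega
  have : a = 1 → a * b = b := fun h => by rw [h, one_mul]
  have : b = 1 → a * b = a := fun h => by rw [h, mul_one]
  simp only [β, e, e1, e2]
  split_ifs <;> omega

theorem β_sq {a : ℕ} (ha : Odd a) (h1 : a ≠ 1) (h2 : a ≠ 3) : 2 * (β a * β a) ≤ β (a * a) := by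
  obtain ⟨a, rfl⟩ := ha
  have e : (2 * a + 1) * (2 * a + 1) = 4 * (a * a) + 4 * a + 1 := by ring
  have e1 : (2 * a + 1 - 1) / 2 = a := by omega
  simp only [β, e, e1]
  split_ifs <;> omega

section
variable {V A : Type*} [CommGroup V] [Group A]

/-- Restriction of an action to an invariant subgroup. -/
def res (φ : A →* MulAut V) (W : Subgroup V) (h : ∀ a, ∀ w ∈ W, φ a w ∈ W) : A →* MulAut W where
  toFun a := ⟨⟨fun w => ⟨φ a w, h a w w.2⟩, fun w => ⟨φ a⁻¹ w, h _ w w.2⟩, fun w => by simp, fun w => by simp⟩,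
    fun x y => Subtype.ext (by simp)⟩
  map_one' := by ext; simp
  map_mul' a b := by ext; simp

theorem mem_ker_res {φ : A →* MulAut V} {W : Subgroup V} {h : ∀ a, ∀ w ∈ W, φ a w ∈ W} {a : A} :
    a ∈ (res φ W h).ker ↔ ∀ w ∈ W, φ a w = w :=
  ⟨fun e w hw => congrArg (fun f : MulAut W => (f ⟨w, hw⟩).1) e, fun e => MulEquiv.ext fun w => Subtype.ext (e w w.2)⟩

/-- Fixed points. -/
def pl (x : MulAut V) : Subgroup V := x.toMonoidHom.eqLocus (MonoidHom.id V)

/-- Inverted points. -/
def mi (x : MulAut V) : Subgroup V := x.toMonoidHom.eqLocus invMonoidHom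

theorem mem_pl {x : MulAut V} {v : V} : v ∈ pl x ↔ x v = v := Iff.rfl
theorem mem_mi {x : MulAut V} {v : V} : v ∈ mi x ↔ x v = v⁻¹ := Iff.rfl

theorem compl [Finite V] (ho : Odd (Nat.card V)) {x : MulAut V} (hx : x * x = 1) : (pl x).IsComplement' (mi x) := by
  have c : (Nat.card V).Coprime 2 := Nat.coprime_two_right.2 ho
  refine isComplement'_of_disjoint_and_mul_eq_univ (disjoint_def.2 fun {v} h1 h2 => ?_)
    (Set.eq_univ_of_forall fun v => ?_)
  · refine (powCoprime c).injective ?_
    simp only [powCoprime_apply, sq, mul_one]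
    exact mul_eq_one_iff_eq_inv.2 ((mem_pl.1 h1).symm.trans h2)
  · obtain ⟨s, rfl⟩ := (powCoprime c).surjective v
    have e : x (x s) = s := by rw [← MulAut.mul_apply, hx]; rfl
    exact ⟨s * x s, by simp [mem_pl, e, mul_comm], s * (x s)⁻¹, by simp [mem_mi, e, mul_comm], by
      simp [sq, mul_assoc, mul_comm, mul_left_comm]⟩

theorem idx [Finite A] (hA : IsPGroup 2 A) {B : Type*} [Group B] (f : A →* B) :
    (frattini A ⊔ f.ker).index = (frattini f.range).index := by
  rw [← map_frattini_of_surjective hA _ f.rangeRestrict_surjective, ← index_comap_of_surjective _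
    f.rangeRestrict_surjective, comap_map_eq, MonoidHom.ker_rangeRestrict]

theorem step [Finite A] (hA : IsPGroup 2 A) (K : Subgroup A) :
    (frattini A).index ≤ (frattini A ⊔ K).index * (frattini K).index := by
  rw [← relIndex_mul_index (le_sup_left (b := K)), relIndex_sup_left, mul_comm]
  refine Nat.mul_le_mul_left _ (index_antitone fun x hx => ?_)
  exact map_subtype_frattini_le_frattini hA K ⟨x, hx, rfl⟩

theorem split [Finite A] [Finite V] (hA : IsPGroup 2 A) (φ : A →* MulAut V) (hφ : Function.Injective φ)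
    {W₁ W₂ : Subgroup V} (hc : W₁.IsComplement' W₂) (h₁ : ∀ a, ∀ w ∈ W₁, φ a w ∈ W₁) (h₂ : ∀ a, ∀ w ∈ W₂, φ a w ∈ W₂) :
    (res φ W₁ h₁).ker ⊓ (res φ W₂ h₂).ker = ⊥ := by
  refine eq_bot_iff.2 fun a ha => hφ (MulEquiv.ext fun v => ?_)
  obtain ⟨⟨x, y⟩, rfl⟩ := hc.2 v
  simp [mem_ker_res.1 ha.1 x x.2, mem_ker_res.1 ha.2 y y.2]
end

theorem main (n : ℕ) : ∀ (V A : Type u) [CommGroup V] [Finite V] [Group A] [Finite A], Nat.card V = n → Odd n →
    IsPGroup 2 A → ∀ φ : A →* MulAut V, (frattini A ⊔ φ.ker).index ≤ β n := by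
  induction n using Nat.strong_induction_on with
  | _ n ih =>
  suffices H : ∀ (V A : Type u) [CommGroup V] [Finite V] [Group A] [Finite A], Nat.card V = n → Odd n →
      IsPGroup 2 A → ∀ φ : A →* MulAut V, Function.Injective φ → (frattini A).index ≤ β n by
    intro V A _ _ _ _ hn ho hA φ
    rw [idx hA]
    exact H V _ hn ho (hA.of_surjective _ φ.rangeRestrict_surjective) _ φ.range.subtype_injective
  intro V A _ _ _ _ hn ho hA φ hφ
  subst hn
  have key : ∀ (B : Type u) [Group B] [Finite B], IsPGroup 2 B → ∀ ψ : B →* MulAut V, Function.Injective ψ →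
      ∀ x : MulAut V, x * x = 1 → Nat.card (pl x) ≠ 1 → Nat.card (mi x) ≠ 1 → (∀ b, ψ b * x = x * ψ b) →
      (frattini B).index ≤ β (Nat.card (pl x)) * β (Nat.card (mi x)) ∧
        Nat.card B ≤ Nat.card (MulAut (pl x)) * Nat.card (MulAut (mi x)) := by
    intro B _ _ hB ψ hψ x hx n1 n2 hc
    have e : ∀ b v, x (ψ b v) = ψ b (x v) := fun b v => by rw [← MulAut.mul_apply, ← hc, MulAut.mul_apply]
    have h₁ : ∀ a, ∀ w ∈ pl x, ψ a w ∈ pl x := fun a w hw => by rw [mem_pl, e, mem_pl.1 hw]
    have h₂ : ∀ a, ∀ w ∈ mi x, ψ a w ∈ mi x := fun a w hw => by rw [mem_mi, e, mem_mi.1 hw, map_inv]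
    have c := (compl ho hx).card_mul
    have k := split hB ψ hψ (compl ho hx) h₁ h₂
    have p1 := Nat.card_pos (α := pl x)
    have p2 := Nat.card_pos (α := mi x)
    refine ⟨(step hB (res ψ _ h₁).ker).trans (Nat.mul_le_mul
      (ih _ (by rw [← c]; exact lt_mul_of_one_lt_right p1 (by omega)) _ _ rfl (ho.of_dvd_nat (card_subgroup_dvd_card _))
        hB _) ?_), ?_⟩
    · have := ih _ (by rw [← c]; exact lt_mul_of_one_lt_left p2 (by omega)) _ _ rfl
        (ho.of_dvd_nat (card_subgroup_dvd_card _)) (hB.to_subgroup (res ψ _ h₁).ker)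
        ((res ψ _ h₂).comp (res ψ _ h₁).ker.subtype)
      rwa [show ((res ψ _ h₂).comp (res ψ _ h₁).ker.subtype).ker = ⊥ from
        eq_bot_iff.2 fun a ha => Subtype.ext (k.le ⟨a.2, ha⟩), sup_bot_eq] at this
    · rw [← Nat.card_prod]
      exact Nat.card_le_card_of_injective ((res ψ _ h₁).prod (res ψ _ h₂))
        ((MonoidHom.ker_eq_bot_iff _).1 ((MonoidHom.ker_prod _ _).trans k))
  have n1 : ∀ x : MulAut V, x * x = 1 → x ≠ 1 → Nat.card (mi x) ≠ 1 := fun x hx h1 e => h1 (MulEquiv.ext fun v => by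
    have := (compl ho hx).card_mul
    rw [e, mul_one] at this
    exact mem_pl.1 ((eq_top_of_card_eq _ this) ▸ mem_top v))
  have n2 : ∀ x : MulAut V, x * x = 1 → Nat.card (pl x) = 1 → ∀ v, x v = v⁻¹ := fun x hx e v => by
    have := (compl ho hx).card_mul
    rw [e, one_mul] at this
    exact mem_mi.1 ((eq_top_of_card_eq _ this) ▸ mem_top v)
  by_cases h1 : ∃ z ∈ center A, z * z = 1 ∧ z ≠ 1 ∧ Nat.card (pl (φ z)) ≠ 1
  · obtain ⟨z, z1, z2, z3, z4⟩ := h1
    have hz : φ z * φ z = 1 := by rw [← map_mul, z2, map_one]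
    have z5 := n1 _ hz ((map_ne_one_iff φ hφ).2 z3)
    refine (key A hA φ hφ _ hz z4 z5 fun b => by rw [← map_mul, mem_center_iff.1 z1, map_mul]).1.trans ?_
    rw [← (compl ho hz).card_mul]
    exact β_mul (ho.of_dvd_nat (card_subgroup_dvd_card _)) (ho.of_dvd_nat (card_subgroup_dvd_card _)) z4 z5
  push Not at h1
  by_cases h2 : ∀ E : Subgroup A, E.Normal → IsElementaryAbelian 2 E → Nat.card E ≠ 2 ^ 2
  · classical
    by_cases hc : IsCyclic A
    · by_cases e : Nat.card V = 1
      · haveI := (Nat.card_eq_one_iff_unique.1 e).1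
        haveI : Subsingleton A := ⟨fun a b => hφ (MulEquiv.ext fun v => Subsingleton.elim _ _)⟩
        simp [e, β, Subsingleton.elim (frattini A) ⊤]
      obtain ⟨g, hg⟩ := isCyclic_iff_exists_zpowers_eq_top.1 hc
      refine (index_frattini_le_pow_card hA (T := {g}) (by simpa [← zpowers_eq_closure] using hg)).trans ?_
      obtain ⟨k, hk⟩ := ho
      simp only [β, Finset.card_singleton]
      split_ifs <;> omega
    obtain ⟨-, a, b, m, -, -, -, -, h, -⟩ := (isCyclic_or_of_no_normal_rank_two hA h2).resolve_left hc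
    refine (index_frattini_le_pow_card hA (T := {a, b}) (by simpa [closure_pair_eq_sup] using h)).trans
      ((Nat.pow_le_pow_right two_pos Finset.card_le_two).trans ?_)
    have : 9 ≤ Nat.card V := by
      by_contra! k
      by_cases e : Nat.card V = 1
      · haveI := (Nat.card_eq_one_iff_unique.1 e).1
        haveI : Subsingleton A := ⟨fun a b => hφ (MulEquiv.ext fun v => Subsingleton.elim _ _)⟩
        exact hc inferInstance
      haveI : Fact (Nat.card V).Prime := ⟨by
        obtain ⟨j, hj⟩ := ho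
        rcases (by omega : Nat.card V = 3 ∨ Nat.card V = 5 ∨ Nat.card V = 7) with h | h | h <;> rw [h] <;> norm_num⟩
      haveI : IsCyclic V := isCyclic_of_prime_card rfl
      exact hc (isCyclic_of_injective ((IsCyclic.mulAutMulEquiv V).toMonoidHom.comp φ)
        ((IsCyclic.mulAutMulEquiv V).injective.comp hφ))
    simp only [β]
    split_ifs <;> omega
  push Not at h2
  obtain ⟨E, hE, e1, e2⟩ := h2
  obtain ⟨z, z1, z2, z3⟩ := exists_mem_center_orderOf_eq hA E (fun h => by simp [h] at e2)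
  have sq : ∀ x ∈ E, x * x = 1 := fun x hx => by rw [← sq]; exact e1.2 x hx
  have z4 : z ≠ 1 := fun h => by simp [h] at z3
  have zc := mem_center_iff.1 z2
  have hz := n2 _ (by rw [← map_mul, sq z z1, map_one]) (h1 z z2 (sq z z1) z4)
  obtain ⟨u, u1, u2⟩ : ∃ u ∈ E, u ∉ zpowers z := by
    by_contra! k
    have := card_le_of_le (show E ≤ zpowers z from k)
    rw [Nat.card_zpowers] at this
    omega
  have u3 : u ≠ 1 := fun h => u2 (h ▸ one_mem _)
  have u4 : u ≠ z := fun h => u2 (h ▸ mem_zpowers z)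
  have hu : φ u * φ u = 1 := by rw [← map_mul, sq u u1, map_one]
  have u5 : Nat.card (pl (φ u)) ≠ 1 := fun h => u4 (hφ (MulEquiv.ext fun v => (n2 _ hu h v).trans (hz v).symm))
  have u6 := n1 _ hu ((map_ne_one_iff φ hφ).2 u3)
  have cj : ∀ a : A, a * u * a⁻¹ = u ∨ a * u * a⁻¹ = u * z := fun a => by
    by_contra! k
    have a1 : a * u * a⁻¹ ≠ 1 := by simpa using u3
    have a2 : a * u * a⁻¹ ≠ z := fun h => u4 (by rw [mul_inv_eq_iff_eq_mul, ← zc] at h; exact mul_left_cancel h)
    have a3 : u * z ≠ 1 := fun h => u4 (by rw [← sq z z1] at h; exact mul_right_cancel h)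
    classical
    have := Set.ncard_le_ncard (s := ↑({1, z, u, u * z, a * u * a⁻¹} : Finset A)) (t := (E : Set A)) (by
      simp [Set.insert_subset_iff, z1, u1, mul_mem u1 z1, hE.conj_mem u u1 a])
    rw [Set.ncard_coe_finset, show (E : Set A).ncard = 2 ^ 2 from e2, Finset.card_insert_of_notMem (by
      simp [z4.symm, u3.symm, a3.symm, a1.symm]), Finset.card_insert_of_notMem (by simp [u4.symm, u3, a2.symm]),
      Finset.card_insert_of_notMem (by simp [z4, k.1.symm]), Finset.card_pair k.2.symm] at this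
    omega
  obtain ⟨t, ht⟩ : ∃ t : A, t * u * t⁻¹ = u * z := by
    by_contra! k
    exact u5 (h1 u (mem_center_iff.2 fun a => mul_inv_eq_iff_eq_mul.1 ((cj a).resolve_right (k a))) (sq u u1) u3)
  set H := centralizer ({u} : Set A)
  have mH : ∀ a, a ∈ H ↔ a * u * a⁻¹ = u := fun a => by
    rw [mem_centralizer_singleton_iff, mul_inv_eq_iff_eq_mul]
  have i2 : H.index = 2 := index_eq_two_iff.2 ⟨t, fun b => by
    have e : b * t * u * (b * t)⁻¹ = b * u * b⁻¹ * z := by
      rw [show b * t * u * (b * t)⁻¹ = b * (t * u * t⁻¹) * b⁻¹ by group, ht, mul_assoc _ b⁻¹, zc b⁻¹]; group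
    rw [mH, mH, e]
    rcases cj b with h | h <;> simp [h, z4, mul_assoc, sq z z1]⟩
  have k := key H (hA.to_subgroup H) (φ.comp H.subtype) (hφ.comp H.subtype_injective) _ hu u5 u6
    fun b => by simp [← map_mul, mem_centralizer_singleton_iff.1 b.2]
  have c : Nat.card (mi (φ u)) = Nat.card (pl (φ u)) := by
    rw [← card_map_of_injective (f := (φ t).toMonoidHom) (φ t).injective]
    congr 2
    ext v
    have := congrArg (fun a => φ a v) ht
    simp only [map_mul, map_inv, MulAut.mul_apply, hz, MulAut.inv_apply] at this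
    rw [mem_map_equiv, mem_mi, mem_pl, ← (φ t).injective.eq_iff, this]
    simp
  rw [← (compl ho hu).card_mul, c]
  by_cases h3 : Nat.card (pl (φ u)) = 3
  · haveI : Fact (Nat.Prime 3) := ⟨Nat.prime_three⟩
    haveI := isCyclic_of_prime_card h3
    haveI := isCyclic_of_prime_card (c.trans h3)
    have k2 := k.2
    rw [IsCyclic.card_mulAut, IsCyclic.card_mulAut, c, h3, Nat.totient_prime Nat.prime_three] at k2
    have a := H.card_mul_index
    have b := (frattini A).card_mul_index
    have d : 1 < Nat.card (frattini A) := (one_lt_card_iff_ne_bot _).2 fun h => z4 (by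
      have := ((frattini_eq_bot_iff hA).1 h).1.1.1 t u
      rw [this, mul_inv_cancel_right] at ht
      simpa using ht)
    rw [h3, show β (3 * 3) = 4 from rfl]
    nlinarith
  · refine le_trans ?_ (β_sq (ho.of_dvd_nat (card_subgroup_dvd_card _)) u5 h3)
    have := step hA H
    have l := index_antitone (le_sup_right (a := frattini A) (b := H))
    rw [c] at k
    calc _ ≤ _ := this
      _ ≤ _ := Nat.mul_le_mul (i2 ▸ l) k.1

/-- Let G be a finite group that is the semidirect product of a normal abelian subgroup N of odd order by a 2-subgroup P, and suppose N is the unique minimal normal subgroup of G. Then the index of the Frattini subgroup of P in P is at most #N − 1. -/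
theorem result {G : Type*} [Group G] [Finite G] (N P : Subgroup G) (hN : N.Normal) (hNab : IsMulCommutative ↥N) (hNodd : Odd (Nat.card ↥N)) (hP : IsPGroup 2 ↥P) (hdisj : N ⊓ P = ⊥) (hprod : N ⊔ P = ⊤) (hmin : N ≠ ⊥ ∧ ∀ M : Subgroup G, M.Normal → M ≠ ⊥ → N ≤ M) : (frattini ↥P).index ≤ Nat.card ↥N - 1 := by
  letI : CommGroup N := { mul_comm := hNab.1.1 }
  let φ : P →* MulAut N := MulAut.conjNormal.comp P.subtype
  have hk : φ.ker = ⊥ := by
    have h1 : (φ.ker.map P.subtype).Normal := normalizer_eq_top_iff.1 (eq_top_iff.2 (hprod ▸ sup_le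
      (le_trans (fun n hn => by
        rintro _ ⟨x, hx, rfl⟩
        exact mul_inv_eq_iff_eq_mul.1 (congrArg (fun f : MulAut N => (f ⟨n, hn⟩).1) hx)) (centralizer_le_normalizer _))
      (by simpa [normalizer_eq_top, ← MonoidHom.range_eq_map] using le_normalizer_map (H := φ.ker) P.subtype)))
    by_contra h
    have h2 := (hmin.2 _ h1 (by rwa [ne_eq, map_eq_bot_iff_of_injective _ P.subtype_injective])).trans
      (map_subtype_le _)
    exact hmin.1 (by rw [← hdisj, inf_eq_left.2 h2])
  have := main _ N P rfl hNodd hP φ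
  have h3 : Nat.card N ≠ 1 := fun h => hmin.1 (card_eq_one.1 h)
  rw [hk, sup_bot_eq] at this
  obtain ⟨k, hk⟩ := hNodd
  simp only [β] at this
  split_ifs at this <;> omega

end Cfsg.Agent.S4188
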