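import Cfsg.Statements.S4189
import Cfsg.Agent.Lib.BG.Hall
import Cfsg.Agent.Lib.FGS.Taussky
import Cfsg.Agent.Lib.PGroup.Holomorph

set_option autoImplicit false
open Cfsg

namespace Cfsg.Agent.S4189

/-- Let P be a finite non-abelian 2-group whose commutator subgroup has index 4 and whose automorphism group is not a 2-group (some automorphism has order that is not a power of 2). Then P is isomorphic to the quaternion group of order 8. -/
theorem result {P : Type*} [Group P] [Finite P] (hP : IsPGroup 2 P) (hna : ¬ IsMulCommutative P) (h4 : (commutator P).index = 4) (haut : ¬ IsPGroup 2 (MulAut P)) : Nonempty (P ≃* QuaternionGroup 2) := by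
  open Subgroup Cfsg.Lib Cfsg.Lib.BG Cfsg.Lib.Transfer in
  open Cfsg.Lib.FGS Cfsg.Lib.Inv Cfsg.Lib.PGroup in
  obtain ⟨a, b, m, ε, δ, hm, h⟩ : ∃ (a b : P) (m : ℕ) (ε δ : ℤ), 1 ≤ m ∧ MC ⊤ a b m ε δ := by
    obtain ⟨a, b, m, hm, h | h | ⟨-, h⟩⟩ := exists_mc_of_index_commutator hP h4 (fun e => hna
      ⟨⟨fun x y => commutatorElement_eq_one_iff_mul_comm.1 (mem_bot.1 (e.le (commutator_mem_commutator trivial trivial)))⟩⟩) <;>
    exact ⟨a, b, m, _, _, hm, h⟩
  obtain ⟨q, hq, hq2, hd⟩ : ∃ q, q.Prime ∧ q ≠ 2 ∧ q ∣ Nat.card (MulAut P) := by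
    by_contra! h1
    exact haut (IsPGroup.of_card (Nat.eq_prime_pow_of_unique_prime_dvd Nat.card_pos.ne' fun hq hd => by
      by_contra e; exact h1 _ hq e hd))
  haveI := Fact.mk hq
  obtain ⟨α, hα⟩ := exists_prime_orderOf_dvd_card' q hd
  have e := (topEquiv.symm.trans (equivMapOfInjective ⊤ (holL P) holL_injective))
  rcases (h.map (holL P) holL_injective).odd_aut le_rfl (map_holR_le_normalizer_top ⊤ (mem_map_of_mem _ (mem_top α)))
    (by rw [orderOf_injective _ holR_injective, hα]; exact hq.odd_of_ne_two hq2) (fun hc => hq.ne_one (by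
      rw [← hα, orderOf_eq_one_iff]
      ext x
      apply holL_injective
      rw [← hol_conj, ← hc _ (mem_map_of_mem _ (mem_top x)), mul_inv_cancel_right]; rfl)) with h1 | h1
  · have := h1.card_four
    rw [(h.map (holL P) holL_injective).card_eq, pow_add] at this
    have := Nat.one_lt_two_pow (show m ≠ 0 by omega)
    omega
  · exact h1.map e.trans

end Cfsg.Agent.S4189
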