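import Cfsg.Statements.S4194
import Cfsg.Agent.Lib.Fusion.Camina

set_option autoImplicit false
open Cfsg

namespace Cfsg.Agent.S4194

/-- A finite group G has commutative Sylow 2-subgroups if and only if every 2-element of G (element of order a power of 2) is 2-central, that is, its centralizer contains a Sylow 2-subgroup of G. -/
theorem result {G : Type*} [Group G] [Finite G] (P : Sylow 2 G) :
    IsMulCommutative (P : Subgroup G) ↔ ∀ x : G, (∃ k : ℕ, orderOf x = 2 ^ k) → (∃ Q : Sylow 2 G, (Q : Subgroup G) ≤ Subgroup.centralizer ({x} : Set G)) := by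
  refine ⟨fun h x ⟨k, hk⟩ => ?_, fun h => Cfsg.Lib.Fusion.sylow_comm_of_central P fun x hx => ?_⟩
  · obtain ⟨Q, hQ⟩ := (Cfsg.Lib.Fusion.isPGroup_zpowers (hk ▸ pow_orderOf_eq_one x)).exists_le_sylow
    obtain ⟨g, rfl⟩ := MulAction.exists_smul_eq G P Q
    refine ⟨g • P, fun y hy z hz => ?_⟩
    obtain ⟨a, ha, rfl⟩ := hy
    obtain ⟨b, hb, e⟩ := hQ (Subgroup.mem_zpowers x)
    rw [Set.mem_singleton_iff.1 hz, ← e]
    exact Commute.map (congrArg Subtype.val (h.1.1 ⟨b, hb⟩ ⟨a, ha⟩) :) (MulAut.conj g)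
  · obtain ⟨k, hk⟩ := P.isPGroup' ⟨x, hx⟩
    obtain ⟨j, -, hj⟩ := (Nat.dvd_prime_pow Nat.prime_two).1
      (orderOf_dvd_of_pow_eq_one (show x ^ 2 ^ k = 1 from congrArg Subtype.val hk))
    exact h x ⟨j, hj⟩

end Cfsg.Agent.S4194
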