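import Cfsg.Statements.S4195
import Cfsg.Agent.Lib.FGS.Classes

set_option autoImplicit false
open Cfsg

namespace Cfsg.Agent.S4195

/-- Let x be a non-identity element of a finite group G whose centralizer contains a Sylow 2-subgroup of G. If x is conjugate to its inverse, then x has order 2. -/
theorem result {G : Type*} [Group G] [Finite G] (x : G) (hx : x ≠ 1) (P : Sylow 2 G) (hP : (P : Subgroup G) ≤ Subgroup.centralizer ({x} : Set G)) (hreal : IsConj x x⁻¹) : orderOf x = 2 := by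
  open Cfsg.Lib.FGS Cfsg.Lib.BG in
  by_contra hne
  have hx2 : x ≠ x⁻¹ := fun h => hne (orderOf_eq_prime (by rw [pow_two]; nth_rewrite 2 [h]; simp) hx)
  obtain ⟨g, hg⟩ := isConj_iff.1 hreal
  have hg' : g * x⁻¹ * g⁻¹ = x := by
    calc g * x⁻¹ * g⁻¹ = (g * x * g⁻¹)⁻¹ := by group
      _ = x := by rw [hg, inv_inv]
  have hN : Subgroup.zpowers g ≤ 𝐍(𝐂[x]) := by
    rw [Subgroup.zpowers_le]
    exact norm_of_conj_eq (by rw [conj_cent1, hg, cent1_inv])
  have hg1 : g ∉ 𝐂[x] := fun h => hx2 (by rw [← hg, mem_cent1.1 h]; simp)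
  have hg2 : g * g ∈ 𝐂[x] := by
    rw [mem_cent1]
    calc g * g * x = g * (g * x * g⁻¹) * g⁻¹ * (g * g) := by group
      _ = x * (g * g) := by rw [hg, hg']
  have h1 : orderOf (QuotientGroup.mk (s := (𝐂[x]).subgroupOf 𝐍(𝐂[x])) ⟨g, hN (Subgroup.mem_zpowers g)⟩) = 2 := by
    refine orderOf_eq_prime ?_ ?_
    · rw [pow_two, ← QuotientGroup.mk_mul, QuotientGroup.eq_one_iff]; exact hg2
    · rw [Ne, QuotientGroup.eq_one_iff]; exact hg1
  have h2 : 2 ∣ (𝐂[x]).relIndex 𝐍(𝐂[x]) := h1 ▸ orderOf_dvd_natCard _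
  have h3 : (𝐂[x]).relIndex 𝐍(𝐂[x]) ∣ (𝐂[x]).index := Subgroup.relIndex_dvd_index_of_le (le_norm _)
  exact P.not_dvd_index ((h2.trans h3).trans (Subgroup.index_dvd_of_le hP))

end Cfsg.Agent.S4195
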