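import Cfsg.Statements.S4196
import Cfsg.Agent.Lib.FGS.Classes
import Cfsg.Agent.S4195

set_option autoImplicit false
open Cfsg

namespace Cfsg.Agent.S4196

/-- A finite group G has elementary abelian Sylow 2-subgroups (commutative with every element squaring to the identity) if and only if every 2-element of G has a Sylow 2-subgroup in its centralizer and is conjugate to its inverse. -/
theorem result {G : Type*} [Group G] [Finite G] (P : Sylow 2 G) :
    (IsMulCommutative (P : Subgroup G) ∧ ∀ x ∈ (P : Subgroup G), x ^ 2 = 1) ↔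
      ∀ x : G, (∃ k : ℕ, orderOf x = 2 ^ k) → (∃ Q : Sylow 2 G, (Q : Subgroup G) ≤ Subgroup.centralizer ({x} : Set G)) ∧ IsConj x x⁻¹ := by
  open Cfsg.Lib.FGS Cfsg.Lib.BG Cfsg.Lib.Transfer in
  constructor
  · rintro ⟨hab, h2⟩ x hx
    obtain ⟨k, hk⟩ := orderOf_eq_pow_iff.1 hx
    obtain ⟨Q, hQ⟩ := exists_sylow_mem hk
    obtain ⟨g, hg⟩ := exists_conj_sylow_eq P Q
    have h1 : IsMulCommutative (Q : Subgroup G) := hg ▸ (abelian_conj g).2 hab
    refine ⟨⟨Q, (abelian_cent h1).trans (cent_le_cent1 hQ)⟩, ?_⟩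
    rw [← hg, mem_conj] at hQ
    have h3 := h2 _ hQ
    have h4 : x * x = 1 := by
      calc x * x = g * (g⁻¹ * x * g) ^ 2 * g⁻¹ := by rw [pow_two]; group
        _ = 1 := by rw [h3]; group
    rw [inv_eq_of_mul_eq_one_left h4]
  · intro h
    have h2 : ∀ x ∈ (P : Subgroup G), x ^ 2 = 1 := by
      intro x hx
      by_cases h1 : x = 1
      · simp [h1]
      obtain ⟨⟨Q, hQ⟩, hr⟩ := h x (orderOf_eq_pow_iff.2 (exists_pow_of_mem P.isPGroup' hx))
      rw [← S4195.result x h1 Q hQ hr, pow_orderOf_eq_one]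
    refine ⟨abelian_iff.2 (le_cent_iff.2 fun a ha b hb => ?_), h2⟩
    have h3 := h2 _ (mul_mem ha hb)
    have ea : a⁻¹ = a := inv_eq_of_mul_eq_one_left (by rw [← pow_two, h2 a ha])
    have eb : b⁻¹ = b := inv_eq_of_mul_eq_one_left (by rw [← pow_two, h2 b hb])
    have : (a * b)⁻¹ = a * b := inv_eq_of_mul_eq_one_left (by rw [← pow_two, h3])
    rw [← this, mul_inv_rev, ea, eb]

end Cfsg.Agent.S4196
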