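import Cfsg.Statements.S4198
import Cfsg.Agent.Lib.Perm.Sym3
import Cfsg.Agent.Lib.Alt.Spectrum

set_option autoImplicit false
open Cfsg

namespace Cfsg.Agent.S4198

open Cfsg.Lib Cfsg.Lib.Perm Subgroup Equiv Equiv.Perm

def incr : List ℕ → List ℕ
  | [] => []
  | a :: l => (a + 1) :: l

def F : ℕ → Finset (List ℕ)
  | 0 => {[]}
  | n + 1 => ((F n).image (1 :: ·) ∪ (F n).image incr).filter fun l => l.Pairwise (· ≤ ·) ∧ l.sum = n + 1

theorem mem_F (n : ℕ) : ∀ l : List ℕ, l.Pairwise (· ≤ ·) → (∀ a ∈ l, 0 < a) → l.sum = n → l ∈ F n := by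
  induction n with
  | zero =>
    rintro (_ | ⟨a, l⟩) - h e
    · simp [F]
    · have := h a (by simp); simp at e; omega
  | succ n ih =>
    rintro (_ | ⟨a, l⟩) h1 h2 e
    · simp at e
    refine Finset.mem_filter.2 ⟨Finset.mem_union.2 ?_, h1, e⟩
    rw [List.pairwise_cons] at h1
    rw [List.forall_mem_cons] at h2
    rw [List.sum_cons] at e
    obtain _ | _ | a := a
    · omega
    · exact .inl (Finset.mem_image.2 ⟨l, ih l h1.2 h2.2 (by omega), rfl⟩)
    · exact .inr (Finset.mem_image.2 ⟨(a + 1) :: l, ih _ (List.pairwise_cons.2 ⟨fun b hb =>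
        (Nat.le_succ _).trans (h1.1 b hb), h1.2⟩) (List.forall_mem_cons.2 ⟨a.succ_pos, h2.2⟩)
        (by rw [List.sum_cons]; omega), rfl⟩)

theorem card_F (k : ℕ) : (F (k + 5)).card ≤ 2 ^ (k + 3) := by
  induction k with
  | zero => decide
  | succ k ih =>
    refine (Finset.card_filter_le _ _).trans ((Finset.card_union_le _ _).trans ?_)
    have := Finset.card_image_le (s := F (k + 5)) (f := (1 :: ·))
    have := Finset.card_image_le (s := F (k + 5)) (f := incr)
    rw [pow_succ]; omega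

theorem out_inj {G : Type*} [Group G] {C D : ConjClasses G} (h : IsConj C.out D.out) : C = D := by
  rw [← C.out_eq, ← D.out_eq]; exact ConjClasses.mk_eq_mk_iff_isConj.2 h

theorem exists_phi {Ω : Type*} [Fintype Ω] [DecidableEq Ω] (h : 5 ≤ Fintype.card Ω) (x : Perm Ω) :
    ∃ y : Perm Ω, centralizer {x} ≤ alternatingGroup Ω → y ∉ alternatingGroup Ω ∧ ¬ y.IsSwap ∧
      y.cycleType.map (fun c => if Even c then c + 1 else c) = x.cycleType := by
  by_cases hx : centralizer {x} ≤ alternatingGroup Ω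
  swap
  · exact ⟨1, fun e => absurd e hx⟩
  have hx' := (Alt.mem_alternating_iff_even x).1 (hx (mem_centralizer_singleton_iff.2 rfl))
  obtain ⟨h1, h2, -⟩ := centralizer_le_alternating_iff.1 hx
  obtain ⟨a, ha⟩ := Multiset.exists_mem_of_ne_zero (s := x.cycleType) fun e => by simp [e] at h2; omega
  obtain ⟨m, hm⟩ := Multiset.exists_cons_of_mem ha
  obtain ⟨k, rfl⟩ := h1 a ha
  have h3 := two_le_of_mem_cycleType ha
  have h4 := x.sum_cycleType_le
  have h5 : ∀ c ∈ m, c ∈ x.cycleType := fun c hc => hm ▸ Multiset.mem_cons_of_mem hc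
  rw [hm, Multiset.sum_cons] at h2 h4 hx'
  obtain ⟨y, hy⟩ := (exists_with_cycleType_iff Ω (m := (2 * k) ::ₘ m)).2 ⟨by rw [Multiset.sum_cons]; omega,
    Multiset.forall_mem_cons.2 ⟨by omega, fun c hc => two_le_of_mem_cycleType (h5 c hc)⟩⟩
  refine ⟨y, fun _ => ⟨?_, fun e => ?_, ?_⟩⟩
  · rw [Alt.mem_alternating_iff_even, hy]
    simp only [Multiset.sum_cons, Multiset.card_cons, Nat.even_iff] at hx' ⊢
    omega
  · have := sum_cycleType y
    rw [card_support_eq_two.2 e, hy, Multiset.sum_cons] at this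
    omega
  · rw [hy, hm, Multiset.map_cons, if_pos (even_two_mul k), Multiset.map_congr rfl fun c hc =>
      if_neg (Nat.not_even_iff_odd.2 (h1 c (h5 c hc))), Multiset.map_id']

/-- For n ≥ 5 the alternating group of degree n has strictly fewer conjugacy classes than the symmetric group of degree n, and the symmetric group of degree n (whose classes correspond to the partitions of n) has at most 2^(n−2) conjugacy classes. -/
theorem result (n : ℕ) (hn : 5 ≤ n) : Nat.card (ConjClasses (alternatingGroup (Fin n))) < Nat.card (ConjClasses (Equiv.Perm (Fin n))) ∧ Nat.card (ConjClasses (Equiv.Perm (Fin n))) ≤ 2 ^ (n - 2) := by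
  classical
  constructor
  · choose φ hφ using exists_phi (Ω := Fin n) (by simpa using hn)
    let r : Perm (Fin n) → Perm (Fin n) := fun x => (ConjClasses.mk x).out
    have hr : ∀ x, IsConj x (r x) := fun x => ConjClasses.mk_eq_mk_iff_isConj.1 (Quotient.out_eq _).symm
    have hr' : ∀ {x y}, IsConj x y → r x = r y := fun h => congrArg Quotient.out (ConjClasses.mk_eq_mk_iff_isConj.2 h)
    let P : Perm (Fin n) → Prop := fun x => ∃ k ∈ alternatingGroup _, k * x * k⁻¹ = r x
    have hP : ∀ x, ¬ P x → centralizer {x} ≤ alternatingGroup _ := fun x h => by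
      by_contra e; exact h (exists_alt_conj_of_not_le (hr x) e)
    have sg : ∀ {x y : Perm (Fin n)}, IsConj x y → x ∈ alternatingGroup _ → y ∈ alternatingGroup _ :=
      fun h hx => (isConj_iff.1 h).elim fun k hk => hk ▸ Normal.conj_mem inferInstance _ hx k
    have fin : ∀ {C D : ConjClasses (alternatingGroup (Fin n))} {k l : Perm (Fin n)}, k * C.out.1 * k⁻¹ = r C.out.1 →
        l * D.out.1 * l⁻¹ = r D.out.1 → l⁻¹ * k ∈ alternatingGroup _ → IsConj C.out.1 D.out.1 → C = D :=
      fun {C D k l} h1 h2 h3 h4 => out_inj (isConj_alt_iff.2 ⟨_, h3, by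
        rw [← hr' h4, ← h1] at h2
        rw [← mul_left_cancel_iff (a := l), ← mul_right_cancel_iff (a := l⁻¹), h2]; group⟩)
    obtain ⟨a, b, hab⟩ := (Fin.nontrivial_iff_two_le.2 (by omega : 2 ≤ n)).exists_pair_ne
    have := Fintype.ofFinite (ConjClasses (alternatingGroup (Fin n)))
    have := Fintype.ofFinite (ConjClasses (Perm (Fin n)))
    rw [Nat.card_eq_fintype_card, Nat.card_eq_fintype_card]
    refine Fintype.card_lt_of_injective_of_notMem (fun C => ConjClasses.mk (if P C.out.1 then C.out.1 else φ C.out.1))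
      (fun C D h => ?_) (b := ConjClasses.mk (swap a b)) ?_
    · rw [ConjClasses.mk_eq_mk_iff_isConj] at h
      split_ifs at h with h1 h2 h2
      · obtain ⟨k, hk, h1⟩ := h1
        obtain ⟨l, hl, h2⟩ := h2
        exact fin h1 h2 (mul_mem (inv_mem hl) hk) h
      · exact absurd (sg h C.out.2) (hφ _ (hP _ h2)).1
      · exact absurd (sg h.symm D.out.2) (hφ _ (hP _ h1)).1
      · obtain ⟨k, hk⟩ := isConj_iff.1 (hr C.out.1)
        obtain ⟨l, hl⟩ := isConj_iff.1 (hr D.out.1)
        refine fin hk hl (mul_mem_alt (fun e => h2 ⟨l, inv_mem_iff.1 e, hl⟩) fun e => h1 ⟨k, e, hk⟩) ?_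
        rw [isConj_iff_cycleType_eq] at h ⊢
        rw [← (hφ _ (hP _ h1)).2.2, ← (hφ _ (hP _ h2)).2.2, h]
    · rintro ⟨C, h⟩
      rw [ConjClasses.mk_eq_mk_iff_isConj] at h
      split_ifs at h with h1
      · simpa [hab] using sg h C.out.2
      · refine (hφ _ (hP _ h1)).2.1 (isSwap_iff_cycleType.2 ?_)
        rw [isConj_iff_cycleType_eq.1 h, ← isSwap_iff_cycleType]
        exact ⟨a, b, hab, rfl⟩
  obtain ⟨k, rfl⟩ := Nat.exists_eq_add_of_le' hn
  refine le_trans ?_ (card_F k)
  rw [← Nat.card_eq_finsetCard]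
  refine Nat.card_le_card_of_injective (fun C => ⟨C.out.partition.parts.sort (· ≤ ·), mem_F _ _
    (Multiset.pairwise_sort _ _) (fun a ha => C.out.partition.parts_pos ((Multiset.mem_sort _).1 ha)) ?_⟩)
    fun C D h => out_inj (partition_eq_of_isConj.2 (Nat.Partition.ext ?_))
  · rw [← Multiset.sum_coe, Multiset.sort_eq, Nat.Partition.parts_sum, Fintype.card_fin]
  · simpa using congrArg (fun l => (l.1 : Multiset ℕ)) h

end Cfsg.Agent.S4198
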