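import Cfsg.Statements.S4230

set_option autoImplicit false
open Cfsg

namespace Cfsg.Agent.S4230

/-- Let p be an odd prime, q a natural number not divisible by p, and e the multiplicative order of q modulo p. For a natural number f, p divides the value at q of the f-th cyclotomic polynomial if and only if f = e·p^j for some j ≥ 0. -/
theorem result (p q f : ℕ) (hp : p.Prime) (hp2 : p ≠ 2) (hpq : ¬ p ∣ q) :
    ((p : ℤ) ∣ (Polynomial.cyclotomic f ℤ).eval (q : ℤ)) ↔ ∃ j : ℕ, f = orderOf (q : ZMod p) * p ^ j := by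
  open Polynomial in
  haveI := Fact.mk hp
  have hq : (q : ZMod p) ≠ 0 := by rwa [Ne, ZMod.natCast_eq_zero_iff]
  have ho : orderOf (q : ZMod p) ∣ p - 1 := ZMod.orderOf_dvd_card_sub_one hq
  have hp1 : 0 < p - 1 := by have := hp.two_le; omega
  have ho0 : orderOf (q : ZMod p) ≠ 0 := fun h => by rw [h, Nat.zero_dvd] at ho; omega
  have hnd : ¬ p ∣ orderOf (q : ZMod p) := fun h => by
    have := Nat.le_of_dvd hp1 (h.trans ho); omega
  have e : ((p : ℤ) ∣ (cyclotomic f ℤ).eval (q : ℤ)) ↔ (cyclotomic f (ZMod p)).IsRoot (q : ZMod p) := by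
    rw [← ZMod.intCast_zmod_eq_zero_iff_dvd, IsRoot, ← map_cyclotomic_int f (ZMod p), eval_map]
    have : (q : ZMod p) = Int.castRingHom (ZMod p) (q : ℤ) := by simp
    rw [this, eval₂_at_apply]; rfl
  rw [e]
  by_cases hf : f = 0
  · subst hf
    simp only [cyclotomic_zero, IsRoot.def, eval_one, one_ne_zero, false_iff, not_exists]
    exact fun j h => (Nat.mul_ne_zero ho0 (pow_ne_zero j hp.ne_zero)) h.symm
  obtain ⟨j, m, hm, rfl⟩ := Nat.exists_eq_pow_mul_and_not_dvd hf p hp.ne_one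
  haveI : NeZero (m : ZMod p) := ⟨by rwa [Ne, ZMod.natCast_eq_zero_iff]⟩
  rw [isRoot_cyclotomic_prime_pow_mul_iff_of_charP, IsPrimitiveRoot.iff_orderOf]
  constructor
  · rintro rfl; exact ⟨j, mul_comm _ _⟩
  · rintro ⟨i, hi⟩
    have c1 := (Nat.Prime.coprime_iff_not_dvd hp).2 hm
    have c2 := (Nat.Prime.coprime_iff_not_dvd hp).2 hnd
    refine Nat.dvd_antisymm ?_ ?_
    · exact (c2.symm.pow_right j).dvd_of_dvd_mul_left (hi ▸ dvd_mul_right _ _)
    · exact (c1.symm.pow_right i).dvd_of_dvd_mul_right (hi ▸ dvd_mul_left _ _)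

end Cfsg.Agent.S4230
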