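import Cfsg.Statements.S4234
import Cfsg.Agent.Lib.PSL2.SmallIso
import Cfsg.Agent.Lib.PSL2.Maximal
import Cfsg.Agent.Lib.PSL2.SL

set_option autoImplicit false
open Cfsg

namespace Cfsg.Agent.S4234

open Cfsg.Lib.PSL2 Cfsg.Lib.Small Matrix MulAction Subgroup
open scoped MatrixGroups

/-- Every non-normal subgroup has a maximal normalizer. -/
def MaxN (G : Type*) [Group G] : Prop :=
  ∀ H : Subgroup G, ¬ H.Normal → IsCoatom (normalizer (H : Set G))

theorem MaxN.of_surj {G G' : Type*} [Group G] [Group G'] [Finite G] (h : MaxN G') {f : G →* G'}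
    (hf : Function.Surjective f)
    (hN : ∀ (H : Subgroup G) (g x : G), x ∈ H → f (g * x * g⁻¹) ∈ H.map f → g * x * g⁻¹ ∈ H) :
    MaxN G := by
  intro H hH
  have e : normalizer (H : Set G) = (normalizer (H.map f : Set G')).comap f := by
    refine le_antisymm ?_ fun g hg => Subgroup.mem_normalizer_fintype fun x hx => hN H g x hx ?_
    · exact Subgroup.map_le_iff_le_comap.1 (Subgroup.le_normalizer_map f)
    · rw [map_mul, map_mul, map_inv]
      exact (Subgroup.mem_normalizer_iff.1 hg _).1 (Subgroup.mem_map_of_mem f hx)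
  rw [e]
  refine Subgroup.isCoatom_comap_of_surjective hf (h _ fun hn => hH ?_)
  rw [← Subgroup.normalizer_eq_top_iff, e, Subgroup.normalizer_eq_top_iff.2 hn, Subgroup.comap_top]

variable {F : Type*} [Field F] [Finite F]

theorem psl [CharP F 13] (hF : Nat.card F = 13) : MaxN PSL(2, F) := by
  haveI : Fact (Nat.Prime 13) := ⟨by norm_num⟩
  haveI := isSimpleGroup_psl (F := F) (by omega)
  have hq : Odd (Nat.card F) := by rw [hF]; decide
  have cG : Nat.card PSL(2, F) = 1092 := card_psl_of_eq hF (by norm_num)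
  intro H hH
  have h0 : H ≠ ⊥ := by rintro rfl; exact hH inferInstance
  have h1 : H ≠ ⊤ := by rintro rfl; exact hH inferInstance
  suffices ∃ M, IsCoatom M ∧ M ≤ normalizer (H : Set PSL(2, F)) by
    obtain ⟨M, m1, m2⟩ := this
    rwa [← IsCoatom.eq_of_le' m1 m2 (normalizer_ne_top_of_simple h0 h1)]
  have dih : ∀ {a b : P1 (AlgebraicClosure F)} {m : ℕ}, TorusPair F a b m → IsCoatom (dihL F a b) := by
    intro a b m h
    rcases h.eq_or_eq with rfl | rfl
    · exact h.isCoatom_dihL_split (by rw [hF]; decide)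
    · exact h.isCoatom_dihL_nonsplit (by omega) (by omega) (by omega)
  have alt : ∀ {M : Subgroup PSL(2, F)}, Nonempty (M ≃* alternatingGroup (Fin 4)) → IsCoatom M :=
    fun ⟨e⟩ => isCoatom_of_equiv_alt_four (by rw [hF]; norm_num) (by omega) (by omega) (by omega) e
  by_cases hc : (Nat.card H).Coprime 13
  swap
  · rw [coprime_card_iff_inf_unipL] at hc
    push Not at hc
    obtain ⟨x, hx⟩ := hc
    have hU : unipL x ≤ H := by
      have := (Nat.dvd_prime (by norm_num : Nat.Prime 13)).1
        (hF ▸ card_unipL x ▸ Subgroup.card_dvd_of_le (inf_le_right : H ⊓ unipL x ≤ _))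
      rcases this with h | h
      · exact absurd (Subgroup.card_eq_one.1 h) hx
      · exact inf_eq_right.1 (Subgroup.eq_of_le_of_card_ge inf_le_right (by rw [h, card_unipL, hF]))
    have hS : H ≤ stabilizer PSL(2, F) x := by_contra fun h => h1 (eq_top_of_unipL_le hU h)
    refine ⟨_, isCoatom_stabilizerL x, fun g hg => Subgroup.mem_normalizer_fintype fun y hy => ?_⟩
    have : g * y * g⁻¹ * y⁻¹ ∈ unipL x := by
      have a1 : toP g ∈ stabilizer PGL(2, F) x := by
        rw [mem_stabilizer_iff, ← psl_smul_eq]; exact hg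
      have a2 : toP y ∈ stabilizer PGL(2, F) x := by
        rw [mem_stabilizer_iff, ← psl_smul_eq]; exact hS hy
      have := (mult_eq_one_iff (g := ⟨_, a1⟩ * ⟨_, a2⟩ * ⟨_, a1⟩⁻¹ * ⟨_, a2⟩⁻¹)).1 (by
        simp only [map_mul, map_inv]
        rw [mul_comm (mult x _) (mult x ⟨_, a2⟩)]; simp)
      rw [mem_unipL]
      simpa using this
    simpa using H.mul_mem (hU this) hy
  have d := Subgroup.card_subgroup_dvd_card H
  rw [cG] at d
  rcases dickson_psl_coprime (AlgebraicClosure F) 13 H hc with ⟨a, b, m, t, hle⟩ | h | ⟨⟨e⟩⟩ | ⟨⟨e⟩⟩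
  rotate_left
  · exact ⟨H, alt h, Subgroup.le_normalizer⟩
  · rw [Nat.card_congr e.toEquiv, card_perm_four] at d; norm_num at d
  · rw [Nat.card_congr e.toEquiv, card_alt_five] at d; norm_num at d
  have cD : Nat.card (dihL F a b) = m := by
    have := t.card_dihL_mul
    rw [hF] at this
    norm_num at this
    omega
  have cyc : IsCyclic H → ∃ M, IsCoatom M ∧ M ≤ normalizer (H : Set PSL(2, F)) := by
    intro hcyc
    obtain ⟨g, rfl⟩ := (Subgroup.isCyclic_iff_exists_zpowers_eq_top H).1 hcyc
    obtain ⟨a', b', m', t', hg⟩ := exists_mem_torusL_of_coprime (AlgebraicClosure F) 13 (g := g)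
      (by rwa [Nat.card_zpowers] at hc)
    exact ⟨_, dih t', (normalizer_of_le_torusL t'.ne (Subgroup.zpowers_le_of_mem hg) h0).ge⟩
  have idx : Nat.card H * H.relIndex (dihL F a b) = m := by
    rw [← cD, Subgroup.relIndex, ← Subgroup.card_mul_index (H.subgroupOf (dihL F a b)),
      Nat.card_congr (Subgroup.subgroupOfEquivOfLe hle).toEquiv]
  have nrm : H.relIndex (dihL F a b) = 1 ∨ H.relIndex (dihL F a b) = 2 →
      ∃ M, IsCoatom M ∧ M ≤ normalizer (H : Set PSL(2, F)) := by
    intro h
    refine ⟨_, dih t, (Subgroup.normal_subgroupOf_iff_le_normalizer hle).1 ?_⟩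
    exact h.elim Subgroup.normal_of_index_eq_one Subgroup.normal_of_index_eq_two
  have pr : (Nat.card H).Prime → ∃ M, IsCoatom M ∧ M ≤ normalizer (H : Set PSL(2, F)) := fun h => by
    haveI := Fact.mk h
    exact cyc (isCyclic_of_prime_card rfl)
  have c1 : Nat.card H ≠ 1 := fun h => h0 (Subgroup.card_eq_one.1 h)
  have hm : m = 12 ∨ m = 14 := by have := t.eq_or_eq; omega
  have : Nat.card H = 4 ∨ (Nat.card H).Prime ∨ H.relIndex (dihL F a b) = 1 ∨
      H.relIndex (dihL F a b) = 2 := by
    generalize Nat.card H = u at *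
    generalize H.relIndex (dihL F a b) = v at *
    have u1 : u ≤ 14 := by
      have := Nat.le_of_dvd t.pos (Dvd.intro _ idx)
      omega
    interval_cases u <;> first | omega | norm_num
  rcases this with h | h | h
  · by_cases hcyc : IsCyclic H
    · exact cyc hcyc
    · exact ⟨_, alt (equiv_normalizer_four_psl_alt (by omega) 
        ⟨h, by
          haveI : Nontrivial H := (Subgroup.nontrivial_iff_ne_bot H).2 h0
          exact (not_isCyclic_iff_exponent_eq_prime Nat.prime_two (by simpa using h)).1 hcyc⟩), le_rfl⟩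
  · exact pr h
  · exact nrm h

theorem sl [CharP F 13] (hF : Nat.card F = 13) : MaxN SL(2, F) := by
  refine (psl hF).of_surj toL_surjective fun H g x hx hm => ?_
  have h2 : (2 : F) ≠ 0 := two_ne_zero_iff_odd.2 (by rw [hF]; decide)
  obtain ⟨y, hy, e⟩ := hm
  rcases toL_eq_iff.1 e with e | e
  · exact e ▸ hy
  by_cases h : 2 ∣ Nat.card H
  · have := H.mul_mem (neg_one_mem_of_even h2 h) hy
    rwa [e, neg_mul, one_mul, neg_neg] at this
  · have ho : Odd (Nat.card H) := Nat.odd_iff.2 (Nat.two_dvd_ne_zero.1 h)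
    have a1 : y ^ Nat.card H = 1 := orderOf_dvd_iff_pow_eq_one.1 (H.orderOf_dvd_natCard hy)
    have a2 : x ^ Nat.card H = 1 := orderOf_dvd_iff_pow_eq_one.1 (H.orderOf_dvd_natCard hx)
    rw [e, ho.neg_pow, conj_pow, a2] at a1
    exact absurd (by simpa using a1) (sl_neg_one_ne_one h2)

/-- Let K be isomorphic to PSL(2, 13) or to SL(2, 13) and let S be a finite abelian group of order coprime to the order of K. Then in the direct product K × S every subgroup that is not normal has a normalizer that is a maximal subgroup. -/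
theorem result {K S : Type*} [Group K] [CommGroup S] [Finite K] [Finite S]
    (hK : Nonempty (K ≃* Matrix.ProjectiveSpecialLinearGroup (Fin 2) (ZMod 13)) ∨
      Nonempty (K ≃* Matrix.SpecialLinearGroup (Fin 2) (ZMod 13)))
    (hKS : (Nat.card K).Coprime (Nat.card S)) (H : Subgroup (K × S)) (hH : ¬ H.Normal) :
    IsCoatom (Subgroup.normalizer (H : Set (K × S))) := by
  haveI : Fact (Nat.Prime 13) := ⟨by norm_num⟩
  have h1 : MaxN K := by
    rcases hK with ⟨⟨e⟩⟩ | ⟨⟨e⟩⟩
    · refine (psl (F := ZMod 13) (Nat.card_zmod 13)).of_surj (f := e.toMonoidHom) e.surjective ?_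
      rintro H g x - ⟨y, hy, h⟩
      exact e.injective h ▸ hy
    · refine (sl (F := ZMod 13) (Nat.card_zmod 13)).of_surj (f := e.toMonoidHom) e.surjective ?_
      rintro H g x - ⟨y, hy, h⟩
      exact e.injective h ▸ hy
  refine h1.of_surj (f := MonoidHom.fst K S) Prod.fst_surjective ?_ H hH
  have key : ∀ (H : Subgroup (K × S)) (x : K × S), x ∈ H → (x.1, 1) ∈ H := by
    intro H x hx
    obtain ⟨m, hm⟩ := exists_pow_eq_self_of_coprime (x := x.1) (n := Nat.card S)
      (hKS.symm.coprime_dvd_right (orderOf_dvd_natCard _))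
    have := H.pow_mem (H.pow_mem hx (Nat.card S)) m
    convert this using 1
    exact Prod.ext hm.symm (by simp)
  rintro H g x hx ⟨y, hy, e⟩
  have := H.mul_mem (key H y hy) (H.mul_mem (H.inv_mem (key H x hx)) hx)
  convert this using 1
  refine Prod.ext ?_ (by simp)
  simpa using e.symm

end Cfsg.Agent.S4234
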