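import Cfsg.Statements.S4235
import Cfsg.Agent.Lib.BS.Cor
import Cfsg.Agent.Lib.GW.Basic
import Cfsg.Agent.Lib.Frobenius.Compl
import Cfsg.Agent.Lib.FGS.ClassFour
import Cfsg.Agent.Lib.PSL2.SmallIso
import Cfsg.Agent.Lib.Inv.RankOneS

set_option autoImplicit false
open scoped Pointwise
open Cfsg

namespace Cfsg.Agent.S4235
open Cfsg.Lib.Inv

open Subgroup Cfsg.Lib Cfsg.Lib.BG Cfsg.Lib.Transfer Cfsg.Lib.BS

/-- Let G be a finite group. Call a subgroup maximal solvable if it is solvable and not properly contained in a solvable subgroup. Suppose F assigns to each maximal solvable subgroup M a normal subgroup F(M) of M such that: every element of M outside F(M) centralizes no non-identity element of F(M); F(M) meets each conjugate g F(M) g⁻¹ with g outside M trivially; and F(M) is nontrivial unless M is abelian. Then G is solvable, or G is isomorphic to SL(2, K) for a finite field K of characteristic 2 with at least 4 elements, or G is isomorphic to a Suzuki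 group. -/
theorem result {G : Type*} [Group G] [Finite G] (F : Subgroup G → Subgroup G)
    (h : ∀ M : Subgroup G, (Group.IsSolvable M ∧ ∀ M' : Subgroup G, M < M' → ¬ Group.IsSolvable M') →
      F M ≤ M ∧ M ≤ Subgroup.normalizer (F M : Set G) ∧
      (∀ a ∈ M, a ∉ F M → ∀ x ∈ F M, x * a = a * x → x = 1) ∧
      (∀ g : G, g ∉ M → F M ⊓ (MulAut.conj g • F M) = ⊥) ∧
      (F M ≠ ⊥ ∨ IsMulCommutative M)) :
    Group.IsSolvable G ∨
      (∃ (K : Type) (_ : Field K) (_ : Fintype K), (∃ n : ℕ, 2 ≤ n ∧ Fintype.card K = 2 ^ n) ∧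
        Nonempty (G ≃* Matrix.SpecialLinearGroup (Fin 2) K)) ∨
      Cfsg.Lie.IsoSuzuki G := by
  by_cases hs : Group.IsSolvable G
  · exact Or.inl hs
  right
  obtain ⟨S⟩ : Nonempty (Sylow 2 G) := inferInstance
  have hNS : Group.IsSolvable 𝐍((S : Subgroup G)) := by
    haveI : (S.subtype le_normalizer : Subgroup 𝐍((S : Subgroup G))).Normal := normal_in_normalizer
    haveI := (S.subtype le_normalizer).isPGroup'.isNilpotent
    haveI : Group.IsSolvable (𝐍((S : Subgroup G)) ⧸ (S.subtype le_normalizer : Subgroup 𝐍((S : Subgroup G)))) :=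
      Coprime.isSolvable_of_not_two_dvd (S.subtype le_normalizer).not_dvd_index
    exact Group.isSolvable_of_ker_le_range (S.subtype le_normalizer : Subgroup 𝐍((S : Subgroup G))).subtype
      (QuotientGroup.mk' (S.subtype le_normalizer : Subgroup 𝐍((S : Subgroup G))))
      (by rw [QuotientGroup.ker_mk', range_subtype])
  obtain ⟨M, hSM, hM⟩ := Finite.exists_le_maximal (p := fun X : Subgroup G => Group.IsSolvable X) hNS
  have hmax : ∀ M' : Subgroup G, M < M' → ¬ Group.IsSolvable M' := fun M' hlt h' => hlt.not_ge (hM.2 h' hlt.le)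
  obtain ⟨h1, h2, h3, h4, h5⟩ := h M ⟨hM.1, hmax⟩
  generalize F M = A at h1 h2 h3 h4 h5
  have hM1 : M ≠ ⊤ := fun e => hs (by
    have := hM.1
    rw [e] at this
    exact Group.isSolvable_of_surjective (f := (⊤ : Subgroup G).subtype) fun x => ⟨⟨x, trivial⟩, rfl⟩)
  have h4' : ∀ x ∈ A, x ≠ 1 → ∀ g : G, g * x * g⁻¹ ∈ A → g ∈ M := fun x hx hx1 g hg => by
    by_contra hgM
    have : g * x * g⁻¹ ∈ A ⊓ MulAut.conj g • A := ⟨hg, smul_mem_pointwise_smul _ _ _ hx⟩
    rw [h4 g hgM, mem_bot] at this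
    exact hx1 (by simpa using this)
  have hA : A ≠ ⊥ := h5.resolve_right fun hc => hs (FGS.isSolvable_of_hasNormalPComplement_two
    ⟨S, _, inferInstance, MonoidHom.ker_transferSylow_isComplement' S
      (abelian_cent' hc hSM (le_normalizer.trans hSM))⟩)
  have hrad : ∀ N : Subgroup G, N.Normal → Group.IsSolvable N → N = ⊥ := by
    intro N hN hNs
    by_contra h0
    have hn : (⊤ : Subgroup G) ≤ 𝐍(𝐙(𝐅(N))) := norm_center (norm_Fitting le_normalizer_of_normal)
    have hne := center_ne_bot_of_nil (Fitting_nil N) (Fitting_ne_bot hNs h0)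
    have hab := abelian_center 𝐅(N)
    generalize 𝐙(𝐅(N)) = Z at hn hne hab
    have hZM : Z ≤ M := le_sup_left.trans (hM.2 (GW.sol_sup (abelian_sol hab) hM.1 (le_top.trans hn)) le_sup_right)
    have hZA : Z ≤ A := by
      intro a ha
      by_contra haA
      obtain ⟨x, hx, hx1⟩ := exists_ne_one hA
      have hy : x * a * x⁻¹ * a⁻¹ ∈ Z := mul_mem (conj_mem_of_norm (hn (mem_top x)) ha) (inv_mem ha)
      have hy' : x * a * x⁻¹ * a⁻¹ ∈ A := by
        have := mul_mem hx (conj_mem_of_norm (h2 (hZM ha)) (inv_mem hx))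
        simpa [mul_assoc] using this
      have := h3 a (hZM ha) haA _ hy' (abelian_cent hab ha _ hy)
      rw [mul_inv_eq_one, mul_inv_eq_iff_eq_mul] at this
      exact hx1 (h3 a (hZM ha) haA x hx this)
    obtain ⟨z, hz, hz1⟩ := exists_ne_one hne
    exact hM1 (eq_top_iff.2 fun g _ => h4' z (hZA hz) hz1 g (hZA (conj_mem_of_norm (hn (mem_top g)) hz)))
  have hO : oddCore G = ⊥ := hrad _ inferInstance
    (Coprime.isSolvable_of_not_two_dvd (Core.odd_card_oddCore G).not_two_dvd_nat)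
  have hr : Rk2 G := by
    by_contra hr
    obtain ⟨z, hz⟩ := exists_prime_orderOf_dvd_card' (G := G) 2 (by
      by_contra hh; exact hs (Coprime.isSolvable_of_not_two_dvd hh))
    have := sup_centralizer_of_not_rk2 hr hz
    rw [hO, bot_sup_eq] at this
    have := hrad (zpowers z) (normalizer_eq_top_iff.1 (eq_top_iff.2 (norm_of_cent (by rw [cent_zpowers, this]))))
      (abelian_sol (abelian_of_cyclic inferInstance))
    exact ne_one_of_orderOf hz (zpowers_eq_bot.1 this)
  have hreg : ∀ R ≤ M, R ⊓ A = ⊥ → SemiReg A R := fun R hR hRA x hx hx1 =>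
    eq_bot_iff.2 fun y hy => h3 x (hR hx) (fun hxA => hx1 (mem_bot.1 (hRA ▸ ⟨hx, hxA⟩))) y hy.1 (mem_cent1.1 hy.2)
  have hev : Even (Nat.card A) := by
    by_contra ho
    have hF := Frobenius.fpf_of_semiReg hA ((le_normalizer.trans hSM).trans h2) (hreg S (le_normalizer.trans hSM)
      ((PiGrp.of_pgroup S.isPGroup' (Set.mem_singleton 2)).inf_eq_bot (PiGrp.p'_iff.2 (by rwa [← even_iff_two_dvd]))))
    obtain ⟨x, y, hx, hy, hxy, hx2, hy2, hc⟩ := hr
    have ox := orderOf_eq_prime (p := 2) (by rw [pow_two, hx2]) hx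
    have oy := orderOf_eq_prime (p := 2) (by rw [pow_two, hy2]) hy
    obtain ⟨g, -, hg⟩ := (Syl.of_sylow_top S).exists_conj_le (Q := zpowers x ⊔ zpowers y)
      (pgroup_sup (IsPGroup.of_card (n := 1) (by rw [Nat.card_zpowers, ox, pow_one]))
        (IsPGroup.of_card (n := 1) (by rw [Nat.card_zpowers, oy, pow_one]))
        (norm_of_cent (by rw [cent_zpowers, zpowers_le, mem_cent1, hc]))) le_top
    have := hF.inv_unique (s := ⟨_, hg (conj_mem_conj.2 (mem_sup_left (mem_zpowers x)))⟩)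
      (t := ⟨_, hg (conj_mem_conj.2 (mem_sup_right (mem_zpowers y)))⟩)
      (by rw [← Subgroup.orderOf_coe, orderOf_conj', ox]) (by rw [← Subgroup.orderOf_coe, orderOf_conj', oy])
    exact hxy (by simpa using this)
  have hinv : ∀ u ∈ M, orderOf u = 2 → u ∈ A := fun u hu ho => by
    by_contra huA
    have := regular_norm_coprime ((zpowers_le.2 hu).trans h2) (hreg _ (zpowers_le.2 hu)
      (inf_eq_bot_of_prime (by rw [Nat.card_zpowers, ho]; exact Nat.prime_two) (by rwa [zpowers_le])))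
    rw [Nat.card_zpowers, ho, Nat.coprime_two_right] at this
    exact Nat.not_even_iff_odd.2 this hev
  have hse : IsStronglyEmbedded M := se_iff.2 ⟨hM1, hev.trans_dvd (card_dvd h1), fun t g ht htM hg =>
    h4' t (hinv t htM ht) (ne_one_of_orderOf ht) g (hinv _ hg (by rw [orderOf_conj', ht]))⟩
  have hc : M.normalCore = ⊥ := by rw [se_normalCore_eq hse hr, hO]
  obtain ⟨Q, D, t, ho⟩ := exists_ro hse hr hc
  obtain ⟨Q₀, K, s, r, hR⟩ := ho.exists_RS hr
  have hV : ∀ d ∈ D, d * s = s * d → d = 1 := fun d hd e => by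
    have hdA : d ∈ A := by
      by_contra hdA
      exact hR.s_ne_one (h3 d (ho.D_le hd) hdA s (hinv s hR.sH hR.so) e.symm)
    by_contra hd1
    refine ho.tH (h4' d hdA hd1 t ?_)
    rwa [← (hR.V_iff hd).2 e, mul_inv_cancel_right]
  obtain ⟨L, ht, -, -, -, hQL, hKL, -, hLs, -⟩ := exists_simple hR hc
  have hML : M ≤ L := fun g hg => by
    obtain ⟨q, hq, d, hd, rfl⟩ := ho.exists_QD hg
    obtain ⟨k, hk, v, hv, ev, rfl⟩ := hR.exists_kv hd
    rw [hV v hv ((hR.V_iff hv).1 ev), mul_one]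
    exact mul_mem (hQL hq) (hKL hk)
  have hL : L = ⊤ := eq_top_iff.2 fun g _ => by
    by_cases hg : g ∈ M
    · exact hML hg
    · obtain ⟨a, ha, q, hq, rfl⟩ := ho.canon g hg
      exact mul_mem (mul_mem (hML ha) ht) (hQL hq)
  subst hL
  haveI : IsSimpleGroup G := (Subgroup.topEquiv (G := G)).symm.isSimpleGroup
  obtain ⟨h2, ⟨e, -⟩ | ⟨hna, e, -⟩ | ⟨-, -, -, hW⟩⟩ := concl hR
  · obtain ⟨E, _, _, n, h1, h4, -, ⟨e5⟩⟩ := idA hR e
    obtain ⟨e6⟩ := PSL2.equiv_sl_psl_of_even (F := E) (by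
      rw [Nat.card_eq_fintype_card, h4, Nat.not_odd_iff_even]; exact Nat.even_pow.2 ⟨even_two, by omega⟩)
    exact Or.inl ⟨E, _, _, ⟨n, h1, h4⟩, ⟨e5.trans e6.symm⟩⟩
  · obtain ⟨-, E, _, _, n, h1, h4, -, h5⟩ := idB hR h2 hna e
    exact Or.inr ⟨E, _, _, n, h1, h4, h5⟩
  · refine absurd (fun d hd => ?_) hW
    rw [hV d hd.1 (hd.2 s hR.sQ0).symm]
    exact one_mem _

end Cfsg.Agent.S4235
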