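import Cfsg.Statements.S4236
import Cfsg.Agent.Lib.Small.SylNum2

set_option autoImplicit false
open Cfsg

namespace Cfsg.Agent.S4236

/-- No finite group has exactly 35 Sylow 17-subgroups. -/
theorem result {G : Type*} [Group G] [Finite G] : Nat.card (Sylow 17 G) ≠ 35 := by
  intro h
  haveI := Fact.mk (by norm_num : Nat.Prime 17)
  have := Cfsg.Lib.Small.dvd_of_card_sylow (p := 17) (n := 2) h two_ne_zero (by decide +kernel) (by norm_num)
    (Cfsg.Lib.Cyc.eq_of_lt (by norm_num) (by norm_num))
  norm_num at this

end Cfsg.Agent.S4236
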