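import Cfsg.Statements.S4237
import Cfsg.Agent.Lib.BG.Hall
import Cfsg.Agent.Lib.FGS.Kulakoff2

set_option autoImplicit false
open Cfsg

namespace Cfsg.Agent.S4237

/-- Let G be a finite group, p a prime and a a natural number such that p^(a+1) divides the order of G. Then the number of subgroups of G of order p^a is congruent to 1 or to 1 + p modulo p². -/
theorem result {G : Type*} [Group G] [Finite G] (p a : ℕ) (hp : p.Prime) (hdvd : p ^ (a + 1) ∣ Nat.card G) :
    Nat.card {H : Subgroup G // Nat.card H = p ^ a} ≡ 1 [MOD p ^ 2] ∨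
      Nat.card {H : Subgroup G // Nat.card H = p ^ a} ≡ 1 + p [MOD p ^ 2] := by
  open Subgroup Cfsg.Lib Cfsg.Lib.BG Cfsg.Lib.Transfer in
  open Cfsg.Lib.FGS in
  haveI := Fact.mk hp
  rw [← nsub_top]
  by_cases h2 : p = 2
  · have := nsub_modEq_one_of_dvd (K := (⊤ : Subgroup G)) (k := a) (by rw [card_top]; exact (pow_dvd_pow p a.le_succ).trans hdvd)
    subst h2
    simp only [Nat.ModEq] at this ⊢
    omega
  obtain ⟨P⟩ : Nonempty (Sylow p G) := inferInstance
  obtain ⟨n, hn⟩ := P.isPGroup'.exists_card_eq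
  have h1 : a + 1 ≤ n := by
    rw [← Nat.pow_dvd_pow_iff_le_right hp.one_lt, ← hn]
    exact P.pow_dvd_card_of_pow_dvd_card hdvd
  obtain ⟨n, rfl⟩ : ∃ m, n = m + 1 := ⟨n - 1, by omega⟩
  have h3 := nsub_modEq_sylow (Syl.of_sylow_top P) hn (by omega : a ≤ n)
  by_cases hc : IsCyclic P
  · exact Or.inl (by rwa [nsub_of_isCyclic hc (hn ▸ pow_dvd_pow p (by omega))] at h3)
  rcases Nat.eq_zero_or_pos a with rfl | ha
  · exact Or.inl (by rw [pow_zero, nsub_one])
  refine Or.inr (h3.trans ((ZMod.natCast_eq_natCast_iff _ _ _).1 ?_))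
  rw [kulakoff hn hc (fun h => h2 h.1) ha (by omega)]
  simp

end Cfsg.Agent.S4237
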