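import Cfsg.Statements.S4238
import Cfsg.Agent.Lib.BG.Hall
import Cfsg.Agent.Lib.BG.Prod
import Cfsg.Agent.Lib.PGroup.RankTwo
import Cfsg.Agent.Lib.Transfer.Alperin

set_option autoImplicit false
open Cfsg

namespace Cfsg.Agent.S4238

/-- Let G be a finite group and p a prime. Then G has a normal p-complement if and only if every section K = H/N of G (N a normal subgroup of a subgroup H) whose largest normal subgroup of order prime to p is trivial contains an element whose order equals the exponent of K. -/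
theorem result {G : Type*} [Group G] [Finite G] (p : ℕ) [Fact p.Prime] :
    Cfsg.HasNormalPComplement p G ↔
      ∀ (H : Subgroup G) (N : Subgroup H) [N.Normal], Cfsg.pPrimeCore p (H ⧸ N) = ⊥ →
        ∃ k : H ⧸ N, orderOf k = Monoid.exponent (H ⧸ N) := by
  open Subgroup Cfsg.Lib Cfsg.Lib.BG Cfsg.Lib.Transfer in
  have hp : p.Prime := Fact.out
  refine ⟨fun h H N _ h1 => ?_, fun h => hasNormalPComplement_iff_normalizer_centralizer.2 fun Q hQ g hg hc => ?_⟩
  · have h2 := hasNormalPComplement_quotient (hasNormalPComplement_subgroup h H) N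
    have h3 : IsPGroup p (H ⧸ N) := IsPGroup.of_equiv (isPGroup_quotient_of_pResidual_le ⊥
      ((pResidual_eq_pPrimeCore h2).trans h1).le) QuotientGroup.quotientBot
    obtain ⟨k, hk⟩ := hp.exists_orderOf_eq_pow_factorization_exponent (H ⧸ N)
    obtain ⟨n, hn⟩ := h3.exists_card_eq
    obtain ⟨m, -, hm⟩ := (Nat.dvd_prime_pow hp).1 (hn ▸ Group.exponent_dvd_nat_card (G := H ⧸ N))
    exact ⟨k, by rw [hk, hm, hp.factorization_pow, Finsupp.single_eq_same]⟩
  obtain ⟨n, hn⟩ := hQ.exists_card_eq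
  have h1 := coprime_commGid (zpowers_le.2 hg) (by rw [Nat.card_zpowers, hn]; exact hc.pow_right n)
  have h2 : IsPGroup p ↥⁅Q, zpowers g⁆ := pgroup_of_le hQ (comm_le_left (zpowers_le.2 hg))
  have h3 := right_norm_comm Q (zpowers g)
  by_contra h4
  replace h4 : ⁅Q, zpowers g⁆ ≠ ⊥ := fun e => h4 (cent_symm (comm_eq_bot_iff.1 e) (mem_zpowers g))
  generalize ⁅Q, zpowers g⁆ = T at h1 h2 h3 h4
  specialize h (T ⊔ zpowers g)
  have h5 : T ⊔ zpowers g ≤ 𝐍(T) := sup_le (le_norm T) h3
  have hT : T ≤ T ⊔ zpowers g := le_sup_left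
  have h6 : g ∈ T ⊔ zpowers g := mem_sup_right (mem_zpowers g)
  have h7 : T.subgroupOf (T ⊔ zpowers g) ⊔ zpowers ⟨g, h6⟩ = ⊤ := map_injective (subtype_injective _) (by
    rw [Subgroup.map_sup, map_subgroupOf_eq_of_le hT, MonoidHom.map_zpowers, ← MonoidHom.range_eq_map, range_subtype]; rfl)
  generalize T ⊔ zpowers g = H at h h5 hT h6 h7
  haveI := (normal_subgroupOf_iff_le_normalizer hT).2 h5
  replace h1 : ⁅T.subgroupOf H, zpowers ⟨g, h6⟩⁆ = T.subgroupOf H := map_injective (subtype_injective _) (by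
    rw [map_commutator, map_subgroupOf_eq_of_le hT, MonoidHom.map_zpowers]; exact h1)
  replace h2 : IsPGroup p (T.subgroupOf H) := h2.of_equiv (subgroupOfEquivOfLe hT).symm
  replace h4 : ¬ T.subgroupOf H ≤ ⊥ := fun e => h4 (by
    rw [← map_subgroupOf_eq_of_le hT, le_bot_iff.1 e, Subgroup.map_bot])
  rw [← orderOf_mk g h6] at hc
  generalize T.subgroupOf H = T at *
  generalize (⟨g, h6⟩ : H) = g at *
  obtain ⟨N, ⟨hN, h8⟩, hmax⟩ := Set.Finite.exists_maximal (s := {N : Subgroup H | N.Normal ∧ ¬ T ≤ N}) (Set.toFinite _)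
    ⟨⊥, inferInstance, h4⟩
  let f := QuotientGroup.mk' N
  have h9 : ∀ M : Subgroup (H ⧸ N), M.Normal → M ≠ ⊥ → T.map f ≤ M := fun M hM e => map_le_iff_le_comap.2 (by_contra
    fun e' => e (by
      rw [← map_comap_eq_self_of_surjective (QuotientGroup.mk'_surjective N) M, Subgroup.map_eq_bot_iff, QuotientGroup.ker_mk']
      exact hmax ⟨hM.comap f, e'⟩ (QuotientGroup.le_comap_mk' N M)))
  have h10 : T.map f ≠ ⊥ := by rwa [Ne, Subgroup.map_eq_bot_iff, QuotientGroup.ker_mk']
  haveI : (T.map f).Normal := Normal.map inferInstance f (QuotientGroup.mk'_surjective N)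
  replace h2 := h2.map f
  replace h1 := congrArg (map f) h1
  replace h7 := congrArg (map f) h7
  rw [map_commutator, MonoidHom.map_zpowers] at h1
  rw [Subgroup.map_sup, MonoidHom.map_zpowers, map_top_of_surjective _ (QuotientGroup.mk'_surjective N)] at h7
  replace hc := hc.coprime_dvd_left (orderOf_map_dvd f g)
  generalize T.map f = T at *
  generalize f g = g at *
  have hpT := pgroup_dvd_card h2 h10
  obtain ⟨k, hk⟩ := h N (by_contra fun e => hp.one_lt.ne' ((Nat.coprime_self _).1 ((Core.pPrimeCore_coprime p _).coprime_dvd_left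
    (hpT.trans (card_dvd (h9 _ inferInstance e))))))
  have h11 : p ∣ orderOf k := by
    obtain ⟨x, hx⟩ := exists_prime_orderOf_dvd_card' p (hpT.trans T.card_subgroup_dvd_card)
    exact hk ▸ hx ▸ Monoid.order_dvd_exponent x
  have h12 : T.index ∣ orderOf g := by
    rw [← relIndex_top_right, ← h7, relIndex_sup_left, ← Nat.card_zpowers]; exact BG.relIndex_dvd_card _ _
  have h13 : T ⊔ zpowers k = ⊤ := by
    obtain ⟨a, ha⟩ := (pgroup_of_le h2 (inf_le_left (b := zpowers k))).exists_card_eq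
    have h14 : orderOf g ∣ p ^ a * T.relIndex (zpowers k) := by
      rw [← ha, PGroup.card_inf_mul_relIndex, Nat.card_zpowers, hk]; exact Monoid.order_dvd_exponent g
    refine eq_top_of_le_card _ ?_
    rw [← BG.card_mul_relIndex (le_sup_left : T ≤ T ⊔ zpowers k), relIndex_sup_left, ← T.card_mul_index]
    exact Nat.mul_le_mul_left _ (Nat.le_of_dvd (Nat.pos_of_ne_zero index_ne_zero_of_finite)
      (h12.trans ((hc.pow_right a).dvd_of_dvd_mul_left h14)))
  have h14 := orderOf_pow_orderOf_div (orderOf_pos k).ne' h11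
  have h15 : k ^ (orderOf k / p) ∈ T := by
    have := T.pow_index_mem (k ^ (orderOf k / p))
    exact zpowers_le.2 this (mem_zpowers_pow_iff.2 (h14.symm ▸ hc.coprime_dvd_left h12))
  have h16 : T ≤ 𝐂(T) := (h9 _ inferInstance (PGroup.inf_centralizer_ne_bot h2 h2 (le_norm T) h10)).trans inf_le_right
  have h17 : zpowers (k ^ (orderOf k / p)) ≤ center (H ⧸ N) := by
    rw [← centralizer_univ, ← coe_top, ← h13, cent_sup]
    exact zpowers_le.2 ⟨h16 h15, abelian_cent inferInstance (npow_mem_zpowers k _)⟩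
  refine h10 (h1 ▸ comm_eq_bot_iff.2 (((h9 _ (PGroup.normal_of_le_center h17) ?_).trans h17).trans (center_le_centralizer _)))
  rw [Ne, zpowers_eq_bot, ← orderOf_eq_one_iff, h14]
  exact hp.one_lt.ne'

end Cfsg.Agent.S4238
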