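import Cfsg.Statements.S4240
import Cfsg.Agent.Lib.HH.MaxInv

set_option autoImplicit false
open Cfsg

namespace Cfsg.Agent.S4240

open Subgroup Cfsg.Lib Cfsg.Lib.BG Cfsg.Lib.Transfer in
theorem sol_aux.{u} (n : ℕ) : ∀ (G : Type u) [Group G] [Finite G] (X A : Subgroup G), Nat.card X = n → A ≤ 𝐍(X) →
    (Nat.card A).Coprime (Nat.card X) → (∀ H < X, A ≤ 𝐍(H) → Group.IsNilpotent H) → Group.IsSolvable X := by
  induction n using Nat.strong_induction_on with
  | _ n ih =>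
  intro G _ _ X A hn hA hco h
  by_cases h0 : ∃ N < X, X ≤ 𝐍(N) ∧ A ≤ 𝐍(N) ∧ N ≠ ⊥
  · obtain ⟨N, h4, h1, h2, h3⟩ := h0
    have n1 : Nml N X := ⟨h4.le, h1⟩
    have := ih _ (hn ▸ card_quo_mul n1 ▸ lt_mul_of_one_lt_left Nat.card_pos (one_lt_card_iff_ne_bot N |>.2 h3)) _
      (quo X N) (quo A N) rfl (quo_norm hA N) (coprime_quo hco N) fun H a b => quo_copre H ▸ nil_quo (h _
        ((copre_le_of_le_quo n1 a.le).lt_of_ne fun e => a.ne (by rw [← e, quo_copre])) (norm_copre h2 b)) N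
    exact copre_quo_of_le n1.le h1 ▸ sol_copre (nil_sol (h N h4 h2)) this
  by_cases h2 : IsPGroup 2 X
  · exact pgroup_sol h2
  simp only [← PiGrp.p_iff, PiGrp, PiNat, not_forall] at h2
  obtain ⟨p, hp, hd, h2⟩ := h2
  haveI := Fact.mk hp
  obtain ⟨P, hP, hAP⟩ := Syl.exists_inv (p := p) hA hco (Coprime.isSolvable_or_of_coprime hco)
  have h3 := hAP.trans (PLocal.normalizer_le_normalizer_centerThompsonOf (e := p) _)
  have h4 := PLocal.centerThompsonOf_le (e := p) P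
  rcases (inf_le_left (a := X) (b := 𝐍(centerThompsonOf p P))).eq_or_lt with e | e
  · exact pgroup_sol (pgroup_of_le hP.pgroup (le_trans ((h4.trans hP.le).eq_of_not_lt fun e' => h0 ⟨_, e',
      inf_eq_left.1 e, h3, PLocal.centerThompsonOf_ne_bot (.inr rfl) hP.pgroup (hP.ne_bot' hd)⟩).ge h4))
  have h5 := hasNormalPComplement_iff.1 (HH.npc_of_zj h2 hP le_rfl (h _ e (norm_inf hA (norm_norm h3))))
  have h6 : 𝐎({p}ᶜ, X) = ⊥ := by_contra fun e => h0 ⟨_, h5.le.lt_of_ne fun e => (e ▸ h5.pi).not_dvd hp rfl hd,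
    (pcore_nml _ _).norm, norm_pcore hA _, e⟩
  exact pgroup_sol (p := p) (PiGrp.pgroup (by simpa using h5.eq_bot_iff.1 h6))

open Subgroup Cfsg.Lib Cfsg.Lib.BG Cfsg.Lib.Transfer in
theorem struct {G : Type*} [Group G] [Finite G] {X A : Subgroup G} (hA : A ≤ 𝐍(X)) (hco : (Nat.card A).Coprime (Nat.card X))
    (h : ∀ H < X, A ≤ 𝐍(H) → Group.IsNilpotent H) (hX : ¬ Group.IsNilpotent X) : ∃ (p q : ℕ) (P Q : Subgroup G),
      p.Prime ∧ q.Prime ∧ p ≠ q ∧ IsPGroup p P ∧ Syl q Q X ∧ Q ≠ ⊥ ∧ X ≤ 𝐍(Q) ∧ Nat.card X = Nat.card Q * Nat.card P := by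
  have hs := sol_aux _ G X A rfl hA hco h
  obtain ⟨p, hp, hd⟩ := Nat.exists_prime_and_dvd (n := ⁅X, X⁆.relIndex X) fun e =>
    hX (abelian_nil (abelian_iff_der.2 (eq_bot_mono (by_contra fun e' =>
      (Coprime.commutator_lt_of_isSolvable hs e').not_ge (relIndex_eq_one.1 e)) (der_le X))))
  haveI := Fact.mk hp
  obtain ⟨H, hH, h1⟩ := Hall.exists_inv (π := {p}ᶜ) hA hco hs
  have h2 : Nml (⁅X, X⁆ ⊔ H) X := .of_der_le le_sup_left (sup_le (der_le X) hH.le)
  have h3 := h _ (h2.le.lt_of_ne fun e => (hH.pi.relIndex ⁅X, X⁆).not_dvd hp rfl (by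
    rwa [← Coprime.relIndex_sup_of_le_normalizer (norm_der (le_norm_of_le hH.le)), e])) (norm_sup (norm_der hA) h1)
  obtain ⟨P, hP, h4⟩ := Syl.exists_inv (p := p) hA hco (.inr hs)
  have key : ∀ q : ℕ, q.Prime → q ≠ p → Syl q 𝐎({q}, ⁅X, X⁆ ⊔ H) X := fun q hq e => (nil_pcore_Hall h3 {q}).trans_idx h2.le
    ((hH.idx.of_dvd (relIndex_dvd_left le_sup_right X)).mono (by simpa using e))
  by_contra! hn
  refine hX (Syl.nil_of_forall fun q hq hd => ?_)
  by_cases e : q = p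
  swap
  · exact ⟨_, key q hq e, (h2.pcore _).norm⟩
  refine ⟨P, e ▸ hP, Syl.le_of_forall fun r hr hd => ?_⟩
  by_cases e : r = p
  · exact ⟨P, e ▸ hP, le_norm P⟩
  haveI := Fact.mk hr
  have h5 := key r hr e
  have h6 := (h2.pcore {r}).norm
  refine ⟨_, h5, le_sup_left.trans ((hP.of_le le_sup_right (sup_le h5.le hP.le)).nml_of_nil (h _ ((sup_le h5.le hP.le).lt_of_ne
    fun e' => hn p r P _ hp hr (Ne.symm e) hP.pgroup h5 (h5.ne_bot' hd) h6 ?_)
    (norm_sup (norm_pcore (norm_sup (norm_der hA) h1) _) h4))).norm⟩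
  exact (congrArg (fun K : Subgroup G => Nat.card K) e').symm.trans
    (SD.of_coprime (hP.le.trans h6) (coprime_pgroups h5.pgroup hP.pgroup e)).card.symm

/-- Let a finite group A act by automorphisms on a finite group G of order coprime to that of A. Suppose every maximal A-invariant proper subgroup of G is nilpotent while G is not. Then G is solvable, the order of G has the form p^a·q^b for two distinct primes p and q, and G has a normal A-invariant Sylow subgroup for some prime dividing its order. -/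
theorem result {A G : Type*} [Group A] [Group G] [Finite A] [Finite G] [MulDistribMulAction A G]
    (hcop : (Nat.card A).Coprime (Nat.card G))
    (hmax : ∀ H : Subgroup G, H ≠ ⊤ → (∀ a : A, ∀ x ∈ H, a • x ∈ H) →
      (∀ K : Subgroup G, H < K → (∀ a : A, ∀ x ∈ K, a • x ∈ K) → K = ⊤) → Group.IsNilpotent H)
    (hG : ¬ Group.IsNilpotent G) :
    Group.IsSolvable G ∧
      (∃ p q a b : ℕ, p.Prime ∧ q.Prime ∧ p ≠ q ∧ Nat.card G = p ^ a * q ^ b) ∧
      ∃ (p : ℕ) (P : Sylow p G), p.Prime ∧ p ∣ Nat.card G ∧ (P : Subgroup G).Normal ∧ (∀ a : A, ∀ x ∈ (P : Subgroup G), a • x ∈ (P : Subgroup G)) := by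
  open Subgroup Cfsg.Lib Cfsg.Lib.BG Cfsg.Lib.PGroup in
  let φ := MulDistribMulAction.toMulAut A G
  have e : G ≃* (⊤ : Subgroup G).map (holL G) := topEquiv.symm.trans (equivMapOfInjective ⊤ _ holL_injective)
  have h1 := map_holR_le_normalizer_top φ.range
  have h2 : (Nat.card (φ.range.map (holR G))).Coprime (Nat.card ((⊤ : Subgroup G).map (holL G))) := by
    rw [card_map_holR, card_map_holL, card_top]; exact hcop.coprime_dvd_left (card_range_dvd φ)
  have h3 : ∀ H < (⊤ : Subgroup G).map (holL G), φ.range.map (holR G) ≤ 𝐍(H) → Group.IsNilpotent H := fun H h2 h3 => by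
    obtain ⟨H, rfl⟩ : ∃ K : Subgroup G, K.map (holL G) = H := ⟨_, map_comap_eq_self (h2.le.trans (map_le_range _ _))⟩
    obtain ⟨M, h4, h5, h6⟩ := Core.exists_maximal_ge (P := fun M : Subgroup G => M ≠ ⊤ ∧ ∀ a : A, ∀ x ∈ M, a • x ∈ M)
      (H := H) ⟨fun e => h2.ne (e ▸ rfl), fun a => map_holR_le_normalizer_iff.1 h3 _ ⟨a, rfl⟩⟩
    exact Core.isNilpotent_map _ (nil_of_le (hmax M h5.1 h5.2 fun K a b => by_contra fun e => a.ne' (h6 K ⟨e, b⟩ a.le)) h4)
  haveI := sol_aux _ _ _ _ rfl h1 h2 h3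
  obtain ⟨p, q, P, Q, hp, hq, hne, hP, hQ, h4, h5, h6⟩ := struct h1 h2 h3 fun h =>
    hG (Core.isNilpotent_of_injective e.toMonoidHom e.injective)
  haveI := Fact.mk hp
  haveI := Fact.mk hq
  obtain ⟨a, ha⟩ := hP.exists_card_eq
  obtain ⟨b, hb⟩ := hQ.pgroup.exists_card_eq
  refine ⟨Group.isSolvable_of_surjective (f := e.symm.toMonoidHom) e.symm.surjective,
    ⟨q, p, b, a, hq, hp, hne.symm, by rwa [card_map_holL, card_top, ha, hb] at h6⟩, ?_⟩
  obtain ⟨Q, rfl⟩ : ∃ K : Subgroup G, K.map (holL G) = Q := ⟨_, map_comap_eq_self (hQ.le.trans (map_le_range _ _))⟩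
  replace hQ := (Hall.map_iff holL_injective).1 hQ
  obtain ⟨Q, rfl⟩ := Syl.top_iff_sylow.1 hQ
  haveI : Q.1.Normal := ⟨fun x hx g => by
    simpa [← map_mul, ← map_inv, mem_map_iff_mem holL_injective] using
      conj_mem_of_norm (h5 ⟨g, trivial, rfl⟩) (mem_map_of_mem _ hx)⟩
  haveI := Sylow.characteristic_of_normal Q inferInstance
  exact ⟨q, Q, hq, card_top (G := G) ▸ Syl.dvd_card' hQ fun e => h4 (by rw [e, Subgroup.map_bot]), inferInstance,
    fun a x hx => (characteristic_iff_le_comap.1 this (φ a)) hx⟩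

end Cfsg.Agent.S4240
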