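import Cfsg.Statements.S4242
import Cfsg.Agent.Lib.HH.Misc
import Cfsg.Agent.Lib.Core.Fitting
import Cfsg.Agent.Lib.Core.MinNormal
import Cfsg.Agent.Lib.Transfer.Alperin
import Cfsg.Agent.Lib.Transfer.Fusion
import Cfsg.Agent.Lib.Coprime.Sylow

set_option autoImplicit false
open Cfsg

namespace Cfsg.Agent.S4242

open Subgroup Cfsg.Lib Cfsg.Lib.BG Cfsg.Lib.Transfer Cfsg.Lib.HH

variable {G : Type*} [Group G] [Finite G]

theorem nil_top (h : Group.IsNilpotent (⊤ : Subgroup G)) : Group.IsNilpotent G :=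
  Core.isNilpotent_of_injective (Subgroup.topEquiv (G := G)).symm.toMonoidHom (MulEquiv.injective _)

theorem pCore_ne {p : ℕ} [hp : Fact p.Prime] (hpG : p ∣ Nat.card G)
    (h : ∀ H : Subgroup G, H ≠ ⊤ → p ∣ Nat.card H → Group.IsNilpotent H) {K : Subgroup G}
    (hK : ¬ p ∣ Nat.card K) (hKn : ¬ Group.IsNilpotent K) : pCore p G ≠ ⊥ := by
  intro h0
  have hN : HasNormalPComplement p G := by
    refine hasNormalPComplement_iff_normalizers.2 fun Q hQ h1 => ?_
    haveI := h 𝐍(Q) (fun e => h1 (eq_bot_mono h0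
      (Core.le_pCore (normalizer_eq_top_iff.1 e) hQ)))
      ((pgroup_dvd_card hQ h1).trans (BG.card_dvd (le_norm Q)))
    exact hasNormalPComplement_of_isNilpotent
  obtain ⟨L, _, hL, hq⟩ := hasNormalPComplement_iff_exists.1 hN
  obtain ⟨P, hP⟩ := Syl.exists (p := p) (⊤ : Subgroup G)
  have hP1 : P ≠ ⊥ := hP.ne_bot' (by simpa using hpG)
  have hKL : K ≤ L := Core.le_of_coprime_of_isPGroup_quotient (Core.coprime_iff_not_dvd.2 hK) hq
  have hL' : PiGrp {p}ᶜ L := PiGrp.p'_iff_coprime.2 hL
  have hLP : L ⊔ P = ⊤ := hP.sup_eq le_top (by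
    rw [relIndex_top_right]
    obtain ⟨k, hk⟩ := IsPGroup.iff_card.1 hq
    exact (PiNat.p_iff index_ne_zero_of_finite).2 ⟨k, hk⟩)
  have hc : (Nat.card P).Coprime (Nat.card L) := (hL'.coprime_pgroup hP.pgroup).symm
  have hLc : L ≤ 𝐂(P) := by
    refine Coprime.le_of_forall_invariant_pgroup_le (A := P) (K := L) le_normalizer_of_normal hc
      (Or.inl (pgroup_sol hP.pgroup)) fun q Q hq' hQL hQ _ hn => ?_
    haveI := Fact.mk hq'
    by_cases e : Q ⊔ P = ⊤
    · exfalso
      have h1 : L = Q := by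
        have := modular_left hQL hn
        rw [e, top_inf_eq, disjoint_of_coprime hc, sup_bot_eq] at this
        exact this
      exact hKn (nil_of_le (pgroup_nil hQ) (h1 ▸ hKL))
    · exact nil_cent_of_coprime (h _ e ((pgroup_dvd_card hP.pgroup hP1).trans (BG.card_dvd le_sup_right)))
        le_sup_left le_sup_right (coprime_mono hc le_rfl hQL).symm
  have hn : P.Normal := normalizer_eq_top_iff.1 (top_le_iff.1 (hLP.ge.trans
    (sup_le (norm_of_cent hLc) (le_norm P))))
  exact hP1 (eq_bot_mono h0 (Core.le_pCore hn hP.pgroup))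


/-- Let G be a finite group and p a prime dividing its order. Every maximal subgroup of G of order divisible by p is nilpotent if and only if G is nilpotent, or G is a minimal non-nilpotent group, or G is the internal direct product of a normal subgroup of order p and a normal minimal non-nilpotent subgroup of order prime to p. -/
theorem result {G : Type*} [Group G] [Finite G] (p : ℕ) (hp : p.Prime) (hpG : p ∣ Nat.card G) :
    (∀ M : Subgroup G, IsCoatom M → p ∣ Nat.card M → Group.IsNilpotent M) ↔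
      (Group.IsNilpotent G ∨ Cfsg.IsMinimalNonNilpotent G ∨
        ∃ Z K : Subgroup G, Z.Normal ∧ K.Normal ∧ Z ⊓ K = ⊥ ∧ Z ⊔ K = ⊤ ∧ Nat.card Z = p ∧
          Cfsg.IsMinimalNonNilpotent K ∧ ¬ p ∣ Nat.card K) := by
  haveI := Fact.mk hp
  constructor
  · intro hmax
    have h : ∀ H : Subgroup G, H ≠ ⊤ → p ∣ Nat.card H → Group.IsNilpotent H := by
      intro H hH hd
      obtain ⟨M, hM, hle⟩ := (eq_top_or_exists_le_coatom H).resolve_left hH
      exact nil_of_le (hmax M hM (hd.trans (BG.card_dvd hle))) hle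
    by_cases hn : Group.IsNilpotent G
    · exact Or.inl hn
    by_cases hm : IsMinimalNonNilpotent G
    · exact Or.inr (Or.inl hm)
    refine Or.inr (Or.inr ?_)
    have : ∃ H : Subgroup G, H ≠ ⊤ ∧ ¬ Group.IsNilpotent H := by
      by_contra hc
      push Not at hc
      exact hm ⟨hn, hc⟩
    obtain ⟨H, hH, hHn⟩ := this
    obtain ⟨K, hK, hle⟩ := (eq_top_or_exists_le_coatom H).resolve_left hH
    have hKn : ¬ Group.IsNilpotent K := fun e => hHn (nil_of_le e hle)
    have hKp : ¬ p ∣ Nat.card K := fun e => hKn (hmax K hK e)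
    have hK' : PiGrp {p}ᶜ K := PiGrp.p'_iff.2 hKp
    obtain ⟨Z, hZ, hZO⟩ := Core.exists_isMinNormal_le inferInstance (pCore_ne hpG h hKp hKn)
    haveI := hZ.1
    have hZp : IsPGroup p Z := pgroup_of_le (Core.pCore_isPGroup p G) hZO
    have hZ1 : Z ≠ ⊥ := hZ.ne_bot
    have hc : (Nat.card K).Coprime (Nat.card Z) := hK'.coprime_pgroup hZp
    have hi : Z ⊓ K = ⊥ := disjoint_of_coprime hc.symm
    have hs : Z ⊔ K = ⊤ := Core.sup_eq_top_of_isCoatom hK fun e => hZ1 (by rw [← hi, inf_eq_left.2 e])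
    have h1 : ∀ L : Subgroup G, L < K → Group.IsNilpotent L ∧ L ≤ 𝐂(Z) := by
      intro L hL
      have e : Z ⊔ L ≠ ⊤ := by
        intro e
        have := modular_right (N := Z) hL.le le_normalizer_of_normal
        rw [e, top_inf_eq, hi, bot_sup_eq] at this
        exact hL.ne this.symm
      have h2 := h _ e ((pgroup_dvd_card hZp hZ1).trans (BG.card_dvd le_sup_left))
      exact ⟨nil_of_le h2 le_sup_right, nil_cent_of_coprime h2 le_sup_right le_sup_left
        (coprime_mono hc hL.le le_rfl)⟩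
    have hKZ : K ≤ 𝐂(Z) := by
      refine Coprime.le_of_forall_pgroup_le fun q Q hq hQK hQ => ?_
      haveI := Fact.mk hq
      exact (h1 Q (lt_of_le_of_ne hQK fun e => hKn (e ▸ pgroup_nil hQ))).2
    have hZc : Z ≤ center G := by
      have hab := hZ.isMulCommutative (pgroup_sol hZp)
      have : (⊤ : Subgroup G) ≤ 𝐂(Z) := hs.ge.trans (sup_le (abelian_cent hab) hKZ)
      intro z hz
      exact mem_center_iff.2 fun g => (le_cent_iff.1 this g trivial z hz)
    refine ⟨Z, K, hZ.1, normalizer_eq_top_iff.1 (top_le_iff.1 (hs.ge.trans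
      (sup_le (norm_of_cent (cent_symm hKZ)) (le_norm K)))), hi, hs, ?_, ⟨hKn, fun L hL => ?_⟩, hKp⟩
    · have := hZ.card_prime_of_le_center hZc
      exact pgroup_eq_of_dvd hZp this dvd_rfl
    · rw [← Core.isNilpotent_map_iff (f := K.subtype) K.subtype_injective]
      refine (h1 _ (lt_of_le_of_ne (map_subtype_le L) fun e => hL ?_)).1
      apply map_injective K.subtype_injective
      rw [e, ← MonoidHom.range_eq_map, range_subtype]
  · rintro (h | h | ⟨Z, K, hZ, hK, hi, hs, hc, hm, hKp⟩) M hM hd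
    · exact inferInstance
    · exact h.2 M hM.1
    · have hZp : IsPGroup p Z := IsPGroup.iff_card.2 ⟨1, by simpa using hc⟩
      have hDP : DP Z K ⊤ := DP.of_nml (Nml.top_iff.2 hZ) (Nml.top_iff.2 hK) hi hs.ge
      have hZS : Syl p Z ⊤ := Syl.mk' le_top hZp (by rwa [hDP.sd.relIndex_left])
      obtain ⟨X, hX, hXc⟩ := exists_card_eq_prime hp hd
      have hXp : IsPGroup p X := IsPGroup.iff_card.2 ⟨1, by simpa using hXc⟩
      have hXZ : X ≤ Z := hZS.ge_of_norm_p' le_top hXp le_normalizer_of_normal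
      have hZM : Z ≤ M := (eq_of_le_of_card_le hXZ (by omega)) ▸ hX
      refine (hDP.restrict hZM le_top).nil (pgroup_nil hZp) ?_
      have hne : (K ⊓ M).subgroupOf K ≠ ⊤ := by
        intro e
        rw [subgroupOf_eq_top] at e
        exact hM.1 (top_le_iff.1 (hs.ge.trans (sup_le hZM (e.trans inf_le_right))))
      exact (Core.isNilpotent_subgroupOf_iff inf_le_left).1 (hm.2 _ hne)

end Cfsg.Agent.S4242
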