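import Cfsg.Statements.S4245
import Cfsg.Agent.Lib.FGS.Kazarin
import Cfsg.Agent.Lib.FGS.ClassFour
import Cfsg.Agent.Lib.Misc.Cyclic

set_option autoImplicit false
open Cfsg

namespace Cfsg.Agent.S4245

open Subgroup Cfsg.Lib

theorem aux {G : Type*} [Group G] [Finite G] (hR : solvableRadical G = ⊥) (A : Subgroup G) {p s : ℕ} (hp : p.Prime)
    (hA : A.index ∣ p ^ s) (B : Subgroup A) [B.Normal] (hB : IsCyclic B) (hAB : IsCyclic (A ⧸ B)) {r : ℕ}
    (hr : Nat.card (A ⧸ B) ∣ 2 ^ r) : Group.IsSolvable G := by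
  classical
  have kz : ∀ (x : G) (H : Subgroup G) (a : ℕ), H ≤ centralizer {x} → H.index ∣ p ^ a → x = 1 := fun x H a h1 h2 => by
    have := FGS.kazarin hp ((index_dvd_of_le h1).trans h2)
    rwa [hR, mem_bot] at this
  by_cases h2 : p = 2
  · subst h2
    have hi : (B.map A.subtype).index ∣ 2 ^ (r + s) := by
      rw [index_map_subtype, pow_add]
      exact mul_dvd_mul hr hA
    have hb : B.map A.subtype = ⊥ := by
      rw [eq_bot_iff]
      rintro _ ⟨b, hb, rfl⟩
      refine kz _ _ _ ?_ hi
      rintro _ ⟨c, hc, rfl⟩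
      rw [mem_centralizer_singleton_iff]
      exact congrArg (fun y : B => ((y : A) : G)) (hB.commutative.is_comm.comm ⟨c, hc⟩ ⟨b, hb⟩)
    rw [hb, index_bot] at hi
    obtain ⟨k, -, hk⟩ := (Nat.dvd_prime_pow Nat.prime_two).1 hi
    haveI := (IsPGroup.of_card hk).isNilpotent
    infer_instance
  have hBo : ¬ 2 ∣ Nat.card B := fun h => by
    obtain ⟨t, ht⟩ := exists_prime_orderOf_dvd_card' 2 h
    have ht' : orderOf (t : A) = 2 := by rw [Subgroup.orderOf_coe, ht]
    have : ((t : A) : G) = 1 := kz _ A s (fun a ha => by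
      rw [mem_centralizer_singleton_iff]
      have h1 : orderOf ((⟨a, ha⟩ : A) * t * (⟨a, ha⟩ : A)⁻¹) = 2 := by
        rw [← ht']; exact (MulAut.conj (⟨a, ha⟩ : A)).orderOf_eq t
      have h3 : zpowers ((⟨a, ha⟩ : A) * t * (⟨a, ha⟩ : A)⁻¹) = zpowers (t : A) :=
        Misc.eq_of_card_eq_of_le_cyclic hB (zpowers_le.2 (‹B.Normal›.conj_mem _ t.2 _)) (zpowers_le.2 t.2)
          (by rw [Nat.card_zpowers, Nat.card_zpowers, h1, ht'])
      have h4 := h3 ▸ mem_zpowers ((⟨a, ha⟩ : A) * t * (⟨a, ha⟩ : A)⁻¹)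
      rw [mem_zpowers_iff_mem_range_orderOf, ht'] at h4
      simp only [Finset.mem_image, Finset.mem_range] at h4
      obtain ⟨k, hk, e⟩ := h4
      interval_cases k
      · rw [← e, pow_zero, orderOf_one] at h1; omega
      · rw [pow_one, eq_mul_inv_iff_mul_eq] at e
        exact (congrArg Subtype.val e).symm) hA
    rw [← Subgroup.orderOf_coe, this, orderOf_one] at ht'
    omega
  obtain ⟨T⟩ : Nonempty (Sylow 2 A) := inferInstance
  have hT : IsCyclic T := by
    refine isCyclic_of_injective ((QuotientGroup.mk' B).comp (T : Subgroup A).subtype)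
      ((injective_iff_map_eq_one _).2 fun x hx => ?_)
    have hxB : (x : A) ∈ B := (QuotientGroup.eq_one_iff _).1 hx
    obtain ⟨k, hk⟩ := T.isPGroup' x
    have h1 : orderOf (x : A) ∣ 2 ^ k := orderOf_dvd_of_pow_eq_one (congrArg Subtype.val hk)
    exact Subtype.ext (orderOf_eq_one_iff.1 (Nat.eq_one_of_dvd_coprimes
      (((Nat.prime_two.coprime_iff_not_dvd).2 hBo).pow_left k) h1 (B.orderOf_dvd_natCard hxB)))
  have hTi : ¬ 2 ∣ ((T : Subgroup A).map A.subtype).index := by
    rw [index_map_subtype]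
    intro h
    rcases (Nat.Prime.dvd_mul Nat.prime_two).1 h with h | h
    · exact T.not_dvd_index h
    · exact h2 ((Nat.prime_dvd_prime_iff_eq Nat.prime_two hp).1
        (Nat.prime_two.dvd_of_dvd_pow (h.trans hA))).symm
  exact FGS.isSolvable_of_hasNormalPComplement_two (Inv.hasNormalPComplement_of_isCyclic
    ((T.isPGroup'.map A.subtype).toSylow hTi) ((equivMapOfInjective _ _ A.subtype_injective).isCyclic.1 hT))

/-- Let G be a finite group with a subgroup A of prime-power index. Suppose A has a normal cyclic subgroup B such that A/B is cyclic of order a power of 2. Then G is solvable. -/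
theorem result {G : Type*} [Group G] [Finite G] (A : Subgroup G) (p s : ℕ) (hp : p.Prime) (hA : A.index = p ^ s)
    (B : Subgroup A) [B.Normal] (hB : IsCyclic B) (hAB : IsCyclic (A ⧸ B)) (r : ℕ) (hr : Nat.card (A ⧸ B) = 2 ^ r) :
    Group.IsSolvable G := by
  let π := QuotientGroup.mk' (solvableRadical G)
  let f : A →* A.map π := π.subgroupMap A
  have hf : Function.Surjective f := π.subgroupMap_surjective A
  haveI : (B.map f).Normal := Normal.map inferInstance f hf
  have hs : Function.Surjective (QuotientGroup.map B (B.map f) f (le_comap_map f B)) :=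
    QuotientGroup.map_surjective_of_surjective _ _ _ (QuotientGroup.mk_surjective.comp hf) _
  exact Core.isSolvable_of_normal_quotient (solvableRadical G) inferInstance
    (aux Core.solvableRadical_quotient (A.map π) hp (hA ▸ A.index_map_dvd (QuotientGroup.mk'_surjective _))
      (B.map f) (isCyclic_of_surjective _ (f.subgroupMap_surjective B)) (isCyclic_of_surjective _ hs)
      (hr ▸ card_dvd_of_surjective _ hs))

end Cfsg.Agent.S4245
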