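import Cfsg.Statements.S4250
import Cfsg.Agent.Lib.BG.Hall
import Cfsg.Agent.Lib.FGS.HallWielandt

set_option autoImplicit false
open Cfsg

namespace Cfsg.Agent.S4250

/-- Let P be a Sylow p-subgroup of a finite group G. Call an intersection H = P ∩ Q with a Sylow p-subgroup Q tame when N_P(H) and N_Q(H) are Sylow p-subgroups of N_G(H). Then P ∩ G′ is generated by [P, N_G(P)] together with the commutator subgroups [P ∩ Q, ⟨x⟩] for all tame intersections P ∩ Q and all p-elements x of N_G(P ∩ Q). -/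
theorem result {G : Type*} [Group G] [Finite G] (p : ℕ) [Fact p.Prime] (P : Sylow p G) :
    (P : Subgroup G) ⊓ commutator G =
      ⁅(P : Subgroup G), Subgroup.normalizer ((P : Subgroup G) : Set G)⁆ ⊔
        ⨆ (Q : Sylow p G) (_ : (¬ p ∣ ((P : Subgroup G) ⊓ Subgroup.normalizer (((P : Subgroup G) ⊓ (Q : Subgroup G) : Subgroup G) : Set G)).relIndex (Subgroup.normalizer (((P : Subgroup G) ⊓ (Q : Subgroup G) : Subgroup G) : Set G)) ∧ ¬ p ∣ ((Q : Subgroup G) ⊓ Subgroup.normalizer (((P : Subgroup G) ⊓ (Q : Subgroup G) : Subgroup G) : Set G)).relIndex (Subgroup.normalizer (((P : Subgroup G) ⊓ (Q : Subgroup G) : Subgroup G) : Set G))))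
          (x : G) (_ : x ∈ Subgroup.normalizer (((P : Subgroup G) ⊓ (Q : Subgroup G) : Subgroup G) : Set G) ∧ ∃ k : ℕ, orderOf x = p ^ k),
          ⁅(P : Subgroup G) ⊓ (Q : Subgroup G), Subgroup.zpowers x⁆ := by
  open Subgroup Cfsg.Lib Cfsg.Lib.BG Cfsg.Lib.Transfer in
  open Cfsg.Lib.FGS in
  refine le_antisymm ((inf_comm _ _).le.trans (commutator_inf_le_of_tame P (fun x hx t ht =>
    mem_sup_left (commutator_mem_commutator ht hx)) fun Q h1 h2 x hx h3 t ht => mem_sup_right ?_))
    (le_inf (sup_le (comm_le_left le_rfl) (iSup_le fun Q => iSup_le fun _ => iSup_le fun x => iSup_le fun hx =>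
      (comm_le_left (zpowers_le.2 hx.1)).trans inf_le_left)) (sup_le (commutator_mono le_top le_top)
      (iSup_le fun Q => iSup_le fun _ => iSup_le fun x => iSup_le fun hx => commutator_mono le_top le_top)))
  exact mem_iSup_of_mem Q (mem_iSup_of_mem ⟨h1, h2⟩ (mem_iSup_of_mem x (mem_iSup_of_mem ⟨hx, h3⟩
    (commutator_mem_commutator ht (inv_mem (mem_zpowers x))))))

end Cfsg.Agent.S4250
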