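import Cfsg.Statements.S4251
import Cfsg.Agent.Lib.BG.Hall
import Cfsg.Agent.Lib.FGS.HallWielandt

set_option autoImplicit false
open Cfsg

namespace Cfsg.Agent.S4251

/-- Let P be a Sylow p-subgroup of a finite group G. Call an intersection H = P ∩ Q with a Sylow p-subgroup Q tame when N_P(H) and N_Q(H) are Sylow p-subgroups of N_G(H). If N_G(H)/C_G(H) is a p-group for every nontrivial tame intersection H = P ∩ Q, then G has a normal p-complement. -/
theorem result {G : Type*} [Group G] [Finite G] (p : ℕ) [Fact p.Prime] (P : Sylow p G)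
    (h : ∀ Q : Sylow p G, (P : Subgroup G) ⊓ (Q : Subgroup G) ≠ ⊥ → (¬ p ∣ ((P : Subgroup G) ⊓ Subgroup.normalizer (((P : Subgroup G) ⊓ (Q : Subgroup G) : Subgroup G) : Set G)).relIndex (Subgroup.normalizer (((P : Subgroup G) ⊓ (Q : Subgroup G) : Subgroup G) : Set G)) ∧ ¬ p ∣ ((Q : Subgroup G) ⊓ Subgroup.normalizer (((P : Subgroup G) ⊓ (Q : Subgroup G) : Subgroup G) : Set G)).relIndex (Subgroup.normalizer (((P : Subgroup G) ⊓ (Q : Subgroup G) : Subgroup G) : Set G))) →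
      IsPGroup p (Subgroup.normalizer (((P : Subgroup G) ⊓ (Q : Subgroup G) : Subgroup G) : Set G) ⧸
        (Subgroup.centralizer (((P : Subgroup G) ⊓ (Q : Subgroup G) : Subgroup G) : Set G)).subgroupOf
          (Subgroup.normalizer (((P : Subgroup G) ⊓ (Q : Subgroup G) : Subgroup G) : Set G)))) :
    Cfsg.HasNormalPComplement p G := by
  open Subgroup Cfsg.Lib Cfsg.Lib.BG Cfsg.Lib.Transfer in
  open Cfsg.Lib.FGS in
  refine (hasNormalPComplement_iff_controls_fusion P).2 fun x hx g hg => ?_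
  have := (conjChain_tame P (A := zpowers x) (g := g⁻¹) (zpowers_le.2 hx) (by
    rw [← coe_inv_conj, inv_inv, SetLike.coe_subset_coe, MonoidHom.map_zpowers]
    exact zpowers_le.2 hg)).induction_subgroup
    (fun H g => ∃ n ∈ (P : Subgroup G), ∀ t ∈ H, n * t * n⁻¹ = g * t * g⁻¹)
    (fun H _ => ⟨1, one_mem _, fun _ _ => rfl⟩) (fun H Q y hy hH _ => ⟨(conj_mono _ hH).trans ((conj_eq_self_iff.2
      (inv_mem hy.1)).le.trans inf_le_left), ?_⟩)
    (fun H a b _ _ ⟨n, hn, h3⟩ ⟨m, hm, h4⟩ => ⟨m * n, mul_mem hm hn, fun t ht => by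
      have := h4 _ (conj_mem_conj.2 ht)
      calc _ = m * (n * t * n⁻¹) * m⁻¹ := by group
        _ = _ := by rw [h3 t ht, this]; group⟩) (zpowers_le.2 hx)
  · obtain ⟨n, hn, h1⟩ := this
    exact ⟨n, hn, by simpa using h1 x (mem_zpowers x)⟩
  by_cases h0 : (P : Subgroup G) ⊓ Q = ⊥
  · exact ⟨1, one_mem _, fun t ht => by simp [mem_bot.1 (h0.le (hH ht))]⟩
  obtain ⟨s, hs, h1⟩ := exists_conj_eq_of_coprime_centralize inf_le_right hy.2.1 (T := (P : Subgroup G) ⊓ Q)
    (fun g hg hc => pResidual_le_of_isPGroup_quotient _ (h Q h0 ⟨hy.2.1, hy.2.2.1⟩)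
      (mem_pResidual_of_coprime (g := ⟨g, hg⟩) (by simpa using hc))) (inv_mem hy.1)
  exact ⟨s, hs.1, fun t ht => h1 t (hH ht)⟩

end Cfsg.Agent.S4251
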