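import Cfsg.Statements.S4252
import Cfsg.Agent.Lib.Frobenius.Basic

set_option autoImplicit false
open Cfsg

namespace Cfsg.Agent.S4252

/-- Let a finite group G act on a finite set Ω with more than one point, transitively but not regularly, so that no non-identity element of G fixes two distinct points. Then the stabilizer H of any point is a Frobenius complement in G (nontrivial, proper, meeting its other conjugates trivially), and the Frobenius kernel of G with respect to H (the identity together with the elements lying in no conjugate of H) is exactly the set consisting of the identity and the elements fixing no point. -/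
theorem result {G Ω : Type*} [Group G] [Finite G] [Fintype Ω] [MulAction G Ω] (hΩ : 1 < Fintype.card Ω)
    (htrans : ∀ α β : Ω, ∃ g : G, g • α = β) (hnreg : ∃ g : G, g ≠ 1 ∧ ∃ α : Ω, g • α = α)
    (hfix : ∀ g : G, g ≠ 1 → ∀ α β : Ω, g • α = α → g • β = β → α = β) (α : Ω) :
    Cfsg.IsFrobeniusComplement (MulAction.stabilizer G α) ∧
      Cfsg.frobeniusKernel (MulAction.stabilizer G α) = {g : G | g = 1 ∨ ∀ ω : Ω, g • ω ≠ ω} := by
  constructor
  · refine (Cfsg.Lib.Frobenius.isFrobeniusComplement_iff _).2 ⟨?_, ?_, fun g hg h hh hgh => ?_⟩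
    · obtain ⟨g, hg, β, hβ⟩ := hnreg
      obtain ⟨x, rfl⟩ := htrans α β
      intro e
      have : x⁻¹ * g * x ∈ MulAction.stabilizer G α := by
        rw [MulAction.mem_stabilizer_iff, mul_smul, mul_smul, hβ, inv_smul_smul]
      rw [e, Subgroup.mem_bot] at this
      apply hg
      calc g = x * (x⁻¹ * g * x) * x⁻¹ := by group
        _ = 1 := by rw [this]; group
    · obtain ⟨β, hβ⟩ := Fintype.exists_ne_of_one_lt_card hΩ α
      obtain ⟨x, rfl⟩ := htrans α β
      intro e
      exact hβ (MulAction.mem_stabilizer_iff.1 (e ▸ Subgroup.mem_top x))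
    · by_contra h1
      apply hg
      rw [MulAction.mem_stabilizer_iff] at hh hgh ⊢
      have : h • g⁻¹ • α = g⁻¹ • α := by
        rw [eq_inv_smul_iff, ← mul_smul, ← mul_smul, hgh]
      have := hfix h h1 _ _ hh this
      rw [eq_inv_smul_iff] at this
      exact this
  · ext x
    rw [Cfsg.Lib.Frobenius.mem_frobeniusKernel_iff, Set.mem_ofPred_eq]
    refine or_congr_right ⟨fun h ω e => ?_, fun h g hg => h (g⁻¹ • α) ?_⟩
    · obtain ⟨y, rfl⟩ := htrans α ω
      refine h y⁻¹ ?_
      rw [MulAction.mem_stabilizer_iff, inv_inv, mul_smul, mul_smul, e, inv_smul_smul]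
    · rw [eq_inv_smul_iff, ← mul_smul, ← mul_smul]
      exact hg

end Cfsg.Agent.S4252
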