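import Cfsg.Statements.S4253
import Cfsg.Agent.Lib.Frobenius.Basic

set_option autoImplicit false
open Cfsg

namespace Cfsg.Agent.S4253

/-- Let H be a Frobenius complement in a finite group G (a nontrivial proper subgroup meeting each conjugate gHg⁻¹ with g outside H trivially). Then in the action of G on the left cosets of H by left multiplication, no non-identity element of G fixes two distinct cosets. -/
theorem result {G : Type*} [Group G] [Finite G] (H : Subgroup G) (hH : Cfsg.IsFrobeniusComplement H)
    (g : G) (hg : g ≠ 1) (a b : G ⧸ H) (ha : g • a = a) (hb : g • b = b) : a = b := by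
  induction a using QuotientGroup.induction_on with | _ a =>
  induction b using QuotientGroup.induction_on with | _ b =>
  change ((g * a : G) : G ⧸ H) = _ at ha
  change ((g * b : G) : G ⧸ H) = _ at hb
  rw [QuotientGroup.eq] at ha hb ⊢
  refine Cfsg.Lib.Frobenius.mem_of_conj_mem hH hb ?_ (by simpa [mul_assoc] using ha)
  intro e
  apply hg
  calc g = b * ((g * b)⁻¹ * b)⁻¹ * b⁻¹ := by group
    _ = 1 := by rw [e]; group

end Cfsg.Agent.S4253
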