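import Cfsg.Statements.S4259
import Cfsg.Agent.Lib.HH.Two2

set_option autoImplicit false
open Cfsg

namespace Cfsg.Agent.S4259

/-- Let G be a finite 2-soluble group whose Sylow 2-subgroups have derived length at most d. Then the 2-length of G is at most d. -/
theorem result {G : Type*} [Group G] [Finite G] (hG : Cfsg.IsPSolvable 2 G) (d : ℕ)
    (hd : ∀ P : Sylow 2 G, derivedSeries (P : Subgroup G) d = ⊥) : Cfsg.PLengthLE 2 d G := by
  refine Lib.HH.Two.length_le_der hG d fun P hP => ?_
  obtain ⟨S, hS⟩ := hP.exists_le_sylow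
  exact eq_bot_iff.2 ((Lib.HH.ModB.dS_mono hS d).trans (by rw [← Lib.HH.ModB.map_derivedSeries, hd, Subgroup.map_bot]))

end Cfsg.Agent.S4259
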