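import Cfsg.Statements.S4261
import Cfsg.Agent.Lib.Core.MinNormal
import Cfsg.Agent.Lib.PGroup.Basic

set_option autoImplicit false
open Cfsg

namespace Cfsg.Agent.S4261

/-- Let M be a maximal subgroup of a finite solvable group G such that x^[G : M] lies in M for every x in G. Then M is normal in G. -/
theorem result {G : Type*} [Group G] [Finite G] (hG : Group.IsSolvable G) (M : Subgroup G) (hM : IsCoatom M)
    (hexp : ∀ x : G, x ^ M.index ∈ M) : M.Normal := by
  obtain ⟨p, k, hp, -, hk⟩ := (isPrimePow_nat_iff _).mp (Lib.Core.isPrimePow_index_of_isCoatom hM)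
  have := Fact.mk hp
  have hq : IsPGroup p (G ⧸ M.normalCore) := fun x => by
    obtain ⟨x, rfl⟩ := QuotientGroup.mk_surjective x
    refine ⟨k, ?_⟩
    rw [← QuotientGroup.mk_pow, QuotientGroup.eq_one_iff, hk]
    intro g
    rw [← conj_pow]
    exact hexp _
  have := Lib.PGroup.normal_of_isCoatom hq (Lib.Core.isCoatom_map_mk' M.normalCore_le hM)
  have h := Lib.Core.comap_map_mk' M.normalCore M
  rw [sup_of_le_left M.normalCore_le] at h
  rw [← h]
  infer_instance

end Cfsg.Agent.S4261
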