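import Cfsg.Statements.S4262
import Cfsg.Agent.Lib.FGS.MaxNil
import Cfsg.Agent.Lib.FGS.Count
import Cfsg.Agent.Lib.Transfer.NormalComplement
import Cfsg.Agent.Lib.BG.Hall

set_option autoImplicit false
open Cfsg

namespace Cfsg.Agent.S4262

open Subgroup Cfsg.Lib Cfsg.Lib.BG

theorem nil_of_cent {H : Type*} [Group H] [Finite H] {p : ℕ} [Fact p.Prime]
    (h : ∀ y : H, (orderOf y).Coprime p → y ∈ center H) : Group.IsNilpotent H := by
  have h1 := Transfer.isPGroup_quotient_of_pResidual_le (p := p) (center H)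
    (Transfer.pResidual_le_iff.2 h)
  have := h1.isNilpotent
  exact Group.of_quotient_center_nilpotent this

/-- Let G be a finite group in which the centralizer of every non-central element is a maximal subgroup of G. Then G is solvable. -/
theorem result {G : Type*} [Group G] [Finite G]
    (h : ∀ g : G, g ∉ Subgroup.center G → IsCoatom (Subgroup.centralizer ({g} : Set G))) :
    Group.IsSolvable G := by
  by_cases hx : ∀ x : G, (orderOf x).Coprime 2 → x ∈ center G
  · have := nil_of_cent hx
    infer_instance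
  obtain ⟨x, p, hp, hp2, k, hk, hx⟩ : ∃ (x : G) (p : ℕ), p.Prime ∧ p ≠ 2 ∧ ∃ k, orderOf x = p ^ k ∧
      x ∉ center G := by
    by_contra hc
    push Not at hc hx
    obtain ⟨x, ho, hx⟩ := hx
    refine hx ?_
    clear hx
    induction' e : orderOf x using Nat.strong_induction_on with n ih generalizing x
    by_cases h1 : orderOf x = 1
    · rw [orderOf_eq_one_iff.1 h1]; exact one_mem _
    have hp := Nat.minFac_prime h1
    have := Fact.mk hp
    obtain ⟨a, ha, b, hb, ⟨k, hk⟩, hb', rfl⟩ :=
      Transfer.exists_p_part_mul_p'_part (p := (orderOf x).minFac) x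
    have hbd := orderOf_dvd_of_mem_zpowers hb
    obtain ⟨j, -, hj⟩ := (Nat.dvd_prime_pow hp).1 (orderOf_dvd_of_pow_eq_one hk)
    refine mul_mem (hc a _ hp (fun h2 => ?_) j hj) (ih _ ?_ b (ho.coprime_dvd_left hbd) rfl)
    · have := Nat.minFac_dvd (orderOf (a * b))
      rw [h2] at this
      exact absurd (Nat.Coprime.eq_one_of_dvd ho.symm this) (by decide)
    · refine e ▸ lt_of_le_of_ne (Nat.le_of_dvd (orderOf_pos _) hbd) fun e' => ?_
      rw [e'] at hb'
      exact hp.ne_one (Nat.Coprime.eq_one_of_dvd hb'.symm (Nat.minFac_dvd _))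
  have := Fact.mk hp
  have key : ∀ y ∈ 𝐂[x], (orderOf y).Coprime p → 𝐂[x] ≤ 𝐂[y] := by
    intro y hy ho
    have hc : Commute x y := (mem_centralizer_singleton_iff.1 hy).symm
    have e := FGS.centralizer_mul_of_coprime hc (by rw [hk]; exact (ho.symm.pow_left k))
    have hxy : x * y ∉ center G := fun h' => (h x hx).1 (top_le_iff.1 (by
      rw [← centralizer_eq_top_iff_subset.2 (Set.singleton_subset_iff.2 h'), e]
      exact inf_le_left))
    have := (h _ hxy).le_iff_eq (h x hx).1 |>.1 (e ▸ inf_le_left)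
    rw [this, e]
    exact inf_le_right
  obtain ⟨S, hS⟩ := Syl.exists 2 𝐂[x]
  refine FGS.isSolvable_of_max_nil (h x hx) (nil_of_cent (p := p) fun y hy => ?_) hS ?_
  · refine mem_center_iff.2 fun g => Subtype.ext ?_
    exact mem_centralizer_singleton_iff.1 (key y y.2 (by rwa [orderOf_coe]) g.2)
  · have : ⁅S, S⁆ = ⊥ := by
      refine commutator_eq_bot_iff_le_centralizer.2 fun a ha b hb => ?_
      refine mem_centralizer_singleton_iff.1 (key a (hS.le ha) ?_ (hS.le hb))
      obtain ⟨j, hj⟩ := IsPGroup.iff_orderOf.1 hS.pi.pgroup ⟨a, ha⟩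
      rw [orderOf_mk] at hj
      rw [hj]
      exact ((Nat.coprime_primes Nat.prime_two hp).2 hp2.symm).pow_left j
    rw [this, commutator_bot_left]

end Cfsg.Agent.S4262
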