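import Cfsg.Statements.S4263
import Cfsg.Agent.Lib.Core.Subnormal
import Cfsg.Agent.Lib.Core.Fitting

set_option autoImplicit false
open Cfsg

namespace Cfsg.Agent.S4263

open Subgroup Cfsg.Lib Cfsg.Lib.Core

/-- Let G be a finite group. An element x lies in the Fitting subgroup F(G) if and only if, for every subgroup H of G, the power x^[G : H] lies in H. -/
theorem result {G : Type*} [Group G] [Finite G] (x : G) :
    x ∈ Cfsg.fittingSubgroup G ↔ ∀ H : Subgroup G, x ^ H.index ∈ H := by
  constructor
  · intro hx H
    set F := fittingSubgroup G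
    have hs : SubnormalIn (F ⊓ H) F := SubnormalIn.of_isNilpotent inferInstance inf_le_left
    have h1 : x ^ (F ⊓ H).relIndex F ∈ F ⊓ H := by
      refine hs.head_induction (P := fun B => x ^ B.relIndex F ∈ B) (by simpa using hx) ?_
      intro B C _ hBC hn hC ih
      haveI := normal_subgroupOf_of_le_normalizer hn
      have := (B.subgroupOf C).pow_index_mem ⟨_, ih⟩
      rw [← relIndex_mul_relIndex B C F hBC hC.le, mul_comm, pow_mul]
      exact this
    have h2 : H.relIndex F ∣ H.index := by
      haveI := fittingSubgroup_normal G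
      simpa using (SubnormalIn.of_normal (A := F) (H := ⊤) le_top).relIndex_dvd_right H
    rw [inf_comm, inf_relIndex_right] at h1
    obtain ⟨c, hc⟩ := h2
    rw [hc, pow_mul]
    exact H.pow_mem h1.1 c
  · intro h
    haveI := fittingSubgroup_normal G
    rw [← QuotientGroup.eq_one_iff, ← orderOf_eq_one_iff]
    by_contra hne
    obtain ⟨p, hp, hd⟩ := Nat.exists_prime_and_dvd hne
    haveI := Fact.mk hp
    obtain ⟨P⟩ : Nonempty (Sylow p G) := inferInstance
    have h1 : x ^ (P : Subgroup G).index ∈ pCore p G := by
      rw [pCore_eq_iInf_sylow, mem_iInf]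
      intro Q
      have : (P : Subgroup G).index = (Q : Subgroup G).index := by
        have e1 := (P : Subgroup G).card_mul_index
        have e2 := (Q : Subgroup G).card_mul_index
        rw [P.card_eq_multiplicity] at e1
        rw [Q.card_eq_multiplicity] at e2
        exact Nat.eq_of_mul_eq_mul_left (pow_pos hp.pos _) (e1.trans e2.symm)
      rw [this]; exact h Q
    have h2 := pCore_le_fittingSubgroup p h1
    rw [← QuotientGroup.eq_one_iff, QuotientGroup.mk_pow, ← orderOf_dvd_iff_pow_eq_one] at h2
    exact P.not_dvd_index (hd.trans h2)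

end Cfsg.Agent.S4263
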