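import Cfsg.Statements.S4264
import Cfsg.Agent.Lib.FGS.Classes

set_option autoImplicit false
open Cfsg

namespace Cfsg.Agent.S4264

open Subgroup Finset MulAction Cfsg.Lib.FGS Cfsg.Lib.BG
open scoped Classical

section
variable {G Ω : Type} [Group G] [Finite G] [MulAction G Ω] [Fintype Ω] {p : ℕ} [hp : Fact p.Prime]
  {A B R T : ℝ}

omit [Finite G] in
theorem le_card (hG : IsPGroup p G) {x : G} {ω : Ω} (h : x • ω ≠ ω) {s : Finset Ω}
    (hs : ∀ y ∈ zpowers x, y • ω ∈ s) : p ≤ #s := by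
  obtain ⟨k, hk⟩ := (hG.to_subgroup (zpowers x)).card_orbit ω
  have h1 : Nat.card (orbit (zpowers x) ω) ≤ #s := by
    rw [Nat.card_coe_set_eq, ← Set.ncard_coe_finset]
    exact Set.ncard_le_ncard (by rintro _ ⟨y, rfl⟩; exact hs y y.2)
  refine le_trans (Nat.le_self_pow (fun e => h ?_) p) (hk.ge.trans h1)
  rw [e, pow_zero, Nat.card_eq_one_iff_unique] at hk
  exact congrArg Subtype.val (hk.1.elim (⟨_, mem_orbit ω ⟨x, mem_zpowers x⟩⟩ : orbit (zpowers x) ω)
    ⟨ω, mem_orbit_self ω⟩)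

omit [Finite G] in
theorem pow_orbits_le {x : G} (hx : IsPGroup p (zpowers x)) (hA : 1 ≤ A) (hR : 1 ≤ R)
    (h : A ≤ R ^ p) : A ^ Nat.card (orbitRel.Quotient (zpowers x) Ω) ≤
      ∏ ω : Ω, if x • ω = ω then A else R := by
  have := Fintype.ofFinite (orbitRel.Quotient (zpowers x) Ω)
  rw [← prod_fiberwise univ (fun ω => (Quotient.mk'' ω : orbitRel.Quotient (zpowers x) Ω)),
    Nat.card_eq_fintype_card, ← card_univ, ← prod_const]
  refine prod_le_prod (fun _ _ => by positivity) fun o _ => ?_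
  by_cases h1 : ∃ ω, Quotient.mk'' ω = o ∧ x • ω = ω
  · obtain ⟨ω, h1, h2⟩ := h1
    refine le_trans (le_of_eq ?_) (prod_le_prod_of_subset_of_one_le (s := {ω}) (by simpa using h1)
      (fun _ _ => by split_ifs <;> positivity) fun _ _ _ => by split_ifs <;> assumption)
    simp [h2]
  · push Not at h1
    obtain ⟨ω, rfl⟩ := Quotient.exists_rep o
    rw [prod_congr rfl fun a ha => if_neg (h1 a (mem_filter.1 ha).2), prod_const]
    refine h.trans (pow_le_pow_right₀ hR (le_card hx (x := ⟨x, mem_zpowers x⟩) (h1 ω rfl)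
      fun y _ => mem_filter.2 ⟨mem_univ _, Quotient.sound' (mem_orbit ω y)⟩))

theorem card_fix_le [FaithfulSMul G Ω] (hG : IsPGroup p G) (hT : 1 ≤ T) (h : p ≤ T ^ (p - 1))
    (S : Finset Ω) : Nat.card (fixingSubgroup G (Sᶜ : Set Ω)) ≤ T ^ #S := by
  obtain ⟨v, hv⟩ := IsPGroup.iff_card.1 (hG.to_subgroup (fixingSubgroup G (Sᶜ : Set Ω)))
  have h1 : (fixingSubgroup G (Sᶜ : Set Ω)).map (toPermHom G Ω) ≤
      (Equiv.Perm.ofSubtype : Equiv.Perm {a // a ∈ S} →* _).range := by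
    rintro _ ⟨x, hx, rfl⟩
    refine Equiv.Perm.mem_range_ofSubtype_iff.2 fun a ha => not_not.1 fun e => ?_
    exact Equiv.Perm.mem_support.1 ha ((mem_fixingSubgroup_iff G).1 hx a e)
  have h2 := card_dvd_of_le h1
  rw [card_map_of_injective toPerm_injective, hv, ← Nat.card_congr (MonoidHom.ofInjective
    Equiv.Perm.ofSubtype_injective).toEquiv, Nat.card_perm, Nat.card_eq_finsetCard,
    hp.out.pow_dvd_iff_le_factorization (Nat.factorial_ne_zero _)] at h2
  have h3 := Nat.mul_le_mul_left (p - 1) h2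
  rw [Nat.sub_one_mul_factorization_factorial hp.out] at h3
  rw [hv, Nat.cast_pow]
  refine (pow_le_pow_left₀ (by positivity) h v).trans ?_
  rw [← pow_mul]
  exact pow_le_pow_right₀ hT (h3.trans (by simp))

theorem sum_le [FaithfulSMul G Ω] [Fintype G] (hG : IsPGroup p G) (hT : 1 ≤ T) (h : p ≤ T ^ (p - 1))
    (hA : 0 ≤ A) (hR : 0 ≤ R) (h1 : A ≤ B) (h2 : T * R ≤ B) (h3 : A ^ p + (T * R) ^ p ≤ B ^ p) :
    ∑ x : G, ∏ ω : Ω, (if x • ω = ω then A else R) ≤ B ^ Fintype.card Ω := by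
  have := Fintype.ofFinite (Subgroup G)
  have hG' := hG.isNilpotent
  set n : Subgroup G → ℕ := fun H => #{ω : Ω | stabilizer G ω = H} with hn
  set U : G → Finset (Subgroup G) := fun x => {H | x ∉ H ∧ n H ≠ 0}
  have e1 : ∀ x : G, ∏ ω : Ω, (if x • ω = ω then A else R) =
      (∏ H ∈ U x, R ^ n H) * ∏ H ∈ (U x)ᶜ, A ^ n H := fun x => by
    rw [← prod_fiberwise univ (fun ω : Ω => stabilizer G ω), ← prod_mul_prod_compl (U x)]
    congr 1 <;> refine prod_congr rfl fun H hH => prod_eq_pow_card fun ω hω => ?_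
    · exact if_neg fun e => (mem_filter.1 hH).2.1 ((mem_filter.1 hω).2 ▸ e)
    · exact if_pos (not_not.1 fun e => mem_compl.1 hH (mem_filter.2 ⟨mem_univ _,
        (mem_filter.1 hω).2 ▸ e, card_ne_zero_of_mem hω⟩))
  have e2 : ∀ x, ∀ H ∈ U x, p ≤ n H := fun x H hH => by
    obtain ⟨ω, hω⟩ := card_ne_zero.1 (mem_filter.1 hH).2.2
    obtain rfl := (mem_filter.1 hω).2
    obtain ⟨g, hg, hg'⟩ := SetLike.exists_of_lt (normalizerCondition_of_isNilpotent _
      (lt_top_iff_ne_top.2 fun e => (mem_filter.1 hH).2.1 (e.ge (mem_top x))))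
    refine le_card hG hg' fun y hy => mem_filter.2 ⟨mem_univ _, ?_⟩
    ext z
    rw [mem_normalizer_iff''.1 (zpowers_le.2 hg hy) z]
    simp [mul_smul, inv_smul_eq_iff]
  have e3 : B ^ Fintype.card Ω = ∏ H, B ^ n H := by
    rw [prod_pow_eq_pow_sum, ← card_univ, card_eq_sum_card_fiberwise
      (f := fun ω : Ω => stabilizer G ω) (t := univ) fun _ _ => mem_univ _]
  have hB : 0 ≤ B := hA.trans h1
  have hE : 0 ≤ T * R := by positivity
  rw [e3, ← sum_fiberwise univ U]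
  refine le_trans ?_ (prod_le_prod (f := fun H => (if p ≤ n H then (T * R) ^ n H else 0) + A ^ n H)
    (fun _ _ => by split_ifs <;> positivity) fun H _ => ?_)
  · rw [Fintype.prod_add]
    refine sum_le_sum fun V _ => ?_
    rcases (univ.filter fun x => U x = V).eq_empty_or_nonempty with h0 | ⟨x, hx⟩
    · rw [h0, sum_empty]
      exact mul_nonneg (prod_nonneg fun _ _ => by split_ifs <;> positivity) (by positivity)
    obtain rfl := (mem_filter.1 hx).2
    rw [sum_congr rfl fun y hy => (e1 y).trans (by rw [(mem_filter.1 hy).2]), sum_const, nsmul_eq_mul,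
      prod_congr rfl fun H hH => if_pos (e2 x H hH), ← mul_assoc]
    refine mul_le_mul_of_nonneg_right ?_ (by positivity)
    simp only [mul_pow, prod_mul_distrib]
    refine mul_le_mul_of_nonneg_right ?_ (by positivity)
    refine le_trans ?_ ((card_fix_le hG hT h {ω : Ω | stabilizer G ω ∈ U x}).trans_eq ?_)
    · rw [Nat.cast_le, Nat.card_eq_fintype_card, Fintype.card_subtype]
      refine card_le_card fun y hy => mem_filter.2 ⟨mem_univ _, (mem_fixingSubgroup_iff G).2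
        fun ω hω => not_not.1 fun e => hω ?_⟩
      rw [← (mem_filter.1 hy).2]
      exact mem_filter.2 ⟨mem_univ _, mem_filter.2 ⟨mem_univ _, e,
        card_ne_zero_of_mem (a := ω) (by simp)⟩⟩
    · rw [prod_pow_eq_pow_sum, card_eq_sum_card_fiberwise (f := fun ω : Ω => stabilizer G ω)
        (s := {ω : Ω | stabilizer G ω ∈ U x}) (t := U x) fun _ h => (mem_filter.1 h).2]
      congr 1
      refine sum_congr rfl fun H hH => congrArg card ?_
      ext ω
      simpa using fun e => e ▸ hH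
  · split_ifs with h4
    · obtain ⟨k, hk⟩ := Nat.exists_eq_add_of_le h4
      rw [hk, pow_add, pow_add, pow_add]
      have h5 := pow_le_pow_left₀ hA h1 k
      have h6 := pow_le_pow_left₀ hE h2 k
      nlinarith [pow_nonneg hA p, pow_nonneg hE p, pow_nonneg hB k]
    · rw [zero_add]
      exact pow_le_pow_left₀ hA h1 _

theorem kQ_le_sum (π : Set ℕ) (P : Sylow p G) [Fintype P] : kQ (PiElt π : G → Prop) ≤
    ∑ x : P, kQ (PiElt (π ∩ {p}ᶜ) : 𝐂[(x : G)] → Prop) := by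
  let F : (Σ x : P, {C : ConjClasses 𝐂[(x : G)] // ∃ g, ConjClasses.mk g = C ∧
    PiElt (π ∩ {p}ᶜ) g}) → G := fun z => z.1 * (z.2.2.choose : G)
  refine (kQ_le_card (S := Set.range F) fun g hg => ?_).trans ?_
  · obtain ⟨y, -, z, hz, hy, hz', e, hc⟩ := exists_pi_decomp {p} g
    obtain ⟨Q, hQ⟩ := (PiGrp.pgroup hy.zpowers).exists_le_sylow
    obtain ⟨c, hc'⟩ := exists_conj_sylow_eq Q P
    have hx : c * y * c⁻¹ ∈ (P : Subgroup G) := hc' ▸ Lib.Transfer.conj_mem_conj.2 (hQ (mem_zpowers y))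
    have hw : c * z * c⁻¹ ∈ 𝐂[c * y * c⁻¹] := mem_cent1.2 (by
      rw [conj_mul, conj_mul, hc])
    have h1 : ∃ g : 𝐂[c * y * c⁻¹], ConjClasses.mk g = ConjClasses.mk ⟨_, hw⟩ ∧
        PiElt (π ∩ {p}ᶜ) g := ⟨_, rfl, piElt_coe.1 (PiElt.conj (PiNat.inter (hg.zpowers.elt hz) hz') c)⟩
    obtain ⟨d, hd⟩ := isConj_iff.1 (ConjClasses.mk_eq_mk_iff_isConj.1 h1.choose_spec.1)
    refine ⟨_, ⟨⟨⟨_, hx⟩, _, h1⟩, rfl⟩, isConj_iff.2 ⟨(d : G)⁻¹ * c,
      (?_ : _ = c * y * c⁻¹ * (h1.choose : G))⟩⟩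
    have h2 : (d : G) * h1.choose * (d : G)⁻¹ = c * z * c⁻¹ := congrArg Subtype.val hd
    have h3 := mem_cent1.1 (inv_mem d.2)
    generalize (h1.choose : G) = w at h2
    calc _ = (d : G)⁻¹ * (c * y * c⁻¹) * (c * z * c⁻¹) * d := by rw [e]; group
      _ = c * y * c⁻¹ * w := by rw [h3, ← h2]; group
  · rw [← Set.image_univ]
    refine (Set.ncard_image_le).trans ?_
    rw [Set.ncard_univ, Nat.card_sigma]
    rfl

omit hp in
theorem kQ_cent_le [FaithfulSMul G Ω] {π : Set ℕ} (hπ : p ∉ π) {x : G} {k : ℕ} (hx : x ^ p ^ k = 1)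
    (hp : p.Prime) (ih : ∀ (G Ω : Type) [Group G] [Finite G] [MulAction G Ω] [Finite Ω]
      [FaithfulSMul G Ω], kQ (PiElt π : G → Prop) ≤ A ^ Nat.card Ω) :
    kQ (PiElt π : 𝐂[x] → Prop) ≤ A ^ Nat.card (orbitRel.Quotient (zpowers x) Ω) := by
  have hc : ∀ (c : 𝐂[x]) (y : zpowers x) (ω : Ω), (c : G) • y • ω = y • (c : G) • ω := by
    rintro c ⟨_, i, rfl⟩ ω
    change (c : G) • x ^ i • ω = x ^ i • (c : G) • ω
    rw [smul_smul, smul_smul, (Commute.zpow_right (mem_cent1.1 c.2) i).eq]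
  letI : MulAction 𝐂[x] (orbitRel.Quotient (zpowers x) Ω) :=
    { smul := fun c => Quotient.map' (fun ω => (c : G) • ω) (by
        rintro _ b ⟨y, rfl⟩
        exact ⟨y, (hc c y b).symm⟩)
      one_smul := by rintro ⟨a⟩; exact congrArg Quotient.mk'' (one_smul G a)
      mul_smul := by rintro a b ⟨c⟩; exact congrArg Quotient.mk'' (mul_smul (a : G) (b : G) c) }
  set φ := toPermHom 𝐂[x] (orbitRel.Quotient (zpowers x) Ω)
  have h1 : kQ (PiElt π : φ.ker → Prop) ≤ 1 := by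
    refine (kQ_le_card (S := {1}) fun c hc' => ⟨1, rfl, ?_⟩).trans (by simp)
    have h2 : c ^ p ^ k = 1 := Subtype.ext (Subtype.ext (eq_of_smul_eq_smul (α := Ω) fun ω => by
      obtain ⟨y, hy⟩ := Quotient.exact' (congrArg (fun s : Equiv.Perm _ => s (Quotient.mk'' ω)) c.2)
      have h3 : ∀ j : ℕ, (c.1 ^ j).1 • ω = y ^ j • ω := fun j => by
        induction j with
        | zero => simp
        | succ j ih => rw [pow_succ', Subgroup.coe_mul, mul_smul, ih, hc, pow_succ, mul_smul]; exact congrArg _ hy.symm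
      obtain ⟨_, i, rfl⟩ := y
      refine (h3 _).trans (congrArg (· • ω) (?_ : (x ^ i) ^ p ^ k = 1))
      rw [← zpow_natCast, ← zpow_mul, mul_comm, zpow_mul, zpow_natCast, hx, one_zpow]))
    rw [PiElt.eq_one hc' fun q hq hd h => hπ ((Nat.prime_dvd_prime_iff_eq hq hp).1
      (hq.dvd_of_dvd_pow (hd.trans (orderOf_dvd_of_pow_eq_one h2))) ▸ h)]
  letI := MulAction.compHom (orbitRel.Quotient (zpowers x) Ω) (QuotientGroup.kerLift φ)
  have : FaithfulSMul (𝐂[x] ⧸ φ.ker) (orbitRel.Quotient (zpowers x) Ω) :=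
    ⟨fun h => QuotientGroup.kerLift_injective φ (Equiv.ext h)⟩
  refine le_trans ?_ (ih (𝐂[x] ⧸ φ.ker) _)
  exact_mod_cast (kQ_piElt_le_mul φ.ker π).trans ((Nat.mul_le_mul_right _ h1).trans_eq (one_mul _))

end

/-- `a ^ n` bounds the number of classes of elements of order a product of primes below `m`. -/
def Bd (m : ℕ) (a : ℝ) : Prop := ∀ (G Ω : Type) [Group G] [Finite G] [MulAction G Ω] [Finite Ω]
  [FaithfulSMul G Ω], kQ (PiElt {q | q < m} : G → Prop) ≤ a ^ Nat.card Ω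

theorem Bd.prime {p : ℕ} (hp : p.Prime) {A B R T : ℝ} (ih : Bd p A) (hA : 1 ≤ A) (hR : 1 ≤ R)
    (h0 : A ≤ R ^ p) (hT : 1 ≤ T) (h : p ≤ T ^ (p - 1)) (h1 : A ≤ B) (h2 : T * R ≤ B)
    (h3 : A ^ p + (T * R) ^ p ≤ B ^ p) : Bd (p + 1) B := by
  intro G Ω _ _ _ _ _
  have := Fact.mk hp
  have := Fintype.ofFinite Ω
  obtain ⟨P⟩ : Nonempty (Sylow p G) := inferInstance
  have := Fintype.ofFinite P
  have e : ({q | q < p + 1} : Set ℕ) ∩ {p}ᶜ = {q | q < p} := by ext q; simp; omega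
  have h4 := kQ_le_sum {q | q < p + 1} P
  rw [e, ← Nat.cast_le (α := ℝ), Nat.cast_sum] at h4
  rw [Nat.card_eq_fintype_card]
  refine h4.trans (le_trans (sum_le_sum fun x _ => ?_) (sum_le (G := P) P.isPGroup' hT h
    (by positivity) (by positivity) h1 h2 h3))
  obtain ⟨k, hk⟩ := P.isPGroup' x
  exact (kQ_cent_le (Ω := Ω) (π := {q | q < p}) (lt_irrefl p) (congrArg Subtype.val hk) hp ih).trans
    (pow_orbits_le (P.isPGroup'.to_le (zpowers_le.2 x.2)) hA hR h0)

theorem Bd.not_prime {p : ℕ} (hp : ¬ p.Prime) {A B : ℝ} (ih : Bd p A) (hA : 0 ≤ A) (h1 : A ≤ B) :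
    Bd (p + 1) B := by
  intro G Ω _ _ _ _ _
  rw [kQ_congr (Q := PiElt {q | q < p + 1}) (R := PiElt {q | q < p}) fun x => ⟨fun h q hq hd => lt_of_le_of_ne
    (Nat.lt_succ_iff.1 (h q hq hd)) fun e => hp (e ▸ hq), fun h q hq hd => Nat.lt_succ_of_lt (h q hq hd)⟩]
  exact (ih G Ω).trans (pow_le_pow_left₀ hA h1 _)

theorem bd (k : ℕ) : Bd (k + 4) (4 - (7 / 9) ^ k) := by
  induction k with
  | zero =>
    have h2 : Bd 2 1 := fun G Ω _ _ _ _ _ => by
      rw [one_pow]
      exact_mod_cast (kQ_le_card (S := {1}) fun x hx => ⟨1, rfl, by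
        rw [PiElt.eq_one hx fun q hq _ h => hq.two_le.not_gt h]⟩).trans (by simp)
    have h3 : Bd 3 (9 / 4) := h2.prime (R := 1) (T := 2) Nat.prime_two le_rfl le_rfl (by norm_num)
      (by norm_num) (by norm_num) (by norm_num) (by norm_num) (by norm_num)
    exact h3.prime (R := 4 / 3) (T := 7 / 4) Nat.prime_three (by norm_num) (by norm_num) (by norm_num)
      (by norm_num) (by norm_num) (by norm_num) (by norm_num) (by norm_num)
  | succ k ih =>
    have h1 : (7 / 9 : ℝ) ^ k ≤ 1 := pow_le_one₀ (by norm_num) (by norm_num)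
    have h2 : (0 : ℝ) < (7 / 9) ^ k := by positivity
    by_cases hp : (k + 4).Prime
    swap
    · exact ih.not_prime hp (by linarith) (by rw [pow_succ]; linarith)
    obtain _ | j := k
    · norm_num at hp
    have h3 : (1 : ℝ) ≤ (4 / 3) ^ j := one_le_pow₀ (by norm_num)
    have h4 := one_add_mul_le_pow (a := (3 / 4 : ℝ)) (by norm_num) j
    have h5 : (0 : ℝ) ≤ j := j.cast_nonneg
    refine ih.prime (R := 4 / 3) (T := 7 / 4) hp (by linarith) (by norm_num) ?_ (by norm_num) ?_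
      (by rw [pow_succ _ (j + 1)]; linarith) (by rw [pow_succ _ (j + 1)]; linarith) ?_
    · rw [add_assoc j, pow_add (4 / 3 : ℝ)]
      linarith
    · rw [show j + 1 + 4 - 1 = j + 4 by omega, pow_add]
      push_cast
      linarith
    · have h6 := pow_add_mul_le_add_pow (a := (4 - (7 / 9) ^ (j + 1) : ℝ)) (b := 2 / 9 * (7 / 9) ^ (j + 1))
        (by linarith) (by linarith) (j + 1 + 4)
      have h7 := pow_le_pow_left₀ (a := (3 : ℝ)) (b := 4 - (7 / 9) ^ (j + 1)) (by norm_num) (by linarith) (j + 4)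
      have h8 : (7 / 4 * (4 / 3) : ℝ) ^ (j + 1 + 4) = 3 ^ (j + 4) * (7 / 9) ^ (j + 1) * (3 * (7 / 9) ^ 4) := by
        rw [show (7 / 4 * (4 / 3) : ℝ) = 3 * (7 / 9) by norm_num, mul_pow]
        ring
      rw [h8, show (4 - (7 / 9) ^ (j + 1 + 1) : ℝ) = 4 - (7 / 9) ^ (j + 1) + 2 / 9 * (7 / 9) ^ (j + 1) by ring]
      refine le_trans (add_le_add_right ?_ _) h6
      rw [show j + 1 + 4 - 1 = j + 4 by omega]
      push_cast
      have h9 : (0 : ℝ) < 3 ^ (j + 4) := by positivity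
      have h10 := mul_le_mul_of_nonneg_right h7 h2.le
      nlinarith [mul_pos h9 h2, mul_nonneg h5 (mul_nonneg (h9.le.trans h7) h2.le)]


/-- Let G be a subgroup of the symmetric group of degree d ≥ 1. Then G has at most 5^{d−1} conjugacy classes. -/
theorem result (d : ℕ) (hd : 1 ≤ d) (G : Subgroup (Equiv.Perm (Fin d))) : Nat.card (ConjClasses ↥G) ≤ 5 ^ (d - 1) := by
  by_cases h : d ≤ 9
  · refine (Nat.card_le_card_of_surjective _ ConjClasses.mk_surjective).trans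
      ((card_le_card_group G).trans ?_)
    rw [Nat.card_perm, Nat.card_eq_fintype_card, Fintype.card_fin]
    interval_cases d <;> simp [Nat.factorial]
  have h1 := bd (Nat.card G) G (Fin d)
  rw [kQ_congr (Q := PiElt {q | q < Nat.card G + 4}) (R := fun _ => True) fun x => iff_true_intro fun q _ hd => lt_add_of_le_of_pos
    (Nat.le_of_dvd Nat.card_pos (hd.trans (orderOf_dvd_natCard x))) four_pos, kQ_true,
    Nat.card_eq_fintype_card (α := Fin d), Fintype.card_fin] at h1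
  obtain ⟨e, rfl⟩ := Nat.exists_eq_add_of_le' (not_le.1 h)
  have h2 : (7 / 9 : ℝ) ^ Nat.card G ≤ 1 := pow_le_one₀ (by norm_num) (by norm_num)
  have h3 := h1.trans (pow_le_pow_left₀ (b := 4) (by linarith) (sub_le_self _ (by positivity)) _)
  have h4 := Nat.pow_le_pow_left (show 4 ≤ 5 by norm_num) e
  have h5 : Nat.card (ConjClasses G) ≤ 4 ^ (e + 10) := by exact_mod_cast h3
  rw [show e + Nat.succ 9 - 1 = e + 9 from rfl, pow_add]
  rw [pow_add] at h5
  exact h5.trans (Nat.mul_le_mul h4 (by norm_num))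

end Cfsg.Agent.S4264
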