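import Cfsg.Statements.S4269
import Cfsg.Agent.Lib.HH.Misc

set_option autoImplicit false
open Cfsg

namespace Cfsg.Agent.S4269

open Subgroup Cfsg.Lib Cfsg.Lib.BG Cfsg.Lib.Transfer Cfsg.Lib.HH


/-- Let G be a finite group, V an abelian normal subgroup and H a subgroup with HV = G. Then H is pronormal in G (H and gHg⁻¹ are conjugate inside the subgroup they generate, for every g) if and only if every H-invariant subgroup U of V satisfies U = N_U(H)·[H, U], that is, U is the join of U ∩ N_G(H) and the commutator subgroup [H, U]. -/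
theorem result {G : Type*} [Group G] [Finite G]
    (V : Subgroup G) [V.Normal] (hV : IsMulCommutative ↥V) (H : Subgroup G) (hHV : H ⊔ V = ⊤) :
    Cfsg.IsPronormal H ↔
      ∀ U : Subgroup G, U ≤ V → (∀ h ∈ H, U.map (MulAut.conj h).toMonoidHom = U) →
        U = (U ⊓ Subgroup.normalizer (H : Set G)) ⊔ ⁅H, U⁆ := by
  have hc : ∀ a ∈ V, ∀ b ∈ V, a * b = b * a := le_cent_iff.1 (abelian_cent hV)
  have hn : V.Normal := inferInstance
  constructor
  · intro hp U hU hinv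
    have hHU : H ≤ 𝐍(U) := le_norm_of_conj hinv
    have hle : ⁅H, U⁆ ≤ U := comm_le_right hHU
    refine le_antisymm (fun u hu => ?_) (sup_le inf_le_left hle)
    obtain ⟨x, hx, e⟩ := hp u
    have h1 : H ⊔ u ⋆ H ≤ ⁅H, U⁆ ⊔ H := by
      refine sup_le le_sup_right ?_
      rintro _ ⟨h, hh, rfl⟩
      have : (MulAut.conj u).toMonoidHom h = (h * u * h⁻¹ * u⁻¹)⁻¹ * h := by simp; group
      rw [this]
      exact mul_mem (mem_sup_left (inv_mem (comm_mem_comm hh hu))) (mem_sup_right hh)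
    obtain ⟨w, hw, h, hh, rfl⟩ := (mem_sup_left_norm (left_norm_comm H U)).1 (h1 hx)
    have e' : u ⋆ H = w ⋆ H := by
      rw [show u ⋆ H = (w * h) ⋆ H from e, ← conj_conj, conj_eq_of_mem hh]
    have h2 : w⁻¹ * u ∈ 𝐍(H) := norm_of_conj_eq (by rw [← conj_conj, e', inv_conj_conj])
    have : u = w * (w⁻¹ * u) := by group
    rw [this]
    exact mul_mem (mem_sup_right hw) (mem_sup_left (mem_inf.2 ⟨mul_mem (inv_mem (hle hw)) hu, h2⟩))
  · intro hyp g
    obtain ⟨v, hv, h, hh, rfl⟩ := (mem_sup_left_norm (N := V) (H := H) le_normalizer_of_normal).1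
      (show g ∈ V ⊔ H by rw [sup_comm, hHV]; trivial)
    have e : (v * h) ⋆ H = v ⋆ H := by rw [← conj_conj, conj_eq_of_mem hh]
    change ∃ x ∈ H ⊔ (v * h) ⋆ H, (v * h) ⋆ H = x ⋆ H
    rw [e]
    set J := H ⊔ v ⋆ H with hJ
    let U : Subgroup G :=
      { carrier := {u | u ∈ V ∧ ∀ k ∈ H, k * u * k⁻¹ * u⁻¹ ∈ J}
        one_mem' := ⟨one_mem _, fun k _ => by simpa using one_mem J⟩
        mul_mem' := by
          rintro a b ⟨ha, ha'⟩ ⟨hb, hb'⟩
          refine ⟨mul_mem ha hb, fun k hk => ?_⟩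
          have h1 := hc (k * b * k⁻¹ * b⁻¹) (mul_mem (hn.conj_mem b hb k) (inv_mem hb)) a⁻¹ (inv_mem ha)
          have : k * (a * b) * k⁻¹ * (a * b)⁻¹ = (k * a * k⁻¹) * (k * b * k⁻¹ * b⁻¹ * a⁻¹) := by group
          rw [this, h1, ← mul_assoc]
          exact mul_mem (ha' k hk) (hb' k hk)
        inv_mem' := by
          rintro a ⟨ha, ha'⟩
          refine ⟨inv_mem ha, fun k hk => ?_⟩
          have h1 := hc (k * a⁻¹ * k⁻¹) (hn.conj_mem _ (inv_mem ha) k) a ha
          have : k * a⁻¹ * k⁻¹ * a⁻¹⁻¹ = (k * a * k⁻¹ * a⁻¹)⁻¹ := by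
            rw [inv_inv, h1]; group
          rw [this]; exact inv_mem (ha' k hk) }
    have hUV : U ≤ V := fun u hu => hu.1
    have hHU : H ≤ 𝐍(U) := by
      refine le_norm_iff.2 fun a ha u hu => ⟨hn.conj_mem u hu.1 a, fun k hk => ?_⟩
      have : k * (a * u * a⁻¹) * k⁻¹ * (a * u * a⁻¹)⁻¹ =
          a * ((a⁻¹ * k * a) * u * (a⁻¹ * k * a)⁻¹ * u⁻¹) * a⁻¹ := by group
      rw [this]
      have haJ : a ∈ J := mem_sup_left ha
      exact mul_mem (mul_mem haJ (hu.2 _ (mul_mem (mul_mem (inv_mem ha) hk) ha))) (inv_mem haJ)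
    have hvU : v ∈ U := by
      refine ⟨hv, fun k hk => ?_⟩
      have : k * v * k⁻¹ * v⁻¹ = k * (v * k⁻¹ * v⁻¹) := by group
      rw [this]
      exact mul_mem (mem_sup_left hk) (mem_sup_right ⟨k⁻¹, inv_mem hk, rfl⟩)
    have h1 := hyp U hUV fun k hk => conj_eq_of_norm (hHU hk)
    have hle : ⁅H, U⁆ ≤ U := comm_le_right hHU
    rw [h1, sup_comm] at hvU
    obtain ⟨w, hw, n, hn', rfl⟩ := (mem_sup_left_norm
      ((inf_le_left.trans hUV).trans (abelian_norm hV (hle.trans hUV)))).1 hvU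
    refine ⟨w, (comm_le_iff (A := H) (B := U) (H := J)).2 (fun k hk u hu => hu.2 k hk) hw, ?_⟩
    rw [← conj_conj, conj_eq_of_norm hn'.2]

end Cfsg.Agent.S4269
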