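import Cfsg.Statements.S4270
import Cfsg.Agent.Lib.HH.Misc

set_option autoImplicit false
open Cfsg

namespace Cfsg.Agent.S4270

open Subgroup Cfsg.Lib Cfsg.Lib.BG Cfsg.Lib.Transfer Cfsg.Lib.HH

section
variable {G G' : Type*} [Group G] [Group G']

def Pr (H : Subgroup G) (g : G) : Prop := ∃ x ∈ H ⊔ g ⋆ H, g ⋆ H = x ⋆ H

theorem map_conj' (f : G →* G') (g : G) (H : Subgroup G) : (g ⋆ H).map f = f g ⋆ H.map f := by
  rw [Subgroup.map_map, Subgroup.map_map]
  congr 1
  ext x
  simp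

theorem Pr.map {H : Subgroup G} {g : G} (h : Pr H g) (f : G →* G') : Pr (H.map f) (f g) := by
  obtain ⟨x, hx, e⟩ := h
  refine ⟨f x, ?_, by rw [← map_conj', ← map_conj', e]⟩
  rw [← map_conj', ← Subgroup.map_sup]
  exact mem_map_of_mem f hx

theorem Pr.lift {H : Subgroup G} {g : G} {f : G →* G'} (hk : f.ker ≤ H) (h : Pr (H.map f) (f g)) :
    Pr H g := by
  obtain ⟨y, hy, e⟩ := h
  rw [← map_conj', ← Subgroup.map_sup] at hy
  obtain ⟨x, hx, rfl⟩ := hy
  refine ⟨x, hx, ?_⟩
  rw [← map_conj', ← map_conj'] at e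
  have k : ∀ z : G, f.ker ≤ z ⋆ H := fun z => by
    rw [← conj_eq_self_of_normal z f.ker]; exact conj_mono z hk
  rw [← comap_map_eq_self (k g), e, comap_map_eq_self (k x)]

theorem Pr.reduce {H : Subgroup G} {g x : G} (hx : x ∈ H ⊔ g ⋆ H) (h : Pr H (x⁻¹ * g)) : Pr H g := by
  obtain ⟨y, hy, e⟩ := h
  refine ⟨x * y, mul_mem hx ((sup_le le_sup_left ?_ : H ⊔ (x⁻¹ * g) ⋆ H ≤ H ⊔ g ⋆ H) hy), ?_⟩
  · rw [← conj_conj]
    exact conj_le_of_mem le_sup_right (inv_mem hx)
  · rw [← conj_conj, ← e, conj_conj, mul_inv_cancel_left]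

theorem Pr.of_eq {H : Subgroup G} {g g' : G} (e : g ⋆ H = g' ⋆ H) (h : Pr H g') : Pr H g := by
  unfold Pr at *
  rwa [e]

theorem Pr.conj {H : Subgroup G} {c : G} (h : ∀ g, Pr (c ⋆ H) g) (g : G) : Pr H g := by
  have := (h (c * g * c⁻¹)).map (MulAut.conj c⁻¹).toMonoidHom
  rw [inv_conj_conj] at this
  simpa [mul_assoc] using this

theorem Pr.of_subgroup {H N : Subgroup G} (hle : H ≤ N) {g : G} (hg : g ∈ N)
    (h : Pr (H.subgroupOf N) ⟨g, hg⟩) : Pr H g := by
  have := h.map N.subtype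
  rwa [map_subgroupOf_eq_of_le hle] at this

theorem mem_norm_of_eq {H : Subgroup G} {g x : G} (e : g ⋆ H = x ⋆ H) : x⁻¹ * g ∈ 𝐍(H) :=
  norm_of_conj_eq (by rw [← conj_conj, e, inv_conj_conj])

theorem exists_sylow_le_iff [Finite G] {p : ℕ} [Fact p.Prime] {K : Subgroup G} :
    (∃ P : Sylow p G, (P : Subgroup G) ≤ K) ↔ ¬ p ∣ K.index := by
  refine ⟨fun ⟨P, h⟩ => not_dvd_index_of_sylow_le P h, fun h => ?_⟩
  obtain ⟨P, hP, hle⟩ := exists_syl_le_of_not_dvd (p := p) (le_top (a := K)) (by rwa [relIndex_top_right])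
  obtain ⟨S, rfl⟩ := Syl.top_iff_sylow.1 hP
  exact ⟨S, hle⟩

theorem core [Finite G] {p : ℕ} [Fact p.Prime] {A T H : Subgroup G} [hAn : A.Normal] (hT : Syl p T A)
    (hTH : T ≤ H) (hA : ∀ a ∈ A, Pr (H ⊓ A) a) (hL : ∀ g ∈ 𝐍(T), Pr (H ⊓ 𝐍(T)) g) {a : G} (ha : a ∈ A) :
    Pr H a := by
  obtain ⟨x, hx, e⟩ := hA a ha
  have hxA : x ∈ A := sup_le inf_le_right (conj_le_of_mem inf_le_right ha) hx
  refine Pr.reduce (x := x) (sup_le_sup inf_le_left (conj_mono a inf_le_left) hx) ?_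
  have h1 := mem_norm_of_eq e
  have h1A : x⁻¹ * a ∈ A := mul_mem (inv_mem hxA) ha
  generalize x⁻¹ * a = b at h1 h1A
  have hTM : Syl p T (H ⊓ A) := hT.of_le (le_inf hTH hT.le) inf_le_right
  obtain ⟨m, hm, em⟩ := Syl.exists_conj_eq hTM (hTM.conj_of_norm h1)
  refine Pr.reduce (x := m) (mem_sup_left hm.1) ?_
  have h2 := mem_norm_of_eq em
  have h3 : m⁻¹ * b ∈ 𝐍(H ⊓ A) := mul_mem (inv_mem (le_norm _ hm)) h1
  generalize m⁻¹ * b = c at h2 h3
  obtain ⟨w, hw, ew⟩ := hL c h2
  have hN : Nml (H ⊓ A) H := ⟨inf_le_left, norm_inf (le_norm H) (by rw [normalizer_eq_top]; exact le_top)⟩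
  have hLM : H ⊓ 𝐍(T) ≤ 𝐍(H ⊓ A) := inf_le_left.trans hN.norm
  have hwM : w ∈ 𝐍(H ⊓ A) := sup_le hLM (conj_le_of_mem hLM h3) hw
  refine ⟨w, sup_le_sup inf_le_left (conj_mono c inf_le_left) hw, ?_⟩
  have := Syl.frattini hTM hN
  rw [← this, conj_sup, conj_sup, conj_eq_of_norm h3, conj_eq_of_norm hwM, ew]

end

/-- Let p be a prime and G a finite group with a normal subgroup A such that, both in A and in G/A, every subgroup containing a Sylow p-subgroup of that group is pronormal in that group. Let T be a Sylow p-subgroup of A. Then every subgroup of G containing a Sylow p-subgroup of G is pronormal in G if and only if (i) every subgroup of N_G(T)/T containing a Sylow p-subgroup of N_G(T)/T is pronormal there, and (ii) for every subgroup H of G containing a Sylow p-subgroup of G, the image of N_G(H) in G/A is the full normalizer of the image of H. (Pronormal: H and gHg⁻¹ are conjugate inside the subgroup they generate, for every g.) -/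
theorem result {G : Type*} [Group G] [Finite G] {p : ℕ} [Fact p.Prime]
    (A : Subgroup G) [A.Normal] (hA : (∀ K : Subgroup ↥A, (∃ P : Sylow p ↥A, (P : Subgroup ↥A) ≤ K) → Cfsg.IsPronormal K)) (hQ : (∀ K : Subgroup (G ⧸ A), (∃ P : Sylow p (G ⧸ A), (P : Subgroup (G ⧸ A)) ≤ K) → Cfsg.IsPronormal K))
    (T : Subgroup G) (hT : ∃ P : Sylow p ↥A, (P : Subgroup ↥A).map A.subtype = T) [(T.subgroupOf (Subgroup.normalizer (T : Set G))).Normal] :
    (∀ K : Subgroup G, (∃ P : Sylow p G, (P : Subgroup G) ≤ K) → Cfsg.IsPronormal K) ↔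
      ((∀ K : Subgroup (↥(Subgroup.normalizer (T : Set G)) ⧸ T.subgroupOf (Subgroup.normalizer (T : Set G))), (∃ P : Sylow p (↥(Subgroup.normalizer (T : Set G)) ⧸ T.subgroupOf (Subgroup.normalizer (T : Set G))), (P : Subgroup (↥(Subgroup.normalizer (T : Set G)) ⧸ T.subgroupOf (Subgroup.normalizer (T : Set G)))) ≤ K) → Cfsg.IsPronormal K) ∧
        ∀ K : Subgroup G, (∃ P : Sylow p G, (P : Subgroup G) ≤ K) →
          (Subgroup.normalizer (K : Set G)).map (QuotientGroup.mk' A) = Subgroup.normalizer ((K.map (QuotientGroup.mk' A) : Subgroup (G ⧸ A)) : Set (G ⧸ A))) := by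
  have hT' : Syl p T A := Syl.iff_sylow.2 hT
  have hNT : ¬ p ∣ (𝐍(T)).index := by
    have h1 := Syl.frattini hT' (Nml.top_iff.2 inferInstance)
    rw [top_inf_eq] at h1
    have h2 : ¬ p ∣ (𝐍(T)).relIndex A := not_dvd_relIndex_of_syl_le hT' (le_norm T)
    rwa [← Coprime.relIndex_sup_right_of_le_normalizer (le_top.trans (normalizer_eq_top A).ge), h1,
      relIndex_top_right] at h2
  constructor
  · intro h
    refine ⟨fun K hK g => ?_, fun K hK => le_antisymm (map_norm _ le_rfl) fun y hy => ?_⟩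
    · obtain ⟨g, rfl⟩ := QuotientGroup.mk'_surjective _ g
      have hs := QuotientGroup.mk'_surjective (T.subgroupOf 𝐍(T))
      rw [← map_comap_eq_self_of_surjective hs K]
      refine Pr.map (Pr.lift (f := (𝐍(T)).subtype) (by simp) (h _ ?_ _)) _
      rw [exists_sylow_le_iff] at hK ⊢
      rw [index_map_subtype, index_comap_of_surjective _ hs]
      exact fun hd => ((Fact.out : p.Prime).dvd_mul.1 hd).elim hK hNT
    · obtain ⟨g, rfl⟩ := QuotientGroup.mk'_surjective _ y
      obtain ⟨x, hx, e⟩ := h K hK g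
      have hx' : QuotientGroup.mk' A x ∈ K.map (QuotientGroup.mk' A) := by
        have := mem_map_of_mem (QuotientGroup.mk' A) hx
        rwa [Subgroup.map_sup, map_conj', conj_eq_of_norm hy, sup_idem] at this
      have := mul_mem (map_mono (le_norm K) hx') (mem_map_of_mem (QuotientGroup.mk' A) (mem_norm_of_eq e))
      simpa using this
  · rintro ⟨h1, h2⟩
    have main : ∀ H : Subgroup G, ¬ p ∣ H.index → T ≤ H → ∀ g, Pr H g := by
      intro H hH hTH g
      have hb : ¬ p ∣ (H.map (QuotientGroup.mk' A)).index := fun hd =>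
        hH (hd.trans (index_map_dvd H (QuotientGroup.mk'_surjective A)))
      obtain ⟨y, hy, e⟩ := hQ _ (exists_sylow_le_iff.2 hb) (QuotientGroup.mk' A g)
      rw [← map_conj', ← Subgroup.map_sup] at hy
      obtain ⟨x, hx, rfl⟩ := hy
      refine Pr.reduce hx ?_
      have h3 := mem_norm_of_eq e
      rw [← h2 H (exists_sylow_le_iff.2 hH), ← map_inv, ← map_mul] at h3
      obtain ⟨n, hn, en⟩ := h3
      have ha : x⁻¹ * g * n⁻¹ ∈ A := by
        rw [← QuotientGroup.ker_mk' A, MonoidHom.mem_ker, map_mul, ← en, map_inv, mul_inv_cancel]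
      refine Pr.of_eq (g' := x⁻¹ * g * n⁻¹) (by rw [← conj_conj (x⁻¹ * g), conj_eq_of_norm (inv_mem hn)]) ?_
      refine core hT' hTH (fun a ha => Pr.of_subgroup inf_le_right ha (hA _ ?_ _))
        (fun c hc => Pr.of_subgroup inf_le_right hc ?_) ha
      · rw [exists_sylow_le_iff]
        exact not_dvd_relIndex_of_syl_le hT' (le_inf hTH hT'.le)
      · refine Pr.lift (f := QuotientGroup.mk' (T.subgroupOf 𝐍(T))) ?_ (h1 _ ?_ _)
        · rw [QuotientGroup.ker_mk']
          exact subgroupOf_mono _ (le_inf hTH (le_norm T))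
        · rw [exists_sylow_le_iff]
          intro hd
          have hd := hd.trans (index_map_dvd _ (QuotientGroup.mk'_surjective _))
          have hN : Nml (H ⊓ A) H :=
            ⟨inf_le_left, norm_inf (le_norm H) (by rw [normalizer_eq_top]; exact le_top)⟩
          have hTM : Syl p T (H ⊓ A) := hT'.of_le (le_inf hTH hT'.le) inf_le_right
          have h4 : ¬ p ∣ (H ⊓ 𝐍(T)).relIndex (H ⊓ A) := not_dvd_relIndex_of_syl_le hTM (le_inf hTH (le_norm T))
          rw [← Coprime.relIndex_sup_right_of_le_normalizer (inf_le_left.trans hN.norm), Syl.frattini hTM hN] at h4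
          have h5 : p ∣ (H ⊓ 𝐍(T)).index :=
            hd.trans (relIndex_dvd_index_of_le inf_le_right)
          rw [← relIndex_mul_index (inf_le_left : H ⊓ 𝐍(T) ≤ H)] at h5
          exact ((Fact.out : p.Prime).dvd_mul.1 h5).elim h4 hH
    intro K hK
    obtain ⟨P, hP⟩ := hK
    have h3 : Syl p ((P : Subgroup G) ⊓ A) A := (Syl.of_sylow_top P).inf_nml (Nml.top_iff.2 inferInstance)
    obtain ⟨c, -, e⟩ := Syl.exists_conj_eq h3 hT'
    refine Pr.conj (c := c) (main _ ?_ ?_)
    · rw [index_conj]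
      exact not_dvd_index_of_sylow_le P hP
    · rw [e]
      exact conj_mono c (inf_le_left.trans hP)

end Cfsg.Agent.S4270
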