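import Cfsg.Statements.S4271
import Cfsg.Agent.S4270

set_option autoImplicit false
open Cfsg

namespace Cfsg.Agent.S4271

open Subgroup Cfsg.Lib Cfsg.Lib.BG Cfsg.Lib.Transfer Cfsg.Lib.HH Cfsg.Agent.S4270

/-- Let p be a prime and G a finite group with a normal subgroup A such that every subgroup of A containing a Sylow p-subgroup of A is pronormal in A, and the Sylow p-subgroups of G/A are self-normalizing. Let T be a Sylow p-subgroup of A. Then every subgroup of G containing a Sylow p-subgroup of G is pronormal in G if and only if every subgroup of N_G(T)/T containing a Sylow p-subgroup of N_G(T)/T is pronormal in N_G(T)/T. (Pronormal: H and gHg⁻¹ are conjugate inside the subgroup they generate, for every g.) -/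
theorem result {G : Type*} [Group G] [Finite G] {p : ℕ} [Fact p.Prime]
    (A : Subgroup G) [A.Normal] (hA : (∀ K : Subgroup ↥A, (∃ P : Sylow p ↥A, (P : Subgroup ↥A) ≤ K) → Cfsg.IsPronormal K))
    (hQ : ∀ P : Sylow p (G ⧸ A), Subgroup.normalizer ((P : Subgroup (G ⧸ A)) : Set (G ⧸ A)) = P)
    (T : Subgroup G) (hT : ∃ P : Sylow p ↥A, (P : Subgroup ↥A).map A.subtype = T) [(T.subgroupOf (Subgroup.normalizer (T : Set G))).Normal] :
    (∀ K : Subgroup G, (∃ P : Sylow p G, (P : Subgroup G) ≤ K) → Cfsg.IsPronormal K) ↔ (∀ K : Subgroup (↥(Subgroup.normalizer (T : Set G)) ⧸ T.subgroupOf (Subgroup.normalizer (T : Set G))), (∃ P : Sylow p (↥(Subgroup.normalizer (T : Set G)) ⧸ T.subgroupOf (Subgroup.normalizer (T : Set G))), (P : Subgroup (↥(Subgroup.normalizer (T : Set G)) ⧸ T.subgroupOf (Subgroup.normalizer (T : Set G)))) ≤ K) → Cfsg.IsPronormal K) := by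
  have key : ∀ (K : Subgroup (G ⧸ A)) (P : Sylow p (G ⧸ A)), (P : Subgroup (G ⧸ A)) ≤ K → ∀ g,
      ∃ x ∈ K ⊔ g ⋆ K, x⁻¹ * g ∈ K := by
    intro K P hP g
    have h1 : Syl p (P : Subgroup (G ⧸ A)) (K ⊔ g ⋆ K) :=
      (Syl.of_sylow_top P).of_le (hP.trans le_sup_left) le_top
    have h2 : Syl p (g ⋆ (P : Subgroup (G ⧸ A))) (K ⊔ g ⋆ K) :=
      ((Syl.of_sylow_top P).conj_top g).of_le ((conj_mono g hP).trans le_sup_right) le_top
    obtain ⟨x, hx, e⟩ := Syl.exists_conj_eq h1 h2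
    exact ⟨x, hx, hP (hQ P ▸ mem_norm_of_eq e)⟩
  rw [Cfsg.Agent.S4270.result A hA ?_ T hT]
  · refine ⟨fun h => h.1, fun h => ⟨h, fun K hK => le_antisymm (map_norm _ le_rfl) fun y hy => ?_⟩⟩
    obtain ⟨P, hP⟩ := exists_sylow_le_iff.2 fun hd =>
      exists_sylow_le_iff.1 hK (hd.trans (index_map_dvd K (QuotientGroup.mk'_surjective A)))
    obtain ⟨x, hx, e⟩ := key _ P hP y
    rw [conj_eq_of_norm hy, sup_idem] at hx
    exact map_mono (le_norm K) (by simpa using mul_mem hx e)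
  · rintro K ⟨P, hP⟩ g
    obtain ⟨x, hx, e⟩ := key K P hP g
    refine ⟨x, hx, ?_⟩
    show g ⋆ K = x ⋆ K
    rw [← mul_inv_cancel_left x g, ← conj_conj, conj_eq_of_mem e]

end Cfsg.Agent.S4271
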