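import Cfsg.Statements.S4293
import Cfsg.Agent.Lib.FGS.FrobComp

set_option autoImplicit false
open Cfsg

namespace Cfsg.Agent.S4293

/-- A nontrivial finite subgroup of the multiplicative group of a division ring occurs as a Frobenius complement of some finite Frobenius group. -/
theorem result {D : Type*} [DivisionRing D] (H : Subgroup Dˣ) [Finite H] (hH : H ≠ ⊥) :
    ∃ (L : Type) (_ : Group L) (_ : Finite L) (C : Subgroup L), Cfsg.IsFrobeniusComplement C ∧ Nonempty (H ≃* C) := by
  open Cfsg.Lib.FGS Cfsg.Lib in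
  haveI := (Subgroup.nontrivial_iff_ne_bot H).2 hH
  let R : Submodule ℤ D := Submodule.span ℤ (Set.range fun h : H => ((h : Dˣ) : D))
  haveI : Module.Finite ℤ R := Module.Finite.span_of_finite _ (Set.finite_range _)
  have hR : ∀ h : H, ∀ x ∈ R, ((h : Dˣ) : D) * x ∈ R := fun h x hx => by
    induction hx using Submodule.span_induction with
    | mem x hx => obtain ⟨g, rfl⟩ := hx; exact Submodule.subset_span ⟨h * g, rfl⟩
    | zero => simp
    | add x y _ _ a b => rw [mul_add]; exact add_mem a b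
    | smul a x _ b => rw [mul_smul_comm]; exact R.smul_mem _ b
  let ρ : H →* Module.End ℤ R :=
    { toFun := fun h => (LinearMap.mulLeft ℤ ((h : Dˣ) : D)).restrict (hR h)
      map_one' := by ext x; simp
      map_mul' := fun g h => by ext x; exact mul_assoc _ _ _ }
  have hv : ∀ h v, (ρ h v : D) = ((h : Dˣ) : D) * v := fun _ _ => rfl
  obtain ⟨l, hl, h1, h2⟩ : ∃ l : ℕ, l ≠ 0 ∧ (∀ r : ℤ, (l : ℤ) ∣ r - 1 → (r : D) ≠ 0) ∧
      ((l : D) = 0 ∨ (Nat.card H).Coprime l) := by
    obtain ⟨p, hp⟩ := CharP.exists D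
    rcases CharP.char_is_prime_or_zero D p with h | rfl
    · refine ⟨p, h.ne_zero, fun r ⟨k, hk⟩ e => ?_, .inl (CharP.cast_eq_zero D p)⟩
      have := congrArg (Int.cast : ℤ → D) hk
      simp [e] at this
    · haveI := CharP.charP_to_charZero D
      refine ⟨Nat.card H + 1, by omega, fun r hr e => ?_, .inr (by simp)⟩
      rw [Int.cast_eq_zero] at e
      have h3 := Int.le_of_dvd one_pos (by simpa [e] using hr)
      have := Nat.card_pos (α := H)
      omega
  let U : Submodule ℤ R := Ideal.span {(l : ℤ)} • ⊤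
  have hU : ∀ x, x ∈ U ↔ ∃ y : R, (l : ℤ) • y = x := fun x => by
    simp [U, Submodule.ideal_span_singleton_smul, Submodule.mem_smul_pointwise_iff_exists]
  haveI : Finite (R ⧸ U) := Module.finite_of_fg_torsion _ fun x => ⟨⟨l, by simpa using hl⟩, by
    obtain ⟨x, rfl⟩ := U.mkQ_surjective x
    exact (Submodule.Quotient.mk_eq_zero _).2 ((hU _).2 ⟨x, rfl⟩)⟩
  haveI : Nontrivial (R ⧸ U) := Submodule.Quotient.nontrivial_iff.2 fun h => by
    obtain ⟨r, a, b⟩ := Submodule.exists_sub_one_mem_and_smul_eq_zero_of_fg_of_le_smul _ ⊤ Module.Finite.fg_top h.ge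
    have := congrArg Subtype.val (b ⟨1, Submodule.subset_span ⟨1, rfl⟩⟩ trivial)
    exact h1 r (Ideal.mem_span_singleton.1 a) (by simpa using this)
  have hρ : ∀ h, U ≤ U.comap (ρ h) := fun h x hx => by
    obtain ⟨y, rfl⟩ := (hU x).1 hx
    exact (hU _).2 ⟨ρ h y, (map_smul _ _ _).symm⟩
  obtain ⟨L, a, b, c, d, e, -⟩ := exists_fc_of_add.{0} (H := H) (V := R ⧸ U)
    { toFun := fun h => (U.mapQ U (ρ h) (hρ h)).toAddMonoidHom
      map_one' := by
        ext1 x; obtain ⟨x, rfl⟩ := U.mkQ_surjective x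
        exact congrArg U.mkQ (by simp)
      map_mul' := fun g h => by
        ext1 x; obtain ⟨x, rfl⟩ := U.mkQ_surjective x
        exact congrArg U.mkQ (by simp) } fun h v e => by
    obtain ⟨v, rfl⟩ := U.mkQ_surjective v
    refine or_iff_not_imp_left.2 fun h0 => (Submodule.Quotient.mk_eq_zero _).2 ?_
    have h3 : ((h : Dˣ) : D) - 1 ≠ 0 := fun e => h0 (Subtype.ext (Units.ext (sub_eq_zero.1 e)))
    have h4 : ∀ k : ℕ, U.mkQ ((ρ h ^ k) v) = U.mkQ v := fun k => by
      induction k with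
      | zero => rfl
      | succ k ih =>
        rw [pow_succ', Module.End.mul_apply, ← (e : U.mkQ (ρ h v) = _)]
        exact (Submodule.Quotient.eq _).2 (by simpa using hρ h ((Submodule.Quotient.eq _).1 ih))
    rcases h2 with h2 | h2
    · obtain ⟨y, hy⟩ := (hU _).1 ((Submodule.Quotient.eq _).1 (e : U.mkQ (ρ h v) = _))
      have h5 : (((h : Dˣ) : D) - 1) * v = 0 := by
        have := congrArg Subtype.val hy
        simpa [h2, hv, sub_mul] using this.symm
      rw [show v = 0 from Subtype.ext ((mul_eq_zero.1 h5).resolve_left h3)]; exact U.zero_mem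
    have h5 : ∑ k ∈ Finset.range (Nat.card H), (ρ h ^ k) v = 0 := by
      have e1 := mul_geom_sum ((h : Dˣ) : D) (Nat.card H)
      rw [← Units.val_pow_eq_pow_val, ← Subgroup.coe_pow, pow_card_eq_one'] at e1
      have e2 := (mul_eq_zero.1 (e1.trans (sub_self _))).resolve_left h3
      ext1
      simp [← map_pow, hv, ← Finset.sum_mul, e2]
    have h6 := congrArg U.mkQ h5
    rw [map_sum, Finset.sum_congr rfl fun k _ => h4 k, Finset.sum_const, Finset.card_range, map_zero, ← map_nsmul] at h6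
    obtain ⟨a, b, hab⟩ := Nat.isCoprime_iff_coprime.2 h2
    rw [← one_smul ℤ v, ← hab, add_smul, mul_smul, mul_comm, mul_smul]
    exact add_mem (U.smul_mem _ (by simpa using (Submodule.Quotient.mk_eq_zero _).1 h6)) ((hU _).2 ⟨_, rfl⟩)
  exact ⟨L, a, b, c, d, e⟩

end Cfsg.Agent.S4293
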