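import Cfsg.Statements.S4294
import Cfsg.Agent.S4293
import Cfsg.Agent.Lib.Frobenius.Compl
import Cfsg.Agent.Lib.FGS.GaussId

set_option autoImplicit false
open Cfsg

namespace Cfsg.Agent.S4294

open Subgroup Cfsg.Lib Cfsg.Lib.BG Cfsg.Lib.Transfer

variable {D : Type*} [DivisionRing D]

theorem four {Z : Type*} [CommRing Z] (f : Z →+* D) {I J : D} (hI : I * I = -1) (hJ : J * J = -1)
    (hIJ : I * J = -(J * I)) (h2 : (2 : D) ≠ 0) (cI : ∀ z, Commute (f z) I)
    (cJ : ∀ z, Commute (f z) J) {a b c d : Z} (h : a ^ 2 + b ^ 2 + c ^ 2 + d ^ 2 = 0) :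
    f a = 0 := by
  let S := Subring.centralizer (Set.range f)
  let g : Z →+* S := f.codRestrict S fun z => by
    rintro _ ⟨w, rfl⟩
    rw [← map_mul, ← map_mul, mul_comm]
  letI : Algebra Z S := g.toAlgebra' fun z x => Subtype.ext (x.2 _ ⟨z, rfl⟩)
  let i : S := ⟨I, by rintro _ ⟨w, rfl⟩; exact cI w⟩
  let j : S := ⟨J, by rintro _ ⟨w, rfl⟩; exact cJ w⟩
  have hi : i * i = -1 := Subtype.ext hI
  have hj : j * j = -1 := Subtype.ext hJ
  have hij : j * i = -(i * j) := Subtype.ext (by simp [i, j, hIJ])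
  have hi' : ∀ x : S, i * (i * x) = -x := fun x => by rw [← mul_assoc, hi, neg_one_mul]
  have hj' : ∀ x : S, j * (j * x) = -x := fun x => by rw [← mul_assoc, hj, neg_one_mul]
  have hij' : ∀ x : S, j * (i * x) = -(i * (j * x)) := fun x => by
    rw [← mul_assoc, hij, neg_mul, mul_assoc]
  have key : ∀ b c d : Z, a • (1 : S) + b • i + c • j + d • (i * j) = 0 → f a = 0 := fun b c d e => by
    have e1 := congrArg (fun x => i * x * i) e
    have e2 := congrArg (fun x => j * x * j) e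
    have e3 := congrArg (fun x => i * (j * x * j) * i) e
    simp only [mul_add, add_mul, mul_smul_comm, smul_mul_assoc, mul_assoc, hi, hj, hij, hi', hj',
      hij', mul_neg, neg_mul, neg_neg, mul_one, one_mul, mul_zero, zero_mul, smul_neg] at e1 e2 e3
    have e4 : (4 * a) • (1 : S) = 0 := by linear_combination (norm := module) e - e1 - e2 + e3
    have e5 : f (4 * a) = 0 := by
      have := congrArg Subtype.val e4
      rw [Algebra.smul_def, mul_one] at this
      exact this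
    rw [map_mul, show (4 : Z) = 2 * 2 by norm_num, map_mul, map_ofNat] at e5
    exact (mul_eq_zero.1 e5).resolve_left (mul_ne_zero h2 h2)
  have e : (a • (1 : S) + b • i + c • j + d • (i * j)) *
      (a • (1 : S) + (-b) • i + (-c) • j + (-d) • (i * j)) = 0 := by
    simp only [mul_add, add_mul, mul_smul_comm, smul_mul_assoc, mul_assoc, hi, hj, hij, hi', hj',
      hij', mul_neg, neg_mul, neg_neg, mul_one, one_mul, smul_neg, smul_add, smul_smul]
    linear_combination (norm := module) h • (1 : S)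
  exact (mul_eq_zero.1 e).elim (key _ _ _) (key _ _ _)

theorem four' {s : Set D} (hs : ∀ x ∈ s, ∀ y ∈ s, x * y = y * x) {I J : D} (hI : I * I = -1)
    (hJ : J * J = -1) (hIJ : I * J = -(J * I)) (h2 : (2 : D) ≠ 0) (cI : ∀ z ∈ s, Commute z I)
    (cJ : ∀ z ∈ s, Commute z J) {a b c d : Subring.closure s}
    (h : a ^ 2 + b ^ 2 + c ^ 2 + d ^ 2 = 0) : (a : D) = 0 := by
  have := Subring.isMulCommutative_closure hs
  have key : ∀ {K : D}, (∀ z ∈ s, Commute z K) → ∀ z : Subring.closure s, Commute (z : D) K :=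
    fun {K} h z => by
      have : Subring.closure s ≤ Subring.centralizer {K} :=
        Subring.closure_le.2 fun z hz _ e => e ▸ (h z hz).symm
      exact (this z.2 K rfl).symm
  open scoped IsMulCommutative in
  exact four (Subring.closure s).subtype hI hJ hIJ h2 (key cI) (key cJ) h

/-- A five-cycle. -/
def pc : Equiv.Perm (Fin 5) := finRotate 5
/-- A four-cycle normalising it. -/
def pk : Equiv.Perm (Fin 5) := Equiv.swap 1 3 * Equiv.swap 1 4 * Equiv.swap 1 2
/-- A double transposition inverting the four-cycle. -/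
def pw : Equiv.Perm (Fin 5) := Equiv.swap 1 2 * Equiv.swap 3 4

theorem rels : pk * pc * pk⁻¹ = pc ^ 2 ∧ pw * pk * pw⁻¹ = pk⁻¹ ∧ (pc * pw) ^ 3 = 1 ∧ pw * pw = 1 ∧
    pk ^ 2 * pk ^ 2 = 1 ∧ pk ^ 2 ≠ 1 ∧ pw ≠ 1 ∧ pk ^ 2 * pw * (pk ^ 2 * pw) = 1 ∧ pk ^ 2 * pw ≠ 1 ∧
    pc ^ 5 = 1 ∧ pc ≠ 1 ∧ pk ^ 2 * pc * (pk ^ 2)⁻¹ = pc ^ 4 ∧ pc * pw ≠ 1 ∧ pw * pk ≠ 1 ∧
    Equiv.Perm.sign pc = 1 ∧ Equiv.Perm.sign pw = 1 ∧ Equiv.Perm.sign pk = -1 := by decide +kernel

/-- The setting: a group inside a division ring with a normal subgroup mapping onto `A₅`. -/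
structure Hy {G : Type*} [Group G] (v : G →* D) (J : Subgroup G) (f : G →* Equiv.Perm (Fin 5)) :
    Prop where
  nl : J.Normal
  ker : ∀ x ∈ J, f x = 1 → v x = 1 ∨ v x = -1
  ne : ∀ x, v x = 1 ∨ v x = -1 → f x = 1
  map : J.map f = alternatingGroup (Fin 5)

variable {G : Type*} [Group G] {v : G →* D} {J : Subgroup G} {f : G →* Equiv.Perm (Fin 5)}

namespace Hy

variable (h : Hy v J f)
include h

theorem sq {x : G} (hx : x ∈ J) (h1 : f x ≠ 1) (h2 : f x * f x = 1) :
    v x * v x = -1 ∧ (2 : D) ≠ 0 := by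
  have h3 : v x * v x ≠ 1 := fun e => h1 (h.ne x (mul_self_eq_one_iff.1 e))
  have h4 := (h.ker _ (mul_mem hx hx) (by rwa [map_mul])).resolve_left (by rwa [map_mul])
  rw [map_mul] at h4
  exact ⟨h4, fun e => h3 (h4.trans (neg_eq_of_add_eq_zero_left (one_add_one_eq_two.trans e)))⟩

theorem sgn {x y : G} (hx : x * y⁻¹ ∈ J) (e : f x = f y) : v x = v y ∨ v x = -v y := by
  have h1 : v x = v (x * y⁻¹) * v y := by rw [← map_mul, inv_mul_cancel_right]
  rcases h.ker _ hx (by rw [map_mul, map_inv, e, mul_inv_cancel]) with e | e <;> simp [h1, e]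

theorem eq5 (h2 : (2 : D) ≠ 0) {x y : G} (hx : x ∈ J) (hy : y ∈ J) (e : f x = f y)
    (x5 : x ^ 5 = 1) (y5 : y ^ 5 = 1) : v x = v y := by
  refine (h.sgn (mul_mem hx (inv_mem hy)) e).resolve_right fun e => h2 ?_
  have := congrArg (· ^ 5) e
  simp only [Odd.neg_pow (n := 5) (by decide), ← map_pow, x5, y5, map_one] at this
  rw [← one_add_one_eq_two]
  exact add_eq_zero_iff_eq_neg.2 this

theorem lift {g : Equiv.Perm (Fin 5)} (hg : Equiv.Perm.sign g = 1) : ∃ x ∈ J, f x = g := by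
  have : g ∈ J.map f := h.map ▸ hg
  exact this

theorem exists_t (hv : Function.Injective v) : ∃ t ∈ J, f t = pc ∧ t ^ 5 = 1 := by
  obtain ⟨-, -, -, -, -, -, -, -, -, r, -, -, -, -, s, -⟩ := rels
  obtain ⟨x, hx, e⟩ := h.lift s
  refine ⟨x ^ 6, pow_mem hx 6, by rw [map_pow, e, pow_succ, r, one_mul], hv ?_⟩
  rw [← pow_mul, show 6 * 5 = 5 * (2 * 3) from rfl, pow_mul, map_pow, pow_mul, map_one]
  rcases h.ker _ (pow_mem hx 5) (by rw [map_pow, e, r]) with e | e <;> simp [e]

theorem ico {i j t : G} (hi : i ∈ J) (hj : j ∈ J) (ht : t ∈ J) (fi : f i = pk ^ 2) (fj : f j = pw)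
    (ft : f t = pc) (t5 : t ^ 5 = 1) : v i * v i = -1 ∧ v j * v j = -1 ∧
    v i * v j = -(v j * v i) ∧ (2 : D) ≠ 0 ∧ Commute (v t + v t ^ 4) (v i) ∧
    Commute (v t + v t ^ 4) (v j) ∧ 1 + v t + v t ^ 2 + v t ^ 3 + v t ^ 4 = 0 := by
  obtain ⟨-, -, r3, r4, r5, r6, r7, r8, r9, -, r11, r12, r13, -⟩ := rels
  obtain ⟨a1, h2⟩ := h.sq hi (by rw [fi]; exact r6) (by rw [fi]; exact r5)
  obtain ⟨a2, -⟩ := h.sq hj (by rw [fj]; exact r7) (by rw [fj]; exact r4)
  obtain ⟨a3, -⟩ := h.sq (mul_mem hi hj) (by rw [map_mul, fi, fj]; exact r9)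
    (by rw [map_mul, fi, fj]; exact r8)
  rw [map_mul] at a3
  have T5 : v t ^ 5 = 1 := by rw [← map_pow, t5, map_one]
  have a4 := h.eq5 h2 (h.nl.conj_mem t ht i) (pow_mem ht 4)
    (by rw [map_mul, map_mul, map_inv, map_pow, fi, ft, r12]) (by rw [conj_pow, t5]; simp)
    (by rw [← pow_mul, mul_comm, pow_mul, t5, one_pow])
  have a5 : v i * v t = v t ^ 4 * v i := by
    rw [← map_pow, ← a4, ← map_mul, ← map_mul, inv_mul_cancel_right]
  have a6 : v i * v t ^ 4 = v t * v i := by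
    have := (show SemiconjBy (v i) (v t) (v t ^ 4) from a5).pow_right 4
    rw [← pow_mul, show 4 * 4 = 5 * 3 + 1 from rfl, pow_succ _ (5 * 3), pow_mul, T5, one_pow, one_mul] at this
    exact this
  obtain ⟨ε, e1, e2⟩ : ∃ ε : ℤ, (ε : D) * ε = 1 ∧ v (t * j) ^ 2 + ε • v (t * j) + 1 = 0 := by
    have b := fun e => r13 (by rw [← ft, ← fj, ← map_mul]; exact h.ne (t * j) e)
    rcases h.ker _ (pow_mem (mul_mem ht hj) 3) (by rw [map_pow, map_mul, ft, fj, r3]) with e | e
    · refine ⟨1, by simp, (mul_eq_zero.1 (?_ : (v (t * j) - 1) * _ = 0)).resolve_left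
        fun e => b (Or.inl (sub_eq_zero.1 e))⟩
      rw [map_pow] at e
      linear_combination (norm := noncomm_ring <;> norm_num) e
    · refine ⟨-1, by simp, (mul_eq_zero.1 (?_ : (v (t * j) + 1) * _ = 0)).resolve_left
        fun e => b (Or.inr (add_eq_zero_iff_eq_neg.1 e))⟩
      rw [map_pow] at e
      linear_combination (norm := noncomm_ring <;> norm_num) e
  rw [map_mul] at e2
  have T1 : v t ≠ 1 := fun e => r11 (ft.symm.trans (h.ne t (Or.inl e)))
  generalize v i = I at *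
  generalize v j = K at *
  generalize v t = T at *
  have b1 : T ^ 4 = -(K * T * K) - ε • K := by
    have T0 : T ≠ 0 := fun e => by simp [e] at T5
    have K0 : K ≠ 0 := fun e => by simp [e] at a2
    refine mul_right_cancel₀ (mul_ne_zero T0 K0) ?_
    linear_combination (norm := noncomm_ring <;> norm_num) T5 * K + K * e2
  refine ⟨a1, a2, ?_, h2, ?_, ?_, (mul_eq_zero.1 (?_ : (T - 1) * _ = 0)).resolve_left
    (sub_ne_zero.2 T1)⟩
  · linear_combination (norm := noncomm_ring <;> norm_num) I * a3 * K - a1 * (K * I * K * K) + (K * I) * a2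
  · change _ = _
    linear_combination (norm := noncomm_ring <;> norm_num) -a5 - a6
  · change _ = _
    rw [b1]
    linear_combination (norm := noncomm_ring <;> norm_num) a2 * (T * K) - K * T * a2
  · linear_combination (norm := noncomm_ring <;> norm_num) T5

theorem rho {T : D} (hT : 1 + T + T ^ 2 + T ^ 3 + T ^ 4 = 0) :
    (2 * (T + T ^ 4) + 1) ^ 2 = 5 := by
  linear_combination (norm := noncomm_ring <;> norm_num) (4 * T ^ 4 - 4 * T ^ 3 + 8 * T - 4) * hT

theorem charZero (hv : Function.Injective v) : CharZero D := by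
  obtain ⟨-, -, -, -, -, -, -, -, -, -, -, -, -, -, -, s1, s2⟩ := rels
  obtain ⟨t, ht, ft, t5⟩ := h.exists_t hv
  obtain ⟨i, hi, fi⟩ := h.lift (g := pk ^ 2) (by rw [map_pow, s2]; rfl)
  obtain ⟨j, hj, fj⟩ := h.lift s1
  obtain ⟨a1, a2, a3, h2, -⟩ := h.ico hi hj ht fi fj ft t5
  obtain ⟨p, hp⟩ := CharP.exists D
  rcases CharP.char_is_prime_or_zero D p with hq | rfl
  · have : NeZero p := ⟨hq.ne_zero⟩
    obtain ⟨a, b, e⟩ := CharP.sq_add_sq D p (-1)
    refine absurd (four' (s := ∅) (by simp) a1 a2 a3 h2 (by simp) (by simp) (a := 1) (b := a)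
      (c := b) (d := 0) (Subtype.ext ?_)) one_ne_zero
    push_cast at e ⊢
    linear_combination (norm := noncomm_ring <;> norm_num) e
  · exact CharP.charP_to_charZero D

theorem not_cent (hv : Function.Injective v) {r : ℕ} (hr : r.Prime) (r20 : r.Coprime 20) {m : G}
    (hm : m ∈ 𝐂(J)) : orderOf m ≠ r := fun ho => by
  have := h.charZero hv
  obtain ⟨-, -, -, -, -, -, -, -, -, -, -, -, -, -, -, s1, s2⟩ := rels
  obtain ⟨t, ht, ft, t5⟩ := h.exists_t hv
  obtain ⟨i, hi, fi⟩ := h.lift (g := pk ^ 2) (by rw [map_pow, s2]; rfl)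
  obtain ⟨j, hj, fj⟩ := h.lift s1
  obtain ⟨a1, a2, a3, h2, a4, a5, a6⟩ := h.ico hi hj ht fi fj ft t5
  have c : ∀ x ∈ J, Commute (v m) (v x) := fun x hx => (show Commute m x from (hm x hx).symm).map v
  have c1 : Commute (v m) (v t + v t ^ 4) := (c t ht).add_right ((c t ht).pow_right 4)
  have hs : ∀ x ∈ ({v m, v t + v t ^ 4} : Set D), ∀ y ∈ ({v m, v t + v t ^ 4} : Set D),
      x * y = y * x := by
    rintro x (rfl | rfl) y (rfl | rfl)
    exacts [rfl, c1, c1.symm, rfl]
  have := Subring.isMulCommutative_closure hs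
  open scoped IsMulCommutative in
  obtain ⟨n, b, c', d, n0, e⟩ := FGS.GaussId.exists_four
    (Z := Subring.closure ({v m, v t + v t ^ 4} : Set D)) hr r20
    (η := ⟨v m, Subring.subset_closure (Or.inl rfl)⟩)
    (ρ := 2 * ⟨v t + v t ^ 4, Subring.subset_closure (Or.inr rfl)⟩ + 1)
    (Subtype.ext (by simp [← map_pow, ← ho, pow_orderOf_eq_one]))
    (fun e => by
      have : m = 1 := hv ((congrArg Subtype.val e).trans v.map_one.symm)
      rw [this, orderOf_one] at ho
      exact hr.one_lt.ne ho) (Subtype.ext (h.rho a6))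
  have := four' hs a1 a2 a3 h2 (by rintro _ (rfl | rfl); exacts [c i hi, a4])
    (by rintro _ (rfl | rfl); exacts [c j hj, a5]) e
  exact n0 (by simpa using this)

theorem eq_top (hv : Function.Injective v) (hk : f.ker ≤ J) : J = ⊤ := by
  have hJ : ∀ x, Equiv.Perm.sign (f x) = 1 → x ∈ J := fun x hx => by
    obtain ⟨y, hy, e⟩ := h.lift hx
    have := mul_mem hy (hk (show y⁻¹ * x ∈ f.ker by simp [e]))
    rwa [mul_inv_cancel_left] at this
  refine eq_top_iff.2 fun g _ => hJ g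
    ((Int.units_eq_one_or _).resolve_right fun hg => ?_)
  obtain ⟨r1, r2, -, -, -, -, -, -, -, -, -, -, -, r3, -, s1, s2⟩ := rels
  obtain ⟨x, -, fx⟩ := h.lift (g := (f g)⁻¹ * pk) (by rw [map_mul, map_inv, hg, s2]; rfl)
  obtain ⟨y, fy⟩ : ∃ y, f y = pk := ⟨g * x, by rw [map_mul, fx, mul_inv_cancel_left]⟩
  obtain ⟨t, ht, ft, t5⟩ := h.exists_t hv
  have hi : y ^ 2 ∈ J := hJ _ (by rw [map_pow, map_pow, fy, s2]; rfl)
  obtain ⟨j, hj, fj⟩ := h.lift s1
  obtain ⟨a1, a2, a3, h2, a4, a5, a6⟩ := h.ico hi hj ht (by rw [map_pow, fy]) fj ft t5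
  have b1 := h.eq5 h2 (h.nl.conj_mem t ht y) (pow_mem ht 2)
    (by rw [map_mul, map_mul, map_inv, map_pow, fy, ft, r1]) (by rw [conj_pow, t5]; simp)
    (by rw [← pow_mul, mul_comm, pow_mul, t5, one_pow])
  have b2 : v y * v t = v t ^ 2 * v y := by
    rw [← map_pow, ← b1, ← map_mul, ← map_mul, inv_mul_cancel_right]
  have T5 : v t ^ 5 = 1 := by rw [← map_pow, t5, map_one]
  have b3 : v y * v t ^ 4 = v t ^ 3 * v y := by
    have := (show SemiconjBy (v y) (v t) (v t ^ 2) from b2).pow_right 4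
    rw [← pow_mul, show 2 * 4 = 5 + 3 from rfl, pow_add, T5, one_mul] at this
    exact this
  have b4 : v j * v y * v j⁻¹ = v y⁻¹ ∨ v j * v y * v j⁻¹ = -v y⁻¹ := by
    rw [← map_mul, ← map_mul]
    refine h.sgn (hJ _ ?_) (by rw [map_mul, map_mul, map_inv, map_inv, fj, fy, r2])
    simp [fj, fy, s1, s2]
  have vi : ∀ x, v x⁻¹ = (v x)⁻¹ := fun x =>
    eq_inv_of_mul_eq_one_left (by rw [← map_mul, inv_mul_cancel, map_one])
  have j1 : v j⁻¹ = -v j := by
    rw [vi, inv_eq_of_mul_eq_one_right (b := -v j) (by rw [mul_neg, a2, neg_neg])]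
  have y1 : v y⁻¹ = -v y ^ 3 := by
    rw [map_pow] at a1
    rw [vi, inv_eq_of_mul_eq_one_right (b := -v y ^ 3)
      (by linear_combination (norm := noncomm_ring <;> norm_num) -a1)]
  have b5 := fun e => r3 (by rw [← fj, ← fy, ← map_mul]; exact h.ne (j * y) e)
  rw [map_mul] at b5
  rw [j1, y1] at b4
  have hρ := h.rho a6
  rw [map_pow] at a1 a3 a4
  generalize v y = Y at *
  generalize v j = K at *
  generalize v t = T at *
  have b6 : K * Y * K = Y ^ 3 := by
    rcases b4 with e | e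
    · linear_combination (norm := noncomm_ring <;> norm_num) -e
    · refine absurd (mul_self_eq_one_iff.1 ?_) b5
      linear_combination (norm := noncomm_ring <;> norm_num) -(e * Y) - a1
  have b7 : K * Y = -(Y ^ 3 * K) := by
    linear_combination (norm := noncomm_ring <;> norm_num) K * Y * a2 - b6 * K
  have b8 : K * Y ^ 3 = -(Y * K) := by
    linear_combination (norm := noncomm_ring <;> norm_num) a2 * (Y * K) - K * b6
  have c1 : Y * (2 * (T + T ^ 4) + 1) = -((2 * (T + T ^ 4) + 1) * Y) := by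
    linear_combination (norm := noncomm_ring <;> norm_num) 2 * b2 + 2 * b3 + 2 * (a6 * Y)
  have c2 : Commute (2 * (T + T ^ 4) + 1) (Y ^ 2) :=
    (((Commute.ofNat_left 2 _).mul_left a4).add_left (Commute.one_left _))
  have c3 : Commute (2 * (T + T ^ 4) + 1) K :=
    (((Commute.ofNat_left 2 _).mul_left a5).add_left (Commute.one_left _))
  generalize 2 * (T + T ^ 4) + 1 = ρ at *
  have d1 : Commute (Y - Y ^ 3) K := by
    change _ = _
    linear_combination (norm := noncomm_ring <;> norm_num) b8 - b7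
  have d2 : Commute (Y - Y ^ 3) (Y ^ 2) := by
    change _ = _
    noncomm_ring
  have d3 : (Y - Y ^ 3) * ρ = -(ρ * (Y - Y ^ 3)) := by
    linear_combination (norm := noncomm_ring <;> norm_num) (1 - Y ^ 2) * c1 - c2.eq * Y
  have d4 : (Y - Y ^ 3) * (Y - Y ^ 3) = 2 := by
    linear_combination (norm := noncomm_ring <;> norm_num) (Y ^ 2 - 2) * a1
  generalize Y - Y ^ 3 = β at *
  refine one_ne_zero (four' (s := {ρ * β}) (by simp) a1 a2 a3 h2
    (by rintro _ rfl; exact c2.mul_left d2) (by rintro _ rfl; exact c3.mul_left d1) (a := 1)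
    (b := 3) (c := ⟨ρ * β, Subring.subset_closure rfl⟩) (d := 0) (Subtype.ext ?_))
  change 1 ^ 2 + 3 ^ 2 + (ρ * β) ^ 2 + 0 ^ 2 = (0 : D)
  linear_combination (norm := noncomm_ring <;> norm_num) ρ * d3 * β - hρ * (β * β) - 5 * d4

end Hy

/-- A finite non-solvable subgroup of the multiplicative group of a division ring is isomorphic to the binary icosahedral group SL(2,5). -/
theorem result {D : Type*} [DivisionRing D] (H : Subgroup Dˣ) [Finite H] (hH : ¬ Group.IsSolvable H) :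
    Nonempty (H ≃* Matrix.SpecialLinearGroup (Fin 2) (ZMod 5)) := by
  obtain ⟨L, _, _, C, hC, ⟨e⟩⟩ := S4293.result H fun e => hH (by subst e; infer_instance)
  obtain ⟨J, M, f, hJ, -, ⟨e'⟩, h1, h2, h3, h4, h5⟩ :=
    (Frobenius.fpf_of_fc hC e).nonsolvable_structure hH
  let v : H →* D := (Units.coeHom D).comp H.subtype
  have hv : Function.Injective v := fun a b e => Subtype.ext (Units.ext e)
  have h : Hy v J f := by
    refine ⟨hJ, fun x hx e => mul_self_eq_one_iff.1 ?_, fun x e => ?_, h2⟩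
    · have h6 : x ∈ 𝐂(J) := by rw [← h1]; exact e
      have h7 : e' ⟨x, hx⟩ ∈ center _ := mem_center_iff.2 fun y => by
        obtain ⟨y, rfl⟩ := e'.surjective y
        rw [← map_mul, ← map_mul]
        exact congrArg e' (Subtype.ext (h6 y y.2))
      have h8 : (⟨x, hx⟩ * ⟨x, hx⟩ : J) = 1 := e'.injective (by
        rw [map_mul, map_one]
        rcases PSL2.mem_center_SL2_iff.1 h7 with e | e <;> simp [e])
      rw [← map_mul, show x * x = 1 from congrArg Subtype.val h8, map_one]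
    · have : x ∈ 𝐂(J) := fun y _ => hv (by rcases e with e | e <;> simp [e])
      rw [← h1] at this
      exact this
  have hM : M = ⊥ := by
    by_contra h0
    obtain ⟨r, hr, hd⟩ := Nat.exists_prime_and_dvd (mt card_eq_one.1 h0)
    have := Fact.mk hr
    obtain ⟨m, hm⟩ := exists_prime_orderOf_dvd_card' r hd
    exact h.not_cent hv hr (((h5.coprime_dvd_left hd).pow_right 2).coprime_dvd_right (by norm_num))
      (h3 m.2) (by rwa [orderOf_coe])
  rw [hM, sup_bot_eq] at h4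
  have := h.eq_top hv (by rw [h1]; exact le_sup_right.trans h4.ge)
  subst this
  exact ⟨topEquiv.symm.trans e'⟩

end Cfsg.Agent.S4294
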