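import Cfsg.Statements.S4330
import Cfsg.Agent.Lib.Coprime.MovedVec2
import Cfsg.Agent.Lib.Core.Fitting

set_option autoImplicit false
open Pointwise
open Cfsg

namespace Cfsg.Agent.S4330

open Subgroup Cfsg.Lib.Core
open scoped commutatorElement Pointwise IsMulCommutative

universe u

theorem aux (p : ℕ) [hp : Fact p.Prime] (hp2 : p ≠ 2) (n : ℕ) : ∀ (G : Type u) [Group G] [Finite G],
    Nat.card G = n → Group.IsSolvable G → ∀ A : Subgroup G,
    (∀ c : G, ∃ g : G, IsConj c g ∧ IsPGroup p ↥(A ⊔ A.map (MulAut.conj g).toMonoidHom)) →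
    A ≤ pCore p G := by
  induction n using Nat.strong_induction_on with
  | _ n ih =>
  intro G _ _ hn hs A h
  rcases subsingleton_or_nontrivial G with hG | hG
  · exact (Subsingleton.elim _ _).le
  obtain ⟨N, q, hN, hq, hel⟩ := exists_isMinNormal_elementary (G := G)
  haveI := hN.normal
  have hA : IsPGroup p A := by
    obtain ⟨g, -, hg⟩ := h 1
    exact hg.to_le le_sup_left
  have hlt : Nat.card (G ⧸ N) < n := by
    rw [← hn, ← N.card_mul_index, ← index_eq_card]
    have := (one_lt_card_iff_ne_bot N).2 hN.ne_bot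
    have h0 : 0 < N.index := Nat.pos_of_ne_zero index_ne_zero_of_finite
    nlinarith
  have h1 := ih _ hlt (G ⧸ N) rfl inferInstance (A.map (QuotientGroup.mk' N)) (fun c => by
    obtain ⟨c, rfl⟩ := QuotientGroup.mk'_surjective N c
    obtain ⟨g, h1, h2⟩ := h c
    refine ⟨QuotientGroup.mk' N g, MonoidHom.map_isConj _ h1, (h2.map (QuotientGroup.mk' N)).to_le ?_⟩
    rw [Subgroup.map_sup]
    refine sup_le_sup_left ?_ _
    rintro _ ⟨_, ⟨a, ha, rfl⟩, rfl⟩
    exact ⟨_, ⟨a, ha, rfl⟩, by simp⟩)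
  rw [map_le_iff_le_comap] at h1
  by_cases hqp : q = p
  · subst hqp
    rwa [comap_pCore_mk' N (isPGroup_of_isElementaryAbelian hel)] at h1
  haveI := hel.1
  have hV : ∀ v : N, v ^ p = 1 → v = 1 := fun v hv => by
    have h2 : v ^ q = 1 := Subtype.ext (hel.2 v v.2)
    have h3 := pow_gcd_eq_one.2 ⟨hv, h2⟩
    rwa [(Nat.coprime_primes hp.out hq).2 (Ne.symm hqp), pow_one] at h3
  letI : MulDistribMulAction G N := MulDistribMulAction.compHom N (MulAut.conjNormal : G →* MulAut N)
  have hsm : ∀ (g : G) (v : N), ((g • v : N) : G) = g * v * g⁻¹ := fun _ _ => rfl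
  have hAC : A ≤ centralizer (N : Set G) := by
    intro a ha
    by_contra hcon
    obtain ⟨v, hv⟩ := Cfsg.Lib.MovedVec.claim hp2 _ N rfl hV G
      ((pCore p (G ⧸ N)).comap (QuotientGroup.mk' N)) (fun r hr => by
        obtain ⟨k, hk⟩ := pCore_isPGroup p (G ⧸ N) ⟨_, hr⟩
        refine ⟨k, fun v => Subtype.ext ?_⟩
        have h2 : r ^ p ^ k ∈ N := by
          rw [← QuotientGroup.eq_one_iff, QuotientGroup.mk_pow]
          exact congrArg Subtype.val hk
        rw [hsm, mul_inv_eq_iff_eq_mul]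
        exact congrArg Subtype.val (mul_comm (⟨_, h2⟩ : N) v)) a (h1 ha) (by
          by_contra h2
          push Not at h2
          refine hcon fun v hv => ?_
          have := congrArg Subtype.val (h2 ⟨v, hv⟩)
          rw [hsm, mul_inv_eq_iff_eq_mul] at this
          exact this.symm)
    obtain ⟨g, h2, h3⟩ := h v
    obtain ⟨t, rfl⟩ := isConj_iff.1 h2
    have hg : t * v * t⁻¹ ∈ N := hN.normal.conj_mem _ v.2 t
    have h4 : ⁅t * v * t⁻¹, a⁆ ∈ N := by
      rw [commutatorElement_def, mul_assoc, mul_assoc]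
      refine mul_mem hg ?_
      rw [← mul_assoc]
      exact hN.normal.conj_mem _ (inv_mem hg) a
    obtain ⟨k, hk⟩ := h3 ⟨⁅t * v * t⁻¹, a⁆, by
      rw [commutatorElement_def]
      exact mul_mem (mem_sup_right ⟨a, ha, rfl⟩) (mem_sup_left (inv_mem ha))⟩
    have h5 := Cfsg.Lib.MovedVec.eq_one_of_pow_pow hV (v := ⟨_, h4⟩) (k := k)
      (Subtype.ext (congrArg Subtype.val hk :))
    have h6 := commutatorElement_eq_one_iff_mul_comm.1 (congrArg Subtype.val h5 :)
    refine hv t⁻¹ (Subtype.ext ?_)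
    rw [hsm]
    calc t⁻¹ * a * t⁻¹⁻¹ * v * (t⁻¹ * a * t⁻¹⁻¹)⁻¹ = t⁻¹ * (a * (t * v * t⁻¹)) * a⁻¹ * t := by group
      _ = v := by rw [← h6]; group
  obtain ⟨D, hD⟩ : ∃ D : Subgroup G, D = (pCore p (G ⧸ N)).comap (QuotientGroup.mk' N) ⊓
    centralizer (N : Set G) := ⟨_, rfl⟩
  have hDn : D.Normal := by rw [hD]; infer_instance
  haveI := (pCore_isPGroup p (G ⧸ N)).isNilpotent
  have hnil : Group.IsNilpotent D := by
    refine Subgroup.isNilpotent_of_ker_le_center (((QuotientGroup.mk' N).comp D.subtype).codRestrict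
      (pCore p (G ⧸ N)) fun x => (hD.le x.2).1) fun x hx => ?_
    rw [mem_center_iff]
    intro y
    have h2 : (x : G) ∈ N := (QuotientGroup.eq_one_iff _).1 (congrArg Subtype.val hx)
    exact Subtype.ext ((hD.le y.2).2 x h2).symm
  exact le_pCore_of_le_fittingSubgroup (((le_inf h1 hAC).trans hD.ge).trans
    (le_fittingSubgroup hDn hnil)) hA

/-- Let G be a finite solvable group, p an odd prime and A a p-subgroup of G such that every conjugacy class of G contains an element g for which A is subnormal in the subgroup generated by A and its conjugate by g. Then A is contained in O_p(G). (The hypothesis that p is odd is needed.) -/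
theorem result {G : Type*} [Group G] [Finite G]
    (hG : Group.IsSolvable G) (p : ℕ) [Fact p.Prime] (hp : p ≠ 2) (A : Subgroup G) (hA : IsPGroup p A)
    (h : ∀ c : G, ∃ g : G, IsConj c g ∧ (A.subgroupOf (A ⊔ MulAut.conj g • A)).IsSubnormal) :
    A ≤ Cfsg.pCore p G := by
  refine aux p hp _ G rfl hG A fun c => ?_
  obtain ⟨g, h1, h2⟩ := h c
  refine ⟨g, h1, ?_⟩
  change IsPGroup p ↥(A ⊔ MulAut.conj g • A)
  have h3 := le_pCore_of_isSubnormal h2 (hA.of_equiv (subgroupOfEquivOfLe le_sup_left).symm)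
  have h4 : IsPGroup p ↥(MulAut.conj g • A) := hA.map _
  have h5 := isPGroup_sup_pCore (h4.of_equiv (subgroupOfEquivOfLe
    (le_sup_right : MulAut.conj g • A ≤ A ⊔ MulAut.conj g • A)).symm)
  refine (h5.to_le (K := _) (H := ⊤) ?_).of_equiv topEquiv
  rw [← subgroupOf_self, subgroupOf_sup le_sup_left le_sup_right]
  exact sup_le (h3.trans le_sup_right) le_sup_left

end Cfsg.Agent.S4330
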