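import Cfsg.Statements.S4331
import Cfsg.Agent.Lib.Mathieu.Index2
import Cfsg.Agent.Lib.Grp.Mat
import Cfsg.Agent.Lib.Char.Burnside
import Cfsg.Agent.Lib.Core.Subnormal
import Cfsg.Agent.Lib.Core.PCore

set_option autoImplicit false
open Cfsg

namespace Cfsg.Agent.S4331

open Cfsg.Lib Cfsg.Lib.Calc Cfsg.Lib.Grp Cfsg.Lib.Mathieu MulAction Subgroup

set_option maxRecDepth 100000

/-- chain for the group of order 144 -/
def LG : List (ℕ × List ℕ) := [(1, [36344967696, 13540677696, 23660532576, 26375062896, 14798907396, 35743077936, 14500173186, 28034863956, 32317452576]),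
   (3, [36344967696, 22607782416, 27786498066, 31409455896, 14049312786, 10275324696, 1464215571, 19329676821]),
   (0, [36344967696, 34986800916])]
/-- chain for a Sylow 2-subgroup -/
def LS : List (ℕ × List ℕ) := [(1, [36344967696, 13540677696, 23660532576, 26375062896, 35743077936, 32317452576, 13290063696, 9519060096]),
   (3, [36344967696, 22607782416])]
/-- conjugating elements -/
def ks : List ℕ := [36344967696, 31409455896, 25828677396, 10275324696, 15056523846, 30657613896, 10066551111, 308773701, 14798907396, 13540677696, 5992773696, 36341613891, 35741960001]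

theorem main {T X : Type} [Group T] [MulAction T X] [Finite T] {pt : ℕ → X} (hi : Inj 9 pt) (hf : Faithful T 9 pt)
    (hL : Chn 9 4 pt LG (⊤ : Subgroup T)) (h : In 9 4 pt (⊤ : Subgroup T) (22607782416 :: 8867243331 :: (ks ++ flat LS))) :
    ∃ A : Subgroup T, Group.IsSolvable T ∧ Nat.card A = 2 ∧
      (∀ c : T, ∃ g : T, IsConj c g ∧ (A.subgroupOf (A ⊔ zpowers g)).IsSubnormal) ∧ ¬A ≤ pCore 2 T := by
  haveI : Fact (Nat.Prime 2) := ⟨by norm_num⟩
  obtain ⟨t, -, ht⟩ := h _ List.mem_cons_self
  obtain ⟨u, -, hu⟩ := h _ (List.mem_cons_of_mem _ List.mem_cons_self)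
  have cS := Chn.of_schOK hi hf (by decide) (by decide) (L := LS) (h.sub (by decide +kernel)) (by decide +kernel)
  have pS := IsPGroup.of_card (p := 2) (n := 4) ((cS.card hi).trans (by decide +kernel))
  have tS := cS.tst hi hf (by decide) (by decide)
  refine ⟨zpowers t, Char.isSolvable_of_card_dvd_pow_mul_pow T (a := 4) (b := 2) Nat.prime_two Nat.prime_three
    (by rw [← card_top, hL.card hi]; decide +kernel), (Nat.card_zpowers _).trans
    ((orderOf_eq_ordC hi hf (by decide) ht (B := 4) (by decide +kernel)).trans (by decide +kernel)), fun c => ?_, fun e => ?_⟩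
  · obtain ⟨d, hd⟩ := hL.exists_rep (by decide) (mem_top c)
    obtain ⟨k, a, b⟩ := Grp.anyL_iff.1 (forall_ch hi hf (by decide) (by decide) (keep := fun _ _ => true) (fun _ => True)
      (fun _ _ _ _ _ _ _ => rfl) hL.wk hL.st (B := fun d => Grp.anyL ks fun k => band (invB 9 4 k)
        (bor (memCh 9 4 LS (cjC 9 4 k d)) (trP 9 4 22607782416 22607782416 (cjC 9 4 k d)))) (by decide +kernel) (mem_top c) trivial hd)
    obtain ⟨g, -, hg⟩ := h.sub (l' := ks) (by decide +kernel) k a
    rw [band_eq_true, bor_eq_true] at b
    have r := hg.cjC (by decide) b.1 hd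
    refine ⟨_, isConj_iff.2 ⟨g, rfl⟩, ?_⟩
    rcases b.2 with b | b
    · haveI := (pS.to_le (sup_le (zpowers_le.2 ((tS _ _ ht).2 (by decide +kernel))) (zpowers_le.2 ((tS _ _ r).2 b)))).isNilpotent
      exact Core.isSubnormal_of_isNilpotent _
    · refine Normal.isSubnormal (normal_subgroupOf_of_le_normalizer (sup_le le_normalizer (zpowers_le.2
        (mem_normalizer_zpowers_of_eq (k := 1) ?_))))
      rw [(trP_iff hi hf ht ht r).2 b, mul_inv_cancel_right, pow_one]
  · have a := e (mem_zpowers t)
    obtain ⟨k, hk⟩ := (Core.pCore_isPGroup 2 T).exists_orderOf_eq_pow ⟨_, mul_mem a (Normal.conj_mem inferInstance _ a u)⟩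
    rw [orderOf_mk, orderOf_eq_ordC hi hf (by decide) (ht.mul (hu.cjC (by decide) (by decide +kernel) ht)) (B := 4)
      (by decide +kernel), show ordC _ _ _ _ = 3 by decide +kernel] at hk
    exact absurd ((Nat.prime_dvd_prime_iff_eq Nat.prime_three Nat.prime_two).1 (Nat.prime_three.dvd_of_dvd_pow hk.dvd)) (by decide)

/-- There is a finite solvable group G with a subgroup A of order 2 such that every conjugacy class of G contains an element g for which A is subnormal in the subgroup generated by A and g, and yet A is not contained in O_2(G). (So the corresponding criteria for odd primes fail at the prime 2, even for solvable groups.) -/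
theorem result :
    ∃ (G : Type) (_ : Group G) (_ : Finite G) (A : Subgroup G), Group.IsSolvable G ∧ Nat.card A = 2 ∧
      (∀ c : G, ∃ g : G, IsConj c g ∧ (A.subgroupOf (A ⊔ Subgroup.zpowers g)).IsSubnormal) ∧
      ¬ A ≤ Cfsg.pCore 2 G := by
  have c := Chn.of_schOK (w := 4) (inj_finPt 9) (faithful_finPt 9) (by decide) (by decide) (L := LG)
    (top_list (perm_list (by decide +kernel))) (by decide +kernel)
  exact ⟨_, inferInstance, inferInstance, main (inj_finPt 9) (fun g hg => Subtype.ext (faithful_finPt 9 _ hg))
    (c.transfer (fun g hg => Subtype.ext (faithful_finPt 9 _ hg)) (same_top _)) ((same_top _).list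
      ((c.tst (inj_finPt 9) (faithful_finPt 9) (by decide) (by decide)).list' (top_list (perm_list (by decide +kernel)))
        (by decide +kernel)))⟩

end Cfsg.Agent.S4331
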