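import Cfsg.Statements.S4332
import Cfsg.Agent.Lib.Perm.Sym2
import Cfsg.Agent.Lib.Core.PCore

set_option autoImplicit false
open Pointwise
open Cfsg

namespace Cfsg.Agent.S4332

open Cfsg.Lib Cfsg.Lib.Perm Equiv Equiv.Perm

theorem exists_commute (c : Perm (Fin 8)) : ∃ τ : Perm (Fin 8), τ.IsThreeCycle ∧ Commute τ (c * τ * c⁻¹) := by
  suffices ∃ x y z : Fin 8, x ≠ y ∧ x ≠ z ∧ y ≠ z ∧
      Commute (swap x y * swap x z) (c * (swap x y * swap x z) * c⁻¹) by
    obtain ⟨x, y, z, h1, h2, h3, h⟩ := this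
    exact ⟨_, isThreeCycle_swap_mul_swap_same h1 h2 h3, h⟩
  have e : ∀ x y z, c * (swap x y * swap x z) * c⁻¹ = swap (c x) (c y) * swap (c x) (c z) := fun x y z => by
    rw [swap_apply_apply, swap_apply_apply]; group
  by_cases h : 2 < c.supportᶜ.card
  · obtain ⟨x, hx, y, hy, z, hz, h⟩ := Finset.two_lt_card.1 h
    rw [Finset.mem_compl, notMem_support] at hx hy hz
    exact ⟨x, y, z, h.1, h.2.1, h.2.2, by rw [e, hx, hy, hz]⟩
  rw [Finset.card_compl, Fintype.card_fin] at h
  obtain ⟨x, hx⟩ := Finset.card_pos.1 (show 0 < c.support.card by omega)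
  have hx' := mem_support.1 hx
  by_cases h3 : c (c (c x)) = x
  · have h2 : c (c x) ≠ x := fun e => hx' (by rwa [e] at h3)
    refine ⟨x, c x, c (c x), hx'.symm, h2.symm, (c.injective.ne hx').symm, ?_⟩
    rw [e, h3, swap_comm (c x) x, mul_swap_eq_swap_mul, swap_apply_left,
      swap_apply_of_ne_of_ne h2 (c.injective.ne hx')]
  have card6 : ∀ s : Finset (Fin 8), s.card ≤ 5 → ∃ z, c z ≠ z ∧ z ∉ s := fun s hs => by
    obtain ⟨z, h1, h2⟩ := Finset.exists_mem_notMem_of_card_lt_card (show s.card < c.support.card by omega)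
    exact ⟨z, mem_support.1 h1, h2⟩
  obtain ⟨y, hy, hy', hs⟩ : ∃ y, c y ≠ y ∧ y ∉ ({x, c x, c⁻¹ x} : Finset _) ∧
      ({x, c x, c⁻¹ x, y, c y, c⁻¹ y} : Finset _).card ≤ 5 := by
    by_cases h2 : c (c x) = x
    · obtain ⟨y, h1, hy⟩ := card6 {x, c x, c⁻¹ x} (Finset.card_le_three.trans (by norm_num))
      refine ⟨y, h1, hy, ?_⟩
      rw [Finset.insert_comm, Finset.insert_comm x, show c⁻¹ x = c x from by
        rw [Perm.inv_eq_iff_eq, h2], Finset.insert_idem]
      exact Finset.card_le_five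
    · refine ⟨c (c x), c.injective.ne (c.injective.ne hx'), ?_, ?_⟩
      · simp [h2, hx', h3, Equiv.eq_symm_apply]
      · rw [show c⁻¹ (c (c x)) = c x from c.symm_apply_apply _, Finset.insert_comm x, Finset.insert_eq_of_mem (by simp)]
        exact Finset.card_le_five
  obtain ⟨z, hz, hz'⟩ := card6 _ hs
  simp only [Finset.mem_insert, Finset.mem_singleton, not_or, Perm.eq_inv_iff_eq] at hy' hz'
  refine ⟨x, y, z, Ne.symm hy'.1, Ne.symm hz'.1, Ne.symm hz'.2.2.2.1, commute_of_three ?_⟩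
  simp only [List.mem_cons, List.not_mem_nil, or_false, forall_eq_or_imp, forall_eq]
  tauto

/-- In the symmetric group of degree 8, let A be the subgroup generated by a 3-cycle. Then every conjugacy class contains an element g for which A is subnormal in the subgroup generated by A and its conjugate by g, although O_3 of the symmetric group of degree 8 is trivial. -/
theorem result
    (σ : Equiv.Perm (Fin 8)) (hσ : σ.IsThreeCycle) :
    (∀ c : Equiv.Perm (Fin 8), ∃ g : Equiv.Perm (Fin 8), IsConj c g ∧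
      ((Subgroup.zpowers σ).subgroupOf (Subgroup.zpowers σ ⊔ MulAut.conj g • Subgroup.zpowers σ)).IsSubnormal) ∧
    Cfsg.pCore 3 (Equiv.Perm (Fin 8)) = ⊥ := by
  refine ⟨fun c => ?_, Core.pCore_eq_bot_iff.2 fun N hN h => ?_⟩
  · obtain ⟨τ, hτ, h⟩ := exists_commute c
    obtain ⟨k, rfl⟩ := isConj_iff.1 (isConj_iff_cycleType_eq.2 (hτ.cycleType.trans hσ.cycleType.symm))
    refine ⟨k * c * k⁻¹, isConj_iff.2 ⟨k, rfl⟩, Subgroup.Normal.isSubnormal ?_⟩
    refine (Subgroup.normal_subgroupOf_iff_le_normalizer le_sup_left).2 (sup_le Subgroup.le_normalizer ?_)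
    refine (MonoidHom.map_zpowers _ _).trans_le (Subgroup.zpowers_le.2 ?_)
    refine Subgroup.centralizer_le_normalizer _ ?_
    rintro _ ⟨n, rfl⟩
    refine Commute.zpow_left ?_ n
    have := h.map (MulAut.conj k)
    change Commute (k * τ * k⁻¹) (k * c * k⁻¹ * (k * τ * k⁻¹) * (k * c * k⁻¹)⁻¹)
    simpa [mul_assoc] using this
  by_contra hN1
  have : MulAction.IsPretransitive N (Fin 8) := isPretransitive_of_normal N hN1
  have := (MulAction.stabilizer N (0 : Fin 8)).index_dvd_card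
  rw [MulAction.index_stabilizer_of_transitive, Nat.card_eq_fintype_card, Fintype.card_fin] at this
  obtain ⟨k, hk⟩ := IsPGroup.iff_card.1 h
  exact absurd (Nat.prime_two.dvd_of_dvd_pow (hk ▸ (by norm_num : 2 ∣ 8).trans this)) (by norm_num)

end Cfsg.Agent.S4332
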