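import Cfsg.Statements.S4333
import Cfsg.Agent.Lib.BG.Hall
import Cfsg.Agent.Lib.Core.Subnormal

set_option autoImplicit false
open Pointwise
open Cfsg

namespace Cfsg.Agent.S4333

/-- Let A be a subgroup of a finite group G. If A is subnormal in the subgroup generated by A and its conjugate by g⁻¹ a g, for every a ∈ A and every g ∈ G, then A is subnormal in G. (A sharpening of Wielandt's subnormality criterion: only conjugates of A by conjugates of elements of A are needed.) -/
theorem result {G : Type*} [Group G] [Finite G]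
    (A : Subgroup G)
    (h : ∀ a ∈ A, ∀ g : G, (A.subgroupOf (A ⊔ MulAut.conj (g⁻¹ * a * g) • A)).IsSubnormal) :
    A.IsSubnormal := by
  open Subgroup Cfsg.Lib Cfsg.Lib.BG Cfsg.Lib.Transfer in
  open Cfsg.Lib.Core in
  suffices ∀ H, A ≤ H → SubnormalIn A H from subnormalIn_top.1 (this ⊤ le_top)
  intro H
  induction H using WellFoundedLT.induction with
  | ind H ih =>
  intro hH
  by_contra hn
  obtain ⟨M, hM, h1⟩ := zipper hH (fun K h1 h2 => ih K h2 h1) hn
  have hAM : A ≤ M := h1 A le_rfl (lt_of_le_of_ne hH fun e => hn (e ▸ SubnormalIn.refl A))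
  have h2 : H ⊓ 𝐍(M) ≤ M := h1 _ (le_inf hH (hAM.trans (le_norm M))) (inf_lt_left.2 fun e =>
    hn ((ih M hM hAM).tail hM.le e))
  have h3 : ⨆ x : H, (x : G) ⋆ A ≤ M := iSup_le fun g => by
    rintro _ ⟨a, ha, rfl⟩
    have hx : (g : G) * a * (g : G)⁻¹ ∈ H := conj_mem_of_norm (le_norm H g.2) (hH ha)
    have h4 := (isSubnormal_subgroupOf_iff le_sup_left).1 (h a ha (g : G)⁻¹)
    rw [inv_inv] at h4
    change SubnormalIn A (A ⊔ (g * a * (g : G)⁻¹) ⋆ A) at h4
    change (g : G) * a * (g : G)⁻¹ ∈ M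
    generalize (g : G) * a * (g : G)⁻¹ = x at hx h4
    have h5 : x ⋆ A ≤ M := le_sup_right.trans (h1 _ le_sup_left (lt_of_le_of_ne
      (sup_le hH (conj_le_of_norm hH (le_norm H hx))) fun e => hn (e ▸ h4)))
    refine h2 ⟨hx, (inv_mem_iff (H := 𝐍(M))).1 (norm_of_conj_eq (eq_of_le_of_card_le (h1 _ ?_ ?_) (card_conj _ _).ge))⟩
    · exact fun y hy => mem_conj.2 (by simpa using h5 (mem_map_of_mem _ hy))
    · exact lt_of_le_of_ne (conj_le_of_norm hM.le (le_norm H (inv_mem hx))) fun e =>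
        (card_lt_of_lt hM).ne (by rw [← e, card_conj])
  exact hn ((ih _ (h3.trans_lt hM) (le_iSup_conj A H)).tail (h3.trans hM.le) (le_normalizer_iSup_conj A H))

end Cfsg.Agent.S4333
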