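import Cfsg.Statements.S4334
import Cfsg.Agent.Lib.BG.Hall
import Cfsg.Agent.Lib.Transfer.Criteria

set_option autoImplicit false
open Cfsg

namespace Cfsg.Agent.S4334

open Subgroup Cfsg.Lib Cfsg.Lib.BG Cfsg.Lib.Transfer in
theorem main {G : Type*} [Group G] [Finite G]
    (σ τ : Set ℕ) (hd : Disjoint σ τ) (Hs Ht : Subgroup G) (hH : Hall (σ ∪ τ) (Hs ⊔ Ht) ⊤)
    (hs : PiGrp σ Hs) (ht : PiGrp τ Ht) (hsn : Group.IsNilpotent Hs)
    (hcomm : Hs ≤ 𝐂(Ht)) (hD : Cfsg.IsDPiGroup τ G) (K : Subgroup G) (hK : PiGrp (σ ∪ τ) K) :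
    ∃ g : G, K ≤ g ⋆ (Hs ⊔ Ht) := by
  have hts : PiGrp σᶜ Ht := ht.mono fun q hq hq' => Set.disjoint_left.1 hd hq' hq
  have hsd : SD Hs Ht (Hs ⊔ Ht) := ⟨norm_of_cent (cent_symm hcomm), hs.inf_eq_bot hts, rfl⟩
  obtain ⟨h1, h2⟩ := Hall.of_sd hsd hs hts
  have h1' : Hall σ Hs ⊤ := h1.trans hH Set.subset_union_left
  have h2' : Hall τ Ht ⊤ := (h2.congr fun q hq hqd => ⟨fun h => (hH.pi q hq hqd).resolve_left h,
    fun h h' => Set.disjoint_left.1 hd h' h⟩).trans hH Set.subset_union_right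
  -- Sylow subgroups
  have hP : ∀ p : ℕ, p.Prime → p ∈ σ → ∃ P : Subgroup G, Syl p P ⊤ ∧ P ≤ Hs ∧ Hs ⊔ Ht ≤ 𝐍(P) ∧
      ∀ r : ℕ, r.Prime → r ∈ σ ∪ τ → r ≠ p → ∃ R : Subgroup G, Syl r R ⊤ ∧ R ≤ 𝐂(P) := by
    intro p hp hpσ
    haveI := Fact.mk hp
    obtain ⟨P, hP⟩ := Syl.exists (p := p) Hs
    refine ⟨P, hP.of_Hall h1' hpσ, hP.le, sup_le (hP.nml_of_nil hsn).norm
      (norm_of_cent (cent_symm (hP.le.trans hcomm))), fun r hr hrπ hrp => ?_⟩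
    haveI := Fact.mk hr
    rcases hrπ with h | h
    · obtain ⟨R, hR⟩ := Syl.exists (p := r) Hs
      exact ⟨R, hR.of_Hall h1' h, nil_cent_of_coprime hsn hR.le hP.le
        (coprime_pgroups hR.pgroup hP.pgroup hrp)⟩
    · obtain ⟨R, hR⟩ := Syl.exists (p := r) Ht
      exact ⟨R, hR.of_Hall h2' h, hR.le.trans (cent_symm (hP.le.trans hcomm))⟩
  have hA : ∀ p : ℕ, p.Prime → p ∈ σ → ∀ Q U : Subgroup G, IsPGroup p Q → PiGrp (σ ∪ τ) U →
      PiGrp {p}ᶜ U → U ≤ 𝐍(Q) → U ≤ 𝐂(Q) := by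
    intro p hp hpσ Q U hQ hU hU' hn
    haveI := Fact.mk hp
    obtain ⟨P, hP, -, -, hR⟩ := hP p hp hpσ
    obtain ⟨x, -, hx⟩ := hP.exists_le_conj hQ le_top
    refine Syl.le_of_forall fun r hr hrd => ?_
    haveI := Fact.mk hr
    obtain ⟨R, hR1⟩ := Syl.exists (p := r) U
    obtain ⟨R0, h3, h4⟩ := hR r hr (hU r hr hrd) (hU' r hr hrd)
    have h5 : x ⋆ R0 ≤ 𝐂(Q) := (conj_mono x h4).trans (by rw [conj_centralizer]; exact cent_anti hx)
    have h6 : Syl r (x ⋆ R0) 𝐍(Q) := (h3.conj_top x).of_le (norm_of_cent h5) le_top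
    obtain ⟨n, hn', h7⟩ := Syl.exists_le_conj h6 hR1.pgroup (hR1.le.trans hn)
    exact ⟨R, hR1, h7.trans (conj_le_of_norm h5 (norm_cent le_rfl hn'))⟩
  induction hn : Nat.card K using Nat.strong_induction_on generalizing K with | _ n ih
  by_cases hτ : PiGrp τ K
  · obtain ⟨M, h3, h4⟩ : ∃ M, K ≤ M ∧ Maximal (IsPiSubgroup τ) M := Finite.exists_le_maximal hτ
    have h5 : Maximal (IsPiSubgroup τ) Ht :=
      ⟨ht, fun U hU hle => (h2'.eq_of_le hle le_top hU).ge⟩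
    obtain ⟨g, rfl⟩ := hD Ht M h5 h4
    exact ⟨g, h3.trans (conj_mono g le_sup_right)⟩
  obtain ⟨p, hp, hpd, hpτ⟩ : ∃ p : ℕ, p.Prime ∧ p ∣ Nat.card K ∧ p ∉ τ := by
    by_contra h
    push Not at h
    exact hτ h
  have hpσ : p ∈ σ := (hK p hp hpd).resolve_right hpτ
  haveI := Fact.mk hp
  have hnpc : HasNormalPComplement p K := by
    refine hasNormalPComplement_subgroup_iff.2 fun Q _ hQ g hg hgn hc => ?_
    refine zpowers_le.1 (hA p hp hpσ Q (zpowers g) hQ (hK.of_le (zpowers_le.2 hg)) ?_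
      (zpowers_le.2 hgn))
    exact PiElt.zpowers (PiNat.p'_iff_coprime.2 hc)
  have hL := hasNormalPComplement_iff.1 hnpc
  set L := 𝐎({p}ᶜ, K) with hLdef
  have hLn : Nml L K := pcore_nml _ _
  have hlt : Nat.card L < n := by
    rw [← hn]
    refine lt_of_le_of_ne (card_le_of_le hL.le) fun e => ?_
    exact (PiGrp.p'_iff.1 hL.pi) (e ▸ hpd)
  obtain ⟨g, hg⟩ := ih _ hlt L (hK.of_le hL.le) rfl
  obtain ⟨P, hP1, hP2, hP3, -⟩ := hP p hp hpσ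
  have h3 : L ≤ 𝐂(g ⋆ P) := hA p hp hpσ _ _ (hP1.conj_top g).pi.pgroup (hK.of_le hL.le) hL.pi
    (hg.trans (by rw [← conj_normalizer]; exact conj_mono g hP3))
  have h4 : Syl p (g ⋆ P) 𝐍(L) := (hP1.conj_top g).of_le (norm_of_cent (cent_symm h3)) le_top
  obtain ⟨S, hS⟩ := Syl.exists (p := p) K
  obtain ⟨m, hm, h5⟩ := Syl.exists_le_conj h4 hS.pgroup (hS.le.trans hLn.norm)
  refine ⟨m * g, ?_⟩
  rw [← hS.sup_eq hL.le (by simpa using hL.idx), ← conj_conj]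
  refine sup_le ?_ (h5.trans (conj_mono m (conj_mono g (hP2.trans le_sup_left))))
  rw [← conj_eq_of_norm hm]
  exact conj_mono m hg

/-- Let σ and τ be disjoint sets of primes with union π. Suppose a finite group G has a Hall π-subgroup H which is the direct product of a nilpotent σ-subgroup and a τ-subgroup (two elementwise-commuting subgroups generating H), and that the maximal τ-subgroups of G are pairwise conjugate. Then the maximal π-subgroups of G are pairwise conjugate. -/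
theorem result {G : Type*} [Group G] [Finite G]
    (σ τ π : Set ℕ) (hπ : π = σ ∪ τ) (hd : Disjoint σ τ) (H Hs Ht : Subgroup G) (hH : Cfsg.IsPiHall π H)
    (hs : Cfsg.IsPiSubgroup σ Hs) (ht : Cfsg.IsPiSubgroup τ Ht) (hsn : Group.IsNilpotent Hs)
    (hjoin : Hs ⊔ Ht = H) (hcomm : ∀ a ∈ Hs, ∀ b ∈ Ht, a * b = b * a) (hD : Cfsg.IsDPiGroup τ G) :
    Cfsg.IsDPiGroup π G := by
  subst hπ hjoin
  have hH' : Cfsg.Lib.BG.Hall (σ ∪ τ) (Hs ⊔ Ht) ⊤ := Cfsg.Lib.BG.Hall.top_iff.2 hH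
  have key : ∀ K : Subgroup G, Maximal (IsPiSubgroup (σ ∪ τ)) K →
      ∃ g : G, K = (Hs ⊔ Ht).map (MulAut.conj g).toMonoidHom := fun K hK => by
    obtain ⟨g, hg⟩ := main σ τ hd Hs Ht hH' hs ht hsn (Cfsg.Lib.BG.le_cent_iff.2 hcomm) hD K hK.1
    exact ⟨g, hK.eq_of_le (hH'.pi.conj g) hg⟩
  intro K1 K2 h1 h2
  obtain ⟨g1, rfl⟩ := key K1 h1
  obtain ⟨g2, rfl⟩ := key K2 h2
  refine ⟨g2 * g1⁻¹, ?_⟩
  rw [Cfsg.Lib.Transfer.conj_conj, inv_mul_cancel_right]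

end Cfsg.Agent.S4334
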