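import Cfsg.Statements.S4337
import Cfsg.Agent.Lib.Perm.Sym2
import Cfsg.Agent.Lib.Char.Burnside

set_option autoImplicit false
open Cfsg

namespace Cfsg.Agent.S4337

open Cfsg.Lib Cfsg.Lib.Perm

/-- In a finite symmetric group, any three transpositions generate a solvable subgroup. -/
theorem result (n : ℕ) (a b c : Equiv.Perm (Fin n))
    (ha : a.IsSwap) (hb : b.IsSwap) (hc : c.IsSwap) :
    Group.IsSolvable (Subgroup.closure ({a, b, c} : Set (Equiv.Perm (Fin n)))) := by
  refine Char.isSolvable_of_forall_prime_dvd _ 2 3 fun r hr h => ?_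
  obtain ⟨x, hx⟩ := exists_le_ncard_orbit (Ω := Fin n) hr h
  have := ncard_orbit_le_of_swaps ![a, b, c] (fun i => by fin_cases i <;> assumption) x
  rw [show Set.range ![a, b, c] = {a, b, c} by
    rw [Matrix.range_cons, Matrix.range_cons, Matrix.range_cons, Matrix.range_empty, Set.union_empty]
    rfl] at this
  have h4 : r ≤ 4 := hx.trans (by simpa using this)
  have := hr.two_le
  interval_cases r <;> simp_all (config := {decide := true})

end Cfsg.Agent.S4337
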