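import Cfsg.Statements.S4342
import Cfsg.Agent.Lib.FGS.Sylow
import Cfsg.Agent.Lib.BG.Basic

set_option autoImplicit false
open Cfsg

namespace Cfsg.Agent.S4342

/-- Let H be a normal subgroup of a finite group G and p a prime not dividing the index of H. Then the number of Sylow p-subgroups of H/Z(H) equals the number of Sylow p-subgroups of G. -/
theorem result {G : Type*} [Group G] [Finite G]
    (p : ℕ) [Fact p.Prime] (H : Subgroup G) [H.Normal] (hp : ¬ p ∣ H.index) :
    Nat.card (Sylow p (H ⧸ Subgroup.center H)) = Nat.card (Sylow p G) := by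
  open Cfsg.Lib.FGS Cfsg.Lib.BG in
  obtain ⟨P, hP⟩ := exists_sylow_le_of_not_dvd_index hp
  have hall : ∀ Q : Sylow p G, (Q : Subgroup G) ≤ H := fun Q =>
    (PiGrp.of_pgroup (π := {p}) Q.isPGroup' rfl).le_of_relIndex (M := ⊤) le_top
      (by rw [Subgroup.normalizer_eq_top]) (by rw [Subgroup.relIndex_top_right]; exact PiNat.p'_iff.2 hp)
  rw [card_sylow_quotient (P.subtype hP), sup_eq_left.2 (Subgroup.center_le_normalizer _), ← card_sylow_eq_index]
  refine (Nat.card_congr (Equiv.ofBijective (fun Q : Sylow p G => Q.subtype (hall Q)) ⟨?_, ?_⟩)).symm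
  · intro Q R h
    exact Sylow.subtype_injective h
  · intro Q
    obtain ⟨R, hR⟩ := Q.exists_comap_subtype_eq
    exact ⟨R, Sylow.ext hR⟩

end Cfsg.Agent.S4342
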