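import Cfsg.Statements.S4345
import Cfsg.Agent.Lib.BG.Hall

set_option autoImplicit false
open Cfsg

namespace Cfsg.Agent.S4345

open Subgroup Cfsg.Lib Cfsg.Lib.BG Cfsg.Lib.Transfer

/-- Let G be a finite solvable group and p, ℓ primes. Then the largest power of ℓ dividing the number of Sylow p-subgroups of G is congruent to 1 modulo p. -/
theorem result {G : Type*} [Group G] [Finite G]
    (hG : Group.IsSolvable G) (p ℓ : ℕ) [Fact p.Prime] (hℓ : ℓ.Prime) :
    ℓ ^ (Nat.card (Sylow p G)).factorization ℓ ≡ 1 [MOD p] := by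
  have hp : p.Prime := Fact.out
  haveI := Fact.mk hℓ
  obtain ⟨P⟩ : Nonempty (Sylow p G) := inferInstance
  rw [show Nat.card (Sylow p G) = 𝐍((P : Subgroup G)).index from P.card_eq_index_normalizer]
  by_cases e : ℓ = p
  · subst e
    rw [Nat.factorization_eq_zero_of_not_dvd fun h => P.not_dvd_index (h.trans (index_dvd_of_le (le_norm _))),
      pow_zero]
  obtain ⟨L, hL⟩ := Syl.exists (p := ℓ) 𝐍((P : Subgroup G))
  have hs : Group.IsSolvable (⊤ : Subgroup G) := inferInstance
  obtain ⟨H, hH, hPH⟩ := Hall.exists_ge (π := {p, ℓ}) hs (le_top (a := (P : Subgroup G) ⊔ L))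
    ((PiGrp.of_pgroup P.2 (by simp)).sup (PiGrp.of_pgroup hL.pgroup (by simp)) hL.le)
  have hP : Syl p (P : Subgroup G) H := (Syl.of_sylow_top P).of_le (le_sup_left.trans hPH) le_top
  obtain ⟨S, hS⟩ := Syl.iff_sylow.1 hP
  have h1 : 𝐍((P : Subgroup G)).relIndex H ≡ 1 [MOD p] := by
    have := card_sylow_modEq_one p H
    rw [S.card_eq_index_normalizer] at this
    convert this using 1
    rw [relIndex, ← hS, subgroupOf, comap_normalizer_eq_of_le_range (by simpa using map_subtype_le _),
      comap_map_eq_self_of_injective H.subtype_injective]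
    rfl
  have h2 : PiNat {ℓ} (𝐍((P : Subgroup G)).relIndex H) := fun q hq hd => by
    rcases hH.pi.relIndex _ q hq hd with rfl | h
    · refine absurd (hd.trans (relIndex_dvd_left (le_norm _) _)) hP.not_dvd'
    · exact h
  have h0 : ∀ A B : Subgroup G, A.relIndex B ≠ 0 := fun _ _ => index_ne_zero_of_finite
  obtain ⟨k, hk⟩ := (PiNat.p_iff (h0 _ _)).1 h2
  have h3 : ¬ ℓ ∣ H.relIndex 𝐍((P : Subgroup G)) := fun h =>
    hL.not_dvd' (h.trans (relIndex_dvd_left (le_sup_right.trans hPH) _))
  have h4 : ¬ ℓ ∣ H.index := by simpa using hH.not_dvd hℓ (by simp)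
  have h5 : H.relIndex 𝐍((P : Subgroup G)) * 𝐍((P : Subgroup G)).index = ℓ ^ k * H.index := by
    rw [← hk, ← inf_relIndex_right H, relIndex_mul_index inf_le_right, ← inf_relIndex_right _ H,
      relIndex_mul_index inf_le_right, inf_comm]
  have h6 := congrArg (fun n => n.factorization ℓ) h5
  simp only [Nat.factorization_mul (h0 _ _) index_ne_zero_of_finite,
    Nat.factorization_mul (pow_pos hℓ.pos k).ne' index_ne_zero_of_finite, Finsupp.add_apply,
    Nat.factorization_eq_zero_of_not_dvd h3, Nat.factorization_eq_zero_of_not_dvd h4, hℓ.factorization_pow,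
    Finsupp.single_eq_same, zero_add, add_zero] at h6
  rw [h6, ← hk]; exact h1

end Cfsg.Agent.S4345
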