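import Cfsg.Statements.S4346
import Cfsg.Agent.Lib.Small.SylNum2
import Cfsg.Agent.Lib.Small.Sieve
import Cfsg.Agent.Lib.Small.W2p2

set_option autoImplicit false
open Cfsg

namespace Cfsg.Agent.S4346

/-- No finite group has exactly 22 Sylow 3-subgroups. -/
theorem result {G : Type*} [Group G] [Finite G] : Nat.card (Sylow 3 G) ≠ 22 := by
  open Cfsg.Lib.Small Cfsg.Lib.Cyc Subgroup MulAction Cfsg.Lib.Transfer in
  classical
  intro h
  haveI := Fact.mk Nat.prime_three
  obtain ⟨S, _, _, hS, h4, h5, h6⟩ := exists_simple_of_card_sylow h (by norm_num) (by decide +kernel)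
    fun d h1 h2 => by
      have := Nat.le_of_dvd (by norm_num) h1
      interval_cases d <;> simp_all
  obtain ⟨P⟩ : Nonempty (Sylow 3 S) := inferInstance
  haveI : Nontrivial (Sylow 3 S) := Finite.one_lt_card_iff_nontrivial.1 (by omega)
  have hN := Lib.FGS.card_sylow_eq_index P
  have hn : normalizer ((P : Subgroup S) : Set S) ≠ ⊤ := fun e => by
    rw [e, index_top] at hN
    omega
  haveI : IsPreprimitive S (Sylow 3 S) := by
    rw [← isCoatom_stabilizer_iff_preprimitive S P, Sylow.stabilizer_eq_normalizer]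
    refine ⟨hn, fun M (hM : normalizer ((P : Subgroup S) : Set S) < M) => ?_⟩
    have h1 := card_sylowIn (le_normalizer.trans hM.le) P.isPGroup'
      (sylow_not_dvd_relIndex P (le_normalizer.trans hM.le))
    have h2 := relIndex_mul_index hM.le
    have h3 := card_sylow_modEq_one 3 M
    have h7 : relIndex (normalizer ((P : Subgroup S) : Set S)) M ≠ 1 := fun e =>
      hM.not_ge (relIndex_eq_one.1 e)
    rw [← hN, h6, ← h1] at h2
    rw [← h1] at h7
    rw [← index_eq_one]
    generalize Nat.card (Sylow 3 M) = d at h2 h3 h7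
    have := Nat.le_of_dvd (by norm_num) (Dvd.intro _ h2)
    unfold Nat.ModEq at h3
    interval_cases d <;> omega
  haveI : FaithfulSMul S (Sylow 3 S) := ⟨fun {a b} h1 => by
    have h2 : (toPermHom S (Sylow 3 S)).ker = ⊥ :=
      (MonoidHom.normal_ker _).eq_bot_or_eq_top.resolve_right fun e => hn (top_le_iff.1 fun g _ =>
        Lib.FGS.smul_eq_self_iff.1 (congrFun (congrArg DFunLike.coe (e.ge (mem_top g))) P))
    exact (MonoidHom.ker_eq_bot_iff _).1 h2 (Equiv.ext h1)⟩
  obtain h2 | ⟨-, a, -, h2, -⟩ := W2p.wielandt (G := S) (p := 11) (by norm_num) h6 P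
  swap
  · have : a < 2 := by nlinarith
    interval_cases a <;> omega
  obtain ⟨R, h7, h8⟩ := exists_sylow_relIndex_eq P (by rw [h6]; decide)
  have hP := card_sylow_eq_of_relIndex h4 h5 (fun P' R' e => by
    obtain ⟨g, rfl, rfl⟩ := Lib.Perm.two_iff.1 h2 R P R' P' h7 e
    rw [coe_smul_sylow, coe_smul_sylow, relIndex_conj, h8]) P
  obtain ⟨t, T, Y, a, δ, h7⟩ := exists_pb P hP
  obtain ⟨x, hx⟩ := h7.exists_orderOf
  obtain ⟨θ, hθ⟩ := h7.nonempty
  obtain ⟨c, hc⟩ : 3 ∣ Nat.card (centralizer ({x} : Set S)) :=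
    hx ▸ Nat.card_zpowers x ▸ card_dvd_of_le (zpowers_le.mpr (mem_centralizer_singleton_iff.mpr rfl))
  have h8 := cfg_of_pb h4 h7 hθ hx hc
  rw [h6] at h8
  generalize relIndex (G := S) _ _ = e at h8
  generalize δ * _ = w at h8
  generalize List.map _ _ = l at h8
  obtain rfl : e = 2 := le_antisymm (Nat.le_of_dvd two_pos h8.dvd) h8.two_le
  obtain ⟨v, rfl⟩ := List.length_eq_one_iff.1 (Nat.succ_injective h8.len)
  have h10 : ∀ u ∈ [w, v], u.natAbs = 2 ∨ u.natAbs = 4 ∨ u.natAbs = 11 ∨ u.natAbs = 22 ∨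
      u.natAbs = 44 := fun u hu => by
    obtain ⟨h1, h2, -⟩ := h8.deg u hu
    generalize u.natAbs = d at h1 h2
    have := Nat.le_of_dvd (by omega) h1
    interval_cases d <;> simp_all
  have h11 := h10 w (by simp)
  have h12 := h10 v (by simp)
  have h13 := h8.sum
  rw [List.sum_singleton] at h13
  omega

end Cfsg.Agent.S4346
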