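import Cfsg.Statements.S4354
import Cfsg.Agent.Lib.BG.Quo
import Cfsg.Agent.Lib.Transfer.Fusion

set_option autoImplicit false
open Cfsg

namespace Cfsg.Agent.S4354

open Subgroup Cfsg.Lib Cfsg.Lib.BG Cfsg.Lib.Transfer

theorem syl_ab {G : Type*} [Group G] [Finite G] {p : ℕ} [Fact p.Prime] (h : ∀ P : Sylow p G, IsMulCommutative P)
    {A : Subgroup G} (hA : IsPGroup p A) : IsMulCommutative A := by
  obtain ⟨P, hP⟩ := hA.exists_le_sylow
  exact abelian_of_le (h P) hP

/-- Let G be a finite group and p a prime such that the Sylow p-subgroups of G are non-abelian while every element of p-power order has conjugacy class size prime to p, and suppose no nontrivial proper normal subgroup N of G has this property and no quotient G/N by such an N has it. Then G is simple. -/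
theorem result {G : Type*} [Group G] [Finite G]
    (p : ℕ) [Fact p.Prime] (h : ((∃ P : Sylow p G, ¬ IsMulCommutative P) ∧ ∀ x : G, (∃ k : ℕ, orderOf x = p ^ k) → ¬ p ∣ (Subgroup.centralizer ({x} : Set G)).index))
    (hmin : ∀ (N : Subgroup G) [N.Normal], N ≠ ⊥ → N ≠ ⊤ →
      ¬ ((∃ P : Sylow p N, ¬ IsMulCommutative P) ∧ ∀ x : N, (∃ k : ℕ, orderOf x = p ^ k) → ¬ p ∣ (Subgroup.centralizer ({x} : Set N)).index) ∧
      ¬ ((∃ P : Sylow p (G ⧸ N), ¬ IsMulCommutative P) ∧ ∀ x : (G ⧸ N), (∃ k : ℕ, orderOf x = p ^ k) → ¬ p ∣ (Subgroup.centralizer ({x} : Set (G ⧸ N))).index)) :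
    IsSimpleGroup G := by
  obtain ⟨⟨P₀, hP₀⟩, hc⟩ := h
  have hp : p.Prime := Fact.out
  haveI : Nontrivial G := by
    by_contra hn
    rw [not_nontrivial_iff_subsingleton] at hn
    exact hP₀ ⟨⟨fun a b => Subsingleton.elim _ _⟩⟩
  refine ⟨fun N hN => ?_⟩
  by_contra hne
  push Not at hne
  obtain ⟨h1, h2⟩ := hmin N hne.1 hne.2
  -- centralizes a Sylow subgroup
  have hcs : ∀ x : G, IsPGroup p (zpowers x) → ∃ S : Subgroup G, Syl p S ⊤ ∧ S ≤ 𝐂[x] := by
    intro x hx
    obtain ⟨k, hk⟩ := IsPGroup.iff_card.1 hx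
    obtain ⟨S, hS⟩ := exists_sylow_le_of_hall (hc x ⟨k, by rw [← Nat.card_zpowers, hk]⟩)
    exact ⟨S, Syl.of_sylow_top S, hS⟩
  have hA1 : ∀ A : Subgroup G, A ≤ N → IsPGroup p A → IsMulCommutative A := by
    have : ∀ P : Sylow p N, IsMulCommutative P := by
      by_contra hh
      push Not at hh
      refine h1 ⟨hh, fun x ⟨k, hk⟩ hd => hc x ⟨k, by rw [Subgroup.orderOf_coe, hk]⟩ ?_⟩
      have e : centralizer ({x} : Set N) = 𝐂[(x : G)].subgroupOf N := by
        ext y; rw [mem_subgroupOf, mem_cent1, mem_cent1, Subtype.ext_iff]; rfl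
      rw [e] at hd
      have e2 : 𝐂[(x : G)].relIndex N * N.index = N.relIndex 𝐂[(x : G)] * 𝐂[(x : G)].index := by
        rw [← inf_relIndex_right, relIndex_mul_index inf_le_right, ← inf_relIndex_right N, inf_comm N,
          relIndex_mul_index inf_le_left]
      obtain ⟨c, hc⟩ := relIndex_dvd_index_of_normal N 𝐂[(x : G)]
      have hpos : N.relIndex 𝐂[(x : G)] ≠ 0 := index_ne_zero_of_finite
      rw [hc, mul_left_comm] at e2
      exact hd.trans ⟨c, (Nat.eq_of_mul_eq_mul_left (Nat.pos_of_ne_zero hpos) e2).symm⟩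
    intro A hA hpA
    have := syl_ab this (hpA.of_equiv (subgroupOfEquivOfLe hA).symm)
    rw [← subOf_map hA]
    exact abelian_map _ this
  have hA2 : ∀ A : Subgroup G, IsPGroup p A → ⁅A, A⁆ ≤ N := by
    have : ∀ P : Sylow p (G ⧸ N), IsMulCommutative P := by
      by_contra hh
      push Not at hh
      refine h2 ⟨hh, fun x ⟨k, hk⟩ hd => ?_⟩
      obtain ⟨S, hS⟩ := (IsPGroup.of_card (G := zpowers x) (n := k) (by rw [Nat.card_zpowers, hk])).exists_le_sylow
      obtain ⟨T, hT⟩ := Sylow.mapSurjective_surjective (QuotientGroup.mk'_surjective N) p S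
      have hx : x ∈ (T : Subgroup G).map (QuotientGroup.mk' N) := by
        rw [← Sylow.coe_mapSurjective (QuotientGroup.mk'_surjective N), hT]
        exact hS (mem_zpowers x)
      obtain ⟨y, hy, rfl⟩ := hx
      obtain ⟨j, hj⟩ := (IsPGroup.iff_orderOf.1 T.isPGroup') ⟨y, hy⟩
      refine hc y ⟨j, by rw [← hj, ← Subgroup.orderOf_coe]⟩ (hd.trans ?_)
      rw [← index_comap_of_surjective _ (QuotientGroup.mk'_surjective N)]
      refine index_dvd_of_le fun z hz => ?_
      rw [mem_comap, mem_cent1, ← map_mul, mem_cent1.1 hz, map_mul]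
    intro A hpA
    have := syl_ab this (hpA.map (QuotientGroup.mk' N))
    have := (map_le_cent_iff _).1 (abelian_cent this)
    rwa [QuotientGroup.ker_mk'] at this
  have hNn : Nml N ⊤ := Nml.top_iff.2 hN
  have hP : Syl p (P₀ : Subgroup G) ⊤ := Syl.of_sylow_top P₀
  set P : Subgroup G := (P₀ : Subgroup G)
  have hQ : Syl p (P ⊓ N) N := hP.inf_nml hNn
  have hPM : P ≤ N ⊔ 𝐂(P ⊓ N) := by
    intro x hx
    obtain ⟨S, hS, hSx⟩ := hcs x (pgroup_of_le hP.pgroup (zpowers_le.2 hx))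
    obtain ⟨n, hn, e⟩ := Syl.exists_conj_eq (hS.inf_nml hNn) hQ
    have : n * x * n⁻¹ ∈ 𝐂(P ⊓ N) := by
      rw [← le_cent1_iff, e, ← conj_cent1]
      exact conj_mono n (inf_le_left.trans hSx)
    have e2 : x = n⁻¹ * (n * x * n⁻¹) * n := by group
    rw [e2]
    exact mul_mem (mul_mem (mem_sup_left (N.inv_mem hn)) (mem_sup_right this)) (mem_sup_left hn)
  obtain ⟨R, hR, hQR⟩ := Syl.exists_ge hQ.pgroup (abelian_cent (hA1 _ inf_le_right hQ.pgroup))
  have cardf : ∀ X : Subgroup G, Nat.card X = Nat.card (X ⊓ N : Subgroup G) * Nat.card (X.map (QuotientGroup.mk' N)) := by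
    intro X
    rw [← BG.card_mul_relIndex (inf_le_left : X ⊓ N ≤ X), inf_relIndex_left, ← relIndex_ker, QuotientGroup.ker_mk']
  have hRN : P ⊓ N = R ⊓ N := hQ.eq_of_le_pgroup (le_inf hQR inf_le_right) inf_le_right (pgroup_of_le hR.pgroup inf_le_left)
  have hRt : Syl p R ⊤ := by
    refine hP.of_card_le' hR.pgroup le_top (le_of_eq ?_)
    rw [cardf P, cardf R, hRN]
    congr 1
    refine ((hP.map (QuotientGroup.mk' N)).of_le ?_ (map_mono le_top)).card_eq (hR.map (QuotientGroup.mk' N))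
    refine (map_mono hPM).trans ?_
    rw [Subgroup.map_sup, QuotientGroup.map_mk'_self, bot_sup_eq]
  have hRc : R ≤ 𝐂(R ⊓ N) := hRN ▸ hR.le
  have hab : IsMulCommutative R := by
    rw [abelian_iff]
    intro x hx
    obtain ⟨S, hS, hSx⟩ := hcs x (pgroup_of_le hR.pgroup (zpowers_le.2 hx))
    obtain ⟨g, -, e⟩ := hS.exists_conj_eq hRt
    have hz : R ≤ 𝐂[g * x * g⁻¹] := by
      rw [e, ← conj_cent1]; exact conj_mono g hSx
    have hzR : g * x * g⁻¹ ∈ R := by
      have : zpowers (g * x * g⁻¹) ≤ R := by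
        refine hRt.ge_of_norm_p le_top ?_ (norm_of_cent (by rwa [cent_zpowers]))
        rw [← conj_zpowers, pgroup_conj]
        exact pgroup_of_le hR.pgroup (zpowers_le.2 hx)
      exact this (mem_zpowers _)
    let H : Subgroup G := 𝐂[QuotientGroup.mk' N (g * x * g⁻¹)].comap (QuotientGroup.mk' N)
    have hH : ∀ y, y ∈ H ↔ y * (g * x * g⁻¹) * y⁻¹ * (g * x * g⁻¹)⁻¹ ∈ N := by
      intro y
      rw [mem_comap, mem_cent1, ← QuotientGroup.eq_one_iff]
      simp only [QuotientGroup.mk'_apply, QuotientGroup.mk_mul, QuotientGroup.mk_inv]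
      rw [mul_inv_eq_one, mul_inv_eq_iff_eq_mul]
    obtain ⟨R₀, hR₀⟩ := Syl.top_iff_sylow.1 hRt
    obtain ⟨c, hc, hn⟩ := exists_mul_mem_normalizer_sylow R₀ (H := H) (g := g) (by
      rw [hR₀]
      intro y hy
      rw [hH, mem_cent1.1 (hz hy)]
      simp) (by
      rw [hR₀]
      rintro _ ⟨y, hy, rfl⟩
      rw [hH]
      have := hN.conj_mem _ (hA2 R hR.pgroup (comm_mem_comm hy hx)) g
      convert this using 1
      simp [mul_assoc])
    rw [hR₀] at hn
    have hw : c * g * x * (c * g)⁻¹ ∈ R := conj_mem_of_norm hn hx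
    have hw2 : c * g * x * (c * g)⁻¹ ∈ 𝐂(R) := by
      have e1 : c * g * x * (c * g)⁻¹ = (c * (g * x * g⁻¹) * c⁻¹ * (g * x * g⁻¹)⁻¹) * (g * x * g⁻¹) := by group
      have e2 : c * (g * x * g⁻¹) * c⁻¹ * (g * x * g⁻¹)⁻¹ ∈ R ⊓ N := by
        refine ⟨?_, (hH c).1 hc⟩
        have : c * (g * x * g⁻¹) * c⁻¹ = c * g * x * (c * g)⁻¹ := by group
        rw [this]
        exact R.mul_mem hw (R.inv_mem hzR)
      rw [e1]
      exact mul_mem (cent_symm hRc e2) (le_cent1_iff.1 hz)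
    have := conj_mem_of_norm' (norm_cent (le_refl _) hn) hw2
    simpa [mul_assoc] using this
  obtain ⟨g, -, e⟩ := hRt.exists_conj_eq hP
  apply hP₀
  rw [e, abelian_conj]
  exact hab

end Cfsg.Agent.S4354
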