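import Cfsg.Statements.S4359
import Cfsg.Agent.Lib.BG.Hall
import Cfsg.Agent.Lib.PGroup.Basic

set_option autoImplicit false
open Pointwise
open Cfsg

namespace Cfsg.Agent.S4359

open Subgroup Cfsg.Lib Cfsg.Lib.BG Cfsg.Lib.Transfer

variable {G : Type*} [Group G]

/-- The chain `P ∩ P^g ∩ ⋯`. -/
def ch (P : Subgroup G) (g : G) : ℕ → Subgroup G
  | 0 => P
  | j + 1 => ch P g j ⊓ g ⋆ ch P g j

theorem mem_ch {P : Subgroup G} {g : G} {j : ℕ} {y : G} :
    y ∈ ch P g j ↔ ∀ s : ℤ, -(j : ℤ) ≤ s → s ≤ 0 → g ^ s * y * (g ^ s)⁻¹ ∈ P := by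
  induction j generalizing y with
  | zero =>
    change y ∈ P ↔ _
    refine ⟨fun h s h1 h2 => ?_, fun h => by simpa using h 0 (by simp) le_rfl⟩
    rw [show s = 0 by omega]; simpa using h
  | succ j ih =>
    change y ∈ ch P g j ⊓ g ⋆ ch P g j ↔ _
    rw [mem_inf, mem_conj, ih, ih]
    have e : ∀ s : ℤ, g ^ s * (g⁻¹ * y * g) * (g ^ s)⁻¹ = g ^ (s - 1) * y * (g ^ (s - 1))⁻¹ :=
      fun s => by group
    refine ⟨fun ⟨h1, h2⟩ s h3 h4 => ?_, fun h => ⟨fun s h3 h4 => h s (by push_cast; omega) h4,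
      fun s h3 h4 => e s ▸ h (s - 1) (by push_cast; omega) (by omega)⟩⟩
    by_cases h5 : s = 0
    · exact h1 s (by omega) h4
    · have := h2 (s + 1) (by push_cast at h3; omega) (by omega)
      rwa [e, add_sub_cancel_right] at this

theorem struct [Finite G] {P : Subgroup G} {g : G} {p : ℕ} [hp : Fact p.Prime]
    (hN : P ≤ 𝐍(P ⊓ g ⋆ P)) (hidx : (P ⊓ g ⋆ P).relIndex P = p)
    (h1 : ∀ Q : Subgroup G, Nml Q P → g ⋆ Q = Q → Q = ⊥) :
    ∃ t : ℕ, 1 ≤ t ∧ ∀ j ≤ t, Nat.card (ch P g j) = p ^ (t - j) := by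
  have hle : ∀ j, ch P g (j + 1) ≤ ch P g j := fun j => inf_le_left
  have step : ∀ j, ch P g j ≤ 𝐍(ch P g (j + 1)) ∧ (ch P g (j + 1)).relIndex (ch P g j) ∣ p := by
    intro j
    induction j with
    | zero => exact ⟨hN, hidx.dvd⟩
    | succ j ih =>
      have h2 : g ⋆ ch P g j ≤ 𝐍(g ⋆ ch P g (j + 1)) := by
        rw [← conj_normalizer]; exact conj_mono g ih.1
      have h3 : ch P g (j + 1) ≤ g ⋆ ch P g j := inf_le_right
      refine ⟨norm_inf (le_norm _) (h3.trans h2), ?_⟩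
      change (ch P g (j + 1) ⊓ g ⋆ ch P g (j + 1)).relIndex _ ∣ p
      rw [inf_relIndex_left]
      exact (relIndex_dvd_of_norm h3 h2).trans (by rw [relIndex_conj]; exact ih.2)
  have hex : ∃ t, ch P g (t + 1) = ch P g t := by
    by_contra hc
    push Not at hc
    have : ∀ j, Nat.card (ch P g j) + j ≤ Nat.card P := fun j => by
      induction j with
      | zero => exact le_rfl
      | succ j ih =>
        have := Core.card_lt_card_of_lt (lt_of_le_of_ne (hle j) (hc j))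
        omega
    have h2 := this (Nat.card P)
    have h3 : 0 < Nat.card (ch P g (Nat.card P)) := Nat.card_pos
    omega
  classical
  set t := Nat.find hex with ht
  have ht1 : ch P g (t + 1) = ch P g t := Nat.find_spec hex
  have ht2 : ∀ j < t, ch P g (j + 1) ≠ ch P g j := fun j hj => Nat.find_min hex hj
  have hc : ∀ j < t, Nat.card (ch P g j) = p * Nat.card (ch P g (j + 1)) := fun j hj => by
    rw [← BG.card_mul_relIndex (hle j), mul_comm, ((Nat.dvd_prime hp.out).1 (step j).2).resolve_left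
      fun e => ht2 j hj (le_antisymm (hle j) (relIndex_eq_one.1 e))]
  have hg : g ⋆ ch P g t = ch P g t :=
    (eq_of_le_of_card_le (ht1.ge.trans inf_le_right) (card_conj g _).le).symm
  have ht0 : 1 ≤ t := Nat.one_le_iff_ne_zero.2 fun e => by
    rw [e] at ht1
    have h2 : (P ⊓ g ⋆ P).relIndex P = 1 := relIndex_eq_one.2 ht1.ge
    exact hp.out.ne_one (hidx.symm.trans h2)
  have hn : ∀ i, i + 1 ≤ t → ch P g (t - (i + 1)) ≤ 𝐍(ch P g t) := by
    intro i
    induction i with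
    | zero =>
      intro _
      have := (step (t - 1)).1
      rwa [Nat.sub_add_cancel ht0] at this
    | succ i ih =>
      intro hi
      have h2 := ih (by omega)
      set m := t - (i + 1 + 1) with hm
      rw [show t - (i + 1) = m + 1 by omega] at h2
      have h3 : g⁻¹ ⋆ ch P g (m + 1) ≤ ch P g m :=
        conj_le_iff_le_inv_conj.2 (by rw [inv_inv]; exact inf_le_right)
      rcases PGroup.eq_or_eq_of_card_eq_prime_mul hp.out
        (le_sup_left : _ ≤ ch P g (m + 1) ⊔ g⁻¹ ⋆ ch P g (m + 1)) (sup_le (hle m) h3)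
        (hc m (by omega)) with h4 | h4
      · refine absurd (le_antisymm (hle _) (le_inf le_rfl ?_)) (ht2 (m + 1) (by omega))
        have := conj_le_iff_le_inv_conj.1 (le_sup_right.trans h4.le)
        rwa [inv_inv] at this
      · rw [← h4]
        exact sup_le h2 (conj_le_of_mem h2 (inv_mem (norm_of_conj_eq hg)))
  have hb : ch P g t = ⊥ := h1 _ ⟨fun y hy => by simpa using mem_ch.1 hy 0 (by omega) le_rfl, by
    have := hn (t - 1) (by omega)
    rwa [show t - (t - 1 + 1) = 0 by omega] at this⟩ hg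
  refine ⟨t, ht0, fun j hj => ?_⟩
  induction hj using Nat.decreasingInduction with
  | self => rw [hb, card_bot, Nat.sub_self, pow_zero]
  | of_succ j hj ih => rw [hc j hj, ih, ← pow_succ', show t - (j + 1) + 1 = t - j by omega]

theorem core {t k u : ℤ} {x : ℤ → G} {S : ℤ → ℤ → Subgroup G}
    (gen : ∀ a b H, b - a + 1 ≤ t → (∀ j, a ≤ j → j ≤ b → x j ∈ H) → S a b ≤ H)
    (cm : ∀ a b, a < b → b - a + 1 ≤ t → (x a)⁻¹ * (x b)⁻¹ * x a * x b ∈ S (a + 1) (b - 1))
    (mx : ∀ a b c H, a ≤ b → b - a + 1 ≤ t → c ∈ S a b → c ∉ S (a + 1) b → S (a + 1) b ≤ H →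
      c ∈ H → x a ∈ H)
    (hk : ∀ i j, i - j < k → j - i < k → x i * x j = x j * x i)
    (hk' : ∀ i, x i * x (i + k) ≠ x (i + k) * x i) (hu : 1 ≤ u) (hu' : u ≤ k - 1)
    (h1 : (x 0)⁻¹ * (x k)⁻¹ * x 0 * x k ∈ S u (k - 1))
    (h2 : (x 0)⁻¹ * (x k)⁻¹ * x 0 * x k ∉ S (u + 1) (k - 1)) : t ≤ u + k := by
  by_contra hlt
  set c := (x 0)⁻¹ * (x k)⁻¹ * x 0 * x k with hc
  have h3 := cm 0 (u + k) (by omega) (by omega)
  set d := (x 0)⁻¹ * (x (u + k))⁻¹ * x 0 * x (u + k) with hd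
  have h4 : d ∈ 𝐂[x k] := gen _ _ _ (by omega)
    (fun j h5 h6 => mem_cent1.2 (hk _ _ (by omega) (by omega))) h3
  have h5 : d ∈ 𝐂[c] := gen _ _ _ (by omega) (fun j h5 h6 => mem_cent1_symm (gen _ _ _ (by omega)
    (fun i h7 h8 => mem_cent1.2 (hk _ _ (by omega) (by omega))) h1)) h3
  have h6 := hk (u + k) k (by omega) (by omega)
  have h7 : c ∈ 𝐂[x (u + k)] := by
    have e1 : (x (u + k))⁻¹ * x 0 * x (u + k) = x 0 * d := by rw [hd]; group
    have e2 : (x (u + k))⁻¹ * x k * x (u + k) = x k := by rw [mul_assoc, ← h6]; group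
    have e3 : (x (u + k))⁻¹ * c * x (u + k) = c := by
      calc (x (u + k))⁻¹ * c * x (u + k) = ((x (u + k))⁻¹ * x 0 * x (u + k))⁻¹ *
            ((x (u + k))⁻¹ * x k * x (u + k))⁻¹ * ((x (u + k))⁻¹ * x 0 * x (u + k)) *
            ((x (u + k))⁻¹ * x k * x (u + k)) := by rw [hc]; group
        _ = d⁻¹ * ((x 0)⁻¹ * (x k)⁻¹ * x 0) * (d * x k) := by rw [e1, e2]; group
        _ = d⁻¹ * (c * d) := by rw [mem_cent1.1 h4, hc]; group
        _ = c := by rw [← mem_cent1.1 h5]; group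
    rw [mem_cent1]
    calc c * x (u + k) = x (u + k) * ((x (u + k))⁻¹ * c * x (u + k)) := by group
      _ = _ := by rw [e3]
  exact hk' u (mem_cent1.1 (mx u (k - 1) c _ hu' (by omega) h1 h2 (gen _ _ _ (by omega)
    fun j h5 h6 => mem_cent1.2 (hk _ _ (by omega) (by omega))) h7))

theorem main [Finite G] {P : Subgroup G} {g : G} {p t : ℕ} [hp : Fact p.Prime] (ht : 1 ≤ t)
    (hc : ∀ j ≤ t, Nat.card (ch P g j) = p ^ (t - j)) {n : ℕ} {K : Subgroup G}
    (hK : K = ⨆ i ∈ Finset.range (n + 1), (g ^ i)⁻¹ ⋆ P) (h2 : P ⊓ 𝐙(K) = ⊥) :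
    ∃ k : ℤ, 2 * t ≤ 3 * k ∧ 2 * k ≤ t + n := by
  let S : ℤ → ℤ → Subgroup G := fun a b => (g ^ a)⁻¹ ⋆ ch P g (t + a - b - 1).toNat
  have hm : ∀ (a b : ℤ) y, b - a + 1 ≤ t →
      (y ∈ S a b ↔ ∀ s : ℤ, b + 1 - t ≤ s → s ≤ a → g ^ s * y * (g ^ s)⁻¹ ∈ P) := fun a b y h => by
    change y ∈ (g ^ a)⁻¹ ⋆ _ ↔ _
    rw [mem_conj, mem_ch, inv_inv]
    have e : ∀ s : ℤ, g ^ s * (g ^ a * y * (g ^ a)⁻¹) * (g ^ s)⁻¹ =
      g ^ (s + a) * y * (g ^ (s + a))⁻¹ := fun s => by group
    refine ⟨fun h1 s h3 h4 => ?_, fun h1 s h3 h4 => e s ▸ h1 _ (by omega) (by omega)⟩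
    have := h1 (s - a) (by omega) (by omega)
    rwa [e, sub_add_cancel] at this
  have hcard : ∀ a b : ℤ, b - a + 1 ≤ t → Nat.card (S a b) ∣ p ^ (b - a + 1).toNat ∧
      (0 ≤ b - a + 1 → Nat.card (S a b) = p ^ (b - a + 1).toNat) := fun a b h => by
    have key : ∀ a b : ℤ, b - a + 1 ≤ t → 0 ≤ b - a + 1 →
        Nat.card (S a b) = p ^ (b - a + 1).toNat := fun a b h h0 => by
      change Nat.card ↥((g ^ a)⁻¹ ⋆ _) = _
      rw [card_conj, hc _ (by omega)]
      congr 1
      omega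
    refine ⟨?_, key a b h⟩
    by_cases h0 : 0 ≤ b - a + 1
    · exact (key a b h h0).dvd
    · have h3 : S a b ≤ S a (a - 1) := fun y hy => (hm _ _ _ (by omega)).2 fun s h4 h5 =>
        (hm _ _ _ h).1 hy s (by omega) h5
      have h4 := card_dvd h3
      rw [key a (a - 1) (by omega) (by omega)] at h4
      exact h4.trans (pow_dvd_pow p (by omega))
  have hbot : ∀ a b : ℤ, b < a → S a b = ⊥ := fun a b h => by
    have := (hcard a b (by omega)).1
    rw [show (b - a + 1).toNat = 0 by omega, pow_zero, Nat.dvd_one] at this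
    exact card_eq_one.1 this
  have hmono : ∀ a b a' b' : ℤ, a ≤ a' → b' ≤ b → b - a + 1 ≤ t → S a' b' ≤ S a b :=
    fun a b a' b' h3 h4 h5 y hy => (hm _ _ _ h5).2 fun s h6 h7 =>
      (hm _ _ _ (by omega)).1 hy s (by omega) (by omega)
  have hinf : ∀ a b a' b' : ℤ, a ≤ a' → b ≤ b' → b' - a ≤ t → b - a + 1 ≤ t → b' - a' + 1 ≤ t →
      ∀ y ∈ S a b, y ∈ S a' b' → y ∈ S a' b := fun a b a' b' h3 h4 h5 h6 h7 y h8 h9 =>
    (hm _ _ _ (by omega)).2 fun s h10 h11 => by
      by_cases h12 : s ≤ a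
      · exact (hm _ _ _ h6).1 h8 s h10 h12
      · exact (hm _ _ _ h7).1 h9 s (by omega) h11
  obtain ⟨x0, hx0, hx1⟩ := exists_ne_one (ne_bot_of_prime (A := S 0 0) (by
    rw [(hcard 0 0 (by omega)).2 (by omega)]; simpa using hp.out))
  let x : ℤ → G := fun i => (g ^ i)⁻¹ * x0 * g ^ i
  have hxne : ∀ i, x i ≠ 1 := fun i e => hx1 (by
    calc x0 = g ^ i * x i * (g ^ i)⁻¹ := by simp only [x]; group
      _ = 1 := by rw [e]; group)
  have hxS : ∀ a b j : ℤ, a ≤ j → j ≤ b → b - a + 1 ≤ t → x j ∈ S a b := fun a b j h3 h4 h5 =>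
    (hm _ _ _ h5).2 fun s h6 h7 => by
      have := (hm 0 0 x0 (by omega)).1 hx0 (s - j) (by omega) (by omega)
      convert this using 1
      simp only [x]; group
  have hmul : ∀ a b a' b' : ℤ, b - a + 1 ≤ t → a ≤ b → b' - a' = b - a - 1 →
      Nat.card (S a b) = p * Nat.card (S a' b') := fun a b a' b' h3 h4 h5 => by
    rw [(hcard a b h3).2 (by omega), (hcard a' b' (by omega)).2 (by omega), ← pow_succ']
    congr 1
    omega
  have hmax : ∀ (a b a' b' : ℤ) c H, a ≤ b → b - a + 1 ≤ t → a ≤ a' → b' ≤ b → b' - a' = b - a - 1 →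
      c ∈ S a b → c ∉ S a' b' → S a' b' ≤ H → c ∈ H → S a b ≤ H :=
    fun a b a' b' c H h3 h4 h5 h6 h7 h8 h9 h10 h11 => by
      rcases PGroup.eq_or_eq_of_card_eq_prime_mul hp.out (le_inf (hmono _ _ _ _ h5 h6 h4) h10)
        inf_le_left (hmul a b a' b' h4 h3 h7) with e | e
      · exact absurd (e ▸ ⟨h8, h11⟩) h9
      · exact e ▸ inf_le_right
  have gen : ∀ (a b : ℤ) H, b - a + 1 ≤ t → (∀ j, a ≤ j → j ≤ b → x j ∈ H) → S a b ≤ H := by
    intro a b H h3 h4
    by_cases h5 : b < a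
    · rw [hbot a b h5]; exact bot_le
    obtain ⟨m, rfl⟩ : ∃ m : ℕ, b = a + m - 1 := ⟨(b - a + 1).toNat, by omega⟩
    clear h5
    induction m with
    | zero => rw [hbot _ _ (by omega)]; exact bot_le
    | succ m ih =>
      push_cast at h3 h4 ⊢
      refine hmax _ _ a (a + m - 1) (x (a + m)) H (by omega) h3 le_rfl (by omega) (by omega)
        (hxS _ _ _ (by omega) (by omega) h3) (fun h => hxne (a + m) ?_)
        (ih (by omega) fun j h6 h7 => h4 j h6 (by omega)) (h4 _ (by omega) (by omega))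
      have := hinf a (a + m - 1) (a + m) (a + m) (by omega) (by omega) (by omega) (by omega)
        (by omega) _ h (hxS _ _ _ le_rfl le_rfl (by omega))
      rwa [hbot _ _ (by omega), mem_bot] at this
  have cm : ∀ a b : ℤ, a < b → b - a + 1 ≤ t → (x a)⁻¹ * (x b)⁻¹ * x a * x b ∈ S (a + 1) (b - 1) := by
    intro a b h3 h4
    have hp' : IsPGroup p (S a b) := IsPGroup.of_card ((hcard a b h4).2 (by omega))
    have h5 := PGroup.le_normalizer_of_card_eq_mul hp' (hmono a b (a + 1) b (by omega) le_rfl h4)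
      (hmul _ _ _ _ h4 h3.le (by omega))
    have h6 := PGroup.le_normalizer_of_card_eq_mul hp' (hmono a b a (b - 1) le_rfl (by omega) h4)
      (hmul _ _ _ _ h4 h3.le (by omega))
    have h7 := hxS (a + 1) b b (by omega) le_rfl (by omega)
    have h8 := hxS a (b - 1) a le_rfl (by omega) (by omega)
    refine hinf a (b - 1) (a + 1) b (by omega) (by omega) (by omega) (by omega) (by omega) _ ?_
      (mul_mem (conj_mem_of_norm' (h5 (hxS a b a le_rfl h3.le h4)) (inv_mem h7)) h7)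
    have := mul_mem (inv_mem h8) (conj_mem_of_norm' (h6 (hxS a b b h3.le le_rfl h4)) h8)
    simpa only [mul_assoc] using this
  have hcj : ∀ i d : ℤ, (x i * x (i + d) = x (i + d) * x i ↔ x 0 * x d = x d * x 0) := fun i d => by
    have e1 : x i * x (i + d) = (g ^ i)⁻¹ * (x 0 * x d) * g ^ i := by simp only [x]; group
    have e2 : x (i + d) * x i = (g ^ i)⁻¹ * (x d * x 0) * g ^ i := by simp only [x]; group
    rw [e1, e2, mul_left_inj, mul_right_inj]
  classical
  have hex : ∃ k : ℕ, k = t ∨ x 0 * x k ≠ x k * x 0 := ⟨t, Or.inl rfl⟩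
  set k := Nat.find hex with hkd
  have hkt : k ≤ t := Nat.find_min' hex (Or.inl rfl)
  have hk : ∀ i j : ℤ, i - j < k → j - i < k → x i * x j = x j * x i := by
    have key : ∀ i j : ℤ, i ≤ j → j - i < k → x i * x j = x j * x i := fun i j h3 h4 => by
      obtain ⟨d, rfl⟩ : ∃ d : ℕ, j = i + d := ⟨(j - i).toNat, by omega⟩
      have := Nat.find_min hex (m := d) (by omega)
      push Not at this
      exact (hcj i d).2 this.2
    intro i j h3 h4
    rcases le_total i j with h | h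
    exacts [key i j h h4, (key j i h h3).symm]
  refine ⟨k, ?_, ?_⟩
  · rcases Nat.find_spec hex with h3 | h3
    · omega
    rw [← hkd] at h3
    by_cases hkt' : k = t
    · omega
    have hk' : ∀ i, x i * x (i + k) ≠ x (i + k) * x i := fun i e => h3 ((hcj i k).1 e)
    have hk0 : (0 : ℤ) < k := by
      by_contra h4
      exact h3 (by rw [show (k : ℤ) = 0 by omega])
    set c := (x 0)⁻¹ * (x k)⁻¹ * x 0 * x k with hcd
    have hc1 : c ≠ 1 := fun e => h3 (by
      calc x 0 * x k = x k * x 0 * c := by rw [hcd]; group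
        _ = _ := by rw [e, mul_one])
    have hcS : c ∈ S 1 (k - 1) := by simpa using cm 0 k hk0 (by omega)
    have hex1 : ∃ u : ℕ, c ∉ S (u + 1 + 1) (k - 1) :=
      ⟨k, by rw [hbot _ _ (by omega)]; exact hc1⟩
    have hex2 : ∃ u : ℕ, c ∉ S 1 (k - (u + 1 + 1)) :=
      ⟨k, by rw [hbot _ _ (by omega)]; exact hc1⟩
    have a1 := Nat.find_spec hex1
    have a2 := Nat.find_spec hex2
    have b1 : c ∈ S (Nat.find hex1 + 1) (k - 1) := by
      rcases Nat.eq_zero_or_pos (Nat.find hex1) with e | e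
      · rw [e]; simpa using hcS
      · have := Nat.find_min hex1 (m := Nat.find hex1 - 1) (by omega)
        rwa [not_not, show ((Nat.find hex1 - 1 : ℕ) : ℤ) + 1 = Nat.find hex1 by omega] at this
    have b2 : c ∈ S 1 (k - (Nat.find hex2 + 1)) := by
      rcases Nat.eq_zero_or_pos (Nat.find hex2) with e | e
      · rw [e]; simpa using hcS
      · have := Nat.find_min hex2 (m := Nat.find hex2 - 1) (by omega)
        rwa [not_not, show ((Nat.find hex2 - 1 : ℕ) : ℤ) + 1 = Nat.find hex2 by omega] at this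
    generalize Nat.find hex1 = u at a1 b1
    generalize Nat.find hex2 = v at a2 b2
    have c3 : (u : ℤ) + 1 ≤ k - (v + 1) := by
      by_contra h4
      have := hinf _ _ _ _ (by omega) (by omega) (by omega) (by omega) (by omega) c b2 b1
      rw [hbot _ _ (by omega)] at this
      exact hc1 this
    have c1 := core gen cm (fun a b c H h4 h5 h6 h7 h8 h9 => hmax a b (a + 1) b c H h4 h5 (by omega)
      le_rfl (by omega) h6 h7 h8 h9 (hxS _ _ _ le_rfl h4 h5)) hk hk' (by omega) (by omega) b1 a1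
    have c2 := core (t := t) (k := k) (u := v + 1) (x := fun i => x (k - i))
      (S := fun a b => S (k - b) (k - a))
      (fun a b H h4 h5 => gen _ _ _ (by omega) fun j h6 h7 => by
        simpa using h5 (k - j) (by omega) (by omega))
      (fun a b h4 h5 => by
        have := inv_mem (cm (k - b) (k - a) (by omega) (by omega))
        rw [show (k : ℤ) - (b - 1) = k - b + 1 by ring, show (k : ℤ) - (a + 1) = k - a - 1 by ring]
        simpa only [mul_inv_rev, inv_inv, mul_assoc] using this)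
      (fun a b c H h4 h5 h6 h7 h8 h9 => hmax (k - b) (k - a) (k - b) (k - (a + 1)) c H (by omega)
        (by omega) le_rfl (by omega) (by omega) h6 h7 h8 h9
        (hxS _ _ _ (by omega) le_rfl (by omega)))
      (fun i j h4 h5 => hk _ _ (by omega) (by omega))
      (fun i e => hk' (-i) (by
        rw [show (k : ℤ) - (i + k) = -i by ring, show (k : ℤ) - i = -i + k by ring] at e
        exact e.symm)) (by omega) (by omega)
      (by
        have := inv_mem b2
        simpa [hcd, mul_assoc] using this)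
      (fun h => a2 (by
        have := inv_mem h
        simpa [hcd, mul_assoc] using this))
    omega
  · by_contra h3
    have hP : ∀ i : ℤ, S i (i + t - 1) = (g ^ i)⁻¹ ⋆ P := fun i => by
      change (g ^ i)⁻¹ ⋆ ch P g _ = _
      rw [show ((t : ℤ) + i - (i + t - 1) - 1).toNat = 0 by omega]
      rfl
    have h4 : x (k - 1) ∈ P := by
      have := hxS 0 (0 + t - 1) (k - 1) (by omega) (by omega) (by omega)
      rwa [hP, zpow_zero, inv_one, conj_one] at this
    have h5 : P ≤ K := by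
      rw [hK]
      refine le_iSup₂_of_le 0 (by simp) ?_
      rw [pow_zero, inv_one, conj_one]
    refine hxne (k - 1) (mem_bot.1 (h2 ▸ ⟨h4, h5 h4, le_cent1_iff.1 ?_⟩))
    rw [hK]
    refine iSup₂_le fun i hi => ?_
    rw [Finset.mem_range] at hi
    rw [← zpow_natCast, ← hP]
    exact gen _ _ _ (by omega) fun j h6 h7 => mem_cent1.2 (hk _ _ (by omega) (by omega))

/-- Let P be a subgroup of a finite group G and g an element such that P ∩ g⁻¹Pg is a normal subgroup of prime index p in g⁻¹Pg. Let n ≥ 1 and let K be the subgroup generated by P and its conjugates g⁻ⁱPgⁱ for i ≤ n. Suppose that g normalizes no non-identity normal subgroup of P and that P meets the center of K trivially. Then the order of P is pᵗ for some t with 1 ≤ t ≤ 3n and t ≠ 3n - 1. -/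
theorem result {G : Type*} [Group G] [Finite G]
    (P : Subgroup G) (g : G) (p : ℕ) (hp : p.Prime)
    (hN : ((P ⊓ MulAut.conj g⁻¹ • P).subgroupOf (MulAut.conj g⁻¹ • P)).Normal)
    (hidx : (P ⊓ MulAut.conj g⁻¹ • P).relIndex (MulAut.conj g⁻¹ • P) = p)
    (n : ℕ) (hn : 1 ≤ n) (K : Subgroup G) (hK : K = ⨆ i ∈ Finset.range (n + 1), MulAut.conj (g ^ i)⁻¹ • P)
    (h1 : ∀ Q : Subgroup G, Q ≤ P → (Q.subgroupOf P).Normal → MulAut.conj g • Q = Q → Q = ⊥)
    (h2 : P ⊓ (Subgroup.center K).map K.subtype = ⊥) :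
    ∃ t : ℕ, Nat.card P = p ^ t ∧ 1 ≤ t ∧ t ≤ 3 * n ∧ t ≠ 3 * n - 1 := by
  haveI := Fact.mk hp
  simp only [Core.conj_smul_eq_map] at hN hidx hK h1
  have e : g ⋆ (P ⊓ g⁻¹ ⋆ P) = P ⊓ g ⋆ P := by rw [conj_inf, conj_inv_conj, inf_comm]
  obtain ⟨t, ht, hc⟩ := struct (P := P) (g := g) (p := p) (by
      have := conj_mono g ((normal_subgroupOf_iff_le_normalizer inf_le_right).1 hN)
      rwa [conj_normalizer, e, conj_inv_conj] at this)
    (by rwa [← relIndex_conj g, e, conj_inv_conj] at hidx)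
    (fun Q hQ h => h1 Q hQ.le hQ.normal h)
  obtain ⟨k, h3, h4⟩ := main ht hc hK (by rwa [Core.map_subtype_center] at h2)
  exact ⟨t, hc 0 (Nat.zero_le _), ht, by omega, by omega⟩

end Cfsg.Agent.S4359
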