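import Cfsg.Statements.S4370
import Cfsg.Agent.Lib.HH.Misc
import Cfsg.Agent.Lib.PGroup.RankOne
import Cfsg.Agent.Lib.BG.Rank

set_option autoImplicit false
open Cfsg

namespace Cfsg.Agent.S4370

open Subgroup Cfsg.Lib Cfsg.Lib.BG Cfsg.Lib.Transfer Cfsg.Lib.HH

theorem nonempty_prod {P : Type*} [Group P] {K H : Subgroup P} (hc : K ≤ 𝐂(H)) (h1 : K ⊓ H = ⊥)
    (h2 : K ⊔ H = ⊤) : Nonempty (P ≃* K × H) := by
  let f : K × H →* P := K.subtype.noncommCoprod H.subtype fun k x => (mem_cent.1 (hc k.2) x x.2).symm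
  refine ⟨(MulEquiv.ofBijective f ⟨(injective_iff_map_eq_one f).2 fun ⟨k, x⟩ e => ?_, fun g => ?_⟩).symm⟩
  · have e1 : (k : P) = (x : P)⁻¹ := eq_inv_of_mul_eq_one_left e
    have e2 : (k : P) = 1 := mem_bot.1 (h1 ▸ ⟨k.2, e1 ▸ H.inv_mem x.2⟩)
    exact Prod.ext (Subtype.ext e2) (Subtype.ext (inv_eq_one.1 (e1 ▸ e2)))
  · obtain ⟨k, hk, x, hx, rfl⟩ := (mem_sup_right_norm (norm_of_cent hc)).1 (h2.ge (mem_top g))
    exact ⟨(⟨k, hk⟩, ⟨x, hx⟩), rfl⟩

theorem zmod_half {n : ℕ} [NeZero n] {j : ZMod (2 * n)} (h : -j = j) : j = 0 ∨ j = n := by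
  rcases (ZMod.neg_eq_self_iff j).1 h with h | h
  · exact Or.inl h
  · right
    rw [← ZMod.natCast_zmod_val j, Nat.eq_of_mul_eq_mul_left two_pos h]

open QuaternionGroup in
theorem quat_cent {n : ℕ} [NeZero n] {q : QuaternionGroup n} (hq : q ∉ center (QuaternionGroup n)) :
    IsCyclic 𝐂[q] := by
  rcases q with i | i
  · refine cyclic_of_le (M := zpowers (a 1)) inferInstance ?_
    rintro (j | j) hj
    · rw [← ZMod.natCast_zmod_val j, ← a_one_pow]
      exact pow_mem (mem_zpowers _) _
    · exfalso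
      have h := mem_cent1.1 hj
      simp only [a_mul_xa, xa_mul_a, xa.injEq] at h
      refine hq (mem_center_iff.2 ?_)
      rintro (k | k)
      · simp [add_comm]
      · simp only [a_mul_xa, xa_mul_a, xa.injEq]
        linear_combination h
  · refine cyclic_of_le (M := zpowers (xa i)) inferInstance ?_
    have h2 : (a n : QuaternionGroup n) ∈ zpowers (xa i) := xa_sq i ▸ pow_mem (mem_zpowers _) 2
    rintro (j | j) hj
    · have h := mem_cent1.1 hj
      simp only [a_mul_xa, xa_mul_a, xa.injEq] at h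
      rcases zmod_half (j := j) (by linear_combination h) with rfl | rfl
      · exact one_mem _
      · exact h2
    · have h := mem_cent1.1 hj
      simp only [xa_mul_xa, a.injEq] at h
      rcases zmod_half (j := j - i) (by linear_combination h) with e | e
      · rw [sub_eq_zero.1 e]; exact mem_zpowers _
      · rw [sub_eq_iff_eq_add'.1 e, ← xa_mul_a]
        exact mul_mem (mem_zpowers _) h2

/-- Let G be a finite non-abelian nilpotent group. Then the centralizer of every non-central element of G is cyclic if and only if G is isomorphic to the direct product of a generalized quaternion group and a cyclic group of odd order. -/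
theorem result {G : Type*} [Group G] [Finite G] (hG : Group.IsNilpotent G)
    (hna : ¬ IsMulCommutative G) :
    (∀ x : G, x ∉ Subgroup.center G → IsCyclic (Subgroup.centralizer ({x} : Set G))) ↔
      ∃ (k m : ℕ), 1 ≤ k ∧ Odd m ∧ Nonempty (G ≃* QuaternionGroup (2 ^ k) × Multiplicative (ZMod m)) := by
  constructor
  · intro h
    have hab : ∀ A : Subgroup G, IsMulCommutative A → IsCyclic A := by
      intro A hA
      by_cases hc : A ≤ center G
      · obtain ⟨x, hx⟩ : ∃ x, x ∉ center G := by
          by_contra hn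
          push Not at hn
          exact hna ⟨⟨fun a b => (mem_center_iff.1 (hn a) b).symm⟩⟩
        exact cyclic_of_le (h x hx) fun a ha => mem_cent1.2 (mem_center_iff.1 (hc ha) x).symm
      · obtain ⟨x, hx, hn⟩ := not_forall₂.1 hc |>.imp fun _ h => by simpa using h
        exact cyclic_of_le (h x hn) (le_cent1_iff.2 (abelian_cent hA hx))
    have hr : ∀ (p : ℕ) [Fact p.Prime] (S : Subgroup G), PRankLE p 1 S := by
      intro p _ S A hA hp
      haveI := hab _ (abelian_map S.subtype hA)
      have hc : IsCyclic A := isCyclic_of_injective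
        (A.equivMapOfInjective S.subtype S.subtype_injective).toMonoidHom (MulEquiv.injective _)
      obtain ⟨x, hx, rfl⟩ := cyclic_iff.1 hc
      rw [Nat.card_zpowers, pow_one]
      exact Nat.le_of_dvd (Fact.out : p.Prime).pos (orderOf_dvd_of_pow_eq_one (hp x hx))
    have hT : Group.IsNilpotent (⊤ : Subgroup G) := inferInstance
    have hd := nil_pcore_dprod hT {2}
    have hK : IsCyclic 𝐎({2}ᶜ, (⊤ : Subgroup G)) := by
      refine nil_cyclic_of_pcore (nil_of_le hT le_top) fun q hq hd => ?_
      haveI := Fact.mk hq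
      exact PGroup.isCyclic_of_pRankLE_one_of_odd ((pcore_pi _ _).mem hq hd) (pcore_pgroup q _) (hr q _)
    rcases PGroup.isCyclic_or_quaternion_of_pRankLE_one (pcore_pgroup 2 (⊤ : Subgroup G)) (hr 2 _) with
      hc | ⟨-, n, ⟨e⟩⟩
    · exfalso
      have := le_cent_iff.1 (abelian_cent (hd.abelian (abelian_of_cyclic hc) (abelian_of_cyclic hK)))
      exact hna ⟨⟨fun a b => this a trivial b trivial⟩⟩
    · obtain ⟨e'⟩ := nonempty_prod hd.cent hd.inf hd.sup
      refine ⟨n + 1, Nat.card 𝐎({2}ᶜ, (⊤ : Subgroup G)), by omega, ?_,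
        ⟨e'.trans (e.prodCongr (zmodCyclicMulEquiv hK).symm)⟩⟩
      exact Nat.odd_iff.2 (Nat.two_dvd_ne_zero.1 (PiGrp.p'_iff.1 (pcore_pi _ _)))
  · rintro ⟨k, m, hk, hm, ⟨e⟩⟩ x hx
    haveI : NeZero (2 ^ k) := ⟨by positivity⟩
    have hq : (e x).1 ∉ center (QuaternionGroup (2 ^ k)) := by
      intro hc
      refine hx (mem_center_iff.2 fun g => e.injective ?_)
      rw [map_mul, map_mul]
      exact Prod.ext (mem_center_iff.1 hc _) (mul_comm _ _)
    have hc : IsCyclic (𝐂[(e x).1] × Multiplicative (ZMod m)) := by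
      refine Group.isCyclic_prod_iff.2 ⟨quat_cent hq, inferInstance, ?_⟩
      rw [Nat.card_congr Multiplicative.toAdd, Nat.card_zmod]
      refine Nat.Coprime.coprime_dvd_left (card_subgroup_dvd_card _) ?_
      rw [Nat.card_eq_fintype_card, QuaternionGroup.card, show 4 * 2 ^ k = 2 ^ (k + 2) by ring]
      exact Nat.Coprime.pow_left _ (Nat.coprime_two_left.2 hm)
    let f : 𝐂[x] →* 𝐂[(e x).1] × Multiplicative (ZMod m) :=
      (((MonoidHom.fst _ _).comp (e.toMonoidHom.comp (𝐂[x]).subtype)).codRestrict _ fun y => by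
        have := congrArg (fun z => (e z).1) (mem_cent1.1 y.2)
        simp only [map_mul, Prod.fst_mul] at this
        exact mem_cent1.2 this).prod ((MonoidHom.snd _ _).comp (e.toMonoidHom.comp (𝐂[x]).subtype))
    refine isCyclic_of_injective f fun a b h => ?_
    exact Subtype.ext (e.injective (Prod.ext (congrArg (fun z => (z.1 : QuaternionGroup (2 ^ k))) h)
      (congrArg (fun z : 𝐂[(e x).1] × Multiplicative (ZMod m) => z.2) h :)))

end Cfsg.Agent.S4370
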