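import Cfsg.Statements.S4373
import Cfsg.Agent.Lib.SL.Cop
import Cfsg.Agent.Lib.Core.PiSeparable

set_option autoImplicit false
open Pointwise
open Cfsg

namespace Cfsg.Agent.S4373

open Subgroup Cfsg.Lib Cfsg.Lib.Core

/-- Let π be a set of primes and G a finite π-solvable group: G has a chain of normal subgroups from 1 to G in which each successive index is a power of a prime in π or is divisible by no prime in π. Let H be a Hall π-subgroup of G. Then there are x, y ∈ G with H ∩ xHx⁻¹ ∩ yHy⁻¹ = O_π(G), the largest normal π-subgroup. -/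
theorem result {G : Type*} [Group G] [Finite G] (π : Set ℕ)
    (hsolv : (∃ (n : ℕ) (N : Fin (n + 1) → Subgroup G), N 0 = ⊥ ∧ N (Fin.last n) = ⊤ ∧ Monotone N ∧ (∀ i, (N i).Normal) ∧
      ∀ i : Fin n, (∃ p ∈ π, p.Prime ∧ ∃ k : ℕ, (N i.castSucc).relIndex (N i.succ) = p ^ k) ∨
        (∀ q : ℕ, q.Prime → q ∣ (N i.castSucc).relIndex (N i.succ) → q ∉ π))) (H : Subgroup G) (hH : Cfsg.IsPiHall π H) :
    ∃ x y : G, H ⊓ MulAut.conj x • H ⊓ MulAut.conj y • H = Cfsg.piCore π G := by
  obtain ⟨n, N, h0, h1, hm, hN, hi⟩ := hsolv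
  have key : ∀ i, IsPiSeparable π (N i) ∧ Group.IsSolvable ↥(H ⊓ N i) := fun i => by
    induction i using Fin.induction with
    | zero => rw [h0, inf_bot_eq]; exact ⟨IsPiSeparable.of_subsingleton, inferInstance⟩
    | succ i ih =>
      have := hN i.castSucc
      refine ⟨IsPiSeparable.of_relIndex le_normalizer_of_normal ih.1 ((hi i).imp
        (fun ⟨p, h1, h2, k, hk⟩ => hk ▸ isPiNumber_prime_pow h2 h1 k) id), ?_⟩
      have hd := relIndex_dvd_of_normal (N i.castSucc) (inf_le_right : H ⊓ N i.succ ≤ _)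
      refine (Group.isSolvable_iff_subgroup_quotient ((N i.castSucc).subgroupOf (H ⊓ N i.succ))).2 ⟨?_, ?_⟩
      · have := ih.2
        exact Group.isSolvable_of_isSolvable_injective (G' := ↥(H ⊓ N i.castSucc))
          (f := ((H ⊓ N i.succ).subtype.comp (Subgroup.subtype _)).codRestrict _ fun x => ⟨x.1.2.1, x.2⟩)
          fun a b e => Subtype.ext (Subtype.ext (congrArg Subtype.val e :))
      · rcases hi i with ⟨p, -, h2, k, hk⟩ | h
        · have := Fact.mk h2
          obtain ⟨j, -, hj⟩ := (Nat.dvd_prime_pow h2).1 (hk ▸ hd)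
          have := (IsPGroup.of_card hj).isNilpotent
          infer_instance
        · have := IsPiNumber.eq_one (π := π) (IsPiNumber.of_dvd hH.1 ((relIndex_dvd_card _ _).trans
            (card_dvd_of_le inf_le_left))) (IsPiNumber.of_dvd h hd)
          have := (Nat.card_eq_one_iff_unique.1 this).1
          infer_instance
  obtain ⟨k1, k2⟩ := key (Fin.last n)
  rw [h1] at k1 k2
  rw [inf_top_eq] at k2
  let f := QuotientGroup.mk' (piCore π G)
  have hA := isPiSubgroup_map f hH.1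
  have hK := piCore_isPiSubgroup πᶜ (G ⧸ piCore π G)
  have hd := inf_eq_bot_of_isPiSubgroup hA hK disjoint_compl_right
  obtain ⟨x, hx, y, hy, h⟩ := SL.inner (A := H.map f) (K := piCore πᶜ (G ⧸ piCore π G))
    (Coprime.isSolvable_map H f k2) le_normalizer_of_normal (IsPiNumber.coprime_of_compl hA hK)
  obtain ⟨x, rfl⟩ := QuotientGroup.mk'_surjective _ x
  obtain ⟨y, rfl⟩ := QuotientGroup.mk'_surjective _ y
  have cm : ∀ {a z : G}, a ∈ H → a ∈ MulAut.conj z • H → f z ∈ piCore πᶜ (G ⧸ piCore π G) →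
      f a * f z = f z * f a := fun {a z} ha ⟨b, hb, e⟩ hz => by
    have e' : z * b * z⁻¹ = a := e
    have h2 : (f z)⁻¹ * (f a * f z * (f a)⁻¹) ∈ H.map f ⊓ piCore πᶜ (G ⧸ piCore π G) :=
      mem_inf.2 ⟨⟨b * a⁻¹, mul_mem hb (inv_mem ha), by rw [← e']; simp only [map_mul, map_inv]; group⟩,
        mul_mem (inv_mem hz) ((piCore_normal _ _).conj_mem _ hz _)⟩
    rwa [hd, mem_bot, inv_mul_eq_one, eq_mul_inv_iff_mul_eq, eq_comm] at h2
  have hle : ∀ z : G, piCore π G ≤ MulAut.conj z • H := fun z a ha =>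
    mem_pointwise_smul_iff_inv_smul_mem.2 (piCore_le_of_isPiHall hH (by
      simpa using (piCore_normal π G).conj_mem a ha z⁻¹))
  refine ⟨x, y, le_antisymm (fun a ha => (QuotientGroup.eq_one_iff a).1 (mem_bot.1 (hd ▸
    ⟨⟨a, ha.1.1, rfl⟩, ((IsPiSeparable.top_iff.1 k1).quotient _).compl.centralizer_piCore_le
      (by rw [compl_compl, piCore_quotient_piCore]) (h _ ⟨a, ha.1.1, rfl⟩ (cm ha.1.1 ha.1.2 hx)
        (cm ha.1.1 ha.2 hy))⟩))) (le_inf (le_inf (piCore_le_of_isPiHall hH) (hle x)) (hle y))⟩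

end Cfsg.Agent.S4373
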