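import Cfsg.Statements.S4374
import Cfsg.Agent.Lib.SL.Main

set_option autoImplicit false
open Cfsg

namespace Cfsg.Agent.S4374

/-- Let the finite solvable group A act faithfully on the finite additive group V by group automorphisms, completely reducibly (every A-invariant subgroup has an A-invariant complement). Then there are v₁, v₂, v₃ ∈ V such that only the identity of A fixes all three. -/
theorem result {A V : Type*} [Group A] [Finite A]
    [AddCommGroup V] [Finite V] [DistribMulAction A V] [FaithfulSMul A V] (hA : Group.IsSolvable A)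
    (hcr : (∀ U : AddSubgroup V, (∀ a : A, ∀ v ∈ U, a • v ∈ U) → ∃ W : AddSubgroup V, (∀ a : A, ∀ w ∈ W, a • w ∈ W) ∧ U ⊓ W = ⊥ ∧ U ⊔ W = ⊤)) :
    ∃ v₁ v₂ v₃ : V, ∀ a : A, a • v₁ = v₁ → a • v₂ = v₂ → a • v₃ = v₃ → a = 1 := by
  obtain ⟨t, ht⟩ := Lib.SL.base_cr (ι := Fin 3) (A := A) (fun _ _ _ _ => Lib.SL.base_three) hcr
  exact ⟨t 0, t 1, t 2, fun a e0 e1 e2 => eq_of_smul_eq_smul fun v : V => by
    rw [ht a (fun i => by fin_cases i <;> assumption), one_smul]⟩

end Cfsg.Agent.S4374
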