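import Cfsg.Statements.S4375
import Cfsg.Agent.Lib.SL.Main
import Cfsg.Agent.Lib.Coprime.FT

set_option autoImplicit false
open Cfsg

namespace Cfsg.Agent.S4375

/-- Let the finite group A of odd order act faithfully on the finite additive group V by group automorphisms, completely reducibly (every A-invariant subgroup has an A-invariant complement). Then there are v, w ∈ V such that only the identity of A fixes both. -/
theorem result {A V : Type*} [Group A] [Finite A]
    [AddCommGroup V] [Finite V] [DistribMulAction A V] [FaithfulSMul A V] (hA : Odd (Nat.card A))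
    (hcr : (∀ U : AddSubgroup V, (∀ a : A, ∀ v ∈ U, a • v ∈ U) → ∃ W : AddSubgroup V, (∀ a : A, ∀ w ∈ W, a • w ∈ W) ∧ U ⊓ W = ⊥ ∧ U ⊔ W = ⊤)) :
    ∃ v w : V, ∀ a : A, a • v = v → a • w = w → a = 1 := by
  have h2 : ¬ 2 ∣ Nat.card A := hA.not_two_dvd_nat
  haveI := Lib.Coprime.isSolvable_of_not_two_dvd h2
  obtain ⟨t, ht⟩ := Lib.SL.base_cr (ι := Fin 2) (A := A) (fun _ _ _ _ => Lib.SL.base_odd h2) hcr
  exact ⟨t 0, t 1, fun a e0 e1 => eq_of_smul_eq_smul fun v : V => by
    rw [ht a (fun i => by fin_cases i <;> assumption), one_smul]⟩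

end Cfsg.Agent.S4375
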