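import Cfsg.Statements.S4376
import Cfsg.Agent.Lib.CharDeg.OrderType

set_option autoImplicit false
open Cfsg

namespace Cfsg.Agent.S4376

open Cfsg.Lib.CharDeg.OT

/-- Solvable factors on the non-solvable side. -/
def LH : List (Tw × ℕ) := [
  ((.ext .nil 2 0), 21),
  ((.ext .nil 3 0), 3),
  ((.ext .nil 4 0), 1),
  ((.ext (.ext .nil 3 0) 4 0x4100), 1),
  ((.ext (.ext .nil 7 0) 3 0x141810c10100), 4),
  ((.ext (.ext .nil 7 0) 4 0x41030814300), 3),
  ((.ext (.ext (.ext .nil 3 0) 3 0x8080) 4 0x40a0c3880c04100), 2),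
  ((.ext (.ext .nil 21 0) 2 0x1040c2050c1c409142c60d1c3c811244ca00), 1),
  ((.ext (.ext .nil 28 0) 2 0x2081840a18388122858c1a3879022489942a58b983268d80), 4),
  ((.ext (.ext (.ext .nil 3 0) 21 0x8080) 2 0x58b983268d9c3a78fa042891a44a993a852555ac5ab97b062c99b46ad9bb872e9dbc7af9501040c2050c1c409142c60d1c3c811244ca00), 2),
  ((.ext (.ext (.ext .nil 7 0) 7 0x182840608080) 6 0xa181c48b1a209141e4498e2068a97326cb184474fa138790234a9d4a44ca15ad5ea962e6008206020c280), 2),
  ((.ext (.ext (.ext .nil 4 0) 14 0x208180) 6 0x32c89ac36d0aae1ed8bb022a85a40a786a60e800a8128819c6a597906e6189256699945a39388420948a4610e8c4a18f80), 1)]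

/-- Factors on the solvable side. -/
def LG : List (Tw × ℕ) := [
  ((.ext (.ext .nil 3 0) 2 0x4100), 1),
  ((.ext .nil 7 0), 1),
  ((.ext (.ext .nil 4 0) 2 0x208180), 4),
  ((.ext (.ext .nil 7 0) 2 0x41030814300), 3),
  ((.ext (.ext (.ext .nil 3 0) 3 0x8080) 2 0x40a0c3880c04100), 2),
  ((.ext (.ext (.ext .nil 2 0) 6 0x80) 2 0x22018a0a183821210580), 3),
  ((.ext (.ext .nil 7 0) 6 0x100850418180), 3),
  ((.ext (.ext .nil 7 0) 12 0x100850418180), 1),
  ((.ext (.ext .nil 21 0) 4 0x1040c2050c1c409142c60d1c3c811244ca00), 1),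
  ((.ext (.ext (.ext .nil 7 0) 7 0x182840608080) 2 0x8122858c1a1c79022489941c58b983268d953a78fa04288e244a993a8528d5ac5ab97b054041030814300), 2),
  ((.ext (.ext (.ext (.ext .nil 7 0) 2 0x41030814300) 4 0x8206102860e2048a1630680) 2 0xa3038e26288881a507963648c902a70b9e46690983a90fa656894a04ab13ae66a98a85ad17b606c80b06a11b861608480), 1),
  ((.ext (.ext (.ext (.ext (.ext .nil 2 0) 2 0x80) 2 0x608080) 7 0x20c3850818100) 3 0x5e600944e258a1143c3352e8d4032c3571038d8888368012a0a995a232cc393687580b4a54d2d48dc21e1c30fb25249600), 3),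
  ((.ext (.ext (.ext .nil 3 0) 21 0x8080) 4 0x58b983268d9c3a78fa042891a44a993a852555ac5ab97b062c99b46ad9bb872e9dbc7af9501040c2050c1c409142c60d1c3c811244ca00), 2),
  ((.ext (.ext (.ext (.ext .nil 7 0) 2 0x41030814300) 4 0x8206102860e2048a1630680) 6 0x4ab13ae3648c906a11b8656894a01a5079606c80b03a90fa626288885ad17b646690980a3038e66a98a82a70b9e1608480), 3)]

theorem okH : (LH.all fun x => x.1.ok) = true := by decide +kernel

theorem okG : (LG.all fun x => x.1.ok) = true := by decide +kernel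

theorem cnt : ∀ x ∈ [(1, 1, 1), (2, 1, 22), (3, 1, 57), (4, 1, 64), (6, 1, 78), (7, 1, 49),
    (4, 3, 120), (2, 7, 70), (3, 7, 105), (4, 7, 112), (6, 7, 126), (12, 7, 168)],
    countL LG (x.1 * x.2.1) = x.2.2 ^ 3 * countL LH (x.1 * x.2.1) := by
  decide +kernel

theorem cnt0 : countL LG 84 = countL LG 0 ∧ countL LH 84 = countL LH 0 := by decide +kernel

/-- There are finite groups G and H having the same number of elements of each order (the same order type) with G solvable and H not solvable. -/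
theorem result :
    ∃ (G : Type) (_ : Group G) (_ : Finite G) (H : Type) (_ : Group H) (_ : Finite H),
      Group.IsSolvable G ∧ ¬ Group.IsSolvable H ∧ ∀ n : ℕ, Nat.card {g : G // orderOf g = n} = Nat.card {h : H // orderOf h = n} := by
  obtain ⟨G, _, _, hG, hsG⟩ := real_countL LG okG
  obtain ⟨H, _, _, -, hsH⟩ := real_countL LH okH
  refine ⟨G, inferInstance, inferInstance, (M3ˣ × M3ˣ × M3ˣ) × H, inferInstance, inferInstance, hG,
    fun h => M3.not_solvable (Group.isSolvable_of_surjective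
      (f := (MonoidHom.fst _ (M3ˣ × M3ˣ)).comp (MonoidHom.fst _ H)) fun x => ⟨((x, 1), 1), rfl⟩),
    card_orderOf_eq fun n _ => ?_⟩
  have h1 := pow_eq_one_of_sol (G := G) (E := 84) (by rw [hsG, hsG, cnt0.1])
  have h2 := pow_eq_one_of_sol (G := H) (E := 84) (by rw [hsH, hsH, cnt0.2])
  have h3 : ∀ d ∈ Nat.divisors 84, ∃ x ∈ [(1, 1, 1), (2, 1, 22), (3, 1, 57), (4, 1, 64), (6, 1, 78), (7, 1, 49),
    (4, 3, 120), (2, 7, 70), (3, 7, 105), (4, 7, 112), (6, 7, 126), (12, 7, 168)], x.1 * x.2.1 = d := by decide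
  obtain ⟨x, hx, hd⟩ := h3 (Nat.gcd n 84) (Nat.mem_divisors.2 ⟨Nat.gcd_dvd_right _ _, by omega⟩)
  rw [sol_prod, sol_prod, sol_prod, sol_gcd h1, sol_gcd h2, sol_gcd M3.pow_eq_one,
    sol_units _ (Nat.gcd_ne_zero_right (by omega)), ← hd, M3.sol_eq x hx, hsG, hsH, cnt x hx]
  ring

end Cfsg.Agent.S4376
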