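import Cfsg.Statements.S4377

set_option autoImplicit false
open Cfsg

namespace Cfsg.Agent.S4377

section
open Finset

theorem card_pow_eq (G : Type*) [Group G] [Finite G] {n : ℕ} (hn : n ≠ 0) :
    Nat.card {g : G // g ^ n = 1} = ∑ d ∈ n.divisors, Nat.card {g : G // orderOf g = d} := by
  classical
  haveI := Fintype.ofFinite G
  simp only [Nat.card_eq_fintype_card, Fintype.card_subtype]
  convert (sum_card_orderOf_eq_card_pow_eq_one (G := G) hn).symm using 2


theorem card_zero (G : Type*) [Group G] [Finite G] : Nat.card {g : G // orderOf g = 0} = 0 := by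
  haveI : IsEmpty {g : G // orderOf g = 0} := ⟨fun g => (orderOf_pos g.1).ne' g.2⟩
  exact Nat.card_of_isEmpty

theorem card_pow_card (G : Type*) [Group G] [Finite G] {n : ℕ} (hn : Nat.card G ∣ n) :
    Nat.card {g : G // g ^ n = 1} = Nat.card G :=
  Nat.card_congr (Equiv.subtypeUnivEquiv fun g => orderOf_dvd_iff_pow_eq_one.1 ((orderOf_dvd_natCard g).trans hn))

end

/-- Two finite groups have the same number of elements of each order if and only if, for every n, they have the same number of elements g with gⁿ = 1. -/
theorem result {G H : Type*} [Group G] [Finite G] [Group H] [Finite H] :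
    (∀ n : ℕ, Nat.card {g : G // orderOf g = n} = Nat.card {h : H // orderOf h = n}) ↔
      ∀ n : ℕ, Nat.card {g : G // g ^ n = 1} = Nat.card {h : H // h ^ n = 1} := by
  open Finset in
  constructor
  · intro h
    have h1 : ∀ n, n ≠ 0 → Nat.card {g : G // g ^ n = 1} = Nat.card {h : H // h ^ n = 1} := fun n hn => by
      rw [card_pow_eq G hn, card_pow_eq H hn]; exact sum_congr rfl fun d _ => h d
    intro n
    by_cases hn : n = 0
    · have := h1 (Nat.card G * Nat.card H) (Nat.mul_pos Nat.card_pos Nat.card_pos).ne'
      rw [card_pow_card G (dvd_mul_right _ _), card_pow_card H (dvd_mul_left _ _)] at this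
      rw [hn, card_pow_card G (dvd_zero _), card_pow_card H (dvd_zero _), this]
    · exact h1 n hn
  · intro h n
    induction n using Nat.strong_induction_on with
    | _ n ih =>
      by_cases hn : n = 0
      · rw [hn, card_zero, card_zero]
      have h1 := h n
      rw [card_pow_eq G hn, card_pow_eq H hn, ← Nat.insert_self_properDivisors hn, sum_insert Nat.self_notMem_properDivisors,
        sum_insert Nat.self_notMem_properDivisors,
        sum_congr rfl fun d hd => ih d (Nat.mem_properDivisors.1 hd).2] at h1
      omega

end Cfsg.Agent.S4377
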