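import Cfsg.Statements.S4381
import Cfsg.Agent.Lib.Coprime.Sylow
import Cfsg.Agent.Lib.PGroup.RankTwo
import Cfsg.Agent.Lib.Core.Frattini
import Cfsg.Agent.Lib.Core.Solvable

set_option autoImplicit false
open Pointwise
open Cfsg

namespace Cfsg.Agent.S4381

open Subgroup SemidirectProduct in
theorem inv_iff {A G : Type*} [Group A] [Group G] [MulDistribMulAction A G] (M : Subgroup G) :
    (inr : A →* G ⋊[MulDistribMulAction.toMulAut A G] A).range ≤
      normalizer ((M.map (inl : G →* G ⋊[MulDistribMulAction.toMulAut A G] A) : Subgroup _) : Set _) ↔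
    ∀ a : A, ∀ x ∈ M, a • x ∈ M := by
  have key : ∀ (a : A) (x : G), (inr a * inl x * (inr a)⁻¹ : G ⋊[MulDistribMulAction.toMulAut A G] A) =
      inl (a • x) := fun a x => by
    rw [← map_inv, ← inl_aut]; rfl
  constructor
  · intro h a x hx
    have := (mem_normalizer_iff.1 (h ⟨a, rfl⟩) _).1 (mem_map_of_mem inl hx)
    rw [key] at this
    exact (mem_map_iff_mem inl_injective).1 this
  · rintro h _ ⟨a, rfl⟩
    have h1 : ∀ (a : A), ∀ y ∈ M.map (inl : G →* G ⋊[MulDistribMulAction.toMulAut A G] A),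
        inr a * y * (inr a)⁻¹ ∈ M.map (inl : G →* G ⋊[MulDistribMulAction.toMulAut A G] A) := by
      rintro a _ ⟨x, hx, rfl⟩
      rw [key]; exact mem_map_of_mem _ (h a x hx)
    rw [mem_normalizer_iff]
    refine fun y => ⟨h1 a y, fun hy => ?_⟩
    have := h1 a⁻¹ _ hy
    simpa [mul_assoc] using this

open Subgroup SemidirectProduct Cfsg.Lib in
theorem inv_sylow {A G : Type*} [Group A] [Finite A] [Group G] [Finite G] [MulDistribMulAction A G]
    (hcop : (Nat.card A).Coprime (Nat.card G)) (hsol : Group.IsSolvable A ∨ Group.IsSolvable G)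
    (p : ℕ) [Fact p.Prime] :
    ∃ P : Subgroup G, IsPGroup p P ∧ ¬ p ∣ P.index ∧ ∀ a : A, ∀ x ∈ P, a • x ∈ P := by
  let Γ := G ⋊[MulDistribMulAction.toMulAut A G] A
  have : Finite Γ := Finite.of_equiv _ equivProd.symm
  have e1 : A ≃* (inr : A →* Γ).range := MonoidHom.ofInjective inr_injective
  have e2 := (⊤ : Subgroup G).equivMapOfInjective (inl : G →* Γ) inl_injective
  obtain ⟨P, hPK, hP, hPi, hPA⟩ := Coprime.exists_invariant_sylowIn (p := p)
    ((inv_iff (A := A) (⊤ : Subgroup G)).2 fun _ _ _ => trivial)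
    (by rw [← Nat.card_congr e1.toEquiv, ← Nat.card_congr e2.toEquiv, card_top]; exact hcop)
    (hsol.imp (Core.isSolvable_of_equiv e1) fun h =>
      Core.isSolvable_of_equiv e2 (Core.isSolvable_top_iff.2 h))
  have hP1 : (P.comap (inl : G →* Γ)).map inl = P :=
    map_comap_eq_self (by rwa [MonoidHom.range_eq_map])
  refine ⟨P.comap inl, hP.comap_of_injective _ inl_injective, ?_, (inv_iff _).1 (hP1.symm ▸ hPA)⟩
  rwa [index_comap, MonoidHom.range_eq_map]

open Subgroup SemidirectProduct Cfsg.Lib in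
theorem inv_compl {A G : Type*} [Group A] [Finite A] [Group G] [Finite G] [MulDistribMulAction A G]
    {p : ℕ} [Fact p.Prime] (hcop : (Nat.card A).Coprime p) (hG : IsPGroup p G)
    (hF : ∀ a : A, ∀ x ∈ frattini G, a • x ∈ frattini G)
    {M : Subgroup G} (hFM : frattini G ≤ M) (hM : ∀ a : A, ∀ x ∈ M, a • x ∈ M) :
    ∃ X : Subgroup G, (∀ a : A, ∀ x ∈ X, a • x ∈ X) ∧ M ⊓ X = frattini G ∧ M ⊔ X = ⊤ := by
  let Γ := G ⋊[MulDistribMulAction.toMulAut A G] A
  have : Finite Γ := Finite.of_equiv _ equivProd.symm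
  have e1 : A ≃* (inr : A →* Γ).range := MonoidHom.ofInjective inr_injective
  obtain ⟨X, -, hXA, h1, h2⟩ := PGroup.exists_invariant_complement_mod (p := p)
    (S := (frattini G).map (inl : G →* Γ)) (U := M.map inl) (V := (⊤ : Subgroup G).map inl)
    (A := (inr : A →* Γ).range) (map_mono hFM) (map_mono le_top)
    ((map_mono (by rw [normalizer_eq_top])).trans (le_normalizer_map _))
    ((inv_iff _).2 hF) ((inv_iff _).2 hM) ((inv_iff _).2 fun _ _ _ => trivial)
    (by rw [← map_commutator]; exact map_mono (PGroup.commutator_le_frattini hG))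
    (by rintro _ ⟨x, -, rfl⟩; rw [← map_pow]; exact mem_map_of_mem _ (PGroup.pow_mem_frattini hG x))
    (by rwa [← Nat.card_congr e1.toEquiv])
  have hX1 : (X.comap (inl : G →* Γ)).map inl = X :=
    map_comap_eq_self (by rw [MonoidHom.range_eq_map, ← h2]; exact le_sup_right)
  refine ⟨X.comap inl, (inv_iff _).1 (hX1.symm ▸ hXA), ?_, ?_⟩
  · apply map_injective (f := (inl : G →* Γ)) inl_injective
    rw [map_inf _ _ _ inl_injective, hX1, h1]
  · apply map_injective (f := (inl : G →* Γ)) inl_injective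
    rw [Subgroup.map_sup, hX1, h2]

/-- Let the finite group A act by automorphisms on the finite group G with the orders of A and G coprime, and assume that A or G is solvable. Call a proper A-invariant subgroup of G maximal A-invariant when no A-invariant subgroup lies strictly between it and G. Then all maximal A-invariant subgroups of G are conjugate under elements of the fixed-point subgroup C_G(A) if and only if G is a p-group for some prime p and A leaves invariant no subgroup strictly between the Frattini subgroup of G and G. In that case, if G is nontrivial, the Frattini subgroup is the only maximal A-invariant subgroup (a trivial G has none). -/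
theorem result {A G : Type*} [Group A] [Finite A]
    [Group G] [Finite G] [MulDistribMulAction A G] (hcop : (Nat.card A).Coprime (Nat.card G)) (hsol : Group.IsSolvable A ∨ Group.IsSolvable G) :
    ((∀ M N : Subgroup G, (M ≠ ⊤ ∧ (∀ a : A, ∀ x ∈ M, a • x ∈ M) ∧ ∀ L : Subgroup G, M < L → (∀ a : A, ∀ x ∈ L, a • x ∈ L) → L = ⊤) → (N ≠ ⊤ ∧ (∀ a : A, ∀ x ∈ N, a • x ∈ N) ∧ ∀ L : Subgroup G, N < L → (∀ a : A, ∀ x ∈ L, a • x ∈ L) → L = ⊤) →
        ∃ c : G, (∀ a : A, a • c = c) ∧ N = MulAut.conj c • M) ↔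
      ((∃ p : ℕ, p.Prime ∧ IsPGroup p G) ∧ ∀ L : Subgroup G, frattini G < L → (∀ a : A, ∀ x ∈ L, a • x ∈ L) → L = ⊤)) ∧
    (((∃ p : ℕ, p.Prime ∧ IsPGroup p G) ∧ ∀ L : Subgroup G, frattini G < L → (∀ a : A, ∀ x ∈ L, a • x ∈ L) → L = ⊤) →
      ∀ M : Subgroup G, (M ≠ ⊤ ∧ (∀ a : A, ∀ x ∈ M, a • x ∈ M) ∧ ∀ L : Subgroup G, M < L → (∀ a : A, ∀ x ∈ L, a • x ∈ L) → L = ⊤) ↔ (M = frattini G ∧ M ≠ ⊤)) := by
  open Subgroup Cfsg.Lib in
  have hF : ∀ a : A, ∀ x ∈ frattini G, a • x ∈ frattini G := fun a x hx =>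
    (characteristic_iff_map_le.1 inferInstance (MulDistribMulAction.toMulAut A G a))
      (mem_map_of_mem _ hx)
  have hsup : ∀ M : Subgroup G, (∀ a : A, ∀ x ∈ M, a • x ∈ M) →
      ∀ a : A, ∀ x ∈ frattini G ⊔ M, a • x ∈ frattini G ⊔ M := fun M hM a x hx => by
    obtain ⟨y, hy, z, hz, rfl⟩ := mem_sup_of_normal_left.1 hx
    rw [smul_mul']
    exact mul_mem (mem_sup_left (hF a y hy)) (mem_sup_right (hM a z hz))
  have hle : ∀ M : Subgroup G, M ≠ ⊤ → (∀ a : A, ∀ x ∈ M, a • x ∈ M) →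
      (∀ L : Subgroup G, M < L → (∀ a : A, ∀ x ∈ L, a • x ∈ L) → L = ⊤) → frattini G ≤ M := by
    intro M h1 h2 h3
    by_contra h
    refine h1 (Core.eq_top_of_sup_eq_top_of_le_frattini le_rfl (h3 _ ?_ (hsup M h2)))
    exact lt_of_le_of_ne le_sup_right fun e => h (e ▸ le_sup_left)
  have hex : ∀ L : Subgroup G, L ≠ ⊤ → (∀ a : A, ∀ x ∈ L, a • x ∈ L) → ∃ M : Subgroup G, L ≤ M ∧
      M ≠ ⊤ ∧ (∀ a : A, ∀ x ∈ M, a • x ∈ M) ∧
      ∀ L : Subgroup G, M < L → (∀ a : A, ∀ x ∈ L, a • x ∈ L) → L = ⊤ := by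
    intro L h1 h2
    obtain ⟨M, hLM, hM, hmax⟩ := Core.exists_maximal_ge
      (P := fun M : Subgroup G => M ≠ ⊤ ∧ ∀ a : A, ∀ x ∈ M, a • x ∈ M) ⟨h1, h2⟩
    refine ⟨M, hLM, hM.1, hM.2, fun K hK hK2 => ?_⟩
    by_contra h
    exact hK.ne' (hmax K ⟨h, hK2⟩ hK.le)
  have h2 : ((∃ p : ℕ, p.Prime ∧ IsPGroup p G) ∧
      ∀ L : Subgroup G, frattini G < L → (∀ a : A, ∀ x ∈ L, a • x ∈ L) → L = ⊤) →
      ∀ M : Subgroup G, (M ≠ ⊤ ∧ (∀ a : A, ∀ x ∈ M, a • x ∈ M) ∧
        ∀ L : Subgroup G, M < L → (∀ a : A, ∀ x ∈ L, a • x ∈ L) → L = ⊤) ↔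
        (M = frattini G ∧ M ≠ ⊤) := by
    rintro ⟨-, h⟩ M
    constructor
    · rintro ⟨h1, h2, h3⟩
      refine ⟨?_, h1⟩
      by_contra e
      exact h1 (h M (lt_of_le_of_ne (hle M h1 h2 h3) (Ne.symm e)) h2)
    · rintro ⟨rfl, h1⟩
      exact ⟨h1, hF, h⟩
  refine ⟨⟨fun h => ?_, fun h M N hM hN => ⟨1, fun a => smul_one a, ?_⟩⟩, h2⟩
  · have hp : ∃ p : ℕ, p.Prime ∧ IsPGroup p G := by
      by_contra hno
      have hnt : (⊥ : Subgroup G) ≠ ⊤ := fun e => hno ⟨2, Nat.prime_two, fun g => ⟨0, by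
        have : g ∈ (⊥ : Subgroup G) := e ▸ trivial
        simpa using this⟩⟩
      obtain ⟨M, -, hM⟩ := hex ⊥ hnt fun a x hx => by rw [mem_bot.1 hx, smul_one]; exact one_mem _
      obtain ⟨p, hp, hpM⟩ := Nat.exists_prime_and_dvd (n := M.index) fun e => hM.1 (index_eq_one.1 e)
      have := Fact.mk hp
      obtain ⟨P, hP, hPi, hPA⟩ := inv_sylow hcop hsol p
      have hPt : P ≠ ⊤ := fun e => hno ⟨p, hp, (e ▸ hP).of_equiv topEquiv⟩
      obtain ⟨N, hPN, hN⟩ := hex P hPt hPA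
      obtain ⟨c, -, rfl⟩ := h M N hM hN
      apply hPi
      refine hpM.trans (dvd_trans (dvd_of_eq ?_) (index_dvd_of_le hPN))
      rw [Core.conj_smul_eq_map, Coprime.index_map_conj]
    refine ⟨hp, fun L hL hLA => ?_⟩
    obtain ⟨p, hp, hG⟩ := hp
    have := Fact.mk hp
    by_contra hLt
    obtain ⟨M, hLM, hM⟩ := hex L hLt hLA
    have hnt : Nontrivial G := by
      by_contra hh
      exact hLt (by rw [not_nontrivial_iff_subsingleton] at hh; exact Subsingleton.elim _ _)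
    obtain ⟨k, hk, hc⟩ := hG.nontrivial_iff_card.1 hnt
    have hcp : (Nat.card A).Coprime p :=
      Nat.Coprime.coprime_dvd_right (hc ▸ dvd_pow_self p hk.ne') hcop
    obtain ⟨X, hXA, h3, h4⟩ := inv_compl hcp hG hF (hL.le.trans hLM) hM.2.1
    have hXt : X ≠ ⊤ := fun e => by
      rw [e, inf_top_eq] at h3
      exact hL.not_ge (h3 ▸ hLM)
    obtain ⟨N, hXN, hN⟩ := hex X hXt hXA
    obtain ⟨c, -, rfl⟩ := h M N hM hN
    have hMn : M.Normal := Normal.of_commutator_le _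
      ((PGroup.commutator_le_frattini hG).trans (hL.le.trans hLM))
    rw [hMn.conj_smul_eq_self] at hXN
    exact hM.1 (by rw [← h4, sup_eq_left.2 hXN])
  · rw [((h2 h M).1 hM).1, ((h2 h N).1 hN).1, map_one, one_smul]

end Cfsg.Agent.S4381
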