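import Cfsg.Statements.S4383
import Cfsg.Agent.Lib.BG.Hall
import Cfsg.Agent.Lib.Core.MinNormal
import Cfsg.Agent.Lib.Hall.Solvable
import Cfsg.Agent.Lib.FGS.CycSylow

set_option autoImplicit false
open Pointwise
open Cfsg

namespace Cfsg.Agent.S4383

section
open Subgroup Cfsg.Lib.Core Cfsg.Lib.BG Cfsg.Lib.Transfer

universe u

theorem dvd_card_sub_one {P Ω : Type*} [Group P] [MulAction P Ω] [Finite Ω] {m : ℕ} {ω₀ : Ω}
    (h0 : ∀ g : P, g • ω₀ = ω₀) (h : ∀ ω, ω ≠ ω₀ → m ∣ (MulAction.stabilizer P ω).index) :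
    m ∣ Nat.card Ω - 1 := by
  classical
  haveI := Fintype.ofFinite (MulAction.orbitRel.Quotient P Ω)
  rw [Nat.card_congr (MulAction.selfEquivSigmaOrbits' P Ω), Nat.card_sigma,
    ← Finset.add_sum_erase _ _ (Finset.mem_univ (Quotient.mk'' ω₀))]
  have e : MulAction.orbit P ω₀ = {ω₀} := MulAction.mem_fixedPoints'.1 h0 |> fun h1 =>
    Set.eq_singleton_iff_unique_mem.2 ⟨MulAction.mem_orbit_self _, h1⟩
  rw [MulAction.orbitRel.Quotient.orbit_mk, e, Nat.card_unique, Nat.add_sub_cancel_left]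
  refine Finset.dvd_sum fun o ho => ?_
  induction o using Quotient.inductionOn' with
  | _ ω =>
  rw [MulAction.orbitRel.Quotient.orbit_mk, Nat.card_coe_set_eq, ← MulAction.index_stabilizer]
  exact h ω fun e => Finset.ne_of_mem_erase ho (e ▸ rfl)

variable {G : Type u} [Group G] [Finite G]

theorem uniq {B : Subgroup G} {s p : ℕ} [Fact p.Prime]
    (hO : ∀ X : Subgroup G, IsPGroup p X → X ≠ ⊥ → normalizer (X : Set G) ≠ ⊤)
    (hc : ∀ H : Subgroup G, H ≠ ⊤ → Nat.card H ∣ s ∨ ∃ g, H ≤ g ⋆ B) (X : Subgroup G) :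
    IsPGroup p X → ¬ Nat.card X ∣ s → ∃ t : G, X ≤ t ⋆ B ∧ ∀ g, X ≤ g ⋆ B → g⁻¹ * t ∈ B := by
  induction X using WellFoundedGT.induction with
  | _ X ih =>
  intro hX hs
  have h0 : X ≠ ⊥ := by
    rintro rfl
    simp at hs
  obtain ⟨t, ht⟩ := (hc _ (hO X hX h0)).resolve_left fun e =>
    hs ((card_dvd_of_le le_normalizer).trans e)
  refine ⟨t, le_normalizer.trans ht, fun g hg => ?_⟩
  obtain ⟨Y, hY, hXY⟩ := Syl.exists_ge hX hg
  rcases hXY.eq_or_lt with rfl | hlt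
  · have h1 := hY.conj (t * g⁻¹)
    rw [conj_conj, inv_mul_cancel_right] at h1
    have h2 := Syl.of_card_le' h1 hX (le_normalizer.trans ht) (card_conj _ _).le
    obtain ⟨b, hb, e⟩ := Syl.exists_conj_eq h1 h2
    rw [conj_conj] at e
    have h3 := mul_mem (inv_mem hb) (ht (conj_eq_self_iff.1 e.symm))
    simpa using mem_conj.1 h3
  · have h1 := lt_inf_normalizer_of_lt hY.pgroup hlt
    obtain ⟨u, -, hu⟩ := ih _ h1 (hY.pgroup.to_le inf_le_left)
      fun e => hs ((card_dvd_of_le h1.le).trans e)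
    simpa using mul_mem (hu g (inf_le_left.trans hY.le)) (inv_mem (hu t (inf_le_right.trans ht)))

theorem index_dvd {A B : Subgroup G}
    (hO : ∀ p : ℕ, p.Prime → ∀ X : Subgroup G, IsPGroup p X → X ≠ ⊥ → normalizer (X : Set G) ≠ ⊤)
    (hc : ∀ H : Subgroup G, H ≠ ⊤ → Nat.card H ∣ Nat.card A ∨ ∃ g, H ≤ g ⋆ B) :
    A.index ∣ B.index - 1 := by
  refine (Nat.dvd_iff_prime_pow_dvd_dvd _ _).2 fun p k hp hk => ?_
  haveI := Fact.mk hp
  rcases Nat.eq_zero_or_pos k with rfl | k0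
  · simp
  obtain ⟨P⟩ : Nonempty (Sylow p G) := inferInstance
  have key : ∀ X : Subgroup G, IsPGroup p X → Nat.card X ∣ Nat.card A →
      p ^ k * Nat.card X ∣ Nat.card P := fun X hX e => by
    obtain ⟨j, hj⟩ := IsPGroup.iff_card.1 hX
    have h1 := A.index_mul_card ▸ mul_dvd_mul hk e
    rw [hj, ← pow_add] at h1 ⊢
    rw [← (P : Subgroup G).index_mul_card] at h1
    exact (Nat.Coprime.pow_left _ ((Nat.Prime.coprime_iff_not_dvd hp).2
      P.not_dvd_index)).dvd_of_dvd_mul_left h1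
  obtain ⟨t, ht, hu⟩ := uniq (hO p hp) hc P P.isPGroup' fun e => by
    have h1 := Nat.le_of_dvd Nat.card_pos (key _ P.isPGroup' e)
    have h2 := Nat.one_lt_pow k0.ne' hp.one_lt
    have h3 := Nat.card_pos (α := P)
    nlinarith
  have hs : ∀ (y : P) (g : G), y • (g : G ⧸ B) = g ↔ (y : G) ∈ g ⋆ B := fun y g => by
    change (((y : G) * g : G) : G ⧸ B) = g ↔ _
    rw [eq_comm, QuotientGroup.eq, mem_conj, mul_assoc]
  refine dvd_card_sub_one (P := P) (ω₀ := (t : G ⧸ B)) (fun y => (hs y t).2 (ht y.2)) fun ω hω => ?_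
  obtain ⟨g, rfl⟩ := QuotientGroup.mk_surjective ω
  have e : MulAction.stabilizer P (g : G ⧸ B) = (g ⋆ B).subgroupOf P := Subgroup.ext fun y => hs y g
  have hX : IsPGroup p ↥(g ⋆ B ⊓ P) := P.isPGroup'.to_le inf_le_right
  have h1 : Nat.card ↥(g ⋆ B ⊓ P) ∣ Nat.card A := by
    by_contra h2
    obtain ⟨u, -, hu'⟩ := uniq (hO p hp) hc _ hX h2
    refine hω (QuotientGroup.eq.2 ?_)
    simpa using mul_mem (hu' g inf_le_left) (inv_mem (hu' t (inf_le_right.trans ht)))
  have h2 := key _ hX h1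
  rw [← Lib.Core.card_mul_relIndex (inf_le_right : g ⋆ B ⊓ P ≤ P), mul_comm, inf_relIndex_right] at h2
  rw [e]
  exact Nat.dvd_of_mul_dvd_mul_left Nat.card_pos h2

theorem solv_aux (n : ℕ) : ∀ (G : Type u) [Group G] [Finite G] (A B : Subgroup G),
    Nat.card G = n → (∀ H : Subgroup G, H ≠ ⊤ →
      (A ≠ ⊤ ∧ ∃ g, H ≤ g ⋆ A) ∨ (B ≠ ⊤ ∧ ∃ g, H ≤ g ⋆ B)) → Group.IsSolvable G := by
  induction n using Nat.strong_induction_on with
  | _ n ih =>
  intro G _ _ A B hn hc
  by_contra hs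
  have hO : ∀ p : ℕ, p.Prime → ∀ X : Subgroup G, IsPGroup p X → X ≠ ⊥ →
      normalizer (X : Set G) ≠ ⊤ := fun p hp X hX h0 e => by
    haveI := Fact.mk hp
    haveI := normalizer_eq_top_iff.1 e
    have aux : ∀ (H : Subgroup (G ⧸ X)) (C : Subgroup G), C ≠ ⊤ ∧
        (∃ g, H.comap (QuotientGroup.mk' X) ≤ g ⋆ C) → C.map (QuotientGroup.mk' X) ≠ ⊤ ∧
        ∃ g, H ≤ g ⋆ C.map (QuotientGroup.mk' X) := by
      rintro H C ⟨h1, g, h2⟩
      have h3 : X ≤ C := fun x hx => by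
        have := h2 (show g * x * g⁻¹ ∈ H.comap (QuotientGroup.mk' X) by
          rw [mem_comap, QuotientGroup.mk'_apply,
            (QuotientGroup.eq_one_iff _).2 (Normal.conj_mem inferInstance x hx g)]
          exact one_mem _)
        exact conj_mem_conj.1 this
      refine ⟨fun e => h1 ?_, g, fun y hy => ?_⟩
      · have := congrArg (comap (QuotientGroup.mk' X)) e
        rwa [comap_map_eq, QuotientGroup.ker_mk', sup_eq_left.2 h3] at this
      · obtain ⟨y, rfl⟩ := QuotientGroup.mk_surjective y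
        exact mem_conj.2 ⟨_, mem_conj.1 (h2 hy), rfl⟩
    haveI := ih _ (by
        rw [← hn, ← X.index_mul_card]
        exact lt_mul_of_one_lt_right Nat.card_pos (one_lt_card_iff_ne_bot _ |>.2 h0))
      (G ⧸ X) (A.map (QuotientGroup.mk' X)) (B.map (QuotientGroup.mk' X)) rfl fun H hH =>
        (hc (H.comap (QuotientGroup.mk' X)) fun e => hH (by
          rw [← map_comap_eq_self_of_surjective (QuotientGroup.mk'_surjective X) H, e,
            map_top_of_surjective _ (QuotientGroup.mk'_surjective X)])).imp (aux H A) (aux H B)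
    haveI := hX.isNilpotent
    exact hs (solvable_of_ker_le_range X.subtype (QuotientGroup.mk' X) (by simp))
  have main : ∀ A B : Subgroup G, A ≠ ⊤ → B ≠ ⊤ →
      (∀ H : Subgroup G, H ≠ ⊤ → (∃ g, H ≤ g ⋆ A) ∨ ∃ g, H ≤ g ⋆ B) → False := fun A B hA hB h => by
    have e : ∀ (H C : Subgroup G), (∃ g, H ≤ g ⋆ C) → Nat.card H ∣ Nat.card C :=
      fun H C ⟨g, hg⟩ => card_conj g C ▸ card_dvd_of_le hg
    have h1 := index_dvd (A := A) (B := B) hO fun H hH => (h H hH).imp_left (e H A)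
    have h2 := index_dvd (A := B) (B := A) hO fun H hH => (h H hH).symm.imp_left (e H B)
    have a1 := one_lt_index_of_ne_top hA
    have a2 := one_lt_index_of_ne_top hB
    have := Nat.le_of_dvd (by omega) h1
    have := Nat.le_of_dvd (by omega) h2
    omega
  have h0 : (⊥ : Subgroup G) ≠ ⊤ := fun e => hs (by
    haveI : Subsingleton G := subsingleton_iff.1 (subsingleton_of_bot_eq_top e)
    infer_instance)
  by_cases hA : A = ⊤
  · have hB := ((hc ⊥ h0).resolve_left fun e => e.1 hA).1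
    exact main B B hB hB fun H hH => .inl ((hc H hH).resolve_left fun e => e.1 hA).2
  by_cases hB : B = ⊤
  · exact main A A hA hA fun H hH => .inl ((hc H hH).resolve_right fun e => e.1 hB).2
  exact main A B hA hB fun H hH => (hc H hH).imp And.right And.right

end


/-- A finite group with exactly two conjugacy classes of maximal subgroups is solvable and its order has exactly two prime divisors. -/
theorem result {G : Type*} [Group G] [Finite G]
    (M₁ M₂ : Subgroup G) (h1 : IsCoatom M₁) (h2 : IsCoatom M₂) (hne : ∀ g : G, M₂ ≠ MulAut.conj g • M₁)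
    (hall : ∀ M : Subgroup G, IsCoatom M → ∃ g : G, M = MulAut.conj g • M₁ ∨ M = MulAut.conj g • M₂) :
    Group.IsSolvable G ∧ (Nat.card G).primeFactors.card = 2 := by
  open Subgroup Cfsg.Lib.Core Cfsg.Lib.Transfer in
  have hc : ∀ H : Subgroup G, H ≠ ⊤ → (∃ g, H ≤ g ⋆ M₁) ∨ ∃ g, H ≤ g ⋆ M₂ := fun H hH => by
    obtain ⟨M, hM, e⟩ := (eq_top_or_exists_le_coatom H).resolve_left hH
    obtain ⟨g, rfl | rfl⟩ := hall M hM
    · exact .inl ⟨g, e⟩
    · exact .inr ⟨g, e⟩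
  open Subgroup Cfsg.Lib.Core Cfsg.Lib.Transfer in
  haveI hs := solv_aux _ G M₁ M₂ rfl fun H hH => (hc H hH).imp (⟨h1.1, ·⟩) (⟨h2.1, ·⟩)
  refine ⟨hs, ?_⟩
  obtain ⟨p, i, hp, hi, e1⟩ := (isPrimePow_nat_iff _).1 (isPrimePow_index_of_isCoatom h1)
  obtain ⟨q, j, hq, hj, e2⟩ := (isPrimePow_nat_iff _).1 (isPrimePow_index_of_isCoatom h2)
  have aux : ∀ (H C : Subgroup G), (∃ g, H ≤ g ⋆ C) → C.index ∣ H.index :=
    fun H C ⟨g, hg⟩ => index_conj g C ▸ index_dvd_of_le hg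
  have h3 : ∀ r : ℕ, r.Prime → r ∣ Nat.card G → r = p ∨ r = q := fun r hr hd => by
    obtain ⟨H, hH1, hH2⟩ := Cfsg.Lib.Hall.exists_isPiHall (G := G) {r}ᶜ
    have h4 : H ≠ ⊤ := by
      rintro rfl
      exact hH1 r hr (by simpa using hd) rfl
    by_contra! h5
    rcases hc H h4 with h | h
    · exact hH2 p hp h5.1.symm ((e1 ▸ dvd_pow_self p hi.ne').trans (aux _ _ h))
    · exact hH2 q hq h5.2.symm ((e2 ▸ dvd_pow_self q hj.ne').trans (aux _ _ h))
  have hpq : p ≠ q := by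
    rintro rfl
    haveI := Fact.mk hp
    have hG : IsPGroup p G := IsPGroup.iff_card.2 ⟨_, Nat.eq_prime_pow_of_unique_prime_dvd
      Nat.card_pos.ne' fun hr hd => (h3 _ hr hd).elim id id⟩
    haveI := hG.isNilpotent
    haveI n1 := NormalizerCondition.normal_of_coatom _ normalizerCondition_of_isNilpotent h1
    haveI n2 := NormalizerCondition.normal_of_coatom _ normalizerCondition_of_isNilpotent h2
    have h12 : M₁ ≠ M₂ := fun e => hne 1 (by simp [e])
    obtain ⟨x, hx1, hx2⟩ := SetLike.not_le_iff_exists.1 fun e => h12 ((h1.le_iff_eq h2.1).1 e).symm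
    obtain ⟨y, hy2, hy1⟩ := SetLike.not_le_iff_exists.1 fun e => h12 ((h2.le_iff_eq h1.1).1 e)
    have ht : zpowers (x * y) = ⊤ := by
      by_contra h
      rcases hc _ h with ⟨g, h⟩ | ⟨g, h⟩ <;> rw [conj_eq_self_of_normal] at h
      · exact hy1 (by simpa using mul_mem (inv_mem hx1) (h (mem_zpowers _)))
      · exact hx2 (by simpa using mul_mem (h (mem_zpowers _)) (inv_mem hy2))
    haveI : IsCyclic G := ⟨x * y, fun g => (ht ▸ mem_top g : g ∈ zpowers (x * y))⟩
    rcases Cfsg.Lib.FGS.le_total_of_isCyclic (hG.to_subgroup ⊤) inferInstance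
      (le_top : M₁ ≤ ⊤) (le_top : M₂ ≤ ⊤) with h | h
    · exact hx2 (h hx1)
    · exact hy1 (h hy2)
  have : (Nat.card G).primeFactors = {p, q} := by
    ext r
    simp only [Nat.mem_primeFactors, Finset.mem_insert, Finset.mem_singleton]
    refine ⟨fun h => h3 r h.1 h.2.1, ?_⟩
    rintro (rfl | rfl)
    · exact ⟨hp, (e1 ▸ dvd_pow_self r hi.ne').trans M₁.index_dvd_card, Nat.card_pos.ne'⟩
    · exact ⟨hq, (e2 ▸ dvd_pow_self r hj.ne').trans M₂.index_dvd_card, Nat.card_pos.ne'⟩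
  rw [this, Finset.card_pair hpq]

end Cfsg.Agent.S4383
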