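import Cfsg.Statements.S4385
import Cfsg.Agent.Lib.Amalgam.SimsDih

set_option autoImplicit false
open Pointwise
open Cfsg

namespace Cfsg.Agent.S4385

open Cfsg.Lib.SimsChain Cfsg.Lib.Core Subgroup DihedralGroup
open scoped commutatorElement

theorem sr_ne {n : ℕ} (i : ZMod n) : (sr i : DihedralGroup n) ≠ 1 := fun h => by cases h

theorem r_eq {n : ℕ} (i : ZMod n) : (r i : DihedralGroup n) = 1 ↔ i = 0 := by rw [one_def, r.injEq]

theorem odd_of_pCore {n : ℕ} (hn : 2 ≤ n) (h : pCore 2 (DihedralGroup n) = ⊥) : Odd n := by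
  by_contra ho
  obtain ⟨m, rfl⟩ := Nat.not_odd_iff_even.1 ho
  have : NeZero (m + m) := ⟨by omega⟩
  have h0 : (m : ZMod (m + m)) + m = 0 := by rw [← Nat.cast_add, ZMod.natCast_self]
  have hc : zpowers (r m : DihedralGroup (m + m)) ≤ center _ := zpowers_le.2 (mem_center_iff.2 fun g => by
    rcases g with j | j
    · simp [add_comm]
    · simp only [sr_mul_r, r_mul_sr, sr.injEq]; linear_combination h0)
  have := le_pCore (⟨fun a ha g => by
    rwa [mem_center_iff.1 (hc ha) g, mul_inv_cancel_right]⟩ : (zpowers (r m : DihedralGroup (m + m))).Normal) (p := 2) (IsPGroup.of_card_dvd_pow (n := 1) (by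
    rw [Nat.card_zpowers, pow_one]
    exact orderOf_dvd_of_pow_eq_one (by rw [pow_two, r_mul_r, h0, one_def])))
  rw [h, le_bot_iff, zpowers_eq_bot, one_def, r.injEq, ZMod.natCast_eq_zero_iff] at this
  exact absurd (Nat.le_of_dvd (by omega) this) (by omega)

theorem syl {Γ : Type*} [Group Γ] [Finite Γ] {n : ℕ} {π : Γ →* DihedralGroup n}
    (hs : Function.Surjective π) (ho : Odd n) {T : Subgroup Γ} (hT : IsPGroup 2 T)
    (hk : π.ker ≤ T) (hi : ¬ 2 ∣ T.index) : ∃ i, ∀ x, x ∈ T ↔ π x = 1 ∨ π x = sr i := by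
  have h1 : ∀ x ∈ T, ∀ j, π x = r j → π x = 1 := fun x hx j e => by
    obtain ⟨k, hk⟩ := hT ⟨x, hx⟩
    have a : π x ^ 2 ^ k = 1 := by rw [← map_pow, show x ^ 2 ^ k = 1 from congrArg Subtype.val hk, map_one]
    have b : π x ^ n = 1 := by
      rw [e, r_pow, ZMod.natCast_self, mul_zero, one_def]
    rw [← orderOf_eq_one_iff]
    exact Nat.eq_one_of_dvd_coprimes ((Nat.coprime_two_left.2 ho).pow_left k)
      (orderOf_dvd_of_pow_eq_one a) (orderOf_dvd_of_pow_eq_one b)
  obtain ⟨b, hb, hb'⟩ : ∃ b ∈ T, π b ≠ 1 := by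
    by_contra! h
    rw [show T = π.ker from le_antisymm h hk, index_ker, MonoidHom.range_eq_top.2 hs, card_top,
      DihedralGroup.nat_card] at hi
    exact hi (dvd_mul_right 2 n)
  rcases e : π b with j | i
  · exact absurd (h1 b hb j e) hb'
  refine ⟨i, fun x => ⟨fun hx => ?_, ?_⟩⟩
  · rcases e' : π x with j | j
    · exact Or.inl (e' ▸ h1 x hx j e')
    · have := h1 _ (mul_mem hb hx) (j - i) (by simp [e, e'])
      rw [map_mul, e, e', sr_mul_sr, one_def, r.injEq, sub_eq_zero] at this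
      exact Or.inr (by rw [this])
  · rintro (h | h)
    · exact hk h
    · simpa using mul_mem (hk (show x * b⁻¹ ∈ π.ker by simp [h, e])) hb

theorem eq_bot_of_norm {G : Type*} [Group G] {H P : Subgroup G} (hPH : P ≤ H) {y : G}
    (hy2 : y ^ 2 ∈ P ⊔ centralizer (P : Set G)) (hyN : MulAut.conj y • P = P)
    (hyQ : ∀ Q : Subgroup G, Q ≤ P → (Q.subgroupOf H).Normal → MulAut.conj y • Q = Q → Q = ⊥)
    {N : Subgroup G} (h1 : N ≤ P) (h2 : H ≤ normalizer (N : Set G))
    (h3 : ∀ x ∈ H, y * x * y⁻¹ ∈ normalizer (N : Set G)) : N = ⊥ := by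
  have a1 : (MulAut.conj y)⁻¹ • N ≤ P := by
    rw [← inv_smul_eq_iff.2 hyN.symm]; exact pointwise_smul_le_pointwise_smul_iff.2 h1
  have a2 : H ≤ normalizer (((MulAut.conj y)⁻¹ • N : Subgroup G) : Set G) := fun x hx => by
    rw [mem_normalizer_iff]
    intro v
    simp only [mem_inv_pointwise_smul_iff, MulAut.smul_def, MulAut.conj_apply]
    rw [mem_normalizer_iff.1 (h3 x hx)]
    simp [mul_assoc]
  have a3 : MulAut.conj y • N = (MulAut.conj y)⁻¹ • N := by
    have := (sup_le (hPH.trans a2) ((centralizer_le a1).trans (centralizer_le_normalizer _))) hy2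
    ext v
    rw [mem_normalizer_iff''.1 this, mem_pointwise_smul_iff_inv_smul_mem, mem_inv_pointwise_smul_iff]
    simp [pow_two, mul_assoc]
  have := hyQ (N ⊔ (MulAut.conj y)⁻¹ • N) (sup_le h1 a1) ((normal_subgroupOf_iff_le_normalizer
    ((sup_le h1 a1).trans hPH)).2 ((le_inf h2 a2).trans (normalizer_inf_normalizer_le_normalizer_sup _ _)))
    (by rw [smul_sup, smul_inv_smul, a3, sup_comm])
  exact eq_bot_iff.2 (this ▸ le_sup_left)

set_option maxHeartbeats 1000000 in
/-- Let H be a subgroup of a finite group G whose largest normal 2-subgroup O_2(H) is nontrivial and such that H/O_2(H) is a dihedral group of order at least 4. Let P be a Sylow 2-subgroup of H and S a Sylow 2-subgroup of G containing P. Suppose y ∈ S lies outside P, normalizes P, has y² in the product of P with the centralizer of P in G, and normalizes no non-identity normal subgroup of H contained in P. Then P has order 4, 8 or 16, and H modulo its largest normal subgroup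 of odd order is isomorphic to the four-group, to the symmetric group of degree 4, or to the direct product of the symmetric group of degree 4 with a group of order 2. -/
theorem result {G : Type*} [Group G] [Finite G]
    (H : Subgroup G) (hO : Cfsg.pCore 2 ↥H ≠ ⊥) (n : ℕ) (hn : 2 ≤ n) (hdih : Nonempty (↥H ⧸ Cfsg.pCore 2 ↥H ≃* DihedralGroup n))
    (P : Subgroup G) (hPH : P ≤ H) (hP : IsPGroup 2 P) (hPsyl : ¬ 2 ∣ P.relIndex H)
    (S : Sylow 2 G) (hPS : P ≤ (S : Subgroup G)) (y : G) (hyS : y ∈ (S : Subgroup G)) (hyP : y ∉ P)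
    (hy2 : y ^ 2 ∈ P ⊔ Subgroup.centralizer (P : Set G)) (hyN : MulAut.conj y • P = P)
    (hyQ : ∀ Q : Subgroup G, Q ≤ P → (Q.subgroupOf H).Normal → MulAut.conj y • Q = Q → Q = ⊥) :
    (Nat.card P = 4 ∨ Nat.card P = 8 ∨ Nat.card P = 16) ∧
    (Nonempty (↥H ⧸ Cfsg.oddCore ↥H ≃* Multiplicative (ZMod 2) × Multiplicative (ZMod 2)) ∨
     Nonempty (↥H ⧸ Cfsg.oddCore ↥H ≃* Equiv.Perm (Fin 4)) ∨
     Nonempty (↥H ⧸ Cfsg.oddCore ↥H ≃* Equiv.Perm (Fin 4) × Multiplicative (ZMod 2))) := by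
  obtain ⟨e⟩ := hdih
  let π : H →* DihedralGroup n := e.toMonoidHom.comp (QuotientGroup.mk' _)
  have hk : π.ker = pCore 2 H := by
    ext x; simp [π]
  have hs : Function.Surjective π := e.surjective.comp (QuotientGroup.mk'_surjective _)
  have ho : Odd n := odd_of_pCore hn ((pCore_eq_bot_congr e).1 (pCore_quotient_pCore 2 H))
  have : NeZero n := ⟨by omega⟩
  have : Fact (1 < n) := ⟨hn⟩
  have hP' : IsPGroup 2 (P.subgroupOf H) := hP.comap_subtype
  obtain ⟨i, hi⟩ := syl hs ho hP' (hk ▸ pCore_le_sylow (hP'.toSylow hPsyl)) hPsyl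
  replace hi : ∀ x : H, (x : G) ∈ P ↔ π x = 1 ∨ π x = sr i := hi
  obtain ⟨g, hg⟩ : ∃ g : H, ∀ x : H, (g⁻¹ * x * g : G) ∈ P ↔ π x = 1 ∨ π x = sr (i - 1) := by
    obtain ⟨m, hm⟩ := ho
    obtain ⟨g, hg⟩ := hs (r (m + 1))
    have h0 : (2 * m + 1 : ZMod n) = 0 := by rw [← ZMod.natCast_self n, hm]; push_cast; rfl
    refine ⟨g, fun x => (hi (g⁻¹ * x * g)).trans ?_⟩
    rw [map_mul, map_mul, map_inv, hg]
    rcases π x with j | j
    · simp only [inv_r, r_mul_r, r_eq, reduceCtorEq, or_false]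
      constructor <;> intro h <;> linear_combination h
    · simp only [inv_r, r_mul_sr, sr_mul_r, one_def, sr.injEq, reduceCtorEq, false_or]
      constructor <;> intro h
      · linear_combination h - h0
      · linear_combination h + h0
  have hy : ∀ x, y * x * y⁻¹ ∈ P ↔ x ∈ P := fun x => by
    nth_rewrite 1 [← hyN]
    exact smul_mem_pointwise_smul_iff (a := MulAut.conj y)
  set τ : MulAut G := MulAut.conj (y * (g : G)⁻¹) with hτ
  have hτP : ∀ x, τ x ∈ P ↔ (g⁻¹ * x * g : G) ∈ P := fun x => by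
    rw [← hy (g⁻¹ * x * g), hτ]; simp [mul_assoc]
  have hW : ∀ x : H, (x : G) ∈ W P τ 1 ↔ x ∈ π.ker := fun x => by
    change (x : G) ∈ P ∧ τ x ∈ P ↔ π x = 1
    rw [hτP, hi, hg]
    refine ⟨fun ⟨a, b⟩ => a.resolve_right fun a => ?_, fun h => ⟨Or.inl h, Or.inl h⟩⟩
    rcases b with b | b <;> rw [a] at b
    · exact sr_ne _ b
    · simp [eq_sub_iff_add_eq] at b
  obtain ⟨b₀, hb₀⟩ := hs (sr i)
  have hb₀P := (hi b₀).2 (Or.inr hb₀)
  have h2 : (W P τ 1).relIndex P = 2 := by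
    refine index_eq_two_iff.2 ⟨⟨b₀, hb₀P⟩, fun x => ?_⟩
    have a := hW ⟨x, hPH x.2⟩
    have b := hW (⟨x, hPH x.2⟩ * b₀)
    change Xor (((⟨x, hPH x.2⟩ * b₀ : H) : G) ∈ W P τ 1) ((x : G) ∈ W P τ 1)
    rw [a, b, MonoidHom.mem_ker, MonoidHom.mem_ker, map_mul, hb₀]
    rcases (hi ⟨x, hPH x.2⟩).1 x.2 with c | c <;> simp [c, sr_ne]
  have top : ∀ {a b : H} {K : Subgroup G}, π a = sr (i - 1) → π b = sr i → W P τ 1 ≤ K →
      (a : G) ∈ K → (b : G) ∈ K → H ≤ K := fun {a b K} pa pb c d f =>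
    subgroupOf_eq_top.1 (gen_top pa pb (fun x hx => c ((hW x).2 hx)) d f)
  obtain ⟨s, hPs⟩ := IsPGroup.iff_card.1 hP
  obtain ⟨w, ch, hB, hB1⟩ := exists_chain hPs h2 fun N h1 h3 h4 => by
    have ht : y * (g : G)⁻¹ ∈ normalizer (N : Set G) := mem_normalizer_fintype fun x hx =>
      h4.le ⟨x, hx, rfl⟩
    have hH : H ≤ normalizer (N : Set G) := top (a := g * b₀ * g⁻¹)
      (((hg _).1 (by simpa [mul_assoc] using hb₀P)).resolve_left (by
        rcases e : π g with j | j <;> simp [hb₀, e, sr_ne])) hb₀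
      ((W_le 1).trans h3) (by
        simpa [mul_assoc] using mul_mem (mul_mem (inv_mem ht) (h3 ((hy _).2 hb₀P))) ht) (h3 hb₀P)
    have hy' : y ∈ normalizer (N : Set G) := by simpa using mul_mem ht (hH g.2)
    exact eq_bot_of_norm hPH hy2 hyN hyQ h1 hH fun x hx =>
      mul_mem (mul_mem hy' (hH hx)) (inv_mem hy')
  set z : ℤ → G := fun i => (τ ^ i) w with hz
  have hτz : ∀ l l', l' = l + 1 → τ (z l) = z l' := fun l l' h => by
    simp [hz, h, add_comm l, zpow_add]
  have sh : ∀ i j k, Commute (z i) (z j) → Commute (z (i + k)) (z (j + k)) := fun i j k h => by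
    simpa [hz, add_comm i, add_comm j, zpow_add] using h.map (τ ^ k)
  clear_value z
  have cm : ∀ i i' j : ℤ, i' = i + 1 → i < j → j + 1 - i ≤ s → ⁅z i, z j⁆ ∈ B z i' j :=
    fun i i' j a b c => a ▸ ch.comm_mem b c
  have hker : ∀ x : H, x ∈ π.ker ↔ (x : G) ∈ B z 0 (s - 1) := fun x => by rw [hB1, hW]
  have hs2 : 2 ≤ s := by
    by_contra h
    refine hO (hk ▸ eq_bot_iff.2 fun x hx => Subtype.ext (eq_one_of_mem_B ?_ ((hker x).1 hx)))
    omega
  have zP : ∀ l : ℤ, 0 ≤ l → l < s → z l ∈ P := fun l a b => hB ▸ mem_B a b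
  have aP : (g⁻¹ * z (-1) * g : G) ∈ P := (hτP _).1 (hτz (-1) 0 rfl ▸ zP 0 le_rfl (by omega))
  let a : H := ⟨z (-1), by simpa [mul_assoc] using mul_mem (mul_mem g.2 (hPH aP)) (inv_mem g.2)⟩
  let b : H := ⟨z (s - 1), hPH (zP _ (by omega) (by omega))⟩
  have pa : π a = sr (i - 1) := ((hg a).1 aP).resolve_left fun h =>
    ch.not_left' (by omega) (by omega) (by omega) ((hker a).1 h)
  have pb : π b = sr i := ((hi b).1 (zP _ (by omega) (by omega))).resolve_left fun h =>
    ch.not_right (by omega) (by omega) ((hker b).1 h)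
  obtain ⟨L, C, N, hL⟩ := ch.classify sh (fun N h1 h3 => by
      have hP : P ≤ normalizer (N : Set G) := hB ▸ B_le fun l a b => h3 l (by omega) (by omega)
      have := top (K := (normalizer (N : Set G)).comap τ.toMonoidHom) pa pb (fun x hx => hP hx.2)
        (show τ (z (-1)) ∈ _ from hτz (-1) 0 rfl ▸ h3 0 (by omega) (by omega))
        (show τ (z (s - 1)) ∈ _ from hτz (s - 1) s (by omega) ▸ h3 s (by omega) le_rfl)
      refine eq_bot_of_norm hPH hy2 hyN hyQ (hB ▸ h1) (top pa pb ((W_le 1).trans hP)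
        (h3 _ le_rfl (by omega)) (h3 _ (by omega) (by omega))) fun x hx => ?_
      simpa [hτ, mul_assoc] using this (mul_mem (mul_mem g.2 hx) (inv_mem g.2))) hs2
  have dh : DH π a b i := ⟨hs, ho, fun q hq => Subtype.ext (ch.sq_B C (by omega) ((hker q).1 hq)),
    Subtype.ext (ch.sq _), Subtype.ext (ch.sq _), pa, pb⟩
  have hc : Nat.card π.ker = 2 ^ (s - 1) := by
    rw [← ch.card 0 (s - 1) (by omega), show (0 : ℤ) + (s - 1 : ℕ) = s - 1 by omega,
      show π.ker = (B z 0 (s - 1)).subgroupOf H from ext hker]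
    exact Nat.card_congr (subgroupOfEquivOfLe (hB1 ▸ (W_le 1).trans hPH)).toEquiv
  have nc : ∀ i j, j = i + L → ⁅z i, z j⁆ ≠ 1 := fun i j h e =>
    N i (h ▸ commutatorElement_eq_one_iff_commute.1 e)
  have ne : ∀ i, z i ≠ z (i + 1) := fun i e =>
    ch.not_left (i := i) (j := i + 2) (by omega) (by omega) (by
      rw [e]; exact mem_B le_rfl (by omega))
  rw [hPs]
  rcases hL with ⟨rfl, rfl⟩ | ⟨rfl, rfl⟩ | ⟨rfl, rfl⟩
  · exact ⟨Or.inl rfl, Or.inl (dh.four hc)⟩
  · obtain ⟨k1, k2, k3⟩ := cube_comm (a := z (-1)) (b := z 2) (w := 1) (ch.sq 0) (one_mul 1) (ch.sq 1)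
      (.one_right _) (C _ _ (by omega) (by omega)) (.one_left _) (C _ _ (by omega) (by omega))
      (.one_right _) (.one_right _) (C _ _ (by omega) (by omega))
      (by rw [mul_one]; exact (ch.mem_one (by omega) (by omega) (cm _ _ _ (by omega) (by omega)
        (by omega))).resolve_left (nc _ _ (by omega)))
      (by rw [one_mul]; exact (ch.mem_one (by omega) (by omega) (cm _ _ _ (by omega) (by omega)
        (by omega))).resolve_left (nc _ _ (by omega)))
    refine ⟨Or.inr (Or.inl rfl), Or.inr (Or.inl (dh.sym_four (fun q hq => Subtype.ext ?_)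
      (fun h => ne 0 ?_) hc))⟩
    · refine (B_comm (fun l c d => ?_) ((hker q).1 hq)).symm
      rcases (show l = 0 ∨ l = 1 by omega) with rfl | rfl
      exacts [k2, k3]
    · have := congrArg Subtype.val (h ⟨z 0, hPH (zP 0 le_rfl (by omega))⟩
        ((hker _).2 (mem_B le_rfl (by omega))))
      exact (mul_inv_eq_iff_eq_mul.2 this.symm).symm.trans k1
  · have cQ : ∀ {u v}, u ∈ B z 0 3 → v ∈ B z 0 3 → Commute u v := fun hu hv =>
      B_comm (fun l c d => (B_comm (fun k e f => C _ _ (by omega) (by omega)) hu).symm) hv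
    have c1 : ⁅z (-1), z 2⁆ ∈ B z 0 2 := cm _ _ _ (by omega) (by omega) (by omega)
    have c2 : ⁅z 0, z 3⁆ ∈ B z 1 3 := cm _ _ _ (by omega) (by omega) (by omega)
    have c2' : ⁅z 3, z 0⁆ = ⁅z 0, z 3⁆ := by
      rw [← commutatorElement_inv, inv_eq_of_mul_eq_one_right (ch.sq_B C (by omega) c2)]
    have c3 : τ ⁅z (-1), z 2⁆ = ⁅z 0, z 3⁆ := by
      rw [map_commutatorElement, hτz (-1) 0 rfl, hτz 2 3 rfl]
    have d1 : ∀ v ∈ B z 0 3, ⁅z (-1), v⁆ = 1 ∨ ⁅z (-1), v⁆ = ⁅z (-1), z 2⁆ := fun v hv => by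
      refine (ch.dec_right (j := 2) (by omega) hv).imp (fun h => commutatorElement_eq_one_iff_commute.2
        (B_comm (fun l c d => C _ _ (by omega) (by omega)) h)) fun h => ?_
      have e1 : Commute (z (-1)) (v * z 2) := B_comm (fun l c d => C _ _ (by omega) (by omega)) h
      have e2 := cQ (B_mono le_rfl (by omega) h) (B_mono le_rfl (by omega) c1)
      calc ⁅z (-1), v⁆ = ⁅z (-1), v * z 2 * z 2⁆ := by rw [mul_assoc, ch.sq, mul_one]
        _ = v * z 2 * ⁅z (-1), z 2⁆ * (v * z 2)⁻¹ := by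
          rw [commutatorElement_def, commutatorElement_def, ← mul_assoc (z (-1)), e1.eq]; group
        _ = _ := by rw [e2.eq, mul_inv_cancel_right]
    have d2 : ∀ v ∈ B z 0 3, ⁅z 3, v⁆ = 1 ∨ ⁅z 3, v⁆ = ⁅z 0, z 3⁆ := fun v hv => by
      refine (ch.dec_left (by omega) hv).imp (fun h => commutatorElement_eq_one_iff_commute.2
        (B_comm (fun l c d => C _ _ (by omega) (by omega)) h)) fun h => ?_
      have e1 : Commute (z 3) (z 0 * v) := B_comm (fun l c d => C _ _ (by omega) (by omega)) h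
      calc ⁅z 3, v⁆ = ⁅z 3, z 0 * (z 0 * v)⁆ := by rw [← mul_assoc, ch.sq, one_mul]
        _ = ⁅z 3, z 0⁆ * (z 0 * ⁅z 3, z 0 * v⁆ * (z 0)⁻¹) := by
          simp only [commutatorElement_def]; group
        _ = _ := by rw [commutatorElement_eq_one_iff_commute.2 e1, c2']; simp
    have hz1 : H ≤ centralizer {z 1} := top pa pb
      (hB1 ▸ B_le fun l c d => mem_centralizer_singleton_iff.2 (C _ _ (by omega) (by omega)))
      (mem_centralizer_singleton_iff.2 (C _ _ (by omega) (by omega)))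
      (mem_centralizer_singleton_iff.2 (C _ _ (by omega) (by omega)))
    have c4 : ∃ t ∈ H, ⁅z 0, z 3⁆ = t * ⁅z (-1), z 2⁆ * t⁻¹ := by
      obtain ⟨t, ht⟩ := exists_conj_ab ho pa pb
      have m0 : (⟨z 0, hPH (zP 0 le_rfl (by omega))⟩ : H) ∈ π.ker := (hker _).2 (mem_B le_rfl (by omega))
      have m1 : (t : G)⁻¹ * z 0 * t ∈ B z 0 3 := (hker _).1 (Normal.conj_mem' inferInstance _ m0 t)
      have m2 : (t : G) * z (-1) * (t : G)⁻¹ * (z 3)⁻¹ ∈ B z 0 3 := (hker _).1 ht
      have m3 := cQ m2 (mem_B (l := 0) le_rfl (by omega))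
      have m4 := cQ m2 (B_mono (by omega) le_rfl c2)
      have : ⁅z 0, z 3⁆ = t * ⁅z (-1), (t : G)⁻¹ * z 0 * t⁆ * (t : G)⁻¹ := by
        set x := (t : G) * z (-1) * (t : G)⁻¹ * (z 3)⁻¹ with hx
        calc ⁅z 0, z 3⁆ = x * ⁅z 3, z 0⁆ * x⁻¹ * ⁅x, z 0⁆ := by
              rw [c2', m4.eq, commutatorElement_eq_one_iff_commute.2 m3]; simp
          _ = _ := by simp only [hx, commutatorElement_def]; group
      rcases d1 _ m1 with h | h <;> rw [h] at this
      · exact absurd (by simpa using this) (nc 0 3 (by omega))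
      · exact ⟨t, t.2, this⟩
    obtain ⟨t, ht, c4⟩ := c4
    have c5 : t * z 1 * t⁻¹ = z 1 := mul_inv_eq_iff_eq_mul.2 (mem_centralizer_singleton_iff.1 (hz1 ht))
    have c6 : ⁅z (-1), z 2⁆ = z 0 * z 1 := by
      rcases ch.mem_two (by omega) (by omega : (1 : ℤ) = 0 + 1) (by omega) c1 with h | h | h | h
      · exact absurd h (nc _ _ (by omega))
      · rw [← c3, h, hτz 0 1 rfl, ← c5] at c4
        exact absurd (MulAut.conj t |>.injective c4).symm (ne 0)
      · rw [← c3, h, hτz 1 2 rfl, c5] at c4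
        exact absurd c4.symm (ne 1)
      · exact h
    have c7 : ⁅z 0, z 3⁆ = z 1 * z 2 := by rw [← c3, c6, map_mul, hτz 0 1 rfl, hτz 1 2 rfl]
    obtain ⟨k1, k2, k3⟩ := cube_comm (a := z (-1)) (b := z 3) (ch.sq 0) (ch.sq 1) (ch.sq 2)
      (C _ _ (by omega) (by omega)) (C _ _ (by omega) (by omega)) (C _ _ (by omega) (by omega))
      (C _ _ (by omega) (by omega)) (C _ _ (by omega) (by omega)) (C _ _ (by omega) (by omega))
      (C _ _ (by omega) (by omega)) c6 c7
    have mH : ∀ l : ℤ, 0 ≤ l → l < 3 → z l ∈ H := fun l c d => hPH (zP l c (by omega))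
    refine ⟨Or.inr (Or.inr rfl), Or.inr (Or.inr (dh.two_sym_four (fun q hq => Subtype.ext ?_)
      (fun h => ?_) hc (c := ⟨z 1 * z 2, mul_mem (mH 1 (by omega) (by omega)) (mH 2 (by omega) (by omega))⟩)
      (w := ⟨z 1, mH 1 (by omega) (by omega)⟩)
      ((hker _).2 (mul_mem (mem_B (by omega) (by omega)) (mem_B (by omega) (by omega))))
      ((hker _).2 (mem_B (by omega) (by omega))) (fun q hq => ?_) (fun h => ?_)
      (mem_center_iff.2 fun x => Subtype.ext (mem_centralizer_singleton_iff.1 (hz1 x.2)))))⟩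
    · refine (B_comm (fun l c d => ?_) ((hker q).1 hq)).symm
      rcases (show l = 0 ∨ l = 1 ∨ l = 2 by omega) with rfl | rfl | rfl
      exacts [k2, ((C _ _ (by omega) (by omega)).mul_left (C _ _ (by omega) (by omega))).pow_left 3, k3]
    · have := congrArg Subtype.val (h ⟨z 0, mH 0 le_rfl (by omega)⟩
        ((hker _).2 (mem_B le_rfl (by omega))))
      have e : z 0 = z 2 := (mul_inv_eq_iff_eq_mul.2 this.symm).symm.trans k1
      exact ch.not_left (i := 0) (j := 3) (by omega) (by omega)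
        (by rw [e]; exact mem_B (by omega) (by omega))
    · rcases d2 q ((hker q).1 hq) with h | h
      · exact (Subtype.ext h : ⁅b, q⁆ = 1) ▸ one_mem _
      · exact (Subtype.ext (h.trans c7) : ⁅b, q⁆ = ⟨z 1 * z 2, _⟩) ▸ mem_zpowers _
    · obtain ⟨k, hk⟩ := h
      have hk' : (z 1 * z 2) ^ k = z 1 := congrArg Subtype.val hk
      have sq : (z 1 * z 2) ^ 2 = 1 := by
        rw [pow_two, ← c7]; exact ch.sq_B C (by omega) c2
      rw [zpow_eq_zpow_emod' k sq] at hk'
      rcases Int.emod_two_eq_zero_or_one k with e | e <;> rw [Nat.cast_ofNat, e] at hk'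
      · exact ch.not_left (i := 1) (j := 2) (by omega) (by omega) (hk' ▸ by simp)
      · exact ch.not_left (i := 2) (j := 3) (by omega) (by omega)
          ((by simpa using hk' : z 2 = 1) ▸ one_mem _)

end Cfsg.Agent.S4385
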