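import Cfsg.Statements.S4387
import Cfsg.Agent.Lib.FGS.Misc

set_option autoImplicit false
open Pointwise
open Cfsg

namespace Cfsg.Agent.S4387

/-- Let G be a non-trivial finite group in which any two maximal subgroups are conjugate. Then G is cyclic of prime-power order. -/
theorem result {G : Type*} [Group G] [Finite G] [Nontrivial G]
    (h : ∀ M N : Subgroup G, IsCoatom M → IsCoatom N → ∃ g : G, N = MulAut.conj g • M) :
    IsCyclic G ∧ IsPrimePow (Nat.card G) := by
  open Cfsg.Lib.FGS Cfsg.Lib.BG Cfsg.Lib.Transfer in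
  obtain ⟨M, hM, -⟩ := exists_coatom_ge (G := G) bot_ne_top
  obtain ⟨x, hx⟩ := exists_forall_not_mem_conj hM.1
  have h1 : Subgroup.zpowers x = ⊤ := by
    by_contra hne
    obtain ⟨N, hN, hle⟩ := exists_coatom_ge hne
    obtain ⟨g, rfl⟩ := h M N hM hN
    exact hx g (hle (Subgroup.mem_zpowers x))
  have hc : IsCyclic G := ⟨⟨x, fun y => show y ∈ Subgroup.zpowers x from h1 ▸ trivial⟩⟩
  refine ⟨hc, ?_⟩
  have key : ∀ r : ℕ, r.Prime → r ∣ Nat.card G → r = M.index := by
    intro r hr hd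
    have h2 : (Subgroup.zpowers (x ^ r)).index = r := by
      have h3 : orderOf x = Nat.card G := by rw [← Nat.card_zpowers, h1, Subgroup.card_top]
      have h4 := (Subgroup.zpowers (x ^ r)).card_mul_index
      rw [Nat.card_zpowers, orderOf_pow_of_dvd hr.ne_zero (h3 ▸ hd), h3] at h4
      refine Nat.eq_of_mul_eq_mul_left (Nat.div_pos (Nat.le_of_dvd Nat.card_pos hd) hr.pos) ?_
      rw [h4, Nat.div_mul_cancel hd]
    obtain ⟨g, hg⟩ := h M _ hM (isCoatom_of_index_prime (h2.symm ▸ hr))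
    rw [← h2, hg]
    exact index_conj g M
  rw [isPrimePow_iff_unique_prime_dvd]
  obtain ⟨r, hr, hd⟩ := Nat.exists_prime_and_dvd (Finite.one_lt_card (α := G)).ne'
  exact ⟨r, ⟨hr, hd⟩, fun s hs => (key s hs.1 hs.2).trans (key r hr hd).symm⟩

end Cfsg.Agent.S4387
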