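import Cfsg.Statements.S4392
import Cfsg.Agent.Lib.FH.Hol

set_option autoImplicit false
open Cfsg

namespace Cfsg.Agent.S4392

/-- Let a finite nilpotent group F act faithfully by automorphisms on a finite group G so that F fixes only the identity of G, and let N be an F-invariant normal subgroup of G. Then F fixes only the identity coset of G/N: an element g with g⁻¹·f(g) ∈ N for every f ∈ F lies in N. (The orders of F and G need not be coprime.) -/
theorem result {G F : Type*} [Group G] [Finite G] [Group F] [Finite F] [MulDistribMulAction F G] [FaithfulSMul F G]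
    (hF : Group.IsNilpotent F) (hCF : ∀ g : G, (∀ f : F, f • g = g) → g = 1) (N : Subgroup G) [N.Normal] (hN : ∀ (f : F) (n : G), n ∈ N → f • n ∈ N)
    (g : G) (hg : ∀ f : F, g⁻¹ * f • g ∈ N) : g ∈ N := by
  open Subgroup Lib.BG Lib.FH Lib.PGroup Lib.Transfer in
  have h := fp_op (K := ⊤) (B := (⊤ : Subgroup F)) inferInstance (fun _ _ _ _ => mem_top _)
    fun g _ h => hCF g fun f => h f (mem_top f)
  have h1 : (⊤ : Subgroup F).map (op F G) ≤ 𝐍(N.map (holL G)) := norm_op.2 fun a _ => hN a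
  have h2 : holL G g⁻¹ ∈ 𝐍(N.map (holL G)) := map_norm _ (le_normalizer_of_normal (K := ⊤)) ⟨_, mem_top _, rfl⟩
  obtain ⟨_, ⟨m, hm, rfl⟩, e⟩ := (h.sub (map_mono le_top) h1).cj.frat h.nil h2 (mem_normalizer_of_conj_le (by
    rw [conj_sup, conj_eq_of_norm h2]
    refine sup_le le_sup_left (conj_le_iff.2 ?_)
    rintro _ ⟨f, -, rfl⟩
    rw [show holL G g⁻¹ * op F G f * (holL G g⁻¹)⁻¹ = holL G (g⁻¹ * f • g) * op F G f by
      rw [map_mul, ← op_conj, map_inv]; group]
    exact mul_mem_sup ⟨_, hg f, rfl⟩ ⟨f, mem_top f, rfl⟩))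
  have h3 : holL G (m * g⁻¹) ∈ (⊤ : Subgroup G).map (holL G) ⊓ 𝐍((⊤ : Subgroup F).map (op F G)) :=
    ⟨⟨_, mem_top _, rfl⟩, by rwa [map_mul]⟩
  rw [h.self_norm, mem_bot, map_eq_one_iff _ holL_injective, mul_inv_eq_one] at h3
  exact h3 ▸ hm

end Cfsg.Agent.S4392
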