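import Cfsg.Statements.S4396
import Cfsg.Agent.Lib.FGS.FreeFrob
import Cfsg.Agent.Lib.Perm.Module
import Cfsg.Agent.Lib.Core.Fitting

set_option autoImplicit false
open Cfsg

namespace Cfsg.Agent.S4396

/-- Let the finite group A act faithfully and linearly on a finite-dimensional vector space V over a field k, and suppose A is a Frobenius group with nilpotent kernel F (every Frobenius kernel is nilpotent) and complement H such that F fixes no nonzero vector. Then V is free as a module for H: there is a subspace W with V the direct sum of the translates hW, h ∈ H. (No assumption on the characteristic of k.) -/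
theorem result {k V A : Type*} [Field k] [AddCommGroup V] [Module k V] [FiniteDimensional k V] [Group A] [Finite A] [DecidableEq A]
    (ρ : Representation k A V) (hρ : Function.Injective ρ)
    (Fk Hc : Subgroup A) [Fk.Normal] (hHc : Cfsg.IsFrobeniusComplement Hc) (hker : Cfsg.frobeniusKernel Hc = (Fk : Set A)) (hnil : Group.IsNilpotent ↥Fk)
    (hCF : ∀ v : V, (∀ f ∈ Fk, ρ f v = v) → v = 0) :
    ∃ W : Submodule k V, DirectSum.IsInternal (fun h : ↥Hc => W.map (ρ (h : A))) := by
  open Subgroup Cfsg.Lib Cfsg.Lib.FGS.FreeFrob in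
  have hf := Frobenius.fpf_of_isFrobeniusComplement (K := Fk) (eq_bot_iff.2 fun x hx =>
    Frobenius.eq_one_of_mem_frobeniusKernel_of_mem (hker ▸ hx.1) hx.2) hHc
  obtain ⟨p, hp⟩ := CharP.exists k
  rcases CharP.char_is_prime_or_zero k p with h | rfl
  · have := Fact.mk h
    let Q := (pPrimeCore p Fk).map Fk.subtype
    have hQ : Q ≤ Fk := map_subtype_le _
    have hn : Q.Normal := inferInstance
    have : Group.IsNilpotent Q := Group.nilpotent_of_mulEquiv (subgroupOfEquivOfLe hQ)
    refine free (Q := Q) ?_ (fun v hv => ?_) (Frobenius.fpf_mono hQ le_rfl hf)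
    · rw [Ne, CharP.cast_eq_zero_iff k p, card_map_of_injective (subtype_injective _)]
      exact h.coprime_iff_not_dvd.1 (Core.pPrimeCore_coprime p Fk).symm
    · by_contra h0
      obtain ⟨w, hw, hw0, hw1⟩ := Perm.exists_fixed_vector (Core.pCore_isPGroup p Fk)
        (ρ.comp (Fk.subtype.comp (pCore p Fk).subtype)) (Representation.invariants (ρ.comp Q.subtype))
        (fun g u hu y => by
          have h1 := hu ⟨_, hn.conj_mem' y y.2 (g : Fk)⟩
          change ρ y (ρ (g : Fk) u) = ρ (g : Fk) u
          conv_rhs => rw [← h1]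
          change _ = ρ _ (ρ (_ * _ * _) u)
          simp only [← Module.End.mul_apply, ← map_mul]
          congr 2
          simp [← mul_assoc])
        (fun h1 => h0 ((Submodule.eq_bot_iff _).1 h1 v fun y => hv y y.2))
      refine hw0 (hCF w fun f hf => ?_)
      rw [← Core.pCoreOf_sup_pPrimeCoreOf hnil p] at hf
      obtain ⟨_, ⟨a, ha, rfl⟩, b, hb, rfl⟩ := mem_sup_of_normal_right.1 hf
      rw [map_mul, Module.End.mul_apply, show ρ b w = w from hw ⟨b, hb⟩]
      exact hw1 ⟨a, ha⟩
  · have := CharP.charP_to_charZero k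
    exact free (Q := Fk) (Nat.cast_ne_zero.2 Nat.card_pos.ne') hCF hf

end Cfsg.Agent.S4396
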