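import Cfsg.Statements.S4398
import Cfsg.Agent.Lib.BG.Hall
import Cfsg.Agent.Lib.FGS.SectRank

set_option autoImplicit false
open Cfsg

namespace Cfsg.Agent.S4398

/-- Let S be a finite 2-group of sectional 2-rank at most 2 that contains a subgroup isomorphic to the dihedral group of order 8 or to the quaternion group of order 8. Then S is dihedral of order at least 8, semidihedral of order at least 16 (order 2^(k+4) with an element a of order 2^(k+3) and an involution b with b a b⁻¹ = a^(2^(k+2)−1)), or generalized quaternion of order at least 8. -/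
theorem result {S : Type*} [Group S] [Finite S] (h2 : IsPGroup 2 S) (hr : Cfsg.SectionalPRankLE 2 2 S)
    (hsub : ∃ H : Subgroup S, Nonempty (↥H ≃* DihedralGroup 4) ∨ Nonempty (↥H ≃* QuaternionGroup 2)) :
    ((∃ k : ℕ, Nonempty (S ≃* DihedralGroup (2 ^ (k + 2)))) ∨
      (∃ k : ℕ, Nat.card S = 2 ^ (k + 4) ∧ ∃ a b : S, orderOf a = 2 ^ (k + 3) ∧ orderOf b = 2 ∧ b * a * b⁻¹ = a ^ (2 ^ (k + 2) - 1)) ∨
      (∃ k : ℕ, Nonempty (S ≃* QuaternionGroup (2 ^ (k + 1))))) := by
  open Subgroup Cfsg.Lib Cfsg.Lib.BG Cfsg.Lib.Transfer in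
  open Cfsg.Lib.FGS Cfsg.Lib.Inv in
  obtain ⟨H, hH⟩ := hsub
  obtain ⟨h3, h4⟩ : Nat.card H = 8 ∧ ¬ IsMulCommutative H := by
    rcases hH with ⟨⟨e⟩⟩ | ⟨⟨e⟩⟩
    · refine ⟨by rw [Nat.card_congr e.toEquiv, DihedralGroup.nat_card], fun h => ?_⟩
      have := e.apply_symm_apply
      have h5 := congrArg e (h.1.1 (e.symm (.r 1)) (e.symm (.sr 0)))
      simp only [map_mul, this] at h5
      exact absurd h5 (by decide)
    · refine ⟨by rw [Nat.card_congr e.toEquiv, Nat.card_eq_fintype_card, QuaternionGroup.card], fun h => ?_⟩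
      have := e.apply_symm_apply
      have h5 := congrArg e (h.1.1 (e.symm (.a 1)) (e.symm (.xa 0)))
      simp only [map_mul, this] at h5
      exact absurd h5 (by decide)
  have h5 : ⁅H, H⁆ ≠ ⊥ := fun e => h4 (abelian_iff_der.2 e)
  have h : commutator S ≠ ⊥ := ne_bot_mono h5 (der_mono le_top)
  have h6 := (sr_top hr).card_le_four (h2.to_subgroup ⊤) H le_top h5 (by have := (one_lt_card_iff_ne_bot _).2 h5; omega)
  rw [card_top, ← (commutator S).index_mul_card] at h6
  obtain ⟨a, b, m, hm, h1⟩ := exists_mc_of_index_commutator h2 (le_antisymm (Nat.le_of_mul_le_mul_right h6 Nat.card_pos)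
    ((PGroup.sq_le_index_frattini h2 (not_isCyclic_of_commutator_ne_bot h)).trans
      (index_antitone (PGroup.commutator_le_frattini h2)))) h
  obtain ⟨m, rfl⟩ : ∃ k, m = k + 1 := ⟨m - 1, by omega⟩
  rcases h1 with h1 | h1 | ⟨h3, h1⟩
  · exact .inl ⟨m, h1.dihedral.map topEquiv.symm.trans⟩
  · exact .inr (.inr ⟨m, h1.quaternion.map topEquiv.symm.trans⟩)
  · obtain ⟨m, rfl⟩ : ∃ k, m = k + 1 := ⟨m - 1, by omega⟩
    refine .inr (.inl ⟨m, by simpa using h1.card_eq, a, b, h1.ord, orderOf_eq_prime (by simpa [sq] using h1.sq)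
      (fun e => h1.nmem (e ▸ one_mem _)), ?_⟩)
    rw [h1.conj, ← zpow_natCast, Nat.cast_sub Nat.one_le_two_pow]; simp

end Cfsg.Agent.S4398
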