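import Cfsg.Statements.S4399
import Cfsg.Agent.Lib.BG.Hall
import Cfsg.Agent.Lib.FGS.Taussky

set_option autoImplicit false
open Cfsg

namespace Cfsg.Agent.S4399

/-- Let S be a finite 2-group whose commutator quotient S/[S,S] is a Klein four-group (order 4 and exponent 2). Then S itself has order 4, or S is dihedral of order at least 8, semidihedral of order at least 16 (order 2^(k+4) with an element a of order 2^(k+3) and an involution b with b a b⁻¹ = a^(2^(k+2)−1)), or generalized quaternion of order at least 8. -/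
theorem result {S : Type*} [Group S] [Finite S] (h2 : IsPGroup 2 S) (hab : Nat.card (Abelianization S) = 4)
    (hexp : ∀ x : Abelianization S, x ^ 2 = 1) :
    Nat.card S = 4 ∨
    ((∃ k : ℕ, Nonempty (S ≃* DihedralGroup (2 ^ (k + 2)))) ∨
      (∃ k : ℕ, Nat.card S = 2 ^ (k + 4) ∧ ∃ a b : S, orderOf a = 2 ^ (k + 3) ∧ orderOf b = 2 ∧ b * a * b⁻¹ = a ^ (2 ^ (k + 2) - 1)) ∨
      (∃ k : ℕ, Nonempty (S ≃* QuaternionGroup (2 ^ (k + 1))))) := by
  open Subgroup Cfsg.Lib Cfsg.Lib.BG Cfsg.Lib.Transfer in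
  open Cfsg.Lib.FGS Cfsg.Lib.Inv in
  by_cases h : commutator S = ⊥
  · exact .inl (by rw [← hab, ← index_bot, ← h]; rfl)
  obtain ⟨a, b, m, hm, h1⟩ := exists_mc_of_index_commutator h2 hab h
  obtain ⟨m, rfl⟩ : ∃ k, m = k + 1 := ⟨m - 1, by omega⟩
  rcases h1 with h1 | h1 | ⟨h3, h1⟩
  · exact .inr (.inl ⟨m, h1.dihedral.map topEquiv.symm.trans⟩)
  · exact .inr (.inr (.inr ⟨m, h1.quaternion.map topEquiv.symm.trans⟩))
  · obtain ⟨m, rfl⟩ : ∃ k, m = k + 1 := ⟨m - 1, by omega⟩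
    refine .inr (.inr (.inl ⟨m, by simpa using h1.card_eq, a, b, h1.ord, orderOf_eq_prime (by simpa [sq] using h1.sq)
      (fun e => h1.nmem (e ▸ one_mem _)), ?_⟩))
    rw [h1.conj, ← zpow_natCast, Nat.cast_sub Nat.one_le_two_pow]; simp

end Cfsg.Agent.S4399
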