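import Cfsg.Statements.S4400
import Cfsg.Agent.Lib.BG.Hall
import Cfsg.Agent.Lib.FGS.SectRank

set_option autoImplicit false
open Cfsg

namespace Cfsg.Agent.S4400

/-- Let S be a finite 2-group of sectional 2-rank at most 4, and let P and Q be normal non-abelian subgroups of S whose centres have order 2 and are different. Then P and Q commute elementwise and intersect trivially, and PQ contains its own centralizer in S. -/
theorem result {S : Type*} [Group S] [Finite S] (h2 : IsPGroup 2 S) (hr : Cfsg.SectionalPRankLE 2 4 S)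
    (P Q : Subgroup S) [P.Normal] [Q.Normal] (hP : ¬ IsMulCommutative ↥P) (hQ : ¬ IsMulCommutative ↥Q)
    (hZP : Nat.card ↥(Subgroup.center ↥P) = 2) (hZQ : Nat.card ↥(Subgroup.center ↥Q) = 2)
    (hne : (Subgroup.center ↥P).map P.subtype ≠ (Subgroup.center ↥Q).map Q.subtype) :
    ⁅P, Q⁆ = ⊥ ∧ P ⊓ Q = ⊥ ∧ Subgroup.centralizer ((P ⊔ Q : Subgroup S) : Set S) ≤ P ⊔ Q := by
  open Subgroup Cfsg.Lib Cfsg.Lib.BG Cfsg.Lib.Transfer in
  open Cfsg.Lib.FGS in
  rw [← Subgroup.card_subtype P, PGroup.map_subtype_center] at hZP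
  rw [← Subgroup.card_subtype Q, PGroup.map_subtype_center] at hZQ
  rw [PGroup.map_subtype_center, PGroup.map_subtype_center] at hne
  obtain ⟨h3, h4, h5⟩ := (sr_top hr).prod_four (h2.to_subgroup ⊤) ⟨le_top, le_normalizer_of_normal⟩
    ⟨le_top, le_normalizer_of_normal⟩ hP hQ hZP hZQ hne
  exact ⟨comm_eq_bot_iff.2 h3, h4, by simpa using h5⟩

end Cfsg.Agent.S4400
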