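import Cfsg.Statements.S4401
import Cfsg.Agent.Lib.BG.Hall
import Cfsg.Agent.Lib.FGS.SectRank

set_option autoImplicit false
open Cfsg

namespace Cfsg.Agent.S4401

/-- Let S be a finite 2-group of sectional 2-rank at most 4 and P a proper non-abelian subgroup whose centre has order 2. Let S₀ be the centralizer in S of Z(P) and suppose P is normal in S₀. Then either S₀ = S, or P has sectional 2-rank at most 2 and S₀ has index 2 in S. -/
theorem result {S : Type*} [Group S] [Finite S] (h2 : IsPGroup 2 S) (hr : Cfsg.SectionalPRankLE 2 4 S)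
    (P : Subgroup S) (hPlt : P ≠ ⊤) (hP : ¬ IsMulCommutative ↥P) (hZP : Nat.card ↥(Subgroup.center ↥P) = 2)
    (S₀ : Subgroup S) (hS₀ : S₀ = Subgroup.centralizer (((Subgroup.center ↥P).map P.subtype : Subgroup S) : Set S))
    (hPn : ∀ s ∈ S₀, ∀ x ∈ P, s * x * s⁻¹ ∈ P) :
    S₀ = ⊤ ∨ (Cfsg.SectionalPRankLE 2 2 ↥P ∧ S₀.index = 2) := by
  open Subgroup Cfsg.Lib Cfsg.Lib.BG Cfsg.Lib.Transfer in
  open Cfsg.Lib.FGS in
  rw [← Subgroup.card_subtype P, PGroup.map_subtype_center] at hZP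
  rw [PGroup.map_subtype_center] at hS₀
  subst hS₀
  refine or_iff_not_imp_left.2 fun h => ?_
  have := (sr_top hr).index_two h2 hP hZP (fun s hs => mem_normalizer_fintype (hPn s hs)) h
  exact ⟨sr_map_iff.1 this.1, this.2⟩

end Cfsg.Agent.S4401
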