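import Cfsg.Statements.S4404
import Cfsg.Agent.Lib.BG.T04_18
import Cfsg.Agent.Lib.BG.T01_Coprime
import Cfsg.Agent.Lib.PGroup.AutGL
import Cfsg.Agent.Lib.Small.Basic
import Cfsg.Agent.Lib.PGroup.SectionRep
import Cfsg.Agent.Lib.PGroup.Alperin
import Cfsg.Agent.Lib.Transfer.Criteria

set_option autoImplicit false
open Cfsg

namespace Cfsg.Agent.S4404

section Aux

open Subgroup Cfsg.Lib.BG Cfsg.Lib.PGroup Cfsg.Lib.Transfer
open scoped commutatorElement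

variable {S : Type*} [Group S] [Finite S] {M U X Q P : Subgroup S}

theorem aut_dvd (hU : IsElementaryAbelian 2 U) {n : ℕ} (hn : Nat.card U ≤ 2 ^ n) :
    Nat.card (MulAut U) ∣ ∏ i : Fin n, (2 ^ n - 2 ^ (i : ℕ)) := by
  have := hU.1
  obtain ⟨f, hf⟩ := exists_aut_hom_GL (V := U) (p := 2) (fun x y => mul_comm' x y)
    (fun x => Subtype.ext (hU.2 x x.2)) hn
  rw [← card_GL_zmod]
  exact card_dvd_of_injective f hf

theorem idx (hU : IsElementaryAbelian 2 U) {n : ℕ} (hn : Nat.card U ≤ 2 ^ n) (hX : X ≤ 𝐍(U)) :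
    𝐂(U).relIndex X ∣ ∏ i : Fin n, (2 ^ n - 2 ^ (i : ℕ)) :=
  (relIndex_dvd_of_norm hX (norm_cent le_rfl)).trans
    ((Cfsg.Lib.Small.relIndex_centralizer_dvd_card_mulAut U).trans (aut_dvd hU hn))

theorem cent_of_two (hU : IsElementaryAbelian 2 U) (hn : Nat.card U ≤ 2) (hX : X ≤ 𝐍(U)) : X ≤ 𝐂(U) := by
  have := idx hU (n := 1) (by simpa using hn) hX
  exact relIndex_eq_one.1 (by simpa using this)

theorem pidx {p : ℕ} [Fact p.Prime] (hP : IsPGroup p P) (K : Subgroup S) : ∃ k, K.relIndex P = p ^ k := by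
  obtain ⟨n, hn⟩ := IsPGroup.iff_card.1 hP
  obtain ⟨k, -, hk⟩ := (Nat.dvd_prime_pow Fact.out).1 (hn ▸ Subgroup.relIndex_dvd_card K P)
  exact ⟨k, hk⟩

variable [M.Normal] (hM : IsElementaryAbelian 2 M)

omit [Finite S] in
theorem normM (X : Subgroup S) : X ≤ 𝐍(M) := by rw [normalizer_eq_top]; exact le_top

omit [Finite S] in
theorem cW_le (X : Subgroup S) : ⁅M, X⁆ ≤ M := comm_le_left (normM X)

omit [Finite S] in
theorem conj_cW (a : S) (X : Subgroup S) : a ⋆ ⁅M, X⁆ = ⁅M, a ⋆ X⁆ := by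
  rw [conj_commutator, conj_eq_self_of_normal]

omit [Finite S] in
theorem cW_sup {A B : Subgroup S} : ⁅M, A ⊔ B⁆ ≤ ⁅M, A⁆ ⊔ ⁅M, B⁆ := by
  have h : ⁅M, A⁆ ⊔ ⁅M, B⁆ ≤ M := sup_le (cW_le A) (cW_le B)
  exact commutator_le_of_le_commStab (sup_le
    (le_commStab (norm_of_comm_le_of_le le_sup_left h) le_sup_left)
    (le_commStab (norm_of_comm_le_of_le le_sup_right h) le_sup_right))

include hM

theorem cop (hX : Odd (Nat.card X)) : (Nat.card X).Coprime (Nat.card M) := by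
  obtain ⟨n, hn⟩ := IsPGroup.iff_card.1 (elab_pgroup hM)
  rw [hn]
  exact (Nat.coprime_two_right.2 hX).pow_right n

theorem cW_inf (hX : Odd (Nat.card X)) {Z : Subgroup S} (h1 : Z ≤ ⁅M, X⁆) (h2 : X ≤ 𝐂(Z)) : Z = ⊥ :=
  eq_bot_mono (coprime_abelian_cent_dprod (normM X) (cop hM hX) hM.1).inf
    (le_inf h1 (le_inf (h1.trans (cW_le X)) (cent_symm h2)))

theorem cW_move {q a : S} (hq : Odd (Nat.card (zpowers q))) (h1 : ⁅M, zpowers q⁆ ≤ U)
    (h2 : a ⋆ ⁅M, zpowers q⁆ ≤ U) (hU : U ≤ M) (hc : q⁻¹ * (a * q * a⁻¹) ∈ 𝐂(U)) :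
    a ⋆ ⁅M, zpowers q⁆ = ⁅M, zpowers q⁆ := by
  symm
  refine eq_of_le_of_card_le ?_ (card_conj _ _).le
  have h3 : zpowers q ≤ commStab (a ⋆ ⁅M, zpowers q⁆) U := by
    rw [zpowers_le]
    have h4 : a * q * a⁻¹ ∈ commStab (a ⋆ ⁅M, zpowers q⁆) U := by
      rw [conj_cW, conj_zpowers]
      exact le_commStab (right_norm_comm _ _) (commutator_mono hU le_rfl) (mem_zpowers _)
    have h5 : q⁻¹ * (a * q * a⁻¹) ∈ commStab (a ⋆ ⁅M, zpowers q⁆) U :=
      centralizer_inf_le_commStab _ _ ⟨cent_le_norm _ (cent_anti h2 hc), hc⟩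
    have h6 := mul_mem h4 (inv_mem h5)
    rwa [show a * q * a⁻¹ * (q⁻¹ * (a * q * a⁻¹))⁻¹ = q by group] at h6
  exact (coprime_commGid (normM _) (cop hM hq)).ge.trans
    ((commutator_mono h1 le_rfl).trans (commutator_le_of_le_commStab h3))

theorem card_U {W W' : Subgroup S} (h : W ≤ M) (h' : W' ≤ M) :
    Nat.card ↥(W ⊔ W') * Nat.card ↥(W ⊓ W') = Nat.card W * Nat.card W' :=
  card_sup_mul_card_inf (norm_of_cent (abelian_cent' hM.1 h' h))

theorem three_norm {q a : S} {T : Subgroup S} (hT : IsPGroup 3 T) (hq : q ∈ T) (ha : a ∈ T)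
    (h4 : Nat.card ↥⁅M, zpowers q⁆ = 4) (hc : a * (q⁻¹ * (a * q * a⁻¹)) = q⁻¹ * (a * q * a⁻¹) * a) :
    a ∈ 𝐍(⁅M, zpowers q⁆) := by
  have hodd : Odd (Nat.card (zpowers q)) := by
    obtain ⟨n, hn⟩ := IsPGroup.iff_card.1 (pgroup_of_le hT (zpowers_le.2 hq))
    rw [hn]; exact Odd.pow (by decide)
  set W := ⁅M, zpowers q⁆ with hW
  have hWM : W ≤ M := cW_le _
  have hW'M : a ⋆ W ≤ M := conj_le_of_norm hWM (normM ⊤ trivial)
  set U := W ⊔ a ⋆ W with hU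
  have hUM : U ≤ M := sup_le hWM hW'M
  have h16 : Nat.card U ≤ 2 ^ 4 := by
    have := card_U hM hWM hW'M
    rw [card_conj, h4] at this
    have h0 : 0 < Nat.card ↥(W ⊓ a ⋆ W) := Nat.card_pos
    nlinarith
  have haU : a ∈ 𝐍(U) := mem_normalizer_of_conj_le (by
    rw [hU, conj_sup]
    refine sup_le le_sup_right ?_
    rw [hW, conj_cW, conj_cW]
    refine (commutator_mono le_rfl ?_).trans cW_sup
    rw [conj_zpowers, conj_zpowers, zpowers_le]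
    have e : a * (a * q * a⁻¹) * a⁻¹ = a * q * a⁻¹ * q⁻¹ * (a * q * a⁻¹) := by
      calc _ = a * q * a⁻¹ * (a * (q⁻¹ * (a * q * a⁻¹))) * a⁻¹ * (a * q⁻¹ * a⁻¹) * (a * q * a⁻¹) := by group
        _ = _ := by rw [hc]; group
    rw [e]
    exact mul_mem (mul_mem (mem_sup_right (mem_zpowers _)) (inv_mem (mem_sup_left (mem_zpowers _))))
      (mem_sup_right (mem_zpowers _)))
  have hqU : q ∈ 𝐍(U) := norm_of_comm_le_of_le (le_sup_left : W ≤ U) hUM (mem_zpowers q)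
  let f := U.normalizerMonoidHom
  let R := (T.subgroupOf 𝐍(U)).map f
  have hR : IsPGroup 3 R := hT.comap_subtype.map f
  have hRc : IsMulCommutative R := by
    obtain ⟨n, hn⟩ := IsPGroup.iff_card.1 hR
    have h1 := (card_subgroup_dvd_card R).trans (aut_dvd (elab_of_le hM hUM) h16)
    rw [hn] at h1
    have h2 : n ≤ 2 := by
      by_contra h
      exact absurd ((pow_dvd_pow 3 (not_le.1 h)).trans h1) (by decide)
    interval_cases n
    · exact (card_eq_one.1 hn) ▸ abelian_bot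
    · exact abelian_of_cyclic (isCyclic_of_prime_card (p := 3) hn)
    · exact IsPGroup.isMulCommutative_of_card_eq_prime_sq hn
  have h5 : f ⟨a, haU⟩ * f ⟨q, hqU⟩ = f ⟨q, hqU⟩ * f ⟨a, haU⟩ :=
    setLike_mul_comm (s := R) ⟨_, ha, rfl⟩ ⟨_, hq, rfl⟩
  have h6 : (⟨q, hqU⟩ : 𝐍(U))⁻¹ * (⟨a, haU⟩ * ⟨q, hqU⟩ * (⟨a, haU⟩ : 𝐍(U))⁻¹) ∈ f.ker := by
    rw [MonoidHom.mem_ker, map_mul, map_mul, map_mul, h5]
    simp
  rw [normalizerMonoidHom_ker] at h6
  exact norm_of_conj_eq (cW_move hM hodd le_sup_left le_sup_right hUM h6)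

theorem meet_ne_bot {p : ℕ} [hp : Fact p.Prime] (h5 : 5 ≤ p) {q a : S} (hP : IsPGroup p P)
    (hq : IsPGroup 3 (zpowers q)) (hqP : q ∈ 𝐍(P)) (ha : a ∈ P) (hodd : Odd (Nat.card ↥(P ⊔ zpowers q)))
    (h4 : Nat.card ↥⁅M, zpowers q⁆ = 4) : ⁅M, zpowers q⁆ ⊓ a ⋆ ⁅M, zpowers q⁆ ≠ ⊥ := by
  intro h0
  have hqo : Odd (Nat.card (zpowers q)) := odd_of_le hodd le_sup_right
  set W := ⁅M, zpowers q⁆ with hW
  have hWM : W ≤ M := cW_le _
  have hW'M : a ⋆ W ≤ M := conj_le_of_norm hWM (normM ⊤ trivial)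
  set U := W ⊔ a ⋆ W with hU
  have hUM : U ≤ M := sup_le hWM hW'M
  have hUe := elab_of_le hM hUM
  have h16 : Nat.card U = 16 := by
    have := card_U hM hWM hW'M
    rwa [card_conj, h4, h0, card_bot, mul_one] at this
  set X := zpowers q ⊔ a ⋆ zpowers q with hX
  have hXU : ⁅M, X⁆ ≤ U := cW_sup.trans (by rw [← conj_cW])
  have hUX : U ≤ ⁅M, X⁆ := sup_le (commutator_mono le_rfl le_sup_left)
    (by rw [hW, conj_cW]; exact commutator_mono le_rfl le_sup_right)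
  have hXN : X ≤ 𝐍(U) := norm_of_comm_le_of_le hXU hUM
  have hXP : X ≤ P ⊔ zpowers q := sup_le le_sup_right (conj_le_of_mem le_sup_right (mem_sup_left ha))
  have hXP' : X ≤ 𝐍(P) := hXP.trans (sup_le_norm_left (zpowers_le.2 hqP))
  have hqX : q ∈ X := mem_sup_left (mem_zpowers q)
  have hq'X : a * q * a⁻¹ ∈ X := mem_sup_right (conj_mem_conj.2 (mem_zpowers q))
  set P₀ := P ⊓ X with hP₀
  have hP₀p : IsPGroup p P₀ := pgroup_of_le hP inf_le_left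
  have hP₀N : X ≤ 𝐍(P₀) := norm_inf hXP' (le_norm X)
  have hc : q⁻¹ * (a * q * a⁻¹) ∈ P₀ := mem_inf.2 ⟨by
    have := mul_mem (conj_mem_of_norm' hqP ha) (inv_mem ha)
    simpa only [mul_assoc] using this, mul_mem (inv_mem hqX) hq'X⟩
  have hcU : q⁻¹ * (a * q * a⁻¹) ∉ 𝐂(U) := fun h => by
    rw [cW_move hM hqo le_sup_left le_sup_right hUM h, inf_idem] at h0
    rw [h0, card_bot] at h4
    exact absurd h4 (by decide)
  obtain ⟨k, hk⟩ := pidx hP₀p 𝐂(U)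
  have h1 := idx hUe (n := 4) h16.le (inf_le_right.trans hXN : P₀ ≤ _)
  rw [hk, show ∏ i : Fin 4, (2 ^ 4 - 2 ^ (i : ℕ)) = 2 ^ 6 * (3 ^ 2 * (5 * 7)) by decide] at h1
  have hk0 : k ≠ 0 := by
    rintro rfl
    exact hcU (relIndex_eq_one.1 (by simpa using hk) hc)
  have h57 : p = 5 ∨ p = 7 := by
    have h2 := (dvd_pow_self p hk0).trans h1
    simp only [hp.out.dvd_mul, hp.out.prime.dvd_pow_iff_dvd (by norm_num : 6 ≠ 0),
      hp.out.prime.dvd_pow_iff_dvd two_ne_zero, Nat.prime_dvd_prime_iff_eq hp.out, Nat.prime_three, Nat.prime_two,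
      Nat.prime_five, Nat.prime_seven] at h2
    omega
  rcases h57 with rfl | rfl
  · have hk1 : k = 1 := by
      by_contra h
      exact absurd ((pow_dvd_pow 5 (by omega : 2 ≤ k)).trans h1) (by decide)
    subst hk1
    have hn : (P₀ ⊓ 𝐂(U)).relIndex P₀ = 5 := by rw [inf_relIndex_left, hk, pow_one]
    have hN : P₀ ≤ 𝐍(P₀ ⊓ 𝐂(U)) := norm_inf (le_norm _) (norm_cent (inf_le_right.trans hXN))
    have : ((P₀ ⊓ 𝐂(U)).subgroupOf P₀).Normal := (Nml.mk inf_le_left hN).normal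
    have hcy : IsCyclic (P₀ ⧸ (P₀ ⊓ 𝐂(U)).subgroupOf P₀) := isCyclic_of_prime_card (p := 5) hn
    have h2 := relIndex_commStab_dvd_of_le (p := 5) (S := P₀ ⊓ 𝐂(U)) (V := P₀) (A := zpowers q) inf_le_left
      (commutator_le.2 fun x hx y hy => by
        have : (⁅(⟨x, hx⟩ : P₀), (⟨y, hy⟩ : P₀)⁆ : P₀) ∈ (P₀ ⊓ 𝐂(U)).subgroupOf P₀ := by
          rw [← QuotientGroup.eq_one_iff, ← QuotientGroup.mk'_apply, map_commutatorElement,
            commutatorElement_eq_one_iff_mul_comm]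
          exact hcy.isMulCommutative.is_comm.comm _ _
        exact this)
      (fun x hx => by
        have : (⟨x, hx⟩ : P₀) ^ 5 ∈ (P₀ ⊓ 𝐂(U)).subgroupOf P₀ := by
          rw [← hn]; exact pow_index_mem _ _
        exact this)
      (le_sup_left.trans (norm_inf hP₀N (norm_cent hXN))) (le_sup_left.trans hP₀N) hn.le
    obtain ⟨j, hj⟩ := pidx hq (commStab (P₀ ⊓ 𝐂(U)) P₀)
    have h3 : zpowers q ≤ commStab (P₀ ⊓ 𝐂(U)) P₀ := relIndex_eq_one.1
      (Nat.eq_one_of_dvd_coprimes (show Nat.Coprime (3 ^ j) (5 - 1) from Nat.Coprime.pow_left j (by decide))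
        hj.dvd h2)
    have h6 := ((h3 (mem_zpowers q)).2 _ hc).2
    let f := U.normalizerMonoidHom
    let x : 𝐍(U) := ⟨q, hXN hqX⟩
    let c : 𝐍(U) := ⟨_, hXN hc.2⟩
    have h7 : Commute (f x) (f c) := by
      rw [← commutatorElement_eq_one_iff_commute, ← map_commutatorElement, ← MonoidHom.mem_ker,
        normalizerMonoidHom_ker]
      exact h6
    obtain ⟨m, hm⟩ := hq ⟨q, mem_zpowers q⟩
    have hm' : q ^ 3 ^ m = 1 := congrArg Subtype.val hm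
    obtain ⟨l, hl⟩ := hP₀p ⟨_, hc⟩
    have h8 : f c ^ 3 ^ m = 1 := by
      have e1 : x ^ 3 ^ m = 1 := Subtype.ext hm'
      have e2 : (x * c) ^ 3 ^ m = 1 := Subtype.ext (by
        change (q * (q⁻¹ * (a * q * a⁻¹))) ^ 3 ^ m = 1
        rw [mul_inv_cancel_left, conj_pow, hm', mul_one, mul_inv_cancel])
      have := congrArg f e2
      rwa [map_pow, map_mul, h7.mul_pow, ← map_pow, e1, map_one, one_mul] at this
    have h9 : f c ^ 5 ^ l = 1 := by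
      have hl' := congrArg Subtype.val hl
      rw [← map_pow, show c ^ 5 ^ l = 1 from Subtype.ext hl', map_one]
    have h10 : c ∈ f.ker := orderOf_eq_one_iff.1 (Nat.eq_one_of_dvd_coprimes
      (Nat.Coprime.pow m l (by decide)) (orderOf_dvd_of_pow_eq_one h8) (orderOf_dvd_of_pow_eq_one h9))
    rw [normalizerMonoidHom_ker] at h10
    exact hcU h10
  · have h2 := card_modEq_card_inf_centralizer hP₀p (inf_le_right.trans hXN : P₀ ≤ _)
    have h3 : Nat.card ↥(U ⊓ 𝐂(P₀)) ∣ 2 ^ 4 := (card_dvd inf_le_left).trans h16.dvd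
    have h6 : Nat.card ↥(U ⊓ 𝐂(P₀)) ≠ 16 := fun e =>
      hcU (cent_symm (inf_eq_left.1 (eq_of_le_of_card_le inf_le_left (by rw [e, h16]))) hc)
    obtain ⟨j, hj, e⟩ := (Nat.dvd_prime_pow Nat.prime_two).1 h3
    rw [h16, e] at h2
    rw [e] at h6
    have h7 : Nat.card ↥(U ⊓ 𝐂(P₀)) = 2 := by
      rw [e]
      interval_cases j <;> first | rfl | exact absurd h2 (by decide) | exact absurd rfl h6
    have h8 := cW_inf hM (odd_of_le hodd hXP) (inf_le_left.trans hUX)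
      (cent_of_two (elab_of_le hUe inf_le_left) h7.le (norm_inf hXN (norm_cent hP₀N)))
    rw [h8, card_bot] at h7
    exact absurd h7 (by decide)

theorem exists_eight (hQ : Odd (Nat.card Q)) (hQP : Q ≤ 𝐍(P)) (h4 : Nat.card ↥⁅M, Q⁆ = 4)
    (h : ∀ a ∈ P, ⁅M, Q⁆ ⊓ a ⋆ ⁅M, Q⁆ ≠ ⊥) :
    ∃ U : Subgroup S, ⁅M, Q⁆ ≤ U ∧ U ≤ M ∧ Nat.card U ≤ 8 ∧ P ≤ 𝐍(U) := by
  set W := ⁅M, Q⁆ with hW
  have hWM : W ≤ M := cW_le _
  by_cases hn : P ≤ 𝐍(W)
  · exact ⟨W, le_rfl, hWM, by omega, hn⟩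
  obtain ⟨a, ha, haW⟩ := SetLike.not_le_iff_exists.1 hn
  have hM' : ∀ b : S, b ⋆ W ≤ M := fun b => conj_le_of_norm hWM (normM ⊤ trivial)
  have h2 : ∀ b ∈ P, ∀ c ∈ P, b ⋆ W ⊓ c ⋆ W ≠ ⊥ := fun b hb c hc e => h (b⁻¹ * c) (mul_mem (inv_mem hb) hc) (by
    rw [← conj_eq_bot_iff (g := b), conj_inf, conj_conj, mul_inv_cancel_left, e])
  have two : ∀ A B : Subgroup S, Nat.card A = 4 → ¬ A ≤ B → A ⊓ B ≠ ⊥ → Nat.card ↥(A ⊓ B) = 2 := by
    intro A B hA h1 h2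
    obtain ⟨j, hj, e⟩ := (Nat.dvd_prime_pow Nat.prime_two).1
      (show Nat.card ↥(A ⊓ B) ∣ 2 ^ 2 from (card_dvd inf_le_left).trans hA.dvd)
    interval_cases j
    · exact absurd (card_eq_one.1 e) h2
    · exact e
    · exact absurd (inf_eq_left.1 (eq_of_le_of_card_le inf_le_left (by rw [e, hA]; rfl))) h1
  have hne : ∀ b : S, W ≤ b ⋆ W → b ∈ 𝐍(W) := fun b hb =>
    norm_of_conj_eq (eq_of_le_of_card_le hb (card_conj _ _).le).symm
  have hZ : Nat.card ↥(W ⊓ a ⋆ W) = 2 := two _ _ h4 (fun e => haW (hne a e)) (h a ha)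
  have h8 : Nat.card ↥(W ⊔ a ⋆ W) = 8 := by
    have := card_U hM hWM (hM' a)
    rw [card_conj, h4, hZ] at this
    omega
  have hQU : Q ≤ 𝐍(W ⊔ a ⋆ W) := norm_of_comm_le_of_le le_sup_left (sup_le hWM (hM' a))
  have hQW : Q ≤ 𝐍(W) := right_norm_comm _ _
  have all : ∀ b ∈ P, b ⋆ W ≤ W ⊔ a ⋆ W := fun b hb => by
    by_contra hbU
    have hY : Nat.card ↥(b ⋆ W ⊓ (W ⊔ a ⋆ W)) = 2 := two _ _ (by rw [card_conj, h4]) hbU
      (ne_bot_mono (h b hb) (by rw [inf_comm]; exact inf_le_inf_left _ le_sup_left))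
    have hY' : ∀ c ∈ P, c ⋆ W ≤ W ⊔ a ⋆ W → b ⋆ W ⊓ (W ⊔ a ⋆ W) ≤ c ⋆ W := fun c hc hcU =>
      le_of_prime_of_inf_ne_bot (hY ▸ Nat.prime_two)
        (ne_bot_mono (h2 b hb c hc) (le_inf (inf_le_inf_left _ hcU) inf_le_right))
    have hYW : b ⋆ W ⊓ (W ⊔ a ⋆ W) ≤ W := by
      have := hY' 1 (one_mem _) (by rw [conj_one]; exact le_sup_left)
      rwa [conj_one] at this
    have hYZ : b ⋆ W ⊓ (W ⊔ a ⋆ W) = W ⊓ a ⋆ W :=
      eq_of_le_of_card_le (le_inf hYW (hY' a ha le_sup_right)) (by rw [hY, hZ])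
    have h5 : Q ≤ 𝐍(W ⊓ a ⋆ W) := fun x hx => by
      have e : (x * a * x⁻¹) ⋆ W = x ⋆ (a ⋆ W) := by
        rw [← conj_conj, conj_eq_of_norm (hQW (inv_mem hx)), conj_conj]
      refine norm_of_conj_eq (eq_of_le_of_card_le ?_ (card_conj _ _).le).symm
      rw [conj_inf, conj_eq_of_norm (hQW hx), ← e]
      refine le_inf inf_le_left (hYZ ▸ hY' _ (conj_mem_of_norm (hQP hx) ha) ?_)
      rw [e]
      exact conj_le_of_norm le_sup_right (hQU hx)
    have := cW_inf hM hQ inf_le_left (cent_of_two (elab_of_le hM (inf_le_left.trans hWM)) hZ.le h5)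
    exact h a ha this
  refine ⟨W ⊔ a ⋆ W, le_sup_left, sup_le hWM (hM' a), h8.le, fun b hb => mem_normalizer_of_conj_le ?_⟩
  rw [conj_sup, conj_conj]
  exact sup_le (all b hb) (all _ (mul_mem hb ha))

omit hM [M.Normal] in
theorem not_cyc {r : ℕ} [hr : Fact r.Prime] (h2 : r ≠ 2) {F W : Subgroup S} (hF : Elem r 3 F ⊤)
    (hU : IsElementaryAbelian 2 U) (h8 : Nat.card U ≤ 8) (hW : W ≤ U) (hN : F ≤ 𝐍(U)) :
    ¬ IsCyclic ↥(F ⊓ 𝐂(W)) := by
  obtain ⟨k, hk⟩ := pidx hF.pgroup 𝐂(U)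
  have h1 := idx hU (n := 3) h8 hN
  rw [hk, show ∏ i : Fin 3, (2 ^ 3 - 2 ^ (i : ℕ)) = 2 ^ 3 * 21 by decide] at h1
  have h3 : r ^ k ∣ 21 := (Nat.Coprime.pow k 3 ((Nat.coprime_primes hr.out Nat.prime_two).2 h2)).dvd_of_dvd_mul_left h1
  have hk1 : k ≤ 1 := by
    by_contra h
    have h4 : r * r ∣ 21 := (sq r ▸ pow_dvd_pow r (not_le.1 h)).trans h3
    exact hr.out.not_isUnit ((by decide +kernel : Squarefree 21) r h4)
  obtain ⟨m, hm⟩ := Elem.of_elab (elab_of_le hF.elem (inf_le_left : F ⊓ 𝐂(U) ≤ F)) le_top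
  have h5 := Cfsg.Lib.BG.card_mul_relIndex (inf_le_left : F ⊓ 𝐂(U) ≤ F)
  rw [inf_relIndex_left, hk, hm.card, hF.card, ← pow_add] at h5
  have h6 := Nat.pow_right_injective hr.out.two_le h5
  exact fun h => hm.not_cyclic (by omega) (cyclic_of_le h (inf_le_inf_left _ (cent_anti hW)))

end Aux

open Subgroup Cfsg.Lib.BG Cfsg.Lib.PGroup Cfsg.Lib.Transfer in

/-- Let S be a finite solvable group and M a normal elementary abelian 2-subgroup of S. Suppose S contains an elementary abelian subgroup of order p³ for some odd prime p, and a cyclic 3-subgroup Q such that the cubes of the elements of Q centralize M and the commutator subgroup [Q, M] has order 4 (a four-group inside M). Then S contains an elementary abelian subgroup F of order r³, for some odd prime r, whose centralizer of [Q, M] in F — the subgroup C_F([Q, M]) — is not cyclic. -/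
theorem result {S : Type*} [Group S] [Finite S]
    [Group.IsSolvable S] (M : Subgroup S) [M.Normal] (hM : Cfsg.IsElementaryAbelian 2 M)
    (p : ℕ) (hp : p.Prime) (hp2 : p ≠ 2) (E : Subgroup S) (hE : Cfsg.IsElementaryAbelian p E) (hE3 : Nat.card ↥E = p ^ 3)
    (Q : Subgroup S) (hQc : IsCyclic ↥Q) (hQ3 : IsPGroup 3 ↥Q)
    (hQ1 : ∀ x ∈ Q, x ^ 3 ∈ Subgroup.centralizer (M : Set S)) (hQM : Nat.card ↥⁅Q, M⁆ = 4) :
    ∃ (r : ℕ) (F : Subgroup S), r.Prime ∧ r ≠ 2 ∧ Cfsg.IsElementaryAbelian r F ∧ Nat.card ↥F = r ^ 3 ∧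
      ¬ IsCyclic ↥(F ⊓ Subgroup.centralizer ((⁅Q, M⁆ : Subgroup S) : Set S)) := by
  have := Fact.mk hp
  have : Fact (Nat.Prime 3) := ⟨Nat.prime_three⟩
  obtain ⟨q, -, rfl⟩ := cyclic_iff.1 hQc
  rw [commutator_comm] at hQM ⊢
  have hs : Group.IsSolvable (⊤ : Subgroup S) := inferInstance
  obtain ⟨H, hH, hQH⟩ := Hall.exists_ge (π := {2}ᶜ) hs le_top (p'_of_pgroup hQ3 (by decide))
  have hHo : Odd (Nat.card H) := Nat.not_even_iff_odd.1 fun h => PiGrp.p'_iff.1 hH.pi (even_iff_two_dvd.1 h)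
  by_cases h3 : rk 3 H ≤ 2
  · obtain ⟨g, -, hg⟩ := hH.exists_conj_le hs le_top (p'_of_pgroup (elab_pgroup hE) hp2)
    have hE' : Elem p 3 (g ⋆ E) H := ⟨hg, (elab_conj g).2 hE, by rw [card_conj, hE3]⟩
    have hp3 : p ≠ 3 := by
      rintro rfl
      have := hE'.le_rk
      omega
    have h5 : 5 ≤ p := hp.five_le_of_ne_two_of_ne_three hp2 hp3
    have hK := rank2_min_p_complement (sol_of_le hs le_top) hHo h3 (Or.inl rfl)
    have hEK := pcore_nml {3}ᶜ H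
    have hQK : zpowers q ≤ 𝐍(𝐎({3}ᶜ, H)) := hQH.trans hEK.norm
    obtain ⟨P, hP, hQP⟩ := Syl.exists_inv p hQK (PiGrp.coprime_pgroup hK.pi hQ3).symm (Or.inl inferInstance)
    obtain ⟨F, hF⟩ := exists_elem_of_le_rk (p := p) (k := 3) (H := P) (by
      rw [hP.rk_eq, hK.rk_eq hp3]; exact hE'.le_rk)
    have ho : Odd (Nat.card ↥(P ⊔ zpowers q)) := odd_of_le hHo (sup_le (hP.le.trans hK.le) hQH)
    obtain ⟨U, h1, h2, h8, hN⟩ := exists_eight hM (odd_of_le hHo hQH) hQP hQM fun a ha =>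
      meet_ne_bot hM h5 hP.pgroup hQ3 (hQP (mem_zpowers q)) ha ho hQM
    exact ⟨p, F, hp, hp2, hF.elem, hF.card, not_cyc hp2 hF.top (elab_of_le hM h2) h8 h1 (hF.le.trans hN)⟩
  · obtain ⟨T, hT, hQT⟩ := Syl.exists_ge hQ3 hQH
    obtain ⟨A, hAT, hTA, hA, hA3⟩ := exists_invariant_elemAb_cube (p := 3) (by decide) hT.pgroup le_rfl (le_norm T)
      (by rw [← rk_le_iff, hT.rk_eq]; exact h3)
    have hq := hQT (mem_zpowers q)
    refine ⟨3, A, Nat.prime_three, by decide, hA, hA3, not_cyc (by decide) ⟨le_top, hA, hA3⟩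
      (elab_of_le hM (cW_le _)) (by omega) le_rfl fun a ha => three_norm hM hT.pgroup hq (hAT ha) hQM ?_⟩
    have := hA.1
    refine setLike_mul_comm ha ?_
    have := mul_mem (conj_mem_of_norm' (hTA hq) ha) (inv_mem ha)
    simpa only [mul_assoc] using this

end Cfsg.Agent.S4404
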