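import Cfsg.Statements.S4405
import Cfsg.Agent.Lib.BG.Hall
import Cfsg.Agent.Lib.Inv.SylowTwo
import Cfsg.Agent.Lib.Inv.Misc
import Cfsg.Agent.Lib.Extraspecial.Basic
import Cfsg.Agent.Lib.Char.Burnside
import Cfsg.Agent.Lib.Transfer.Criteria

set_option autoImplicit false
open Cfsg

namespace Cfsg.Agent.S4405

open Subgroup Cfsg.Lib Cfsg.Lib.BG

theorem key {H : Type*} [Group H] [Finite H] (hex : IsExtraspecial 2 H) (α τ : MulAut H)
    (h5 : α ^ 5 = 1) (h2 : τ * τ = 1) (hi : τ * α * τ⁻¹ = α⁻¹) (hf : ∀ h, α h = h → h ∈ center H)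
    (hz : ∀ (β : MulAut H), ∀ z ∈ center H, β z = z) {c : H} (hc : τ c = c) : c * c = 1 := by
  have hk : ∀ h : H, Abelianization.of h = 1 ↔ h ∈ center H := fun h => by
    rw [← hex.1.2.2, ← Abelianization.ker_of, MonoidHom.mem_ker]
  have hz2 : ∀ z ∈ center H, z * z = 1 := fun z hz => by
    rw [← sq]; exact ES.pow_eq_one_of_mem_center hex hz
  have h5' : ∀ h, α (α (α (α (α h)))) = h := fun h => by
    have := MulEquiv.congr_fun h5 h
    simpa [pow_succ] using this
  have hfix : ∀ h, Abelianization.of (α h) = Abelianization.of h → h ∈ center H := fun h e => by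
    have h1 : α h * h⁻¹ ∈ center H := (hk _).1 (by rw [map_mul, map_inv, e, mul_inv_cancel])
    set z := α h * h⁻¹ with hzd
    have h3 : α h = z * h := by rw [hzd, inv_mul_cancel_right]
    have h4 : α (α h) = h := by rw [h3, map_mul, hz α z h1, h3, ← mul_assoc, hz2 z h1, one_mul]
    have := h5' h
    rw [h4, h4] at this
    exact hf h this
  have hN := (hk _).2 (hfix (c * α c * α (α c) * α (α (α c)) * α (α (α (α c)))) (by
    simp only [map_mul, h5']
    simp only [mul_comm, mul_left_comm, mul_assoc]))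
  have hτ : ∀ h, τ (τ h) = h := fun h => MulEquiv.congr_fun h2 h
  have hτα : ∀ h, α (τ (α h)) = τ h := fun h => by
    have := MulEquiv.congr_fun hi (τ h)
    simp only [MulAut.mul_apply, MulAut.inv_apply_self] at this
    rw [this, MulAut.apply_inv_self]
  have e1 : τ (α c) = α (α (α (α c))) := α.injective (by rw [hτα, hc, h5'])
  have e2 : τ (α (α c)) = α (α (α c)) := α.injective (by rw [hτα, e1])
  have hsq : ∀ h : H, Abelianization.of h * Abelianization.of h = 1 := fun h => by
    rw [← map_mul, hk, ← sq]; exact ES.pow_mem_center hex h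
  set v := α c * α (α c) with hv
  have h6 : v * (τ v)⁻¹ * c⁻¹ ∈ center H := (hk _).1 (by
    simp only [hv, map_mul, map_inv, e1, e2, mul_inv_rev] at hN ⊢
    rw [inv_eq_of_mul_eq_one_right (hsq _), inv_eq_of_mul_eq_one_right (hsq _),
      inv_eq_of_mul_eq_one_right (hsq _), ← hN]
    simp only [mul_comm, mul_left_comm, mul_assoc])
  set z := v * (τ v)⁻¹ * c⁻¹ with hzd
  have h7 : v * (τ v)⁻¹ = z * c := by rw [hzd, inv_mul_cancel_right]
  have h8 : τ (v * (τ v)⁻¹) = (v * (τ v)⁻¹)⁻¹ := by simp [hτ]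
  rw [h7, map_mul, hz τ z h6, hc, ← mul_eq_one_iff_eq_inv] at h8
  calc c * c = z * z * c * c := by rw [hz2 z h6, one_mul]
    _ = z * c * (z * c) := by
      rw [mul_assoc z z c, ← mem_center_iff.1 h6 c, ← mul_assoc z c z, ← mem_center_iff.1 h6 c,
        mul_assoc (c * z) z c, ← mem_center_iff.1 h6 c]
    _ = 1 := h8

/-- Let G be a finite group of order 320 = 64·5 whose largest normal 2-subgroup H = O₂(G) equals the Fitting subgroup F(G) and is extraspecial of order 32 containing no elementary abelian subgroup of order 8 (so H is the central product of a quaternion group and a dihedral group of order 8). If T is an involution of G outside H whose centralizer in H contains an elementary abelian subgroup of order 4, then C_H(T) itself is elementary abelian of order 4. -/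
theorem result {G : Type*} [Group G] [Finite G]
    (hG : Nat.card G = 320) (hHF : Cfsg.pCore 2 G = Cfsg.fittingSubgroup G)
    (hex : Cfsg.IsExtraspecial 2 ↥(Cfsg.pCore 2 G)) (h32 : Nat.card ↥(Cfsg.pCore 2 G) = 32)
    (hminus : ∀ A : Subgroup G, A ≤ Cfsg.pCore 2 G → Cfsg.IsElementaryAbelian 2 A → Nat.card ↥A ≤ 4)
    (T : G) (hT : orderOf T = 2) (hTH : T ∉ Cfsg.pCore 2 G)
    (V : Subgroup G) (hV : V ≤ Cfsg.pCore 2 G ⊓ Subgroup.centralizer ({T} : Set G)) (hV4 : Nat.card ↥V = 4) (hVe : Cfsg.IsElementaryAbelian 2 V) :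
    Nat.card ↥(Cfsg.pCore 2 G ⊓ Subgroup.centralizer ({T} : Set G)) = 4 ∧
      Cfsg.IsElementaryAbelian 2 (Cfsg.pCore 2 G ⊓ Subgroup.centralizer ({T} : Set G)) := by
  haveI : Group.IsSolvable G := Char.isSolvable_of_card_dvd_pow_mul_pow G (a := 6) (b := 1)
    Nat.prime_two Nat.prime_five (by rw [hG]; norm_num)
  have hT2 : T * T = 1 := by rw [← sq, ← hT, pow_orderOf_eq_one]
  obtain ⟨x, hx1, hxo, hxi⟩ := Inv.exists_odd_inverted_of_not_mem_pCore hT2 hTH
  have hx5 : orderOf x = 5 := by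
    have h1 : orderOf x ∣ 2 ^ 6 * 5 := by
      have := orderOf_dvd_natCard x
      rwa [hG] at this
    have h2 := ((Nat.coprime_two_right.2 hxo).pow_right 6).dvd_of_dvd_mul_left h1
    exact ((Nat.dvd_prime Nat.prime_five).1 h2).resolve_left (mt orderOf_eq_one_iff.1 hx1)
  set H := pCore 2 G with hH
  haveI hn : H.Normal := inferInstance
  have hHp : IsPGroup 2 H := hex.1.1
  have hz : ∀ (β : MulAut H), ∀ z ∈ center H, β z = z := fun β z hz => by
    by_cases h1 : z = 1
    · rw [h1, map_one]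
    have h2 : β z ∈ center H := mem_center_iff.2 fun g => by
      obtain ⟨g, rfl⟩ := β.surjective g
      rw [← map_mul, ← map_mul, mem_center_iff.1 hz]
    rw [ES.center_eq_zpowers hex hz h1, Inv.mem_zpowers_iff_of_mul_self
      (by rw [← sq]; exact ES.pow_eq_one_of_mem_center hex hz)] at h2
    exact h2.resolve_left (by simpa using h1)
  have hC : H ⊓ 𝐂(zpowers x) = 𝐙(H) := by
    haveI := Fact.mk Nat.prime_five
    have h1 := Transfer.card_modEq_card_inf_centralizer (q := 5) (A := zpowers x) (T := H)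
      (IsPGroup.of_card (n := 1) (by rw [Nat.card_zpowers, hx5]; rfl)) le_normalizer_of_normal
    have h2 : 𝐙(H) ≤ H ⊓ 𝐂(zpowers x) := fun z hz' => ⟨hz'.1, by
      rw [cent_zpowers]; refine mem_cent1.2 ?_
      have := congrArg Subtype.val (hz (MulAut.conjNormal x) ⟨z, hz'.1⟩
        (mem_center_iff.2 fun g => Subtype.ext (mem_cent.1 hz'.2 g g.2)))
      exact (mul_inv_eq_iff_eq_mul.1 this).symm⟩
    have h3 : Nat.card ↥𝐙(H) = 2 := by
      rw [← Core.map_subtype_center, Core.card_map_subtype, hex.2]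
    have h4 : H ⊓ 𝐂(zpowers x) ≠ H := fun e => by
      have h5 : x ∈ 𝐂(H) := zpowers_le.1 (cent_symm (inf_eq_left.1 e))
      rw [hHF] at h5
      have h6 := orderOf_dvd_natCard _ (Core.centralizer_fittingSubgroup_le h5)
      rw [← hHF, h32, hx5] at h6
      omega
    have h5 := Core.card_lt_card_of_lt (lt_of_le_of_ne inf_le_left h4)
    have h6 := card_dvd (inf_le_left : H ⊓ 𝐂(zpowers x) ≤ H)
    refine (eq_of_le_of_card_le h2 ?_).symm
    rw [h32] at h1 h5 h6
    rw [h3]
    generalize Nat.card ↥(H ⊓ 𝐂(zpowers x)) = m at h1 h5 h6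
    unfold Nat.ModEq at h1
    interval_cases m <;> omega
  have hE : IsElementaryAbelian 2 (H ⊓ 𝐂[T]) := Inv.elemAb_two_iff.2 fun c hc =>
    congrArg Subtype.val (key hex (MulAut.conjNormal x) (MulAut.conjNormal T)
      (by rw [← map_pow, ← hx5, pow_orderOf_eq_one, map_one]) (by rw [← map_mul, hT2, map_one])
      (by rw [← map_inv, ← map_mul, ← map_mul, hxi, map_inv]) (fun h e => by
        have h1 : (h : G) ∈ 𝐙(H) := hC ▸ ⟨h.2, by
          rw [cent_zpowers]; refine mem_cent1.2 ?_
          exact (mul_inv_eq_iff_eq_mul.1 (congrArg Subtype.val e)).symm⟩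
        exact mem_center_iff.2 fun g => Subtype.ext (mem_cent.1 h1.2 g g.2)) hz
      (c := ⟨c, hc.1⟩) (Subtype.ext (mul_inv_eq_iff_eq_mul.2 (mem_cent1.1 hc.2).symm)))
  exact ⟨le_antisymm (hminus _ inf_le_left hE) (hV4 ▸ card_le_of_le hV), hE⟩

end Cfsg.Agent.S4405
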