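import Cfsg.Statements.S4406
import Cfsg.Agent.Lib.FGS.Misc

set_option autoImplicit false
open Cfsg

namespace Cfsg.Agent.S4406

section
open Cfsg.Lib.FGS Cfsg.Lib.BG Cfsg.Lib.Transfer

abbrev A4 := ↥(alternatingGroup (Fin 4))

theorem f1 : ∀ u : A4, u ^ 4 = 1 → u ≠ 1 → ∀ u' : A4, u' ^ 4 = 1 → u' ≠ 1 → u' ≠ u → ∀ a : A4, a ^ 3 = 1 → a ≠ 1 →
    (a * u * a⁻¹ = u' ∧ a * u' * a⁻¹ = u * u') ∨ (a⁻¹ * u * a = u' ∧ a⁻¹ * u' * a = u * u') := by decide +kernel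

theorem f2 : ∀ u : A4, u ^ 4 = 1 → u ≠ 1 → ∀ u' : A4, u' ^ 4 = 1 → u' ≠ 1 → u' ≠ u → ∀ s : A4, s ^ 4 = 1 →
    s = 1 ∨ s = u ∨ s = u' ∨ s = u * u' := by decide +kernel

theorem f3 (u : A4) (h1 : u ^ 4 = 1) (h2 : u ≠ 1) (u' : A4) (h3 : u' ^ 4 = 1) (h4 : u' ≠ 1) (h5 : u' ≠ u) (a : A4)
    (h6 : a ^ 3 = 1) (h7 : a ≠ 1) : ∃ c ∈ Subgroup.zpowers a, c ^ 3 = 1 ∧ c ≠ 1 ∧ c * u * c⁻¹ = u' ∧
      c * u' * c⁻¹ = u * u' := by
  rcases f1 u h1 h2 u' h3 h4 h5 a h6 h7 with h | h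
  · exact ⟨a, Subgroup.mem_zpowers a, h6, h7, h⟩
  · exact ⟨a⁻¹, inv_mem (Subgroup.mem_zpowers a), by simpa using h6, by simpa using h7, by simpa using h⟩

theorem cardA4 : Nat.card A4 = 12 := by
  have := two_mul_nat_card_alternatingGroup (α := Fin 4)
  rw [Nat.card_perm, Nat.card_eq_fintype_card (α := Fin _), Fintype.card_fin] at this
  simp only [Nat.factorial] at this
  change Nat.card (alternatingGroup (Fin 4)) = 12
  omega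

theorem exists_elt {G : Type*} [Group G] [Finite G] (hG : Nat.card G = 144) (Q : Sylow 3 G) (N : Subgroup G) [N.Normal]
    (hN : Nat.card N = 12) : ∃ x ∈ (Q : Subgroup G) ⊓ N, x ≠ 1 ∧ x ^ 3 = 1 := by
  haveI : Fact (Nat.Prime 3) := ⟨Nat.prime_three⟩
  have h := (Syl.of_sylow_top Q).inf_nml (Nml.top_iff.2 (inferInstance : N.Normal))
  obtain ⟨Y, hY, hY3⟩ := exists_card_eq_prime Nat.prime_three (h.dvd_card Nat.prime_three (by rw [hN]; decide) rfl)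
  obtain ⟨x, hx, hx1⟩ := exists_ne_one (ne_bot_of_prime (hY3 ▸ Nat.prime_three))
  exact ⟨x, hY hx, hx1, orderOf_dvd_iff_pow_eq_one.1 (hY3 ▸ Subgroup.orderOf_dvd_natCard _ hx)⟩

end

/-- In the direct product P = A₄ × A₄, let X be the Sylow 2-subgroup, X₁ and X₂ its intersections with the two direct factors, Q a Sylow 3-subgroup and Q₁, Q₂ its intersections with the two factors. Then every subgroup B of X of order 4 either meets X₁ or X₂ nontrivially, or is normalized by one of the two subgroups of Q of order 3 other than Q₁ and Q₂. -/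
theorem result
    (X : Sylow 2 (↥(alternatingGroup (Fin 4)) × ↥(alternatingGroup (Fin 4))))
    (Q : Sylow 3 (↥(alternatingGroup (Fin 4)) × ↥(alternatingGroup (Fin 4))))
    (B : Subgroup (↥(alternatingGroup (Fin 4)) × ↥(alternatingGroup (Fin 4)))) (hBX : B ≤ (X : Subgroup _)) (hB4 : Nat.card ↥B = 4) :
    B ⊓ ((X : Subgroup _) ⊓ Subgroup.prod ⊤ ⊥) ≠ ⊥ ∨ B ⊓ ((X : Subgroup _) ⊓ Subgroup.prod ⊥ ⊤) ≠ ⊥ ∨
      ∃ R : Subgroup (↥(alternatingGroup (Fin 4)) × ↥(alternatingGroup (Fin 4))), R ≤ (Q : Subgroup _) ∧ Nat.card ↥R = 3 ∧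
        R ≠ (Q : Subgroup _) ⊓ Subgroup.prod ⊤ ⊥ ∧ R ≠ (Q : Subgroup _) ⊓ Subgroup.prod ⊥ ⊤ ∧ R ≤ Subgroup.normalizer (B : Set _) := by
  open Cfsg.Lib.FGS Cfsg.Lib.BG Cfsg.Lib.Transfer in
  by_contra hc
  push Not at hc
  obtain ⟨h1, h2, h3⟩ := hc
  haveI : Fact (Nat.Prime 3) := ⟨Nat.prime_three⟩
  have i1 : ∀ z ∈ B, ∀ w ∈ B, z.2 = w.2 → z = w := fun z hz w hw e => by
    have hm := mul_mem hz (inv_mem hw)
    have : z * w⁻¹ ∈ B ⊓ ((X : Subgroup _) ⊓ Subgroup.prod ⊤ ⊥) := ⟨hm, hBX hm, trivial, by simp [e]⟩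
    rwa [h1, Subgroup.mem_bot, mul_inv_eq_one] at this
  have i2 : ∀ z ∈ B, ∀ w ∈ B, z.1 = w.1 → z = w := fun z hz w hw e => by
    have hm := mul_mem hz (inv_mem hw)
    have : z * w⁻¹ ∈ B ⊓ ((X : Subgroup _) ⊓ Subgroup.prod ⊥ ⊤) := ⟨hm, hBX hm, by simp [e], trivial⟩
    rwa [h2, Subgroup.mem_bot, mul_inv_eq_one] at this
  have p4 : ∀ z ∈ B, z ^ 4 = 1 := fun z hz => orderOf_dvd_iff_pow_eq_one.1 ((Subgroup.orderOf_dvd_natCard _ hz).trans hB4.dvd)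
  have hG : Nat.card (A4 × A4) = 144 := by rw [Nat.card_prod, cardA4]
  haveI : (Subgroup.prod ⊤ ⊥ : Subgroup (A4 × A4)).Normal := Subgroup.prod_normal _ _
  haveI : (Subgroup.prod ⊥ ⊤ : Subgroup (A4 × A4)).Normal := Subgroup.prod_normal _ _
  obtain ⟨⟨a, a'⟩, ⟨ha, -, ha'⟩, ha1, ha3⟩ := exists_elt hG Q (Subgroup.prod ⊤ ⊥) (by
    rw [Nat.card_congr (Subgroup.prodEquiv _ _).toEquiv, Nat.card_prod, Subgroup.card_top, Subgroup.card_bot, cardA4])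
  obtain ⟨⟨b', b⟩, ⟨hb, hb', -⟩, hb1, hb3⟩ := exists_elt hG Q (Subgroup.prod ⊥ ⊤) (by
    rw [Nat.card_congr (Subgroup.prodEquiv _ _).toEquiv, Nat.card_prod, Subgroup.card_top, Subgroup.card_bot, cardA4])
  obtain rfl : a' = 1 := ha'
  obtain rfl : b' = 1 := hb'
  haveI := Fintype.ofFinite B
  obtain ⟨⟨z, hz⟩, ⟨w, hw⟩, hz1, hw1, hzw⟩ : ∃ z w : B, z ≠ 1 ∧ w ≠ 1 ∧ w ≠ z := by
    obtain ⟨z, hz, -⟩ := Cfsg.Lib.Perm.exists_ne_ne (α := B) (by omega) 1 1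
    obtain ⟨w, hw, hw'⟩ := Cfsg.Lib.Perm.exists_ne_ne (α := B) (by omega) 1 z
    exact ⟨z, w, hz, hw, hw'⟩
  simp only [ne_eq, Subtype.ext_iff, OneMemClass.coe_one] at hz1 hw1 hzw
  have q1 : ∀ z ∈ B, z.1 ^ 4 = 1 := fun z hz => congrArg Prod.fst (p4 z hz)
  have q2 : ∀ z ∈ B, z.2 ^ 4 = 1 := fun z hz => congrArg Prod.snd (p4 z hz)
  have n1 : z.1 ≠ 1 := fun e => hz1 (i2 _ hz _ (one_mem B) e)
  have n2 : w.1 ≠ 1 := fun e => hw1 (i2 _ hw _ (one_mem B) e)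
  have n3 : w.1 ≠ z.1 := fun e => hzw (i2 _ hw _ hz e)
  obtain ⟨c, ⟨i, rfl⟩, c3, c1, e1, e2⟩ := f3 _ (q1 z hz) n1 _ (q1 w hw) n2 n3 a (congrArg Prod.fst ha3)
    fun e => ha1 (by rw [e]; rfl)
  obtain ⟨d, ⟨j, rfl⟩, d3, d1, e3, e4⟩ := f3 _ (q2 z hz) (fun e => hz1 (i1 _ hz _ (one_mem B) e)) _ (q2 w hw)
    (fun e => hw1 (i1 _ hw _ (one_mem B) e)) (fun e => hzw (i1 _ hw _ hz e)) b (congrArg Prod.snd hb3)
    fun e => hb1 (by rw [e]; rfl)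
  set t : A4 × A4 := (a ^ i, b ^ j) with ht
  have tz : t * z * t⁻¹ = w := Prod.ext e1 e3
  have tw : t * w * t⁻¹ = z * w := Prod.ext e2 e4
  refine h3 (Subgroup.zpowers t) ?_ ?_ ?_ ?_ ?_
  · rw [Subgroup.zpowers_le]
    have := (Q : Subgroup (A4 × A4)).mul_mem ((Q : Subgroup (A4 × A4)).zpow_mem ha i)
      ((Q : Subgroup (A4 × A4)).zpow_mem hb j)
    simpa using this
  · rw [Nat.card_zpowers]
    exact orderOf_eq_prime (Prod.ext c3 d3) fun e => c1 (congrArg Prod.fst e)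
  · intro e
    exact d1 (e ▸ Subgroup.mem_zpowers t : t ∈ (Q : Subgroup _) ⊓ Subgroup.prod ⊤ ⊥).2.2
  · intro e
    exact c1 (e ▸ Subgroup.mem_zpowers t : t ∈ (Q : Subgroup _) ⊓ Subgroup.prod ⊥ ⊤).2.1
  · rw [Subgroup.zpowers_le]
    refine mem_normalizer_of_conj_le (conj_le_iff.2 fun s hs => ?_)
    rcases f2 _ (q1 z hz) n1 _ (q1 w hw) n2 n3 _ (q1 s hs) with e | e | e | e
    · rw [i2 _ hs _ (one_mem B) e]; simp
    · rw [i2 _ hs _ hz e, tz]; exact hw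
    · rw [i2 _ hs _ hw e, tw]; exact mul_mem hz hw
    · rw [i2 _ hs _ (mul_mem hz hw) e]
      have : t * (z * w) * t⁻¹ = (t * z * t⁻¹) * (t * w * t⁻¹) := by group
      rw [this, tz, tw]; exact mul_mem hw (mul_mem hz hw)

end Cfsg.Agent.S4406
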