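import Cfsg.Statements.S4407
import Mathlib
import Cfsg.Agent.Lib.PGroup.Basic

set_option autoImplicit false
open Cfsg

namespace Cfsg.Agent.S4407

theorem main {M : Type*} [AddCommGroup M] [Module (ZMod 2) M] (a b r s : M →ₗ[ZMod 2] M)
    (har : ∀ m, a (r m) = r (b m)) (hbr : ∀ m, b (r m) = r (a (a m)))
    (hab : ∀ m, a (b m) = b (a m)) (ha3 : ∀ m, a (a (a m)) = m) (hb3 : ∀ m, b (b (b m)) = m)
    (hsa : ∀ m, s (a m) = a (s m)) (hsb : ∀ m, s (b m) = b (b (s m)))
    (hza : ∀ m, r (r (a m)) = a (a (r (r m)))) (hzb : ∀ m, r (r (b m)) = b (b (r (r m))))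
    (hss : ∀ m, s (s m) = m) (hzz : ∀ m, r (r (r (r m))) = m)
    (hsr : ∀ m, s (r m) = r (r (r (s m))))
    (hirr : ∀ N : Submodule (ZMod 2) M, (∀ m ∈ N, a m ∈ N) → (∀ m ∈ N, r m ∈ N) →
      (∀ m ∈ N, s m ∈ N) → N = ⊥ ∨ N = ⊤)
    (hC : ∀ m, a m = m → b m = m → m = 0) (hW : ∃ m, m ≠ 0 ∧ a m = m) :
    Nat.card M = 16 ∧ Nat.card {m : M // r (r m) = m ∧ s m = m} = 4 ∧
      Nat.card {m : M // r (r m) = m ∧ s (r m) = m} = 2 := by
  have h2 : ∀ m : M, m + m = 0 := fun m => by
    rw [← two_smul (ZMod 2) m, show (2 : ZMod 2) = 0 from rfl, zero_smul]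
  have h2' : ∀ m n : M, m + n = 0 → n = m := fun m n h => by
    have : n = m + (m + n) := by rw [← add_assoc, h2, zero_add]
    rw [this, h, add_zero]
  obtain ⟨w0, hw0, haw0⟩ := hW
  obtain ⟨w1, hw1, haw1, hsw1⟩ : ∃ w, w ≠ 0 ∧ a w = w ∧ s w = w := by
    by_cases h : s w0 = w0
    · exact ⟨w0, hw0, haw0, h⟩
    · refine ⟨w0 + s w0, fun h' => h (h2' _ _ h'), ?_, ?_⟩
      · rw [map_add, ← hsa, haw0]
      · rw [map_add, hss, add_comm]
  obtain ⟨w, hw, haw, hsw, hzw⟩ : ∃ w, w ≠ 0 ∧ a w = w ∧ s w = w ∧ r (r w) = w := by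
    by_cases h : r (r w1) = w1
    · exact ⟨w1, hw1, haw1, hsw1, h⟩
    · refine ⟨w1 + r (r w1), fun h' => h (h2' _ _ h'), ?_, ?_, ?_⟩
      · have h1 := hza w1
        rw [haw1] at h1
        have h3 : a (r (r w1)) = r (r w1) := by
          conv_lhs => rw [h1]
          exact ha3 _
        rw [map_add, haw1, h3]
      · rw [map_add, hsw1, hsr, hsr, hsw1, hzz]
      · rw [map_add, map_add, hzz, add_comm]
  have habw : a (b w) = b w := by rw [hab, haw]
  have hbb : b (b w) = w + b w := by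
    apply h2'
    apply hC
    · simp only [map_add, hab, haw]
    · simp only [map_add, hb3]; abel
  let f : (ZMod 2 × ZMod 2 × ZMod 2 × ZMod 2) →ₗ[ZMod 2] M :=
    { toFun := fun v => v.1 • w + v.2.1 • b w + v.2.2.1 • r w + v.2.2.2 • r (b w)
      map_add' := fun v v' => by simp only [Prod.fst_add, Prod.snd_add, add_smul]; abel
      map_smul' := fun c v => by
        simp only [Prod.smul_fst, Prod.smul_snd, smul_eq_mul, mul_smul, smul_add, RingHom.id_apply] }
  have hf : ∀ i j k l, f (i, j, k, l) = i • w + j • b w + k • r w + l • r (b w) :=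
    fun _ _ _ _ => rfl
  have hind : ∀ i j : ZMod 2, i • w + j • b w = 0 → i = 0 ∧ j = 0 := by
    intro i j h
    have hbw : b w ≠ 0 := fun h => hw (by rw [← hb3 w, h, map_zero, map_zero])
    have hne : b w ≠ w := fun h => hw (hC w haw h)
    have hc : ∀ x : ZMod 2, x = 0 ∨ x = 1 := by decide
    rcases hc i with rfl | rfl <;> rcases hc j with rfl | rfl
    · exact ⟨rfl, rfl⟩
    · rw [zero_smul, zero_add, one_smul] at h; exact absurd h hbw
    · rw [zero_smul, add_zero, one_smul] at h; exact absurd h hw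
    · rw [one_smul, one_smul] at h; exact absurd (h2' _ _ h) hne
  have hinj : Function.Injective f := by
    rw [injective_iff_map_eq_zero]
    rintro ⟨i, j, k, l⟩ h
    rw [hf, add_assoc, ← map_smul r, ← map_smul r, ← map_add r] at h
    have h1 := h2' _ _ h
    have h3 : i • w + j • b w = 0 := by
      apply hC
      · rw [map_add, map_smul, map_smul, haw, habw]
      · rw [← h1, hbr]
        simp only [map_add, map_smul, haw, habw]
    have h4 : k • w + l • b w = 0 := by
      rw [h3] at h1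
      rw [← hzz (k • w + l • b w), h1, map_zero, map_zero, map_zero]
    obtain ⟨rfl, rfl⟩ := hind _ _ h3
    obtain ⟨rfl, rfl⟩ := hind _ _ h4
    rfl
  have hfa : ∀ i j k l, a (f (i, j, k, l)) = f (i, j, l, k + l) := by
    intro i j k l
    simp only [hf, map_add, map_smul, haw, habw, har, hbb, add_smul, smul_add]
    abel
  have hfr : ∀ i j k l, r (f (i, j, k, l)) = f (k + l, l, i, j) := by
    intro i j k l
    simp only [hf, map_add, map_smul, hzw, hzb, hbb, add_smul, smul_add]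
    abel
  have hfs : ∀ i j k l, s (f (i, j, k, l)) = f (i + j, j, k, l) := by
    intro i j k l
    have e1 : s (b w) = w + b w := by rw [hsb, hsw, hbb]
    have e2 : s (r w) = r w := by rw [hsr, hsw, hzw]
    have e3 : s (r (b w)) = r (b w) := by
      rw [hsr, e1, map_add r w, map_add r (r w), hzw, hzb, hzw, hbb, ← add_assoc, h2, zero_add]
    simp only [hf, map_add, map_smul, hsw, e1, e2, e3, add_smul, smul_add]
    abel
  have hsurj : Function.Surjective f := by
    rw [← LinearMap.range_eq_top]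
    refine (hirr _ ?_ ?_ ?_).resolve_left ?_
    · rintro _ ⟨⟨i, j, k, l⟩, rfl⟩; exact ⟨_, (hfa i j k l).symm⟩
    · rintro _ ⟨⟨i, j, k, l⟩, rfl⟩; exact ⟨_, (hfr i j k l).symm⟩
    · rintro _ ⟨⟨i, j, k, l⟩, rfl⟩; exact ⟨_, (hfs i j k l).symm⟩
    · intro h
      have : w ∈ LinearMap.range f := ⟨(1, 0, 0, 0), by simp [hf]⟩
      rw [h, Submodule.mem_bot] at this
      exact hw this
  let e := Equiv.ofBijective f ⟨hinj, hsurj⟩
  refine ⟨?_, ?_, ?_⟩
  · rw [← Nat.card_congr e]
    simp [Nat.card_eq_fintype_card]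
  · rw [← Nat.card_congr (Equiv.subtypeEquiv (p := fun v => v.2.1 = 0 ∧ v.2.2.2 = 0) e ?_)]
    · rw [Nat.card_eq_fintype_card]; decide
    · rintro ⟨i, j, k, l⟩
      change _ ↔ r (r (f _)) = f _ ∧ s (f _) = f _
      rw [hfr, hfr, hfs, hinj.eq_iff, hinj.eq_iff]
      revert i j k l; decide
  · rw [← Nat.card_congr (Equiv.subtypeEquiv (p := fun v => v.2.1 = 0 ∧ v.2.2.2 = 0 ∧ v.1 = v.2.2.1) e ?_)]
    · rw [Nat.card_eq_fintype_card]; decide
    · rintro ⟨i, j, k, l⟩
      change _ ↔ r (r (f _)) = f _ ∧ s (r (f _)) = f _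
      rw [hfr, hfr, hfs, hinj.eq_iff, hinj.eq_iff]
      revert i j k l; decide

/-- the two four-groups of `D₈` -/
def TT (i : ZMod 4) : Subgroup (DihedralGroup 4) where
  carrier := {x | x = .r 0 ∨ x = .r 2 ∨ x = .sr i ∨ x = .sr (i + 2)}
  mul_mem' := by
    intro x y
    simp only [Set.mem_setOf_eq]
    revert i x y; decide
  one_mem' := Or.inl rfl
  inv_mem' := by
    intro x
    simp only [Set.mem_setOf_eq]
    revert i x; decide

theorem mem_TT (i : ZMod 4) (x : DihedralGroup 4) :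
    x ∈ TT i ↔ x = .r 0 ∨ x = .r 2 ∨ x = .sr i ∨ x = .sr (i + 2) := Iff.rfl

theorem card_TT (i : ZMod 4) : Nat.card (TT i) = 4 := by
  have : Nat.card (TT i) = Nat.card {x : DihedralGroup 4 //
    x = .r 0 ∨ x = .r 2 ∨ x = .sr i ∨ x = .sr (i + 2)} := rfl
  rw [this, Nat.card_eq_fintype_card]
  clear this
  revert i; decide

theorem eq_TT (T : Subgroup (DihedralGroup 4)) (h4 : Nat.card T = 4) (h2 : ∀ x ∈ T, x ^ 2 = 1) :
    T = TT 0 ∨ T = TT 1 := by
  have : T ≤ TT 0 ∨ T ≤ TT 1 := by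
    by_contra h
    rw [not_or, SetLike.not_le_iff_exists, SetLike.not_le_iff_exists] at h
    obtain ⟨⟨x, hx, hx'⟩, ⟨y, hy, hy'⟩⟩ := h
    have h1 := h2 x hx
    have h3 := h2 y hy
    have h5 := h2 _ (mul_mem hx hy)
    rw [mem_TT] at hx' hy'
    clear hx hy
    revert x y; decide
  rcases this with h | h
  · exact Or.inl (Subgroup.eq_of_le_of_card_ge h (by rw [h4, card_TT]))
  · exact Or.inr (Subgroup.eq_of_le_of_card_ge h (by rw [h4, card_TT]))

theorem main2 {S : Type*} [Group S] [Finite S] {M : Type*} [AddCommGroup M] [Module (ZMod 2) M]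
    (ρ : Representation (ZMod 2) S M)
    (hirr : ∀ N : Submodule (ZMod 2) M, (∀ s : S, ∀ m ∈ N, ρ s m ∈ N) → N = ⊥ ∨ N = ⊤)
    (a b r s : S) (har : a * r = r * b) (hab : a * b = b * a) (ha3 : a * a * a = 1)
    (hsa : s * a = a * s) (hza : r * r * a = a * a * (r * r)) (hss : s * s = 1)
    (hzz : r * r * r * r = 1) (hsr : s * r = r * r * r * s)
    (hgen : Subgroup.closure {a, r, s} = ⊤)
    (hC : ∀ m, ρ a m = m → ρ b m = m → m = 0) (hW : ∃ m, m ≠ 0 ∧ ρ a m = m) :
    Nat.card M = 16 ∧ Nat.card {m : M // ρ (r * r) m = m ∧ ρ s m = m} = 4 ∧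
      Nat.card {m : M // ρ (r * r) m = m ∧ ρ (s * r) m = m} = 2 := by
  have hb : b = r⁻¹ * a * r := by rw [mul_assoc, har]; group
  have hri : r⁻¹ = r * r * r := inv_eq_of_mul_eq_one_left hzz
  have hai : a⁻¹ = a * a := inv_eq_of_mul_eq_one_left ha3
  have hza' : (r * r) * a * (r * r)⁻¹ = a⁻¹ := by rw [hza, hai]; group
  have hza'' : (r * r)⁻¹ * a * (r * r) = a⁻¹ := by
    have : (r * r)⁻¹ = r * r := inv_eq_of_mul_eq_one_left (by rw [← hzz]; group)
    rw [← hza', this]
  have hb3 : b * b * b = 1 := by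
    rw [hb]
    calc _ = r⁻¹ * (a * a * a) * r := by group
      _ = 1 := by rw [ha3]; group
  have hbi : b⁻¹ = b * b := inv_eq_of_mul_eq_one_left hb3
  have hbr : b * r = r * a * a := by
    rw [mul_assoc, ← hai, ← hza'', hb]; group
  have hzb : r * r * b = b * b * (r * r) := by
    rw [← hbi, hb]
    calc _ = r⁻¹ * ((r * r) * a * (r * r)⁻¹) * r * (r * r) := by group
      _ = _ := by rw [hza']; group
  have hsb : s * b = b * b * s := by
    have h1 : s * r = r⁻¹ * s := by rw [hri, hsr]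
    have h3 : s * r⁻¹ = r * s := by
      calc s * r⁻¹ = r * (r⁻¹ * s) * r⁻¹ := by group
        _ = _ := by rw [← h1]; group
    rw [← hbi, hb]
    calc s * (r⁻¹ * a * r) = (s * r⁻¹) * a * r := by group
      _ = r * (s * a) * r := by rw [h3]; group
      _ = r * a * (s * r) := by rw [hsa]; group
      _ = r⁻¹ * ((r * r) * a * (r * r)⁻¹) * r * s := by rw [h1]; group
      _ = _ := by rw [hza']; group
  have ap : ∀ x y : S, ∀ m, ρ x (ρ y m) = ρ (x * y) m := fun x y m => by
    rw [map_mul]; rfl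
  have key := main (ρ a) (ρ b) (ρ r) (ρ s) (fun m => by simp only [ap, har])
    (fun m => by simp only [ap, hbr, mul_assoc]) (fun m => by simp only [ap, hab])
    (fun m => by simp only [ap, ← mul_assoc, ha3, map_one, Module.End.one_apply])
    (fun m => by simp only [ap, ← mul_assoc, hb3, map_one, Module.End.one_apply])
    (fun m => by simp only [ap, hsa]) (fun m => by simp only [ap, ← mul_assoc, hsb])
    (fun m => by simp only [ap, ← mul_assoc, hza]) (fun m => by simp only [ap, ← mul_assoc, hzb])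
    (fun m => by simp only [ap, hss, map_one, Module.End.one_apply])
    (fun m => by simp only [ap, ← mul_assoc, hzz, map_one, Module.End.one_apply])
    (fun m => by simp only [ap, ← mul_assoc, hsr]) ?_ hC hW
  · simpa only [ap] using key
  · intro N h1 h2 h3
    apply hirr
    intro g
    have hg : g ∈ Submonoid.closure {a, r, s} := by
      rw [← Subgroup.closure_toSubmonoid_of_finite, hgen]; trivial
    induction hg using Submonoid.closure_induction with
    | mem x hx =>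
      rcases hx with rfl | rfl | rfl <;> assumption
    | one => intro m hm; simpa using hm
    | mul x y _ _ hx hy => intro m hm; rw [← ap]; exact hx _ (hy _ hm)

/-- Let S be a finite group with a normal elementary abelian subgroup A of order 9 that is self-centralizing (C_S(A) = A), and a dihedral subgroup X of order 8 with S = AX. Let M be a finite-dimensional module for S over the field with two elements that is faithful and irreducible. Then M has 16 elements, and X contains exactly one subgroup B of order 4 and exponent 2 whose fixed points on M form a subspace with exactly 2 elements (equivalently, M is free of rank one over the group algebra of B). -/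
theorem result {S : Type*} [Group S] [Finite S]
    (A : Subgroup S) [A.Normal] (hA : Cfsg.IsElementaryAbelian 3 A) (hA9 : Nat.card ↥A = 9)
    (hAC : Subgroup.centralizer (A : Set S) = A) (X : Subgroup S) (hX : Nonempty (↥X ≃* DihedralGroup 4)) (hAX : A ⊔ X = ⊤)
    {M : Type*} [AddCommGroup M] [Module (ZMod 2) M] [Finite M] (ρ : Representation (ZMod 2) S M)
    (hfaith : Function.Injective ρ)
    (hirr : ∀ N : Submodule (ZMod 2) M, (∀ s : S, ∀ m ∈ N, ρ s m ∈ N) → N = ⊥ ∨ N = ⊤) (hM : Nontrivial M) :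
    Nat.card M = 16 ∧
      ∃! B : Subgroup S, B ≤ X ∧ Nat.card ↥B = 4 ∧ (∀ b ∈ B, b ^ 2 = 1) ∧
        Nat.card {m : M // ∀ b ∈ B, ρ b m = m} = 2 := by
  obtain ⟨f⟩ := hX
  let ψ : DihedralGroup 4 →* S := X.subtype.comp f.symm.toMonoidHom
  have hψ : Function.Injective ψ := Subtype.val_injective.comp f.symm.injective
  have hψX : ∀ d, ψ d ∈ X := fun d => (f.symm d).2
  have hXψ : ∀ x ∈ X, ∃ d, ψ d = x := fun x hx => ⟨f ⟨x, hx⟩, by simp [ψ]⟩
  have hcomm : ∀ x ∈ A, ∀ y ∈ A, x * y = y * x := fun x hx y hy =>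
    congrArg Subtype.val (hA.1.is_comm.comm (⟨x, hx⟩ : A) ⟨y, hy⟩)
  have hA3 : ∀ x ∈ A, x * x * x = 1 := fun x hx => by rw [← pow_three', hA.2 x hx]
  have hnorm : ∀ x ∈ A, ∀ g : S, g * x * g⁻¹ ∈ A := fun x hx g => Subgroup.Normal.conj_mem ‹_› x hx g
  have hnorm' : ∀ x ∈ A, ∀ g : S, g⁻¹ * x * g ∈ A := fun x hx g => by
    simpa using hnorm x hx g⁻¹
  have notA : ∀ d : DihedralGroup 4, d * d = 1 → d ≠ 1 → ∃ x ∈ A, x * ψ d ≠ ψ d * x := by
    intro d hd hd1
    by_contra h
    push Not at h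
    have h1 : ψ d ∈ A := by rw [← hAC]; exact h
    have h2 := hA3 _ h1
    rw [← map_mul, hd, map_one, one_mul] at h2
    exact hd1 (hψ (by rw [h2, map_one]))
  have hzp : ∀ x ∈ A, ∀ y ∈ Subgroup.zpowers x, y = 1 ∨ y = x ∨ y = x⁻¹ := by
    rintro x hx _ ⟨k, rfl⟩
    have h3 : x ^ (3 : ℤ) = 1 := by exact_mod_cast hA.2 x hx
    simp only
    rw [zpow_eq_zpow_emod k h3]
    have : k % 3 = 0 ∨ k % 3 = 1 ∨ k % 3 = 2 := by omega
    rcases this with h | h | h <;> rw [h]
    · simp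
    · simp
    · right; right
      rw [eq_inv_iff_mul_eq_one, ← h3]; group
  have gen : ∀ x ∈ A, ∀ y ∈ A, x ≠ 1 → y ∉ Subgroup.zpowers x → ∀ H : Subgroup S, x ∈ H → y ∈ H →
      A ≤ H := by
    intro x hx y hy hx1 hyx H hxH hyH
    haveI : Fact (Nat.Prime 3) := ⟨Nat.prime_three⟩
    have ho : orderOf x = 3 := orderOf_eq_prime (hA.2 x hx) hx1
    rcases Cfsg.Lib.PGroup.eq_or_eq_of_card_eq_prime_mul Nat.prime_three
      (H := Subgroup.zpowers x) (K := A) (L := A ⊓ H)
      (by rw [Subgroup.zpowers_le]; exact ⟨hx, hxH⟩) inf_le_left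
      (by rw [Nat.card_zpowers, ho, hA9]) with h | h
    · exact absurd (h ▸ (⟨hy, hyH⟩ : y ∈ A ⊓ H)) hyx
    · exact inf_eq_left.1 h
  have hinv1 : ∀ x ∈ A, x = x⁻¹ → x = 1 := fun x hx h => by
    have := hA3 x hx
    rwa [eq_inv_iff_mul_eq_one.1 h, one_mul] at this
  obtain ⟨r, hr⟩ : ∃ r, r = ψ (.r 1) := ⟨_, rfl⟩
  have hz : ψ (.r 2) = r * r := by rw [hr, ← map_mul]; rfl
  have hzz : r * r * r * r = 1 := by
    rw [hr, ← map_mul, ← map_mul, ← map_mul, ← map_one ψ]; rfl
  have hzi : (r * r)⁻¹ = r * r := inv_eq_of_mul_eq_one_left (by rw [← hzz]; group)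
  -- a nontrivial element inverted by `z` is moved out of its cyclic group by `r`
  have hmove : ∀ x ∈ A, x ≠ 1 → (r * r) * x * (r * r)⁻¹ = x⁻¹ → r⁻¹ * x * r ∉ Subgroup.zpowers x := by
    intro x hx hx1 h hm
    have h' : x⁻¹ = r⁻¹ * (r⁻¹ * x * r) * r := by
      rw [← h]
      calc _ = (r * r)⁻¹⁻¹ * x * (r * r)⁻¹ := by rw [inv_inv]
        _ = (r * r)⁻¹ * x * (r * r) := by rw [hzi, hzi]
        _ = _ := by group
    rcases hzp x hx _ hm with e | e | e
    · rw [e] at h'
      exact hx1 (by simpa using h')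
    · rw [e, e] at h'
      exact hx1 (hinv1 x hx h'.symm)
    · rw [e] at h'
      have : r⁻¹ * x⁻¹ * r = (r⁻¹ * x * r)⁻¹ := by group
      rw [this, e, inv_inv] at h'
      exact hx1 (hinv1 x hx h'.symm)
  have hzinv : ∀ x ∈ A, (r * r) * x * (r * r)⁻¹ = x⁻¹ := by
    let I : Subgroup S :=
      { carrier := {x | x ∈ A ∧ (r * r) * x * (r * r)⁻¹ = x⁻¹}
        mul_mem' := by
          rintro x y ⟨hx, hx'⟩ ⟨hy, hy'⟩
          refine ⟨mul_mem hx hy, ?_⟩
          conv_rhs => rw [hcomm x hx y hy, mul_inv_rev, ← hx', ← hy']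
          simp [mul_assoc]
        one_mem' := ⟨one_mem _, by simp⟩
        inv_mem' := by
          rintro x ⟨hx, hx'⟩
          refine ⟨inv_mem hx, ?_⟩
          conv_rhs => rw [← hx']
          simp [mul_assoc] }
    obtain ⟨x, hx, hx'⟩ := notA (.r 2) (by decide) (by decide)
    rw [hz] at hx'
    have hy : x⁻¹ * ((r * r) * x * (r * r)⁻¹) ∈ A := mul_mem (inv_mem hx) (hnorm x hx _)
    have hy1 : x⁻¹ * ((r * r) * x * (r * r)⁻¹) ≠ 1 := by
      intro h
      apply hx'
      rw [inv_mul_eq_one] at h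
      conv_lhs => rw [h]
      group
    have hy2 : (r * r) * (x⁻¹ * ((r * r) * x * (r * r)⁻¹)) * (r * r)⁻¹ =
        (x⁻¹ * ((r * r) * x * (r * r)⁻¹))⁻¹ := by
      calc _ = ((r * r) * x * (r * r)⁻¹)⁻¹ * ((r * r * r * r) * x * (r * r * r * r)⁻¹) := by
            simp [mul_assoc]
        _ = _ := by rw [hzz]; group
    have hle := gen _ hy _ (hnorm' _ hy r) hy1 (hmove _ hy hy1 hy2) I ⟨hy, hy2⟩
      ⟨hnorm' _ hy r, by
        calc _ = r⁻¹ * ((r * r) * (x⁻¹ * ((r * r) * x * (r * r)⁻¹)) * (r * r)⁻¹) * r := by group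
          _ = _ := by rw [hy2]; group⟩
    exact fun x hx => (hle hx).2
  have ap : ∀ x y : S, ∀ m, ρ x (ρ y m) = ρ (x * y) m := fun x y m => by
    rw [map_mul]; rfl
  have hfix : ∀ m : M, (∀ x ∈ A, ρ x m = m) → m = 0 := by
    let N : Submodule (ZMod 2) M :=
      { carrier := {m | ∀ x ∈ A, ρ x m = m}
        add_mem' := fun hm hn x hx => by rw [map_add, hm x hx, hn x hx]
        zero_mem' := fun x hx => map_zero _
        smul_mem' := fun c m hm x hx => by rw [map_smul, hm x hx] }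
    rcases hirr N (fun g m hm x hx => by
      rw [ap, show x * g = g * (g⁻¹ * x * g) by group, ← ap, hm _ (hnorm' x hx g)]) with h | h
    · intro m hm
      have : m ∈ N := hm
      rwa [h, Submodule.mem_bot] at this
    · exfalso
      obtain ⟨x, hx, hx'⟩ := notA (.r 2) (by decide) (by decide)
      have : x = 1 := hfaith (by
        rw [map_one]
        ext m
        exact (show m ∈ N from h ▸ Submodule.mem_top) x hx)
      exact hx' (by rw [this, one_mul, mul_one])
  have hC : ∀ x ∈ A, x ≠ 1 → ∀ m, ρ x m = m → ρ (r⁻¹ * x * r) m = m → m = 0 := by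
    intro x hx hx1 m h1 h2
    let T : Subgroup S :=
      { carrier := {g | ρ g m = m}
        mul_mem' := fun {g h} hg hh => by
          change ρ (g * h) m = m
          rw [← ap, show ρ h m = m from hh]; exact hg
        one_mem' := by change ρ 1 m = m; rw [map_one]; rfl
        inv_mem' := fun {g} hg => by
          change ρ g⁻¹ m = m
          conv_lhs => rw [← show ρ g m = m from hg]
          rw [ap, inv_mul_cancel, map_one]; rfl }
    exact hfix m fun y hy =>
      gen x hx _ (hnorm' x hx r) hx1 (hmove x hx hx1 (hzinv x hx)) T h1 h2 hy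
  have hcase : ∀ s : S, s * s = 1 → s * r = r * r * r * s →
      (∀ H : Subgroup S, r ∈ H → s ∈ H → X ≤ H) → ∀ a ∈ A, a ≠ 1 → s * a = a * s →
      (∃ m, m ≠ 0 ∧ ρ a m = m) →
      Nat.card M = 16 ∧ Nat.card {m : M // ρ (r * r) m = m ∧ ρ s m = m} = 4 ∧
        Nat.card {m : M // ρ (r * r) m = m ∧ ρ (s * r) m = m} = 2 := by
    intro s hss hsr hXH a ha ha1 hsa hW
    refine main2 ρ hirr a (r⁻¹ * a * r) r s (by group) (hcomm _ ha _ (hnorm' a ha r)) (hA3 a ha) hsa
      ?_ hss hzz hsr ?_ (hC a ha ha1) hW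
    · rw [← (inv_eq_of_mul_eq_one_left (hA3 a ha) : a⁻¹ = a * a), ← hzinv a ha]; group
    · have h1 : a ∈ Subgroup.closure {a, r, s} := Subgroup.subset_closure (by simp)
      have h2 : r ∈ Subgroup.closure {a, r, s} := Subgroup.subset_closure (by simp)
      have h3 : s ∈ Subgroup.closure {a, r, s} := Subgroup.subset_closure (by simp)
      rw [eq_top_iff, ← hAX]
      exact sup_le (gen a ha _ (hnorm' a ha r) ha1 (hmove a ha ha1 (hzinv a ha)) _ h1
        (mul_mem (mul_mem (inv_mem h2) h1) h2)) (hXH _ h2 h3)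
  obtain ⟨s, hs⟩ : ∃ s, s = ψ (.sr 0) := ⟨_, rfl⟩
  have hss : s * s = 1 := by rw [hs, ← map_mul, ← map_one ψ]; rfl
  have hsr : s * r = r * r * r * s := by
    rw [hs, hr, ← map_mul, ← map_mul, ← map_mul, ← map_mul]; rfl
  have hXH : ∀ H : Subgroup S, r ∈ H → s ∈ H → X ≤ H := by
    intro H h1 h2 x hx
    obtain ⟨d, rfl⟩ := hXψ x hx
    have : ∀ d : DihedralGroup 4, ∃ n : Fin 4, d = (.r 1) ^ (n : ℕ) ∨ d = .sr 0 * (.r 1) ^ (n : ℕ) := by
      decide
    obtain ⟨n, h | h⟩ := this d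
    · rw [h, map_pow, ← hr]; exact pow_mem h1 _
    · rw [h, map_mul, map_pow, ← hr, ← hs]; exact mul_mem h2 (pow_mem h1 _)
  have hsi : s⁻¹ = s := inv_eq_of_mul_eq_one_left hss
  have hri : r⁻¹ = r * r * r := inv_eq_of_mul_eq_one_left hzz
  have e0 : ψ (.sr 2) = s * (r * r) := by rw [← hz, hs, ← map_mul]; rfl
  have e1 : ψ (.sr 1) = s * r := by rw [hr, hs, ← map_mul]; rfl
  have e3 : ψ (.sr (1 + 2)) = s * r * (r * r) := by rw [← hz, ← e1, ← map_mul]; rfl
  have e2 : ψ (.sr (0 + 2)) = s * (r * r) := e0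
  obtain ⟨a, ha, ha1, hsa⟩ : ∃ a ∈ A, a ≠ 1 ∧ s * a = a * s := by
    obtain ⟨x, hx, hx'⟩ := notA (.sr 2) (by decide) (by decide)
    refine ⟨x * (s * x * s⁻¹), mul_mem hx (hnorm x hx s), fun h => hx' ?_, ?_⟩
    · rw [e0]
      have h1 : s * x⁻¹ * s⁻¹ = x := by
        rw [mul_eq_one_iff_eq_inv] at h
        conv_rhs => rw [h]
        group
      conv_lhs => rw [← h1, ← hzinv x hx, hzi, hsi]
      calc _ = s * (r * r) * x * (r * r * (s * s) * (r * r)) := by group
        _ = _ := by rw [hss, mul_one, ← mul_assoc (r * r), hzz, mul_one]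
    · conv_rhs => rw [hcomm x hx _ (hnorm x hx s)]
      rw [hsi]
      calc _ = s * x * s * x * s := by group
        _ = _ := by group
  have hb := hnorm' a ha r
  have hrb : r⁻¹ * (r⁻¹ * a * r) * r = a⁻¹ := by
    rw [← hzinv a ha]
    calc _ = (r * r)⁻¹ * a * (r * r) := by group
      _ = _ := by rw [hzi]
  have hsr' : s * r * s⁻¹ = r⁻¹ := by rw [hsr, hri]; group
  have hsb : s * (r⁻¹ * a * r) * s⁻¹ = (r⁻¹ * a * r)⁻¹ := by
    calc _ = (s * r * s⁻¹)⁻¹ * (s * a * s⁻¹) * (s * r * s⁻¹) := by group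
      _ = r⁻¹ * ((r * r) * a * (r * r)⁻¹) * r := by rw [hsr', hsa]; group
      _ = _ := by rw [hzinv a ha]; group
  have hdich : (∃ m, m ≠ 0 ∧ ρ a m = m) ∨ (∃ m, m ≠ 0 ∧ ρ (a * (r⁻¹ * a * r)) m = m) := by
    by_contra hcon
    push Not at hcon
    obtain ⟨h1, h2⟩ := hcon
    have h1' : ∀ m, ρ a m = m → m = 0 := fun m h => by_contra fun h' => h1 m h' h
    have h2' : ∀ m, ρ (a * (r⁻¹ * a * r)) m = m → m = 0 := fun m h => by_contra fun h' => h2 m h' h
    have hconj : ∀ x g : S, (∀ m, ρ x m = m → m = 0) → ∀ m, ρ (g⁻¹ * x * g) m = m → m = 0 := by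
      intro x g hx m hm
      have : ρ g m = 0 := hx _ (by
        conv_rhs => rw [← hm]
        rw [ap, ap]; congr 2; group)
      have h := congrArg (ρ g⁻¹) this
      rwa [ap, inv_mul_cancel, map_one, map_zero] at h
    have hquad : ∀ x ∈ A, (∀ m, ρ x m = m → m = 0) → ∀ m, ρ x (ρ x m) = -m - ρ x m := by
      intro x hx h m
      have := h (m + ρ x m + ρ x (ρ x m)) (by
        simp only [map_add, ap, ← mul_assoc, hA3 x hx, map_one, Module.End.one_apply]; abel)
      linear_combination (norm := abel1) this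
    have h3' := hconj a r h1'
    have h4' := hconj _ s⁻¹ h2'
    have e : s⁻¹⁻¹ * (a * (r⁻¹ * a * r)) * s⁻¹ = a * (r⁻¹ * a * r)⁻¹ := by
      rw [← hsb]
      calc _ = (s * a) * (r⁻¹ * a * r) * s⁻¹ := by group
        _ = _ := by rw [hsa]; group
    rw [e] at h4'
    generalize r⁻¹ * a * r = b at hb h2' h3' h4'
    obtain ⟨m, hm⟩ := exists_ne (0 : M)
    have two : ∀ m : M, m + m = 0 := fun m => by
      rw [← two_smul (ZMod 2) m, show (2 : ZMod 2) = 0 from rfl, zero_smul]
    have hab : ∀ m, ρ a m = ρ b m := by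
      intro m
      have q1 := hquad _ (mul_mem ha hb) h2' m
      have q2 : ρ (a * b) (ρ (a * b) m) = ρ a (ρ a (ρ b (ρ b m))) := by
        simp only [ap]; congr 2
        calc _ = a * (b * a) * b := by group
          _ = _ := by rw [← hcomm a ha b hb]; group
      rw [q2, hquad b hb h3', hquad a ha h1', map_sub, map_neg, ← ap] at q1
      linear_combination (norm := abel1) q1 - two (ρ b m) - two m - two (ρ a (ρ b m))
    apply hm
    apply h4'
    rw [← ap, hab, ap, mul_inv_cancel, map_one]; rfl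
  -- fixed points of the two four-groups
  have hcard : ∀ (i : ZMod 4) (t : S), ψ (.sr i) = t → ψ (.sr (i + 2)) = t * (r * r) →
      Nat.card {m : M // ∀ b ∈ (TT i).map ψ, ρ b m = m} =
        Nat.card {m : M // ρ (r * r) m = m ∧ ρ t m = m} := by
    intro i t h1 h2
    refine Nat.card_congr (Equiv.subtypeEquivRight fun m => ⟨fun h => ⟨?_, ?_⟩, ?_⟩)
    · exact h _ ⟨.r 2, by simp [mem_TT], hz⟩
    · exact h _ ⟨.sr i, by simp [mem_TT], h1⟩
    · rintro ⟨k1, k2⟩ _ ⟨d, hd, rfl⟩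
      rcases hd with rfl | rfl | rfl | rfl
      · rw [show (DihedralGroup.r 0 : DihedralGroup 4) = 1 from rfl, map_one, map_one]; rfl
      · rw [hz]; exact k1
      · rw [h1]; exact k2
      · rw [h2, ← ap, k1, k2]
  have hc0 := hcard 0 s hs.symm e2
  have hc1 := hcard 1 (s * r) e1 e3
  have hgood : ∀ i : ZMod 4, (TT i).map ψ ≤ X ∧ Nat.card ((TT i).map ψ) = 4 ∧
      ∀ b ∈ (TT i).map ψ, b ^ 2 = 1 := by
    intro i
    refine ⟨?_, ?_, ?_⟩
    · rintro _ ⟨d, -, rfl⟩; exact hψX d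
    · exact (Nat.card_congr ((TT i).equivMapOfInjective ψ hψ).toEquiv).symm.trans (card_TT i)
    · rintro _ ⟨d, hd, rfl⟩
      rw [← map_pow, ← map_one ψ]
      congr 1
      rw [SetLike.mem_coe, mem_TT] at hd
      revert i d; decide
  have huniq : ∀ B : Subgroup S, B ≤ X → Nat.card B = 4 → (∀ b ∈ B, b ^ 2 = 1) →
      B = (TT 0).map ψ ∨ B = (TT 1).map ψ := by
    intro B hB h4 h2
    have hm : (B.comap ψ).map ψ = B := Subgroup.map_comap_eq_self fun x hx => hXψ x (hB hx)
    have := eq_TT (B.comap ψ) (by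
      refine (Nat.card_congr ((B.comap ψ).equivMapOfInjective ψ hψ).toEquiv).trans ?_
      rw [hm, h4])
      (fun x hx => hψ (by rw [map_pow, map_one]; exact h2 _ hx))
    rcases this with h | h
    · left; rw [← hm, h]
    · right; rw [← hm, h]
  rcases hdich with hW | hW
  · obtain ⟨k1, k2, k3⟩ := hcase s hss hsr hXH a ha ha1 hsa hW
    refine ⟨k1, (TT 1).map ψ, ⟨(hgood 1).1, (hgood 1).2.1, (hgood 1).2.2, hc1.trans k3⟩, ?_⟩
    rintro B ⟨b1, b2, b3, b4⟩
    rcases huniq B b1 b2 b3 with rfl | rfl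
    · rw [hc0, k2] at b4; omega
    · rfl
  · obtain ⟨k1, k2, k3⟩ := hcase (s * r)
      (by calc s * r * (s * r) = (s * r * s⁻¹) * r := by rw [hsi]; group
            _ = 1 := by rw [hsr']; group)
      (by rw [hsr]; calc _ = r * r * r * (s * r) := by group
            _ = _ := by rw [hsr])
      (fun H h1 h2 => hXH H h1 (by simpa using mul_mem h2 (inv_mem h1)))
      _ (mul_mem ha hb)
      (fun h => hmove a ha ha1 (hzinv a ha) (by
        rw [(mul_eq_one_iff_eq_inv'.1 h : _ = a⁻¹)]; exact inv_mem (Subgroup.mem_zpowers a)))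
      (by
        have h1 : r * a * r⁻¹ = (r⁻¹ * a * r)⁻¹ := by
          calc _ = r⁻¹ * ((r * r) * a * (r * r)⁻¹) * r := by group
            _ = _ := by rw [hzinv a ha]; group
        calc _ = (s * (r * a * r⁻¹) * s⁻¹) * (s * a) * r := by group
          _ = (s * (r⁻¹ * a * r) * s⁻¹)⁻¹ * (a * s) * r := by rw [h1, hsa]; group
          _ = (r⁻¹ * a * r) * a * (s * r) := by rw [hsb]; group
          _ = _ := by rw [← hcomm a ha _ hb]) hW
    have k4 : Nat.card {m : M // ρ (r * r) m = m ∧ ρ s m = m} = 2 := by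
      refine Eq.trans (Nat.card_congr
        (Equiv.subtypeEquivRight fun m => and_congr_right fun h => ?_)) k3
      rw [mul_assoc, ← ap s, h]
    refine ⟨k1, (TT 0).map ψ, ⟨(hgood 0).1, (hgood 0).2.1, (hgood 0).2.2, hc0.trans k4⟩, ?_⟩
    rintro B ⟨b1, b2, b3, b4⟩
    rcases huniq B b1 b2 b3 with rfl | rfl
    · rfl
    · rw [hc1, k2] at b4; omega

end Cfsg.Agent.S4407
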