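import Cfsg.Statements.S4408
import Cfsg.Agent.Lib.Comp.Dihedral

set_option autoImplicit false
open Cfsg

namespace Cfsg.Agent.S4408

open Subgroup Cfsg.Lib Cfsg.Lib.BG Cfsg.Lib.Core Cfsg.Lib.Comp

/-- Let S be a finite solvable group whose Fitting subgroup F(S) has odd order, and let I be an elementary abelian 2-subgroup of S of order 2ⁿ with n ≥ 1. Then F(S) contains subgroups A₁, …, Aₙ of prime order, each normalized by I, pairwise commuting and generating a subgroup A of order |A₁|⋯|Aₙ| (their internal direct product), such that no non-identity element of I centralizes A. -/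
theorem result {S : Type*} [Group S] [Finite S]
    [Group.IsSolvable S] (hF : Odd (Nat.card ↥(Cfsg.fittingSubgroup S)))
    (I : Subgroup S) (hI : Cfsg.IsElementaryAbelian 2 I) (n : ℕ) (hn : 1 ≤ n) (hIn : Nat.card ↥I = 2 ^ n) :
    ∃ f : Fin n → Subgroup S, (∀ i, (Nat.card ↥(f i)).Prime) ∧ (∀ i, f i ≤ Cfsg.fittingSubgroup S) ∧
      (∀ i, I ≤ Subgroup.normalizer ((f i) : Set S)) ∧ (∀ i j, i ≠ j → ∀ a ∈ f i, ∀ b ∈ f j, a * b = b * a) ∧
      Nat.card ↥(⨆ i, f i) = ∏ i, Nat.card ↥(f i) ∧ I ⊓ Subgroup.centralizer ((⨆ i, f i : Subgroup S) : Set S) = ⊥ := by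
  have hFo : PiGrp {2}ᶜ (fittingSubgroup S) :=
    PiGrp.p'_iff_coprime.2 (Nat.coprime_two_right.2 hF)
  have : (fittingSubgroup S).Normal := inferInstance
  obtain ⟨V, hVF, hV, hIV, hC⟩ := exists_abelian_faithful hI inferInstance hFo
    le_normalizer_of_normal
  replace hVF := hVF.trans (Fitting_le _)
  have hVo := hFo.of_le hVF
  have hf : I ⊓ 𝐂(V) = ⊥ := by
    refine eq_bot_iff.2 ((le_inf inf_le_left (hC.trans centralizer_fittingSubgroup_le)).trans ?_)
    exact (disjoint_of_coprime_natCard (hFo.coprime_pgroup (elab_pgroup hI)).symm).le_bot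
  obtain ⟨a, v, C, ha, hv, hinv, hcm, -, -, hc, hle⟩ := exists_dual_system hI hV hVo hIV hf hIn.ge
  have hC1 : C = ⊥ := by
    rw [hIn] at hc
    exact card_eq_one.1 (Nat.eq_of_mul_eq_mul_left (by positivity) (hc.trans (mul_one _).symm))
  rw [hC1, sup_bot_eq] at hle
  let w : Fin n → S := fun i => v i ^ (orderOf (v i) / (orderOf (v i)).minFac)
  have hwo : ∀ i, (orderOf (w i)).Prime := fun i => by
    rw [orderOf_pow_orderOf_div (orderOf_pos _).ne' (Nat.minFac_dvd _)]
    exact Nat.minFac_prime fun e => (hv i).2.1 (orderOf_eq_one_iff.1 e)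
  have hwV : ∀ i, zpowers (w i) ≤ V := fun i => zpowers_le.2 (pow_mem (hv i).1 _)
  have hinv' : ∀ i, ∀ x ∈ zpowers (w i), a i * x * (a i)⁻¹ = x⁻¹ := by
    rintro i _ ⟨k, rfl⟩
    simp only [w]
    rw [← conj_zpow, ← conj_pow, hinv, inv_pow, inv_zpow]
  have hcm' : ∀ i j, i ≠ j → zpowers (w j) ≤ 𝐂[a i] := fun i j h =>
    zpowers_le.2 (pow_mem (mem_centralizer_singleton_iff.2
      (mem_centralizer_singleton_iff.1 (hcm i j h)).symm) _)
  have hone : ∀ i, ∀ x ∈ zpowers (w i), x ∈ 𝐂[a i] → x = 1 := by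
    intro i x hx hc
    by_contra h1
    refine inv_ne_of_odd hVo (hwV i hx) h1 ?_
    rw [← hinv' i x hx, ← mem_centralizer_singleton_iff.1 hc, mul_inv_cancel_right]
  have hcomm : Pairwise fun i j => ∀ x y : S, x ∈ zpowers (w i) → y ∈ zpowers (w j) →
      Commute x y := fun i j _ x y hx hy => setLike_mul_comm (hwV i hx) (hwV j hy)
  refine ⟨fun i => zpowers (w i), fun i => by rw [Nat.card_zpowers]; exact hwo i,
    fun i => (hwV i).trans hVF, fun i => ((hv i).2.2.pow _).norm,
    fun i j h x hx y hy => hcomm h x y hx hy, ?_, ?_⟩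
  · rw [← noncommPiCoprod_range (hcomm := hcomm), ← Nat.card_pi]
    refine (Nat.card_congr (MonoidHom.ofInjective (injective_noncommPiCoprod_of_iSupIndep
      fun i => disjoint_def.2 fun {x} hx hx' => hone i x hx ?_)).toEquiv).symm
    exact (iSup₂_le fun j hj => hcm' i j (Ne.symm hj) : _ ≤ 𝐂[a i]) hx'
  · have key : ∀ s : Finset (Fin n), ∀ x ∈ ⨆ i ∈ s, zpowers (a i), (∀ j, x ∈ 𝐂[w j]) → x = 1 := by
      intro s
      induction s using Finset.induction_on with
      | empty => intro x hx _; simpa using hx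
      | insert i s hi ih =>
        intro x hx hc
        rw [Finset.iSup_insert, mem_sup_left_norm (norm_of_cent (iSup₂_le fun j _ =>
          zpowers_le.2 fun y hy => PGroup.elemAb_comm hI (zpowers_le.2 (ha i) hy) (ha j)))] at hx
        obtain ⟨y, hy, z, hz, rfl⟩ := hx
        have hz' : z ∈ 𝐂[w i] := (iSup₂_le fun j hj => zpowers_le.2
          (mem_centralizer_singleton_iff.2 (mem_centralizer_singleton_iff.1 (hcm' j i
            (fun e => hi (e ▸ hj)) (mem_zpowers _))).symm) : _ ≤ 𝐂[w i]) hz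
        have hy' : y ∈ 𝐂[w i] := (mul_mem_cancel_right hz').1 (hc i)
        have hy1 : y = 1 := by
          obtain ⟨k, rfl⟩ := (mem_powers_iff_mem_zpowers.2 hy)
          rcases Nat.even_or_odd' k with ⟨m, rfl | rfl⟩
          · simp only [pow_mul, hI.2 _ (ha i), one_pow]
          · simp only [pow_succ, pow_mul, pow_zero, one_mul, ← sq, hI.2 _ (ha i), one_pow] at hy'
            refine absurd (hone i _ (mem_zpowers _) (mem_centralizer_singleton_iff.2
              (mem_centralizer_singleton_iff.1 hy').symm)) fun e => (hwo i).ne_one ?_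
            rw [e, orderOf_one]
        rw [hy1, one_mul] at hc ⊢
        exact ih z hz hc
    refine eq_bot_iff.2 fun x hx => key Finset.univ x (by simpa using hle hx.1) fun j => ?_
    exact mem_centralizer_singleton_iff.2 (hx.2 _ (le_iSup (fun i => zpowers (w i)) j
      (mem_zpowers _))).symm

end Cfsg.Agent.S4408
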