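import Cfsg.Statements.S4409
import Cfsg.Agent.Lib.FGS.Taussky
import Cfsg.Agent.Lib.Inv.DihedralSylow
import Cfsg.Agent.Lib.Inv.Misc
import Cfsg.Agent.S3742
import Cfsg.Agent.Lib.Extraspecial.Hall
import Cfsg.Agent.Lib.Hall.Solvable
import Cfsg.Agent.Lib.Coprime.Gaschutz
import Cfsg.Agent.Lib.Coprime.Nilpotent
import Cfsg.Agent.Lib.Core.PSolvable
import Cfsg.Agent.Lib.Core.Frattini
import Cfsg.Agent.Lib.Core.Solvable

set_option autoImplicit false
open Cfsg

namespace Cfsg.Agent.S4409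

open Subgroup Cfsg.Lib Cfsg.Lib.Inv
open scoped commutatorElement

section
variable {G : Type*} [Group G] [Finite G]

/-- `Y` contains a non-cyclic abelian subgroup of order 8 -/
def Has (Y : Subgroup G) : Prop :=
  ∃ A : Subgroup G, A ≤ Y ∧ IsMulCommutative A ∧ ¬ IsCyclic A ∧ Nat.card A = 8

omit [Finite G] in
theorem Has.mono {Y Y' : Subgroup G} (h : Has Y) (hle : Y ≤ Y') : Has Y' := by
  obtain ⟨A, h1, h2⟩ := h
  exact ⟨A, h1.trans hle, h2⟩

theorem has_of {Y U : Subgroup G} (hY : IsPGroup 2 Y) (hUY : U ≤ Y) (hU : IsKleinFour U) {x : G}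
    (hx : x ∈ Y) (hc : x ∈ centralizer (U : Set G)) (hxU : x ∉ U) : Has Y := by
  obtain ⟨k, hk⟩ := hY ⟨x, hx⟩
  obtain ⟨j, h1, h2⟩ := PGroup.exists_pow_not_mem_pow_mem (p := 2) ⟨k, congrArg Subtype.val hk⟩ hxU
  have : IsMulCommutative U := (k4_elemAb hU).1
  refine ⟨U ⊔ zpowers (x ^ 2 ^ j), sup_le hUY (zpowers_le.2 (pow_mem hx _)),
    PGroup.isMulCommutative_sup_zpowers (pow_mem hc _),
    fun h => hU.not_isCyclic (isCyclic_of_le (le_sup_left : U ≤ U ⊔ zpowers (x ^ 2 ^ j))), ?_⟩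
  rw [PGroup.card_sup_zpowers (centralizer_le_normalizer _ (pow_mem hc _)) h1 h2, hU.card_four]

theorem mc_of {Y : Subgroup G} (hY : IsPGroup 2 Y) (h : ¬ Has Y) :
    IsCyclic Y ∨ ∃ a b m ε δ, MC Y a b m ε δ := by
  by_cases h1 : PRankLE 2 1 Y
  · rcases PGroup.isCyclic_or_quaternion_of_pRankLE_one hY h1 with h2 | ⟨-, n, ⟨e⟩⟩
    · exact .inl h2
    · obtain ⟨a, b, h3⟩ := exists_mc_of_quaternion e
      exact .inr ⟨a, b, _, _, _, h3⟩
  obtain ⟨U, hUY, hU⟩ := not_pRankLE_iff.1 h1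
  right
  by_cases e : U = Y
  · obtain ⟨a, b, h3⟩ := exists_mc_of_k4 hU
    exact ⟨a, b, _, _, _, e ▸ h3⟩
  obtain ⟨n, hn⟩ := IsPGroup.iff_card.1 hY
  have h4 := Core.card_lt_card_of_lt (lt_of_le_of_ne hUY e)
  rw [hU.card_four, hn, show 4 = 2 ^ 2 by rfl, Nat.pow_lt_pow_iff_right (by omega)] at h4
  obtain ⟨n, rfl⟩ : ∃ m, n = m + 3 := ⟨n - 3, by omega⟩
  have hU' := k4_subgroupOf hU hUY
  have h5 := PGroup.maxClass_of_self_centralizing (p := 2) (n := n + 1) hn (A := U.subgroupOf Y)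
    hU'.card_four (le_antisymm (fun x hx => by
      by_contra hxU
      rw [Core.centralizer_subgroupOf_eq hUY] at hx
      exact h (has_of hY hUY hU x.2 hx hxU)) (k4_le_centralizer hU'))
  obtain ⟨a, b, h6 | h6 | ⟨-, h6⟩⟩ := FGS.exists_mc_of_maxClass hn h5
  all_goals exact ⟨a, b, _, _, _, h6.of_top⟩

theorem odd_act {Y H : Subgroup G} (hY : IsPGroup 2 Y) (h : ¬ Has Y) (hH : Odd (Nat.card H))
    (hn : H ≤ normalizer (Y : Set G)) (hc : ¬ H ≤ centralizer (Y : Set G)) :
    IsKleinFour Y ∨ Nonempty (Y ≃* QuaternionGroup 2) := by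
  obtain ⟨g, hg, hgc⟩ := SetLike.not_le_iff_exists.1 hc
  have ho : Odd (orderOf g) := hH.of_dvd_nat (orderOf_dvd_natCard _ hg)
  rcases mc_of hY h with h1 | ⟨a, b, m, ε, δ, h1⟩
  · exact absurd (mem_centralizer_of_odd_of_isCyclic hY h1 (hn hg) ho) hgc
  · exact h1.odd_aut le_rfl (hn hg) ho hgc

/-- facts on a quaternion subgroup -/
structure QF (W : Subgroup G) (z : G) : Prop where
  mem : z ∈ W
  ne : z ≠ 1
  sq : z * z = 1
  uniq : ∀ x ∈ W, x * x = 1 → x = 1 ∨ x = z
  sqs : ∀ x ∈ W, x * x = 1 ∨ x * x = z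
  cen : ∀ x ∈ W, x ∈ centralizer (W : Set G) → x * x = 1
  ex : ∃ i ∈ W, i * i = z
  card : Nat.card W = 8
  rel : ∀ i ∈ W, i * i ≠ 1 → ∃ j ∈ W, (∀ t ∈ W, t * i = i * t ∨ t = j ∨ t = i * j ∨ t = i * i * j ∨
    t = i * i * i * j) ∧ i * j * i⁻¹ = i * i * j ∧ ∀ t ∈ W, t ∈ closure {i, j}

omit [Finite G] in
theorem qf {W : Subgroup G} (e : W ≃* QuaternionGroup 2) : ∃ z, QF W z := by
  have t : ∀ {x y : W}, (x : G) = y ↔ e x = e y := by simp
  have h0 : ∀ x : QuaternionGroup 2, x * x = 1 → x = 1 ∨ x = .a 2 := by decide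
  have h1 : ∀ x : QuaternionGroup 2, x * x = 1 ∨ x * x = .a 2 := by decide
  have h2 : ∀ x : QuaternionGroup 2, (∀ y, y * x = x * y) → x * x = 1 := by decide
  have h3 : ∀ i : QuaternionGroup 2, i * i ≠ 1 → ∃ j, (∀ t, t * i = i * t ∨ t = j ∨ t = i * j ∨
      t = i * i * j ∨ t = i * i * i * j) ∧ i * j * i⁻¹ = i * i * j ∧
      ∀ t, t = 1 ∨ t = i ∨ t = i * i ∨ t = i * i * i ∨ t = j ∨ t = i * j ∨
      t = i * i * j ∨ t = i * i * i * j := by decide
  refine ⟨e.symm (.a 2), (e.symm _).2, fun h => ?_, ?_, fun x hx h => ?_, fun x hx => ?_,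
    fun x hx h => ?_, ⟨e.symm (.a 1), (e.symm _).2, ?_⟩, ?_, fun i hi h => ?_⟩
  · have := (t (y := 1)).1 h
    simp only [MulEquiv.apply_symm_apply, map_one] at this
    exact absurd this (by decide)
  · refine (t (x := _ * _) (y := 1)).2 ?_
    simp only [map_mul, MulEquiv.apply_symm_apply, map_one]; decide
  · have := h0 (e ⟨x, hx⟩) (by simpa only [map_mul, map_one] using (t (x := ⟨x, hx⟩ * ⟨x, hx⟩) (y := 1)).1 h)
    exact this.imp (fun h => (t (x := ⟨x, hx⟩) (y := 1)).2 (by simpa using h))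
      fun h => (t (x := ⟨x, hx⟩)).2 (by simpa using h)
  · exact (h1 (e ⟨x, hx⟩)).imp
      (fun h => (t (x := ⟨x, hx⟩ * ⟨x, hx⟩) (y := 1)).2 (by simpa only [map_mul, map_one] using h))
      fun h => (t (x := ⟨x, hx⟩ * ⟨x, hx⟩)).2 (by simpa only [map_mul, MulEquiv.apply_symm_apply] using h)
  · refine (t (x := ⟨x, hx⟩ * ⟨x, hx⟩) (y := 1)).2 ?_
    rw [map_mul, map_one]
    refine h2 _ fun y => ?_
    obtain ⟨y, rfl⟩ := e.surjective y
    rw [← map_mul, ← map_mul]
    exact t.1 (h y y.2)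
  · refine (t (x := _ * _)).2 ?_
    simp only [map_mul, MulEquiv.apply_symm_apply]; decide
  · rw [Nat.card_congr e.toEquiv, Nat.card_eq_fintype_card, QuaternionGroup.card]
  · obtain ⟨j, h4, h5, h6⟩ := h3 (e ⟨i, hi⟩) fun h' =>
      h ((t (x := ⟨i, hi⟩ * ⟨i, hi⟩) (y := 1)).2 (by simpa only [map_mul, map_one] using h'))
    obtain ⟨j, rfl⟩ := e.surjective j
    refine ⟨j, j.2, fun s hs => ?_, ?_, fun s hs => ?_⟩
    · simpa only [← map_mul, ← t, coe_mul] using h4 (e ⟨s, hs⟩)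
    · simpa only [← map_mul, ← map_inv, ← t, coe_mul, coe_inv] using h5
    · have hi' : i ∈ closure ({i, ↑j} : Set G) := subset_closure (by simp)
      have hj' : (j : G) ∈ closure ({i, ↑j} : Set G) := subset_closure (by simp)
      have h7 := h6 (e ⟨s, hs⟩)
      rw [← map_one e] at h7
      simp only [← map_mul, ← t, coe_mul, coe_one] at h7
      rcases h7 with h | h | h | h | h | h | h | h <;> rw [h] <;>
        repeat first | exact one_mem _ | exact hi' | exact hj' | apply mul_mem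

theorem QF.not_k4 {W U : Subgroup G} {z : G} (h : QF W z) (hU : U ≤ W) : ¬ IsKleinFour U := fun k => by
  obtain ⟨x, hx, y, hy, h1, h2, h3⟩ := k4_exists k
  exact h3 (((h.uniq x (hU hx) (k4_mul_self k hx)).resolve_left h1).trans
    ((h.uniq y (hU hy) (k4_mul_self k hy)).resolve_left h2).symm)

omit [Finite G] in
theorem QF.z_fix {W : Subgroup G} {z g : G} (h : QF W z) (hg : g ∈ normalizer (W : Set G)) :
    g * z = z * g := by
  refine mul_inv_eq_iff_eq_mul.1 ((h.uniq _ ((mem_normalizer_iff.1 hg z).1 h.mem) ?_).resolve_left ?_)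
  · rw [conj_mul, h.sq]; simp
  · simpa using h.ne

omit [Finite G] in
theorem QF.not_comm {W : Subgroup G} {z : G} (h : QF W z) : ¬ W ≤ centralizer (W : Set G) := fun c => by
  obtain ⟨i, hi, h1⟩ := h.ex
  exact h.ne (h1 ▸ h.cen i hi (c hi))

omit [Finite G] in
theorem QF.mem_z {W : Subgroup G} {z x : G} (h : QF W z) (hx : x ∈ W) (h2 : x * x = 1) :
    x ∈ zpowers z := by
  rcases h.uniq x hx h2 with rfl | rfl
  exacts [one_mem _, mem_zpowers _]

omit [Finite G] in
theorem QF.card_z {W : Subgroup G} {z : G} (h : QF W z) : Nat.card (zpowers z) = 2 := by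
  rw [Nat.card_zpowers]; exact orderOf_eq_prime (by rw [pow_two, h.sq]) h.ne

theorem extra_of {X : Subgroup G} {z : G} (hX : IsPGroup 2 X) (hz : Nat.card (zpowers z) = 2)
    (hc : X ⊓ centralizer (X : Set G) = zpowers z) (hs : ∀ x ∈ X, x * x ∈ zpowers z)
    (hne : X ≠ zpowers z) : IsExtraspecial 2 X := by
  refine ES.isExtraspecial_of_card hX hz hc (commutator_le.2 fun x hx y hy => ?_)
    (fun x hx => by rw [pow_two]; exact hs x hx) hne
  rw [show ⁅x, y⁆ = x * x * (x⁻¹ * y * (x⁻¹ * y)) * (y * y)⁻¹ by rw [commutatorElement_def]; group]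
  exact mul_mem (mul_mem (hs x hx) (hs _ (mul_mem (inv_mem hx) hy))) (inv_mem (hs y hy))

theorem QF.extra {W : Subgroup G} {z : G} (h : QF W z) : IsExtraspecial 2 W := by
  refine extra_of (.of_card (n := 3) h.card) h.card_z (le_antisymm (fun x hx => h.mem_z hx.1
    (h.cen x hx.1 hx.2)) (zpowers_le.2 ⟨h.mem, fun x hx => h.z_fix (le_normalizer hx)⟩))
    (fun x hx => ?_) fun e => by have := h.card; rw [e, h.card_z] at this; omega
  rcases h.sqs x hx with e | e <;> rw [e]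
  exacts [one_mem _, mem_zpowers _]

variable {H : Subgroup G} (hH : Odd (Nat.card H))
include hH

theorem prop_cen {W N : Subgroup G} (hW : IsKleinFour W ∨ Nonempty (W ≃* QuaternionGroup 2))
    (hN : N < W) (hn : H ≤ normalizer (N : Set G)) : H ≤ centralizer (N : Set G) := by
  by_contra hc
  have hlt := Core.card_lt_card_of_lt hN
  have h8 : Nat.card W = 4 ∨ Nat.card W = 8 := hW.imp (·.card_four) fun ⟨e⟩ => (qf e).choose_spec.card
  have hp : IsPGroup 2 W := h8.elim (fun h => .of_card (n := 2) h) fun h => .of_card (n := 3) h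
  rcases odd_act (hp.to_le hN.le) (fun ⟨A, h1, _, _, h2⟩ => by
    have := card_le_of_le h1; omega) hH hn hc with h | ⟨⟨e⟩⟩
  · rcases hW with h' | ⟨⟨e'⟩⟩
    · rw [h.card_four, h'.card_four] at hlt; omega
    · exact (qf e').choose_spec.not_k4 hN.le h
  · have := (qf e).choose_spec.card; omega

theorem k4_irr {W N : Subgroup G} (hW : IsKleinFour W) (hHW : H ≤ normalizer (W : Set G))
    (hc : ¬ H ≤ centralizer (W : Set G)) (hN : N ≤ W) (h0 : N ≠ ⊥) (hn : H ≤ normalizer (N : Set G)) :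
    N = W := by
  by_contra e
  obtain ⟨⟨u, hu⟩, hu1⟩ := ne_bot_iff_exists_ne_one.1 h0
  refine hc fun g hg => k4_mem_centralizer_of_odd hW (hHW hg) (hH.of_dvd_nat (orderOf_dvd_natCard _ hg))
    (hN hu) (fun h => hu1 (Subtype.ext h)) ?_
  rw [← prop_cen hH (.inl hW) (lt_of_le_of_ne hN e) hn hg u hu, mul_inv_cancel_right]

variable {X : Subgroup G} (hX : IsPGroup 2 X) (hHX : H ≤ normalizer (X : Set G))
  (hmin : ∀ Y < X, H ≤ normalizer (Y : Set G) → ¬ Has Y) (hhas : Has X)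
include hX hHX hmin hhas

theorem caseB1 (hc : ¬ H ≤ centralizer (X : Set G)) (hW : ⁅X, H⁆ ≠ X) : IsMulCommutative X ∨
    ∃ (X₀ : Subgroup G) (k : ℕ), X₀ ≤ X ∧ X₀.relIndex X = 2 ∧
      Nonempty (X₀ ≃* QuaternionGroup (2 ^ (k + 1))) ∧ X₀ ⊔ (X ⊓ centralizer (X₀ : Set G)) = X := by
  have cop : (Nat.card H).Coprime (Nat.card X) :=
    Coprime.coprime_card_of_isPGroup hX (Nat.coprime_two_right.2 hH)
  have hs := Core.isSolvable_of_isPGroup hX
  have hWX : ⁅X, H⁆ ≤ X := Coprime.commutator_le_of_le_normalizer hHX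
  have hWW := Coprime.commutator_commutator_eq hHX cop (.inr hs)
  have hsup := Coprime.commutator_sup_centralizer hHX cop (.inr hs)
  have hHW : H ≤ normalizer ((⁅X, H⁆ : Subgroup G) : Set G) := normalizer_commutator_ge_right _ _
  have hXW : X ≤ normalizer ((⁅X, H⁆ : Subgroup G) : Set G) := normalizer_commutator_ge_left _ _
  set W := ⁅X, H⁆ with hWd
  set C := X ⊓ centralizer (H : Set G)
  have hW0 : W ≠ ⊥ := fun e => hc (le_centralizer_iff.1 (commutator_eq_bot_iff_le_centralizer.1 e))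
  have hHc : ¬ H ≤ centralizer (W : Set G) := fun h =>
    hW0 (hWW ▸ commutator_eq_bot_iff_le_centralizer.2 (le_centralizer_iff.1 h))
  have hWp := hX.to_le hWX
  have hWt := odd_act hWp (hmin W (lt_of_le_of_ne hWX hW) hHW) hH hHW hHc
  have hCH : H ≤ centralizer (C : Set G) := le_centralizer_iff.1 inf_le_right
  have hCW : C ≤ centralizer (W : Set G) := by
    have h1 := prop_cen hH hWt (PGroup.commutator_lt hWp (hX.to_le (inf_le_left : C ≤ X))
      (inf_le_left.trans hXW) hW0) (Core.le_normalizer_commutator hHW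
        (hCH.trans (centralizer_le_normalizer _)))
    have h2 := commutator_commutator_eq_bot_of_rotate (H₁ := H) (H₂ := W) (H₃ := C)
      (commutator_eq_bot_iff_le_centralizer.2 (le_centralizer_iff.1 h1))
      (by rw [commutator_eq_bot_iff_le_centralizer.2 (le_centralizer_iff.1 hCH), commutator_bot_left])
    rw [commutator_comm H, hWW] at h2
    exact le_centralizer_iff.1 (commutator_eq_bot_iff_le_centralizer.1 h2)
  obtain ⟨d₀, hd₀, hd₀W⟩ : ∃ d ∈ C, d ∉ W :=
    SetLike.not_le_iff_exists.1 fun h => hW (by rw [← hsup, sup_eq_left.2 h])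
  obtain ⟨k, hk⟩ := hX ⟨d₀, hd₀.1⟩
  obtain ⟨j, hdW, hd2⟩ := PGroup.exists_pow_not_mem_pow_mem (p := 2) ⟨k, congrArg Subtype.val hk⟩ hd₀W
  have hd : d₀ ^ 2 ^ j ∈ C := pow_mem hd₀ _
  generalize d₀ ^ 2 ^ j = d at hdW hd2 hd
  have hY : W ⊔ zpowers d ≤ X := sup_le hWX (zpowers_le.2 hd.1)
  have key : Has (W ⊔ zpowers d) → W ⊔ zpowers d = X := fun h => by
    by_contra e
    exact hmin _ (lt_of_le_of_ne hY e) (Core.le_normalizer_sup hHW ((le_centralizer_iff.1
      (zpowers_le.2 hd.2)).trans (centralizer_le_normalizer _))) h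
  have hdY : d ∈ W ⊔ zpowers d := mem_sup_right (mem_zpowers d)
  rcases hWt with h | ⟨⟨e⟩⟩
  · left
    have : IsMulCommutative W := (k4_elemAb h).1
    rw [← key (has_of (hX.to_le hY) le_sup_left h hdY (hCW hd) hdW)]
    exact PGroup.isMulCommutative_sup_zpowers (hCW hd)
  · obtain ⟨z, hz⟩ := qf e
    obtain ⟨i, hi, hi2⟩ := hz.ex
    have hdc : ∀ x ∈ W, x * d = d * x := hCW hd
    obtain ⟨u, hu, huW, hu2, hui, huz⟩ : ∃ u ∈ W ⊔ zpowers d, u ∉ W ∧ u * u = 1 ∧ u * i = i * u ∧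
        u * z = z * u := by
      rcases hz.uniq _ hd2 (hz.cen _ hd2 (pow_mem (hCW hd) _)) with h | h
      · exact ⟨d, hdY, hdW, by rwa [← pow_two], (hdc i hi).symm, (hdc z hz.mem).symm⟩
      · refine ⟨i * d, mul_mem (mem_sup_left hi) hdY, fun h => hdW ((mul_mem_cancel_left hi).1 h), ?_,
          by rw [mul_assoc, hdc i hi], ?_⟩
        · rw [mul_assoc, ← mul_assoc d, ← hdc i hi, mul_assoc, ← mul_assoc, hi2, ← pow_two, h, hz.sq]
        · rw [mul_assoc, ← hdc z hz.mem, ← mul_assoc, hz.z_fix (le_normalizer hi), mul_assoc]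
    have hU := k4_sup (x := z) (y := u) (orderOf_eq_prime (by rw [pow_two, hz.sq]) hz.ne)
      (orderOf_eq_prime (by rw [pow_two, hu2]) fun h => huW (h ▸ one_mem _))
      (fun h => huW (h ▸ hz.mem)) huz.symm
    have hXe := key (has_of (hX.to_le hY) (sup_le (zpowers_le.2 (mem_sup_left hz.mem)) (zpowers_le.2 hu))
      hU (mem_sup_left hi) (by
        rw [Core.centralizer_sup, Core.centralizer_zpowers, Core.centralizer_zpowers]
        exact ⟨mem_centralizer_singleton_iff.2 (hz.z_fix (le_normalizer hi)),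
          mem_centralizer_singleton_iff.2 hui.symm⟩)
      fun h => hz.ne (hi2 ▸ k4_mul_self hU h))
    refine .inr ⟨W, 0, hWX, ?_, ⟨e⟩, le_antisymm (sup_le hWX inf_le_left) ?_⟩
    · rw [← hXe]; exact PGroup.relIndex_sup_zpowers (hXW hd.1) hdW hd2
    · nth_rewrite 1 [← hXe]
      exact sup_le_sup_left (zpowers_le.2 (mem_inf.2 ⟨hd.1, hCW hd⟩)) _

omit hH hHX hmin hX in
theorem big (hna : ¬ IsMulCommutative X) (h : IsExtraspecial 2 X) : 32 ≤ Nat.card X := by
  obtain ⟨n, hn, hc⟩ := ES.exists_card_eq_of_isExtraspecial h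
  obtain ⟨A, h1, h2, -, h3⟩ := hhas
  rcases hn.eq_or_lt with rfl | hn
  · exact absurd (Core.eq_of_le_of_card_eq h1 (h3.trans hc.symm) ▸ h2) hna
  · rw [hc]; exact Nat.pow_le_pow_right (n := 2) (i := 5) (by omega) (by omega)

omit hH hHX hmin hhas in
theorem special_of (h1 : X ⊓ centralizer (X : Set G) ≤ ⁅X, X⁆)
    (h2 : (frattini X).map X.subtype ≤ X ⊓ centralizer (X : Set G)) : IsSpecial 2 X := by
  have h3 := PGroup.commutator_le_map_subtype_frattini hX
  refine ⟨hX, map_injective X.subtype_injective ?_, map_injective X.subtype_injective ?_⟩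
  · rw [Core.map_subtype_center]; exact le_antisymm h2 (h1.trans h3)
  · rw [Core.map_subtype_center, map_subtype_commutator]; exact le_antisymm (h3.trans h2) h1

theorem caseB2 (hna : ¬ IsMulCommutative X) (hW : ⁅X, H⁆ = X) :
    (IsExtraspecial 2 X ∧ 32 ≤ Nat.card X) ∨ (IsSpecial 2 X ∧ Nat.card (center X) = 4) := by
  have cop : (Nat.card H).Coprime (Nat.card X) :=
    Coprime.coprime_card_of_isPGroup hX (Nat.coprime_two_right.2 hH)
  have hnc : ¬ X ≤ centralizer (X : Set G) := fun h => hna (le_centralizer_iff_isMulCommutative.1 h)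
  have hX0 : X ≠ ⊥ := fun e => hnc (e ▸ bot_le)
  set Z := X ⊓ centralizer (X : Set G) with hZ
  set F := (frattini X).map X.subtype with hF
  have hZlt : Z < X := lt_of_le_of_ne inf_le_left fun e => hnc (e.ge.trans inf_le_right)
  have hHZ : H ≤ normalizer (Z : Set G) := Core.le_normalizer_inf hHX (Core.le_normalizer_centralizer hHX)
  have hFlt : F < X := Core.frattiniOf_lt hX0
  have hNF := Core.normalizer_le_normalizer_frattiniOf X
  have hcF := PGroup.commutator_le_map_subtype_frattini hX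
  have hcZ : Nat.card (center X) = Nat.card Z := by rw [hZ, ← Core.map_subtype_center, Core.card_map_subtype]
  have hD0 : ⁅X, X⁆ ≠ ⊥ := fun e => hnc (commutator_eq_bot_iff_le_centralizer.1 e)
  by_cases hall : ∀ Y < X, H ≤ normalizer (Y : Set G) → H ≤ centralizer (Y : Set G)
  · have h1 : F ≤ Z := le_inf hFlt.le (le_centralizer_iff.1 (Coprime.le_centralizer_of_normal_of_fixed hW
      (le_centralizer_iff.1 (hall F hFlt (hHX.trans hNF))) (le_normalizer.trans hNF)))
    have h2 : Z ≤ ⁅X, X⁆ := le_trans (le_inf (le_centralizer_iff.1 (hall Z hZlt hHZ)) (hW.symm ▸ hZlt.le))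
      (Coprime.centralizer_inf_commutator_le hHX cop)
    have hsp := special_of hX h2 h1
    have h3 : ∀ x ∈ ⁅X, X⁆, x * x = 1 := by
      intro x hx
      rw [Subgroup.commutator_def] at hx
      induction hx using closure_induction with
      | mem x hx =>
        obtain ⟨a, ha, b, hb, rfl⟩ := hx
        have := (h1 (hcF (commutator_mem_commutator ha hb))).2 a ha
        rw [← pow_two, ← PGroup.commutator_pow_left_of_commute this,
          commutatorElement_eq_one_iff_mul_comm]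
        exact ((h1 (PGroup.pow_mem_map_subtype_frattini hX ha)).2 b hb).symm
      | one => simp
      | mul x y hx hy h4 h5 =>
        exact mul_self_mul_of_comm h4 h5 ((h1 (hcF hy)).2 x (h1 (hcF hx)).1)
      | inv x _ h4 => rw [← mul_inv_rev, h4, inv_one]
    by_cases h4 : 2 < Nat.card Z
    · obtain ⟨U, hU, hk⟩ := exists_k4_le_of_elemAb (elemAb_two_iff.2 fun a ha => h3 a (h2 ha)) h4
      refine .inr ⟨hsp, ?_⟩
      rw [hcZ, ← hk.card_four, le_antisymm hU fun x hx => ?_]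
      by_contra hxU
      exact hmin Z hZlt hHZ (has_of (hX.to_le hZlt.le) hU hk hx
        (centralizer_le (hU.trans hZlt.le) hx.2) hxU)
    · have h5 : 1 < Nat.card Z := (one_lt_card_iff_ne_bot _).2 fun e =>
        hD0 (eq_bot_iff.2 (e ▸ hcF.trans h1))
      have h6 : IsExtraspecial 2 X := ⟨hsp, by omega⟩
      exact .inl ⟨h6, big hhas hna h6⟩
  push Not at hall
  obtain ⟨Y, hY, hHY, hYc⟩ := hall
  obtain ⟨M, hYM, ⟨hM, hHM⟩, hmax⟩ := Core.exists_maximal_ge
    (P := fun M => M < X ∧ H ≤ normalizer (M : Set G)) ⟨hY, hHY⟩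
  have hMc : ¬ H ≤ centralizer (M : Set G) := fun h => hYc (h.trans (centralizer_le hYM))
  have hmax' : ∀ K, M ≤ K → K ≤ X → H ≤ normalizer (K : Set G) → K = M ∨ K = X := fun K h1 h2 h3 =>
    h2.lt_or_eq.imp_left fun h => hmax K ⟨h, h3⟩ h1
  have hFM : F ≤ M := by
    rcases hmax' (F ⊔ M) le_sup_right (sup_le hFlt.le hM.le)
      (Core.le_normalizer_sup (hHX.trans hNF) hHM) with h | h
    · exact h ▸ le_sup_left
    · exact absurd (Core.eq_of_le_sup_frattiniOf le_rfl hM.le h.ge) hM.ne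
  have hXM : X ≤ normalizer (M : Set G) :=
    Coprime.le_normalizer_of_commutator_le hM.le (hcF.trans hFM)
  have hMp := hX.to_le hM.le
  have hM0 : M ≠ ⊥ := fun e => hMc (by rw [e]; exact le_centralizer_iff.1 bot_le)
  have hMt := odd_act hMp (hmin M hM hHM) hH hHM hMc
  rcases hMt with h | ⟨⟨e⟩⟩
  · have h1 := k4_irr hH h hHM hMc inf_le_left (PGroup.inf_centralizer_ne_bot hMp hX hXM hM0)
      (Core.le_normalizer_inf hHM (Core.le_normalizer_centralizer hHX))
    have h2 : Z = M := (hmax' Z (le_inf hM.le (h1 ▸ inf_le_right)) hZlt.le hHZ).resolve_right hZlt.ne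
    have h3 := k4_irr hH h hHM hMc (hcF.trans hFM) hD0 (Core.le_normalizer_commutator hHX hHX)
    exact .inr ⟨special_of hX (h2.trans h3.symm).le (hFM.trans h2.ge), by rw [hcZ, h2, h.card_four]⟩
  obtain ⟨z, hz⟩ := qf e
  have copM := cop.coprime_dvd_right (card_dvd_of_le hM.le)
  have hMH : ⁅M, H⁆ = M := by
    by_contra e'
    have h1 := prop_cen hH (.inr ⟨e⟩) (lt_of_le_of_ne (Coprime.commutator_le_of_le_normalizer hHM) e')
      (normalizer_commutator_ge_right _ _)
    exact hMc (Coprime.le_centralizer_of_commutator_commutator_eq_bot hHM copM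
      (commutator_eq_bot_iff_le_centralizer.2 (le_centralizer_iff.1 h1)))
  have hlt := PGroup.commutator_lt hMp hX hXM hM0
  have h1 := Coprime.le_centralizer_of_normal_of_fixed hMH (le_centralizer_iff.1
    (prop_cen hH (.inr ⟨e⟩) hlt (Core.le_normalizer_commutator hHM hHX)))
    (normalizer_commutator_ge_left _ _)
  set D := X ⊓ centralizer (M : Set G) with hD
  have hdec : ∀ x ∈ X, ∃ m ∈ M, ∃ d ∈ D, x = m * d := fun x hx => by
    obtain ⟨g, hg⟩ := ES.exists_eq_conj hz.extra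
      (normalizerMonoidHom M ⟨x, hXM hx⟩).toMonoidHom fun y => mem_center_iff.2 fun w => Subtype.ext (by
        have := h1 w.2 _ (inv_mem (commutator_mem_commutator y.2 hx))
        rw [commutatorElement_inv] at this
        exact this.symm)
    refine ⟨g, g.2, (g : G)⁻¹ * x, ⟨X.mul_mem (X.inv_mem (hM.le g.2)) hx, fun y hy => ?_⟩, by simp⟩
    have : x * y * x⁻¹ = g * y * (g : G)⁻¹ := congrArg Subtype.val (hg ⟨y, hy⟩)
    rw [mul_assoc, eq_mul_of_mul_inv_eq this]; group
  have hMD : M ⊔ D = X := le_antisymm (sup_le hM.le inf_le_left) fun x hx => by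
    obtain ⟨m, hm, d, hd, rfl⟩ := hdec x hx
    exact mul_mem_sup hm hd
  have hDlt : D < X := lt_of_le_of_ne inf_le_left fun e => hz.not_comm (hM.le.trans (e ▸ inf_le_right))
  have hHD : H ≤ normalizer (D : Set G) :=
    Core.le_normalizer_inf hHX (Core.le_normalizer_centralizer hHM)
  have hDc : ¬ H ≤ centralizer (D : Set G) := fun h => hM.ne (by
    rw [← hMH, ← Coprime.commutator_sup_of_le_centralizer (inf_le_left.trans hXM)
      (le_centralizer_iff.1 h), hMD, hW])
  have hzD : z ∈ D := ⟨hM.le hz.mem, fun y hy => hz.z_fix (le_normalizer hy)⟩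
  rcases odd_act (hX.to_le hDlt.le) (hmin D hDlt hHD) hH hHD hDc with h | ⟨⟨e'⟩⟩
  · exact absurd (fun g hg => k4_mem_centralizer_of_odd h (hHD hg)
      (hH.of_dvd_nat (orderOf_dvd_natCard _ hg)) hzD hz.ne
      (by rw [hz.z_fix (hHM hg), mul_inv_cancel_right])) hDc
  obtain ⟨z', hz'⟩ := qf e'
  obtain rfl : z = z' := (hz'.uniq z hzD hz.sq).resolve_left hz.ne
  have hsq : ∀ {W : Subgroup G}, QF W z → ∀ x ∈ W, x * x ∈ zpowers z := fun h x hx => by
    rcases h.sqs x hx with e | e <;> rw [e]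
    exacts [one_mem _, mem_zpowers _]
  have h6 : IsExtraspecial 2 X := by
    refine extra_of hX hz.card_z (le_antisymm (fun x hx => ?_)
      (zpowers_le.2 ⟨hzD.1, fun y hy => hz.z_fix (hXM hy)⟩)) (fun x hx => ?_)
      fun e => hM.not_ge (e ▸ zpowers_le.2 hz.mem)
    · obtain ⟨m, hm, d, hd, rfl⟩ := hdec x hx.1
      refine mul_mem (hz.mem_z hm (hz.cen m hm ?_)) (hz'.mem_z hd (hz'.cen d hd ?_))
      · exact ((centralizer _).mul_mem_cancel_right hd.2).1 (centralizer_le hM.le hx.2)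
      · exact ((centralizer _).mul_mem_cancel_left (le_centralizer_iff.1 (inf_le_right : D ≤ _) hm)).1
          (centralizer_le hDlt.le hx.2)
    · obtain ⟨m, hm, d, hd, rfl⟩ := hdec x hx
      rw [mul_assoc, ← mul_assoc d, ← hd.2 m hm, mul_assoc, ← mul_assoc]
      exact mul_mem (hsq hz m hm) (hsq hz' d hd)
  exact .inl ⟨h6, big hhas hna h6⟩

end

theorem ar {k n : ℕ} (hk : k ≤ 3) (h : (n * 2 ^ k = 8 * 4 ∧ n ∣ 4 * 6) ∨ (n * 2 ^ k = 8 * 8 ∧ n ∣ 2 * 24)) :
    4 ≤ 2 ^ k := by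
  rcases h with ⟨h1, h2⟩ | ⟨h1, h2⟩
  · interval_cases k
    · obtain rfl : n = 32 := by omega
      omega
    · obtain rfl : n = 16 := by omega
      omega
    all_goals omega
  · interval_cases k
    · obtain rfl : n = 64 := by omega
      omega
    · obtain rfl : n = 32 := by omega
      omega
    all_goals omega

theorem step1 {G : Type*} [Group G] [Finite G] {T A : Subgroup G} [T.Normal]
    (hC : centralizer (T : Set G) ≤ T) (hT : IsKleinFour T ∨ Nonempty (T ≃* QuaternionGroup 2))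
    (hA : IsMulCommutative A) (hc : ¬ IsCyclic A) (h8 : Nat.card A = 8) : False := by
  have hn : normalizer (T : Set G) = ⊤ := normalizer_eq_top T
  have h1 := Core.card_sup_mul_card_inf (H := A) (N := T) (hn ▸ le_top)
  have h2 := card_subgroup_dvd_card (A ⊔ T)
  have h3 := (centralizer (T : Set G)).card_mul_index
  rw [← h3] at h2
  have hAc : A ≤ centralizer (A : Set G) := le_centralizer_iff_isMulCommutative.2 hA
  obtain ⟨k, hk, h4⟩ := (Nat.dvd_prime_pow (m := 3) Nat.prime_two).1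
    (h8 ▸ card_dvd_of_le (inf_le_left : A ⊓ T ≤ A))
  rcases hT with h | ⟨⟨e⟩⟩
  · have h5 := k4_relIndex_dvd_six h
    rw [hn, relIndex_top_right] at h5
    have h6 := h2.trans (mul_dvd_mul (card_dvd_of_le hC) h5)
    rw [h8, h4, h.card_four] at h1
    rw [h.card_four] at h6
    clear h2 h3
    have h7 : A ⊓ T = T := eq_of_le_of_card_ge inf_le_right (by
      rw [h4, h.card_four]
      exact ar hk (.inl ⟨h1, h6⟩))
    have := card_le_of_le ((hAc.trans (centralizer_le (h7 ▸ inf_le_left))).trans hC)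
    rw [h8, h.card_four] at this; omega
  obtain ⟨z, hz⟩ := qf e
  have h5 : (centralizer (T : Set G)).index ∣ 24 := by
    obtain ⟨φ⟩ := S3742.result
    rw [← relIndex_top_right, ← hn, relIndex, ← normalizerMonoidHom_ker, index_ker]
    refine (card_subgroup_dvd_card _).trans (dvd_of_eq ?_)
    rw [Nat.card_congr ((MulAut.congr e).trans φ).toEquiv, Nat.card_perm, Nat.card_fin]; rfl
  have h6 := h2.trans (mul_dvd_mul (card_dvd_of_le (H := centralizer (T : Set G))
    (K := zpowers z) fun x hx => hz.mem_z (hC hx) (hz.cen x (hC hx) hx)) h5)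
  rw [h8, h4, hz.card] at h1
  rw [hz.card_z] at h6
  clear h2 h3
  obtain ⟨i, hi, hiz⟩ : ∃ i ∈ A ⊓ T, i ∉ zpowers z := SetLike.not_le_iff_exists.1 fun h => by
    have h7 := card_le_of_le h
    have := ar hk (.inr ⟨h1, h6⟩)
    rw [h4, hz.card_z] at h7
    omega
  have hi2 : i * i ≠ 1 := fun h => hiz (hz.mem_z hi.2 h)
  obtain ⟨U, hUA, hU⟩ := not_pRankLE_iff.1 fun h =>
    hc (PGroup.isCyclic_of_isMulCommutative_of_pRankLE_one (.of_card (n := 3) h8) hA h)
  obtain ⟨y, hy, hyT⟩ := SetLike.not_le_iff_exists.1 fun h => hz.not_k4 h hU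
  have hy2 := k4_mul_self hU hy
  have hyi : y * i = i * y := hAc hi.1 y (hUA hy)
  obtain ⟨j, hj, h7, h9, hgen⟩ := hz.rel i hi.2 hi2
  have hcen : ∀ g : G, g * i = i * g → g * j = j * g → g ∈ T := fun g a b => hC fun t ht =>
    (mem_centralizer_singleton_iff.1 (((closure_le (centralizer {g})).2 (by
      rintro _ (rfl | rfl)
      exacts [mem_centralizer_singleton_iff.2 a.symm, mem_centralizer_singleton_iff.2 b.symm])) (hgen t ht)))
  have hyy : y * (y * j * y⁻¹) * y⁻¹ = j := by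
    rw [← mul_assoc, ← mul_assoc, hy2, one_mul, mul_assoc, ← mul_inv_rev, hy2, inv_one, mul_one]
  have hi' : ∀ w : G, y * (i * w) * y⁻¹ = i * (y * w * y⁻¹) := fun w => by
    rw [← mul_assoc, hyi]; group
  have hi4 : i * i * (i * i) = 1 := by rw [(hz.sqs i hi.2).resolve_left hi2, hz.sq]
  rcases h7 _ (‹T.Normal›.conj_mem j hj y) with h | h | h | h | h
  · have h10 := congrArg (fun w => y * w * y⁻¹) h
    simp only [hi'] at h10
    rw [hyy, show y * (y * j * y⁻¹ * i) * y⁻¹ = y * (y * j * y⁻¹) * y⁻¹ * (y * i * y⁻¹) by group, hyy,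
      hyi, mul_inv_cancel_right] at h10
    rw [← h10, mul_inv_cancel_right, eq_comm, mul_eq_right] at h9
    exact hi2 h9
  · exact hyT (hcen y hyi (mul_inv_eq_iff_eq_mul.1 h))
  · rw [h, hi', h, ← mul_assoc, mul_eq_right] at hyy
    exact hi2 hyy
  · refine hyT ((T.mul_mem_cancel_left (T.inv_mem hi.2)).1 (hcen (i⁻¹ * y) (by rw [mul_assoc, hyi]; group) ?_))
    rw [← h9] at h
    rw [mul_assoc, eq_mul_of_mul_inv_eq h]; group
  · rw [h, mul_assoc (i * i), mul_assoc i, hi', hi', hi', h] at hyy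
    apply hi2
    rw [show i * (i * (i * (i * i * i * j))) = i * i * (i * i) * (i * i) * j by group, hi4, one_mul,
      mul_eq_right] at hyy
    exact hyy

/-- Let S be a finite solvable group with O_{2'}(S) = 1 that contains a non-cyclic abelian subgroup of order 8, while no proper subgroup of S of 2-power index contains one. Then a Sylow 2-subgroup X of S is normal in S, and one of the following holds: X is abelian; X is extraspecial of order at least 32; X has a generalized quaternion subgroup X₀ of index 2 with X = X₀·C_X(X₀); or X is special with centre of order 4. -/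
theorem result {S : Type*} [Group S] [Finite S]
    [Group.IsSolvable S] (hO : Cfsg.pPrimeCore 2 S = ⊥)
    (h8 : ∃ A : Subgroup S, IsMulCommutative ↥A ∧ ¬ IsCyclic ↥A ∧ Nat.card ↥A = 8)
    (hmin : ∀ R : Subgroup S, R ≠ ⊤ → (∃ k : ℕ, R.index = 2 ^ k) →
      ¬ ∃ A : Subgroup S, A ≤ R ∧ IsMulCommutative ↥A ∧ ¬ IsCyclic ↥A ∧ Nat.card ↥A = 8)
    (X : Sylow 2 S) :
    (X : Subgroup S).Normal ∧
      (IsMulCommutative ↥X ∨
        (Cfsg.IsExtraspecial 2 ↥X ∧ 32 ≤ Nat.card ↥X) ∨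
        (∃ (X₀ : Subgroup S) (k : ℕ), X₀ ≤ (X : Subgroup S) ∧ X₀.relIndex (X : Subgroup S) = 2 ∧
          Nonempty (↥X₀ ≃* QuaternionGroup (2 ^ (k + 1))) ∧ X₀ ⊔ ((X : Subgroup S) ⊓ Subgroup.centralizer (X₀ : Set S)) = (X : Subgroup S)) ∨
        (Cfsg.IsSpecial 2 ↥X ∧ Nat.card ↥(Subgroup.center ↥X) = 4)) := by
  obtain ⟨H, hH1, hH2⟩ := Hall.exists_isPiHall (G := S) ({2}ᶜ : Set ℕ)
  have hH : Odd (Nat.card H) := Nat.coprime_two_right.1 ((Hall.pi_compl_singleton_iff Nat.prime_two).1 hH1)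
  obtain ⟨k, hk⟩ := (Hall.pi'_compl_singleton_iff Nat.prime_two H.index_ne_zero_of_finite).1 hH2
  have hm : ∀ Y : Subgroup S, Has Y → Y ⊔ H = ⊤ := fun Y h => by
    by_contra e
    obtain ⟨j, -, hj⟩ := (Nat.dvd_prime_pow Nat.prime_two).1
      (hk ▸ index_dvd_of_le (le_sup_right : H ≤ Y ⊔ H))
    exact hmin _ e ⟨j, hj⟩ (h.mono le_sup_left)
  have hcard : ∀ Y : Subgroup S, Has Y → H ≤ normalizer (Y : Set S) → Y ≤ X → Y = X := fun Y h h1 h2 => by
    have h3 := Core.relIndex_sup_of_le_normalizer h1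
    rw [sup_comm, hm Y h, relIndex_top_right] at h3
    refine le_antisymm h2 (relIndex_eq_one.1 (Nat.eq_one_of_dvd_coprimes
      (Coprime.coprime_card_of_isPGroup X.2 (Nat.coprime_two_right.2 hH)) ?_ (relIndex_dvd_card _ _)))
    exact (relIndex_dvd_index_of_le h2).trans (h3 ▸ relIndex_dvd_card _ _)
  set T := pCore 2 S
  have hT : IsPGroup 2 T := Core.pCore_isPGroup 2 S
  have hC := Core.centralizer_pCore_le_of_isPSolvable (p := 2) (Core.isPSolvable_of_isSolvable ‹_›) hO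
  have hn : ∀ K : Subgroup S, K ≤ normalizer (T : Set S) := fun K => by rw [normalizer_eq_top]; exact le_top
  obtain ⟨A, hA⟩ := h8
  have hTh : Has T := by
    by_contra h
    refine step1 hC (odd_act hT h hH (hn H) fun hc => h ⟨A, ?_, hA⟩) hA.1 hA.2.1 hA.2.2
    have h1 : H = ⊥ := Core.eq_bot_of_isPGroup_of_coprime (hT.to_le (hc.trans hC))
      (Nat.coprime_two_right.2 hH)
    have h2 := hm A ⟨A, le_rfl, hA⟩
    rw [h1, sup_bot_eq] at h2
    exact Core.le_pCore (h2 ▸ inferInstance) (.of_card (n := 3) hA.2.2)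
  have hTX := hcard T hTh (hn H) (Core.pCore_le_sylow X)
  have hXn : (X : Subgroup S).Normal := hTX ▸ inferInstance
  rw [hTX] at hn hTh
  have hmin' : ∀ Y < (X : Subgroup S), H ≤ normalizer (Y : Set S) → ¬ Has Y := fun Y h1 h2 h3 =>
    h1.ne (hcard Y h3 h2 h1.le)
  refine ⟨hXn, ?_⟩
  by_cases hna : IsMulCommutative (X : Subgroup S)
  · exact .inl hna
  by_cases hW : ⁅(X : Subgroup S), H⁆ = X
  · exact .inr ((caseB2 hH X.2 (hn H) hmin' hTh hna hW).imp_right .inr)
  refine (caseB1 hH X.2 (hn H) hmin' hTh (fun h => ?_) hW).imp_right fun h => .inr (.inl h)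
  obtain ⟨B, h1, h2⟩ := hTh
  exact hna (hcard B ⟨B, le_rfl, h2⟩ ((h.trans (centralizer_le h1)).trans (centralizer_le_normalizer _)) h1 ▸ h2.1)

end Cfsg.Agent.S4409
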