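import Cfsg.Statements.S4410
import Cfsg.Agent.Lib.Core.PSolvable

set_option autoImplicit false
open Cfsg

namespace Cfsg.Agent.S4410

open Cfsg.Lib

theorem add_self {V : Type*} [AddCommGroup V] [Module (ZMod 2) V] (v : V) : v + v = 0 := by
  rw [← two_smul (ZMod 2) v, show (2 : ZMod 2) = 0 from rfl, zero_smul]

theorem tv {V : Type*} [AddCommGroup V] [Module (ZMod 2) V] {a b : V ≃ₗ[ZMod 2] V} {u : V}
    (ha : ∀ v, a v = v ∨ a v = v + u) (hb : b * b = 1) (ho : Odd (orderOf (a * b)))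
    (h1 : a * b ≠ 1) : b u ≠ u := by
  intro hu
  have hau : a u = u := by
    rcases ha u with h | h
    · exact h
    · rw [add_self] at h
      rw [a.map_eq_zero_iff.1 h, map_zero]
  have hbb : ∀ v, b (b v) = v := fun v => LinearEquiv.congr_fun hb v
  have hc : ∀ v, a (b (a (b v))) = v ∨ a (b (a (b v))) = v + u := fun v => by
    rcases ha (b v) with h | h <;> rcases ha v with h' | h' <;>
      simp [h, h', hbb, hu, hau, add_assoc, add_self]
  have h4 : (a * b) ^ 4 = 1 := by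
    ext v
    change a (b (a (b (a (b (a (b v))))))) = v
    rcases hc v with h | h
    · rw [h, h]
    · rw [h]; simp only [map_add, h, hu, hau, add_assoc, add_self, add_zero]
  have h5 : orderOf (a * b) ∣ 2 ^ 2 := orderOf_dvd_of_pow_eq_one h4
  exact h1 (orderOf_eq_one_iff.1 (Nat.eq_one_of_dvd_coprimes
    ((Nat.coprime_two_right.2 ho).pow_right 2) dvd_rfl h5))

/-- Let V be a finite-dimensional vector space over the field with two elements and S a solvable group of linear automorphisms of V with O₂(S) = 1. If P ∈ S has order 4 and (P − 1)³ = 0 on V, then the image of (P − 1)² has at least 4 elements; equivalently, in the decomposition of V into indecomposable modules for the cyclic group generated by P, at least two summands have dimension 3. -/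
theorem result
    {V : Type*} [AddCommGroup V] [Module (ZMod 2) V] [Finite V]
    (S : Subgroup (V ≃ₗ[ZMod 2] V)) (hS : Group.IsSolvable ↥S) (hO2 : Cfsg.pCore 2 ↥S = ⊥)
    (P : V ≃ₗ[ZMod 2] V) (hPS : P ∈ S) (hP4 : orderOf P = 4)
    (hcub : ((P : V →ₗ[ZMod 2] V) - LinearMap.id) ^ 3 = 0) :
    4 ≤ Nat.card ↥(LinearMap.range (((P : V →ₗ[ZMod 2] V) - LinearMap.id) ^ 2)) := by
  by_contra hlt
  set N := ((P : V →ₗ[ZMod 2] V) - LinearMap.id) ^ 2 with hN
  have hNv : ∀ v, P (P v) = v + N v := fun v => by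
    simp only [hN, sq, Module.End.mul_apply, LinearMap.sub_apply, LinearMap.id_apply, map_sub,
      LinearEquiv.coe_coe]
    have h1 := add_self (P v)
    have h2 := add_self v
    linear_combination (norm := abel1) h1 - h2
  obtain ⟨w, hw⟩ : ∃ w : V, ∀ v, N v = 0 ∨ N v = w := by
    by_contra hc
    push Not at hc
    obtain ⟨v1, h1, -⟩ := hc 0
    obtain ⟨v2, h2, h3⟩ := hc (N v1)
    classical
    have h4 : ({0, N v1, N v2, N v1 + N v2} : Set V) ⊆ LinearMap.range N := by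
      rintro _ (rfl | rfl | rfl | rfl)
      exacts [zero_mem _, ⟨v1, rfl⟩, ⟨v2, rfl⟩, ⟨v1 + v2, map_add _ _ _⟩]
    have h5 : N v1 + N v2 ≠ 0 := fun e => h3 (by
      have := add_self (N v1)
      linear_combination (norm := abel1) e - this)
    have h6 : ({0, N v1, N v2, N v1 + N v2} : Set V).ncard = 4 := by
      rw [Set.ncard_insert_of_notMem (by simp [h1.symm, h2.symm, h5.symm]),
        Set.ncard_insert_of_notMem (by simp [h3.symm, h2]), Set.ncard_pair (by simp [h1])]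
    have h7 := Set.ncard_le_ncard h4
    rw [h6, ← Nat.card_coe_set_eq] at h7
    exact hlt h7
  set π : S := ⟨P, hPS⟩ with hπ
  set τ : S := π * π with hτ
  have hτ2 : τ * τ = 1 := Subtype.ext (by
    change P * P * (P * P) = 1
    rw [← pow_orderOf_eq_one P, hP4]; simp [pow_succ, mul_assoc])
  have hτi : τ⁻¹ = τ := inv_eq_of_mul_eq_one_right hτ2
  have hτ1 : τ ≠ 1 := fun e => by
    have h1 : P ^ 2 = 1 := by rw [sq]; exact congrArg Subtype.val e
    have := orderOf_dvd_of_pow_eq_one h1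
    rw [hP4] at this
    omega
  have htr : ∀ (h : S) (v : V), ((h * τ * h⁻¹ : S) : V ≃ₗ[ZMod 2] V) v = v ∨
      ((h * τ * h⁻¹ : S) : V ≃ₗ[ZMod 2] V) v = v + (h : V ≃ₗ[ZMod 2] V) w := fun h v => by
    change (h : V ≃ₗ[ZMod 2] V) (P (P ((h : V ≃ₗ[ZMod 2] V).symm v))) = v ∨
      (h : V ≃ₗ[ZMod 2] V) (P (P ((h : V ≃ₗ[ZMod 2] V).symm v))) = _
    rw [hNv, map_add, LinearEquiv.apply_symm_apply]
    rcases hw ((h : V ≃ₗ[ZMod 2] V).symm v) with e | e <;> simp [e]
  haveI : Finite (V ≃ₗ[ZMod 2] V) := Finite.of_injective (fun f => (f : V → V)) DFunLike.coe_injective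
  have hodd : ∀ k ∈ pPrimeCore 2 S, Odd (orderOf k) := fun k hk =>
    Nat.coprime_two_right.1 (Nat.Coprime.coprime_dvd_left (Subgroup.orderOf_dvd_natCard _ hk)
      (Core.pPrimeCore_coprime 2 S))
  have hsq : ∀ k ∈ pPrimeCore 2 S, k * k = 1 → k = 1 := fun k hk e =>
    orderOf_eq_one_iff.1 (Nat.eq_one_of_dvd_coprimes (Nat.coprime_two_right.2 (hodd k hk)) dvd_rfl
      (orderOf_dvd_of_pow_eq_one (by rwa [sq])))
  have key : ∀ h h' : S, h * τ * h⁻¹ * (h' * τ * h'⁻¹) ∈ pPrimeCore 2 S →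
      h * τ * h⁻¹ * (h' * τ * h'⁻¹) ≠ 1 → ((h' * τ * h'⁻¹ : S) : V ≃ₗ[ZMod 2] V)
        ((h : V ≃ₗ[ZMod 2] V) w) = (h : V ≃ₗ[ZMod 2] V) w + (h' : V ≃ₗ[ZMod 2] V) w := by
    intro h h' h1 h2
    refine (htr h' _).resolve_left (tv (htr h) ?_ ?_ fun e => h2 (Subtype.ext e))
    · have : h' * τ * h'⁻¹ * (h' * τ * h'⁻¹) = 1 := by
        calc _ = h' * (τ * τ) * h'⁻¹ := by group
          _ = 1 := by rw [hτ2]; group
      exact congrArg Subtype.val this
    · have := hodd _ h1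
      rwa [← Subgroup.orderOf_coe] at this
  obtain ⟨g, hg, hgτ⟩ : ∃ g ∈ pPrimeCore 2 S, g * τ ≠ τ * g := by
    by_contra hc
    push Not at hc
    exact hτ1 (hsq _ (Core.centralizer_pPrimeCore_le_of_isPSolvable
      (Core.isPSolvable_of_isSolvable hS) hO2 (Subgroup.mem_centralizer_iff.2 hc)) hτ2)
  have hn : (pPrimeCore 2 S).Normal := inferInstance
  set x := τ * (g * τ * g⁻¹) with hx
  have hxK : x ∈ pPrimeCore 2 S := by
    have := mul_mem (hn.conj_mem g hg τ) (inv_mem hg)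
    rw [hτi] at this
    rw [hx, ← mul_assoc, ← mul_assoc]; exact this
  have hx1 : x ≠ 1 := fun e => hgτ (by
    calc g * τ = τ * τ * (g * τ * g⁻¹) * g := by rw [hτ2]; group
      _ = τ * x * g := by rw [hx]; group
      _ = τ * g := by rw [e, mul_one])
  have hxi : x⁻¹ = g * τ * g⁻¹ * τ := by
    rw [hx, mul_inv_rev, hτi, conj_inv, hτi]
  have hτx : τ * x * τ⁻¹ ≠ x := fun e => hx1 (hsq x hxK (by
    have : τ * x * τ⁻¹ = x⁻¹ := by
      rw [hxi, hτi, hx, ← mul_assoc τ τ, hτ2, one_mul]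
    rw [e] at this
    nth_rewrite 1 [this]
    exact inv_mul_cancel x))
  have hy : π * x * π⁻¹ = τ * (π * g * τ * (π * g)⁻¹) := by rw [hx, hτ]; group
  have hyK : π * x * π⁻¹ ∈ pPrimeCore 2 S := hn.conj_mem x hxK π
  have e1 := key 1 (π * g) (by simp only [one_mul, inv_one, mul_one, ← hy]; exact hyK) (by
    simp only [one_mul, inv_one, mul_one, ← hy]
    exact fun e => hx1 (conj_eq_one_iff.1 e))
  have h12 : g * τ * g⁻¹ * (π * g * τ * (π * g)⁻¹) = x⁻¹ * (π * x * π⁻¹) := by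
    rw [hy, hxi, mul_assoc (g * τ * g⁻¹) τ, ← mul_assoc τ τ, hτ2, one_mul]
  have e2 := key g (π * g) (h12 ▸ mul_mem (inv_mem hxK) hyK) (by
    rw [h12]
    intro e
    have e' : π * x * π⁻¹ = x := (inv_mul_eq_one.1 e).symm
    apply hτx
    calc τ * x * τ⁻¹ = π * (π * x * π⁻¹) * π⁻¹ := by rw [hτ]; group
      _ = x := by rw [e', e'])
  have e3 := key g 1 (by simpa [← hxi] using hxK) (by
    simp only [one_mul, inv_one, mul_one, ← hxi]
    exact inv_ne_one.2 hx1)
  have h13 : τ * g * τ * (τ * g)⁻¹ * (π * g * τ * (π * g)⁻¹) = x * (π * x * π⁻¹) := by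
    rw [hy, hx, mul_inv_rev τ g, hτi]; group
  have e4 := key (τ * g) (π * g) (h13 ▸ mul_mem hxK hyK) (by
    rw [h13]
    intro e
    have e' : π * x * π⁻¹ = x⁻¹ := eq_inv_of_mul_eq_one_right e
    apply hτx
    calc τ * x * τ⁻¹ = π * (π * x * π⁻¹) * π⁻¹ := by rw [hτ]; group
      _ = π * x⁻¹ * π⁻¹ := by rw [e']
      _ = (π * x * π⁻¹)⁻¹ := by group
      _ = x := by rw [e', inv_inv])
  simp only [one_mul, inv_one, mul_one] at e3
  have e5 : ((τ * g : S) : V ≃ₗ[ZMod 2] V) w = (g : V ≃ₗ[ZMod 2] V) w + w := e3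
  have e6 : ((π * g * τ * (π * g)⁻¹ : S) : V ≃ₗ[ZMod 2] V) w =
    w + ((π * g : S) : V ≃ₗ[ZMod 2] V) w := e1
  rw [e5, map_add, e2, e6] at e4
  have e7 : ((π * g : S) : V ≃ₗ[ZMod 2] V) w = 0 := by linear_combination (norm := abel1) e4
  have hw0 : w = 0 := (LinearEquiv.map_eq_zero_iff _).1 e7
  refine hτ1 (Subtype.ext (LinearEquiv.ext fun v => ?_))
  change P (P v) = v
  rw [hNv]
  rcases hw v with e | e <;> simp [e, hw0]

end Cfsg.Agent.S4410
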