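import Cfsg.Statements.S4412
import Mathlib
import Cfsg.Agent.Lib.PGroup.Basic
import Cfsg.Agent.Lib.Coprime.Generation

set_option autoImplicit false
open Cfsg

namespace Cfsg.Agent.S4412

open Subgroup
open scoped commutatorElement

section
variable {P : Type*} [Group P] [Finite P]

theorem sq_inj (hodd : Odd (Nat.card P)) {x : P} (h : x * x = 1) : x = 1 := by
  have h1 : orderOf x ∣ 2 := orderOf_dvd_of_pow_eq_one (by rw [pow_two, h])
  have h2 : orderOf x ∣ Nat.card P := orderOf_dvd_natCard x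
  have h3 : Nat.Coprime 2 (Nat.card P) := Nat.coprime_two_left.2 hodd
  exact orderOf_eq_one_iff.1 (Nat.eq_one_of_dvd_coprimes h3 h1 h2)

theorem decomp (hodd : Odd (Nat.card P)) (T : MulAut P) (hT : ∀ x, T (T x) = x) (x : P) :
    ∃ c y : P, x = c * y ∧ T c = c ∧ T y = y⁻¹ ∧ y ∈ zpowers (x⁻¹ * T x) := by
  obtain ⟨k, hk⟩ := hodd
  have hu : T (x⁻¹ * T x) = (x⁻¹ * T x)⁻¹ := by simp [hT]
  have h1 : (x⁻¹ * T x) ^ k * (x⁻¹ * T x) ^ k * (x⁻¹ * T x) = 1 := by
    rw [← pow_add, ← pow_succ, ← two_mul, ← hk, pow_card_eq_one']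
  have hy : T ((x⁻¹ * T x) ^ k) = ((x⁻¹ * T x) ^ k)⁻¹ := by rw [map_pow, hu, inv_pow]
  refine ⟨x * ((x⁻¹ * T x) ^ k)⁻¹, (x⁻¹ * T x) ^ k, by group, ?_, hy, pow_mem (mem_zpowers _) _⟩
  rw [map_mul, map_inv, hy, inv_inv]
  have h2 : T x = x * (x⁻¹ * T x) := by group
  generalize x⁻¹ * T x = u at h1 h2
  rw [h2, mul_assoc]
  congr 1
  rw [eq_inv_iff_mul_eq_one, ← h1]
  group

theorem gen (hodd : Odd (Nat.card P)) (I : Subgroup (MulAut P)) (hI : IsElementaryAbelian 2 I)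
    (hI8 : Nat.card ↥I = 8) (H : Subgroup P)
    (h : ∀ B : Subgroup I, B.index = 2 → ∀ x, (∀ b ∈ B, (b : MulAut P) x = x) → x ∈ H) :
    H = ⊤ := by
  let G := P ⋊[I.subtype] I
  haveI : Finite G := Finite.of_equiv _ SemidirectProduct.equivProd.symm
  let l : P →* G := SemidirectProduct.inl
  let r : I →* G := SemidirectProduct.inr
  have hl : Function.Injective l := SemidirectProduct.inl_injective
  have hr : Function.Injective r := SemidirectProduct.inr_injective
  have cl : Nat.card l.range = Nat.card P := (Nat.card_congr (MonoidHom.ofInjective hl).toEquiv).symm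
  have cr : Nat.card r.range = 8 :=
    (Nat.card_congr (MonoidHom.ofInjective hr).toEquiv).symm.trans hI8
  haveI : l.range.Normal := by
    rw [show l.range = _ from SemidirectProduct.range_inl_eq_ker_rightHom]; infer_instance
  haveI : Fact (Nat.Prime 2) := ⟨Nat.prime_two⟩
  have key := Cfsg.Lib.Coprime.le_of_forall_hyperplane' (p := 2) (A := r.range) (K := l.range)
    (H := H.map l) ⟨⟨⟨by
      rintro ⟨_, a, rfl⟩ ⟨_, b, rfl⟩
      apply Subtype.ext
      change r a * r b = r b * r a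
      rw [← map_mul, ← map_mul, hI.1.is_comm.comm a b]⟩⟩, by
      rintro _ ⟨a, rfl⟩
      rw [← map_pow, show a ^ 2 = 1 from Subtype.ext (hI.2 a a.2), map_one]⟩
    (fun h => by rw [h, card_bot] at cr; omega) (by rw [normalizer_eq_top]; exact le_top)
    (by
      rw [cl, cr]
      exact Nat.Coprime.pow_left 3 (Nat.coprime_two_left.2 hodd))
    (by
      rintro B hB hi _ ⟨⟨x, rfl⟩, hx⟩
      refine ⟨x, h (B.comap r) (by rw [index_comap, hi]) x fun b hb => hl ?_, rfl⟩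
      have h1 : r b * l x = l x * r b := hx _ hb
      have h2 : l ((b : MulAut P) x) = r b * l x * r b⁻¹ := SemidirectProduct.inl_aut b x
      rw [h2, h1, mul_assoc, ← map_mul, mul_inv_cancel, map_one, mul_one])
  rw [eq_top_iff]
  intro x _
  obtain ⟨y, hy, e⟩ := key ⟨x, rfl⟩
  rwa [← hl e]

theorem cyc {p : ℕ} (hp : p.Prime) (hp2 : p ≠ 2) (hP : IsPGroup p P) (S : MulAut P)
    (hS : ∀ x, S (S x) = x) (g : P) (hg : S g ∈ zpowers g) :
    (∀ x ∈ zpowers g, S x = x) ∨ (∀ x ∈ zpowers g, S x = x⁻¹) := by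
  haveI : Fact p.Prime := ⟨hp⟩
  obtain ⟨k, hk⟩ := hg
  simp only at hk
  obtain ⟨n, hn⟩ := IsPGroup.iff_orderOf.1 hP g
  have h1 : g ^ ((k - 1) * (k + 1)) = 1 := by
    have := hS g
    rw [← hk, map_zpow, ← hk, ← zpow_mul] at this
    rw [show (k - 1) * (k + 1) = k * k - 1 by ring, zpow_sub, this]; group
  rw [← orderOf_dvd_iff_zpow_eq_one, hn] at h1
  push_cast at h1
  have hpi := Nat.prime_iff_prime_int.1 hp
  have : S g = g ∨ S g = g⁻¹ := by
    by_cases h : (p : ℤ) ∣ k + 1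
    · right
      have h2 : ¬ (p : ℤ) ∣ k - 1 := fun h2 => by
        have h3 : (p : ℤ) ∣ 2 := by simpa using dvd_sub h h2
        have h4 : p ∣ 2 := by exact_mod_cast h3
        exact hp2 ((Nat.prime_dvd_prime_iff_eq hp Nat.prime_two).1 h4)
      have h3 := ((hpi.irreducible.coprime_iff_not_dvd.2 h2).pow_left (m := n)).dvd_of_dvd_mul_left h1
      have h4 : g ^ (k + 1) = 1 := by
        rw [← orderOf_dvd_iff_zpow_eq_one, hn]; exact_mod_cast h3
      rw [← hk, eq_inv_iff_mul_eq_one, ← h4]; group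
    · left
      have h3 := ((hpi.irreducible.coprime_iff_not_dvd.2 h).pow_left (m := n)).dvd_of_dvd_mul_right h1
      have h4 : g ^ (k - 1) = 1 := by
        rw [← orderOf_dvd_iff_zpow_eq_one, hn]; exact_mod_cast h3
      rw [← hk, ← mul_inv_eq_one, ← h4]; group
  rcases this with h | h
  · left; rintro _ ⟨m, rfl⟩; simp only [map_zpow, h]
  · right; rintro _ ⟨m, rfl⟩; simp only [map_zpow, h, inv_zpow]

theorem comm_mem (hodd : Odd (Nat.card P)) (S T : MulAut P) (hS : ∀ x, S (S x) = x) (a b : P)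
    (h1 : S a = a⁻¹) (h2 : S b = b⁻¹) (h3 : T a = a) (h4 : T b = b)
    (h5 : ∀ c, S c = c → T c = c⁻¹) : ⁅a, b⁆ ∈ ⁅commutator P, (⊤ : Subgroup P)⁆ := by
  obtain ⟨c, y, e, hc, -, hy⟩ := decomp hodd S hS ⁅a, b⁆
  have hw : ⁅a, b⁆⁻¹ * S ⁅a, b⁆ = ⁅⁅a, b⁆⁻¹, (b * a)⁻¹⁆ := by
    simp only [commutatorElement_def, map_mul, map_inv, h1, h2]; group
  rw [hw] at hy
  have hTu : T ⁅a, b⁆ = ⁅a, b⁆ := by rw [map_commutatorElement, h3, h4]
  have hTy : T y = y := by
    obtain ⟨k, rfl⟩ := hy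
    simp only [map_zpow, map_commutatorElement, map_inv, map_mul, h3, h4]
  rw [e, map_mul, h5 c hc, hTy, mul_left_inj] at hTu
  have hc1 : c = 1 := sq_inj hodd (by nth_rewrite 1 [← hTu]; simp)
  rw [e, hc1, one_mul]
  exact zpowers_le_of_mem (commutator_mem_commutator
    (inv_mem (commutator_mem_commutator (mem_top a) (mem_top b))) (mem_top _)) hy

theorem not_two {p : ℕ} (hp : p.Prime) (hodd : Odd (Nat.card P)) (hP : IsPGroup p P)
    (hc : IsMulCommutative P) (T1 T2 : MulAut P) (g1 g2 g3 : P) (h1 : g1 ≠ 1) (h2 : g2 ≠ 1)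
    (h3 : g3 ≠ 1) (h11 : T1 g1 = g1⁻¹) (h12 : T1 g2 = g2) (h13 : T1 g3 = g3)
    (h22 : T2 g2 = g2⁻¹) (h23 : T2 g3 = g3) : ¬ ∃ a b : P, closure {a, b} = ⊤ := by
  rintro ⟨a, b, hab⟩
  haveI : Fact p.Prime := ⟨hp⟩
  letI : CommGroup P := { (inferInstance : Group P) with mul_comm := hc.is_comm.comm }
  let f : P →* P := powMonoidHom p
  have hz : ∀ g : P, g ≠ 1 → ∃ z ∈ zpowers g, orderOf z = p := by
    intro g hg
    obtain ⟨n, hn⟩ := IsPGroup.iff_orderOf.1 hP g
    refine ⟨g ^ (orderOf g / p), pow_mem (mem_zpowers g) _,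
      orderOf_pow_orderOf_div (orderOf_pos g).ne' ?_⟩
    rw [hn]
    refine dvd_pow_self p fun h => hg ?_
    rw [h, pow_zero] at hn
    exact orderOf_eq_one_iff.1 hn
  obtain ⟨z1, m1, o1⟩ := hz g1 h1
  obtain ⟨z2, m2, o2⟩ := hz g2 h2
  obtain ⟨z3, m3, o3⟩ := hz g3 h3
  have hfix : ∀ (T : MulAut P) (g z : P), z ∈ zpowers g → T g = g → ∀ u ∈ zpowers z, T u = u := by
    intro T g z hz h u hu
    obtain ⟨k, rfl⟩ := zpowers_le_of_mem hz hu
    simp only [map_zpow, h]
  have hinv : ∀ (T : MulAut P) (g z : P), z ∈ zpowers g → T g = g⁻¹ → ∀ u ∈ zpowers z, T u = u⁻¹ := by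
    intro T g z hz h u hu
    obtain ⟨k, rfl⟩ := zpowers_le_of_mem hz hu
    simp only [map_zpow, h, inv_zpow]
  have hker : ∀ z : P, orderOf z = p → ∀ u ∈ zpowers z, u ∈ f.ker := by
    intro z hz u hu
    refine zpowers_le_of_mem (H := f.ker) ?_ hu
    change z ^ p = 1
    rw [← hz, pow_orderOf_eq_one]
  have hcan : ∀ u v w w' : P, u * w = v * w' → u⁻¹ * w = v⁻¹ * w' → u = v ∧ w = w' := by
    intro u v w w' e1 e2
    have : u = v := by
      rw [← mul_inv_eq_one]
      apply sq_inj hodd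
      calc _ = (u * w) * (u⁻¹ * w)⁻¹ * v⁻¹ * v⁻¹ := by
            simp only [mul_inv_rev, inv_inv, mul_assoc, mul_comm, mul_left_comm,
              mul_inv_cancel_left, mul_inv_cancel_comm_assoc]
        _ = 1 := by rw [e1, e2]; simp [mul_assoc]
    subst this
    exact ⟨rfl, mul_left_cancel e1⟩
  have lo : Nat.card (zpowers z1 × zpowers z2 × zpowers z3) ≤ Nat.card f.ker := by
    refine Nat.card_le_card_of_injective (fun u => ⟨u.1 * (u.2.1 * u.2.2),
      mul_mem (hker _ o1 _ u.1.2) (mul_mem (hker _ o2 _ u.2.1.2) (hker _ o3 _ u.2.2.2))⟩) ?_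
    rintro ⟨⟨u1, a1⟩, ⟨u2, a2⟩, ⟨u3, a3⟩⟩ ⟨⟨v1, b1⟩, ⟨v2, b2⟩, ⟨v3, b3⟩⟩ h
    have e : u1 * (u2 * u3) = v1 * (v2 * v3) := congrArg Subtype.val h
    have e' := congrArg T1 e
    simp only [map_mul, hinv T1 _ _ m1 h11 _ a1, hinv T1 _ _ m1 h11 _ b1, hfix T1 _ _ m2 h12 _ a2,
      hfix T1 _ _ m2 h12 _ b2, hfix T1 _ _ m3 h13 _ a3, hfix T1 _ _ m3 h13 _ b3] at e'
    obtain ⟨rfl, e2⟩ := hcan _ _ _ _ e e'
    have e2' := congrArg T2 e2
    simp only [map_mul, hinv T2 _ _ m2 h22 _ a2, hinv T2 _ _ m2 h22 _ b2,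
      hfix T2 _ _ m3 h23 _ a3, hfix T2 _ _ m3 h23 _ b3] at e2'
    obtain ⟨rfl, rfl⟩ := hcan _ _ _ _ e2 e2'
    rfl
  let π := QuotientGroup.mk' f.range
  have hi : Nat.card (P ⧸ f.range) ≤ Nat.card (zpowers (π a) × zpowers (π b)) := by
    refine Nat.card_le_card_of_surjective (fun u => u.1.1 * u.2.1) fun q => ?_
    obtain ⟨x, rfl⟩ := QuotientGroup.mk'_surjective f.range q
    obtain ⟨m, n, rfl⟩ := mem_closure_pair.1 (show x ∈ closure {a, b} from hab ▸ mem_top x)
    exact ⟨(⟨π a ^ m, m, rfl⟩, ⟨π b ^ n, n, rfl⟩), by simp [π]⟩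
  have ho : ∀ x : P, orderOf (π x) ≤ p := fun x => Nat.le_of_dvd hp.pos
    (orderOf_dvd_of_pow_eq_one (by
      rw [← map_pow]; exact (QuotientGroup.eq_one_iff _).2 ⟨x, rfl⟩))
  have e : Nat.card (P ⧸ f.range) = Nat.card f.ker := index_range
  simp only [Nat.card_prod, Nat.card_zpowers, o1, o2, o3] at lo hi
  have := Nat.mul_le_mul (ho a) (ho b)
  have h2p := hp.two_le
  nlinarith [Nat.mul_pos hp.pos hp.pos]
end

/-- Let p be an odd prime, P a finite p-group and I an elementary abelian subgroup of order 8 of Aut(P). Call T ∈ I, T ≠ 1, broad when its fixed-point subgroup C_P(T) is not cyclic. Suppose I has a proper subgroup I₀ containing no broad element such that the product of any two broad elements lies in I₀. Then P is abelian of rank exactly 3 (generated by three elements but not by two), there are exactly three broad elements and they generate I, and I₀ is exactly the set of products of two broad elements. -/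
theorem result
    {P : Type*} [Group P] [Finite P] (p : ℕ) (hp : p.Prime) (hp2 : p ≠ 2) (hP : IsPGroup p P)
    (I : Subgroup (MulAut P)) (hI : Cfsg.IsElementaryAbelian 2 I) (hI8 : Nat.card ↥I = 8)
    (I₀ : Subgroup (MulAut P)) (hI₀ : I₀ < I)
    (hdisj : ∀ T ∈ I₀, T ≠ 1 → ∃ g : P, ∀ x : P, (T x = x ↔ x ∈ Subgroup.zpowers g))
    (hprod : ∀ T ∈ I, ∀ T' ∈ I, T ≠ 1 → T' ≠ 1 → (¬ ∃ g : P, ∀ x : P, (T x = x ↔ x ∈ Subgroup.zpowers g)) →
      (¬ ∃ g : P, ∀ x : P, (T' x = x ↔ x ∈ Subgroup.zpowers g)) → T * T' ∈ I₀) :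
    IsMulCommutative P ∧ (∃ a b c : P, Subgroup.closure {a, b, c} = ⊤) ∧ (¬ ∃ a b : P, Subgroup.closure {a, b} = ⊤) ∧
      Nat.card {T : MulAut P // T ∈ I ∧ T ≠ 1 ∧ ¬ ∃ g : P, ∀ x : P, (T x = x ↔ x ∈ Subgroup.zpowers g)} = 3 ∧
      Subgroup.closure {T : MulAut P | T ∈ I ∧ T ≠ 1 ∧ ¬ ∃ g : P, ∀ x : P, (T x = x ↔ x ∈ Subgroup.zpowers g)} = I ∧
      (I₀ : Set (MulAut P)) = {S : MulAut P | ∃ T T' : MulAut P, T ∈ I ∧ T' ∈ I ∧ T ≠ 1 ∧ T' ≠ 1 ∧
        (¬ ∃ g : P, ∀ x : P, (T x = x ↔ x ∈ Subgroup.zpowers g)) ∧ (¬ ∃ g : P, ∀ x : P, (T' x = x ↔ x ∈ Subgroup.zpowers g)) ∧ S = T * T'} := by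
  haveI : Fact p.Prime := ⟨hp⟩
  have hodd : Odd (Nat.card P) := by
    obtain ⟨n, hn⟩ := IsPGroup.iff_card.1 hP
    rw [hn]; exact (hp.odd_of_ne_two hp2).pow
  have hsq : ∀ T ∈ I, T * T = 1 := fun T hT => by rw [← pow_two, hI.2 T hT]
  have hTT : ∀ T ∈ I, ∀ x, T (T x) = x := fun T hT x => by
    rw [← MulAut.mul_apply, hsq T hT, MulAut.one_apply]
  have hcm : ∀ T ∈ I, ∀ S ∈ I, T * S = S * T := fun T hT S hS =>
    congrArg Subtype.val (hI.1.is_comm.comm (⟨T, hT⟩ : I) ⟨S, hS⟩)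
  have hcm' : ∀ T ∈ I, ∀ S ∈ I, ∀ x, T (S x) = S (T x) := fun T hT S hS x => by
    rw [← MulAut.mul_apply, hcm T hT S hS, MulAut.mul_apply]
  have hne : ∀ x : P, x = x⁻¹ → x = 1 := fun x h => sq_inj hodd (eq_inv_iff_mul_eq_one.1 h)
  have hne' : ∀ x : P, x⁻¹ = x → x = 1 := fun x h => hne x h.symm
  have hgen : closure {x : P | ∀ T ∈ I, T x = x ∨ T x = x⁻¹} = ⊤ := by
    refine gen hodd I hI hI8 _ fun B hB x hx => ?_
    obtain ⟨T, hT⟩ : ∃ T : I, T ∉ B := by
      by_contra h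
      push Not at h
      rw [(eq_top_iff' B).2 h, index_top] at hB
      omega
    obtain ⟨c, y, e, hc, hy, hy'⟩ := decomp hodd T (hTT T T.2) x
    have hyB : ∀ b ∈ B, (b : MulAut P) y = y := by
      intro b hb
      obtain ⟨k, rfl⟩ := hy'
      simp only [map_zpow, map_mul, map_inv, hcm' b b.2 T T.2, hx b hb]
    have hcB : ∀ b ∈ B, (b : MulAut P) c = c := by
      intro b hb
      have := hx b hb
      rwa [e, map_mul, hyB b hb, mul_left_inj] at this
    have hB' : ∀ S : I, S ∉ B → S * T ∈ B := fun S hS =>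
      (mul_mem_iff_of_index_two hB).2 (iff_of_false hS hT)
    rw [e]
    refine mul_mem (subset_closure fun S hS => Or.inl ?_) (subset_closure fun S hS => ?_)
    · by_cases h : (⟨S, hS⟩ : I) ∈ B
      · exact hcB _ h
      · have := hcB _ (hB' _ h)
        rwa [coe_mul, MulAut.mul_apply, hc] at this
    · by_cases h : (⟨S, hS⟩ : I) ∈ B
      · exact Or.inl (hyB _ h)
      · have := hyB _ (hB' _ h)
        rw [coe_mul, MulAut.mul_apply, hy, map_inv, inv_eq_iff_eq_inv] at this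
        exact Or.inr this
  have hfaith : ∀ T ∈ I, T ≠ 1 → ∃ x : P, (∀ S ∈ I, S x = x ∨ S x = x⁻¹) ∧ x ≠ 1 ∧ T x = x⁻¹ := by
    intro T hT hT1
    by_contra h
    push Not at h
    apply hT1
    have : (T : P →* P) = MonoidHom.id P := MonoidHom.eq_of_eqOn_dense hgen fun x hx => by
      by_cases h1 : x = 1
      · simp [h1]
      · exact (hx T hT).resolve_right (h x hx h1)
    ext x
    exact DFunLike.congr_fun this x
  have pigeon : ∀ x y : P, (∀ S ∈ I, S x = x ∨ S x = x⁻¹) → (∀ S ∈ I, S y = y ∨ S y = y⁻¹) →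
      ∃ T ∈ I, T ≠ 1 ∧ T x = x ∧ T y = y := by
    intro x y hx hy
    classical
    have : ¬ Function.Injective (fun T : I => (decide ((T : MulAut P) x = x),
        decide ((T : MulAut P) y = y))) := fun h => by
      have := Nat.card_le_card_of_injective _ h
      rw [hI8] at this
      simp at this
    obtain ⟨T, S, h, hTS⟩ := Function.not_injective_iff.1 this
    simp only [Prod.mk.injEq, decide_eq_decide] at h
    have key : ∀ z : P, (∀ S ∈ I, S z = z ∨ S z = z⁻¹) →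
        ((T : MulAut P) z = z ↔ (S : MulAut P) z = z) → ((T : MulAut P) * S) z = z := by
      intro z hz h
      rw [MulAut.mul_apply]
      by_cases h1 : (S : MulAut P) z = z
      · rw [h1, h.2 h1]
      · rw [(hz S S.2).resolve_left h1, map_inv, (hz T T.2).resolve_left (fun h' => h1 (h.1 h')),
          inv_inv]
    refine ⟨T * S, mul_mem T.2 S.2, fun h' => hTS (Subtype.ext ?_), key x hx h.1, key y hy h.2⟩
    rw [← hsq S S.2] at h'
    exact mul_right_cancel h'
  have w1 : ∀ S ∈ I, S (1 : P) = 1 ∨ S (1 : P) = 1⁻¹ := fun S _ => Or.inl (map_one S)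
  obtain ⟨t, ht, ht1, -, -⟩ := pigeon 1 1 w1 w1
  obtain ⟨x1, wx1, n1, k1⟩ := hfaith t ht ht1
  obtain ⟨t', ht', ht1', k1', -⟩ := pigeon x1 1 wx1 w1
  obtain ⟨x2, wx2, n2, k2⟩ := hfaith t' ht' ht1'
  obtain ⟨T3, hT3, T3n, a31, a32⟩ := pigeon x1 x2 wx1 wx2
  obtain ⟨x3, wx3, n3, a33⟩ := hfaith T3 hT3 T3n
  obtain ⟨T2, hT2, a21, a22, a23⟩ : ∃ T2 ∈ I, T2 x1 = x1 ∧ T2 x2 = x2⁻¹ ∧ T2 x3 = x3 := by
    rcases wx3 t' ht' with h | h
    · exact ⟨t', ht', k1', k2, h⟩
    · exact ⟨t' * T3, mul_mem ht' hT3, by simp only [MulAut.mul_apply, map_inv, inv_inv, k1', k2, h, a31, a32, a33], by simp only [MulAut.mul_apply, map_inv, inv_inv, k1', k2, h, a31, a32, a33], by simp only [MulAut.mul_apply, map_inv, inv_inv, k1', k2, h, a31, a32, a33]⟩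
  obtain ⟨T1, hT1, a11, a12, a13⟩ : ∃ T1 ∈ I, T1 x1 = x1⁻¹ ∧ T1 x2 = x2 ∧ T1 x3 = x3 := by
    rcases wx2 t ht with h | h <;> rcases wx3 t ht with h' | h'
    · exact ⟨t, ht, k1, h, h'⟩
    · exact ⟨t * T3, mul_mem ht hT3, by simp only [MulAut.mul_apply, map_inv, inv_inv, k1, h, h', a31, a32, a33, a21, a22, a23], by simp only [MulAut.mul_apply, map_inv, inv_inv, k1, h, h', a31, a32, a33, a21, a22, a23], by simp only [MulAut.mul_apply, map_inv, inv_inv, k1, h, h', a31, a32, a33, a21, a22, a23]⟩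
    · exact ⟨t * T2, mul_mem ht hT2, by simp only [MulAut.mul_apply, map_inv, inv_inv, k1, h, h', a31, a32, a33, a21, a22, a23], by simp only [MulAut.mul_apply, map_inv, inv_inv, k1, h, h', a31, a32, a33, a21, a22, a23], by simp only [MulAut.mul_apply, map_inv, inv_inv, k1, h, h', a31, a32, a33, a21, a22, a23]⟩
    · exact ⟨t * T2 * T3, mul_mem (mul_mem ht hT2) hT3, by simp only [MulAut.mul_apply, map_inv, inv_inv, k1, h, h', a31, a32, a33, a21, a22, a23], by simp only [MulAut.mul_apply, map_inv, inv_inv, k1, h, h', a31, a32, a33, a21, a22, a23], by simp only [MulAut.mul_apply, map_inv, inv_inv, k1, h, h', a31, a32, a33, a21, a22, a23]⟩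
  clear k1 k1' k2 ht1 ht1' ht ht' t t'
  have hdich : ∀ T ∈ I, ∀ g : P, (∀ x : P, T x = x ↔ x ∈ zpowers g) → ∀ S ∈ I,
      (∀ x ∈ zpowers g, S x = x) ∨ (∀ x ∈ zpowers g, S x = x⁻¹) := fun T hT g hg S hS =>
    cyc hp hp2 hP S (hTT S hS) g ((hg _).1 (by rw [hcm' T hT S hS, (hg g).2 (mem_zpowers g)]))
  have hbroad : ∀ T ∈ I, ∀ S ∈ I, ∀ x y : P, x ≠ 1 → y ≠ 1 → T x = x → T y = y → S x = x⁻¹ → S y = y →
      ¬ ∃ g : P, ∀ x : P, (T x = x ↔ x ∈ Subgroup.zpowers g) := by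
    rintro T hT S hS x y hx hy h1 h2 h3 h4 ⟨g, hg⟩
    rcases hdich T hT g hg S hS with h | h
    · exact hx (hne' x (h3.symm.trans (h x ((hg x).1 h1))))
    · exact hy (hne y (h4.symm.trans (h y ((hg y).1 h2))))
  have hn : ∀ (T : MulAut P) (x : P), x ≠ 1 → T x = x⁻¹ → T ≠ 1 := by
    rintro T x hx h rfl
    exact hx (hne x h)
  have T1n := hn T1 x1 n1 a11
  have T2n := hn T2 x2 n2 a22
  have b1 := hbroad T1 hT1 T2 hT2 x2 x3 n2 n3 a12 a13 a22 a23
  have b2 := hbroad T2 hT2 T1 hT1 x1 x3 n1 n3 a21 a23 a11 a13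
  have b3 := hbroad T3 hT3 T1 hT1 x1 x2 n1 n2 a31 a32 a11 a12
  have m12 := hprod T1 hT1 T2 hT2 T1n T2n b1 b2
  have m13 := hprod T1 hT1 T3 hT3 T1n T3n b1 b3
  have m23 := hprod T2 hT2 T3 hT3 T2n T3n b2 b3
  obtain ⟨g3, hg3⟩ := hdisj _ m12 (hn _ x1 n1 (by simp only [MulAut.mul_apply, map_inv, inv_inv, a11, a12, a13, a31, a32, a33, a21, a22, a23]))
  obtain ⟨g2, hg2⟩ := hdisj _ m13 (hn _ x1 n1 (by simp only [MulAut.mul_apply, map_inv, inv_inv, a11, a12, a13, a31, a32, a33, a21, a22, a23]))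
  obtain ⟨g1, hg1⟩ := hdisj _ m23 (hn _ x2 n2 (by simp only [MulAut.mul_apply, map_inv, inv_inv, a11, a12, a13, a31, a32, a33, a21, a22, a23]))
  have hfx : ∀ T ∈ I, ∀ g : P, (∀ x : P, T x = x ↔ x ∈ zpowers g) → ∀ x, x ≠ 1 → T x = x →
      ∀ S ∈ I, (S x = x → ∀ y ∈ zpowers g, S y = y) ∧ (S x = x⁻¹ → ∀ y ∈ zpowers g, S y = y⁻¹) := by
    intro T hT g hg x hx h S hS
    rcases hdich T hT g hg S hS with h' | h'
    · exact ⟨fun _ => h', fun e => absurd (hne' x (e.symm.trans (h' x ((hg x).1 h)))) hx⟩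
    · exact ⟨fun e => absurd (hne x (e.symm.trans (h' x ((hg x).1 h)))) hx, fun _ => h'⟩
  have f1 := hfx _ (mul_mem hT2 hT3) g1 hg1 x1 n1 (by simp only [MulAut.mul_apply, map_inv, inv_inv, a11, a12, a13, a31, a32, a33, a21, a22, a23])
  have f2 := hfx _ (mul_mem hT1 hT3) g2 hg2 x2 n2 (by simp only [MulAut.mul_apply, map_inv, inv_inv, a11, a12, a13, a31, a32, a33, a21, a22, a23])
  have f3 := hfx _ (mul_mem hT1 hT2) g3 hg3 x3 n3 (by simp only [MulAut.mul_apply, map_inv, inv_inv, a11, a12, a13, a31, a32, a33, a21, a22, a23])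
  have c11 := (f1 T1 hT1).2 a11 g1 (mem_zpowers _)
  have c21 := (f1 T2 hT2).1 a21 g1 (mem_zpowers _)
  have c31 := (f1 T3 hT3).1 a31 g1 (mem_zpowers _)
  have c12 := (f2 T1 hT1).1 a12 g2 (mem_zpowers _)
  have c22 := (f2 T2 hT2).2 a22 g2 (mem_zpowers _)
  have c32 := (f2 T3 hT3).1 a32 g2 (mem_zpowers _)
  have c13 := (f3 T1 hT1).1 a13 g3 (mem_zpowers _)
  have c23 := (f3 T2 hT2).1 a23 g3 (mem_zpowers _)
  have c33 := (f3 T3 hT3).2 a33 g3 (mem_zpowers _)
  have hg : ∀ (T : MulAut P) (g x : P), (∀ x : P, T x = x ↔ x ∈ zpowers g) → x ≠ 1 → T x = x →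
      g ≠ 1 := by
    rintro T g x h hx h' rfl
    exact hx (by simpa using (h x).1 h')
  have gn1 := hg _ g1 x1 hg1 n1 (by simp only [MulAut.mul_apply, map_inv, inv_inv, a11, a12, a13, a31, a32, a33, a21, a22, a23])
  have gn2 := hg _ g2 x2 hg2 n2 (by simp only [MulAut.mul_apply, map_inv, inv_inv, a11, a12, a13, a31, a32, a33, a21, a22, a23])
  have gn3 := hg _ g3 x3 hg3 n3 (by simp only [MulAut.mul_apply, map_inv, inv_inv, a11, a12, a13, a31, a32, a33, a21, a22, a23])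
  have hcl : closure {g1, g2, g3} = ⊤ := by
    rw [eq_top_iff, ← hgen, closure_le]
    intro x hx
    have q1 : zpowers g1 ≤ closure {g1, g2, g3} := zpowers_le_of_mem (subset_closure (by simp))
    have q2 : zpowers g2 ≤ closure {g1, g2, g3} := zpowers_le_of_mem (subset_closure (by simp))
    have q3 : zpowers g3 ≤ closure {g1, g2, g3} := zpowers_le_of_mem (subset_closure (by simp))
    rcases hx T1 hT1 with e1 | e1 <;> rcases hx T2 hT2 with e2 | e2 <;>
      rcases hx T3 hT3 with e3 | e3 <;>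
      first
      | (refine q1 ((hg1 x).1 ?_); simp only [MulAut.mul_apply, e2, e3, map_inv, inv_inv]; done)
      | (refine q2 ((hg2 x).1 ?_); simp only [MulAut.mul_apply, e1, e3, map_inv, inv_inv]; done)
      | (refine q3 ((hg3 x).1 ?_); simp only [MulAut.mul_apply, e1, e2, map_inv, inv_inv]; done)
  have ext3 : ∀ S S' : MulAut P, S g1 = S' g1 → S g2 = S' g2 → S g3 = S' g3 → S = S' := by
    intro S S' e1 e2 e3
    have : (S : P →* P) = (S' : P →* P) := MonoidHom.eq_of_eqOn_dense hcl fun x hx => by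
      rcases hx with rfl | rfl | rfl <;> assumption
    ext x
    exact DFunLike.congr_fun this x
  have hab : IsMulCommutative P := by
    have u12 := comm_mem hodd (T1 * T2) T3 (hTT _ (mul_mem hT1 hT2)) g1 g2 (by simp only [MulAut.mul_apply, map_inv, inv_inv, c11, c12, c13, c31, c32, c33, c21, c22, c23]) (by simp only [MulAut.mul_apply, map_inv, inv_inv, c11, c12, c13, c31, c32, c33, c21, c22, c23])
      c31 c32 fun c hc => (f3 T3 hT3).2 a33 c ((hg3 c).1 hc)
    have u13 := comm_mem hodd (T1 * T3) T2 (hTT _ (mul_mem hT1 hT3)) g1 g3 (by simp only [MulAut.mul_apply, map_inv, inv_inv, c11, c12, c13, c31, c32, c33, c21, c22, c23]) (by simp only [MulAut.mul_apply, map_inv, inv_inv, c11, c12, c13, c31, c32, c33, c21, c22, c23])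
      c21 c23 fun c hc => (f2 T2 hT2).2 a22 c ((hg2 c).1 hc)
    have u23 := comm_mem hodd (T2 * T3) T1 (hTT _ (mul_mem hT2 hT3)) g2 g3 (by simp only [MulAut.mul_apply, map_inv, inv_inv, c11, c12, c13, c31, c32, c33, c21, c22, c23]) (by simp only [MulAut.mul_apply, map_inv, inv_inv, c11, c12, c13, c31, c32, c33, c21, c22, c23])
      c12 c13 fun c hc => (f1 T1 hT1).2 a11 c ((hg1 c).1 hc)
    let π := QuotientGroup.mk' ⁅commutator P, (⊤ : Subgroup P)⁆
    have hπ : ∀ a b : P, ⁅a, b⁆ ∈ ⁅commutator P, (⊤ : Subgroup P)⁆ ↔ Commute (π a) (π b) := by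
      intro a b
      rw [← commutatorElement_eq_one_iff_commute, ← map_commutatorElement]
      exact (QuotientGroup.eq_one_iff _).symm
    rw [hπ] at u12 u13 u23
    have hall : ∀ x ∈ closure {g1, g2, g3}, ∀ y ∈ closure {g1, g2, g3}, Commute (π x) (π y) := by
      intro x hx y hy
      induction hx, hy using closure_induction₂ with
      | mem x y hx hy =>
        rcases hx with rfl | rfl | rfl <;> rcases hy with rfl | rfl | rfl <;>
          first | exact Commute.refl _ | assumption | exact u12.symm | exact u13.symm | exact u23.symm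
      | one_left => simp
      | one_right => simp
      | mul_left x y z _ _ _ h1 h2 => rw [map_mul]; exact h1.mul_left h2
      | mul_right x y z _ _ _ h1 h2 => rw [map_mul]; exact h1.mul_right h2
      | inv_left x y _ _ h => rw [map_inv]; exact h.inv_left
      | inv_right x y _ _ h => rw [map_inv]; exact h.inv_right
    have hle : commutator P ≤ ⁅commutator P, (⊤ : Subgroup P)⁆ := by
      conv_lhs => rw [_root_.commutator_def]
      rw [commutator_le]
      intro x _ y _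
      exact (hπ x y).2 (hall x (hcl ▸ mem_top x) y (hcl ▸ mem_top y))
    have hbot : commutator P = ⊥ := by
      by_contra h
      haveI : Group.IsNilpotent (⊤ : Subgroup P) := (hP.to_subgroup ⊤).isNilpotent
      exact absurd hle (Cfsg.Lib.PGroup.commutator_lt_of_nilpotent (S := ⊤) le_top
        (by rw [normalizer_eq_top]) h).not_ge
    refine ⟨⟨fun x y => ?_⟩⟩
    rw [← commutatorElement_eq_one_iff_mul_comm, ← mem_bot, ← hbot]
    exact commutator_mem_commutator (mem_top x) (mem_top y)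
  have hall : ∀ T ∈ I, T = 1 ∨ T = T1 ∨ T = T2 ∨ T = T3 ∨ T = T1 * T2 ∨ T = T1 * T3 ∨ T = T2 * T3 ∨
      T = T1 * T2 * T3 := by
    intro T hT
    have d1 := (hdich _ (mul_mem hT2 hT3) g1 hg1 T hT).imp (fun h => h g1 (mem_zpowers _))
      (fun h => h g1 (mem_zpowers _))
    have d2 := (hdich _ (mul_mem hT1 hT3) g2 hg2 T hT).imp (fun h => h g2 (mem_zpowers _))
      (fun h => h g2 (mem_zpowers _))
    have d3 := (hdich _ (mul_mem hT1 hT2) g3 hg3 T hT).imp (fun h => h g3 (mem_zpowers _))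
      (fun h => h g3 (mem_zpowers _))
    have E := fun S e1 e2 e3 => ext3 T S e1 e2 e3
    rcases d1 with e1 | e1 <;> rcases d2 with e2 | e2 <;> rcases d3 with e3 | e3
    · exact .inl (E _ e1 e2 e3)
    · exact .inr (.inr (.inr (.inl (E _ (by simp only [MulAut.mul_apply, map_inv, inv_inv, e1, e2, e3, c11, c12, c13, c31, c32, c33, c21, c22, c23]) (by simp only [MulAut.mul_apply, map_inv, inv_inv, e1, e2, e3, c11, c12, c13, c31, c32, c33, c21, c22, c23]) (by simp only [MulAut.mul_apply, map_inv, inv_inv, e1, e2, e3, c11, c12, c13, c31, c32, c33, c21, c22, c23])))))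
    · exact .inr (.inr (.inl (E _ (by simp only [MulAut.mul_apply, map_inv, inv_inv, e1, e2, e3, c11, c12, c13, c31, c32, c33, c21, c22, c23]) (by simp only [MulAut.mul_apply, map_inv, inv_inv, e1, e2, e3, c11, c12, c13, c31, c32, c33, c21, c22, c23]) (by simp only [MulAut.mul_apply, map_inv, inv_inv, e1, e2, e3, c11, c12, c13, c31, c32, c33, c21, c22, c23]))))
    · exact .inr (.inr (.inr (.inr (.inr (.inr (.inl
        (E _ (by simp only [MulAut.mul_apply, map_inv, inv_inv, e1, e2, e3, c11, c12, c13, c31, c32, c33, c21, c22, c23]) (by simp only [MulAut.mul_apply, map_inv, inv_inv, e1, e2, e3, c11, c12, c13, c31, c32, c33, c21, c22, c23]) (by simp only [MulAut.mul_apply, map_inv, inv_inv, e1, e2, e3, c11, c12, c13, c31, c32, c33, c21, c22, c23]))))))))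
    · exact .inr (.inl (E _ (by simp only [MulAut.mul_apply, map_inv, inv_inv, e1, e2, e3, c11, c12, c13, c31, c32, c33, c21, c22, c23]) (by simp only [MulAut.mul_apply, map_inv, inv_inv, e1, e2, e3, c11, c12, c13, c31, c32, c33, c21, c22, c23]) (by simp only [MulAut.mul_apply, map_inv, inv_inv, e1, e2, e3, c11, c12, c13, c31, c32, c33, c21, c22, c23])))
    · exact .inr (.inr (.inr (.inr (.inr (.inl (E _ (by simp only [MulAut.mul_apply, map_inv, inv_inv, e1, e2, e3, c11, c12, c13, c31, c32, c33, c21, c22, c23]) (by simp only [MulAut.mul_apply, map_inv, inv_inv, e1, e2, e3, c11, c12, c13, c31, c32, c33, c21, c22, c23]) (by simp only [MulAut.mul_apply, map_inv, inv_inv, e1, e2, e3, c11, c12, c13, c31, c32, c33, c21, c22, c23])))))))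
    · exact .inr (.inr (.inr (.inr (.inl (E _ (by simp only [MulAut.mul_apply, map_inv, inv_inv, e1, e2, e3, c11, c12, c13, c31, c32, c33, c21, c22, c23]) (by simp only [MulAut.mul_apply, map_inv, inv_inv, e1, e2, e3, c11, c12, c13, c31, c32, c33, c21, c22, c23]) (by simp only [MulAut.mul_apply, map_inv, inv_inv, e1, e2, e3, c11, c12, c13, c31, c32, c33, c21, c22, c23]))))))
    · exact .inr (.inr (.inr (.inr (.inr (.inr (.inr
        (E _ (by simp only [MulAut.mul_apply, map_inv, inv_inv, e1, e2, e3, c11, c12, c13, c31, c32, c33, c21, c22, c23]) (by simp only [MulAut.mul_apply, map_inv, inv_inv, e1, e2, e3, c11, c12, c13, c31, c32, c33, c21, c22, c23]) (by simp only [MulAut.mul_apply, map_inv, inv_inv, e1, e2, e3, c11, c12, c13, c31, c32, c33, c21, c22, c23]))))))))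
  have hnb : ∃ g : P, ∀ x : P, ((T1 * T2 * T3) x = x ↔ x ∈ Subgroup.zpowers g) := by
    refine ⟨1, fun x => ⟨fun h => ?_, fun h => ?_⟩⟩
    · letI : CommGroup P := { (inferInstance : Group P) with mul_comm := hab.is_comm.comm }
      have : ((T1 * T2 * T3 : MulAut P) : P →* P) = invMonoidHom :=
        MonoidHom.eq_of_eqOn_dense hcl fun x hx => by
          rcases hx with rfl | rfl | rfl <;> simp [c11, c12, c13, c31, c32, c33, c21, c22, c23]
      have h2 : (T1 * T2 * T3) x = x⁻¹ := DFunLike.congr_fun this x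
      rw [hne x (h.symm.trans h2)]
      exact one_mem _
    · rw [zpowers_one_eq_bot, mem_bot] at h
      rw [h, map_one]
  have hset : {T : MulAut P | T ∈ I ∧ T ≠ 1 ∧ ¬ ∃ g : P, ∀ x : P, (T x = x ↔ x ∈ Subgroup.zpowers g)} =
      {T1, T2, T3} := by
    ext T
    constructor
    · rintro ⟨hT, hT', hb⟩
      rcases hall T hT with rfl | rfl | rfl | rfl | rfl | rfl | rfl | rfl
      · exact absurd rfl hT'
      · simp
      · simp
      · simp
      · exact absurd ⟨g3, hg3⟩ hb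
      · exact absurd ⟨g2, hg2⟩ hb
      · exact absurd ⟨g1, hg1⟩ hb
      · exact absurd hnb hb
    · rintro (rfl | rfl | rfl)
      · exact ⟨hT1, T1n, b1⟩
      · exact ⟨hT2, T2n, b2⟩
      · exact ⟨hT3, T3n, b3⟩
  refine ⟨hab, ⟨g1, g2, g3, hcl⟩, not_two hp hodd hP hab T1 T2 g1 g2 g3 gn1 gn2 gn3 c11 c12 c13 c22 c23,
    ?_, ?_, ?_⟩
  · change Nat.card ↥{T : MulAut P | T ∈ I ∧ T ≠ 1 ∧
      ¬ ∃ g : P, ∀ x : P, (T x = x ↔ x ∈ Subgroup.zpowers g)} = 3
    rw [hset, Nat.card_coe_set_eq, Set.ncard_eq_three]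
    refine ⟨T1, T2, T3, ?_, ?_, ?_, rfl⟩
    · rintro rfl; exact n1 (hne' _ (a11.symm.trans a21))
    · rintro rfl; exact n1 (hne' _ (a11.symm.trans a31))
    · rintro rfl; exact n2 (hne' _ (a22.symm.trans a32))
  · rw [hset]
    apply le_antisymm
    · rw [closure_le]
      rintro T (rfl | rfl | rfl) <;> assumption
    · intro T hT
      have q1 : T1 ∈ closure {T1, T2, T3} := subset_closure (by simp)
      have q2 : T2 ∈ closure {T1, T2, T3} := subset_closure (by simp)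
      have q3 : T3 ∈ closure {T1, T2, T3} := subset_closure (by simp)
      rcases hall T hT with h | h | h | h | h | h | h | h <;> rw [h]
      exacts [one_mem _, q1, q2, q3, mul_mem q1 q2, mul_mem q1 q3, mul_mem q2 q3,
        mul_mem (mul_mem q1 q2) q3]
  · ext S
    constructor
    · intro hS
      rcases hall S (hI₀.le hS) with h | h | h | h | h | h | h | h
      · exact ⟨T1, T1, hT1, hT1, T1n, T1n, b1, b1, h.trans (hsq T1 hT1).symm⟩
      · exact absurd (hdisj _ (h ▸ hS) T1n) b1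
      · exact absurd (hdisj _ (h ▸ hS) T2n) b2
      · exact absurd (hdisj _ (h ▸ hS) T3n) b3
      · exact ⟨T1, T2, hT1, hT2, T1n, T2n, b1, b2, h⟩
      · exact ⟨T1, T3, hT1, hT3, T1n, T3n, b1, b3, h⟩
      · exact ⟨T2, T3, hT2, hT3, T2n, T3n, b2, b3, h⟩
      · have : T3 ∈ I₀ := by
          have := mul_mem (inv_mem m12) (show T1 * T2 * T3 ∈ I₀ from h ▸ hS)
          rwa [inv_mul_cancel_left] at this
        exact absurd (hdisj _ this T3n) b3
    · rintro ⟨T, T', h1, h2, h3, h4, h5, h6, rfl⟩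
      exact hprod T h1 T' h2 h3 h4 h5 h6

end Cfsg.Agent.S4412
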