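import Cfsg.Statements.S4413
import Cfsg.Agent.Lib.Extraspecial.Two

set_option autoImplicit false
open Cfsg Cfsg.Lib Cfsg.Lib.Orth Module

namespace Cfsg.Agent.S4413

theorem eq_one_of_fix_singular {F V : Type*} [Field F] [AddCommGroup V] [Module F V]
    {Q : QuadraticForm F V} {e f : V} (h : IsHyp Q e f) (g : O Q)
    (hg : ∀ v, Q v = 0 → g.1 v = v) : g = 1 := by
  have h1 : ∀ v, QuadraticMap.polar Q e v = 1 → g.1 v = v := fun v hv => by
    have h2 := hg _ (isHyp_of_polar_eq_one h.left hv).right
    rwa [map_sub, map_smul, hg e h.left, sub_left_inj] at h2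
  refine O.ext fun v => ?_
  have h2 := h1 (v + (1 - QuadraticMap.polar Q e v) • f) (by
    rw [QuadraticMap.polar_add_right, polar_smul_right', h.polar_eq]; ring)
  rwa [map_add, map_smul, hg f h.right, add_left_inj] at h2

theorem nonempty_equiv {V : Type*} [AddCommGroup V] [Module (ZMod 2) V]
    [FiniteDimensional (ZMod 2) V] {Q : QuadraticForm (ZMod 2) V} (hQ : ND Q)
    (h4 : finrank (ZMod 2) V = 2 * (1 + 1)) (hw : wittIndex Q = 1) :
    Nonempty (O Q ≃* Equiv.Perm (Fin 5)) := by
  have h1 := card_O_minus hQ h4 hw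
  have h2 := cnt_minus_zero hQ h4 hw
  simp only [Nat.card_zmod, Finset.range_one, Finset.prod_singleton] at h1 h2
  have h3 : Nat.card {v // Q v = 0 ∧ v ≠ 0} = 5 := by
    rw [card_singular_ne_zero]
    omega
  let S : SubMulAction (O Q) V :=
    { carrier := {v | Q v = 0 ∧ v ≠ 0}
      smul_mem' := fun g v hv => ⟨(O.map_Q g v).trans hv.1, O.apply_ne_zero g hv.2⟩ }
  have h3' : Nat.card S = 5 := h3
  have : Finite S := Nat.finite_of_card_ne_zero (by omega)
  obtain ⟨e, f, hef⟩ := exists_isHyp_of_wittIndex hQ hw.ge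
  have h5 : Function.Injective (MulAction.toPermHom (O Q) S) :=
    (injective_iff_map_eq_one _).2 fun g hg => eq_one_of_fix_singular hef g fun v hv => by
      by_cases h0 : v = 0
      · rw [h0, map_zero]
      · exact congrArg Subtype.val (Equiv.congr_fun hg ⟨v, hv, h0⟩)
  have h6 := h5.bijective_of_nat_card_le (by rw [Nat.card_perm, h3', h1]; decide)
  exact ⟨(MulEquiv.ofBijective _ h6).trans (Finite.equivFinOfCardEq h3').permCongrHom⟩

/-- Let P be an extraspecial 2-group of order 32 with no elementary abelian subgroup of order 8 (the central product of a dihedral and a quaternion group of order 8). Then the inner automorphism group of P has order 16 and the outer automorphism group Aut(P)/Inn(P) is isomorphic to the symmetric group of degree 5; in particular Aut(P) has order 1920. -/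
theorem result {P : Type*} [Group P] [Finite P]
    (hex : Cfsg.IsExtraspecial 2 P) (h32 : Nat.card P = 32)
    (hminus : ∀ A : Subgroup P, Cfsg.IsElementaryAbelian 2 A → Nat.card ↥A ≤ 4)
    [(MulAut.conj : P →* MulAut P).range.Normal] :
    Nat.card ↥(MulAut.conj : P →* MulAut P).range = 16 ∧ Nat.card (MulAut P) = 1920 ∧
      Nonempty ((MulAut P ⧸ (MulAut.conj : P →* MulAut P).range) ≃* Equiv.Perm (Fin 5)) := by
  obtain ⟨D, -, hZ, hB⟩ := ES.exists_ext_of_isExtraspecial_card hex (n := 2) h32
  have hw : wittIndex D.Q = 1 := by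
    have h1 := D.wittIndex_Q_eq_or hB (n := 2) h32
    have h2 := D.pRankLE_iff.1 (PGroup.pRankLE_iff.2 hminus : PRankLE 2 2 P)
    omega
  obtain ⟨e⟩ := D.nonempty_out_equiv hB
  obtain ⟨e'⟩ := nonempty_equiv (D.nd_Q_iff.2 hB) (by simp) hw
  have h1 : Nat.card ↥(MulAut.conj : P →* MulAut P).range = 16 := by
    have h2 : (MulAut.conj : P →* MulAut P).ker = Subgroup.center P := by
      ext x
      simp only [MonoidHom.mem_ker, Subgroup.mem_center_iff, MulEquiv.ext_iff, MulAut.conj_apply,
        MulAut.one_apply, mul_inv_eq_iff_eq_mul]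
      exact forall_congr' fun _ => eq_comm
    have h3 := (Subgroup.center P).card_mul_index
    rw [hex.2, h32, ← h2, Subgroup.index_ker] at h3
    omega
  refine ⟨h1, ?_, ⟨e.trans e'⟩⟩
  rw [← (MulAut.conj : P →* MulAut P).range.card_mul_index, h1, Subgroup.index,
    Nat.card_congr (e.trans e').toEquiv, Nat.card_perm, Nat.card_fin]
  decide

end Cfsg.Agent.S4413
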