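import Cfsg.Statements.S4415
import Cfsg.Agent.Lib.Jb3.Four
import Cfsg.Agent.Lib.Coprime.Nilpotent

set_option autoImplicit false
open Cfsg

namespace Cfsg.Agent.S4415

open Subgroup Cfsg.Lib Cfsg.Lib.Jb3 Cfsg.Lib.Core
open scoped commutatorElement

theorem v4 {S : Type*} [Group S] [Finite S] {b : S} (b3 : b * b * b = 1) {Q : Subgroup S}
    (hQ : IsElementaryAbelian 2 Q) (hQ4 : Nat.card Q = 4) (hn : b ∈ normalizer (Q : Set S))
    (hc : b ∉ centralizer (Q : Set S)) : ∃ a, V4 b a := by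
  obtain ⟨a, ha, hab⟩ : ∃ a ∈ Q, a * b ≠ b * a := by simpa [mem_centralizer_iff] using hc
  have h1 := (mem_normalizer_iff.1 hn a).1 ha
  have h2 := (mem_normalizer_iff.1 hn _).1 h1
  have n1 : a ≠ b * a * b⁻¹ := fun e => hab (eq_mul_inv_iff_mul_eq.1 e)
  have n0 : a ≠ 1 := fun e => hab (by simp [e])
  have n2 : b * a * b⁻¹ ≠ 1 := by simpa using n0
  have n3 : b * (b * a * b⁻¹) * b⁻¹ ≠ 1 := by simpa using n0
  have n4 : b * (b * a * b⁻¹) * b⁻¹ ≠ b * a * b⁻¹ := by simpa using n1.symm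
  have n5 : b * (b * a * b⁻¹) * b⁻¹ ≠ a := fun e => n1 (by
    calc a = (b * b * b) * a * (b * b * b)⁻¹ := by simp [b3]
      _ = b * (b * (b * a * b⁻¹) * b⁻¹) * b⁻¹ := by group
      _ = _ := by rw [e])
  have sq : ∀ x ∈ Q, x * x = 1 := fun x hx => by rw [← pow_two, hQ.2 x hx]
  refine ⟨a, b3, n0, sq a ha, BG.le_cent_iff.1 (BG.abelian_iff.1 hQ.1) _ ha _ h1, ?_⟩
  generalize b * (b * a * b⁻¹) * b⁻¹ = d at *
  generalize b * a * b⁻¹ = c at *
  have n6 : a * c ≠ 1 := fun e => n1 (mul_left_cancel ((sq a ha).trans e.symm))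
  have : ({1, a, c, a * c} : Set S) = Q := Set.eq_of_subset_of_ncard_le (by
    rintro _ (rfl | rfl | rfl | rfl)
    exacts [one_mem Q, ha, h1, mul_mem ha h1]) (by
    rw [Set.ncard_insert_of_notMem, Set.ncard_insert_of_notMem, Set.ncard_pair]
    · exact hQ4.le
    all_goals simp [*, eq_comm])
  rcases this.ge h2 with e | e | e | e <;> first | contradiction | exact e

theorem _root_.Cfsg.Lib.Jb3.V4.comm {S : Type*} [Group S] {b a : S} (h : V4 b a) : V4 b ⁅a, b⁆ := by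
  have := h.rot.rot
  rwa [h.pr, show a * (b * a * b⁻¹) = ⁅a, b⁆ by
    rw [commutatorElement_def, inv_eq_of_mul_eq_one_left h.sq]; group] at this

/-- Let S be a finite solvable group acting faithfully on a finite-dimensional space E over the field with three elements, with O₃(S) = 1. Let B ≤ S have order 3 and suppose: E = E₀ ⊕ E₁ with B fixing E₁ pointwise, E₀ B-invariant of order 27 and indecomposable under B (a generator of B has a single Jordan block on E₀); B normalizes but does not centralize some subgroup Q of S that is elementary abelian of order 4; and B is the centre of a Sylow 3-subgroup of S. Put R = [O_{3'}(S), B]. Then R is elementary abelian of order 4 or extraspecial of order 32 containing an elementary abelian subgroup of order 8 (a central product of two quaternion groups), and E is the direct sum of a subspace fixed pointwise by R and an RB-invariant subspace on which the subgroup RB acts faithfully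 and irreducibly. -/
theorem result {S : Type*} [Group S] [Finite S]
    [Group.IsSolvable S] {E : Type*} [AddCommGroup E] [Module (ZMod 3) E] [Finite E] (ρ : Representation (ZMod 3) S E)
    (hfaith : Function.Injective ρ) (hO3 : Cfsg.pCore 3 S = ⊥)
    (B : Subgroup S) (hB : Nat.card ↥B = 3) (b : S) (hb : Subgroup.zpowers b = B)
    (E₀ E₁ : Submodule (ZMod 3) E) (hE01 : E₀ ⊓ E₁ = ⊥) (hE01' : E₀ ⊔ E₁ = ⊤)
    (hE1 : ∀ v ∈ E₁, ρ b v = v) (hE0inv : ∀ v ∈ E₀, ρ b v ∈ E₀) (hE0 : Nat.card ↥E₀ = 27)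
    (hind : ∃ v ∈ E₀, ρ b (ρ b v - v) - (ρ b v - v) ≠ 0)
    (Q : Subgroup S) (hQ : Cfsg.IsElementaryAbelian 2 Q) (hQ4 : Nat.card ↥Q = 4)
    (hBQ : B ≤ Subgroup.normalizer (Q : Set S)) (hBQ' : ¬ B ≤ Subgroup.centralizer (Q : Set S))
    (P : Sylow 3 S) (hBZ : (Subgroup.center ↥(P : Subgroup S)).map (P : Subgroup S).subtype = B) :
    ((Cfsg.IsElementaryAbelian 2 ⁅Cfsg.pPrimeCore 3 S, B⁆ ∧ Nat.card ↥⁅Cfsg.pPrimeCore 3 S, B⁆ = 4) ∨
      (Cfsg.IsExtraspecial 2 ↥⁅Cfsg.pPrimeCore 3 S, B⁆ ∧ Nat.card ↥⁅Cfsg.pPrimeCore 3 S, B⁆ = 32 ∧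
        ∃ A : Subgroup S, A ≤ ⁅Cfsg.pPrimeCore 3 S, B⁆ ∧ Cfsg.IsElementaryAbelian 2 A ∧ Nat.card ↥A = 8)) ∧
    ∃ F₀ F₁ : Submodule (ZMod 3) E, F₀ ⊓ F₁ = ⊥ ∧ F₀ ⊔ F₁ = ⊤ ∧
      (∀ r ∈ ⁅Cfsg.pPrimeCore 3 S, B⁆, ∀ v ∈ F₁, ρ r v = v) ∧ (∀ r ∈ ⁅Cfsg.pPrimeCore 3 S, B⁆ ⊔ B, ∀ v ∈ F₀, ρ r v ∈ F₀) ∧
      (∀ r ∈ ⁅Cfsg.pPrimeCore 3 S, B⁆ ⊔ B, (∀ v ∈ F₀, ρ r v = v) → r = 1) ∧
      (∀ N : Submodule (ZMod 3) E, N ≤ F₀ → (∀ r ∈ ⁅Cfsg.pPrimeCore 3 S, B⁆ ⊔ B, ∀ v ∈ N, ρ r v ∈ N) → N = ⊥ ∨ N = F₀) := by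
  haveI : Fact (Nat.Prime 3) := ⟨Nat.prime_three⟩
  subst hb
  have b3 : b * b * b = 1 := by
    rw [mul_assoc, ← pow_three, ← hB, Nat.card_zpowers, pow_orderOf_eq_one]
  obtain ⟨a, ha⟩ := v4 b3 hQ hQ4 (hBQ (mem_zpowers b)) fun h => hBQ' (zpowers_le.2 h)
  have hN := not_dvd_card_pPrimeCore 3 S
  have h1 : ⁅a, b⁆ ∈ pPrimeCore 3 S := by
    let f := QuotientGroup.mk' (pPrimeCore 3 S)
    obtain ⟨⟨_, hP⟩, hz, rfl⟩ := hBZ.ge (mem_zpowers b)
    have h2 : f _ ∈ pCore 3 _ := centralizer_pCore_le_of_isSolvable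
      (pPrimeCore_quotient_pPrimeCore 3 S) (mem_centralizer_iff.2 fun x hx => by
        obtain ⟨y, hy, rfl⟩ := pCore_le_sylow (P.mapSurjective (QuotientGroup.mk'_surjective _)) hx
        rw [← map_mul, ← map_mul]
        exact congrArg (fun t : (P : Subgroup S) => f t) (mem_center_iff.1 hz ⟨y, hy⟩))
    obtain ⟨k, hk⟩ := pCore_isPGroup 3 _ ⟨_, mul_mem (Normal.conj_mem inferInstance _ h2 (f a))
      (inv_mem h2)⟩
    refine (QuotientGroup.eq_one_iff _).1 (orderOf_eq_one_iff.1 (Nat.eq_one_of_dvd_coprimes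
      ((by decide : Nat.Coprime 2 3).pow_right k) (orderOf_dvd_of_pow_eq_one ?_)
      (orderOf_dvd_of_pow_eq_one (congrArg Subtype.val hk))))
    rw [pow_two, ← QuotientGroup.mk_mul, ha.comm.sq, QuotientGroup.mk_one]
  have h2 := ha.comm.comm
  have h3 := commutator_mem_commutator h1 (mem_zpowers b)
  have h4 := Coprime.commutator_commutator_eq' (A := zpowers b) (K := pPrimeCore 3 S)
    le_normalizer_of_normal (hB ▸ Nat.prime_three.coprime_iff_not_dvd.2 hN)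
  have h5 : ¬ 3 ∣ Nat.card ↥⁅pPrimeCore 3 S, zpowers b⁆ := fun h =>
    hN (h.trans (card_dvd_of_le (commutator_le_left _ _)))
  have h6 : zpowers b ≤ normalizer (⁅pPrimeCore 3 S, zpowers b⁆ : Subgroup S) :=
    normalizer_commutator_ge_right _ _
  generalize ⁅⁅a, b⁆, b⁆ = v at h2 h3
  generalize ⁅pPrimeCore 3 S, zpowers b⁆ = R at *
  have hb : b ∈ R ⊔ zpowers b := mem_sup_right (mem_zpowers b)
  have m1 : (R.subgroupOf (R ⊔ zpowers b)).map (R ⊔ zpowers b).subtype = R :=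
    map_subgroupOf_eq_of_le le_sup_left
  have m2 : (zpowers (⟨b, hb⟩ : ↥(R ⊔ zpowers b))).map (R ⊔ zpowers b).subtype = zpowers b :=
    MonoidHom.map_zpowers _ _
  have e := subgroupOfEquivOfLe (le_sup_left : R ≤ R ⊔ zpowers b)
  have h : St (ρ.comp (R ⊔ zpowers b).subtype) (R.subgroupOf (R ⊔ zpowers b)) ⟨b, hb⟩ := by
    refine ⟨hfaith.comp Subtype.val_injective, normal_subgroupOf_of_le_normalizer
      (sup_le le_normalizer h6), by rwa [Nat.card_congr e.toEquiv], map_injective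
      (subtype_injective _) ?_, map_injective (subtype_injective _) ?_, inferInstance, ?_,
      ⟨v, mem_sup_left h3⟩, h3, Subtype.ext b3, fun e => h2.ne (congrArg Subtype.val e),
      Subtype.ext h2.sq, Subtype.ext h2.cm, Subtype.ext h2.pr⟩
    · rw [Subgroup.map_sup, m1, m2, ← MonoidHom.range_eq_map, range_subtype]
    · rw [map_commutator, m1, m2, h4]
    · let f : E₀ →ₗ[ZMod 3] E := (ρ b - 1).domRestrict E₀
      have r1 := f.finrank_range_add_finrank_ker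
      have r2 : Module.finrank (ZMod 3) E₀ = 3 := Nat.pow_right_injective (by decide : 2 ≤ 3) (by
        have := Module.natCard_eq_pow_finrank (K := ZMod 3) (V := E₀)
        rw [Nat.card_zmod, hE0] at this
        exact this.symm)
      have r3 : 0 < Module.finrank (ZMod 3) (LinearMap.ker f) := by
        obtain ⟨x, hx, x0⟩ := hind
        have x1 := E₀.sub_mem (hE0inv x hx) hx
        refine Module.finrank_pos_iff_exists_ne_zero.2 ⟨⟨⟨_, E₀.sub_mem (hE0inv _ x1) x1⟩, ?_⟩,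
          fun e => x0 (congrArg (·.1.1) e)⟩
        have : ρ b (ρ b (ρ b x)) = x := by rw [← mul_ap, ← mul_ap, b3, one_ap]
        change ρ b (ρ b (ρ b x - x) - (ρ b x - x)) - (ρ b (ρ b x - x) - (ρ b x - x)) = 0
        simp only [map_sub, this]
        linear_combination (norm := abel) t3 (ρ b x) - t3 (ρ b (ρ b x))
      refine (Submodule.finrank_mono (t := LinearMap.range f) (U_le.2 fun x => ?_)).trans
        (by omega)
      obtain ⟨y, hy, z, hz, rfl⟩ := Submodule.mem_sup.1 (hE01'.ge (Submodule.mem_top (x := x)))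
      exact ⟨⟨y, hy⟩, by
        change ρ b y - y = ρ b (y + z) - (y + z)
        rw [map_add, hE1 z hz, add_sub_add_right_eq_sub]⟩
  refine ⟨h.main.imp (fun t => ⟨m1 ▸ PGroup.elemAb_map _ t.1, Nat.card_congr e.toEquiv ▸ t.2⟩)
    fun ⟨t1, t2, A, t3, t4, t5⟩ => ⟨ES.isExtraspecial_congr e t1, Nat.card_congr e.toEquiv ▸ t2,
      A.map (R ⊔ zpowers b).subtype, (map_mono t3).trans m1.le, PGroup.elemAb_map _ t4,
      (card_map_of_injective (subtype_injective _)).trans t5⟩, _, _, h.compl.inf_eq_bot,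
    h.compl.sup_eq_top, fun r hr x hx => hx ⟨⟨r, mem_sup_left hr⟩, hr⟩,
    fun r hr x hx => h.inv_F0 ⟨r, hr⟩ hx,
    fun r hr hx => congrArg Subtype.val (h.faith (g := ⟨r, hr⟩) hx),
    fun N hN hi => h.irr hN fun g => hi g g.2⟩

end Cfsg.Agent.S4415
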