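import Cfsg.Statements.S4417
import Cfsg.Agent.Lib.BG.Hall
import Cfsg.Agent.Lib.FGS.LinDer

set_option autoImplicit false
open Cfsg

namespace Cfsg.Agent.S4417

/-- Let F be a field with q elements, p a prime not dividing q, and e the multiplicative order of q modulo p; assume e ≤ n. Then every p-subgroup of GL_n(F) has derived length at most ⌊log₂(n/e)⌋ + 1: that term of its derived series is trivial (n/e is the integer quotient). -/
theorem result {F : Type*} [Field F] [Fintype F] (q : ℕ) (hF : Fintype.card F = q) (p : ℕ) [Fact p.Prime] (hpq : ¬ p ∣ q) (n e : ℕ) (he : e = orderOf (q : ZMod p)) (hen : e ≤ n) (P : Subgroup (GL (Fin n) F)) (hP : IsPGroup p P) : derivedSeries ↥P (Nat.log 2 (n / e) + 1) = ⊥ := by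
  open Subgroup Cfsg.Lib Cfsg.Lib.BG Cfsg.Lib.Transfer in
  open Cfsg.Lib Cfsg.Lib.FGS in
  rw [← Nat.card_eq_fintype_card] at hF
  subst hF
  refine eq_bot_iff.2 fun g hg => Subtype.ext (Units.ext (Matrix.toLinAlgEquiv'.injective ?_))
  rw [OneMemClass.coe_one, Units.val_one, map_one]
  refine derived_finite hpq hP (Matrix.toLinAlgEquiv'.toMonoidHom.comp ((Units.coeHom _).comp P.subtype)) ?_ hg
  have h0 : 0 < e := he ▸ (isOfFinOrder_iff_pow_eq_one.2 ⟨p - 1, Nat.sub_pos_of_lt (Fact.out : p.Prime).one_lt,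
    ZMod.pow_card_sub_one_eq_one fun k => hpq ((ZMod.natCast_eq_zero_iff _ _).1 k)⟩).orderOf_pos
  rw [← he, Module.finrank_fin_fun, mul_comm]
  exact (Nat.div_lt_iff_lt_mul h0).1 (Nat.lt_pow_succ_log_self one_lt_two _)

end Cfsg.Agent.S4417
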