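import Cfsg.Statements.S4420
import Cfsg.Agent.Lib.FGS.Misc

set_option autoImplicit false
open Cfsg

namespace Cfsg.Agent.S4420

section
open Cfsg.Lib.FGS Cfsg.Lib.BG Cfsg.Lib.Transfer

theorem inv_of_sq {H : Type*} [Group H] {x y : H} (hx : x ^ 2 = 1) (hxy : (x * y) ^ 2 = 1) : x * y * x⁻¹ = y⁻¹ := by
  have h1 : x⁻¹ = x := inv_eq_of_mul_eq_one_left (by rw [← pow_two, hx])
  rw [h1, eq_inv_iff_mul_eq_one, mul_assoc, ← pow_two, hxy]

theorem aux {H : Type*} [Group H] {B : Subgroup H} (hB : B ≠ ⊤) (hD : ∀ x : H, x ∉ B → x ^ 2 = 1) :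
    IsMulCommutative B ∧ ∀ x : H, x ∉ B → x ^ 2 = 1 ∧ ∀ b ∈ B, x * b * x⁻¹ = b⁻¹ := by
  have h1 : ∀ x : H, x ∉ B → x ^ 2 = 1 ∧ ∀ b ∈ B, x * b * x⁻¹ = b⁻¹ := fun x hx =>
    ⟨hD x hx, fun b hb => inv_of_sq (hD x hx) (hD _ fun h => hx (by simpa using mul_mem h (inv_mem hb)))⟩
  obtain ⟨x, hx⟩ : ∃ x, x ∉ B := by
    by_contra hc; push Not at hc; exact hB (eq_top_iff.2 fun x _ => hc x)
  refine ⟨abelian_iff.2 (le_cent_iff.2 fun a ha b hb => ?_), h1⟩
  have e := (h1 x hx).2 _ (mul_mem ha hb)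
  have : x * (a * b) * x⁻¹ = (x * a * x⁻¹) * (x * b * x⁻¹) := by group
  rw [this, (h1 x hx).2 a ha, (h1 x hx).2 b hb, ← mul_inv_rev, inv_inj] at e
  exact e.symm

end

/-- Structure of groups in which every element outside some proper subgroup has square 1. Let H be a finite group with a proper subgroup A such that every element outside A has square 1. Then H has an abelian normal subgroup B of index 2 such that every element outside B is an involution inverting every element of B; and if H is not an elementary abelian 2-group, B is the only abelian normal subgroup of index 2 with this property. -/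
theorem result {H : Type*} [Group H] [Finite H] (A : Subgroup H) (hA : A ≠ ⊤) (hD : ∀ x : H, x ∉ A → x ^ 2 = 1) :
    ∃ B : Subgroup H, B.Normal ∧ IsMulCommutative ↥B ∧ B.index = 2 ∧
      (∀ x : H, x ∉ B → x ^ 2 = 1 ∧ ∀ b ∈ B, x * b * x⁻¹ = b⁻¹) ∧
      (¬ (IsMulCommutative H ∧ ∀ x : H, x ^ 2 = 1) →
        ∀ B' : Subgroup H, B'.Normal → IsMulCommutative ↥B' → B'.index = 2 →
          (∀ x : H, x ∉ B' → x ^ 2 = 1 ∧ ∀ b ∈ B', x * b * x⁻¹ = b⁻¹) → B' = B) := by
  open Cfsg.Lib.FGS Cfsg.Lib.BG Cfsg.Lib.Transfer in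
  by_cases h2 : ∀ x : H, x ^ 2 = 1
  · obtain ⟨B, hB, -⟩ := exists_coatom_ge hA
    have hcomm : ∀ a b : H, a * b = b * a := fun a b => by
      have := inv_of_sq (h2 a) (h2 (a * b))
      rw [inv_eq_of_mul_eq_one_left (show b * b = 1 by rw [← pow_two, h2]), mul_inv_eq_iff_eq_mul] at this
      exact this
    have hn : B.Normal := ⟨fun n hn g => by rw [hcomm g n]; simpa using hn⟩
    obtain ⟨h3, h4⟩ := aux hB.1 fun x _ => h2 x
    refine ⟨B, hn, h3, ?_, h4, fun h => absurd ⟨⟨⟨hcomm⟩⟩, h2⟩ h⟩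
    obtain ⟨a, ha⟩ : ∃ x, x ∉ B := by
      by_contra hc; push Not at hc; exact hB.1 (eq_top_iff.2 fun x _ => hc x)
    have h5 : B ⊔ Subgroup.zpowers a = ⊤ := hB.2 _ (left_lt_sup.2 (by rwa [Subgroup.zpowers_le]))
    rw [← Subgroup.relIndex_top_right, ← h5, Subgroup.relIndex_sup_left]
    have h6 : B.relIndex (Subgroup.zpowers a) ∣ 2 :=
      (relIndex_dvd_card _ _).trans (by rw [Nat.card_zpowers]; exact orderOf_dvd_of_pow_eq_one (h2 a))
    refine ((Nat.dvd_prime Nat.prime_two).1 h6).resolve_left fun h => ha ?_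
    exact Subgroup.relIndex_eq_one.1 h (Subgroup.mem_zpowers a)
  · push Not at h2
    obtain ⟨z, hz⟩ := h2
    have hz' : z ≠ z⁻¹ := fun h => hz (by rw [pow_two]; nth_rewrite 2 [h]; simp)
    obtain ⟨h3, h4⟩ := aux hA hD
    have hzA : z ∈ A := by_contra fun h => hz (hD z h)
    have h5 : A.index = 2 := by
      obtain ⟨a, ha⟩ : ∃ x, x ∉ A := by
        by_contra hc; push Not at hc; exact hA (eq_top_iff.2 fun x _ => hc x)
      refine Subgroup.index_eq_two_iff.2 ⟨a, fun b => ?_⟩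
      by_cases hb : b ∈ A
      · exact Or.inr ⟨hb, fun h => ha (by simpa using mul_mem (inv_mem hb) h)⟩
      · refine Or.inl ⟨by_contra fun h => hz' ?_, hb⟩
        rw [← (h4 _ h).2 z hzA]
        calc z = b * z⁻¹ * b⁻¹ := by
              rw [(h4 b hb).2 _ (inv_mem hzA), inv_inv]
          _ = _ := by rw [← (h4 a ha).2 z hzA]; group
    refine ⟨A, Subgroup.normal_of_index_eq_two h5, h3, h5, h4, fun _ B' _ h6 h7 h8 => ?_⟩
    have hzB : z ∈ B' := by_contra fun h => hz (h8 z h).1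
    have h9 : B' ≤ A := fun x hx => by_contra fun h => hz' (by
      rw [← (h4 x h).2 z hzA, le_cent_iff.1 (abelian_cent h6) x hx z hzB]; simp)
    have := Subgroup.relIndex_mul_index h9
    rw [h5, h7] at this
    exact h9.antisymm (Subgroup.relIndex_eq_one.1 (by omega))

end Cfsg.Agent.S4420
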