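import Cfsg.Statements.S4429
import Cfsg.Agent.Lib.G23.Ord1

set_option autoImplicit false
open Cfsg

namespace Cfsg.Agent.S4429



/-- Let G be a simple group of order 7920. Then G has exactly ten irreducible complex characters, and their degrees, listed with multiplicity, are 1, 10, 10, 10, 11, 16, 16, 44, 45, 55: for every natural number n, the number of irreducible characters of degree n is 1 if n ∈ {1, 11, 44, 45, 55}, 3 if n = 10, 2 if n = 16, and 0 otherwise. -/
theorem result {G : Type*} [Group G] [Finite G] [IsSimpleGroup G] (hG : Nat.card G = 7920) : Nat.card (Cfsg.IrrCharacter G) = 10 ∧ ∀ n : ℕ, Nat.card {χ : Cfsg.IrrCharacter G // Cfsg.charDegree (χ : G → ℂ) = n} = (if n = 1 ∨ n = 11 ∨ n = 44 ∨ n = 45 ∨ n = 55 then 1 else if n = 10 then 3 else if n = 16 then 2 else 0) := by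
  classical
  have h := (Lib.G23.o79 hG).degs
  refine ⟨?_, fun n => ?_⟩
  · have := congrArg Multiset.card h
    rwa [Lib.G23.degM, Multiset.card_map, Finset.card_val, Finset.card_univ,
      ← Nat.card_eq_fintype_card] at this
  · have := congrArg (Multiset.count n) h
    rw [Lib.G23.degM, Multiset.count_map] at this
    rw [Nat.card_eq_fintype_card, Fintype.card_subtype, Finset.card_def, Finset.filter_val]
    simp only [eq_comm (a := n)] at this
    rw [this]
    simp only [Multiset.insert_eq_cons, Multiset.count_cons, Multiset.count_singleton]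
    split_ifs <;> omega

end Cfsg.Agent.S4429
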