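import Cfsg.Statements.S4466
import Cfsg.Agent.Lib.CharDeg.DerivedP
import Cfsg.Agent.Lib.Modular.Values
import Cfsg.Agent.Lib.Modular.PPart
import Cfsg.Agent.Lib.Transfer.SylowIn

set_option autoImplicit false
open Cfsg

namespace Cfsg.Agent.S4466

open Cfsg.Lib.Char Cfsg.Lib.CharDeg Cfsg.Lib.Modular Subgroup
open scoped commutatorElement

section
variable {G : Type*} [Group G] [Finite G] [IsSimpleGroup G]

theorem vanish (hZ : center G = ⊥) {ψ : G → ℂ} (hψ : IsIrrCharacter G ψ) (h1 : ψ ≠ fun _ => 1)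
    {g : G} (hg : g ≠ 1) (hc : (charDegree ψ).Coprime (centralizer ({g} : Set G)).index) :
    ψ g = 0 := by
  refine (hψ.eq_zero_or_norm_eq_of_coprime hc).resolve_right fun h => hg ?_
  have := hψ.isCharacter.charCenter_le_center (hψ.charKer_eq_bot_of_isSimpleGroup h1)
    (hψ.isCharacter.mem_charCenter_iff.2 h)
  rwa [hZ, mem_bot] at this

theorem faithful {ψ : G → ℂ} (hψ : IsIrrCharacter G ψ) (h1 : ψ ≠ fun _ => 1) {g : G}
    (hg : ψ g = ψ 1) : g = 1 := by
  have := hψ.isCharacter.mem_charKer_iff.2 hg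
  rwa [hψ.charKer_eq_bot_of_isSimpleGroup h1, mem_bot] at this

theorem sylow_struct (hZ : center G = ⊥) {χ : G → ℂ} (hχ : IsIrrCharacter G χ)
    (h1 : χ ≠ fun _ => 1) {q : ℕ} [hq : Fact q.Prime] (hd : charDegree χ = q) (Q : Sylow q G) :
    Nat.card Q = q ∧ centralizer ((Q : Subgroup G) : Set G) = Q := by
  haveI := Fintype.ofFinite Q
  have hv : ∀ g ∈ centralizer ((Q : Subgroup G) : Set G), g ≠ 1 → χ g = 0 := by
    intro g hg hg1
    refine vanish hZ hχ h1 hg1 (hd ▸ (Nat.Prime.coprime_iff_not_dvd hq.out).2 fun h => ?_)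
    exact Q.not_dvd_index (h.trans (index_dvd_of_le fun x hx =>
      mem_centralizer_singleton_iff.2 (hg x hx)))
  have hqQ : q ∣ Nat.card Q := Q.dvd_card_of_dvd_card (hd ▸ hχ.charDegree_dvd_card)
  have hab : (Q : Subgroup G) ≤ centralizer ((Q : Subgroup G) : Set G) := by
    by_cases hall : ∀ ψ, IsIrrCharacter Q ψ → classInner (fun x : Q => χ x) ψ ≠ 0 → ψ 1 = 1
    · intro a ha b hb
      refine commutatorElement_eq_one_iff_mul_comm.1 (faithful hχ h1 ?_)
      exact (hχ.isCharacter.restrict Q).apply_eq_of_forall_constituent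
        (g := ⁅(⟨b, hb⟩ : Q), ⟨a, ha⟩⁆) fun ψ hψ hne =>
          hψ.isCharacter.apply_commutator_of_apply_one (hall ψ hψ hne) _ _
    · exfalso
      push Not at hall
      obtain ⟨ψ, hψ, hne, hψ1⟩ := hall
      have h2 := (hχ.isCharacter.restrict Q).charDegree_le_of_constituent hψ hne
      have h3 := Nat.le_of_dvd hψ.charDegree_pos
        ((dvd_charDegree_iff_of_isPGroup Q.isPGroup' hψ).2 hψ1)
      have h4 : charDegree (fun x : (Q : Subgroup G) => χ x) = q := hd
      have e := Cfsg.Lib.Induce.eq_of_constituent_of_apply_one_eq (hχ.isCharacter.restrict Q) hψ hne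
        (by rw [(hχ.isCharacter.restrict Q).apply_one_eq, hψ.apply_one_eq, h4]; congr 1; omega)
      haveI : Nontrivial Q := Finite.one_lt_card_iff_nontrivial.1
        (lt_of_lt_of_le hq.out.one_lt (Nat.le_of_dvd Nat.card_pos hqQ))
      haveI := Q.isPGroup'.center_nontrivial
      obtain ⟨⟨z, hz⟩, hz1⟩ := exists_ne (1 : center (Q : Subgroup G))
      have h5 := hψ.isCharacter.mem_charCenter_iff.1 (hψ.center_le_charCenter hz)
      rw [← e] at h5
      have h6 := hv z (fun x hx => congrArg Subtype.val (mem_center_iff.1 hz ⟨x, hx⟩))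
        (fun h => hz1 (Subtype.ext (Subtype.ext h)))
      simp only [h6, norm_zero, OneMemClass.coe_one] at h5
      exact hχ.apply_one_ne_zero (norm_eq_zero.1 h5.symm)
  have h7 := card_dvd_charDegree_of_vanish hχ.isCharacter _ hv
  rw [hd] at h7
  have h8 : Nat.card Q = q := Nat.dvd_antisymm ((card_dvd_of_le hab).trans h7) hqQ
  exact ⟨h8, (eq_of_le_of_card_ge hab (by rw [h8]; exact Nat.le_of_dvd hq.out.pos h7)).symm⟩

theorem degree_ne_two (hZ : center G = ⊥) {χ : G → ℂ} (hχ : IsIrrCharacter G χ)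
    (h1 : χ ≠ fun _ => 1) : charDegree χ ≠ 2 := by
  intro hd
  obtain ⟨Q⟩ : Nonempty (Sylow 2 G) := inferInstance
  obtain ⟨h2, h3⟩ := sylow_struct hZ hχ h1 hd Q
  have hmin : (Nat.card G).minFac = 2 := (Nat.minFac_eq_two_iff _).2 (hd ▸ hχ.charDegree_dvd_card)
  have hc := IsCyclic.isComplement' hmin (isCyclic_of_prime_card h2)
  have hcard := hc.card_mul
  rcases IsSimpleGroup.eq_bot_or_eq_top_of_normal _
    (MonoidHom.normal_ker (MonoidHom.transferSylow Q
      ((isCyclic_of_prime_card h2).normalizer_le_centralizer hmin))) with h | h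
  · rw [h, card_bot, one_mul] at hcard
    have hQ : (Q : Subgroup G) = ⊤ := eq_top_of_card_eq _ hcard
    rw [hQ, coe_top, centralizer_univ, hZ] at h3
    exact absurd h3 bot_ne_top
  · rw [h, card_top, h2] at hcard
    have := Nat.card_pos (α := G)
    omega

theorem simple_case (hZ : center G = ⊥)
    (h : ∀ χ : IrrCharacter G, charDegree (χ : G → ℂ) ≠ 1 → (charDegree (χ : G → ℂ)).Prime) :
    False := by
  classical
  haveI := Fintype.ofFinite G
  have hpr : ∀ χ : IrrCharacter G, χ ≠ irrOne G → (charDegree (χ : G → ℂ)).Prime := by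
    intro χ hχ
    refine h χ fun h1 => ?_
    have h2 : center G = ⊤ := eq_top_iff.2 fun a _ => mem_center_iff.2 fun b =>
      commutatorElement_eq_one_iff_mul_comm.1 (faithful χ.2 (fun e => hχ (Subtype.ext e))
        (χ.2.isCharacter.apply_commutator_of_apply_one
          (χ.2.isCharacter.charDegree_eq_one_iff.1 h1) b a))
    exact absurd (hZ.symm.trans h2) bot_ne_top
  obtain ⟨χ, hχ, hmax⟩ := Finset.exists_max_image (Finset.univ.erase (irrOne G))
    (fun χ : IrrCharacter G => charDegree (χ : G → ℂ)) (by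
      obtain ⟨g, hg⟩ := exists_ne (1 : G)
      obtain ⟨χ, hχ, h1⟩ := exists_irr_apply_ne_of_ne_one hg
      exact ⟨⟨χ, hχ⟩, Finset.mem_erase.2 ⟨fun e => h1 (by
        rw [show χ = fun _ => 1 from congrArg Subtype.val e]), Finset.mem_univ _⟩⟩)
  have hχ1 := (Finset.mem_erase.1 hχ).1
  set q := charDegree (χ : G → ℂ) with hqdef
  have hq : q.Prime := hpr χ hχ1
  haveI : Fact q.Prime := ⟨hq⟩
  obtain ⟨Q⟩ : Nonempty (Sylow q G) := inferInstance
  obtain ⟨hQ, hCQ⟩ := sylow_struct hZ χ.2 (fun e => hχ1 (Subtype.ext e)) hqdef.symm Q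
  obtain ⟨x, hxo, hxQ⟩ : ∃ x : G, orderOf x = q ∧ zpowers x = Q := by
    obtain ⟨x, hx⟩ := exists_prime_orderOf_dvd_card' (G := Q) q (by rw [hQ])
    have h1 : orderOf (x : G) = q := by rw [Subgroup.orderOf_coe, hx]
    exact ⟨x, h1, eq_of_le_of_card_ge (zpowers_le.2 x.2) (by rw [Nat.card_zpowers, h1, hQ])⟩
  let X : (ZMod q)ˣ → G := fun u => x ^ (u : ZMod q).val
  have hX : ∀ u v, X (u * v) = X u ^ (v : ZMod q).val := by
    intro u v
    simp only [X]
    rw [← pow_mul, pow_eq_pow_iff_modEq, hxo, Units.val_mul, ZMod.val_mul]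
    exact Nat.mod_modEq _ _
  have hX1 : X 1 = x := by simp only [X]; rw [Units.val_one, ZMod.val_one, pow_one]
  have hXe : ∀ y ∈ (Q : Subgroup G), y ≠ 1 → ∃ u, X u = y := by
    intro y hy hy1
    rw [← hxQ] at hy
    obtain ⟨i, rfl⟩ := mem_powers_iff_mem_zpowers.2 hy
    have hi : i.Coprime q := ((Nat.Prime.coprime_iff_not_dvd hq).2 fun hd =>
      hy1 (orderOf_dvd_iff_pow_eq_one.1 (hxo ▸ hd))).symm
    refine ⟨ZMod.unitOfCoprime i hi, ?_⟩
    simp only [X]
    rw [ZMod.coe_unitOfCoprime, ZMod.val_natCast, ← hxo, pow_mod_orderOf]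
  have hXo : ∀ u, orderOf (X u) = q := fun u => by
    refine Eq.trans ?_ hxo
    exact Nat.Coprime.orderOf_pow (by rw [hxo]; exact (ZMod.val_coe_unit_coprime u).symm)
  have hXQ : ∀ u, zpowers (X u) = Q := fun u =>
    eq_of_le_of_card_ge (zpowers_le.2 (hxQ ▸ pow_mem (mem_zpowers x) _))
      (by rw [Nat.card_zpowers, hXo, hQ])
  have hCX : ∀ u, centralizer ({X u} : Set G) = Q := fun u => by
    rw [← hCQ, ← hXQ u, zpowers_eq_closure, centralizer_closure]
  have hsing : ∀ g : G, q ∣ orderOf g → ∃ u, IsConj g (X u) := by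
    intro g hg
    obtain ⟨c, hc⟩ := Cfsg.Lib.Transfer.exists_conj_le_of_not_dvd_index Q.not_dvd_index
      (isPGroup_zpowers hq (pElt_pPart hq g))
    have h1 : c * pPart q g * c⁻¹ ∈ (Q : Subgroup G) := hc (mem_map_of_mem _ (mem_zpowers _))
    obtain ⟨u, hu⟩ := hXe _ h1 (fun e => (pPart_ne_one_iff hq).2 hg (by simpa using e))
    have h2 : c * g * c⁻¹ ∈ (Q : Subgroup G) := by
      rw [← hCX u, mem_centralizer_singleton_iff, hu]
      have := (commute_pPart q g).eq
      calc _ = c * (g * pPart q g) * c⁻¹ := by group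
        _ = _ := by rw [this]; group
    obtain ⟨v, hv⟩ := hXe _ h2 (fun e => hq.one_lt.not_ge (Nat.le_of_dvd one_pos (by
      have : g = 1 := by simpa using e
      rwa [this, orderOf_one] at hg)))
    exact ⟨v, isConj_iff.2 ⟨c, hv.symm⟩⟩
  set m := (Q : Subgroup G).index with hm
  have hG : Nat.card G = q * m := by rw [← hQ, hm]; exact (card_mul_index _).symm
  have hqm : q.Coprime m := (Nat.Prime.coprime_iff_not_dvd hq).2 Q.not_dvd_index
  have hk : ∀ u : (ZMod q)ˣ, ∃ k : ℕ, k.Coprime (Nat.card G) ∧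
      (∀ g : G, ¬ q ∣ orderOf g → g ^ k = g) ∧ ∀ v, X v ^ k = X (v * u) := by
    intro u
    obtain ⟨k, h1, h2⟩ := Nat.chineseRemainder hqm (u : ZMod q).val 1
    refine ⟨k, ?_, fun g hg => ?_, fun v => ?_⟩
    · rw [hG]
      refine Nat.Coprime.mul_right ?_ ?_
      · rw [Nat.Coprime, h1.gcd_eq]; exact ZMod.val_coe_unit_coprime u
      · rw [Nat.Coprime, h2.gcd_eq]; simp
    · have : orderOf g ∣ m := ((Nat.Prime.coprime_iff_not_dvd hq).2 hg).symm.dvd_of_dvd_mul_left
        (hG ▸ orderOf_dvd_natCard g)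
      rw [pow_eq_pow_iff_modEq.2 (h2.of_dvd this), pow_one]
    · rw [hX, pow_eq_pow_iff_modEq, hXo]; exact h1
  choose k hk1 hk2 hk3 using hk
  have hconj : ∀ u, IsConj x (X u) → ∀ v, IsConj (X v) (X (v * u)) := by
    intro u hu v
    rw [mul_comm, hX]
    exact hu.pow _
  have hfix : ∀ u (φ : IrrCharacter G), (∀ g, (φ : G → ℂ) (g ^ k u) = (φ : G → ℂ) g) ↔
      ∀ v, (φ : G → ℂ) (X (v * u)) = (φ : G → ℂ) (X v) := by
    intro u φ
    refine ⟨fun h v => by rw [← hk3, h], fun h g => ?_⟩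
    by_cases hg : q ∣ orderOf g
    · obtain ⟨v, hv⟩ := hsing g hg
      rw [φ.2.isClassFunction.eq_of_isConj hv, φ.2.isClassFunction.eq_of_isConj (hv.pow _), hk3, h]
    · rw [hk2 u g hg]
  set Cl := Finset.univ.filter (fun C : ConjClasses G => ∃ u, ConjClasses.mk (X u) = C) with hCl
  set NF := fun u => Finset.univ.filter
    (fun φ : IrrCharacter G => ¬ ∀ v, (φ : G → ℂ) (X (v * u)) = (φ : G → ℂ) (X v)) with hNF
  set T := Finset.univ.filter
    (fun φ : IrrCharacter G => ¬ ∀ v, (φ : G → ℂ) (X v) = (φ : G → ℂ) x) with hT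
  have hA : ∀ u, ¬ IsConj x (X u) → (NF u).card = Cl.card := by
    intro u hu
    have h1 := brauer_permutation_comp (G := G) (· ^ k u) (fun a b hab => hab.pow _)
      (fun φ hφ => hφ.comp_pow (hk1 u))
    rw [Nat.subtype_card (NF u)ᶜ (fun φ => by simp [hNF, hfix]),
      Nat.subtype_card Clᶜ (fun C => ?_), Finset.card_compl, Finset.card_compl,
      ← Nat.card_eq_fintype_card, ← Nat.card_eq_fintype_card, card_irr_eq_card_conjClasses] at h1
    · have h2 := Finset.card_le_univ (NF u)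
      have h3 := Finset.card_le_univ Cl
      rw [← Nat.card_eq_fintype_card] at h2 h3
      rw [card_irr_eq_card_conjClasses] at h2
      omega
    · simp only [hCl, Finset.mem_compl, Finset.mem_filter, Finset.mem_univ, true_and, not_exists]
      constructor
      · intro hC g hg
        by_cases hg' : q ∣ orderOf g
        · obtain ⟨v, hv⟩ := hsing g hg'
          exact absurd ((ConjClasses.mk_eq_mk_iff_isConj.2 hv).symm.trans hg) (hC v)
        · rw [hk2 u g hg']
      · intro hC v hv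
        have h4 := hC _ hv
        rw [hk3] at h4
        have h5 := h4.pow ((v⁻¹ : (ZMod q)ˣ) : ZMod q).val
        rw [← hX, ← hX, mul_inv_cancel, hX1, mul_comm v, mul_inv_cancel_right] at h5
        exact hu h5
  have hNT : ∀ u, NF u ⊆ T := fun u φ hφ => by
    simp only [hNF, hT, Finset.mem_filter, Finset.mem_univ, true_and] at hφ ⊢
    exact fun h => hφ fun v => by rw [h, h]
  obtain ⟨u0, hu0⟩ := IsCyclic.exists_monoid_generator (α := (ZMod q)ˣ)
  have hTN : T ⊆ NF u0 := fun φ hφ => by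
    simp only [hNF, hT, Finset.mem_filter, Finset.mem_univ, true_and] at hφ ⊢
    refine fun h => hφ fun v => ?_
    obtain ⟨n, rfl⟩ := hu0 v
    induction n with
    | zero => simp only [pow_zero, hX1]
    | succ n ih => simp only [pow_succ] at ih ⊢; rw [h, ih]
  have hdeg : ∀ ψ ∈ T, ∀ φ ∈ T, charDegree (φ : G → ℂ) = charDegree (ψ : G → ℂ) := by
    intro ψ hψ φ hφ
    have hn0 : ¬ IsConj x (X u0) := fun hc => (Finset.mem_filter.1 (hTN hψ)).2 fun v =>
      (ψ.2.isClassFunction.eq_of_isConj (hconj u0 hc v)).symm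
    have hTc : T.card = Cl.card := by rw [← hA u0 hn0, Finset.Subset.antisymm hTN (hNT u0)]
    have hall : ∀ u, (∀ v, (ψ : G → ℂ) (X (v * u)) = (ψ : G → ℂ) (X v)) → IsConj x (X u) := by
      intro u hu
      by_contra hc
      have := Finset.eq_of_subset_of_card_le (hNT u) (by rw [hA u hc, hTc])
      exact (Finset.mem_filter.1 (this ▸ hψ : ψ ∈ NF u)).2 hu
    have hrep : ∀ C : Cl, ∃ u, ConjClasses.mk (X u) = C := fun C => (Finset.mem_filter.1 C.2).2
    choose w hw using hrep
    let F : Cl → T := fun C => ⟨⟨_, ψ.2.comp_pow (hk1 (w C))⟩,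
      Finset.mem_filter.2 ⟨Finset.mem_univ _, fun h => (Finset.mem_filter.1 hψ).2 fun v => by
        have h1 := h (v * (w C)⁻¹)
        have h2 := h (w C)⁻¹
        change (ψ : G → ℂ) (X _ ^ k _) = (ψ : G → ℂ) (x ^ k _) at h1 h2
        rw [hk3, inv_mul_cancel_right] at h1
        rw [hk3, inv_mul_cancel, hX1] at h2
        rw [h1, h2]⟩⟩
    have hinj : Function.Injective F := by
      intro C C' e
      have e1 : ∀ v, (ψ : G → ℂ) (X (v * w C)) = (ψ : G → ℂ) (X (v * w C')) := fun v => by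
        rw [← hk3, ← hk3]
        exact congrFun (congrArg (fun y : T => (y.1 : G → ℂ)) e) (X v)
      have e2 := hall ((w C)⁻¹ * w C') fun v => by
        rw [← mul_assoc, ← e1, inv_mul_cancel_right]
      have e3 := hconj _ e2 (w C)
      rw [mul_inv_cancel_left] at e3
      exact Subtype.ext (by rw [← hw C, ← hw C']; exact ConjClasses.mk_eq_mk_iff_isConj.2 e3)
    obtain ⟨C, hC⟩ := ((Fintype.bijective_iff_injective_and_card F).2
      ⟨hinj, by simp [hTc]⟩).2 ⟨φ, hφ⟩
    rw [← show (F C).1 = φ from congrArg Subtype.val hC]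
    exact charDegree_congr (by simp [F])
  have hx1 : x ≠ 1 := by rintro rfl; rw [orderOf_one] at hxo; exact hq.ne_one hxo.symm
  have hST : ∀ φ : IrrCharacter G, φ ≠ irrOne G → charDegree (φ : G → ℂ) ≠ q → φ ∈ T := by
    intro φ h1 h2
    refine Finset.mem_filter.2 ⟨Finset.mem_univ _, fun hc => ?_⟩
    have hc' : ∀ g ∈ (Q : Subgroup G), g ≠ 1 → (φ : G → ℂ) g = (φ : G → ℂ) x := fun g hg hg1 => by
      obtain ⟨u, rfl⟩ := hXe g hg hg1; exact hc u
    obtain ⟨c, hcx⟩ := φ.2.isGeneralizedCharacter.exists_int_of_forall_pow (g := x)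
      fun j hj => hc' _ (hxQ ▸ pow_mem (mem_zpowers x) j) fun e => by
        rw [← orderOf_dvd_iff_pow_eq_one] at e
        exact hq.ne_one (hxo.symm.trans (Nat.Coprime.eq_one_of_dvd hj.symm e))
    rw [hcx] at hc'
    obtain ⟨b, hb⟩ := int_dvd_charDegree_sub_of_const φ.2.isCharacter _ hc'
    haveI := Fintype.ofFinite Q
    obtain ⟨n, hn⟩ := (φ.2.isCharacter.restrict Q).exists_inner_eq_nat isCharacter_one
    rw [classInner_one_right, ← Finset.add_sum_erase _ _ (Finset.mem_univ 1),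
      Finset.sum_congr rfl (g := fun _ => (c : ℂ)) (fun y hy => hc' _ y.2
        fun e => (Finset.mem_erase.1 hy).1 (Subtype.ext e)), Finset.sum_const,
      Finset.card_erase_of_mem (Finset.mem_univ _), Finset.card_univ, ← Nat.card_eq_fintype_card,
      inv_mul_eq_iff_eq_mul₀ (card_ne_zero_complex _), hQ, OneMemClass.coe_one, φ.2.apply_one_eq,
      nsmul_eq_mul, Nat.cast_sub hq.one_le] at hn
    have hn' : (charDegree (φ : G → ℂ) : ℤ) + (q - 1) * c = q * n := by exact_mod_cast hn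
    rw [hQ] at hb
    have hlt : charDegree (φ : G → ℂ) < q :=
      lt_of_le_of_ne (hmax φ (Finset.mem_erase.2 ⟨h1, Finset.mem_univ _⟩)) h2
    have hle : c ≤ charDegree (φ : G → ℂ) := by
      have := φ.2.isCharacter.norm_le x
      rw [hcx, φ.2.isCharacter.norm_apply_one, Complex.norm_intCast] at this
      have h3 : (c : ℝ) ≤ charDegree (φ : G → ℂ) := (le_abs_self _).trans this
      exact_mod_cast h3
    have hne : c ≠ charDegree (φ : G → ℂ) := fun e => hx1 (faithful φ.2
      (fun e => h1 (Subtype.ext e)) (by rw [hcx, e, φ.2.apply_one_eq]; simp))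
    have hq0 : (2 : ℤ) ≤ q := by exact_mod_cast hq.two_le
    have hb1 : 1 ≤ b := by
      by_contra h0
      have : (q : ℤ) * b ≤ 0 := mul_nonpos_of_nonneg_of_nonpos (by omega) (by omega)
      omega
    have h3 : (q : ℤ) * ((q - 1) * b) ≤ q * charDegree (φ : G → ℂ) := by
      have : (0 : ℤ) ≤ q * n := by positivity
      nlinarith
    have h4 := le_of_mul_le_mul_left h3 (by omega)
    have h5 : charDegree (φ : G → ℂ) + 1 = q := by
      have : (q : ℤ) - 1 ≤ (q - 1) * b := by nlinarith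
      omega
    have h6 := hpr φ h1
    rcases h6.eq_two_or_odd' with h7 | h7
    · exact degree_ne_two hZ φ.2 (fun e => h1 (Subtype.ext e)) h7
    · rcases hq.eq_two_or_odd' with h8 | h8
      · have := h6.two_le; omega
      · rw [← h5] at h8
        exact (Nat.not_even_iff_odd.2 h8) h7.add_one
  have hsum := sum_irr_apply_one_mul_apply_of_ne_one hx1
  rw [← Finset.add_sum_erase _ _ (Finset.mem_univ (irrOne G)), irrOne_apply, irrOne_apply,
    ← Finset.sum_filter_add_sum_filter_not _ (fun φ : IrrCharacter G => charDegree (φ : G → ℂ) = q),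
    Finset.sum_eq_zero (fun φ hφ => by
      rw [vanish hZ φ.2 (fun e => (Finset.mem_erase.1 (Finset.mem_filter.1 hφ).1).1 (Subtype.ext e))
        hx1 (by rw [(Finset.mem_filter.1 hφ).2, ← hX1, hCX]; exact hqm), mul_zero]),
    zero_add] at hsum
  set S := (Finset.univ.erase (irrOne G)).filter
    (fun φ : IrrCharacter G => ¬ charDegree (φ : G → ℂ) = q) with hS
  rcases S.eq_empty_or_nonempty with h0 | ⟨ψ, hψ⟩
  · simp [h0] at hsum
  · have hS' : ∀ φ ∈ S, φ ∈ T := fun φ hφ =>
      hST φ (Finset.mem_erase.1 (Finset.mem_filter.1 hφ).1).1 (Finset.mem_filter.1 hφ).2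
    have hr := hpr ψ (Finset.mem_erase.1 (Finset.mem_filter.1 hψ).1).1
    rw [Finset.sum_congr rfl (fun φ hφ => by
      rw [φ.2.apply_one_eq, hdeg ψ (hS' ψ hψ) φ (hS' φ hφ)]), ← Finset.mul_sum] at hsum
    refine not_isIntegral_inv_prime hr ?_
    have e : (charDegree (ψ : G → ℂ) : ℂ)⁻¹ = -∑ φ ∈ S, (φ : G → ℂ) x := by
      refine inv_eq_of_mul_eq_one_right ?_
      linear_combination -hsum
    rw [e]
    exact (IsIntegral.sum _ fun φ _ => φ.2.isIntegral x).neg

end

universe u in
theorem aux (n : ℕ) : ∀ (G : Type u) [Group G] [Finite G], Nat.card G = n →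
    (∀ d ∈ cd G, d ≠ 1 → d.Prime) → Group.IsSolvable G := by
  induction n using Nat.strong_induction_on with
  | _ n ih =>
  intro G _ _ hn h
  rcases subsingleton_or_nontrivial G with hs | hs
  · infer_instance
  by_cases hsimp : IsSimpleGroup G
  · rcases IsSimpleGroup.eq_bot_or_eq_top_of_normal (center G) inferInstance with hZ | hZ
    · exact (simple_case hZ fun χ => h _ (charDegree_mem_cd χ.2)).elim
    · exact isSolvable_of_comm fun a b => mem_center_iff.1 (show b ∈ center G by rw [hZ]; trivial) a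
  · obtain ⟨N, hN, h1, h2⟩ : ∃ N : Subgroup G, N.Normal ∧ N ≠ ⊥ ∧ N ≠ ⊤ := by
      by_contra hcon
      push Not at hcon
      exact hsimp ⟨fun N hN => or_iff_not_imp_left.2 (hcon N hN)⟩
    have hc := N.card_mul_index
    have h3 : 1 < Nat.card N := (one_lt_card_iff_ne_bot N).2 h1
    have h4 : 1 < N.index := one_lt_index_of_ne_top h2
    haveI := ih _ (by rw [← hn, ← hc]; nlinarith) N rfl fun d hd hd1 => by
      obtain ⟨k, -, hk⟩ := exists_mem_cd_of_normal N hd
      have h5 := h _ hk (fun e => hd1 (Nat.eq_one_of_mul_eq_one_left e))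
      rcases h5.eq_one_or_self_of_dvd d (dvd_mul_left d k) with e | e
      · exact absurd e hd1
      · rw [e]; exact h5
    haveI := ih _ (by rw [← hn, ← hc]; change N.index < _; nlinarith) (G ⧸ N) rfl
      fun d hd => h d (cd_quotient_subset N hd)
    exact solvable_of_ker_le_range N.subtype (QuotientGroup.mk' N) (by simp)

/-- If every irreducible character of the finite group G of degree greater than one has prime degree, then G is solvable. -/
theorem result {G : Type*} [Group G] [Finite G] (h : ∀ χ : Cfsg.IrrCharacter G, Cfsg.charDegree (χ : G → ℂ) ≠ 1 → (Cfsg.charDegree (χ : G → ℂ)).Prime) : Group.IsSolvable G := by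
  refine aux _ G rfl fun d hd => ?_
  obtain ⟨χ, rfl⟩ := mem_cd.1 hd
  exact h χ

end Cfsg.Agent.S4466
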