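import Cfsg.Statements.S4519
import Cfsg.Agent.Lib.CharDeg.OverSum
import Cfsg.Agent.Lib.Core.Solvable
import Cfsg.Agent.Lib.PF.Main

set_option autoImplicit false
open Cfsg

namespace Cfsg.Agent.S4519

open Cfsg.Lib.Char Cfsg.Lib.CharDeg Cfsg.Lib.Clifford Cfsg.Lib.Induce in
theorem aux.{u} (k : ℕ) (m : ℕ) : ∀ (G : Type u) [Group G] [Fintype G] (N : Subgroup G) [hN : N.Normal]
    [Fintype N], N.index = m → Odd N.index → k.Coprime (Nat.card G) →
    (∀ g : G, Odd (orderOf g) → g ^ k = g⁻¹) → ∀ θ : N → ℂ, IsIrrCharacter N θ →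
    (∀ n, θ (n ^ k) = θ n) →
    (∀ (g : G) (n : N), θ ⟨g * n * g⁻¹, hN.conj_mem (n : G) n.2 g⟩ = θ n) →
    ∀ χ : G → ℂ, IsIrrCharacter G χ → classInner (fun n : N => χ n) θ ≠ 0 →
      (∀ g, χ (g ^ k) = χ g) → ∀ n : N, χ n = θ n := by
  induction m using Nat.strong_induction_on with
  | _ m ih =>
  intro G _ _ N hN _ hm hodd hk hk₂ θ hθ hfix hinv χ hχ hov hχk
  classical
  by_cases htop : N = ⊤
  · refine res_eq_of_isCyclic N ?_ hθ hinv hχ hov
    subst htop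
    haveI := QuotientGroup.subsingleton_quotient_top (G := G)
    infer_instance
  obtain ⟨M, hM, hNM, hp⟩ := Cfsg.Lib.Core.exists_normal_index_prime_ge htop
    (Cfsg.Lib.PF.isSolvable_of_odd _ hodd)
  haveI := Fintype.ofFinite M
  haveI := Fintype.ofFinite (N.subgroupOf M)
  have hmul := Subgroup.relIndex_mul_index hNM
  have ho := Nat.odd_mul.1 (hmul ▸ hodd)
  have hkM : k.Coprime (Nat.card M) := hk.coprime_dvd_right (Subgroup.card_subgroup_dvd_card M)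
  have hk₂M : ∀ g : M, Odd (orderOf g) → g ^ k = g⁻¹ := fun g hg =>
    Subtype.ext (hk₂ g (by rwa [Subgroup.orderOf_coe]))
  have hθ' := (isIrrCharacter_subgroupOf_iff hNM).2 hθ
  have hfix' : ∀ n : N.subgroupOf M,
      (fun x : N.subgroupOf M => θ ⟨(x : M), Subgroup.mem_subgroupOf.mp x.2⟩) (n ^ k) =
      (fun x : N.subgroupOf M => θ ⟨(x : M), Subgroup.mem_subgroupOf.mp x.2⟩) n :=
    fun n => hfix ⟨(n : M), Subgroup.mem_subgroupOf.mp n.2⟩
  obtain ⟨ψ, ⟨h1, h2⟩, hu⟩ := existsUnique_over_pow_fixed (N.subgroupOf M) ho.1 hkM hk₂M hθ' hfix'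
  have hlt : N.relIndex M < m := by
    rw [← hm, ← hmul]
    exact lt_mul_of_one_lt_right ho.1.pos hp.one_lt
  have h3 := ih _ hlt M (N.subgroupOf M) rfl ho.1 hkM hk₂M _ hθ' hfix'
    (fun g n => hinv g ⟨(n : M), Subgroup.mem_subgroupOf.mp n.2⟩) ψ ψ.2 h1 h2
  have h4 : ∀ n : N, (ψ : M → ℂ) ⟨n, hNM n.2⟩ = θ n := fun n => h3 ⟨⟨n, hNM n.2⟩, n.2⟩
  have hψinv : ∀ g : G, conjChar M g (ψ : M → ℂ) = ψ := by
    intro g
    refine congrArg Subtype.val (hu ⟨_, isIrrCharacter_conjChar M ψ.2 g⟩ ⟨?_, fun x => ?_⟩)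
    · have : (fun n : N.subgroupOf M => conjChar M g (ψ : M → ℂ) n) =
          fun x : N.subgroupOf M => θ ⟨(x : M), Subgroup.mem_subgroupOf.mp x.2⟩ := by
        funext n
        rw [← hinv g, ← h4]
        rfl
      change classInner (fun n : N.subgroupOf M => conjChar M g (ψ : M → ℂ) n) _ ≠ 0
      rw [this, hθ'.inner_self]
      exact one_ne_zero
    · have := congrFun (conjChar_comp_pow M g (ψ : M → ℂ) k) x
      simp only [h2] at this
      exact this.symm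
  obtain ⟨χ', ⟨h5, h6⟩, -⟩ := existsUnique_over_pow_fixed M ho.2 hk hk₂ ψ.2 h2
  haveI : Fact M.index.Prime := ⟨hp⟩
  have h7 := res_eq_of_isCyclic M (isCyclic_of_prime_card (p := M.index) rfl) ψ.2
    (fun g n => congrFun (hψinv g) n) χ'.2 h5
  have h8 : ∀ n : N, (χ' : G → ℂ) n = θ n := fun n => (h7 ⟨n, hNM n.2⟩).trans (h4 n)
  have h9 := (existsUnique_over_pow_fixed N hodd hk hk₂ hθ hfix).unique (y₁ := ⟨χ, hχ⟩) (y₂ := χ')
    ⟨hov, hχk⟩ ⟨by rw [funext h8, hθ.inner_self]; exact one_ne_zero, h6⟩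
  rw [← h9] at h8
  exact h8

open Cfsg.Lib.CharDeg in

/-- Let N be a normal subgroup of odd index in the finite group G, and let k be coprime to the order of G with k ^ (2 ^ e) ≡ 1 modulo the order of G for some e and g ^ k = g⁻¹ for every element g of odd order (so g ↦ g ^ k induces a field automorphism of 2-power order inverting the roots of unity of odd order). If an irreducible character θ of N satisfies θ (n ^ k) = θ n for all n, then there is exactly one irreducible character χ of G with θ a constituent of its restriction to N and χ (g ^ k) = χ g for all g; moreover, if θ is invariant under conjugation by G, that χ restricts to θ. -/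
theorem result {G : Type*} [Group G] [Fintype G] (N : Subgroup G) [hN : N.Normal] [Fintype N] (hidx : Odd N.index) (k e : ℕ) (hk : Nat.Coprime k (Nat.card G)) (hke : k ^ (2 ^ e) ≡ 1 [MOD Nat.card G]) (hk₂ : ∀ g : G, Odd (orderOf g) → g ^ k = g⁻¹) (θ : Cfsg.IrrCharacter N) (hθ : ∀ n : N, (θ : N → ℂ) (n ^ k) = (θ : N → ℂ) n) : ∃ χ : Cfsg.IrrCharacter G, (Cfsg.classInner (fun n : N => (χ : G → ℂ) n) (θ : N → ℂ) ≠ 0 ∧ (∀ g : G, (χ : G → ℂ) (g ^ k) = (χ : G → ℂ) g) ∧ ((∀ g : G, ∀ n : N, (θ : N → ℂ) ⟨g * n * g⁻¹, hN.conj_mem n n.2 g⟩ = (θ : N → ℂ) n) → ∀ n : N, (χ : G → ℂ) n = (θ : N → ℂ) n)) ∧ ∀ χ' : Cfsg.IrrCharacter G, Cfsg.classInner (fun n : N => (χ' : G → ℂ) n) (θ : N → ℂ) ≠ 0 → (∀ g : G, (χ' : G → ℂ) (g ^ k) = (χ' : G → ℂ) g) → χ' = χ := by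
  obtain ⟨χ, ⟨h1, h2⟩, hu⟩ := existsUnique_over_pow_fixed N hidx hk hk₂ θ.2 hθ
  exact ⟨χ, ⟨h1, h2, fun hinv => aux k _ G N rfl hidx hk hk₂ _ θ.2 hθ hinv _ χ.2 h1 h2⟩,
    fun χ' h3 h4 => hu χ' ⟨h3, h4⟩⟩

end Cfsg.Agent.S4519
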