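import Cfsg.Statements.S4520
import Cfsg.Agent.Lib.Block.PrinExt
import Cfsg.Agent.Lib.Char.FrobSchur

set_option autoImplicit false
open Cfsg

namespace Cfsg.Agent.S4520

open Cfsg.Lib.Block Cfsg.Lib.Char Cfsg.Lib.Transfer MonoidAlgebra Subgroup

open Cfsg.Lib.Modular Cfsg.Lib.Clifford Cfsg.Lib.Induce

theorem aux {G : Type*} [Group G] [Finite G] {M : Ideal AlgInt} [Modular 2 M] {N : Subgroup G}
    [N.Normal] (hi : ¬ 2 ∣ N.index) (P : Sylow 2 G)
    (h : N ⊔ centralizer ((P : Subgroup G) : Set G) = ⊤) {k : ℕ} (hk : k.Coprime (Nat.card G))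
    (hk₂ : ∀ g : G, ¬ 2 ∣ orderOf g → g ^ k = g⁻¹) {θ : IrrCharacter N}
    (hθ : ∀ n : N, (θ : N → ℂ) (n ^ k) = (θ : N → ℂ) n) (hθ' : θ ∈ principalBlock M N)
    {χ : IrrCharacter G} (hχ : ∀ g : G, (χ : G → ℂ) (g ^ k) = (χ : G → ℂ) g)
    (ho : Over N.subtype (χ : G → ℂ) {θ}) : χ ∈ principalBlock M G := by
  have := Fintype.ofFinite N
  obtain ⟨η, h1, h2, h3⟩ := exists_extension_principal hi P h hθ'
  have h4 : ∀ g, (η : G → ℂ) (g ^ k) = (η : G → ℂ) g := congrFun (congrArg Subtype.val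
    (h3 _ (comp_pow_mem_principal M h1 hk) (over_of_res (η.2.comp_pow hk).isCharacter fun n =>
      (h2 (n ^ k)).trans (hθ n))))
  have h5 : IsIrrCharacter N fun n : N => (η : G → ℂ) n := funext h2 ▸ θ.2
  obtain ⟨β, h6, h7⟩ := exists_inflate_mul_eq_of_over N η.2.isCharacter h5 χ.2
    (funext h2 ▸ (over_subtype_iff χ θ).1 ho)
  have h8 := eq_of_inflate_mul_eq N η.2.isCharacter h5
    (h6.comp_pow (hk.coprime_dvd_right (card_quotient_dvd_card N))) h6 (funext fun g => by
      rw [← h7, ← hχ, h7, Pi.mul_apply, Pi.mul_apply, h4, QuotientGroup.mk_pow])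
  have h9 := h6.eq_one_of_real_of_odd (Nat.odd_iff.2 (Nat.two_dvd_ne_zero.1 hi)) fun u => by
    obtain ⟨x, hx, rfl⟩ := exists_regular_map_eq (QuotientGroup.mk'_surjective N)
      (show u ∈ regSet 2 _ from fun h => hi (h.trans (orderOf_dvd_natCard u)))
    rw [← Complex.conj_eq_iff_im, ← h6.apply_inv, ← map_inv, ← hk₂ x hx, map_pow]
    exact congrFun h8 _
  rwa [show χ = η from Subtype.ext (by rw [h7, h9]; exact one_mul _)]

/-- Let N be a normal subgroup of odd index in the finite group G, M a maximal ideal of the algebraic integers containing 2, and k coprime to the order of G with k ^ (2 ^ e) ≡ 1 modulo the order of G for some e and g ^ k = g⁻¹ for every element g of odd order. Let θ be an irreducible character of N and χ an irreducible character of G over θ, both unchanged by composing with g ↦ g ^ k. Then χ lies in the principal 2-block of G if and only if θ lies in the principal 2-block of N. -/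
theorem result {G : Type*} [Group G] [Fintype G] (M : Ideal Cfsg.AlgInt) (hM : Cfsg.IsPModular 2 M) (N : Subgroup G) [N.Normal] [Fintype N] (hidx : Odd N.index) (k e : ℕ) (hk : Nat.Coprime k (Nat.card G)) (hke : k ^ (2 ^ e) ≡ 1 [MOD Nat.card G]) (hk₂ : ∀ g : G, Odd (orderOf g) → g ^ k = g⁻¹) (θ : Cfsg.IrrCharacter N) (hθ : ∀ n : N, (θ : N → ℂ) (n ^ k) = (θ : N → ℂ) n) (χ : Cfsg.IrrCharacter G) (hχ : ∀ g : G, (χ : G → ℂ) (g ^ k) = (χ : G → ℂ) g) (hover : Cfsg.classInner (fun n : N => (χ : G → ℂ) n) (θ : N → ℂ) ≠ 0) : χ ∈ Cfsg.principalBlock M G ↔ θ ∈ Cfsg.principalBlock M N := by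
  have : Modular 2 M := ⟨hM⟩
  have ho := (over_subtype_iff χ θ).2 hover
  refine ⟨ho.mem_principal_below M, fun hθ' => ?_⟩
  have hi : ¬ 2 ∣ N.index := Nat.two_dvd_ne_zero.2 (Nat.odd_iff.1 hidx)
  obtain ⟨P⟩ : Nonempty (Sylow 2 G) := inferInstance
  have hP : (P : Subgroup G) ≤ N := by
    obtain ⟨g, hg⟩ := exists_conj_le_of_not_dvd_index hi P.isPGroup'
    rwa [conj_le_iff_le_inv_conj, conj_eq_self_of_normal] at hg
  let K := N ⊔ centralizer ((P : Subgroup G) : Set G)
  have hK : K.Normal := normal_sup_centralizer hP P.isPGroup' (sylow_not_dvd_relIndex P hP)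
  have hNK : N ≤ K := le_sup_left
  have := Fintype.ofFinite K
  obtain ⟨ψ, h1, h2, h3⟩ := exists_irr_between (inclusion hNK)
    (χ.2.isClassFunction.restrict K) hover
  have hkK := hk.coprime_dvd_right (card_subgroup_dvd_card K)
  obtain ⟨g, hg⟩ := exists_conjChar_eq_of_constituents K χ.2 h1 (h1.comp_pow hkK) h2 (by
    obtain ⟨σ, hσ⟩ := exists_ringEquiv_forall_map_apply K hkK
    have h4 := (χ.2.isCharacter.restrict K).isGeneralizedCharacter
    have h5 := h4.inner_map_ringHom h1.isGeneralizedCharacter σ.toRingHom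
    simp only [RingEquiv.toRingHom_eq_coe, RingHom.coe_coe, hσ _ h4, hσ _ h1.isGeneralizedCharacter,
      SubmonoidClass.coe_pow, hχ] at h5
    rwa [h5])
  have h4 : ∀ j, conjChar K (g ^ j) ψ = fun x => ψ (x ^ k ^ j) := fun j => by
    induction j with
    | zero => simp
    | succ j ih =>
      rw [pow_succ', conjChar_mul, hg]
      ext x
      rw [pow_succ', pow_mul, ← congrFun ih (x ^ k), conjChar_eq_comp, conjChar_eq_comp]
      simp only [map_pow]
  have h5 : g ^ 2 ^ e ∈ inertia K ψ := (h4 _).trans (funext fun x => by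
    rw [pow_eq_pow_iff_modEq.2 (hke.of_dvd ((orderOf_dvd_natCard x).trans
      (card_subgroup_dvd_card K))), pow_one])
  have h6 : g ^ N.index ∈ inertia K ψ := le_inertia K h1.isClassFunction (hNK (pow_index_mem N g))
  have h7 : g ∈ inertia K ψ := by
    have := mul_mem (zpow_mem h5 ((2 ^ e).gcdA N.index)) (zpow_mem h6 ((2 ^ e).gcdB N.index))
    rwa [← zpow_natCast, ← zpow_natCast, ← zpow_mul, ← zpow_mul, ← zpow_add, ← Nat.gcd_eq_gcd_ab,
      (((Nat.Prime.coprime_iff_not_dvd Nat.prime_two).2 hi).pow_left e).gcd_eq_one, Nat.cast_one,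
      zpow_one] at this
  obtain ⟨Q, hQ⟩ := exists_sylow_of_not_dvd_relIndex P.isPGroup'
    (sylow_not_dvd_relIndex P (hP.trans hNK))
  have := Fintype.ofFinite (N.subgroupOf K)
  refine ((over_subtype_iff χ ⟨ψ, h1⟩).2 h2).mem_principal_of_centralizer (hP.trans hNK)
    P.isPGroup' (sylow_not_dvd_relIndex P (hP.trans hNK)) (fun x hx _ => mem_sup_right hx)
    (aux (N := N.subgroupOf K) (fun h => hi (h.trans (relIndex_dvd_index_of_normal N K))) Q
      (hQ ▸ sup_centralizer_subgroupOf hNK le_rfl) hkK (fun x hx => Subtype.ext (hk₂ x ?_))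
      (θ := irrEquiv (subgroupOfEquivOfLe hNK) θ) (fun n => ?_) ?_ (congrFun (hg.symm.trans h7))
      ((over_subtype_iff _ _).2 ((classInner_res_subgroupOf hNK ψ θ).symm ▸ h3)))
  · exact Nat.odd_iff.2 (Nat.two_dvd_ne_zero.1 (by rwa [orderOf_coe]))
  · rw [irrEquiv_apply, map_pow, hθ, irrEquiv_apply]
  · rwa [← preimage_irrEquiv_principalBlock (subgroupOfEquivOfLe hNK)] at hθ'

end Cfsg.Agent.S4520
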