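import Cfsg.Statements.S4521
import Cfsg.Agent.Lib.Block.Aug

set_option autoImplicit false
open Cfsg

namespace Cfsg.Agent.S4521

open Cfsg.Lib.Block Cfsg.Lib.Char Cfsg.Lib.Transfer MonoidAlgebra Subgroup

theorem aux {G : Type*} [Group G] [Finite G] {p : ℕ} [Fact p.Prime] {M : Ideal AlgInt}
    [Modular p M] {U V : Subgroup G} [Fintype U] (hc : ∀ u ∈ U, ∀ v ∈ V, u * v = v * u)
    (hgen : U ⊔ V = ⊤) {χ : IrrCharacter G} {ψ : IrrCharacter U}
    (h : classInner (fun u : U => (χ : G → ℂ) u) (ψ : U → ℂ) ≠ 0) :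
    ssum (Res M) (regSet p G ∩ U) ∈ fix (Res M) ⊤ ∧ (ψ ∈ principalBlock M U ↔
      lam M (χ : G → ℂ) (ssum (Res M) (regSet p G ∩ U)) ≠ 0) := by
  have h1 : ssum (Res M) (regSet p G ∩ U) ∈ fix (Res M) ⊤ := hgen ▸ mem_fix_sup
    (ssum_mem_fix fun h hh x hx => ⟨conj_mem_regSet hx.1 h,
      U.mul_mem (U.mul_mem hh hx.2) (U.inv_mem hh)⟩)
    (mem_fix_of_supp_centralizer (ssum_mem_supp fun x hx v hv => (hc x hx.2 v hv).symm))
  refine ⟨h1, ?_⟩
  rw [((over_subtype_iff χ ψ).2 h).lam_eq U.subtype_injective χ.2 h1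
    (ssum_mem_supp fun x hx => by rw [range_subtype]; exact hx.2), res_ssum,
    mem_principalBlock_iff (p := p), zbar_one]
  have : U.subtype ⁻¹' (regSet p G ∩ U) = regSet p U := Set.ext fun x => by
    simp [mem_regSet]
  rw [this]

/-- Let the finite group G be generated by subgroups U₁ and U₂ that commute elementwise and whose intersection is a p-group, and let M be a maximal ideal of the algebraic integers containing the prime p. If the irreducible character χ of G has the irreducible constituents ψ₁ on U₁ and ψ₂ on U₂, then χ lies in the principal block of G if and only if ψ₁ and ψ₂ lie in the principal blocks of U₁ and U₂. -/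
theorem result {G : Type*} [Group G] [Fintype G] (p : ℕ) [Fact p.Prime] (M : Ideal Cfsg.AlgInt) (hM : Cfsg.IsPModular p M) (U₁ U₂ : Subgroup G) [Fintype U₁] [Fintype U₂] (hcomm : ∀ u ∈ U₁, ∀ v ∈ U₂, u * v = v * u) (hgen : U₁ ⊔ U₂ = ⊤) (hZ : IsPGroup p ↥(U₁ ⊓ U₂)) (χ : Cfsg.IrrCharacter G) (ψ₁ : Cfsg.IrrCharacter U₁) (ψ₂ : Cfsg.IrrCharacter U₂) (h₁ : Cfsg.classInner (fun u : U₁ => (χ : G → ℂ) u) (ψ₁ : U₁ → ℂ) ≠ 0) (h₂ : Cfsg.classInner (fun u : U₂ => (χ : G → ℂ) u) (ψ₂ : U₂ → ℂ) ≠ 0) : χ ∈ Cfsg.principalBlock M G ↔ (ψ₁ ∈ Cfsg.principalBlock M U₁ ∧ ψ₂ ∈ Cfsg.principalBlock M U₂) := by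
  have : Modular p M := ⟨hM⟩
  have hp : p.Prime := Fact.out
  obtain ⟨a1, b1⟩ := aux (p := p) (M := M) hcomm hgen h₁
  obtain ⟨a2, b2⟩ := aux (p := p) (M := M) (fun u hu v hv => (hcomm v hv u hu).symm)
    (sup_comm U₁ U₂ ▸ hgen) h₂
  rw [b1, b2, mem_principalBlock_iff (p := p), zbar_one, ← mul_ne_zero_iff, ← lam_mul χ.2 a1 a2]
  suffices h : ssum (Res M) (regSet p G ∩ U₁) * ssum (Res M) (regSet p G ∩ U₂) =
      ssum (Res M) (regSet p G) by rw [h]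
  refine ext_coeff fun g => ?_
  rw [coeff_ssum_mul_ssum]
  by_cases hg : g ∈ regSet p G
  · rw [coeff_ssum_of_mem hg, Nat.card_eq_one_iff_unique.2 ⟨⟨?_⟩, ?_⟩, Nat.cast_one]
    · rintro ⟨⟨x, y⟩, hx, hy, h⟩ ⟨⟨x', y'⟩, hx', hy', h'⟩
      dsimp only at hx hy h hx' hy' h'
      have h1 : x'⁻¹ * x = y' * y⁻¹ := by
        rw [inv_mul_eq_iff_eq_mul, ← mul_assoc, h', ← h, mul_inv_cancel_right]
      have h2 : x'⁻¹ * x ∈ U₂ := h1 ▸ U₂.mul_mem hy'.2 (U₂.inv_mem hy.2)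
      have h3 := Lib.Modular.pElt_of_mem hp hZ ⟨U₁.mul_mem (U₁.inv_mem hx'.2) hx.2, h2⟩
      have h4 := Lib.Modular.regPart_mul hp h3 hx'.1 (hcomm x' hx'.2 _ h2).symm
      rw [← hcomm x' hx'.2 _ h2, mul_inv_cancel_left, Lib.Modular.regPart_of_not_dvd hp hx.1] at h4
      subst h4
      obtain rfl : y = y' := mul_left_cancel (h.trans h'.symm)
      rfl
    · obtain ⟨u, hu, v, hv, rfl⟩ := exists_mul_of_mem_sup' (H := U₁) (N := U₂)
        (fun u hu => centralizer_le_normalizer _ fun v hv => (hcomm u hu v hv).symm)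
        ((sup_comm U₂ U₁).trans hgen ▸ mem_top g)
      exact ⟨⟨⟨Lib.Modular.regPart p u, Lib.Modular.regPart p v⟩,
        ⟨Lib.Modular.not_dvd_orderOf_regPart hp u, Lib.Modular.regPart_mem p hu⟩,
        ⟨Lib.Modular.not_dvd_orderOf_regPart hp v, Lib.Modular.regPart_mem p hv⟩, by
          rw [← Lib.Modular.regPart_mul_of_commute p (hcomm u hu v hv),
            Lib.Modular.regPart_of_not_dvd hp hg]⟩⟩
  · rw [coeff_ssum_of_notMem hg, Nat.card_eq_zero.2 (Or.inl ⟨?_⟩), Nat.cast_zero]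
    rintro ⟨⟨x, y⟩, hx, hy, rfl⟩
    exact hg (Lib.Modular.not_dvd_orderOf_mul hp hx.1 hy.1 (hcomm x hx.2 y hy.2))

end Cfsg.Agent.S4521
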