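import Cfsg.Statements.S4531
import Cfsg.Agent.Lib.Tame.RankThree

set_option autoImplicit false
open Cfsg

namespace Cfsg.Agent.S4531

open Cfsg.Lib.Block Cfsg.Lib.Char Cfsg.Lib.Modular Cfsg.Lib.Tame Cfsg.Lib.Inv

/-- Let the finite group G have a 2-block B (relative to a maximal ideal M of the algebraic integers containing 2) of 2-regular rank three (three irreducible Brauer characters) whose defect group D is dihedral of order 2 ^ n with n ≥ 3 or semidihedral. Then the centre of G has odd order and G is not solvable. -/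
theorem result {G : Type*} [Group G] [Finite G] (M : Ideal Cfsg.AlgInt) (hM : Cfsg.IsPModular 2 M) (B : Set (Cfsg.IrrCharacter G)) (hB : Cfsg.IsPBlock M B) (D : Subgroup G) (hD : Cfsg.IsDefectGroup 2 M B D) (hD' : (∃ n : ℕ, 3 ≤ n ∧ Nonempty (D ≃* DihedralGroup (2 ^ (n - 1)))) ∨ Cfsg.IsQuasiDihedral D) (hl : Cfsg.blockRank 2 B = 3) : Odd (Nat.card (Subgroup.center G)) ∧ ¬ Group.IsSolvable G := by
  have : Modular 2 M := ⟨hM⟩
  have := Fintype.ofFinite G
  obtain ⟨a, b, μ, ε, h, hε⟩ : ∃ a b μ ε, MC D a b μ ε 0 ∧ (ε = 0 ∧ μ ≠ 0 ∨ ε = 1) := by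
    obtain ⟨n, hn, ⟨e⟩⟩ | hD' := hD'
    · obtain ⟨a, b, μ, h1, h⟩ := exists_mc_of_dihedral hD.isPGroup
        (Nat.one_lt_two_pow (by omega)) e
      exact ⟨a, b, μ, 0, h, Or.inl ⟨rfl, by have := Nat.pow_right_injective le_rfl h1; omega⟩⟩
    · obtain ⟨a, b, μ, h⟩ := exists_mc_of_quasiDihedral hD'
      exact ⟨a, b, _, 1, h, Or.inr rfl⟩
  exact ⟨odd_card_center hB hD h hε hl.ge, fun hG => (blockRank_lt_of_isPSolvable
    (Cfsg.Lib.Core.isPSolvable_of_isSolvable hG) hB hD h hε).ne hl⟩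

end Cfsg.Agent.S4531
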