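import Cfsg.Statements.S4534
import Cfsg.Agent.Lib.SnCh.Sub

set_option autoImplicit false
open Cfsg

namespace Cfsg.Agent.S4534

open Cfsg.Lib.SnCh Cfsg.Lib.Block

/-- Let B be a p-block of a finite symmetric group (relative to a maximal ideal M of the algebraic integers containing p) with a nontrivial defect group D all of whose sections have p-rank at most s. Then the p-regular rank of B is less than p ^ s. -/
theorem result (n : ℕ) (p : ℕ) [Fact p.Prime] (M : Ideal Cfsg.AlgInt) (hM : Cfsg.IsPModular p M) (B : Set (Cfsg.IrrCharacter (Equiv.Perm (Fin n)))) (hB : Cfsg.IsPBlock M B) (D : Subgroup (Equiv.Perm (Fin n))) (hD : Cfsg.IsDefectGroup p M B D) (hD1 : D ≠ ⊥) (s : ℕ) (hs : Cfsg.SectionalPRankLE p s D) : Cfsg.blockRank p B < p ^ s := by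
  have : Modular p M := ⟨hM⟩
  obtain ⟨N, κ, w, h, rfl⟩ := exists_dat (p := p) hB
  obtain ⟨φ, h1, h2⟩ := h.exists_elem hD
  have := card_le_of_sect hs (f := φ.codRestrict D h2) (fun _ _ e => h1.1 (congrArg Subtype.val e)) pow_elem
  refine (h.rank.1 (Nat.pos_of_ne_zero ?_)).trans_le (by simpa [Nat.card_fun] using this)
  rintro rfl
  exact hD1 ((hB.blockDefect_eq_zero_iff hD).1 (by simpa using h.defect (M := M)))

end Cfsg.Agent.S4534
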