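import Cfsg.Statements.S4535
import Cfsg.Agent.Lib.SnCh.Alt
import Cfsg.Agent.Lib.Modular.DualSys

set_option autoImplicit false
open Cfsg

namespace Cfsg.Agent.S4535

open Cfsg.Lib.SnCh Cfsg.Lib.Block Cfsg.Lib.Modular

theorem aux : ∀ v : Multiplicative (ZMod 2 × ZMod 2),
    Equiv.Perm.sign (MulAction.toPerm v : Equiv.Perm (Multiplicative (ZMod 2 × ZMod 2))) = 1 := by decide

theorem aux' : ∀ x : Multiplicative (ZMod 2 × ZMod 2), x ^ 2 = 1 := by decide

/-- Let B be a p-block of a finite alternating group (relative to a maximal ideal M of the algebraic integers containing p) with a nontrivial defect group D all of whose sections have p-rank at most s. Then the p-regular rank of B is less than p ^ s. -/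
theorem result (n : ℕ) (p : ℕ) [Fact p.Prime] (M : Ideal Cfsg.AlgInt) (hM : Cfsg.IsPModular p M) (B : Set (Cfsg.IrrCharacter (alternatingGroup (Fin n)))) (hB : Cfsg.IsPBlock M B) (D : Subgroup (alternatingGroup (Fin n))) (hD : Cfsg.IsDefectGroup p M B D) (hD1 : D ≠ ⊥) (s : ℕ) (hs : Cfsg.SectionalPRankLE p s D) : Cfsg.blockRank p B < p ^ s := by
  have : Modular p M := ⟨hM⟩
  obtain ⟨i, N, κ, w, P, h, c, hP, rfl, o, d⟩ := exists_alt hB hD hD1
  have hn := (hB.blockDefect_eq_zero_iff hD).not.2 hD1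
  have k : ∀ {W : Type} [CommGroup W] (φ : W →* Equiv.Perm (Fin n)), Function.Injective φ → (∀ v, φ v ∈ P) →
      (∀ v, φ v ∈ alternatingGroup _) → (∀ x : W, x ^ p = 1) → Nat.card W ≤ p ^ s := fun φ a b c =>
    card_le_of_sect hs (f := (φ.codRestrict _ c).codRestrict _ b) fun _ _ e => a (congrArg (·.1.1) e)
  have k2 : p = 2 → p ^ (2 * (w / 2)) ≤ p ^ s := by
    rintro rfl
    obtain ⟨φ, ⟨a, b, -⟩, e⟩ := h.exists_reg (V := Multiplicative (ZMod 2 × ZMod 2)) (k := w / 2) hP
      (.of_card (n := 2) (by simp)) (by simp; omega)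
    simpa [Nat.card_fun, pow_mul] using k φ a e (fun v => by simp [Equiv.Perm.mem_alternatingGroup, b, aux])
      fun v => funext fun i => aux' _
  have hB' := h.isPBlock M
  by_cases e : p = 2 ∧ w % 2 = 1
  · have l : 3 ≤ w := by_contra fun l => by have := (three_le d (by omega) hn).2 e.1; omega
    obtain ⟨z, hz⟩ := h.exists_z
    have r := blockRank_le_of_res (p := p) (b := B) fun θ a => (c.exists_over hB' hB a).imp fun χ b => ⟨b.1,
      (idx2 i χ.2 θ.2 ((over_subtype_iff χ θ).1 b.2)).resolve_right fun f => h.apply_ne_zero b.1 hz (f.1 z (by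
        rw [Equiv.Perm.mem_alternatingGroup, Equiv.Perm.sign_of_cycleType, hz,
          Odd.neg_one_pow (by simp [Nat.odd_iff, e.1]; omega)]; decide))⟩
    have := h.rank.2 l
    have := k2 e.1
    have : p ^ w = p ^ (2 * (w / 2)) * 2 := by rw [← e.1, ← pow_succ, e.1, show 2 * (w / 2) + 1 = w by omega]
    omega
  have k3 : p ^ w ≤ p ^ s := by
    by_cases f : p = 2
    · simpa [show 2 * (w / 2) = w by have := not_and.1 e f; omega] using k2 f
    obtain ⟨φ, a, b⟩ := h.exists_elem hP
    simpa [Nat.card_fun] using k φ a.1 b (fun v => o f (b v)) pow_elem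
  refine lt_of_lt_of_le ?_ k3
  rcases le_or_gt 3 w with l | l
  · exact (blockRank_le_mul hB' hB c).trans_lt (i ▸ h.rank.2 l)
  · have := (three_le d l hn).1
    exact (blockRank_lt_card hB hn).trans_le (this ▸ card_le_pow_of_defect_le_two hB (by omega))

end Cfsg.Agent.S4535
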