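import Cfsg.Statements.S4541
import Cfsg.Agent.Lib.Modular.SubTwo

set_option autoImplicit false
open Cfsg

namespace Cfsg.Agent.S4541

open Cfsg.Lib.Block Cfsg.Lib.Char Cfsg.Lib.Modular
open scoped ComplexConjugate

/-- Let B be a 2-block of the finite group G (relative to a maximal ideal M of the algebraic integers containing 2), u a 2-element, and b a block of the centralizer of u inducing B (a subsection (u, b)), of defect q and 2-regular rank l; write s for the integer square root of l and k₀(B) for the number of members of B of height zero. If s is odd then k₀(B) ≤ s·2 ^ q, and otherwise (s + 1)·k₀(B) ≤ l·2 ^ q; in particular k₀(B) ≤ 2 ^ q when l ≤ 3. -/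
theorem result {G : Type*} [Group G] [Finite G] (M : Ideal Cfsg.AlgInt) (hM : Cfsg.IsPModular 2 M) (B : Set (Cfsg.IrrCharacter G)) (hB : Cfsg.IsPBlock M B) (u : G) (hu : ∃ j : ℕ, orderOf u = 2 ^ j) (b : Set (Cfsg.IrrCharacter ↥(Subgroup.centralizer ({u} : Set G)))) (hb : Cfsg.IsInducedBlock M (Subgroup.centralizer ({u} : Set G)) b B) : (Odd (Nat.sqrt (Cfsg.blockRank 2 b)) → Nat.card {χ : Cfsg.IrrCharacter G // χ ∈ B ∧ Cfsg.blockHeight 2 B (χ : G → ℂ) = 0} ≤ Nat.sqrt (Cfsg.blockRank 2 b) * 2 ^ Cfsg.blockDefect 2 b) ∧ (¬ Odd (Nat.sqrt (Cfsg.blockRank 2 b)) → (Nat.sqrt (Cfsg.blockRank 2 b) + 1) * Nat.card {χ : Cfsg.IrrCharacter G // χ ∈ B ∧ Cfsg.blockHeight 2 B (χ : G → ℂ) = 0} ≤ Cfsg.blockRank 2 b * 2 ^ Cfsg.blockDefect 2 b) ∧ (Cfsg.blockRank 2 b ≤ 3 → Nat.card {χ : Cfsg.IrrCharacter G // χ ∈ B ∧ Cfsg.blockHeight 2 B (χ : G → ℂ) = 0} ≤ 2 ^ Cfsg.blockDefect 2 b) := by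
  classical
  have : Modular 2 M := ⟨hM⟩
  have := Fintype.ofFinite G
  rw [Nat.card_eq_fintype_card, Fintype.card_subtype]
  have key := card_height_zero_le_or hu hb
  set k := Finset.card {χ | χ ∈ B ∧ blockHeight 2 B (χ : G → ℂ) = 0}
  set l := blockRank 2 b
  set q := 2 ^ blockDefect 2 b
  have h1 := Nat.sqrt_le l
  have h2 := Nat.lt_succ_sqrt l
  have h3 : Odd l.sqrt → k ≤ l.sqrt * q := fun ⟨t, ht⟩ => by
    rw [ht] at h2 ⊢
    rcases key (t + 1) with h | h
    · nlinarith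
    · have : l ≤ (2 * (t + 1) + 1) * (2 * t + 1) := by rw [Nat.succ_eq_add_one] at h2; nlinarith
      exact Nat.le_of_mul_le_mul_left (h.trans (by rw [← mul_assoc]; gcongr)) (by omega)
  refine ⟨h3, fun h => ?_, fun h => ?_⟩
  · obtain ⟨t, ht⟩ := Nat.not_odd_iff_even.1 h
    rw [ht, ← two_mul] at h1 ⊢
    refine (key t).elim (fun h => ?_) id
    have := Nat.mul_le_mul_left (2 * t + 1) h
    have := Nat.mul_le_mul_right q h1
    nlinarith
  · have h4 : l.sqrt = 1 := by
      have : 0 < l := blockRank_pos hb.1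
      have := Nat.sqrt_pos.2 this
      nlinarith
    simpa [h4] using h3

end Cfsg.Agent.S4541
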