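import Cfsg.Statements.S4553
import Cfsg.Agent.Lib.CharDeg.SigmaPow
import Cfsg.Agent.Lib.CharDeg.Cd

set_option autoImplicit false
open Cfsg

namespace Cfsg.Agent.S4553

theorem card_hom_pow {Q : Type*} [Group Q] [Finite Q] [IsCyclic Q] {p : ℕ} (hp : p.Prime)
    (hd : p ∣ Nat.card Q) : Nat.card {l : Q →* ℂˣ // ∀ y, l y ^ p = 1} = p := by
  haveI : NeZero p := ⟨hp.ne_zero⟩
  obtain ⟨x, hx⟩ := IsCyclic.exists_generator (α := Q)
  refine Eq.trans ?_ (Complex.card_rootsOfUnity p)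
  refine Nat.card_eq_of_bijective (fun l => ⟨l.1 x, l.2 x⟩) ⟨fun l m h => ?_, fun ζ => ?_⟩
  · apply Subtype.ext
    have h1 : l.1 x = m.1 x := congrArg Subtype.val h
    refine MonoidHom.ext fun y => ?_
    obtain ⟨i, rfl⟩ := hx y
    rw [map_zpow, map_zpow, h1]
  · have h1 : orderOf (ζ : ℂˣ) ∣ orderOf x := by
      rw [orderOf_eq_card_of_forall_mem_zpowers hx]
      exact (orderOf_dvd_of_pow_eq_one ζ.2).trans hd
    refine ⟨⟨monoidHomOfForallMemZpowers hx h1, fun y => ?_⟩, Subtype.ext ?_⟩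
    · obtain ⟨i, rfl⟩ := hx y
      rw [map_zpow, monoidHomOfForallMemZpowers_apply_gen, ← zpow_natCast, ← zpow_mul, mul_comm,
        zpow_mul, zpow_natCast, (mem_rootsOfUnity _ _).1 ζ.2, one_zpow]
    · exact monoidHomOfForallMemZpowers_apply_gen hx h1

open Cfsg.Lib.Char Cfsg.Lib.CharDeg Cfsg.Lib.Clifford Cfsg.Lib.Modular Cfsg.Lib.Transfer Subgroup in

/-- Let G be a finite group, p a prime, P a Sylow p-subgroup, N the p-residual of G (the subgroup generated by the elements of order prime to p, the smallest normal subgroup with G/N a p-group), and M a maximal ideal of the algebraic integers containing p; suppose G/N is cyclic and nontrivial. Let k be a natural number with g ^ k = g ^ (1 + p) for every p-element g and g ^ k = g for every element g of order prime to p (so that χ (g ^ k) is the image of χ g under the field automorphism that raises p-power roots of unity to the power 1 + p and fixes the roots of unity of order prime to p). Then the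 number of members χ of the principal block of G of degree prime to p with χ (g ^ k) = χ g for all g equals p times the number of members θ of the principal block of N of degree prime to p that are invariant under conjugation by P and satisfy θ (n ^ k) = θ n for all n. -/
theorem result {G : Type*} [Group G] [Finite G] (p : ℕ) [Fact p.Prime] (M : Ideal Cfsg.AlgInt) (hM : Cfsg.IsPModular p M) (P : Sylow p G) (N : Subgroup G) [hN : N.Normal] (hNres : N = Cfsg.pResidual p G) (hcyc : IsCyclic (G ⧸ N)) (hnt : N ≠ ⊤) (k : ℕ) (hk₁ : ∀ g : G, (∃ j : ℕ, orderOf g = p ^ j) → g ^ k = g ^ (1 + p)) (hk₂ : ∀ g : G, Nat.Coprime (orderOf g) p → g ^ k = g) : Nat.card {χ : Cfsg.IrrCharacter G // χ ∈ Cfsg.principalBlock M G ∧ ¬ p ∣ Cfsg.charDegree (χ : G → ℂ) ∧ ∀ g : G, (χ : G → ℂ) (g ^ k) = (χ : G → ℂ) g} = p * Nat.card {θ : Cfsg.IrrCharacter ↥N // θ ∈ Cfsg.principalBlock M ↥N ∧ ¬ p ∣ Cfsg.charDegree (θ : ↥N → ℂ) ∧ (∀ x ∈ (P : Subgroup G), ∀ n : ↥N, (θ : ↥N → ℂ) ⟨x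 * n * x⁻¹, hN.conj_mem n n.2 x⟩ = (θ : ↥N → ℂ) n) ∧ ∀ n : ↥N, (θ : ↥N → ℂ) (n ^ k) = (θ : ↥N → ℂ) n} := by
  classical
  have hp : p.Prime := Fact.out
  haveI := Fintype.ofFinite N
  have hk₂' : ∀ g : G, ¬ p ∣ orderOf g → g ^ k = g := fun g hg =>
    hk₂ g ((Nat.Prime.coprime_iff_not_dvd hp).2 hg).symm
  have hcop := sigma_coprime hk₁ hk₂'
  have hreg : ∀ g : G, ¬ p ∣ orderOf g → g ∈ N := fun g hg =>
    hNres ▸ subset_closure ((Nat.Prime.coprime_iff_not_dvd hp).2 hg).symm
  have hq : IsPGroup p (G ⧸ N) := by subst hNres; exact isPGroup_quotient_pResidual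
  have hNN : pResidual p N = ⊤ := by subst hNres; exact pResidual_pResidual
  obtain ⟨j, hj⟩ := IsPGroup.iff_card.1 hq
  have hidx : N.index = p ^ j := hj
  have hdec : ∀ g : G, ∃ n ∈ N, ∃ x ∈ (P : Subgroup G), n * x = g := by
    have htop : N ⊔ (P : Subgroup G) = ⊤ := by
      rw [← index_eq_one]
      have h1 : (N ⊔ (P : Subgroup G)).index ∣ p ^ j := hidx ▸ index_dvd_of_le le_sup_left
      obtain ⟨i, -, hi⟩ := (Nat.dvd_prime_pow hp).1 h1
      rcases i with _ | i
      · simpa using hi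
      · exact absurd ((hi ▸ dvd_pow_self p (Nat.succ_ne_zero i)).trans
          (index_dvd_of_le le_sup_right)) P.not_dvd_index
    intro g
    have : g ∈ ((N ⊔ (P : Subgroup G) : Subgroup G) : Set G) := by rw [htop]; trivial
    rw [normal_mul] at this
    obtain ⟨n, hn, x, hx, e⟩ := this
    exact ⟨n, hn, x, hx, e⟩
  set A := {θ : IrrCharacter N // θ ∈ principalBlock M N ∧ ¬ p ∣ charDegree (θ : N → ℂ) ∧
    (∀ x ∈ (P : Subgroup G), ∀ n : N,
      (θ : N → ℂ) ⟨x * n * x⁻¹, hN.conj_mem n n.2 x⟩ = (θ : N → ℂ) n) ∧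
    ∀ n : N, (θ : N → ℂ) (n ^ k) = (θ : N → ℂ) n} with hA
  have hdet : ∀ θ : N → ℂ, N.index.Coprime (detOrder θ) := fun θ => by
    rw [hidx, detOrder_eq_orderOf_detHom]
    exact ((Nat.Prime.coprime_iff_not_dvd hp).2 (not_dvd_orderOf_hom hNN _)).pow_left j
  have hext : ∀ θ : A, ∃ η : G → ℂ, IsIrrCharacter G η ∧ (∀ n : N, η n = (θ.1 : N → ℂ) n) ∧
      ∀ g, η (g ^ k) = η g := by
    intro θ
    have hinv : ∀ (g : G) (n : N),
        (θ.1 : N → ℂ) ⟨g * n * g⁻¹, hN.conj_mem n n.2 g⟩ = (θ.1 : N → ℂ) n := by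
      intro g n
      obtain ⟨m, hm, x, hx, rfl⟩ := hdec g
      rw [← θ.2.2.2.1 x hx n, ← θ.1.2.isClassFunction.conj_apply
        ⟨x * n * x⁻¹, hN.conj_mem n n.2 x⟩ ⟨m, hm⟩]
      refine congrArg _ (Subtype.ext ?_)
      change m * x * n * (m * x)⁻¹ = m * (x * n * x⁻¹) * m⁻¹
      group
    have hd : N.index.Coprime (charDegree (θ.1 : N → ℂ)) :=
      hidx ▸ ((Nat.Prime.coprime_iff_not_dvd hp).2 θ.2.2.1).pow_left j
    obtain ⟨η, hη, h1, h2⟩ := exists_extension_detOrder_eq N θ.1.2 hinv ((hdet _).mul_right hd)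
    refine ⟨η, hη, h1, fun g => ?_⟩
    obtain ⟨σ, hσ⟩ := exists_ringEquiv_forall_map_apply G hcop
    have e : (fun g => η (g ^ k)) = fun g => σ.toRingHom (η g) :=
      funext fun g => (hσ η hη.isGeneralizedCharacter g).symm
    have := eq_of_res_eq_of_coprime_detOrder N hη.isCharacter
      (by rw [show (fun n : N => η n) = (θ.1 : N → ℂ) from funext h1]; exact θ.1.2)
      (hη.isCharacter.comp_pow hcop) (fun n => by
        rw [h1, ← θ.2.2.2.2 n, ← h1]; rfl)
      (by rwa [charDegree_congr (ψ := (θ.1 : N → ℂ)) (h1 1)]) (h2 ▸ hdet _)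
      (by rw [e, detOrder_map_ringHom hη.isCharacter, h2]; exact hdet _)
    exact congrFun this g
  choose η hη hηr hηk using hext
  have hres : ∀ θ, IsIrrCharacter N (fun n : N => η θ n) := fun θ => by
    rw [show (fun n : N => η θ n) = (θ.1 : N → ℂ) from funext (hηr θ)]; exact θ.1.2
  have hk : ∀ (m : G ⧸ N →* ℂˣ), ∀ n ∈ N, (m.comp (QuotientGroup.mk' N)) n = 1 := by
    intro m n hn
    rw [MonoidHom.comp_apply, QuotientGroup.mk'_apply, (QuotientGroup.eq_one_iff n).2 hn, map_one]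
  have hlk : ∀ lam : G →* ℂˣ, (∀ n ∈ N, lam n = 1) → ∀ g, lam (g ^ k) = lam g * lam g ^ p := by
    intro lam hl g
    have h1 := sigma_pow_pow hk₁ hk₂' g 1
    have h2 := hl _ (hreg _ (not_dvd_orderOf_regPart hp g))
    have h3 : lam g = lam (pPart p g) := by
      rw [← pPart_mul_regPart p g, map_mul, h2, mul_one, pPart_mul_regPart]
    rw [pow_one, pow_one] at h1
    rw [h1, map_mul, h2, mul_one, map_pow, ← h3, pow_add, pow_one]
  have hpd : p ∣ Nat.card (G ⧸ N) := by
    rw [hj]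
    refine dvd_pow_self p ?_
    rintro rfl
    exact hnt (index_eq_one.1 hidx)
  refine Eq.trans ?_ (congrArg (· * Nat.card A) (card_hom_pow (Q := G ⧸ N) hp hpd))
  rw [← Nat.card_prod]
  symm
  refine Nat.card_eq_of_bijective (fun x => ⟨⟨fun g =>
    ((x.1.1.comp (QuotientGroup.mk' N)) g : ℂ) * η x.2 g, (hη x.2).hom_mul _⟩, ?_, ?_, ?_⟩) ⟨?_, ?_⟩
  · refine (mem_principal_res_iff hM hreg (θ := x.2.1) fun n => ?_).2 x.2.2.1
    change ((x.1.1.comp (QuotientGroup.mk' N)) n : ℂ) * η x.2 n = _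
    rw [hk _ n n.2, hηr]; simp
  · have e : charDegree (fun g => ((x.1.1.comp (QuotientGroup.mk' N)) g : ℂ) * η x.2 g) =
        charDegree (x.2.1 : N → ℂ) := charDegree_congr (by rw [← hηr x.2 1]; simp)
    change ¬ p ∣ charDegree (fun g => ((x.1.1.comp (QuotientGroup.mk' N)) g : ℂ) * η x.2 g)
    rw [e]; exact x.2.2.2.1
  · intro g
    change ((x.1.1.comp (QuotientGroup.mk' N)) (g ^ k) : ℂ) * η x.2 (g ^ k) =
      ((x.1.1.comp (QuotientGroup.mk' N)) g : ℂ) * η x.2 g
    rw [hηk, hlk _ (hk _), MonoidHom.comp_apply, x.1.2, mul_one]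
  · rintro ⟨l, θ⟩ ⟨l', θ'⟩ e
    have e1 : (fun g => ((l.1.comp (QuotientGroup.mk' N)) g : ℂ) * η θ g) =
        fun g => ((l'.1.comp (QuotientGroup.mk' N)) g : ℂ) * η θ' g :=
      congrArg (fun x => (x.1 : G → ℂ)) e
    have hθ : θ = θ' := by
      apply Subtype.ext; apply Subtype.ext
      funext n
      have := congrFun e1 n
      simp only [hk _ n n.2, Units.val_one, one_mul] at this
      rw [← hηr θ n, ← hηr θ' n, this]
    subst hθ
    have := hom_eq_of_mul_eq N (hη θ).isCharacter (hres θ) (hk l.1) (hk l'.1) e1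
    refine Prod.ext (Subtype.ext ?_) rfl
    ext g
    exact congrArg (fun f : G →* ℂˣ => (f g : ℂ)) this
  · rintro ⟨χ, hχ0, hχ, hχk⟩
    have hc : (charDegree (χ : G → ℂ)).Coprime N.index :=
      hidx ▸ ((Nat.Prime.coprime_iff_not_dvd hp).2 hχ).symm.pow_right j
    let θ0 : IrrCharacter N := ⟨_, isIrrCharacter_res_of_coprime N χ.2 hc⟩
    let θ : A := ⟨θ0, (mem_principal_res_iff hM hreg (θ := θ0) fun _ => rfl).1 hχ0, hχ,
      fun x _ n => χ.2.isClassFunction.conj_apply _ _, fun n => hχk n⟩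
    obtain ⟨lam, hl, e⟩ := exists_hom_mul_eq_of_res_eq N (hη θ).isCharacter (hres θ)
      χ.2.isCharacter (fun n => (hηr θ n).symm)
    have hlp : ∀ g, lam g ^ p = 1 := by
      have := hom_eq_of_mul_eq N (hη θ).isCharacter (hres θ) (lam := lam * lam ^ p) (mu := lam)
        (fun n hn => by simp [hl n hn]) hl (funext fun g => by
          have h1 := hχk g
          rw [e] at h1
          simp only [hηk, hlk lam hl] at h1
          simpa using h1)
      intro g
      have h2 := congrArg (fun f : G →* ℂˣ => f g) this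
      simpa using h2
    refine ⟨(⟨QuotientGroup.lift N lam hl, fun y => ?_⟩, θ), Subtype.ext (Subtype.ext ?_)⟩
    · obtain ⟨g, rfl⟩ := QuotientGroup.mk_surjective y
      exact hlp g
    · rw [e]; rfl

end Cfsg.Agent.S4553
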