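import Cfsg.Statements.S4548
import Cfsg.Agent.S4553
import Cfsg.Agent.Lib.SG2.Par
import Cfsg.Agent.Lib.PGroup.Basic
import Cfsg.Agent.Lib.Transfer.NormalComplement

set_option autoImplicit false
open Cfsg

namespace Cfsg.Agent.S4548

open Cfsg.Lib Cfsg.Lib.Char Cfsg.Lib.CharDeg Cfsg.Lib.Block Cfsg.Lib.Modular Cfsg.Lib.SG2 Subgroup
open Cfsg.Lib.Transfer

/-- The sign character of a subgroup of index two. -/
theorem exists_sign {P : Type*} [Group P] {K : Subgroup P} (hK : K.index = 2) :
    ∃ l : P →* ℂˣ, (∀ x, l x = 1 ↔ x ∈ K) ∧ ∀ x, l x ^ 2 = 1 := by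
  classical
  have h1 : (-1 : ℂˣ) ≠ 1 := fun h => by
    have := congrArg Units.val h
    simp only [Units.val_neg, Units.val_one] at this
    norm_num at this
  refine ⟨MonoidHom.mk' (fun x => if x ∈ K then 1 else -1) fun a b => ?_, fun x => ?_, fun x => ?_⟩
  · simp only [mul_mem_iff_of_index_two hK]
    by_cases ha : a ∈ K <;> by_cases hb : b ∈ K <;> simp [ha, hb]
  · by_cases hx : x ∈ K <;> simp [hx, h1]
  · by_cases hx : x ∈ K <;> simp [hx]

/-- A finite 2-group with at most one nontrivial linear character of order two is cyclic. -/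
theorem isCyclic_of_sign {P : Type*} [Group P] [Finite P] (hP : IsPGroup 2 P) (μ : P → ℂ)
    (h : ∀ l : P →* ℂˣ, (∀ x, l x ^ 2 = 1) → (∀ x, l x = 1) ∨ ∀ x, (l x : ℂ) = μ x) :
    IsCyclic P := by
  have key : ∀ K : Subgroup P, IsCoatom K → ∀ x, x ∈ K ↔ μ x = 1 := by
    intro K hK
    obtain ⟨l, h1, h2⟩ := exists_sign ((PGroup.isCoatom_iff_index_eq hP).1 hK)
    rcases h l h2 with h3 | h3
    · exact absurd (eq_top_iff.2 fun x _ => (h1 x).1 (h3 x)) hK.1
    · intro x
      rw [← h1, ← h3, Units.val_eq_one]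
  by_cases h1 : (⊥ : Subgroup P) = ⊤
  · exact ⟨⟨1, fun x => by
      have : x ∈ (⊥ : Subgroup P) := h1 ▸ mem_top x
      exact ⟨0, by simp [mem_bot.1 this]⟩⟩⟩
  obtain ⟨K, hK, -⟩ := Core.exists_coatom_ge h1
  obtain ⟨x, hx⟩ : ∃ x, x ∉ K := by
    by_contra h2
    push Not at h2
    exact hK.1 (eq_top_iff.2 fun x _ => h2 x)
  by_cases h2 : zpowers x = ⊤
  · exact ⟨⟨x, fun y => (show y ∈ zpowers x from h2 ▸ mem_top y)⟩⟩
  obtain ⟨L, hL, h3⟩ := Core.exists_coatom_ge h2
  exact absurd ((key K hK x).2 ((key L hL x).1 (h3 (mem_zpowers x)))) hx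

/-- Let G be a finite group of even order with Sylow 2-subgroup P and M a maximal ideal of the algebraic integers containing 2. Let k be a natural number with g ^ k = g ^ 3 for every 2-element g and g ^ k = g for every element g of odd order (such k exist); an irreducible character χ is unchanged by g ↦ g ^ k exactly when it is fixed by the field automorphism that cubes the 2-power roots of unity and fixes the roots of unity of odd order. Then P is cyclic if and only if exactly two members χ of the principal 2-block of odd degree satisfy χ (g ^ k) = χ g for all g. -/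
theorem result {G : Type*} [Group G] [Finite G] (M : Ideal Cfsg.AlgInt) (hM : Cfsg.IsPModular 2 M) (hev : Even (Nat.card G)) (P : Sylow 2 G) (k : ℕ) (hk₁ : ∀ g : G, (∃ j : ℕ, orderOf g = 2 ^ j) → g ^ k = g ^ 3) (hk₂ : ∀ g : G, Odd (orderOf g) → g ^ k = g) : IsCyclic P ↔ Nat.card {χ : Cfsg.IrrCharacter G // χ ∈ Cfsg.principalBlock M G ∧ Odd (Cfsg.charDegree (χ : G → ℂ)) ∧ ∀ g : G, (χ : G → ℂ) (g ^ k) = (χ : G → ℂ) g} = 2 := by
  classical
  have : Modular 2 M := ⟨hM⟩
  have hd : 2 ∣ Nat.card G := even_iff_two_dvd.1 hev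
  have hk₂' : ∀ g : G, ¬ 2 ∣ orderOf g → g ^ k = g := fun g hg =>
    hk₂ g (Nat.odd_iff.2 (Nat.two_dvd_ne_zero.1 hg))
  have hodd : ∀ n : ℕ, Odd n ↔ ¬ 2 ∣ n := fun n => by
    rw [Nat.odd_iff, Nat.two_dvd_ne_zero]
  simp only [hodd]
  refine ⟨fun hc => ?_, fun h => ?_⟩
  · have hmin : (Nat.card G).minFac = 2 := (Nat.minFac_eq_two_iff _).2 hd
    have hnc : HasNormalPComplement 2 G := ⟨P, _, inferInstance, IsCyclic.isComplement' hmin hc⟩
    have hcop := hasNormalPComplement_iff_card_pResidual.1 hnc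
    have hcomp := isComplement'_sylow_of_coprime _ hcop isPGroup_quotient_pResidual P
    have hnd : ¬ 2 ∣ Nat.card (pResidual 2 G) :=
      (Nat.Prime.coprime_iff_not_dvd Nat.prime_two).1 hcop.symm
    rw [S4553.result 2 M hM P (pResidual 2 G) rfl
      (isCyclic_of_surjective hcomp.symm.QuotientMulEquiv.symm
        hcomp.symm.QuotientMulEquiv.symm.surjective)
      (fun e => hnd (by rw [e, card_top]; exact hd)) k hk₁
      (fun g hg => hk₂' g ((Nat.Prime.coprime_iff_not_dvd Nat.prime_two).1 hg.symm)),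
      Nat.card_eq_one_iff_unique.2 ⟨⟨fun a b => Subtype.ext ?_⟩, ⟨⟨irrOne _,
        Block.irrOne_mem_principalBlock, by rw [coe_irrOne, charDegree_one]; norm_num, fun _ _ _ => rfl,
        fun _ => rfl⟩⟩⟩]
    have e := principalBlock_eq_singleton (M := M) hnd
    exact (Set.mem_singleton_iff.1 (e.subset a.2.1)).trans
      (Set.mem_singleton_iff.1 (e.subset b.2.1)).symm
  · have hcop := sigma_coprime (p := 2) hk₁ hk₂'
    have hB : ∀ χ : IrrCharacter G, χ ∈ principalBlock M G →
        (⟨_, χ.2.comp_pow hcop⟩ : IrrCharacter G) ∈ principalBlock M G := fun χ hχ =>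
      (mem_principal_congr hM (χ := ⟨_, χ.2.comp_pow hcop⟩) (ψ := χ)
        fun g hg => congrArg χ.1 (hk₂' g hg)).2 hχ
    have hfix := sum_principal_fixed (p := 2) (M := M) hcop
      (sigma_pow_eq_self (p := 2) hk₁ hk₂') hB
    rw [Nat.card_eq_fintype_card, Fintype.card_subtype] at h
    set F := Finset.univ.filter fun χ : IrrCharacter G => χ ∈ principalBlock M G ∧
      ¬ 2 ∣ charDegree (χ : G → ℂ) ∧ ∀ g : G, (χ : G → ℂ) (g ^ k) = (χ : G → ℂ) g with hF
    have h1 : irrOne G ∈ F := Finset.mem_filter.2 ⟨Finset.mem_univ _,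
      Block.irrOne_mem_principalBlock, by rw [coe_irrOne, charDegree_one]; norm_num, fun _ => rfl⟩
    obtain ⟨ψ, hψ, hFe⟩ : ∃ ψ, irrOne G ≠ ψ ∧ F = {irrOne G, ψ} := by
      obtain ⟨a, b, hab, e⟩ := Finset.card_eq_two.1 h
      rw [e, Finset.mem_insert, Finset.mem_singleton] at h1
      rcases h1 with rfl | rfl
      · exact ⟨b, hab, e⟩
      · exact ⟨a, hab.symm, by rw [e, Finset.pair_comm]⟩
    have hsum : ∀ φ : (G → ℂ) → Res M,
        (∀ χ : IrrCharacter G, φ (fun g => (χ : G → ℂ) (g ^ k)) = φ χ) →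
        ∑ χ with χ ∈ principalBlock M G, (charDegree (χ : G → ℂ) : Res M) * φ χ =
          φ (fun _ => 1) + (charDegree (ψ : G → ℂ) : Res M) * φ ψ := by
      intro φ hφ
      rw [hfix φ hφ, hFe, Finset.sum_pair hψ, coe_irrOne,
        charDegree_one, Nat.cast_one, one_mul]
    have hlin : (ψ : G → ℂ) 1 = 1 := by
      by_contra h2
      obtain ⟨g, hg⟩ := ψ.2.exists_apply_eq_zero h2
      have h3 := hsum (fun χ => red M (χ g)) fun χ => by
        have h4 := sigma_pow_pow (p := 2) hk₁ hk₂' g 1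
        rw [pow_one, pow_one] at h4
        change red M ((χ : G → ℂ) (g ^ k)) = _
        rw [← red_char_regPart (p := 2) χ.2.isCharacter (g ^ k),
          ← red_char_regPart (p := 2) χ.2.isCharacter g, h4,
          regPart_mul Nat.prime_two (pElt_pow Nat.prime_two (pElt_pPart Nat.prime_two g) _)
            (not_dvd_orderOf_regPart Nat.prime_two g) ((commute_pPart_regPart 2 g).pow_left _)]
      rw [red_sum_principal (p := 2) hd g, hg, red_zero, mul_zero, add_zero, red_one] at h3
      exact zero_ne_one h3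
    obtain ⟨μ, hμ⟩ := ψ.2.isCharacter.exists_hom_of_apply_one hlin
    have := Fintype.ofFinite (P : Subgroup G)
    refine isCyclic_of_sign P.isPGroup' (fun x : (P : Subgroup G) => (ψ : G → ℂ) x) fun l hl => ?_
    have h3 := hsum (fun χ => red M (classInner (fun x : (P : Subgroup G) => χ x)
      fun x => (l x : ℂ))) fun χ => by
        refine congrArg (red M) ?_
        simp only [classInner]
        congr 1
        have hc : (Nat.card (P : Subgroup G)).Coprime k :=
          (Nat.Coprime.coprime_dvd_right (card_subgroup_dvd_card _) hcop).symm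
        refine Fintype.sum_equiv (powCoprime hc) _ _ fun x => ?_
        obtain ⟨j, hj⟩ := pElt_of_mem Nat.prime_two P.isPGroup' x.2
        have h5 : x ^ k = x ^ 3 := Subtype.ext (hk₁ x ⟨j, hj⟩)
        rw [powCoprime_apply, SubgroupClass.coe_pow, h5, map_pow, pow_succ, hl, one_mul]
    have h4 := red_sum_mult (p := 2) (M := M) P l
    rw [h3] at h4
    by_contra h5
    rw [not_or] at h5
    apply h4
    have e1 : classInner (fun _ : (P : Subgroup G) => (1 : ℂ)) (fun x => (l x : ℂ)) = 0 :=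
      isIrrCharacter_one.inner_eq_zero_of_ne (isIrrCharacter_hom l) fun e =>
        h5.1 fun x => Units.val_eq_one.1 (congrFun e x).symm
    have e2 : classInner (fun x : (P : Subgroup G) => (ψ : G → ℂ) x) (fun x => (l x : ℂ)) = 0 := by
      have e3 : IsIrrCharacter (P : Subgroup G) fun x => (ψ : G → ℂ) x := by
        rw [hμ]
        exact isIrrCharacter_hom (μ.comp (P : Subgroup G).subtype)
      exact e3.inner_eq_zero_of_ne (isIrrCharacter_hom l) fun e =>
        h5.2 fun x => (congrFun e x).symm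
    simp only [e1, e2, red_zero, mul_zero, add_zero]

end Cfsg.Agent.S4548
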