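import Cfsg.Statements.S4549
import Cfsg.Agent.Lib.Block.Pahlings
import Cfsg.Agent.Lib.Block.Kernel
import Cfsg.Agent.Lib.Block.PrinExt
import Cfsg.Agent.Lib.Clifford.Extension
import Cfsg.Agent.Lib.Char.Galois

set_option autoImplicit false
open Cfsg

namespace Cfsg.Agent.S4549

open Cfsg.Lib.Block MonoidAlgebra Cfsg.Lib.Char Cfsg.Lib.Modular Cfsg.Lib.Transfer Subgroup
open Cfsg.Lib.Clifford Cfsg.Lib.CharDeg Cfsg.Lib

theorem pow_pow_eq {G : Type*} [Group G] [Finite G] {k : ℕ}
    (hk₁ : ∀ g : G, (∃ j : ℕ, orderOf g = 2 ^ j) → g ^ k = g ^ 3)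
    (hk₂ : ∀ g : G, Odd (orderOf g) → g ^ k = g) (g : G) : g ^ k ^ 2 ^ Nat.card G = g := by
  obtain ⟨j, m, hm, e⟩ := Nat.exists_eq_two_pow_mul_odd (orderOf_pos g).ne'
  have m0 : m ≠ 0 := hm.pos.ne'
  have a : orderOf (g ^ m) = 2 ^ j := by
    rw [orderOf_pow_of_dvd m0 (e ▸ dvd_mul_left _ _), e, Nat.mul_div_cancel _ hm.pos]
  have b : orderOf (g ^ 2 ^ j) = m := by
    rw [orderOf_pow_of_dvd (by positivity) (e ▸ dvd_mul_right _ _), e,
      Nat.mul_div_cancel_left _ (by positivity)]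
  have a1 : k ≡ 3 [MOD 2 ^ j] := a ▸ pow_eq_pow_iff_modEq.1 (hk₁ _ ⟨j, a⟩)
  have b1 : k ≡ 1 [MOD m] := by
    have := hk₂ (g ^ 2 ^ j) (b ▸ hm)
    rw [← b]; exact pow_eq_pow_iff_modEq.1 (by rw [this, pow_one])
  have c : j ≤ Nat.card G := by
    have h1 : 2 ^ j ≤ Nat.card G :=
      Nat.le_of_dvd Nat.card_pos ((e ▸ dvd_mul_right _ _ : 2 ^ j ∣ orderOf g).trans
        (orderOf_dvd_natCard g))
    exact (Nat.lt_two_pow_self.le).trans h1
  have d : 3 ^ 2 ^ Nat.card G ≡ 1 [MOD 2 ^ j] := by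
    have h1 := Nat.ModEq.pow_totient (x := 3) (n := 2 ^ j) (Nat.Coprime.pow_right _ (by norm_num))
    have h2 : Nat.totient (2 ^ j) ∣ 2 ^ Nat.card G := by
      rcases j with _ | j
      · simp
      · rw [Nat.totient_prime_pow_succ Nat.prime_two]
        simpa using pow_dvd_pow 2 (by omega)
    obtain ⟨t, ht⟩ := h2
    rw [ht, pow_mul]
    simpa using h1.pow t
  have f : k ^ 2 ^ Nat.card G ≡ 1 [MOD orderOf g] := by
    rw [e, ← Nat.modEq_and_modEq_iff_modEq_mul
      (Nat.Coprime.pow_left _ ((Nat.coprime_two_left).2 hm))]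
    exact ⟨(a1.pow _).trans d, by simpa using b1.pow (2 ^ Nat.card G)⟩
  conv_rhs => rw [← pow_one g]
  exact pow_eq_pow_iff_modEq.2 f

theorem coprime_of {G : Type*} [Group G] [Finite G] {k n : ℕ} (hn : n ≠ 0)
    (h : ∀ g : G, g ^ k ^ n = g) : k.Coprime (Nat.card G) := by
  refine Nat.coprime_of_dvd fun q hq h1 h2 => ?_
  have : Fact q.Prime := ⟨hq⟩
  obtain ⟨g, hg⟩ := exists_prime_orderOf_dvd_card' q h2
  have h3 : g ^ k ^ n = 1 := orderOf_dvd_iff_pow_eq_one.1 (hg ▸ h1.trans (dvd_pow_self k hn))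
  rw [h g] at h3
  rw [h3, orderOf_one] at hg
  exact hq.one_lt.ne hg

/-- The power map on irreducible characters. -/
noncomputable def powIrr {N : Type*} [Group N] [Finite N] {k : ℕ} (hk : k.Coprime (Nat.card N))
    (χ : IrrCharacter N) : IrrCharacter N := ⟨_, χ.2.comp_pow hk⟩

theorem powIrr_iter {N : Type*} [Group N] [Finite N] {k : ℕ} (hk : k.Coprime (Nat.card N))
    (n : ℕ) (χ : IrrCharacter N) (g : N) :
    ((powIrr hk)^[n] χ : N → ℂ) g = (χ : N → ℂ) (g ^ k ^ n) := by
  induction n generalizing g with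
  | zero => simp
  | succ n ih =>
    rw [Function.iterate_succ_apply']
    change ((powIrr hk)^[n] χ : N → ℂ) (g ^ k) = _
    rw [ih, ← pow_mul, ← pow_succ']

theorem exists_perm {N : Type*} [Group N] [Finite N] {k n : ℕ} (hk : k.Coprime (Nat.card N))
    (hn : n ≠ 0) (h : ∀ g : N, g ^ k ^ n = g) : ∃ τ : Equiv.Perm (IrrCharacter N),
      τ ^ n = 1 ∧ ∀ χ g, (τ χ : N → ℂ) g = (χ : N → ℂ) (g ^ k) := by
  have e : (powIrr hk)^[n] = id := funext fun χ => Subtype.ext (funext fun g => by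
    rw [powIrr_iter, h]; rfl)
  have hb : Function.Bijective (powIrr hk) := by
    obtain ⟨m, rfl⟩ := Nat.exists_eq_succ_of_ne_zero hn
    refine Function.bijective_iff_has_inverse.2 ⟨(powIrr hk)^[m], fun χ => ?_, fun χ => ?_⟩
    · rw [← Function.iterate_succ_apply, e, id]
    · rw [← Function.iterate_succ_apply' (powIrr hk), e, id]
  refine ⟨Equiv.ofBijective _ hb, Equiv.ext fun χ => ?_, fun _ _ => rfl⟩
  rw [Equiv.Perm.coe_pow]
  exact congrFun e χ

theorem backward {G : Type*} [Group G] [Finite G] {p : ℕ} [hp : Fact p.Prime] (M : Ideal AlgInt)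
    [Modular p M] {k a : ℕ} (hk : ∀ g : G, g ^ k ^ p ^ a = g) (h : ∀ χ ∈ principalBlock M G,
    ¬ p ∣ charDegree (χ : G → ℂ) → (∀ g : G, (χ : G → ℂ) (g ^ k) = (χ : G → ℂ) g) →
    charDegree (χ : G → ℂ) = 1) : HasNormalPComplement p G := by
  classical
  rw [hasNormalPComplement_iff_card_pResidual, Nat.coprime_comm, hp.out.coprime_iff_not_dvd]
  set N := pResidual p G with hN
  intro hd
  have : N.Normal := pResidual_normal
  have := Fintype.ofFinite N
  have := finite_hom_units N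
  obtain ⟨P⟩ : Nonempty (Sylow p G) := inferInstance
  obtain ⟨j, hj⟩ := exists_index_pResidual_eq_pow (G := G) (p := p)
  have pa : p ^ a ≠ 0 := pow_ne_zero _ hp.out.ne_zero
  have kG : k.Coprime (Nat.card G) := coprime_of pa hk
  have kN : k.Coprime (Nat.card N) := kG.coprime_dvd_right (card_subgroup_dvd_card N)
  obtain ⟨τ, hτ, τa⟩ := exists_perm (N := N) kN pa fun g => Subtype.ext (hk g)
  let σ₀ : P →* Equiv.Perm (IrrCharacter N) :=
    irrPermAut.comp ((MulAut.conjNormal (H := N)).comp (P : Subgroup G).subtype)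
  have comm : ∀ (s : P) (t : zpowers τ), Commute (σ₀ s) ((zpowers τ).subtype t) := fun s t => by
    obtain ⟨_, i, rfl⟩ := t
    refine Commute.zpow_right (Equiv.ext fun χ => Subtype.ext (funext fun g => ?_)) i
    simp only [Equiv.Perm.mul_apply, σ₀, MonoidHom.comp_apply, irrPermAut_apply, τa, map_pow]
  let σ := σ₀.noncommCoprod (zpowers τ).subtype comm
  have hQ : IsPGroup p (P × zpowers τ) := by
    obtain ⟨b, hb⟩ := IsPGroup.iff_card.1 P.isPGroup'
    obtain ⟨c, -, hc⟩ := (Nat.dvd_prime_pow hp.out).1 (orderOf_dvd_of_pow_eq_one hτ)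
    exact IsPGroup.of_card (n := b + c) (by rw [Nat.card_prod, hb, Nat.card_zpowers, hc, pow_add])
  have hσ : ∀ θ : IrrCharacter N, (∀ s, σ s θ = θ) ↔ (∀ s, σ₀ s θ = θ) ∧ τ θ = θ := fun θ => by
    refine ⟨fun e => ⟨fun s => by simpa [σ] using e (s, 1), by
      simpa [σ] using e (1, ⟨τ, mem_zpowers τ⟩)⟩, fun ⟨e1, e2⟩ ⟨s, _, i, rfl⟩ => ?_⟩
    have : (τ ^ i) θ = θ := Equiv.Perm.zpow_apply_eq_self_of_apply_eq_self e2 i
    simp [σ, this, e1]
  have hfix : ∀ θ : IrrCharacter N, (∀ s, σ₀ s θ = θ) → inertia N (θ : N → ℂ) = ⊤ := fun θ h => by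
    rw [eq_top_iff, ← pResidual_sup_sylow P, sup_le_iff]
    refine ⟨le_inertia N θ.2.isClassFunction, fun s hs => (mem_inertia_iff N).2 fun n => ?_⟩
    exact (irrPermAut_eq_iff _ _).1 (h ⟨s, hs⟩) n
  let F : IrrCharacter N → ZMod p := fun θ =>
    if θ ∈ principalBlock M N then (charDegree (θ : N → ℂ) : ZMod p) ^ 2 else 0
  have F1 : ∀ s θ, F (σ₀ s θ) = F θ := fun s θ => by
    refine if_congr ?_ ?_ rfl
    · conv_rhs => rw [← preimage_irrEquiv_principalBlock (MulAut.conjNormal (s : G)).symm]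
      rfl
    · congr 2
      exact charDegree_congr (by simp [σ₀, irrPermAut_apply])
  have τB : ∀ θ, θ ∈ principalBlock M N → τ θ ∈ principalBlock M N := fun θ hθ => by
    have := comp_pow_mem_principal M hθ kN
    rwa [show τ θ = ⟨_, θ.2.comp_pow kN⟩ from Subtype.ext (funext (τa θ))]
  have τB' : ∀ (i : ℕ) θ, θ ∈ principalBlock M N → (τ ^ i) θ ∈ principalBlock M N := fun i => by
    induction i with
    | zero => exact fun _ h => h
    | succ i ih => exact fun θ h => by rw [pow_succ']; exact τB _ (ih θ h)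
  have F2 : ∀ θ, F (τ θ) = F θ := fun θ => by
    refine if_congr ⟨fun e => ?_, τB θ⟩ ?_ rfl
    · have := τB' (p ^ a - 1) _ e
      rwa [← Equiv.Perm.mul_apply, ← pow_succ, Nat.sub_add_cancel (Nat.pos_of_ne_zero pa), hτ] at this
    · congr 2
      exact charDegree_congr (by rw [τa, one_pow])
  have F3 : ∀ (i : ℕ) θ, F ((τ ^ i) θ) = F θ := fun i => by
    induction i with
    | zero => exact fun _ => rfl
    | succ i ih => exact fun θ => by rw [pow_succ', Equiv.Perm.mul_apply, F2, ih]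
  have h1 := sum_eq_sum_fixed_zmod hQ σ
    (Subtype.val : {θ : IrrCharacter N // ∀ s, σ s θ = θ} → _) Subtype.val_injective
    (fun θ => by simp) F (fun ⟨s, t, ht⟩ θ => by
      obtain ⟨i, rfl⟩ := (mem_powers_iff_mem_zpowers.2 ht)
      simp only [σ, MonoidHom.noncommCoprod_apply, Equiv.Perm.mul_apply, coe_subtype]
      rw [F1, F3])
  have h2 := factorization_sum_degree_sq (p := p) (Block.isPBlock_principalBlock (M := M) (G := N))
  have h3 : blockDefect p (principalBlock M N) ≤ (Nat.card N).factorization p := Nat.sub_le _ _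
  have h4 := hp.out.factorization_pos_of_dvd Nat.card_pos.ne' hd
  have h5 := (ZMod.natCast_eq_zero_iff _ _).2
    (Nat.dvd_of_factorization_pos (h2.trans_ne (by omega)))
  rw [Nat.cast_sum, Finset.sum_filter] at h5
  simp only [Nat.cast_pow] at h5
  let S : Subgroup (N →* ℂˣ) := prinHom N M ⊓
    ((⨅ s : P, MonoidHom.eqLocus (MonoidHom.id _)
      (MonoidHom.compHom' (MulAut.conjNormal (s : G)).toMonoidHom)) ⊓
      MonoidHom.eqLocus (powMonoidHom k) (MonoidHom.id _))
  have hS : ∀ l, l ∈ S ↔ l ∈ prinHom N M ∧ ∀ s, σ s ⟨_, isIrrCharacter_hom l⟩ =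
      ⟨_, isIrrCharacter_hom l⟩ := fun l => and_congr_right fun _ => by
    rw [hσ]
    refine and_congr ?_ ?_
    · refine Subgroup.mem_iInf.trans
        (forall_congr' fun s => Iff.trans ?_ (irrPermAut_eq_iff _ _).symm)
      exact ⟨fun e n => congrArg Units.val (DFunLike.congr_fun e n).symm,
        fun e => MonoidHom.ext fun n => Units.ext (e n).symm⟩
    · refine ⟨fun e => Subtype.ext (funext fun n => ?_), fun e => MonoidHom.ext fun n => ?_⟩
      · rw [τa]
        have := DFunLike.congr_fun (show l ^ k = l from e) n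
        rw [MonoidHom.pow_apply, ← map_pow] at this
        exact congrArg Units.val this
      · have := congrFun (congrArg Subtype.val e) n
        rw [τa] at this
        change (l ^ k) n = l n
        rw [MonoidHom.pow_apply, ← map_pow]
        exact Units.ext this
  have h6 : ¬ p ∣ Nat.card S := fun e => by
    obtain ⟨l, hl⟩ := exists_prime_orderOf_dvd_card' p e
    exact not_dvd_orderOf_hom pResidual_pResidual l.1 (by rw [orderOf_coe, hl])
  have := Fintype.ofFinite S
  refine h6 ((ZMod.natCast_eq_zero_iff _ _).1 ?_)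
  rw [← h5]
  change _ = ∑ x, F x
  rw [h1, Nat.card_eq_fintype_card, Fintype.card_eq_sum_ones, Nat.cast_sum]
  refine Finset.sum_of_injOn (fun l => ⟨⟨_, isIrrCharacter_hom l.1⟩, ((hS _).1 l.2).2⟩)
    (fun l _ l' _ e => Subtype.ext (MonoidHom.ext fun n => Units.ext
      (congrFun (congrArg (fun x => x.1.1) e) n))) (fun _ _ => Finset.mem_univ _)
    (fun θ _ hθ => ?_) fun l _ => ?_
  · simp only [F]
    split_ifs with h7
    · rw [pow_eq_zero_iff two_ne_zero, ZMod.natCast_eq_zero_iff]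
      by_contra h8
      have d1 : ¬ p ∣ detOrder (θ.1 : N → ℂ) := by
        rw [detOrder_eq_orderOf_detHom]
        exact not_dvd_orderOf_hom pResidual_pResidual _
      obtain ⟨χ, h9, h10, h14⟩ := exists_extension_detOrder_eq N θ.1.2
        ((inertia_eq_top_iff N).1 (hfix _ ((hσ _).1 θ.2).1))
        (hj ▸ ((hp.out.coprime_iff_not_dvd).2 fun e =>
          ((hp.out.dvd_mul).1 e).elim d1 h8).pow_left j)
      have h11 : charDegree χ = charDegree (θ.1 : N → ℂ) := charDegree_congr (h10 1)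
      have cop : ∀ {m : ℕ}, ¬ p ∣ m → N.index.Coprime m := fun e =>
        hj ▸ ((hp.out.coprime_iff_not_dvd).2 e).pow_left j
      have h15 : (fun g => χ (g ^ k)) = χ := by
        refine eq_of_res_eq_of_coprime_detOrder N h9.isCharacter (funext h10 ▸ θ.1.2)
          (h9.comp_pow kG).isCharacter (fun n => ?_) (cop (h11 ▸ h8)) (cop (h14 ▸ d1)) (cop ?_)
        · have := congrFun (congrArg Subtype.val ((hσ _).1 θ.2).2) n
          rw [τa, ← h10, ← h10] at this
          exact this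
        · obtain ⟨ρ, hρ⟩ := exists_ringEquiv_forall_map_apply G kG
          have := detOrder_map_ringHom h9.isCharacter (ρ : ℂ →+* ℂ)
          rw [← funext (hρ χ h9.isCharacter.isGeneralizedCharacter)]
          exact (this.trans h14) ▸ d1
      have h12 := h ⟨χ, h9⟩ (Over.mem_principal_of_index ⟨j, hj⟩
        ((over_subtype_iff ⟨χ, h9⟩ θ.1).2 (by
        rw [funext h10, θ.1.2.inner_self]; exact one_ne_zero)) h7) (h11 ▸ h8) (congrFun h15)
      obtain ⟨l, hl⟩ := θ.1.2.isCharacter.exists_hom_of_apply_one (by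
        rw [θ.1.2.apply_one_eq, ← h11, h12, Nat.cast_one])
      have h13 : θ.1 = ⟨_, isIrrCharacter_hom l⟩ := Subtype.ext hl
      exact hθ ⟨⟨l, (hS l).2 ⟨mem_prinHom.2 (h13 ▸ h7), h13 ▸ θ.2⟩⟩, Finset.mem_univ _,
        Subtype.ext h13.symm⟩
    · rfl
  · simp only [F]
    rw [if_pos (mem_prinHom.1 ((hS _).1 l.2).1), charDegree_eq_of_apply_one (n := 1) (by simp)]
    simp

/-- Let G be a finite group and M a maximal ideal of the algebraic integers containing 2. Let k be a natural number with g ^ k = g ^ 3 for every 2-element g and g ^ k = g for every element g of odd order (such k exist); an irreducible character χ is unchanged by g ↦ g ^ k exactly when it is fixed by the field automorphism that cubes the 2-power roots of unity and fixes the roots of unity of odd order. Then G has a normal 2-complement if and only if every member χ of the principal 2-block of odd degree with χ (g ^ k) = χ g for all g has degree one. -/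
theorem result {G : Type*} [Group G] [Finite G] (M : Ideal Cfsg.AlgInt) (hM : Cfsg.IsPModular 2 M) (k : ℕ) (hk₁ : ∀ g : G, (∃ j : ℕ, orderOf g = 2 ^ j) → g ^ k = g ^ 3) (hk₂ : ∀ g : G, Odd (orderOf g) → g ^ k = g) : Cfsg.HasNormalPComplement 2 G ↔ ∀ χ ∈ Cfsg.principalBlock M G, Odd (Cfsg.charDegree (χ : G → ℂ)) → (∀ g : G, (χ : G → ℂ) (g ^ k) = (χ : G → ℂ) g) → Cfsg.charDegree (χ : G → ℂ) = 1 := by
  have : Modular 2 M := ⟨hM⟩
  constructor
  · rintro ⟨P, N, hN, hc⟩ χ hχ ho -
    obtain ⟨b, hb⟩ := IsPGroup.iff_card.1 P.isPGroup'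
    have h1 : ¬ 2 ∣ Nat.card N := by
      rw [← hc.index_eq_card]; exact P.not_dvd_index
    have h2 := χ.2.charDegree_dvd_index_of_le_ker N (principalBlock_subset_kerSet (M := M) h1 hχ)
    rw [hc.symm.index_eq_card, hb] at h2
    exact Nat.Coprime.eq_one_of_dvd (Nat.Coprime.pow_right _ ((Nat.coprime_two_right).2 ho)) h2
  · intro h
    exact backward M (pow_pow_eq hk₁ hk₂) fun χ hχ h1 =>
      h χ hχ (Nat.odd_iff.2 (by omega))

end Cfsg.Agent.S4549
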