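import Cfsg.Statements.S4550
import Cfsg.Agent.Lib.CharDeg.SigmaPow
import Cfsg.Agent.Lib.Modular.Values

set_option autoImplicit false
open Cfsg

namespace Cfsg.Agent.S4550

open Cfsg.Lib.Char Cfsg.Lib.CharDeg Cfsg.Lib.Block Cfsg.Lib.Modular Subgroup in
open scoped ComplexConjugate in

/-- Let G be a finite group of even order and M a maximal ideal of the algebraic integers containing 2. Let k be a natural number with g ^ k = g ^ 3 for every 2-element g and g ^ k = g for every element g of odd order (such k exist); an irreducible character χ is unchanged by g ↦ g ^ k exactly when it is fixed by the field automorphism that cubes the 2-power roots of unity and fixes the roots of unity of odd order. Then the number of members χ of the principal 2-block of odd degree with χ (g ^ k) = χ g for all g is even. -/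
theorem result {G : Type*} [Group G] [Finite G] (M : Ideal Cfsg.AlgInt) (hM : Cfsg.IsPModular 2 M) (hev : Even (Nat.card G)) (k : ℕ) (hk₁ : ∀ g : G, (∃ j : ℕ, orderOf g = 2 ^ j) → g ^ k = g ^ 3) (hk₂ : ∀ g : G, Odd (orderOf g) → g ^ k = g) : Even (Nat.card {χ : Cfsg.IrrCharacter G // χ ∈ Cfsg.principalBlock M G ∧ Odd (Cfsg.charDegree (χ : G → ℂ)) ∧ ∀ g : G, (χ : G → ℂ) (g ^ k) = (χ : G → ℂ) g}) := by
  classical
  haveI : Modular 2 M := ⟨hM⟩
  have hk₂' : ∀ g : G, ¬ 2 ∣ orderOf g → g ^ k = g := fun g hg =>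
    hk₂ g (Nat.odd_iff.2 (Nat.two_dvd_ne_zero.1 hg))
  have hcop := sigma_coprime (p := 2) hk₁ hk₂'
  let X := {χ : IrrCharacter G // χ ∈ principalBlock M G ∧ Odd (charDegree (χ : G → ℂ))}
  let f : Function.End X := fun χ => ⟨⟨_, χ.1.2.comp_pow hcop⟩,
    (mem_principal_congr hM (χ := ⟨_, χ.1.2.comp_pow hcop⟩) (ψ := χ.1)
      fun g hg => congrArg χ.1.1 (hk₂' g hg)).2 χ.2.1, by
      rw [charDegree_congr (ψ := (χ.1 : G → ℂ)) (by simp)]; exact χ.2.2⟩
  have hf : ∀ (n : ℕ) (χ : X) (g : G), (((f ^ n) χ).1 : G → ℂ) g = (χ.1 : G → ℂ) (g ^ k ^ n) := by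
    intro n
    induction n with
    | zero => intro χ g; simp; rfl
    | succ n ih =>
      intro χ g
      rw [pow_succ', pow_succ', pow_mul, ← ih]
      rfl
  have hf1 : f ^ 2 ^ Nat.card G = 1 := by
    funext χ
    apply Subtype.ext; apply Subtype.ext
    funext g
    rw [hf, sigma_pow_eq_self (p := 2) hk₁ hk₂']
    rfl
  have h1 := Equiv.Perm.card_fixedPoints_modEq hf1
  have h2 : Nat.card {χ : IrrCharacter G // χ ∈ principalBlock M G ∧ Odd (charDegree (χ : G → ℂ)) ∧
      ∀ g : G, (χ : G → ℂ) (g ^ k) = (χ : G → ℂ) g} = Fintype.card f.fixedPoints := by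
    rw [← Nat.card_eq_fintype_card]
    refine Nat.card_congr ⟨fun χ => ⟨⟨χ.1, χ.2.1, χ.2.2.1⟩,
      Subtype.ext (Subtype.ext (funext χ.2.2.2))⟩, fun χ => ⟨χ.1.1, χ.1.2.1, χ.1.2.2,
        fun g => congrFun (congrArg (fun x : X => (x.1 : G → ℂ)) χ.2) g⟩, fun _ => rfl, fun _ => rfl⟩
  rw [h2, even_iff_two_dvd, ← h1.dvd_iff dvd_rfl]
  obtain ⟨z, hz⟩ := exists_prime_orderOf_dvd_card' (G := G) 2 (even_iff_two_dvd.1 hev)
  have hsum : ∑ χ with χ ∈ principalBlock M G, (χ : G → ℂ) 1 * conj ((χ : G → ℂ) z) = 0 := by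
    have h1 := isPBlock_principalBlock.blockCoeff_eq_zero (M := M) (G := G) (g := z) (by rw [hz])
    rw [blockCoeff_eq] at h1
    exact (mul_eq_zero.1 h1).resolve_left (inv_ne_zero (card_ne_zero_complex G))
  have hc : ∀ χ : IrrCharacter G, conj ((χ : G → ℂ) z) ∈ locRing M :=
    fun χ => char_mem χ.2.isCharacter.conj z
  have h3 := congrArg (red M) hsum
  rw [red_sum _ _ (fun χ _ => mul_mem (irr_mem χ 1) (hc χ)), red_zero,
    Finset.sum_congr rfl (g := fun χ : IrrCharacter G => if Odd (charDegree (χ : G → ℂ)) then 1 else 0) ?_,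
    Finset.sum_boole, Finset.filter_filter, CharP.cast_eq_zero_iff _ 2] at h3
  · rwa [Fintype.card_subtype]
  · intro χ _
    obtain ⟨n, hn, c, hc'⟩ := exists_int_apply_of_sq_eq_one χ.2.isCharacter
      (show z ^ 2 = 1 by rw [← hz, pow_orderOf_eq_one])
    have h2' : (2 : Res M) = 0 := CharP.cast_eq_zero (Res M) 2
    rw [red_mul (irr_mem χ 1) (hc χ), χ.2.apply_one_eq, hn, map_intCast, red_intCast, red_natCast,
      show n = charDegree (χ : G → ℂ) - 2 * c by omega]
    split_ifs with h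
    · obtain ⟨d, hd⟩ := h
      rw [hd]; push_cast; rw [h2']; ring
    · obtain ⟨d, hd⟩ := Nat.not_odd_iff_even.1 h
      rw [hd]; push_cast; rw [← two_mul, h2']; ring

end Cfsg.Agent.S4550
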