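import Cfsg.Statements.S4552
import Cfsg.Agent.Lib.Block.RankTwoAb

set_option autoImplicit false
open Cfsg

namespace Cfsg.Agent.S4552

open Cfsg.Lib.Block Cfsg.Lib.Char Cfsg.Lib.Transfer MonoidAlgebra Subgroup

/-- Let B be a 2-block of the finite group G (relative to a maximal ideal M of the algebraic integers containing 2) whose defect group D is the direct product of two cyclic groups of the same order 2 ^ m, m ≥ 2. Then either B has 2-regular rank one and exactly 4 ^ m irreducible characters, or B has 2-regular rank three and exactly (4 ^ m + 8) / 3 irreducible characters. -/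
theorem result {G : Type*} [Group G] [Finite G] (M : Ideal Cfsg.AlgInt) (hM : Cfsg.IsPModular 2 M) (B : Set (Cfsg.IrrCharacter G)) (hB : Cfsg.IsPBlock M B) (D : Subgroup G) (hD : Cfsg.IsDefectGroup 2 M B D) (m : ℕ) (hm : 2 ≤ m) (hiso : Nonempty (D ≃* Multiplicative (ZMod (2 ^ m) × ZMod (2 ^ m)))) : (Cfsg.blockRank 2 B = 1 ∧ Nat.card B = 4 ^ m) ∨ (Cfsg.blockRank 2 B = 3 ∧ 3 * Nat.card B = 4 ^ m + 8) := by
  have : Modular 2 M := ⟨hM⟩
  obtain ⟨e⟩ := hiso
  obtain ⟨ω₀, hmx, rfl⟩ := Prs.exists_isMax hB hD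
  have := hmx.counts_of_rankTwo (Subgroup.le_centralizer_iff_isMulCommutative.2
    (Lib.Modular.isMulCommutative_of_homocyclic e))
    (Lib.Modular.isKleinFour_omegaOne_of_homocyclic (by omega) e)
  rwa [Nat.card_congr e.toEquiv, Nat.card_congr Multiplicative.toAdd, Nat.card_prod, Nat.card_zmod,
    ← mul_pow] at this

end Cfsg.Agent.S4552
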