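import Cfsg.Statements.S4560
import Cfsg.Agent.Lib.Alt.FourChar

set_option autoImplicit false
open Cfsg

namespace Cfsg.Agent.S4560

/-- For n ≥ 7 the alternating group on n letters has an irreducible character that vanishes at some 2-element and is the restriction of an irreducible character of the symmetric group, and an irreducible character that vanishes at some element of order 3 and is the restriction of an irreducible character of the symmetric group. -/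
theorem result (n : ℕ) (hn : 7 ≤ n) : (∃ χ : Cfsg.IrrCharacter (alternatingGroup (Fin n)), (∃ x : alternatingGroup (Fin n), (∃ j : ℕ, orderOf x = 2 ^ j) ∧ (χ : alternatingGroup (Fin n) → ℂ) x = 0) ∧ ∃ ψ : Cfsg.IrrCharacter (Equiv.Perm (Fin n)), ∀ x : alternatingGroup (Fin n), (ψ : Equiv.Perm (Fin n) → ℂ) x = (χ : alternatingGroup (Fin n) → ℂ) x) ∧ (∃ χ : Cfsg.IrrCharacter (alternatingGroup (Fin n)), (∃ y : alternatingGroup (Fin n), orderOf y = 3 ∧ (χ : alternatingGroup (Fin n) → ℂ) y = 0) ∧ ∃ ψ : Cfsg.IrrCharacter (Equiv.Perm (Fin n)), ∀ x : alternatingGroup (Fin n), (ψ : Equiv.Perm (Fin n) → ℂ) x = (χ : alternatingGroup (Fin n) → ℂ) x) := by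
  open Cfsg.Lib.Alt in
  have hA : MulAction.IsMultiplyPretransitive (alternatingGroup (Fin n)) (Fin n) 4 := by
    have := alternatingGroup.isMultiplyPretransitive (Fin n)
    exact MulAction.isMultiplyPretransitive_of_le (n := Nat.card (Fin n) - 2) (by simp; omega)
      (Nat.sub_le _ _)
  have hS := Equiv.Perm.isMultiplyPretransitive (Fin n) 4
  obtain ⟨a1, a2, a3⟩ := Lib.Alt.irr_three (G := alternatingGroup (Fin n)) (Ω := Fin n) (by simp; omega)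
  obtain ⟨s1, s2, s3⟩ := Lib.Alt.irr_three (G := Equiv.Perm (Fin n)) (Ω := Fin n) (by simp; omega)
  have key : ∀ P : alternatingGroup (Fin n) → Prop, (∃ g, P g ∧ (Lib.Alt.chiA (Fin n) g = 0 ∨
      Lib.Alt.chiL (Fin n) g = 0 ∨ Lib.Alt.chiM (Fin n) g = 0)) →
      ∃ χ : Cfsg.IrrCharacter (alternatingGroup (Fin n)), (∃ x : alternatingGroup (Fin n), P x ∧
        (χ : alternatingGroup (Fin n) → ℂ) x = 0) ∧ ∃ ψ : Cfsg.IrrCharacter (Equiv.Perm (Fin n)),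
        ∀ x : alternatingGroup (Fin n), (ψ : Equiv.Perm (Fin n) → ℂ) x =
          (χ : alternatingGroup (Fin n) → ℂ) x := by
    rintro P ⟨g, hg, h | h | h⟩
    · exact ⟨⟨_, a1⟩, ⟨g, hg, h⟩, ⟨_, s1⟩, fun _ => rfl⟩
    · exact ⟨⟨_, a2⟩, ⟨g, hg, h⟩, ⟨_, s2⟩, fun _ => rfl⟩
    · exact ⟨⟨_, a3⟩, ⟨g, hg, h⟩, ⟨_, s3⟩, fun _ => rfl⟩
  have z : ∀ (g : alternatingGroup (Fin n)) (a y : ℕ), (Lib.Alt.fixS (Fin n) g).card = a →
      (Lib.Alt.twoS (Fin n) g).card = y → (a = 1 ∨ a = 2 ∧ y = 0 ∨ a = 0 ∧ y = 2 ∨ a = 0 ∧ y = 0) →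
      (Lib.Alt.chiA (Fin n) g = 0 ∨ Lib.Alt.chiL (Fin n) g = 0 ∨ Lib.Alt.chiM (Fin n) g = 0) := by
    rintro g a y ha hy (rfl | ⟨rfl, rfl⟩ | ⟨rfl, rfl⟩ | ⟨rfl, rfl⟩) <;>
      simp only [Lib.Alt.chiA, Lib.Alt.chiL, Lib.Alt.chiM, ha, hy] <;> norm_num
  refine ⟨key _ ?_, key _ ?_⟩
  · obtain ⟨i, j, l, h1, h2, h3⟩ : ∃ i j l, 2 * i + 4 * j + 8 * l + 3 * 0 ≤ n ∧ Even (i + j + l) ∧
        ∀ a, a + (2 * i + 4 * j + 8 * l + 3 * 0) = n →
          (a = 1 ∨ a = 2 ∧ 2 * i = 0 ∨ a = 0 ∧ 2 * i = 2 ∨ a = 0 ∧ 2 * i = 0) := by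
      simp only [Nat.even_iff]
      by_cases c1 : n % 4 = 1
      · exact ⟨n / 2, 0, 0, by omega, by omega, by omega⟩
      by_cases c2 : n % 4 = 3
      · exact ⟨n / 2 - 2, 1, 0, by omega, by omega, by omega⟩
      by_cases c3 : n % 8 = 2 ∨ n % 8 = 0
      · exact ⟨0, n / 4, 0, by omega, by omega, by omega⟩
      by_cases c4 : n % 8 = 6
      · exact ⟨1, n / 4, 0, by omega, by omega, by omega⟩
      · exact ⟨0, n / 4 - 2, 1, by omega, by omega, by omega⟩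
    obtain ⟨g, g1, g2, g3, -⟩ := Lib.Alt.exists_perm_type h1 h2
    obtain ⟨k, -, hk⟩ := (Nat.dvd_prime_pow (m := 3) Nat.prime_two).1 (orderOf_dvd_of_pow_eq_one (g3 rfl))
    exact ⟨g, ⟨k, hk⟩, z g _ _ rfl g2 (h3 _ g1)⟩
  · obtain ⟨g, g1, g2, -, g3⟩ := Lib.Alt.exists_perm_type (n := n) (i := 0) (j := 0) (l := 0)
      (m := n / 3) (by omega) (by simp)
    have : Fact (Nat.Prime 3) := ⟨Nat.prime_three⟩
    refine ⟨g, orderOf_eq_prime (g3 rfl) ?_, z g _ _ rfl g2 (by omega)⟩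
    rintro rfl
    simp [Lib.Alt.fixS] at g1
    omega

end Cfsg.Agent.S4560
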