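import Cfsg.Statements.S4563
import Cfsg.Agent.Lib.CharDeg.FullyRam
import Cfsg.Agent.Lib.Hall.Converse

set_option autoImplicit false
open Cfsg

namespace Cfsg.Agent.S4563

open Cfsg.Lib.PF Cfsg.Lib.CharDeg Subgroup in

/-- Let χ be an irreducible character of the finite group H that is fully ramified over the normal subgroup Z: the restriction of χ to Z is e times an irreducible character of Z with e ^ 2 equal to the index of Z. If K is a proper normal subgroup of H containing Z and χ is induced from a character of K, then H/K is solvable; in particular, if K is solvable then so is H. -/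
theorem result {H : Type*} [Group H] [Fintype H] (Z : Subgroup H) [Z.Normal] (χ : Cfsg.IrrCharacter H) (hfr : ∃ (θ : Cfsg.IrrCharacter ↥Z) (e : ℕ), e ^ 2 = Z.index ∧ ∀ z : ↥Z, (χ : H → ℂ) z = (e : ℂ) * (θ : ↥Z → ℂ) z) (K : Subgroup H) [K.Normal] [Fintype K] (hZK : Z ≤ K) (hK : K ≠ ⊤) (φ : ↥K → ℂ) (hφ : Cfsg.IsCharacter ↥K φ) (hind : Cfsg.indFun K φ = (χ : H → ℂ)) : Group.IsSolvable (H ⧸ K) ∧ (Group.IsSolvable ↥K → Group.IsSolvable H) := by
  obtain ⟨θ, e, h, hχ⟩ := exists_fRam Z χ hfr
  have key : Group.IsSolvable (H ⧸ K) := by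
    refine Cfsg.Lib.Hall.isSolvable_of_complements_aux _ _ rfl fun p hp => ?_
    haveI : Fact p.Prime := ⟨hp⟩
    obtain ⟨S⟩ : Nonempty (Sylow p H) := inferInstance
    set R := Z ⊔ (S : Subgroup H) with hR
    have hPR : ¬ p ∣ R.index := fun hd => S.not_dvd_index (hd.trans (index_dvd_of_le le_sup_right))
    obtain ⟨k, hk⟩ : ∃ k, Z.relIndex R = p ^ k := by
      obtain ⟨n, hn⟩ := S.2.exists_card_eq
      have : Z.relIndex R ∣ p ^ n := by
        rw [hR, relIndex_sup_left, ← hn]
        exact relIndex_dvd_card Z S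
      obtain ⟨k, -, hk⟩ := (Nat.dvd_prime_pow hp).1 this
      exact ⟨k, hk⟩
    obtain ⟨j, -, hf⟩ := h.sylow le_sup_left hp hk hPR
    have hZQ : Z ≤ R ⊓ K := le_inf le_sup_left hZK
    obtain ⟨ψ, hψ, h1⟩ := Irr.exists_ind_constituent hZQ h.irr
    obtain ⟨M, hM⟩ := h.exists_index hZK S hf hψ h1
    have hRN : R ≤ normalizer ((R ⊓ K : Subgroup H) : Set H) :=
      (le_inf le_normalizer (le_normalizer_of_normal' K R)).trans inf_normalizer_le_normalizer_inf
    let S' : Sylow p (H ⧸ K) := S.mapSurjective (QuotientGroup.mk'_surjective K)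
    have hmap : R.map (QuotientGroup.mk' K) = S' := by
      rw [hR, Subgroup.map_sup, (map_eq_bot_iff Z).2 (by rwa [QuotientGroup.ker_mk']), bot_sup_eq]
      rfl
    have hk' := relIndex_ker R (QuotientGroup.mk' K)
    rw [QuotientGroup.ker_mk', hmap, S'.card_eq_multiplicity] at hk'
    refine ⟨M, ?_⟩
    set c := (Nat.card (H ⧸ K)).factorization p with hc
    obtain ⟨a, ha, hdvd⟩ := h.exists_sq_mul hZQ inf_le_left hRN hf hψ h1
    have hφ' : IsChar K (extendByZero K φ) := isChar_extendByZero.2 hφ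
    have hi : ind K ⊤ (extendByZero K φ) = (e : ℂ) • θ := by
      rw [ind_top, coe_extendByZero, hind, hχ]
    have hφi : extendByZero K φ ∈ Irr K := extendByZero_mem_Irr.2
      (Cfsg.Lib.Induce.isIrrCharacter_of_indFun K hφ (hind ▸ χ.2))
    obtain ⟨b, hb⟩ := hdvd _ (hφ'.res inf_le_right)
    rw [← cfdot_res_left, res_res hZQ, res_congr (φ := extendByZero K φ) (ψ := extendByZero K φ)
      (fun _ _ => rfl), cfdot_res_left] at hb
    have he0 : (e : ℂ) ≠ 0 := Nat.cast_ne_zero.2 h.ne_zero
    have hov : cfdot Z (extendByZero K φ) θ ≠ 0 := by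
      have h2 : cfdot K (extendByZero K φ) ((e : ℂ) • θ) = 1 := by
        rw [← cfdot_ind_left le_top _ (Irr.mem_CF h.top), hi, Irr.cfdot_self h.top]
      intro h0
      have h3 := h.cfdot_eq hZK (extendByZero K φ)
      rw [cfdot_symm_zero h0] at h3
      rw [cfdot_smul_right, cfdot_symm_zero ((mul_eq_zero.1 h3).resolve_left
        (relIndex_cast_ne_zero Z K)), mul_zero] at h2
      exact zero_ne_one h2
    have hres := congrFun (Irr.res_eq_smul_of_le_inertia hZK (le_normalizer_of_normal' Z K) hφi h.irr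
      hov (h.le_inertia K)) 1
    have hdeg := congrFun hi 1
    rw [ind_one _ le_top, relIndex_top_right] at hdeg
    rw [res_one_apply, hb] at hres
    rw [hres] at hdeg
    simp only [Pi.smul_apply, smul_eq_mul] at hdeg
    rw [← mul_assoc] at hdeg
    have h4 : K.index * (a * b) = e := by
      exact_mod_cast mul_right_cancel₀ (Irr.apply_one_ne_zero h.irr) hdeg
    have h5 := h.sq
    rw [← h4, ← relIndex_mul_index hZK, ← relIndex_mul_relIndex Z (R ⊓ K) K hZQ inf_le_right, ← ha,
      inf_relIndex_right] at h5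
    have ha0 : 0 < a := by
      rcases a.eq_zero_or_pos with rfl | h0
      · exact absurd (by rw [← h4]; simp) h.ne_zero
      · exact h0
    have hK0 : 0 < K.index := Nat.pos_of_ne_zero index_ne_zero_of_finite
    have h6 : K.index * b ^ 2 = (inertia ψ).relIndex R * R.relIndex K := by
      refine Nat.eq_of_mul_eq_mul_left (mul_pos (pow_pos ha0 2) hK0) ?_
      calc a ^ 2 * K.index * (K.index * b ^ 2) = (K.index * (a * b)) ^ 2 := by ring
        _ = _ := by rw [h5]; ring
    have h7 : p ^ c ∣ (inertia ψ).relIndex R := by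
      have hv : ¬ p ∣ R.relIndex K := fun hd =>
        hPR (hd.trans (Cfsg.Lib.FGS.relIndex_dvd_index_of_normal' _ _))
      refine (((Nat.Prime.coprime_iff_not_dvd hp).2 hv).pow_left c).dvd_of_dvd_mul_right ?_
      rw [← h6]
      exact (Nat.ordProj_dvd _ _).mul_right _
    have h8 : (inertia ψ).relIndex R ∣ p ^ c := by
      rw [← hk', ← inf_relIndex_left R K]
      exact relIndex_dvd_of_le_left R (CF.le_inertia (Irr.mem_CF hψ))
    rw [hM]
    exact Nat.dvd_antisymm h8 h7
  refine ⟨key, fun hs => ?_⟩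
  exact solvable_of_ker_le_range K.subtype (QuotientGroup.mk' K) (by simp)

end Cfsg.Agent.S4563
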