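import Cfsg.Statements.S4564
import Cfsg.Agent.Lib.CharDeg.FullyRam

set_option autoImplicit false
open Cfsg

namespace Cfsg.Agent.S4564

open Cfsg.Lib.PF Cfsg.Lib.CharDeg Subgroup in

/-- Let χ be an irreducible character of the finite group H that is fully ramified over the normal subgroup Z: the restriction of χ to Z is e times an irreducible character of Z with e ^ 2 equal to the index of Z. Let K be a normal subgroup of H containing Z and P a cyclic Sylow p-subgroup of H/K. Then P has a complement in H/K: a subgroup meeting P trivially whose product with P is the whole group. -/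
theorem result {H : Type*} [Group H] [Finite H] (Z : Subgroup H) [Z.Normal] (χ : Cfsg.IrrCharacter H) (hfr : ∃ (θ : Cfsg.IrrCharacter ↥Z) (e : ℕ), e ^ 2 = Z.index ∧ ∀ z : ↥Z, (χ : H → ℂ) z = (e : ℂ) * (θ : ↥Z → ℂ) z) (K : Subgroup H) [K.Normal] (hZK : Z ≤ K) (p : ℕ) [Fact p.Prime] (P : Sylow p (H ⧸ K)) (hcyc : IsCyclic P) : ∃ M : Subgroup (H ⧸ K), M.IsComplement' (P : Subgroup (H ⧸ K)) := by
  rename_i hp
  obtain ⟨θ, e, h, -⟩ := exists_fRam Z χ hfr
  obtain ⟨S⟩ : Nonempty (Sylow p H) := inferInstance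
  set R := Z ⊔ (S : Subgroup H) with hR
  have hPR : ¬ p ∣ R.index := fun hd => S.not_dvd_index (hd.trans (index_dvd_of_le le_sup_right))
  obtain ⟨k, hk⟩ : ∃ k, Z.relIndex R = p ^ k := by
    obtain ⟨n, hn⟩ := S.2.exists_card_eq
    have : Z.relIndex R ∣ p ^ n := by
      rw [hR, relIndex_sup_left, ← hn]
      exact relIndex_dvd_card Z S
    obtain ⟨k, -, hk⟩ := (Nat.dvd_prime_pow hp.out).1 this
    exact ⟨k, hk⟩
  obtain ⟨j, -, hf⟩ := h.sylow le_sup_left hp.out hk hPR
  have hZQ : Z ≤ R ⊓ K := le_inf le_sup_left hZK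
  obtain ⟨ψ, hψ, h1⟩ := Irr.exists_ind_constituent hZQ h.irr
  obtain ⟨M, hM⟩ := h.exists_index hZK S hf hψ h1
  have hRN : R ≤ normalizer ((R ⊓ K : Subgroup H) : Set H) :=
    (le_inf le_normalizer (le_normalizer_of_normal' K R)).trans inf_normalizer_le_normalizer_inf
  let S' : Sylow p (H ⧸ K) := S.mapSurjective (QuotientGroup.mk'_surjective K)
  have hmap : R.map (QuotientGroup.mk' K) = S' := by
    rw [hR, Subgroup.map_sup, (map_eq_bot_iff Z).2 (by rwa [QuotientGroup.ker_mk']), bot_sup_eq]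
    rfl
  haveI : IsCyclic S' := isCyclic_of_surjective (P.equiv S') (P.equiv S').surjective
  haveI : IsCyclic ((R ⊓ inertia ψ).map (QuotientGroup.mk' K)) :=
    Subgroup.isCyclic_of_le (hmap ▸ map_mono inf_le_left)
  obtain ⟨⟨_, g, hg, rfl⟩, hgen⟩ := IsCyclic.exists_generator
    (α := (R ⊓ inertia ψ).map (QuotientGroup.mk' K))
  have hT := h.inertia_le_of_cyclic hZQ inf_le_left hRN hf hψ h1 hg (fun t ht => by
    obtain ⟨n, hn⟩ := mem_zpowers_iff.1 (hgen ⟨_, t, ht, rfl⟩)
    exact ⟨n, R.mul_mem (R.inv_mem (R.zpow_mem hg.1 n)) ht.1,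
      QuotientGroup.eq.1 (congrArg Subtype.val hn)⟩)
  have hT' : R ⊓ inertia ψ = R ⊓ K :=
    le_antisymm hT (le_inf inf_le_left (CF.le_inertia (Irr.mem_CF hψ)))
  have hk' := relIndex_ker R (QuotientGroup.mk' K)
  rw [QuotientGroup.ker_mk'] at hk'
  rw [← inf_relIndex_left, hT', inf_relIndex_left, hk', hmap,
    Nat.card_congr (P.equiv S').symm.toEquiv] at hM
  have h2 := M.card_mul_index
  rw [hM] at h2
  refine ⟨M, isComplement'_of_coprime h2 ?_⟩
  have h3 : Nat.card M = (P : Subgroup (H ⧸ K)).index := by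
    rw [← (P : Subgroup (H ⧸ K)).index_mul_card] at h2
    exact Nat.eq_of_mul_eq_mul_right Nat.card_pos h2
  rw [h3]
  exact P.card_coprime_index.symm

end Cfsg.Agent.S4564
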