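import Cfsg.Statements.S4565
import Cfsg.Agent.Lib.CharDeg.FullyRam
import Cfsg.Agent.Lib.CharDeg.CosetSum

set_option autoImplicit false
open Cfsg

namespace Cfsg.Agent.S4565

open Cfsg.Lib.PF Cfsg.Lib.CharDeg Subgroup in

/-- Let χ be an irreducible character of the finite group H that is fully ramified over the normal subgroup Z: the restriction of χ to Z is e times an irreducible character of Z with e ^ 2 equal to the index of Z. If Z ≠ H, then H/Z has no cyclic subgroup that is its own centralizer. -/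
theorem result {H : Type*} [Group H] [Finite H] (Z : Subgroup H) [Z.Normal] (χ : Cfsg.IrrCharacter H) (hfr : ∃ (θ : Cfsg.IrrCharacter ↥Z) (e : ℕ), e ^ 2 = Z.index ∧ ∀ z : ↥Z, (χ : H → ℂ) z = (e : ℂ) * (θ : ↥Z → ℂ) z) (hZ : Z ≠ ⊤) (C : Subgroup (H ⧸ Z)) (hC : IsCyclic C) : Subgroup.centralizer (C : Set (H ⧸ Z)) ≠ C := by
  classical
  rename_i hZn
  intro hcent
  obtain ⟨θ, e, h, -⟩ := exists_fRam Z χ hfr
  obtain ⟨⟨q, hq⟩, hgen⟩ := IsCyclic.exists_generator (α := C)
  obtain ⟨c, rfl⟩ := QuotientGroup.mk_surjective q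
  set T := C.comap (QuotientGroup.mk' Z) with hT
  have hZT : Z ≤ T := fun z hz => by
    rw [hT, mem_comap, QuotientGroup.mk'_apply, (QuotientGroup.eq_one_iff z).2 hz]
    exact C.one_mem
  have hcT : c ∈ T := hq
  have hpow : ∀ t ∈ C, ∃ n : ℤ, (c : H ⧸ Z) ^ n = t := fun t ht => by
    obtain ⟨n, hn⟩ := mem_zpowers_iff.1 (hgen ⟨t, ht⟩)
    exact ⟨n, congrArg Subtype.val hn⟩
  have hmem : ∀ x : H, x ∈ T ↔ (x : H ⧸ Z) * c = c * x := by
    intro x
    change (x : H ⧸ Z) ∈ C ↔ _
    constructor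
    · intro hx
      obtain ⟨n, hn⟩ := hpow _ hx
      rw [← hn]
      exact (Commute.self_zpow _ n).symm
    · intro hx
      rw [← hcent, mem_centralizer_iff]
      intro t ht
      obtain ⟨n, rfl⟩ := hpow t ht
      exact (Commute.zpow_right hx n).symm
  have hcZ : c ∉ Z := by
    intro hc
    refine hZ (eq_top_iff.2 fun x _ => ?_)
    have hc1 : (c : H ⧸ Z) = 1 := (QuotientGroup.eq_one_iff c).2 hc
    obtain ⟨n, hn⟩ := hpow x ((hmem x).2 (by rw [hc1, mul_one, one_mul]))
    rw [hc1, one_zpow] at hn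
    exact (QuotientGroup.eq_one_iff x).1 hn.symm
  obtain ⟨η, hη, hres⟩ := exists_extension_of_cyclic hZT (le_normalizer_of_normal' Z T) h.irr
    (h.le_inertia T) hcT (fun t ht => by
      obtain ⟨n, hn⟩ := hpow t ht
      exact ⟨n, QuotientGroup.eq.1 hn⟩)
  have hθ0 : ∀ x, x ∉ Z → θ x = 0 := fun x hx => CF.zero_off (Irr.mem_CF h.irr) hx
  have hconj : ∀ k x : H, (starRingEnd ℂ) (θ (k * x * k⁻¹)) = (starRingEnd ℂ) (θ x) :=
    fun k x => by rw [h.conj_apply]
  have key : ∀ F ∈ CF (⊤ : Subgroup H), ∀ x, x ∉ Z →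
      ∑ g ∈ fs ((⊤ : Subgroup H) : Set H), (starRingEnd ℂ) (θ g) * F (g * x) = 0 := by
    intro F hF x hx
    simp only [CF.apply_eq_sum_Irr hF (_ * x), Finset.mul_sum]
    rw [Finset.sum_comm]
    refine Finset.sum_eq_zero fun ψ hψ => ?_
    simp only [mul_left_comm _ (cfdot ⊤ F ψ)]
    rw [← Finset.mul_sum, Irr.sum_mul_apply_mul hψ (fun k _ x _ => hconj k x) (mem_top x)]
    by_cases hov : cfdot Z ψ θ = 0
    · have h2 := h.cfdot_eq le_top ψ
      rw [cfdot_symm_zero hov] at h2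
      have h3 := card_mul_cfdot ⊤ ψ θ
      rw [cfdot_symm_zero ((mul_eq_zero.1 h2).resolve_left (relIndex_cast_ne_zero _ _)),
        mul_zero] at h3
      simp only [mul_comm (ψ _)] at h3
      rw [← h3]; simp
    · rw [h.eq_of_over le_top h.top hψ hov, Pi.smul_apply (i := x), hθ0 x hx]; simp
  set f : H → ℂ := fun x => if (x : H ⧸ Z) = c then η x else 0 with hf
  have hF : ∀ y : H, (y : H ⧸ Z) = c → ind T ⊤ f y = η y := by
    intro y hy
    have hyT : y ∈ T := (hmem y).2 (by rw [hy])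
    rw [ind_of_mem _ (mem_top y), sum_fs_subset (B := (T : Set H)) (fun _ _ => mem_top _),
      sum_fs_congr (g := fun _ => η y), Finset.sum_const, card_fs_subgroup, nsmul_eq_mul,
      ← mul_assoc, inv_mul_cancel₀ (card_ne_zero T), one_mul]
    · intro x hx
      rw [res_of_mem _ (T.mul_mem (T.mul_mem hx hyT) (T.inv_mem hx)), hf]
      simp only
      rw [if_pos, CF.conj (Irr.mem_CF hη) hx]
      rw [QuotientGroup.mk_mul, QuotientGroup.mk_mul, hy, (hmem x).1 hx, QuotientGroup.mk_inv,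
        mul_inv_cancel_right]
    · intro x _ hx
      by_cases h2 : x * y * x⁻¹ ∈ T
      · rw [res_of_mem _ h2, hf]
        simp only
        rw [if_neg]
        intro h3
        rw [QuotientGroup.mk_mul, QuotientGroup.mk_mul, hy, QuotientGroup.mk_inv,
          mul_inv_eq_iff_eq_mul] at h3
        exact hx ((hmem x).2 h3)
      · exact res_of_not_mem _ h2
  have hvan : ∀ y : H, (y : H ⧸ Z) = c → η y = 0 := by
    intro y hy
    have hyT : y ∈ T := (hmem y).2 (by rw [hy])
    have hyZ : y ∉ Z := fun h2 => hcZ ((QuotientGroup.eq_one_iff c).1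
      (hy ▸ (QuotientGroup.eq_one_iff y).2 h2))
    have h1 := key _ (ind_mem_CF T ⊤ f) y hyZ
    have h2 := Irr.sum_mul_apply_mul hη (f := fun g => (starRingEnd ℂ) (θ g))
      (fun k _ x _ => hconj k x) hyT
    rw [sum_fs_subset (B := (Z : Set H)) (fun _ _ => mem_top _)
      (fun x _ hx => by rw [hθ0 x hx]; simp), sum_fs_congr (g := fun g => (starRingEnd ℂ) (θ g) * η (g * y))
      (fun x hx => by rw [hF _ (by rw [QuotientGroup.mk_mul, (QuotientGroup.eq_one_iff x).2 hx, one_mul, hy])])] at h1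
    rw [sum_fs_subset (B := (Z : Set H)) hZT (fun x _ hx => by rw [hθ0 x hx]; simp), h1,
      sum_fs_subset (B := (Z : Set H)) hZT (fun x _ hx => by rw [hθ0 x hx]; simp)] at h2
    have h3 := card_mul_cfdot Z η θ
    rw [← cfdot_res_left, hres, Irr.cfdot_self h.irr, mul_one] at h3
    simp only [mul_comm (η _)] at h3
    rw [← h3] at h2
    exact (mul_eq_zero.1 h2.symm).resolve_left (div_ne_zero (card_ne_zero Z) (Irr.apply_one_ne_zero hη))
  haveI := Fintype.ofFinite (Z.subgroupOf T)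
  have h4 := sum_coset_mul_conj_self (Z.subgroupOf T) (Cfsg.Lib.Char.Cfsg.IsIrrCharacter.isCharacter (mem_Irr.1 hη).2) (by
    have := Irr.isIrrCharacter_subgroupOf hZT h.irr
    rw [← hres] at this
    simpa only [fun x : Z.subgroupOf T => res_of_mem η (mem_subgroupOf.1 x.2)] using this) ⟨c, hcT⟩
  rw [Finset.sum_eq_zero (fun n _ => by
    rw [hvan _ (by
      rw [Subgroup.coe_mul, QuotientGroup.mk_mul, (QuotientGroup.eq_one_iff _).2 (mem_subgroupOf.1 n.2),
        one_mul]), zero_mul])] at h4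
  exact Cfsg.Lib.Char.card_ne_zero_complex _ h4.symm

end Cfsg.Agent.S4565
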