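import Cfsg.Statements.S4566
import Cfsg.Agent.Lib.Clifford.Monomial
import Cfsg.Agent.Lib.Char.Product

set_option autoImplicit false
open Cfsg

namespace Cfsg.Agent.S4566

open Cfsg.Lib.Char Cfsg.Lib.Clifford in

/-- Let N be a central subgroup of the finite group G, ψ a faithful irreducible (hence degree-one) character of N, and χ an irreducible character of G whose restriction to N contains ψ. If g ∈ G and some x ∈ G has commutator x⁻¹ g⁻¹ x g in N but different from 1, then χ g = 0. -/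
theorem result {G : Type*} [Group G] [Fintype G] (N : Subgroup G) [Fintype N] (hN : N ≤ Subgroup.center G) (ψ : Cfsg.IrrCharacter ↥N) (hfaith : ∀ n : ↥N, (ψ : ↥N → ℂ) n = (ψ : ↥N → ℂ) 1 → n = 1) (χ : Cfsg.IrrCharacter G) (hover : Cfsg.classInner (fun n : ↥N => (χ : G → ℂ) n) (ψ : ↥N → ℂ) ≠ 0) (g x : G) (hcomm : x⁻¹ * g⁻¹ * x * g ∈ N) (hne : x⁻¹ * g⁻¹ * x * g ≠ 1) : (χ : G → ℂ) g = 0 := by
  have hNn : N.Normal := ⟨fun n hn g => by
    rw [Subgroup.mem_center_iff.1 (hN hn) g]; simpa using hn⟩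
  have hinv : ∀ (g : G) (n : N), (ψ : N → ℂ) ⟨g * n * g⁻¹, hNn.conj_mem (n : G) n.2 g⟩ =
      (ψ : N → ℂ) n := fun g n => by
    refine congrArg _ (Subtype.ext ?_)
    simp [Subgroup.mem_center_iff.1 (hN n.2) g]
  obtain ⟨e, he, -, h⟩ := exists_res_eq_smul_of_invariant N χ.2 ψ.2 hover hinv
  set z := x⁻¹ * g⁻¹ * x * g with hz
  have hzc : z ∈ charCenter (χ : G → ℂ) := χ.2.center_le_charCenter (hN hcomm)
  have h1 := Cfsg.Lib.Char.Cfsg.IsCharacter.apply_mul_of_mem_charCenter χ.2.apply_one_ne_zero hzc (x⁻¹ * g * x)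
  have h2 : z * (x⁻¹ * g * x) = g := by
    rw [← Subgroup.mem_center_iff.1 (hN hcomm), hz]
    group
  rw [h2, χ.2.isClassFunction.conj_apply'] at h1
  by_contra h0
  have h3 : (χ : G → ℂ) z / (χ : G → ℂ) 1 = 1 := by
    apply mul_right_cancel₀ h0
    rw [← h1, one_mul]
  rw [div_eq_one_iff_eq χ.2.apply_one_ne_zero] at h3
  have h4 := congrFun h ⟨z, hcomm⟩
  have h5 := congrFun h 1
  simp only [Pi.smul_apply, smul_eq_mul, OneMemClass.coe_one] at h4 h5
  rw [h3, h5] at h4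
  have h6 := hfaith ⟨z, hcomm⟩ (mul_left_cancel₀ (by exact_mod_cast he.ne') h4).symm
  exact hne (congrArg Subtype.val h6)

end Cfsg.Agent.S4566
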