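import Cfsg.Statements.S4567
import Cfsg.Agent.Lib.CharDeg.OverSum
import Cfsg.Agent.Lib.CharDeg.ClassCount

set_option autoImplicit false
open Cfsg

namespace Cfsg.Agent.S4567

open Cfsg.Lib.Char Cfsg.Lib.CharDeg Cfsg.Lib.Clifford Cfsg.Lib.Induce in

/-- Let N be a central subgroup of the finite group G and ψ a faithful irreducible (hence degree-one) character of N. Call a coset g N special when every x ∈ G whose commutator x⁻¹ g⁻¹ x g lies in N actually commutes with g (this depends only on the coset). Then the number of irreducible characters of G whose restriction to N contains ψ equals the number of conjugacy classes of G/N consisting of special cosets. -/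
theorem result {G : Type*} [Group G] [Fintype G] (N : Subgroup G) [N.Normal] [Fintype N] (hN : N ≤ Subgroup.center G) (ψ : Cfsg.IrrCharacter ↥N) (hfaith : ∀ n : ↥N, (ψ : ↥N → ℂ) n = (ψ : ↥N → ℂ) 1 → n = 1) : Nat.card {χ : Cfsg.IrrCharacter G // Cfsg.classInner (fun n : ↥N => (χ : G → ℂ) n) (ψ : ↥N → ℂ) ≠ 0} = Nat.card {C : ConjClasses (G ⧸ N) // ∃ g : G, ConjClasses.mk (g : G ⧸ N) = C ∧ ∀ x : G, x⁻¹ * g⁻¹ * x * g ∈ N → x * g = g * x} := by
  classical
  have hNn : N.Normal := inferInstance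
  haveI := Fintype.ofFinite (G ⧸ N)
  have hc : ∀ n ∈ N, ∀ x : G, x * n = n * x := fun n hn x => Subgroup.mem_center_iff.1 (hN hn) x
  haveI : IsMulCommutative N := ⟨⟨fun a b => Subtype.ext (hc b b.2 a)⟩⟩
  have h1 : (ψ : N → ℂ) 1 = 1 := ψ.2.apply_one_of_comm
  have hinv : ∀ (g : G) (n : N), (ψ : N → ℂ) ⟨g * n * g⁻¹, hNn.conj_mem (n : G) n.2 g⟩ = (ψ : N → ℂ) n := by
    intro g n
    exact congrArg _ (Subtype.ext (by
      change g * n * g⁻¹ = n
      rw [hc n n.2 g, mul_inv_cancel_right]))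
  have hI : inertia N (ψ : N → ℂ) = ⊤ := (inertia_eq_top_iff N).2 hinv
  set sp : G → Prop := fun g => ∀ x : G, x⁻¹ * g⁻¹ * x * g ∈ N → x * g = g * x with hsp
  have hsp1 : ∀ g, sp g ↔ ∀ n ∈ N, IsConj g (n * g) → n = 1 := by
    intro g
    constructor
    · intro h n hn hcj
      obtain ⟨x, hx⟩ := isConj_iff.1 hcj
      have e : (x⁻¹)⁻¹ * g⁻¹ * x⁻¹ * g = n⁻¹ := by
        have : (x⁻¹)⁻¹ * g⁻¹ * x⁻¹ = (x * g * x⁻¹)⁻¹ := by group
        rw [this, hx, mul_inv_rev, mul_assoc, ← hc _ (N.inv_mem hn) g]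
        group
      have h2 := h x⁻¹ (e ▸ N.inv_mem hn)
      have h3 : x * g * x⁻¹ = g := by rw [mul_assoc, ← h2]; group
      rw [h3] at hx
      exact (mul_eq_right.1 hx.symm)
    · intro h x hx
      have h2 := h _ (N.inv_mem hx) (isConj_iff.2 ⟨x⁻¹, by rw [← hc _ (N.inv_mem hx) g]; group⟩)
      rw [inv_eq_one] at h2
      calc x * g = g * x * (x⁻¹ * g⁻¹ * x * g) := by group
        _ = _ := by rw [h2, mul_one]
  have hsp2 : ∀ g : G, (∃ g' : G, ConjClasses.mk (g' : G ⧸ N) = ConjClasses.mk (g : G ⧸ N) ∧ sp g') ↔ sp g := by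
    intro g
    refine ⟨?_, fun h => ⟨g, rfl, h⟩⟩
    rintro ⟨g', h, h'⟩
    obtain ⟨c, hc'⟩ := isConj_iff.1 (ConjClasses.mk_eq_mk_iff_isConj.1 h)
    obtain ⟨c, rfl⟩ := QuotientGroup.mk_surjective c
    have h2 : (c * g' * c⁻¹)⁻¹ * g ∈ N := QuotientGroup.eq.1 hc'
    obtain ⟨m, hm⟩ : ∃ m, m = (c * g' * c⁻¹)⁻¹ * g := ⟨_, rfl⟩
    rw [← hm] at h2
    have h3 : g = c * (g' * m) * c⁻¹ := by
      rw [← mul_assoc, mul_assoc _ m, ← hc m h2, ← mul_assoc, hm]; group
    rw [hsp1] at h' ⊢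
    intro n hn hcj
    refine h' n hn ?_
    obtain ⟨x, hx⟩ := isConj_iff.1 hcj
    refine isConj_iff.2 ⟨c⁻¹ * x * c, ?_⟩
    have h4 : g' = c⁻¹ * g * c * m⁻¹ := by rw [h3]; group
    have h5 := hc _ (N.inv_mem h2)
    calc c⁻¹ * x * c * g' * (c⁻¹ * x * c)⁻¹ = c⁻¹ * x * g * c * (m⁻¹ * (c⁻¹ * x * c)⁻¹) := by
          rw [h4]; group
      _ = c⁻¹ * (x * g * x⁻¹) * c * m⁻¹ := by rw [← h5]; group
      _ = (c⁻¹ * n) * g * c * m⁻¹ := by rw [hx]; group
      _ = n * g' := by rw [hc n hn, h4]; group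
  have hS : ∀ g : G, ∑ n : N, (starRingEnd ℂ) ((ψ : N → ℂ) n) * classIndicator g (n * g) =
      if sp g then 1 else 0 := by
    intro g
    split_ifs with h
    · rw [Finset.sum_eq_single 1]
      · rw [h1, classIndicator_of_isConj (isConj_iff.2 ⟨1, by simp⟩)]; simp
      · intro n _ hn
        rw [classIndicator_of_not_isConj (fun e => hn (Subtype.ext ((hsp1 g).1 h n n.2 e))), mul_zero]
      · intro h; exact absurd (Finset.mem_univ _) h
    · rw [hsp1] at h
      push Not at h
      obtain ⟨m, hm, hcj, hm1⟩ := h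
      obtain ⟨x, hx⟩ := isConj_iff.1 hcj
      have e := (Equiv.sum_comp (Equiv.mulLeft (⟨m, hm⟩ : N))
        (fun n : N => (starRingEnd ℂ) ((ψ : N → ℂ) n) * classIndicator g (n * g)))
      have e2 : ∀ n : N, (starRingEnd ℂ) ((ψ : N → ℂ) (Equiv.mulLeft (⟨m, hm⟩ : N) n)) *
          classIndicator g ((Equiv.mulLeft (⟨m, hm⟩ : N) n : N) * g) =
          (starRingEnd ℂ) ((ψ : N → ℂ) ⟨m, hm⟩) *
            ((starRingEnd ℂ) ((ψ : N → ℂ) n) * classIndicator g (n * g)) := by
        intro n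
        rw [Equiv.coe_mulLeft, ψ.2.isCharacter.map_mul_of_apply_one h1, map_mul, mul_assoc]
        congr 2
        refine (isClassFunction_classIndicator g).eq_of_isConj (isConj_iff.2 ⟨x⁻¹, ?_⟩)
        change x⁻¹ * (m * n * g) * x⁻¹⁻¹ = n * g
        rw [← hc m hm n, mul_assoc (n : G), ← hx, ← mul_assoc, hc n n.2]
        group
      simp only [e2] at e
      rw [← Finset.mul_sum] at e
      by_contra h0
      have h3 := mul_left_eq_self₀.1 e
      have h4 : (ψ : N → ℂ) ⟨m, hm⟩ = 1 := by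
        have := congrArg (starRingEnd ℂ) (h3.resolve_right h0)
        simpa using this
      exact hm1 (congrArg Subtype.val (hfaith _ (h4.trans h1.symm)))
  have hcent : ∀ g, sp g → Nat.card (Subgroup.centralizer ({g} : Set G)) =
      Nat.card N * Nat.card (Subgroup.centralizer ({(g : G ⧸ N)} : Set (G ⧸ N))) := by
    intro g h
    have e : Subgroup.centralizer ({g} : Set G) =
        (Subgroup.centralizer ({(g : G ⧸ N)} : Set (G ⧸ N))).comap (QuotientGroup.mk' N) := by
      ext x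
      rw [Subgroup.mem_comap, Subgroup.mem_centralizer_singleton_iff,
        Subgroup.mem_centralizer_singleton_iff]
      change _ ↔ ((x * g : G) : G ⧸ N) = ((g * x : G) : G ⧸ N)
      refine ⟨fun e => by rw [e], fun e => h x ?_⟩
      have := QuotientGroup.eq.1 e.symm
      simpa only [mul_inv_rev, mul_assoc] using this
    have e1 := Subgroup.index_comap_of_surjective
      (Subgroup.centralizer ({(g : G ⧸ N)} : Set (G ⧸ N))) (QuotientGroup.mk'_surjective N)
    rw [← e] at e1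
    have e2 := (Subgroup.centralizer ({g} : Set G)).card_mul_index
    have e3 := (Subgroup.centralizer ({(g : G ⧸ N)} : Set (G ⧸ N))).card_mul_index
    have e4 := N.card_mul_index
    rw [Subgroup.index_eq_card N, ← e3, ← e1, ← e2, ← mul_assoc] at e4
    exact (Nat.eq_of_mul_eq_mul_right (Nat.pos_of_ne_zero Subgroup.index_ne_zero_of_finite) e4).symm
  have hG := card_ne_zero_complex G
  have hN0 := card_ne_zero_complex N
  have hA : ∀ g : G, ∑ χ ∈ Finset.univ.filter
        (fun χ : IrrCharacter G => classInner (fun n : N => (χ : G → ℂ) n) ψ ≠ 0),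
        (χ : G → ℂ) g * (starRingEnd ℂ) ((χ : G → ℂ) g) =
      if sp g then (Nat.card (Subgroup.centralizer ({(g : G ⧸ N)} : Set (G ⧸ N))) : ℂ) else 0 := by
    intro g
    have e := card_mul_sum_over N ψ.2 g g
    simp only [indFun_normal_apply_of_invariant N _ hinv, map_mul, map_natCast, mul_assoc] at e
    rw [← Finset.mul_sum, hS, hI, Subgroup.index_top, h1] at e
    refine mul_left_cancel₀ hG (e.trans ?_)
    split_ifs with h
    · rw [hcent g h, ← N.card_mul_index]; push_cast; ring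
    · simp
  have hB := card_classes_mul_card (G := G ⧸ N) (fun C => ∃ g : G, ConjClasses.mk (g : G ⧸ N) = C ∧ sp g)
  have hC := sum_comp_surjective (QuotientGroup.mk' N) (QuotientGroup.mk'_surjective N)
    (fun q => if ∃ g : G, ConjClasses.mk (g : G ⧸ N) = ConjClasses.mk q ∧ sp g then
      (Nat.card (Subgroup.centralizer ({q} : Set (G ⧸ N))) : ℂ) else 0)
  replace hC := hC.trans (congrArg _ (Eq.trans (Finset.sum_congr rfl fun _ _ => by congr) hB.symm))
  rw [QuotientGroup.ker_mk'] at hC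
  simp only [QuotientGroup.mk'_apply, hsp2] at hC
  rw [← Finset.sum_congr rfl (fun g _ => hA g), Finset.sum_comm,
    Finset.sum_congr rfl (fun χ _ => by rw [← card_mul_classInner, χ.2.inner_self, mul_one]),
    Finset.sum_const, nsmul_eq_mul] at hC
  rw [Nat.subtype_card (Finset.univ.filter
        (fun χ : IrrCharacter G => classInner (fun n : N => (χ : G → ℂ) n) ψ ≠ 0)) (by simp)]
  have hD : (Nat.card G : ℂ) = Nat.card N * Nat.card (G ⧸ N) := by
    rw [← N.card_mul_index, Subgroup.index_eq_card]; push_cast; rfl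
  rw [mul_left_comm, ← hD] at hC
  have := mul_right_cancel₀ hG hC
  exact_mod_cast this

end Cfsg.Agent.S4567
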