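import Cfsg.Statements.S4574
import Cfsg.Agent.Lib.Char.Galois
import Cfsg.Agent.Lib.Char.Central

set_option autoImplicit false
open Cfsg

namespace Cfsg.Agent.S4574

open Cfsg.Lib.Char in

/-- Let χ be an irreducible character of the finite group G, of degree d, and let Z(χ) be the set of elements g with |χ g| = d (the centre of χ). Then χ vanishes on at least (d ^ 2 - 1) · |Z(χ)| elements of G, with equality when every value |χ g| is 0, 1 or d. -/
theorem result {G : Type*} [Group G] [Fintype G] [DecidableEq G] (χ : G → ℂ) (hχ : Cfsg.IsIrrCharacter G χ) : (Cfsg.charDegree χ ^ 2 - 1) * (Finset.univ.filter (fun g : G => ‖χ g‖ = (Cfsg.charDegree χ : ℝ))).card ≤ (Finset.univ.filter (fun g : G => χ g = 0)).card ∧ ((∀ g : G, ‖χ g‖ = 0 ∨ ‖χ g‖ = 1 ∨ ‖χ g‖ = (Cfsg.charDegree χ : ℝ)) → (Cfsg.charDegree χ ^ 2 - 1) * (Finset.univ.filter (fun g : G => ‖χ g‖ = (Cfsg.charDegree χ : ℝ))).card = (Finset.univ.filter (fun g : G => χ g = 0)).card) := by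
  classical
  set d := charDegree χ with hd
  have hd0 : 0 < d := hχ.charDegree_pos
  set Z := Finset.univ.filter (fun g : G => ‖χ g‖ = (d : ℝ)) with hZ
  set O := Finset.univ.filter (fun g : G => χ g = 0) with hO
  set S : Finset G := Finset.univ.filter fun x => ‖χ x‖ ≠ d ∧ χ x ≠ 0 with hS
  have hn1 : ‖χ 1‖ = d := hχ.isCharacter.norm_apply_one
  have h1 := hχ.isGeneralizedCharacter.card_le_sum_norm_sq S (fun k hk g hg => by
    simp only [hS, Finset.mem_filter, Finset.mem_univ, true_and] at hg ⊢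
    refine ⟨fun h => hg.1 ?_, fun h => hg.2 ?_⟩
    · rw [← hn1, ← hχ.isCharacter.mem_charCenter_iff] at h ⊢
      exact (Subgroup.zpowers_le.2 h)
        (mem_zpowers_pow_iff.2 (hk.coprime_dvd_right (orderOf_dvd_natCard g)))
    · obtain ⟨σ, hσ⟩ := exists_ringEquiv_forall_map_apply G hk
      have h2 := hσ χ hχ.isGeneralizedCharacter g
      rw [h] at h2
      simpa using h2) (fun g hg => by
    simp only [hS, Finset.mem_filter, Finset.mem_univ, true_and] at hg
    exact hg.2)
  have h2 := hχ.sum_norm_sq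
  have hdR : (0 : ℝ) < d := by exact_mod_cast hd0
  have h3 : ∑ g, ‖χ g‖ ^ 2 = d ^ 2 * Z.card + ∑ g ∈ S, ‖χ g‖ ^ 2 := by
    rw [hZ, hS, Finset.card_filter, Finset.sum_filter]
    push_cast
    rw [Finset.mul_sum, ← Finset.sum_add_distrib]
    refine Finset.sum_congr rfl fun x _ => ?_
    by_cases h : ‖χ x‖ = d <;> by_cases h' : χ x = 0 <;> simp [h, h', hdR.ne]
  have h8 : Z.card + (S.card + O.card) = Nat.card G := by
    rw [Nat.card_eq_fintype_card, hS, hZ, hO, Finset.card_filter, Finset.card_filter,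
      Finset.card_filter, ← Finset.sum_add_distrib, ← Finset.sum_add_distrib,
      Fintype.card_eq_sum_ones]
    refine Finset.sum_congr rfl fun x _ => ?_
    by_cases h : ‖χ x‖ = d
    · have h' : χ x ≠ 0 := fun h' => by rw [h', norm_zero] at h; exact hdR.ne h
      simp [h, h']
    · by_cases h' : χ x = 0 <;> simp [h, h', hdR.ne]
  have h9 : (Z.card : ℝ) + (S.card + O.card) = Nat.card G := by exact_mod_cast h8
  have h10 : (((d ^ 2 - 1) * Z.card : ℕ) : ℝ) = (d ^ 2 - 1) * Z.card := by
    rw [Nat.cast_mul, Nat.cast_sub (Nat.one_le_pow _ _ hd0)]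
    simp
  refine ⟨?_, fun h => ?_⟩
  · have : (((d ^ 2 - 1) * Z.card : ℕ) : ℝ) ≤ O.card := by rw [h10]; linarith
    exact_mod_cast this
  · have h11 : ∑ g ∈ S, ‖χ g‖ ^ 2 = S.card := by
      rw [Finset.card_eq_sum_ones]
      push_cast
      refine Finset.sum_congr rfl fun x hx => ?_
      simp only [hS, Finset.mem_filter, Finset.mem_univ, true_and] at hx
      rcases h x with h | h | h
      · exact absurd (norm_eq_zero.1 h) hx.2
      · simp [h]
      · exact absurd h hx.1
    have : (((d ^ 2 - 1) * Z.card : ℕ) : ℝ) = O.card := by rw [h10]; linarith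
    exact_mod_cast this

end Cfsg.Agent.S4574
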