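import Cfsg.Statements.S4580
import Cfsg.Agent.Lib.Modular.RealTwo
import Cfsg.Agent.Lib.Clifford.Gallagher

set_option autoImplicit false
open Cfsg

namespace Cfsg.Agent.S4580

open Cfsg.Lib.Block Cfsg.Lib.Char Cfsg.Lib.Transfer MonoidAlgebra Subgroup

/-- Let N be a normal subgroup of the finite group G, M a maximal ideal of the algebraic integers containing 2, and θ a real-valued irreducible character of N of odd degree that extends to G (some irreducible character of G restricts to θ). Then θ has an extension to G lying in the principal 2-block of G. -/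
theorem result {G : Type*} [Group G] [Finite G] (N : Subgroup G) [N.Normal] (M : Ideal Cfsg.AlgInt) (hM : Cfsg.IsPModular 2 M) (θ : Cfsg.IrrCharacter N) (hreal : ∀ n : N, ((θ : N → ℂ) n).im = 0) (hodd : Odd (Cfsg.charDegree (θ : N → ℂ))) (hext : ∃ η : Cfsg.IrrCharacter G, ∀ n : N, (η : G → ℂ) n = (θ : N → ℂ) n) :
    ∃ η : Cfsg.IrrCharacter G, (∀ n : N, (η : G → ℂ) n = (θ : N → ℂ) n) ∧ η ∈ Cfsg.principalBlock M G := by
  have : Modular 2 M := ⟨hM⟩
  obtain ⟨η, hη⟩ := hext
  have hN : IsIrrCharacter N fun n : N => (η : G → ℂ) n := funext hη ▸ θ.2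
  obtain ⟨l, hl, h⟩ := Lib.Clifford.exists_hom_mul_eq_of_res_eq N η.2.isCharacter hN
    η.2.isCharacter.comp_inv fun n => by
      rw [η.2.apply_inv, hη]; exact Complex.conj_eq_iff_im.2 (hreal n)
  have h0 : Nat.card G ≠ 0 := Nat.card_pos.ne'
  obtain ⟨k, hk⟩ : Odd (ordCompl[2] (Nat.card G)) := Nat.odd_iff.2
    (Nat.two_dvd_ne_zero.1 (Nat.not_dvd_ordCompl Nat.prime_two h0))
  refine ⟨⟨_, η.2.hom_mul (l ^ (k + 1))⟩, fun n => by simp [hl n n.2, hη], ?_⟩
  refine Lib.Modular.mem_principalBlock_of_red_inv ?_ fun g hg => ?_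
  · rw [charDegree_congr (ψ := (θ : N → ℂ)) (by simp [← hη])]
    exact Nat.two_dvd_ne_zero.2 (Nat.odd_iff.1 hodd)
  have h1 : g ^ (2 * k + 1) = 1 := by
    rw [← hk, ← orderOf_dvd_iff_pow_eq_one]
    refine Nat.Coprime.dvd_of_dvd_mul_left (m := ordProj[2] (Nat.card G))
      (((Nat.Prime.coprime_iff_not_dvd Nat.prime_two).2 hg).symm.pow_right _) ?_
    rw [Nat.ordProj_mul_ordCompl_eq_self]
    exact orderOf_dvd_natCard g
  have h2 : (l g : ℂ) ^ (2 * k + 1) = 1 := by
    rw [← Units.val_pow_eq_pow_val, ← map_pow, h1, map_one, Units.val_one]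
  have h3 : (l g : ℂ) ≠ 0 := (l g).ne_zero
  rw [centralChar_def, centralChar_def, index_centralizer_inv]
  congr 3
  simp only [MonoidHom.pow_apply, map_inv, Units.val_pow_eq_pow_val, Units.val_inv_eq_inv_val,
    congrFun h g]
  field_simp
  linear_combination -((η : G → ℂ) g * l g) * h2

end Cfsg.Agent.S4580
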