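import Cfsg.Statements.S4581
import Cfsg.Agent.Lib.Rel.Real

set_option autoImplicit false
open Cfsg

namespace Cfsg.Agent.S4581

open Cfsg.Lib.Rel Cfsg.Lib.PF Cfsg.Lib.Char Cfsg.Lib.Coprime Cfsg.Lib.CharDeg Subgroup

/-- Let G be a finite solvable group, P a Sylow 2-subgroup and N its normalizer. Then G and N have the same number of real-valued irreducible characters of odd degree; and every odd-degree irreducible character of G is real-valued exactly when the derived subgroup of P equals the Frattini subgroup of P and P is its own normalizer in G. -/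
theorem result {G : Type*} [Group G] [Finite G] [Group.IsSolvable G] (P : Sylow 2 G) :
    Nat.card {χ : Cfsg.IrrCharacter G // (∀ g : G, ((χ : G → ℂ) g).im = 0) ∧ Odd (Cfsg.charDegree (χ : G → ℂ))} =
      Nat.card {ψ : Cfsg.IrrCharacter (Subgroup.normalizer ((P : Subgroup G) : Set G)) // (∀ g, ((ψ : Subgroup.normalizer ((P : Subgroup G) : Set G) → ℂ) g).im = 0) ∧ Odd (Cfsg.charDegree (ψ : Subgroup.normalizer ((P : Subgroup G) : Set G) → ℂ))} ∧
    ((∀ χ : Cfsg.IrrCharacter G, Odd (Cfsg.charDegree (χ : G → ℂ)) → ∀ g : G, ((χ : G → ℂ) g).im = 0) ↔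
      (commutator (P : Subgroup G) = frattini (P : Subgroup G) ∧ Subgroup.normalizer ((P : Subgroup G) : Set G) = (P : Subgroup G))) := by
  have hs : IsPSolvable 2 G := Cfsg.Lib.Core.isPSolvable_of_isSolvable inferInstance
  have e1 := card_IrrR_eq _ ⊤ ⊥ bot_le le_normalizer_of_normal P.isPGroup' le_top
    (Cfsg.Lib.Transfer.sylow_not_dvd_relIndex P le_top)
    (pSolvMod_of_isPSolvable (Cfsg.Lib.Core.isPSolvable_top_iff.2 hs) ⊥) (Nat.lt_succ_self _)
  have e2 := card_IrrP_top_eq hs (L := ⊥) P ⟨cf1_mem_Irr ⊥,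
    fun g _ => cfConj_cf1 (by rw [normalizer_eq_top]; trivial)⟩
  rw [bot_sup_eq] at e1 e2
  rw [top_inf_eq] at e1
  have r : ∀ {Y : Type _} (f : Y → ℂ), star f = f ↔ ∀ y, (f y).im = 0 := fun f =>
    funext_iff.trans (forall_congr' fun y => Complex.conj_eq_iff_im)
  have o : ∀ n : ℕ, ¬ 2 ∣ n ↔ Odd n := fun n => by rw [← even_iff_two_dvd, Nat.not_even_iff_odd]
  refine ⟨?_, ?_⟩
  · rw [card_subtype_top (F := IrrR ⊤ ⊥ (cf1 ⊥)) (fun _ h => IrrP_subset _ (mem_IrrR.1 h).1)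
      fun χ => by rw [mem_IrrR, mem_IrrP_bot, deg_top, r, o, and_iff_right (mem_Irr_top.2 χ.2),
        and_comm], card_subtype_ext (F := IrrR _ ⊥ (cf1 ⊥))
        (fun _ h => IrrP_subset _ (mem_IrrR.1 h).1) fun χ => ?_, e1]
    rw [mem_IrrR, mem_IrrP_bot, deg_ext, r, o, and_iff_right (ext_mem_Irr χ), and_comm]
    refine and_congr_right fun _ => ⟨fun h g => ?_, fun h g => ?_⟩
    · by_cases hg : g ∈ normalizer ((P : Subgroup G) : Set G)
      · rw [show extendByZero _ χ.1 g = χ.1 ⟨g, hg⟩ from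
          Cfsg.Lib.Induce.extendByZero_coe _ _ ⟨g, hg⟩, h]
      · rw [Cfsg.Lib.Induce.extendByZero_of_not_mem _ _ hg, Complex.zero_im]
    · rw [← h g, Cfsg.Lib.Induce.extendByZero_coe]
  have e3 := forall_real_iff_card (U := (⊤ : Subgroup G))
  rw [e1, e2, ← forall_real_iff_card, forall_real_iff P.isPGroup' le_normalizer le_rfl
    (Cfsg.Lib.Transfer.sylow_not_dvd_relIndex P le_normalizer)] at e3
  refine Iff.trans ⟨fun h χ h1 h2 => (r _).2 (h ⟨χ, mem_Irr_top.1 h1⟩ ((o _).1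
    (deg_top ⟨χ, mem_Irr_top.1 h1⟩ ▸ h2))), fun h χ h1 => (r _).1 (h _ (mem_Irr_top.2 χ.2)
    ((o _).2 (deg_top χ ▸ h1)))⟩ (e3.trans (and_congr_left fun _ => ?_))
  rw [← map_subtype_commutator, le_antisymm_iff,
    and_iff_right (Cfsg.Lib.PGroup.commutator_le_frattini P.isPGroup'),
    Cfsg.Lib.PGroup.frattini_le_iff_sq_mem P.isPGroup']
  refine ⟨fun h x => ?_, fun h x hx => ⟨_, h ⟨x, hx⟩, rfl⟩⟩
  obtain ⟨y, h1, h2⟩ := h x x.2
  exact (Subtype.ext h2 : y = x ^ 2) ▸ h1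

end Cfsg.Agent.S4581
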