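import Cfsg.Statements.S4582
import Cfsg.Agent.Lib.Transfer.Tate
import Cfsg.Agent.Lib.Core.Basic

set_option autoImplicit false
open Cfsg

namespace Cfsg.Agent.S4582

open Subgroup Cfsg.Lib
open scoped commutatorElement

theorem transfer_comp {G A B : Type*} [Group G] [CommGroup A] [CommGroup B] {H : Subgroup G}
    [H.FiniteIndex] (φ : H →* A) (ψ : A →* B) (g : G) :
    MonoidHom.transfer (ψ.comp φ) g = ψ (MonoidHom.transfer φ g) := by
  classical
  haveI := Fintype.ofFinite (Quotient (MulAction.orbitRel (zpowers g) (G ⧸ H)))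
  rw [MonoidHom.transfer_eq_prod_quotient_orbitRel_zpowers_quot,
    MonoidHom.transfer_eq_prod_quotient_orbitRel_zpowers_quot, map_prod]
  rfl

theorem aux {G : Type*} [Group G] [Finite G] (N P : Subgroup G) [N.Normal] (hNP : P ⊔ N = ⊤)
    (hP2 : IsPGroup 2 P) (hi : Odd P.index) (hP : ∀ x ∈ P, x ^ 2 ∈ (P ⊓ N) ⊔ ⁅P, P⁆)
    (hQ : ∀ x ∈ P ⊓ N, x ^ 2 ∈ ⁅P, P⁆) (hodd : ∀ n ∈ N, ∃ m, Odd m ∧ n ^ m ∈ commutator G) :
    ∀ x ∈ P, x ^ 2 ∈ ⁅P, P⁆ := by
  intro x hx
  let φ : P →* Abelianization P := Abelianization.of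
  have hker : ∀ y : P, φ y = 1 ↔ (y : G) ∈ ⁅P, P⁆ := fun y => by
    rw [← MonoidHom.mem_ker, Abelianization.ker_of, ← map_subtype_commutator]
    exact ⟨fun h => ⟨y, h, rfl⟩, fun ⟨z, hz, e⟩ => (Subtype.ext e : z = y) ▸ hz⟩
  have hA : IsPGroup 2 (Abelianization P) := hP2.of_surjective φ QuotientGroup.mk_surjective
  have hodd1 : ∀ (a : Abelianization P) (m : ℕ), Odd m → a ^ m = 1 → a = 1 := fun a m hm h => by
    obtain ⟨k, hk⟩ := hA a
    exact orderOf_eq_one_iff.1 (Nat.eq_one_of_dvd_coprimes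
      (Nat.Coprime.pow_left k (Nat.coprime_two_left.2 hm)) (orderOf_dvd_of_pow_eq_one hk)
      (orderOf_dvd_of_pow_eq_one h))
  have hV : (P ⊓ N) ⊔ ⁅P, P⁆ ≤ (MonoidHom.transfer φ).ker := by
    have hc := Abelianization.commutator_subset_ker (MonoidHom.transfer φ)
    refine sup_le (fun n hn => ?_) ((commutator_mono le_top le_top).trans hc)
    obtain ⟨m, hm, h⟩ := hodd n hn.2
    exact hodd1 _ m hm (by rw [← map_pow]; exact hc h)
  have h1 := Transfer.transfer_eq_pow_of_conj ((powMonoidHom 2).comp φ) ⟨x, hx⟩ fun k a hk => by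
    obtain ⟨y, hy, n, hn, rfl⟩ := (Core.mem_sup_of_le_normalizer_right
      ((normalizer_eq_top N).ge.trans' le_top)).1 (hNP.ge (mem_top a))
    have h2 : y⁻¹ * x ^ k * y ∈ P := mul_mem (mul_mem (inv_mem hy) (pow_mem hx k)) hy
    have h3 : (y⁻¹ * x ^ k * y)⁻¹ * ((y * n)⁻¹ * x ^ k * (y * n)) ∈ P ⊓ N := by
      refine ⟨P.mul_mem (inv_mem h2) hk, ?_⟩
      have e : (y⁻¹ * x ^ k * y)⁻¹ * ((y * n)⁻¹ * x ^ k * (y * n)) =
          (y⁻¹ * x ^ k * y)⁻¹ * n⁻¹ * (y⁻¹ * x ^ k * y) * n := by group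
      rw [SetLike.mem_coe, e]
      exact mul_mem (Subgroup.Normal.conj_mem' inferInstance _ (inv_mem hn) _) hn
    have e : (⟨_, hk⟩ : P) = (⟨y, hy⟩ : P)⁻¹ * (⟨x, hx⟩ : P) ^ k * ⟨y, hy⟩ * ⟨_, h3.1⟩ :=
      Subtype.ext (mul_inv_cancel_left (y⁻¹ * x ^ k * y) _).symm
    have h4 : φ ⟨_, h3.1⟩ ^ 2 = 1 := by rw [← map_pow, hker]; exact hQ _ h3
    rw [e]
    simp only [MonoidHom.comp_apply, map_mul, powMonoidHom_apply, h4, mul_one, map_inv, map_pow,
      inv_mul_cancel_comm]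
  rw [transfer_comp, powMonoidHom_apply, ← map_pow, hV (hP x hx)] at h1
  have := hodd1 _ _ hi h1.symm
  rwa [MonoidHom.comp_apply, powMonoidHom_apply, ← map_pow, hker] at this

/-- Let N be a normal subgroup of the finite group G, P a Sylow 2-subgroup of G and Q = P ∩ N. Suppose that P/QP' and Q/Q' are elementary abelian (every square of an element of P lies in the subgroup generated by Q and the derived subgroup of P, and every square of an element of Q lies in the derived subgroup of Q), and that the commutator factor group N/N' has odd order. Then P/P' is elementary abelian. -/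
theorem result {G : Type*} [Group G] [Finite G] (N : Subgroup G) [N.Normal] (P : Sylow 2 G)
    (hP : ∀ x ∈ (P : Subgroup G), x ^ 2 ∈ ((P : Subgroup G) ⊓ N) ⊔ ⁅(P : Subgroup G), (P : Subgroup G)⁆)
    (hQ : ∀ x ∈ (P : Subgroup G) ⊓ N, x ^ 2 ∈ ⁅(P : Subgroup G) ⊓ N, (P : Subgroup G) ⊓ N⁆)
    (hodd : Odd (Nat.card (Abelianization N))) :
    ∀ x ∈ (P : Subgroup G), x ^ 2 ∈ ⁅(P : Subgroup G), (P : Subgroup G)⁆ := by
  intro x hx
  set H := (P : Subgroup G) ⊔ N
  have hPH : (P : Subgroup G) ≤ H := le_sup_left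
  have hNH : N ≤ H := le_sup_right
  have hc : ∀ K ≤ H, ∀ y : H, y ∈ ⁅K.subgroupOf H, K.subgroupOf H⁆ ↔ (y : G) ∈ ⁅K, K⁆ := by
    intro K hK y
    rw [← mem_map_iff_mem H.subtype_injective, map_commutator, subgroupOf_map_subtype,
      inf_eq_left.2 hK]
    rfl
  refine (hc _ hPH (⟨x, hPH hx⟩ ^ 2)).1 (aux (N.subgroupOf H) ((P : Subgroup G).subgroupOf H) ?_
    (P.isPGroup'.comap_subtype) ?_ (fun y hy => ?_) (fun y hy => ?_) (fun n hn => ?_) _ hx)
  · rw [← subgroupOf_sup hPH hNH, subgroupOf_self]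
  · exact Nat.odd_iff.2 (Nat.two_dvd_ne_zero.1 fun h => P.not_dvd_index
      (h.trans (relIndex_dvd_index_of_le hPH)))
  · rw [← mem_map_iff_mem H.subtype_injective, Subgroup.map_sup, map_commutator,
      Subgroup.map_inf _ _ _ H.subtype_injective, subgroupOf_map_subtype, subgroupOf_map_subtype,
      inf_eq_left.2 hPH, inf_eq_left.2 hNH]
    exact hP y hy
  · exact (hc _ hPH _).2 (commutator_mono inf_le_left inf_le_left (hQ y hy))
  · refine ⟨_, hodd, commutator_mono le_top le_top ((hc _ hNH _).2 ?_)⟩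
    have : (⟨n, hn⟩ : N) ^ Nat.card (Abelianization N) ∈ commutator N := by
      rw [← Abelianization.ker_of, MonoidHom.mem_ker, map_pow, pow_card_eq_one']
    rw [← map_subtype_commutator]
    exact ⟨_, this, rfl⟩

end Cfsg.Agent.S4582
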