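import Cfsg.Statements.S4583
import Cfsg.Agent.Lib.Block.Aug

set_option autoImplicit false
open Cfsg

namespace Cfsg.Agent.S4583

open Cfsg.Lib.Block Cfsg.Lib.Char Cfsg.Lib.Transfer MonoidAlgebra Subgroup

/-- Let N be a normal subgroup of the finite group G, p a prime, M a maximal ideal of the algebraic integers containing p, and P a Sylow p-subgroup of G. Let θ be an irreducible character of N of degree prime to p lying in the principal p-block of N, and suppose θ extends to the subgroup NP (some irreducible character of NP restricts to θ). Then some irreducible character χ of G of degree prime to p in the principal p-block of G lies over θ (θ is a constituent of the restriction of χ to N). -/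
theorem result {G : Type*} [Group G] [Finite G] (N : Subgroup G) [N.Normal] (p : ℕ) [Fact p.Prime] (M : Ideal Cfsg.AlgInt) (hM : Cfsg.IsPModular p M) (P : Sylow p G)
    (θ : Cfsg.IrrCharacter N) (hθ : θ ∈ Cfsg.principalBlock M N) (hdeg : ¬ p ∣ Cfsg.charDegree (θ : N → ℂ))
    (hext : ∃ η : Cfsg.IrrCharacter ↥(N ⊔ (P : Subgroup G)), ∀ n : N, (η : ↥(N ⊔ (P : Subgroup G)) → ℂ) (Subgroup.inclusion le_sup_left n) = (θ : N → ℂ) n) :
    ∃ χ : Cfsg.IrrCharacter G, χ ∈ Cfsg.principalBlock M G ∧ ¬ p ∣ Cfsg.charDegree (χ : G → ℂ) ∧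
      haveI := Fintype.ofFinite N; Cfsg.classInner (fun n : N => (χ : G → ℂ) n) (θ : N → ℂ) ≠ 0 := by
  have : Modular p M := ⟨hM⟩
  obtain ⟨η, hη⟩ := hext
  let H := N ⊔ (P : Subgroup G)
  have hNH : N ≤ H := le_sup_left
  have := Fintype.ofFinite N
  have := Fintype.ofFinite H
  have := Fintype.ofFinite G
  have h1 : Over (inclusion hNH) (η : H → ℂ) {θ} := by
    rw [over_singleton_iff η.2.isCharacter, funext hη, θ.2.inner_self]; exact one_ne_zero
  have hH : H ≤ normalizer (N : Set G) := le_top.trans le_normalizer_top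
  have h2 : η ∈ principalBlock M H := by
    have h3 := ((isPBlock_blockOf η).covers_inclusion_iff hNH hH isPBlock_principalBlock).1
      (h1.covers (mem_blockOf_self η) hθ)
    have h4 : ∃ k, N.relIndex H = p ^ k := by
      rw [relIndex_sup_left]
      exact (P.isPGroup'.to_quotient (N.subgroupOf P)).exists_card_eq
    rw [show ebl N M _ = e0 N M from rfl, e0_eq_of_relIndex hNH hH h4] at h3
    rw [← (isPBlock_blockOf η).eq_principal_iff_ebl.2
      ((isPBlock_blockOf η).isBlkIdem.eq_of_mul_ne_zero isBlkIdem_e0 h3)]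
    exact mem_blockOf_self η
  have h3 : charDegree (η : H → ℂ) = charDegree (θ : N → ℂ) :=
    charDegree_congr (by rw [← hη, map_one])
  obtain ⟨χ, h4, h5, h6⟩ := exists_mem_principal_over P le_sup_right h2 (h3 ▸ hdeg)
  refine ⟨χ, h4, h5, ?_⟩
  rw [over_subtype_iff] at h6
  rw [over_singleton_iff η.2.isCharacter] at h1
  convert Lib.Induce.inner_comp_ne_zero_of_constituent (inclusion hNH) (χ.2.isCharacter.restrict H)
    η.2 h6 θ.2.isCharacter h1 using 1
  exact classInner_congr_inst _ _ _ _

end Cfsg.Agent.S4583
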