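import Cfsg.Statements.S4584
import Cfsg.Agent.Lib.CharDeg.OrderPFour

set_option autoImplicit false
open Cfsg

namespace Cfsg.Agent.S4584

/-- Let p be a prime and P a group of order p^4. Then the derived subgroup P' has order p if and only if the centre Z(P) has index p^2 in P. -/
theorem result {P : Type*} [Group P] [Finite P] (p : ℕ) [Fact p.Prime] (hP : Nat.card P = p ^ 4) :
    Nat.card (commutator P) = p ↔ (Subgroup.center P).index = p ^ 2 := by
  have hp : p.Prime := Fact.out
  by_cases hna : Subgroup.center P = ⊤
  · have h1 : commutator P = ⊥ := by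
      rw [commutator_eq_bot_iff_center_eq_top]; exact hna
    rw [h1, hna, Subgroup.card_bot, Subgroup.index_top]
    constructor
    · intro h; exact absurd h hp.one_lt.ne
    · intro h; exact absurd h (Nat.one_lt_pow two_ne_zero hp.one_lt).ne
  · have h := Cfsg.Lib.CharDeg.card_commutator_mul_card_center_of_card_pow_four hP hna
    have h2 := (Subgroup.center P).index_mul_card
    rw [hP] at h2
    have hz : 0 < Nat.card (Subgroup.center P) := Nat.card_pos
    constructor
    · intro h3
      rw [h3] at h
      apply Nat.eq_of_mul_eq_mul_right hz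
      have : Nat.card (Subgroup.center P) = p ^ 2 :=
        Nat.eq_of_mul_eq_mul_left hp.pos (by rw [h]; ring)
      rw [h2, this]; ring
    · intro h3
      rw [h3] at h2
      have : Nat.card (Subgroup.center P) = p ^ 2 :=
        Nat.eq_of_mul_eq_mul_left (pow_pos hp.pos 2) (by rw [h2]; ring)
      rw [this] at h
      exact Nat.eq_of_mul_eq_mul_right (pow_pos hp.pos 2) (by rw [h]; ring)

end Cfsg.Agent.S4584
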