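import Cfsg.Statements.S4585
import Cfsg.Agent.Lib.CharDeg.OrderPFour

set_option autoImplicit false
open Cfsg

namespace Cfsg.Agent.S4585

theorem comm_of_card_le {G : Type*} [Group G] [Finite G] {p : ℕ} [Fact p.Prime] {k : ℕ}
    (h : Nat.card G = p ^ k) (hk : k ≤ 2) : IsMulCommutative G := by
  have hp : p.Prime := Fact.out
  interval_cases k
  · haveI : Subsingleton G := (Nat.card_eq_one_iff_unique.mp (by simpa using h)).1
    exact ⟨⟨fun a b => Subsingleton.elim _ _⟩⟩
  · haveI : IsCyclic G := isCyclic_of_prime_card (p := p) (by simpa using h)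
    infer_instance
  · exact IsPGroup.isMulCommutative_of_card_eq_prime_sq h

/-- Let p be a prime and P a group of order p^4. Then P' has index p^2 in P if and only if P has maximal nilpotency class, that is, nilpotency class exactly 3. -/
theorem result {P : Type*} [Group P] [Finite P] (p : ℕ) [Fact p.Prime] (hP : Nat.card P = p ^ 4) :
    (commutator P).index = p ^ 2 ↔ Group.nilpotencyClass P = 3 := by
  have hp : p.Prime := Fact.out
  have hPp : IsPGroup p P := IsPGroup.of_card hP
  haveI := hPp.isNilpotent
  haveI : Nontrivial P := hPp.nontrivial_iff_card.mpr ⟨4, by norm_num, hP⟩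
  have hcl := Group.nilpotencyClass_eq_quotient_center_plus_one (G := P)
  have hi := (commutator P).index_mul_card
  have hq : Nat.card (P ⧸ Subgroup.center P) * Nat.card (Subgroup.center P) = p ^ 4 := by
    rw [← hP]; exact (Subgroup.center P).index_mul_card
  obtain ⟨z, hz⟩ := (hPp.to_subgroup (Subgroup.center P)).exists_card_eq
  obtain ⟨k, hk⟩ := (hPp.to_quotient (Subgroup.center P)).exists_card_eq
  obtain ⟨d, hd⟩ := (hPp.to_subgroup (commutator P)).exists_card_eq
  have hz0 : 0 < z := by
    have := Cfsg.Lib.CharDeg.card_lt_of_lt hPp.bot_lt_center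
    rw [Subgroup.card_bot, hz] at this
    exact (Nat.pow_lt_pow_iff_right hp.one_lt).mp (by simpa using this)
  have hkz : k + z = 4 := by
    rw [hz, hk, ← pow_add] at hq
    exact Nat.pow_right_injective hp.two_le hq
  have hdz : Subgroup.center P ≠ ⊤ → d + z = 3 := by
    intro hna
    have := Cfsg.Lib.CharDeg.card_commutator_mul_card_center_of_card_pow_four hP hna
    rw [hz, hd, ← pow_add] at this
    exact Nat.pow_right_injective hp.two_le this
  constructor
  · intro h
    have hd2 : d = 2 := by
      rw [h, hd, hP, ← pow_add] at hi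
      have := Nat.pow_right_injective hp.two_le hi
      omega
    have hna : Subgroup.center P ≠ ⊤ := by
      intro hc
      have h1 : commutator P = ⊥ := by
        rw [commutator_eq_bot_iff_center_eq_top]; exact hc
      rw [h1, Subgroup.card_bot, hd2] at hd
      exact (Nat.one_lt_pow two_ne_zero hp.one_lt).ne hd
    have hz1 : z = 1 := by have := hdz hna; omega
    have hQna : ¬ IsMulCommutative (P ⧸ Subgroup.center P) := by
      intro hc
      have h1 : commutator P ≤ Subgroup.center P :=
        Subgroup.Normal.quotient_commutative_iff_commutator_le.mp hc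
      have h2 := Subgroup.card_le_of_le h1
      rw [hd, hz, hd2, hz1] at h2
      have := (Nat.pow_le_pow_iff_right hp.one_lt).mp h2
      omega
    set Q := P ⧸ Subgroup.center P
    have hQp : IsPGroup p Q := hPp.to_quotient _
    haveI : Nontrivial Q := hQp.nontrivial_iff_card.mpr ⟨k, by omega, hk⟩
    have hcl2 := Group.nilpotencyClass_eq_quotient_center_plus_one (G := Q)
    obtain ⟨y, hy⟩ := (hQp.to_subgroup (Subgroup.center Q)).exists_card_eq
    obtain ⟨l, hl⟩ := (hQp.to_quotient (Subgroup.center Q)).exists_card_eq
    have hy0 : 0 < y := by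
      have := Cfsg.Lib.CharDeg.card_lt_of_lt hQp.bot_lt_center
      rw [Subgroup.card_bot, hy] at this
      exact (Nat.pow_lt_pow_iff_right hp.one_lt).mp (by simpa using this)
    have hly : l + y = k := by
      have : Nat.card (Q ⧸ Subgroup.center Q) * Nat.card (Subgroup.center Q) = Nat.card Q :=
        (Subgroup.center Q).index_mul_card
      rw [hy, hl, hk, ← pow_add] at this
      exact Nat.pow_right_injective hp.two_le this
    have h3 : Group.nilpotencyClass (Q ⧸ Subgroup.center Q) ≤ 1 :=
      Group.IsNilpotent.nilpotencyClass_le_one_iff.mpr (comm_of_card_le hl (by omega))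
    have h4 : ¬ Group.nilpotencyClass Q ≤ 1 := fun h =>
      hQna (Group.IsNilpotent.nilpotencyClass_le_one_iff.mp h)
    change Group.nilpotencyClass P = Group.nilpotencyClass Q + 1 at hcl
    omega
  · intro h
    have hna : Subgroup.center P ≠ ⊤ := by
      intro hc
      have := Group.IsNilpotent.nilpotencyClass_le_one_iff.mpr (Subgroup.center_eq_top_iff.mp hc)
      omega
    have hk3 : ¬ k ≤ 2 := by
      intro hk2
      have := Group.IsNilpotent.nilpotencyClass_le_one_iff.mpr (comm_of_card_le hk hk2)
      omega
    have hd2 : d = 2 := by have := hdz hna; omega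
    rw [hd, hd2, hP] at hi
    exact Nat.eq_of_mul_eq_mul_right (pow_pos hp.pos 2) (by rw [hi]; ring)

end Cfsg.Agent.S4585
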