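import Cfsg.Statements.S4586
import Cfsg.Agent.Lib.CharDeg.CyclicTop

set_option autoImplicit false
open Cfsg

namespace Cfsg.Agent.S4586

/-- Let p be a prime, P a finite p-group and N a normal subgroup of P of index p. For x ∈ P write c(x) for the number of elements n of N whose commutator x n x⁻¹ n⁻¹ lies in the derived subgroup N' (so c(x)/#N' is the order of the centralizer of x acting on N/N'). Then [P : P'] = p² if and only if c(x) = p·#N' for every x ∈ P outside N, and also if and only if c(x) = p·#N' for some x ∈ P outside N. -/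
theorem result {P : Type*} [Group P] [Finite P] (p : ℕ) [Fact p.Prime] (hP : IsPGroup p P) (N : Subgroup P) [N.Normal] (hN : N.index = p) :
    ((commutator P).index = p ^ 2 ↔ ∀ x : P, x ∉ N →
        Nat.card {n : N // x * n * x⁻¹ * (n : P)⁻¹ ∈ (commutator N).map N.subtype} = p * Nat.card (commutator N)) ∧
    ((commutator P).index = p ^ 2 ↔ ∃ x : P, x ∉ N ∧
        Nat.card {n : N // x * n * x⁻¹ * (n : P)⁻¹ ∈ (commutator N).map N.subtype} = p * Nat.card (commutator N)) := by
  have hp : p.Prime := Fact.out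
  have hmap : (commutator N).map N.subtype = ⁅N, N⁆ := Subgroup.map_subtype_commutator N
  have hcard : Nat.card (commutator N) = Nat.card ↥⁅N, N⁆ := by
    rw [← hmap, Subgroup.card_subtype]
  rw [hmap, hcard]
  have key : ∀ x : P, x ∉ N → ((commutator P).index = p ^ 2 ↔
      Nat.card {n : N // x * n * x⁻¹ * (n : P)⁻¹ ∈ ⁅N, N⁆} = p * Nat.card ↥⁅N, N⁆) := by
    intro x hx
    have h1 := Cfsg.Lib.CharDeg.card_mul_card_commutator_eq N x
      (Cfsg.Lib.CharDeg.sup_zpowers_eq_top_of_index_prime N (hN ▸ hp) hx)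
    have h2 := (commutator P).index_mul_card
    have h3 := N.index_mul_card
    rw [hN, ← h2] at h3
    have hc : 0 < Nat.card (commutator P) := Nat.card_pos
    have hd : 0 < Nat.card ↥⁅N, N⁆ := Nat.card_pos
    set c := Nat.card (commutator P)
    set d := Nat.card ↥⁅N, N⁆
    set k := Nat.card {n : N // x * n * x⁻¹ * (n : P)⁻¹ ∈ ⁅N, N⁆}
    set i := (commutator P).index
    set n := Nat.card N
    have h4 : i * d = p * k := by
      apply Nat.eq_of_mul_eq_mul_left hc
      calc c * (i * d) = (i * c) * d := by ring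
        _ = p * (n * d) := by rw [← h3]; ring
        _ = c * (p * k) := by rw [h1]; ring
    constructor
    · intro h
      rw [h] at h4
      apply Nat.eq_of_mul_eq_mul_left hp.pos
      rw [← h4]; ring
    · intro h
      rw [h] at h4
      apply Nat.eq_of_mul_eq_mul_right hd
      rw [h4]; ring
  obtain ⟨x₀, hx₀⟩ : ∃ x : P, x ∉ N := by
    by_contra h
    push Not at h
    have : N = ⊤ := eq_top_iff.mpr fun x _ => h x
    rw [this, Subgroup.index_top] at hN
    exact hp.one_lt.ne hN
  exact ⟨⟨fun h x hx => (key x hx).1 h, fun h => (key x₀ hx₀).2 (h x₀ hx₀)⟩,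
    ⟨fun h => ⟨x₀, hx₀, (key x₀ hx₀).1 h⟩, fun ⟨x, hx, h⟩ => (key x hx).2 h⟩⟩

end Cfsg.Agent.S4586
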