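import Cfsg.Statements.S4587
import Cfsg.Agent.Lib.FGS.Taussky
import Cfsg.Agent.Lib.Char.Column
import Cfsg.Agent.Lib.Comp.PComponent
import Cfsg.Agent.Lib.Comp.GenFitting
import Cfsg.Agent.Lib.Transfer.Section
import Cfsg.Agent.Lib.Schur.Transfer
import Cfsg.Agent.Lib.CharDeg.CyclicTop
import Cfsg.Agent.Lib.Transfer.Criteria
import Cfsg.Agent.Lib.CharDeg.TwoDeg

set_option autoImplicit false
open Cfsg

namespace Cfsg.Agent.S4587


open Cfsg.Lib.Transfer Cfsg.Lib.Comp Cfsg.Lib.FGS Cfsg.Lib.PGroup Subgroup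
open scoped commutatorElement

variable {p : ℕ} [hp : Fact p.Prime]

theorem index_le_card {X : Type*} [Group X] [Finite X] (y : X) :
    (_root_.commutator X).index ≤ Nat.card (centralizer ({y} : Set X)) := by
  have h1 : (centralizer ({y} : Set X)).index ≤ Nat.card (_root_.commutator X) := by
    rw [← Cfsg.Lib.Char.card_isConj]
    refine Nat.card_le_card_of_injective (fun x => ⟨x.1 * y⁻¹, ?_⟩) fun a b h =>
      Subtype.ext (mul_right_cancel (congrArg Subtype.val h))
    obtain ⟨g, hg⟩ := isConj_iff.1 x.2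
    rw [← hg]
    exact commutator_mem_commutator (mem_top g) (mem_top y)
  have h2 := (centralizer ({y} : Set X)).card_mul_index
  have h3 := (_root_.commutator X).card_mul_index
  have h4 : 0 < Nat.card (_root_.commutator X) := Nat.card_pos
  by_contra h5
  nlinarith [Nat.mul_le_mul (not_le.1 h5) h1]

theorem sq_le_index {X : Type*} [Group X] [Finite X] (hX : IsPGroup p X) (h : p < Nat.card X) :
    p ^ 2 ≤ (_root_.commutator X).index := by
  by_cases hc : _root_.commutator X = ⊥
  · obtain ⟨k, hk⟩ := hX.exists_card_eq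
    rw [hc, index_bot, hk]
    rw [hk] at h
    exact Nat.pow_le_pow_right hp.out.pos
      ((Nat.pow_lt_pow_iff_right hp.out.one_lt).1 (by rwa [pow_one]))
  by_cases h1 : IsCyclic X
  · exact absurd h1 (not_isCyclic_of_commutator_ne_bot hc)
  exact (sq_le_index_frattini hX h1).trans (index_antitone (commutator_le_frattini hX))

theorem der_le {X : Type*} [Group X] [Finite X] (hX : IsPGroup p X)
    (h2 : (_root_.commutator X).index = p ^ 2) (hc : _root_.commutator X ≠ ⊥) (Q : Subgroup X)
    [Q.Normal] (hQ : ¬ Q ≤ frattini X) : _root_.commutator X ≤ Q ∧ Q.index ∣ p := by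
  have hf := frattini_eq_commutator hX h2 (not_isCyclic_of_commutator_ne_bot hc)
  have hcy : IsCyclic (X ⧸ Q) := by
    by_contra h
    have h1 := sq_le_index_frattini (hX.to_quotient Q) h
    rw [← index_comap_of_surjective _ (QuotientGroup.mk'_surjective Q)] at h1
    have h3 : frattini X ≤ (frattini (X ⧸ Q)).comap (QuotientGroup.mk' Q) :=
      frattini_le_comap_frattini_of_surjective (QuotientGroup.mk'_surjective Q)
    refine hQ (le_trans (fun x hx => ?_) (Cfsg.Lib.CharDeg.eq_of_le_of_index_le h3 (by rw [hf, h2]; exact h1)).ge)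
    rw [mem_comap, QuotientGroup.mk'_apply, (QuotientGroup.eq_one_iff _).2 hx]
    exact one_mem _
  have h1 : _root_.commutator X ≤ Q := commutator_le.2 fun a _ b _ => by
    rw [← QuotientGroup.eq_one_iff, ← QuotientGroup.mk'_apply, map_commutatorElement,
      commutatorElement_eq_one_iff_mul_comm]
    exact IsCyclic.commGroup.mul_comm _ _
  refine ⟨h1, ?_⟩
  obtain ⟨i, hi, e⟩ := (Nat.dvd_prime_pow hp.out).1 (h2 ▸ index_dvd_of_le h1)
  have : i ≠ 2 := fun h => hQ (by
    rw [hf]; exact (Cfsg.Lib.CharDeg.eq_of_le_of_index_le h1 (by rw [e, h, h2])).ge)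
  rw [e]
  exact (pow_dvd_pow p (show i ≤ 1 by omega)).trans (by rw [pow_one])

theorem idx {X : Type*} [Group X] [Finite X] {H : Subgroup X} {y : X} (hy : y ∉ H)
    (h : H.index ∣ p) : H.index = p ∧ H ⊔ zpowers y = ⊤ := by
  have h1 : H.index = p := ((Nat.dvd_prime hp.out).1 h).resolve_left fun e => hy (by
    rw [index_eq_one.1 e]; exact mem_top y)
  refine ⟨h1, index_eq_one.1 (((Nat.dvd_prime hp.out).1
    ((index_dvd_of_le le_sup_left).trans h)).resolve_right fun e => hy ?_)⟩
  exact (Cfsg.Lib.CharDeg.eq_of_le_of_index_le le_sup_left (h1.trans e.symm).le).ge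
    (mem_sup_right (mem_zpowers y))

variable {G : Type*} [Group G] [Finite G]

theorem final (P : Sylow p G) (h2 : (_root_.commutator (P : Subgroup G)).index = p ^ 2)
    (E : Subgroup G) [E.Normal] (hE : E.relIndex P ∣ p) (y : (P : Subgroup G))
    (hR : ∀ R : Subgroup G, IsPGroup p R → R ≤ E → R ≤ centralizer {(y : G)} → Nat.card R ≤ p) :
    ∃ x : G, (∃ k : ℕ, orderOf x = p ^ k) ∧
      (Nat.card (centralizer ({x} : Set G))).factorization p = 2 := by
  refine ⟨y, by simpa using IsPGroup.iff_orderOf.1 P.isPGroup' y, ?_⟩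
  obtain ⟨T, h1, hT, hpT, hi⟩ := exists_sylowIn_ge (H := centralizer {(y : G)})
    (P.isPGroup'.to_inf_left (K := centralizer {(y : G)})) inf_le_right
  obtain ⟨k, hk⟩ := hpT.exists_card_eq
  have h3 : p ^ 2 ≤ Nat.card T := by
    rw [← h2]
    refine (index_le_card y).trans ?_
    rw [← card_map_of_injective (P : Subgroup G).subtype_injective]
    refine card_le_of_le (le_trans ?_ h1)
    rintro _ ⟨x, hx, rfl⟩
    exact ⟨x.2, mem_centralizer_singleton_iff.2
      (congrArg Subtype.val (mem_centralizer_singleton_iff.1 hx))⟩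
  have h4 : Nat.card T ≤ p * p := by
    rw [← Lib.Transfer.card_mul_relIndex (inf_le_right : E ⊓ T ≤ T), inf_relIndex_right]
    refine Nat.mul_le_mul (hR _ hpT.to_inf_right inf_le_left (inf_le_right.trans hT)) ?_
    obtain ⟨g, hg⟩ := exists_conj_le_sylow P hpT
    rw [← relIndex_conj g, conj_eq_self_of_normal]
    exact (relIndex_le_of_le_right hg index_ne_zero_of_finite).trans (Nat.le_of_dvd hp.out.pos hE)
  have h5 : k = 2 := Nat.pow_right_injective hp.out.two_le (by
    simp only [← hk]; rw [← sq] at h4; omega)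
  rw [← Lib.Transfer.card_mul_relIndex hT, Nat.factorization_mul Nat.card_pos.ne'
    (show T.relIndex (centralizer {(y : G)}) ≠ 0 from index_ne_zero_of_finite),
    Finsupp.add_apply, Nat.factorization_eq_zero_of_not_dvd hi, hk, h5]
  simp [hp.out.factorization_self]

theorem der_le_sSup (P : Sylow p G) (hO : pPrimeCore p G = ⊥)
    (h2 : (_root_.commutator (P : Subgroup G)).index = p ^ 2)
    (hc : _root_.commutator (P : Subgroup G) ≠ ⊥) {𝒮 : Set (Subgroup G)}
    (hS : ∀ K ∈ 𝒮, ∀ t ∈ (P : Subgroup G), t ⋆ K ∈ 𝒮) {K : Subgroup G} (hK : IsComponent K)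
    (hKS : K ∈ 𝒮) : _root_.commutator (P : Subgroup G) ≤ (sSup 𝒮).subgroupOf P ∧
      (sSup 𝒮).relIndex P ∣ p := by
  have hn : (P : Subgroup G) ≤ normalizer ((sSup 𝒮 : Subgroup G) : Set G) := fun t ht =>
    mem_normalizer_of_conj_le (conj_le_iff_le_inv_conj.2 (sSup_le fun L hL =>
      conj_le_iff_le_inv_conj.1 (le_sSup (hS L hL t ht))))
  have := normal_subgroupOf_of_le_normalizer hn
  refine der_le P.isPGroup' h2 hc _ fun hle => ?_
  have h1 : HasNormalPComplement p ↥(sSup 𝒮 ⊔ P) := by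
    refine hasNormalPComplement_subgroup_of_inf_le_frattini le_sup_right P.2
      (sylow_not_dvd_relIndex P le_sup_right)
      (le_trans (inf_le_inf_right _ (?_ : _ ≤ sSup 𝒮)) fun x hx => ⟨⟨x, hx.2⟩, hle hx.1, rfl⟩)
    refine map_subtype_pResidual_le_iff.2 fun g hg hc => ?_
    obtain ⟨n, hn', y, hy, rfl⟩ := exists_mul_of_mem_sup hn hg
    obtain ⟨k, hk⟩ := P.2 ⟨y, hy⟩
    have := normal_subgroupOf_of_le_normalizer (sup_le le_normalizer hn)
    refine mem_of_pow_mem_of_coprime ?_ (hc.pow_right k)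
    change (⟨n * y, hg⟩ : ↥(sSup 𝒮 ⊔ P)) ^ p ^ k ∈ (sSup 𝒮).subgroupOf _
    rw [← QuotientGroup.eq_one_iff, QuotientGroup.mk_pow,
      show (⟨n * y, hg⟩ : ↥(sSup 𝒮 ⊔ P)) = ⟨n, mem_sup_left hn'⟩ * ⟨y, mem_sup_right hy⟩ from rfl,
      QuotientGroup.mk_mul, (QuotientGroup.eq_one_iff (N := (sSup 𝒮).subgroupOf (sSup 𝒮 ⊔ P))
        ⟨n, mem_sup_left hn'⟩).2 hn', one_mul, ← QuotientGroup.mk_pow,
      show (⟨y, mem_sup_right hy⟩ : ↥(sSup 𝒮 ⊔ P)) ^ p ^ k = 1 from
        Subtype.ext (congrArg Subtype.val hk :), QuotientGroup.mk_one]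
  have h3 := hasNormalPComplement_of_le ((le_sSup hKS).trans le_sup_left) h1
  have h4 := pResidual_eq_pPrimeCore h3
  rw [pPrimeCore_eq_subgroupOf_of_isSubnormal hK.1, hO, bot_subgroupOf, pResidual_eq_bot_iff] at h4
  have := h4.isNilpotent
  exact isQuasisimple_not_isSolvable hK.2 inferInstance

theorem card_le_of_transfer (P : Sylow p G)
    (h2 : (_root_.commutator (P : Subgroup G)).index = p ^ 2) {S : Subgroup G} (hS : IsComponent S)
    (hd : _root_.commutator (P : Subgroup G) ≤ (layer G).subgroupOf P)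
    (hi : (layer G).relIndex P = p)
    (hN : ∀ t ∈ (P : Subgroup G), t ∈ normalizer (S : Set G) → t ∈ layer G) {R : Subgroup G}
    (hR : R ≤ (P : Subgroup G) ⊓ layer G) (hC : R ⊓ centralizer (S : Set G) = ⊥) :
    Nat.card R ≤ p := by
  classical
  have hn : ((centralizer (S : Set G)).subgroupOf (layer G)).Normal :=
    normal_subgroupOf_of_le_normalizer
      ((layer_le_normalizer hS).trans (normalizer_le_normalizer_centralizer' S))
  let π := QuotientGroup.mk' ((centralizer (S : Set G)).subgroupOf (layer G))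
  let ι : (layer G).subgroupOf P →* layer G :=
    ((P : Subgroup G).subtype.comp ((layer G).subgroupOf P).subtype).codRestrict _ fun x => x.2
  let ψ := π.comp ι
  have h1 : Nat.card R ≤ Nat.card ψ.range := by
    refine Nat.card_le_card_of_injective
      (fun r => ψ.rangeRestrict ⟨⟨r, (hR r.2).1⟩, (hR r.2).2⟩) fun a b h => ?_
    have h3 : (a : G)⁻¹ * b ∈ R ⊓ centralizer (S : Set G) :=
      ⟨R.mul_mem (R.inv_mem a.2) b.2, (QuotientGroup.eq (s := (centralizer (S : Set G)).subgroupOf
        (layer G)) (a := ⟨a, (hR a.2).2⟩) (b := ⟨b, (hR b.2).2⟩)).1 (congrArg Subtype.val h)⟩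
    rw [hC, mem_bot, inv_mul_eq_one] at h3
    exact Subtype.ext h3
  refine h1.trans (not_lt.1 fun hlt => ?_)
  have hA : IsPGroup p ψ.range := (P.isPGroup'.to_subgroup _).of_surjective _ ψ.rangeRestrict_surjective
  have h3 := sq_le_index hA hlt
  let ϕ := Abelianization.of.comp ψ.rangeRestrict
  have := Fintype.ofFinite ((P : Subgroup G) ⧸ (layer G).subgroupOf P)
  let W := (MonoidHom.transfer ϕ).comp ((layer G).subgroupOf P).subtype
  have hW : ∀ x : (layer G).subgroupOf P, ((x : (P : Subgroup G)) : G) ∈ S → W x = ϕ x := by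
    intro x hx
    change MonoidHom.transfer ϕ x = _
    rw [Cfsg.Lib.Schur.transfer_eq_prod_of_normal le_rfl ϕ x.2,
      Finset.prod_eq_single ((1 : (P : Subgroup G)) : _ ⧸ _)]
    · have h4 := QuotientGroup.eq.1 (((1 : (P : Subgroup G)) : _ ⧸ (layer G).subgroupOf P).out_eq')
      rw [mul_one, inv_mem_iff] at h4
      refine (congrArg ϕ (?_ : _ = (⟨_, h4⟩ : (layer G).subgroupOf P)⁻¹ * x * ⟨_, h4⟩)).trans ?_
      · rfl
      · rw [map_mul, map_mul, map_inv, inv_mul_cancel_comm]
    · intro q _ hq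
      have h4 : ((q.out : (P : Subgroup G)) : G)⁻¹ ∉ normalizer (S : Set G) := fun h => hq (by
        rw [← q.out_eq', QuotientGroup.eq, mul_one]
        exact hN _ (inv_mem q.out.2) h)
      have h5 := commutator_eq_bot_iff_le_centralizer.1 (isComponent_commutator_eq_bot_of_ne
        (isComponent_map_conj hS ((q.out : (P : Subgroup G)) : G)⁻¹) hS
        fun e => h4 (conj_eq_self_iff.1 e)) (conj_mem_conj.2 hx)
      rw [inv_inv] at h5
      have h6 : ∀ z, ψ z = 1 → ϕ z = 1 := fun z hz => by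
        change Abelianization.of (ψ.rangeRestrict z) = 1
        rw [show ψ.rangeRestrict z = 1 from Subtype.ext hz, map_one]
      exact h6 _ ((QuotientGroup.eq_one_iff _).2 h5)
    · intro h; exact absurd (Finset.mem_univ _) h
  have hs : Function.Surjective W := by
    intro a
    obtain ⟨⟨_, x, rfl⟩, rfl⟩ := QuotientGroup.mk_surjective a
    have h4 := map_inf_of_not_dvd_relIndex π (S := (P : Subgroup G).subgroupOf (layer G))
      (K := S.subgroupOf (layer G)) P.isPGroup'.comap_subtype (by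
        rw [relIndex_subgroupOf (le_layer hS)]
        exact not_dvd_relIndex_of_le_normalizer (sylow_not_dvd_relIndex_normal P (layer G))
          (le_layer hS) (layer_le_normalizer hS))
    obtain ⟨s, hs, c, hc, e⟩ := mem_sup_of_le_normalizer (centralizer_le_normalizer _) |>.1
      (layer_le_sup_centralizer hS (ι x).2)
    have hsE := le_layer hS hs
    obtain ⟨z, hz, e'⟩ := h4.ge (x := ψ x) (mem_inf.2 ⟨⟨ι x, x.1.2, rfl⟩, ⟨⟨s, hsE⟩, hs,
      QuotientGroup.eq.2 (by
        change s⁻¹ * (ι x : G) ∈ centralizer (S : Set G)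
        rw [← e, inv_mul_cancel_left]; exact hc)⟩⟩)
    refine ⟨⟨⟨z, hz.1⟩, z.2⟩, (hW ⟨⟨z, hz.1⟩, z.2⟩ hz.2).trans ?_⟩
    exact congrArg Abelianization.of (Subtype.ext e')
  have h4 : (_root_.commutator (P : Subgroup G)).subgroupOf ((layer G).subgroupOf P) ≤ W.ker :=
    fun x hx => Abelianization.commutator_subset_ker (MonoidHom.transfer ϕ) hx
  have h5 := index_antitone h4
  rw [index_ker, MonoidHom.range_eq_top.2 hs, card_top] at h5
  have h6 := relIndex_mul_index hd
  rw [h2, show ((layer G).subgroupOf (P : Subgroup G)).index = p from hi, sq] at h6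
  have h7 := Nat.eq_of_mul_eq_mul_right hp.out.pos h6
  have h8 : p ^ 2 ≤ p := h3.trans (h5.trans h7.le)
  nlinarith [hp.out.two_le]

/-- Let G be a finite group, p a prime and P a Sylow p-subgroup of order at least p². Assume that G has no nontrivial normal subgroup of order prime to p, that the derived subgroup P' of P contains no nontrivial normal subgroup of G, and that G is not almost simple (there is no non-abelian simple normal subgroup of G with trivial centralizer). Then [P : P'] = p² if and only if some p-element x of G has centralizer whose order has p-part exactly p². -/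
theorem result {G : Type*} [Group G] [Finite G] (p : ℕ) [Fact p.Prime] (P : Sylow p G) (hbig : p ^ 2 ∣ Nat.card G) (hcore : Cfsg.pPrimeCore p G = ⊥)
    (hcore' : (⁅(P : Subgroup G), (P : Subgroup G)⁆).normalCore = ⊥) (hnas : ¬ ∃ S : Subgroup G, S.Normal ∧ IsSimpleGroup S ∧ ¬ IsMulCommutative S ∧ Subgroup.centralizer (S : Set G) = ⊥) :
    (⁅(P : Subgroup G), (P : Subgroup G)⁆).relIndex (P : Subgroup G) = p ^ 2 ↔
      ∃ x : G, (∃ k : ℕ, orderOf x = p ^ k) ∧ (Nat.card (Subgroup.centralizer ({x} : Set G))).factorization p = 2 := by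
  have hp : Fact p.Prime := inferInstance
  have e0 : (⁅(P : Subgroup G), (P : Subgroup G)⁆).relIndex (P : Subgroup G) =
      (_root_.commutator (P : Subgroup G)).index := by
    rw [← map_subtype_commutator, relIndex, subgroupOf,
      comap_map_eq_self_of_injective (subtype_injective _)]
  have hpp : p ^ 2 ∣ Nat.card (P : Subgroup G) := P.pow_dvd_card_of_pow_dvd_card hbig
  have hlt : p < Nat.card (P : Subgroup G) :=
    lt_of_lt_of_le (by nlinarith [hp.out.two_le]) (Nat.le_of_dvd Nat.card_pos hpp)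
  rw [e0]
  refine ⟨fun h2 => ?_, ?_⟩
  swap
  · rintro ⟨x, ⟨k, hk⟩, h⟩
    refine le_antisymm ?_ (sq_le_index P.isPGroup' hlt)
    obtain ⟨g, hg⟩ := exists_conj_le_sylow P (Q := zpowers x)
      (IsPGroup.of_card (by rw [Nat.card_zpowers, hk]))
    have hx : g * x * g⁻¹ ∈ (P : Subgroup G) := hg (conj_mem_conj.2 (mem_zpowers x))
    refine (index_le_card (⟨_, hx⟩ : (P : Subgroup G))).trans ?_
    obtain ⟨j, hj⟩ := (P.isPGroup'.to_subgroup (centralizer {⟨_, hx⟩})).exists_card_eq
    rw [Cfsg.Lib.Char.card_centralizer_eq_of_isConj (isConj_iff.2 ⟨g, rfl⟩)] at h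
    rw [hj, ← h]
    refine Nat.pow_le_pow_right hp.out.pos ((hp.out.pow_dvd_iff_le_factorization Nat.card_pos.ne').1 ?_)
    rw [← hj, ← card_map_of_injective (P : Subgroup G).subtype_injective]
    refine card_dvd_of_le ?_
    rintro _ ⟨z, hz, rfl⟩
    exact mem_centralizer_singleton_iff.2 (congrArg Subtype.val (mem_centralizer_singleton_iff.1 hz))
  by_cases hc : _root_.commutator (P : Subgroup G) = ⊥
  · refine ⟨1, ⟨0, by simp⟩, ?_⟩
    rw [hc, index_bot] at h2
    rw [show centralizer ({1} : Set G) = ⊤ from eq_top_iff.2 fun g _ =>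
      mem_centralizer_singleton_iff.2 (by simp), card_top]
    exact Nat.pow_right_injective hp.out.two_le (P.card_eq_multiplicity.symm.trans h2)
  by_cases hO : pCore p G = ⊥
  swap
  · have hf := frattini_eq_commutator P.isPGroup' h2 (not_isCyclic_of_commutator_ne_bot hc)
    have hle : pCore p G ≤ P := Cfsg.Lib.Core.pCore_le_sylow P
    obtain ⟨h3, h4⟩ := der_le P.isPGroup' h2 hc ((pCore p G).subgroupOf P) fun h => hO (by
      rw [eq_bot_iff, ← hcore', normal_le_normalCore, ← map_subtype_commutator, ← hf]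
      exact fun x hx => ⟨⟨x, hle hx⟩, h hx, rfl⟩)
    have h5 : ⁅pCore p G, pCore p G⁆ = ⊥ := by
      rw [eq_bot_iff, ← hcore', normal_le_normalCore]
      exact commutator_mono hle hle
    have hab : ∀ a ∈ (pCore p G).subgroupOf P, ∀ b ∈ (pCore p G).subgroupOf P, a * b = b * a :=
      fun a ha b hb => Subtype.ext (commutator_eq_bot_iff_le_centralizer.1 h5 hb a ha)
    obtain ⟨y, hy⟩ : ∃ y, y ∉ (pCore p G).subgroupOf P := by
      by_contra! h
      exact hc (eq_bot_iff.2 (commutator_le.2 fun a _ b _ =>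
        commutatorElement_eq_one_iff_mul_comm.2 (hab a (h a) b (h b))))
    obtain ⟨h6, h7⟩ := idx hy h4
    refine final P h2 (pCore p G) h4 y fun R _ hRE hRC => ?_
    have h8 := Cfsg.Lib.CharDeg.commutator_eq_range_commHom _ hab y h7
    have h9 := (Cfsg.Lib.CharDeg.commHom _ hab y).ker.card_mul_index
    rw [index_ker, ← card_map_of_injective (K := MonoidHom.range _) (subtype_injective _), ← h8] at h9
    have h10 := ((pCore p G).subgroupOf P).card_mul_index
    rw [← (_root_.commutator (P : Subgroup G)).card_mul_index, h2, h6, ← h9, sq, ← mul_assoc,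
      Nat.mul_left_inj hp.out.ne_zero, mul_comm, Nat.mul_right_inj Nat.card_pos.ne'] at h10
    rw [← h10]
    refine Nat.card_le_card_of_injective (fun r => ⟨⟨⟨r, hle (hRE r.2)⟩, hRE r.2⟩, ?_⟩)
      fun a b h => Subtype.ext (congrArg (fun x => x.1.1.1) h)
    refine Subtype.ext (Subtype.ext ?_)
    change (y : G) * r * (y : G)⁻¹ * (r : G)⁻¹ = 1
    rw [← mem_centralizer_singleton_iff.1 (hRC r.2)]
    group
  have hF : fittingSubgroup G = ⊥ := (Cfsg.Lib.Core.fittingSubgroup_eq_pCore hcore).trans hO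
  have hCE : centralizer (layer G : Set G) = ⊥ := by
    have := centralizer_genFitting_le_fitting (G := G)
    rwa [genFitting_def, hF, sup_bot_eq, le_bot_iff] at this
  obtain ⟨S, hS⟩ : ∃ S : Subgroup G, IsComponent S := by
    by_contra! h
    rw [layer_eq_bot_iff.2 h] at hCE
    refine hc (eq_bot_iff.2 fun x _ => Subtype.ext (hCE.le fun z hz => ?_))
    rw [mem_bot.1 hz, mul_one, one_mul]
  have hall : ∀ K : Subgroup G, IsComponent K → ∃ t ∈ (P : Subgroup G), K = t ⋆ S := by
    intro K hK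
    by_contra hKS
    have h3 := (der_le_sSup P hcore h2 hc (𝒮 := {K | IsComponent K ∧ ∃ t ∈ (P : Subgroup G), K = t ⋆ S})
      (by
        rintro _ ⟨h, u, hu, rfl⟩ t ht
        exact ⟨isComponent_map_conj h t, t * u, mul_mem ht hu, conj_conj _ _ _⟩)
      hS ⟨hS, 1, one_mem _, (conj_one S).symm⟩).1
    have h4 := (der_le_sSup P hcore h2 hc
      (𝒮 := {K | IsComponent K ∧ ¬ ∃ t ∈ (P : Subgroup G), K = t ⋆ S})
      (fun L hL t ht => ⟨isComponent_map_conj hL.1 t, fun ⟨u, hu, e⟩ => hL.2
        ⟨t⁻¹ * u, mul_mem (inv_mem ht) hu, by rw [← conj_conj, ← e, inv_conj_conj]⟩⟩)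
      hK ⟨hK, hKS⟩).1
    have h5 := commutator_sSup_sSup_not (G := G) fun K => ∃ t ∈ (P : Subgroup G), K = t ⋆ S
    refine hc (eq_bot_iff.2 fun x hx => Subtype.ext (hCE.le (le_centralizer_iff.1 ?_ (mem_zpowers _))))
    rw [layer_eq_sSup_sup_sSup fun K => ∃ t ∈ (P : Subgroup G), K = t ⋆ S]
    exact sup_le ((commutator_eq_bot_iff_le_centralizer.1 h5).trans
      (centralizer_le (zpowers_le.2 (h4 hx)))) ((le_centralizer_iff.1
        (commutator_eq_bot_iff_le_centralizer.1 h5)).trans (centralizer_le (zpowers_le.2 (h3 hx))))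
  obtain ⟨h3, h4⟩ := der_le_sSup P hcore h2 hc (𝒮 := {K | IsComponent K})
    (fun L hL t _ => isComponent_map_conj hL t) hS hS
  replace h3 : _root_.commutator (P : Subgroup G) ≤ (layer G).subgroupOf P := h3
  replace h4 : (layer G).relIndex P ∣ p := h4
  obtain ⟨y, hy⟩ : ∃ y : (P : Subgroup G), (y : G) ∉ normalizer (S : Set G) := by
    by_contra! h
    have hE : layer G = S := le_antisymm (layer_le fun K hK => by
      obtain ⟨t, ht, rfl⟩ := hall K hK
      exact (conj_eq_self_iff.2 (h ⟨t, ht⟩)).le) (le_layer hS)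
    have hn : (layer G).Normal := inferInstance
    rw [hE] at hCE hn
    exact hnas ⟨S, hn, isSimpleGroup_of_isQuasisimple hS.2 (eq_bot_iff.2 fun z hz =>
      Subtype.ext (hCE.le fun w hw => congrArg Subtype.val (mem_center_iff.1 hz ⟨w, hw⟩))),
      isQuasisimple_not_isMulCommutative hS.2, hCE⟩
  have hle : (layer G).subgroupOf P ≤ (normalizer (S : Set G)).subgroupOf P :=
    fun x hx => layer_le_normalizer hS hx
  obtain ⟨h6, h8⟩ := idx (fun h => hy (hle h)) h4
  have h7 := Cfsg.Lib.CharDeg.eq_of_le_of_index_le hle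
    (h6.trans (idx (y := y) hy ((index_dvd_of_le hle).trans h4)).1.symm).le
  refine final P h2 (layer G) h4 y fun R hR hRE hRC => ?_
  obtain ⟨g, hg, hgR⟩ := exists_conj_le_of_not_dvd_relIndex'
    (sylow_not_dvd_relIndex_normal P (layer G)) hR hRE
  rw [← card_conj g]
  refine card_le_of_transfer P h2 hS h3 h6 (fun t ht h => h7.ge (x := ⟨t, ht⟩) h)
    (le_inf hgR (conj_le_iff.2 fun x hx => mul_mem (mul_mem hg (hRE hx)) (inv_mem hg))) ?_
  rw [← conj_eq_self_iff.2 (layer_le_normalizer hS hg), ← conj_centralizer, ← conj_inf,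
    conj_eq_bot_iff, eq_bot_iff, ← hCE]
  intro x hx
  refine le_centralizer_iff.1 (layer_le fun K hK => ?_) (mem_zpowers x)
  obtain ⟨t, ht, rfl⟩ := hall K hK
  rw [sup_comm] at h8
  obtain ⟨u, ⟨i, rfl⟩, v, hv, e⟩ := mem_sup_of_normal_right.1 (h8.ge (mem_top ⟨t, ht⟩))
  have e' : (y : G) ^ i * v = t := congrArg Subtype.val e
  rw [← e', ← conj_conj, (conj_eq_self_iff (g := (v : G))).2 (layer_le_normalizer hS hv), le_centralizer_iff,
    ← conj_centralizer, zpowers_le, mem_conj, mul_assoc,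
    (Commute.zpow_right (mem_centralizer_singleton_iff.1 (hRC hx.1)) i).eq,
    inv_mul_cancel_left]
  exact hx.2

end Cfsg.Agent.S4587
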