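import Cfsg.Statements.S4602
import Cfsg.Agent.Lib.BG.Hall
import Cfsg.Agent.Lib.Core.PSolvable

set_option autoImplicit false
open Cfsg

namespace Cfsg.Agent.S4602

open Subgroup Cfsg.Lib Cfsg.Lib.BG Cfsg.Lib.Transfer


/-- Let G be a finite p-solvable group and q a prime different from p. Some Sylow p-subgroup of G normalizes some Sylow q-subgroup of G if and only if q does not divide the order of G/O_{p'}(G), the quotient by the largest normal subgroup of order prime to p. -/
theorem result {G : Type*} [Group G] [Finite G] (p q : ℕ) [Fact p.Prime] [Fact q.Prime] (hpq : p ≠ q) (hsolv : Cfsg.IsPSolvable p G) :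
    (∃ (P : Sylow p G) (Q : Sylow q G), (P : Subgroup G) ≤ Subgroup.normalizer ((Q : Subgroup G) : Set G)) ↔ ¬ q ∣ (Cfsg.pPrimeCore p G).index := by
  have hq : q.Prime := Fact.out
  have hp : p.Prime := Fact.out
  set K := pPrimeCore p G with hK
  haveI : K.Normal := inferInstance
  have hKp : PiGrp {p}ᶜ K := PiGrp.p'_iff_coprime.2 (Core.pPrimeCore_coprime p G)
  constructor
  · rintro ⟨P, Q, hPQ⟩
    let f := QuotientGroup.mk' K
    have hf : Function.Surjective f := QuotientGroup.mk'_surjective K
    have hP' : Syl p ((P : Subgroup G).map f) ⊤ := by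
      have := (Syl.of_sylow_top P).map f
      rwa [Subgroup.map_top_of_surjective f hf] at this
    have hQ' : Syl q ((Q : Subgroup G).map f) ⊤ := by
      have := (Syl.of_sylow_top Q).map f
      rwa [Subgroup.map_top_of_surjective f hf] at this
    have hO : IsPGroup p (pCore p (G ⧸ K)) := Core.pCore_isPGroup p _
    haveI : (pCore p (G ⧸ K)).Normal := inferInstance
    have h1 : pCore p (G ⧸ K) ≤ (P : Subgroup G).map f :=
      hP'.ge_of_norm_p le_top hO (le_normalizer_of_normal)
    have h2 : (Q : Subgroup G).map f ≤ 𝐂(pCore p (G ⧸ K)) :=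
      cent_of_norm_of_disjoint le_normalizer_of_normal (h1.trans (map_norm f hPQ))
        (disjoint_of_coprime (coprime_pgroups hQ'.pgroup hO hpq.symm))
    have h3 := h2.trans (Core.centralizer_pCore_le_of_isPSolvable (Core.isPSolvable_quotient hsolv K)
      (Core.pPrimeCore_quotient_pPrimeCore p G))
    have h4 : (Q : Subgroup G).map f = ⊥ := by
      rw [← inf_eq_left.2 h3]
      exact disjoint_of_coprime (coprime_pgroups hQ'.pgroup hO hpq.symm)
    have h5 := hQ'.not_dvd'
    rw [h4, relIndex_top_right, index_bot] at h5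
    exact h5
  · intro h
    obtain ⟨P⟩ : Nonempty (Sylow p G) := inferInstance
    obtain ⟨Q, hQ, hPQ⟩ := Syl.exists_inv (p := q) (A := (P : Subgroup G)) (K := K) le_normalizer_of_normal
      (hKp.coprime_pgroup P.isPGroup').symm (Or.inl (pgroup_sol P.isPGroup'))
    have hQ' : Syl q Q ⊤ := hQ.trans_idx le_top (PiNat.p'_iff.2 (by rwa [relIndex_top_right]))
    obtain ⟨S, hS⟩ := Syl.top_iff_sylow.1 hQ'
    exact ⟨P, S, hS ▸ hPQ⟩

end Cfsg.Agent.S4602
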