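import Cfsg.Statements.S4601
import Cfsg.Agent.Lib.HH.Misc
import Cfsg.Agent.S4602
import Cfsg.Agent.Lib.FGS.ClassSize
import Cfsg.Agent.Lib.Core.MinNormal
import Cfsg.Agent.Lib.Coprime.Sylow

set_option autoImplicit false
open Cfsg

namespace Cfsg.Agent.S4601

open Subgroup Cfsg.Lib Cfsg.Lib.BG Cfsg.Lib.Transfer Cfsg.Lib.HH

universe u

theorem hyp_quot {G G' : Type*} [Group G] [Finite G] [Group G'] [Finite G'] {p q : ℕ} [Fact q.Prime]
    {f : G →* G'} (hf : Function.Surjective f)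
    (h : ∀ y : G, PiElt {q} y → ¬ p ∣ (𝐂[y]).index) : ∀ y : G', PiElt {q} y → ¬ p ∣ (𝐂[y]).index := by
  intro y hy hd
  obtain ⟨x, hx, rfl⟩ := exists_pi_lift_surj hf hy
  exact h x hx (hd.trans (FGS.index_cent1_map_dvd hf x))

theorem qsolv {p q : ℕ} [hp : Fact p.Prime] [hq : Fact q.Prime] (hpq : p ≠ q) (G : Type u) [Group G] [Finite G] :
    IsPSolvable q G → (∀ y : G, PiElt {q} y → ¬ p ∣ (𝐂[y]).index) →
      ∃ P Q : Subgroup G, Syl p P ⊤ ∧ Syl q Q ⊤ ∧ P ≤ 𝐍(Q) := by
  refine Core.induction_on_isMinNormal (P := fun G _ _ => IsPSolvable q G →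
    (∀ y : G, PiElt {q} y → ¬ p ∣ (𝐂[y]).index) →
      ∃ P Q : Subgroup G, Syl p P ⊤ ∧ Syl q Q ⊤ ∧ P ≤ 𝐍(Q)) G ?_ ?_
  · intro G _ _ _ _ _
    obtain ⟨P, hP⟩ := Syl.exists (p := p) (⊤ : Subgroup G)
    obtain ⟨Q, hQ⟩ := Syl.exists (p := q) (⊤ : Subgroup G)
    exact ⟨P, Q, hP, hQ, fun x _ => by rw [Subsingleton.elim x 1]; exact one_mem _⟩
  intro G _ _ N _ hN ih hs h
  let f := QuotientGroup.mk' N
  have hf : Function.Surjective f := QuotientGroup.mk'_surjective N
  have hk : f.ker = N := QuotientGroup.ker_mk' N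
  obtain ⟨P₁, Q₁, hP₁, hQ₁, hn⟩ := ih (Core.isPSolvable_quotient hs N) (hyp_quot hf h)
  -- the preimage `L` of `Q₁` and its normalizer `M`
  set L := Q₁.comap f with hL
  have hNL : N ≤ L := fun x hx => by
    have : f x = 1 := by rw [← MonoidHom.mem_ker, hk]; exact hx
    simp only [hL, mem_comap, this, one_mem]
  have hM : ¬ p ∣ (𝐍(L)).index := by
    have h1 : P₁.comap f ≤ 𝐍(L) := (comap_mono hn).trans (le_normalizer_comap f)
    have h2 := hP₁.not_dvd'
    rw [relIndex_top_right, ← index_comap_of_surjective _ hf] at h2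
    exact fun hd => h2 (hd.trans (index_dvd_of_le h1))
  obtain ⟨Q, hQ⟩ := Syl.exists (p := q) L
  have hQ' : Syl q Q ⊤ := hQ.trans_idx le_top (PiNat.p'_iff.2 (by
    rw [relIndex_top_right, hL, index_comap_of_surjective _ hf, ← relIndex_top_right]
    exact hQ₁.not_dvd'))
  have hLQ : N ⊔ Q = L := by
    refine hQ.sup_eq hNL ?_
    have : N.relIndex L = Nat.card Q₁ := by
      have := relIndex_ker L f
      rwa [hk, hL, map_comap_eq_self_of_surjective hf] at this
    rw [this]; exact hQ₁.pi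
  have hfr := hQ.frattini (Nml.norm_self L)
  -- it suffices that `p` does not divide the index of `N(Q)` in `N`
  suffices hi : ¬ p ∣ (𝐍(Q)).relIndex N by
    have h1 : N ⊔ (𝐍(L) ⊓ 𝐍(Q)) = 𝐍(L) := by
      refine le_antisymm (sup_le (le_norm_of_le hNL) inf_le_left) ?_
      refine hfr.ge.trans (sup_le (hLQ.ge.trans ?_) le_sup_right)
      exact sup_le le_sup_left (le_sup_of_le_right (le_inf (le_norm_of_le hQ.le) (le_norm Q)))
    have h2 : ¬ p ∣ (𝐍(L) ⊓ 𝐍(Q)).relIndex 𝐍(L) := by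
      have := Coprime.relIndex_sup_right_of_le_normalizer (N := N) (A := 𝐍(L) ⊓ 𝐍(Q))
        le_normalizer_of_normal
      rw [h1] at this
      rw [this, ← inf_relIndex_right, inf_right_comm, inf_eq_right.2 (le_norm_of_le hNL),
        inf_comm, inf_relIndex_right]
      exact hi
    have h3 : ¬ p ∣ (𝐍(L) ⊓ 𝐍(Q)).relIndex ⊤ := by
      rw [← relIndex_mul_relIndex _ 𝐍(L) ⊤ inf_le_left le_top, relIndex_top_right]
      exact fun hd => ((Nat.Prime.dvd_mul hp.out).1 hd).elim h2 hM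
    obtain ⟨P, hP, hle⟩ := exists_syl_le_of_not_dvd le_top h3
    exact ⟨P, Q, hP, hQ', hle.trans inf_le_right⟩
  rcases hN.isPGroup_or_coprime (Core.isPSolvable_subgroup hs N) with hNq | hNq
  · have : N ≤ 𝐍(Q) := le_norm_of_le (hQ'.ge_of_norm_p le_top hNq le_normalizer_of_normal)
    rw [relIndex_eq_one.2 this]
    exact hp.out.not_dvd_one
  · have hc : (Nat.card Q).Coprime (Nat.card N) :=
      ((PiGrp.p'_iff_coprime.2 hNq).coprime_pgroup hQ.pgroup).symm
    obtain ⟨P₀, hP₀, hQP⟩ := Syl.exists_inv (p := p) (A := Q) (K := N) le_normalizer_of_normal hc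
      (Or.inl (pgroup_sol hQ.pgroup))
    refine not_dvd_relIndex_of_syl_le hP₀ (norm_of_cent (cent_symm fun y hy => ?_))
    have hz : zpowers y ≤ Q := zpowers_le.2 hy
    have h1 := Coprime.not_dvd_relIndex_centralizer_of_invariant (p := p) (A := zpowers y) (K := N)
      le_normalizer_of_normal (coprime_mono hc hz le_rfl)
      (Or.inl (pgroup_sol (pgroup_of_le hQ.pgroup hz))) hP₀.le hP₀.pgroup hP₀.not_dvd' (hz.trans hQP)
    rw [cent_zpowers] at h1
    have h2 : ¬ p ∣ (𝐂[y]).relIndex N := fun hd =>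
      h y (pElt_of_mem hQ.pgroup hy) (hd.trans (FGS.relIndex_dvd_index_of_normal' _ N))
    have h3 : Syl p (P₀ ⊓ 𝐂[y]) N := by
      refine Syl.mk' (inf_le_left.trans hP₀.le) (pgroup_of_le hP₀.pgroup inf_le_left) ?_
      rw [← relIndex_mul_relIndex _ (N ⊓ 𝐂[y]) N (inf_le_inf_right _ hP₀.le) inf_le_left]
      intro hd
      rcases (Nat.Prime.dvd_mul hp.out).1 hd with hd | hd
      · apply h1
        rwa [← inf_relIndex_right, inf_assoc, inf_eq_right.2 (inf_le_right : N ⊓ 𝐂[y] ≤ _),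
          inf_relIndex_right] at hd
      · rw [inf_comm, inf_relIndex_right] at hd; exact h2 hd
    have h4 := h3.eq_of_le' hP₀ inf_le_left
    exact le_cent1_iff.1 (h4 ▸ inf_le_right)


/-- Let p and q be primes and G a finite group that is p-solvable or q-solvable, in which no q-element has conjugacy class size divisible by p. Then some Sylow p-subgroup of G normalizes some Sylow q-subgroup of G. -/
theorem result {G : Type*} [Group G] [Finite G] (p q : ℕ) [Fact p.Prime] [Fact q.Prime] (hsolv : Cfsg.IsPSolvable p G ∨ Cfsg.IsPSolvable q G)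
    (h : ∀ y : G, (∃ k : ℕ, orderOf y = q ^ k) → ¬ p ∣ (Subgroup.centralizer ({y} : Set G)).index) :
    ∃ (P : Sylow p G) (Q : Sylow q G), (P : Subgroup G) ≤ Subgroup.normalizer ((Q : Subgroup G) : Set G) := by
  have h' : ∀ y : G, PiElt {q} y → ¬ p ∣ (𝐂[y]).index := fun y hy => h y (pElt_iff_orderOf.1 hy)
  by_cases hpq : p = q
  · subst hpq
    obtain ⟨P⟩ : Nonempty (Sylow p G) := inferInstance
    exact ⟨P, P, le_norm _⟩
  rcases hsolv with hs | hs
  · refine (S4602.result p q hpq hs).2 fun hd => ?_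
    set K := pPrimeCore p G
    let f := QuotientGroup.mk' K
    have hf : Function.Surjective f := QuotientGroup.mk'_surjective K
    obtain ⟨y, hy⟩ := exists_prime_orderOf_dvd_card' (G := G ⧸ K) q hd
    have hy' : PiElt {q} y := pElt_iff_orderOf.2 ⟨1, by simpa using hy⟩
    have h1 := hyp_quot hf h' y hy'
    obtain ⟨P, hP, hle⟩ := exists_syl_le_of_not_dvd (p := p) (H := 𝐂[y]) le_top
      (by rwa [relIndex_top_right])
    have hO : IsPGroup p (pCore p (G ⧸ K)) := Core.pCore_isPGroup p _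
    have h2 : pCore p (G ⧸ K) ≤ P := hP.ge_of_norm_p le_top hO le_normalizer_of_normal
    have h3 := Core.centralizer_pCore_le_of_isPSolvable (Core.isPSolvable_quotient hs K)
      (Core.pPrimeCore_quotient_pPrimeCore p G) (le_cent1_iff.1 (h2.trans hle))
    have h4 : y = 1 := (pElt_of_mem hO h3).eq_one (hy'.mono (by simpa using hpq))
    rw [h4, orderOf_one] at hy
    exact (Fact.out : q.Prime).one_lt.ne hy
  · obtain ⟨P, Q, hP, hQ, hn⟩ := qsolv hpq G hs h'
    obtain ⟨P, rfl⟩ := Syl.top_iff_sylow.1 hP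
    obtain ⟨Q, rfl⟩ := Syl.top_iff_sylow.1 hQ
    exact ⟨P, Q, hn⟩

end Cfsg.Agent.S4601
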