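import Cfsg.Statements.S4604
import Cfsg.Agent.S0876
import Cfsg.Agent.Lib.Char.ComplexAut
import Cfsg.Agent.Lib.Modular.Basic

set_option autoImplicit false
open Cfsg

namespace Cfsg.Agent.S4604

open Cfsg.Lib.Char Cfsg.Lib.Block

theorem exists_sum_pow {R ι : Type*} [CommRing R] {p : ℕ} (hp : p.Prime) (n : ℕ) (s : Finset ι)
    (f : ι → R) : ∃ r, (∑ i ∈ s, f i) ^ p ^ n = ∑ i ∈ s, f i ^ p ^ n + p * r := by
  classical
  induction s using Finset.induction_on with
  | empty => exact ⟨0, by simp [hp.ne_zero]⟩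
  | insert a s ha ih =>
    obtain ⟨r, hr⟩ := ih
    obtain ⟨t, ht⟩ := exists_add_pow_prime_pow_eq hp (f a) (∑ i ∈ s, f i) n
    rw [Finset.sum_insert ha, Finset.sum_insert ha, ht, hr]
    exact ⟨r + f a * (∑ i ∈ s, f i) * t, by ring⟩

theorem exists_pow_eq {G : Type*} [Group G] [Finite G] {p : ℕ} (hp : p.Prime) (n : ℕ) {χ : G → ℂ}
    (hχ : IsCharacter G χ) (x : G) : ∃ γ : AlgInt, χ x ^ p ^ n = χ (x ^ p ^ n) + p * γ := by
  obtain ⟨d, ε, -, hε, h⟩ := hχ.exists_eigenvalues x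
  have hint : ∀ i, ε i ∈ AlgInt := fun i => isIntegral_of_pow_eq_one (orderOf_pos x).ne' (hε i)
  obtain ⟨r, hr⟩ := exists_sum_pow hp n Finset.univ (fun i => (⟨ε i, hint i⟩ : AlgInt))
  refine ⟨r, ?_⟩
  have h1 := h 1
  simp only [pow_one] at h1
  have h2 := congrArg (fun z : AlgInt => (z : ℂ)) hr
  simpa [h1, h] using h2

/-- Let G be a finite group, p a prime and p^a the p-part of the order of G. Let x, y ∈ G and let x′, y′ be their p-regular parts: x′ has order prime to p, commutes with x·x′⁻¹, and x·x′⁻¹ has p-power order (likewise for y). Then x′ and y′ are conjugate in G if and only if for every irreducible character χ of G the algebraic integer χ(x)^(p^a) − χ(y)^(p^a) is p times an algebraic integer. -/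
theorem result {G : Type*} [Group G] [Finite G] (p : ℕ) [Fact p.Prime] (x y x' y' : G)
    (hx : (∃ k : ℕ, orderOf (x * x'⁻¹) = p ^ k) ∧ Commute (x * x'⁻¹) x' ∧ ¬ p ∣ orderOf x')
    (hy : (∃ k : ℕ, orderOf (y * y'⁻¹) = p ^ k) ∧ Commute (y * y'⁻¹) y' ∧ ¬ p ∣ orderOf y') :
    IsConj x' y' ↔ ∀ χ : Cfsg.IrrCharacter G, ∃ γ : Cfsg.AlgInt,
      (χ : G → ℂ) x ^ (p ^ (Nat.card G).factorization p) - (χ : G → ℂ) y ^ (p ^ (Nat.card G).factorization p) = (p : ℂ) * (γ : ℂ) := by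
  have hp : p.Prime := Fact.out
  set a := (Nat.card G).factorization p with ha
  have key : ∀ x x' : G, (∃ k : ℕ, orderOf (x * x'⁻¹) = p ^ k) → Commute (x * x'⁻¹) x' →
      x ^ p ^ a = x' ^ p ^ a := by
    rintro x x' ⟨k, hk⟩ hc
    have h1 : (x * x'⁻¹) ^ p ^ a = 1 := by
      apply orderOf_dvd_iff_pow_eq_one.1
      rw [hk]
      exact pow_dvd_pow p ((hp.pow_dvd_iff_le_factorization Nat.card_pos.ne').1
        (hk ▸ orderOf_dvd_natCard _))
    have h2 := hc.mul_pow (p ^ a)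
    rwa [h1, one_mul, inv_mul_cancel_right] at h2
  constructor
  · intro h χ
    obtain ⟨γ, hγ⟩ := exists_pow_eq hp a χ.2.isCharacter x
    obtain ⟨δ, hδ⟩ := exists_pow_eq hp a χ.2.isCharacter y
    refine ⟨γ - δ, ?_⟩
    rw [hγ, hδ, key x x' hx.1 hx.2.1, key y y' hy.1 hy.2.1,
      χ.2.isClassFunction.eq_of_isConj (h.pow (p ^ a))]
    push_cast
    ring
  · intro h
    obtain ⟨M, hM⟩ := Cfsg.Lib.Modular.exists_isPModular hp
    haveI : Modular p M := ⟨hM⟩
    have h1 := (Cfsg.Agent.S0876.result p M hM x y (x * x'⁻¹) (y * y'⁻¹)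
      ⟨x', by simp, hx.2.1, hx.1, hx.2.2⟩ ⟨y', by simp, hy.2.1, hy.1, hy.2.2⟩).2 (fun χ => by
        obtain ⟨γ, hγ⟩ := h χ
        have hint : ∀ g, (χ : G → ℂ) g ∈ locRing M := fun g =>
          mem_locRing_of_isIntegral (χ.2.isIntegral g)
        rw [memLocalIdeal_sub_iff (hint x) (hint y)]
        have h2 := congrArg (red M) hγ
        rw [red_sub (pow_mem (hint x) _) (pow_mem (hint y) _), red_pow (hint x), red_pow (hint y),
          red_mul (natCast_mem _ _) (coe_mem_locRing γ), red_p, zero_mul, ← sub_pow_char_pow] at h2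
        exact sub_eq_zero.1 (pow_eq_zero_iff (pow_ne_zero _ hp.ne_zero) |>.1 h2))
    simpa using h1

end Cfsg.Agent.S4604
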