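import Cfsg.Statements.S4608
import Cfsg.Agent.Lib.Sym.Small

set_option autoImplicit false
open Cfsg

namespace Cfsg.Agent.S4608

open Cfsg.Lib.Block Cfsg.Lib.Char Cfsg.Lib.Modular Cfsg.Lib.Sym
open scoped ComplexConjugate

/-- Let G be a finite group, p a prime, M a maximal ideal of the algebraic integers containing p, and B a p-block of G with defect group D. If B has p-regular rank one and exactly five irreducible characters, then D is cyclic of order 5, or D has order 8 and is non-abelian (dihedral or quaternion). -/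
theorem result {G : Type*} [Group G] [Finite G] (p : ℕ) [Fact p.Prime] (M : Ideal Cfsg.AlgInt) (hM : Cfsg.IsPModular p M) (B : Set (Cfsg.IrrCharacter G)) (hB : Cfsg.IsPBlock M B) (D : Subgroup G) (hD : Cfsg.IsDefectGroup p M B D)
    (hl : Cfsg.blockRank p B = 1) (hk : Nat.card B = 5) :
    (Nat.card D = 5) ∨ (Nat.card D = 8 ∧ ¬ IsMulCommutative D) := by
  have : Modular p M := ⟨hM⟩
  have h2 := hB.card_defectGroup hD
  refine (pow_eq_of_rank_one_five hB hl hk).imp h2.trans fun h => ⟨h2.trans h, fun hc => ?_⟩
  have hd : blockDefect p B ≠ 0 := fun h0 => by simp [h0] at h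
  obtain rfl : p = 2 := (Nat.prime_dvd_prime_iff_eq Fact.out Nat.prime_two).1
    ((Fact.out : p.Prime).dvd_of_dvd_pow (n := 3) ((dvd_pow_self p hd).trans h.dvd))
  have := even_card_of_odd_blockRank hB hD hc
    (Nat.pow_right_injective le_rfl (show 2 ^ blockDefect 2 B = 2 ^ 3 from h)).le hd
    (hl ▸ odd_one)
  rw [hk] at this
  exact absurd this (by decide)

end Cfsg.Agent.S4608
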