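import Cfsg.Statements.S4610
import Cfsg.Agent.Lib.BI.Key

set_option autoImplicit false
open Cfsg

namespace Cfsg.Agent.S4610

open Cfsg.Lib.Block Cfsg.Lib.Char Cfsg.Lib.Modular Cfsg.Lib.BI Subgroup

/-- Let G be a finite group and p a prime dividing its order; fix for every prime r a maximal ideal M r of the algebraic integers containing r. Then, for every prime q ≠ p dividing the order of G, the principal p-block and the principal q-block of G have only the principal character in common, if and only if a Sylow p-subgroup P of G is normal and G is generated by P and its largest normal subgroup of order prime to p (that is, G is the direct product of P and that subgroup). -/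
theorem result {G : Type*} [Group G] [Finite G] (p : ℕ) [Fact p.Prime] (hp : p ∣ Nat.card G) (M : ℕ → Ideal Cfsg.AlgInt) (hM : ∀ r : ℕ, r.Prime → Cfsg.IsPModular r (M r)) (P : Sylow p G) :
    (∀ q : ℕ, q.Prime → q ≠ p → q ∣ Nat.card G →
        ∀ χ : Cfsg.IrrCharacter G, χ ∈ Cfsg.principalBlock (M p) G → χ ∈ Cfsg.principalBlock (M q) G → (χ : G → ℂ) = fun _ => 1) ↔
      ((P : Subgroup G).Normal ∧ (P : Subgroup G) ⊔ Cfsg.pPrimeCore p G = ⊤) := by
  have hp' : p.Prime := Fact.out
  have : Modular p (M p) := ⟨hM p hp'⟩
  refine ⟨fun h => ?_, fun ⟨hP, e⟩ q hq k _ χ h1 h2 => ?_⟩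
  · have hP : (P : Subgroup G).Normal := normal_of_index P fun u hu q hq k d => by
      have := Fact.mk hq
      have : Modular q (M q) := ⟨hM q hq⟩
      exact not_dvd_index (h q hq k (d.trans (index_dvd_card _))) (pPart_of_pElt hp' (pElt_of_mem hp' P.isPGroup' hu)) d
    refine ⟨hP, sup_eq_top P fun q hq k v hv => ?_⟩
    have := Fact.mk hq
    have : Modular q (M q) := ⟨hM q hq⟩
    by_cases d : q ∣ Nat.card G
    · exact not_dvd_index (M := M q) (M' := M p) (fun χ a b => h q hq k d χ b a) hv
    · rw [← hv, pPart_of_not_dvd hq fun c => d (c.trans (orderOf_dvd_natCard v)),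
        show centralizer ({1} : Set G) = ⊤ from eq_top_iff.2 fun x _ => mem_centralizer_singleton_iff.2 (by simp), index_top]
      exact hp'.not_dvd_one
  · have := Fact.mk hq
    have : Modular q (M q) := ⟨hM q hq⟩
    refine χ.2.eq_one_of_forall_apply_eq fun g => χ.2.isCharacter.mem_charKer_iff.1 ?_
    have nd : ¬ q ∣ Nat.card P := fun d => by
      obtain ⟨n, hn⟩ := P.isPGroup'.exists_card_eq
      exact k ((Nat.prime_dvd_prime_iff_eq hq hp').1 (hq.dvd_of_dvd_pow (hn ▸ d)))
    have : (P : Subgroup G) ⊔ pPrimeCore p G ≤ charKer (χ : G → ℂ) :=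
      sup_le (fun n hn => χ.2.isCharacter.mem_charKer_iff.2 (principalBlock_subset_kerSet (p := q) nd h2 n hn))
        fun n hn => χ.2.isCharacter.mem_charKer_iff.2
          (principalBlock_subset_kerSet (p := p) (Lib.Core.not_dvd_card_pPrimeCore p G) h1 n hn)
    exact this (e ▸ mem_top g)

end Cfsg.Agent.S4610
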