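import Cfsg.Statements.S4611
import Cfsg.Agent.Lib.CharDeg.PrincSolv

set_option autoImplicit false
open Cfsg

namespace Cfsg.Agent.S4611

open Cfsg.Lib.Char Cfsg.Lib.CharDeg Cfsg.Lib.Core Subgroup in

/-- Let G be a finite solvable group and π a nonempty set of primes, each dividing the order of G; fix for each p in π a maximal ideal M p of the algebraic integers containing p. Then the only irreducible character lying in the principal p-block for every p in π is the principal character if and only if G is generated by the subgroups O_{p'}(G), p in π (the largest normal subgroups of order prime to p). -/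
theorem result {G : Type*} [Group G] [Finite G] [Group.IsSolvable G] (π : Set ℕ) (hπ : ∀ p ∈ π, p.Prime ∧ p ∣ Nat.card G) (hne : π.Nonempty) (M : ℕ → Ideal Cfsg.AlgInt) (hM : ∀ p ∈ π, Cfsg.IsPModular p (M p)) :
    (∀ χ : Cfsg.IrrCharacter G, (∀ p ∈ π, χ ∈ Cfsg.principalBlock (M p) G) → (χ : G → ℂ) = fun _ => 1) ↔
      ⨆ p ∈ π, Cfsg.pPrimeCore p G = ⊤ := by
  have key : ∀ p ∈ π, ∀ χ : IrrCharacter G, χ ∈ principalBlock (M p) G ↔
      ∀ n ∈ pPrimeCore p G, (χ : G → ℂ) n = (χ : G → ℂ) 1 := by
    intro p hp χ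
    haveI : Fact p.Prime := ⟨(hπ p hp).1⟩
    exact mem_principalBlock_iff_of_isPSolvable (hM p hp)
      (isPSolvable_of_isSolvable inferInstance) χ
  constructor
  · intro h
    by_contra hne'
    obtain ⟨g, hg⟩ : ∃ g, g ∉ ⨆ p ∈ π, pPrimeCore p G := by
      by_contra hcon
      push Not at hcon
      exact hne' (eq_top_iff.2 fun g _ => hcon g)
    haveI : (⨆ p ∈ π, pPrimeCore p G).Normal := biSup_normal _ _ fun p _ => inferInstance
    obtain ⟨χ, hχ, h1, h2⟩ := exists_irr_ker_ge_apply_ne _ hg
    have := h ⟨χ, hχ⟩ fun p hp => (key p hp _).2 fun n hn =>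
      h1 n ((le_biSup (fun p => pPrimeCore p G) hp) hn)
    change χ = _ at this
    exact h2 (by rw [this])
  · intro h χ hχ
    refine χ.2.eq_one_of_forall_apply_eq fun g => χ.2.isCharacter.mem_charKer_iff.1 ?_
    have : ⨆ p ∈ π, pPrimeCore p G ≤ charKer (χ : G → ℂ) :=
      iSup₂_le fun p hp n hn => χ.2.isCharacter.mem_charKer_iff.2 ((key p hp χ).1 (hχ p hp) n hn)
    exact this (h ▸ mem_top g)

end Cfsg.Agent.S4611
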