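import Cfsg.Statements.S4613
import Cfsg.Agent.Lib.St.Lie

set_option autoImplicit false
open Cfsg

namespace Cfsg.Agent.S4613

/-- Let G be a finite simple group of Lie type in characteristic p and α an automorphism of G of order prime to p that fixes some Sylow p-subgroup of G elementwise. Then α is the identity. -/
theorem result {G : Type*} [Group G] [Finite G] [IsSimpleGroup G] (p : ℕ) [Fact p.Prime] (hG : Cfsg.IsLieTypeChar p G) (α : MulAut G) (hα : ¬ p ∣ orderOf α) (U : Sylow p G) (hfix : ∀ x ∈ (U : Subgroup G), α x = x) : α = 1 := by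
  obtain ⟨L⟩ := Cfsg.Lib.St.nonempty_lieP hG
  obtain ⟨g, hg⟩ := L.S.exists_conj_sylow U
  have h := L.eq_one_of_fix (Cfsg.Lib.St.center_eq_bot_of_lie hG) L.normalCore_B
    (α := MulAut.conj g * α * (MulAut.conj g)⁻¹) (by
      rwa [← (SemiconjBy.orderOf_eq (MulAut.conj g) (x := α) (by simp [SemiconjBy]))]) fun u hu => by
      have := hfix _ ((hg u).1 hu)
      simp only [MulAut.mul_apply, MulAut.conj_inv_apply, MulAut.conj_apply, this]
      group
  simpa [mul_inv_eq_one] using h

end Cfsg.Agent.S4613
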