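import Cfsg.Statements.S4624
import Cfsg.Agent.Lib.Wr.SL

set_option autoImplicit false
open Cfsg

namespace Cfsg.Agent.S4624

open Cfsg.Lib.Wr

/-- Let F be a finite field of odd order and n ≥ 1. A Sylow 2-subgroup P of the symplectic group Sp_{2n}(F) has P/P' elementary abelian: the square of every element of P lies in the derived subgroup of P. -/
theorem result {F : Type*} [Field F] [Fintype F] (hF : Odd (Fintype.card F)) (n : ℕ) (hn : 1 ≤ n) (P : Sylow 2 (Matrix.symplecticGroup (Fin n) F)) :
    ∀ x : (P : Subgroup (Matrix.symplecticGroup (Fin n) F)), x ^ 2 ∈ commutator (P : Subgroup (Matrix.symplecticGroup (Fin n) F)) := by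
  exact (sylEA_sp (by rwa [Nat.card_eq_fintype_card]) n).pow_mem P

end Cfsg.Agent.S4624
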