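import Cfsg.Statements.S4632
import Cfsg.Agent.Lib.Oct.SU3
import Cfsg.Agent.Lib.Oct.Chev
import Cfsg.Agent.Lib.PGroup.Basic

set_option autoImplicit false
open Cfsg

namespace Cfsg.Agent.S4632

open Cfsg.Lib Cfsg.Lib.Oct Cfsg.Lie Matrix Subgroup
open scoped MatrixGroups commutatorElement

/-- Squares lie in the derived subgroup. -/
def Sq {G : Type*} [Group G] (H : Subgroup G) : Prop := ∀ x ∈ H, x ^ 2 ∈ ⁅H, H⁆

theorem sq_map {G G' : Type*} [Group G] [Group G'] {f : G →* G'} (hf : Function.Injective f) {H : Subgroup G} :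
    Sq (H.map f) ↔ Sq H := by
  rw [Sq, ← map_commutator]
  exact ⟨fun h x hx => (mem_map_iff_mem hf).1 (map_pow f x 2 ▸ h _ ⟨x, hx, rfl⟩), by
    rintro h _ ⟨x, hx, rfl⟩; exact ⟨_, h x hx, map_pow f x 2⟩⟩

/-- The elements of `H` with square in `H'`. -/
def sqs {G : Type*} [Group G] (H : Subgroup G) : Subgroup G where
  carrier := {x | x ∈ H ∧ x ^ 2 ∈ ⁅H, H⁆}
  one_mem' := ⟨H.one_mem, by simp⟩
  mul_mem' {x y} hx hy := ⟨H.mul_mem hx.1 hy.1, by
    convert mul_mem (mul_mem hx.2 (commutator_mem_commutator (H.inv_mem hx.1) hy.1)) hy.2 using 1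
    simp [commutatorElement_def, sq, mul_assoc]⟩
  inv_mem' hx := ⟨H.inv_mem hx.1, by simpa using hx.2⟩

variable {K : Type*} [Field K]

/-- The diagonal torus. -/
def tor : Kˣ × Kˣ →* SL(3, K) := MonoidHom.mk'
  (fun a => ⟨diagonal ![a.1, a.2, (a.1 * a.2)⁻¹], by simp [Fin.prod_univ_three, ← mul_assoc]⟩) fun a b =>
    Subtype.ext (by
      refine .trans ?_ (diagonal_mul_diagonal _ _).symm
      ext i j; fin_cases i <;> fin_cases j <;> simp [mul_comm, mul_left_comm, mul_assoc])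

theorem coe_tor (a : Kˣ × Kˣ) : (tor a).1 = diagonal ![a.1.1, a.2, (a.1 * a.2)⁻¹] := rfl

theorem ctr_tor (a : Kˣ × Kˣ) : ctr (tor a) = (tor a)⁻¹ :=
  ctr_eq_iff.2 (by rw [coe_tor, diagonal_transpose]; exact Linear.SL_coe_mul_inv (tor a))

variable (K) in
/-- A reflection. -/
def tau : SL(3, K) := ⟨!![0, -1, 0; -1, 0, 0; 0, 0, -1], by simp [det_fin_three]⟩

theorem tau_sq : tau K * tau K = 1 := Subtype.ext (show (tau K).1 * (tau K).1 = 1 by simp [tau, one_fin_three])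

theorem ctr_tau : ctr (tau K) = tau K := ctr_eq_iff.2 (by
  ext i j; fin_cases i <;> fin_cases j <;> simp [tau, mul_apply, Fin.sum_univ_three])

theorem tau_tor (a : Kˣ × Kˣ) : tau K * tor a * (tau K)⁻¹ = tor a.swap := by
  rw [mul_inv_eq_iff_eq_mul]
  refine Subtype.ext (show (tau K).1 * (tor a).1 = (tor a.swap).1 * (tau K).1 from ?_)
  ext i j; fin_cases i <;> fin_cases j <;> simp [tau, coe_tor, mul_comm]

theorem exists_sq [Finite K] (μ : Subgroup Kˣ) : ∃ Q : Subgroup (G2 K), Sq Q ∧ Nat.card Q = 4 * Nat.card μ ^ 2 ∧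
    ∀ σ : K →+* K, (∀ a ∈ μ, σ a.1 = (a.1)⁻¹) → Q ≤ tw σ := by
  have := Fact.mk Nat.prime_two
  let T := (μ.prod μ).map tor
  let H := T ⊔ zpowers (tau K)
  have h1 : H ≤ H.comap ctr := sup_le (by
    rintro _ ⟨a, ha, rfl⟩; exact mem_comap.2 (ctr_tor a ▸ mem_sup_left (inv_mem ⟨a, ha, rfl⟩)))
    (zpowers_le_of_mem (by rw [mem_comap, ctr_tau]; exact mem_sup_right (mem_zpowers _)))
  refine ⟨H.map sl ⊔ zpowers (w0 K), fun x hx => (?_ : _ ≤ sqs _) hx |>.2, ?_, fun σ h => ?_⟩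
  · refine sup_le (map_le_iff_le_comap.2 (sup_le ?_ (zpowers_le_of_mem ⟨mem_sup_left ⟨_, mem_sup_right
      (mem_zpowers _), rfl⟩, by rw [← map_pow, sq, tau_sq, map_one]; exact one_mem _⟩)))
      (zpowers_le_of_mem ⟨mem_sup_right (mem_zpowers _), by simp [sq]⟩)
    rintro _ ⟨a, ha, rfl⟩
    have h2 : sl (tor a) ∈ H.map sl ⊔ zpowers (w0 K) := mem_sup_left ⟨_, mem_sup_left ⟨a, ha, rfl⟩, rfl⟩
    refine ⟨h2, ?_⟩
    convert commutator_mem_commutator h2 (mem_sup_right (mem_zpowers (w0 K))) using 1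
    rw [commutatorElement_def, w0_inv, mul_assoc, mul_assoc, ← mul_assoc (w0 K), ← map_inv, w0_conj_sl, map_inv,
      ctr_tor, inv_inv, sq]
  · rw [PGroup.card_sup_zpowers (p := 2) (mem_normalizer_fintype ?_) ?_ (by simp [sq]),
      card_map_of_injective sl_injective, PGroup.card_sup_zpowers (p := 2) (mem_normalizer_fintype ?_) ?_
      (by simp [sq, tau_sq]), card_map_of_injective ?_, Nat.card_congr (μ.prodEquiv μ).toEquiv, Nat.card_prod]
    · ring
    · exact fun a b h => Prod.ext (Units.ext (congrArg (·.1 0 0) h)) (Units.ext (congrArg (·.1 1 1) h))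
    · rintro _ ⟨a, ha, rfl⟩
      exact ⟨a.swap, ⟨ha.2, ha.1⟩, (tau_tor a).symm⟩
    · rintro ⟨a, -, h⟩
      simpa [tau, coe_tor] using congrArg (·.1 0 0) h
    · rintro _ ⟨A, hA, rfl⟩
      exact ⟨_, h1 hA, by rw [w0_inv, w0_conj_sl]⟩
    · rintro ⟨A, -, h⟩
      exact e0_ne_e7 (F := K) (by rw [← w0_smul_e0, ← h, sl_smul_e0])
  · refine sup_le (map_le_iff_le_comap.2 (sup_le ?_ (zpowers_le_of_mem (sl_mem_tw.2 ?_))))
      (zpowers_le_of_mem w0_mem_tw)
    · rintro _ ⟨a, ha, rfl⟩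
      refine sl_mem_tw.2 (Subtype.ext ?_)
      rw [ctr_tor, ← map_inv, coe_tor]
      ext i j; fin_cases i <;> fin_cases j <;> simp [coe_tor, h _ ha.1, h _ ha.2]
    · refine (Subtype.ext (show (tau K).1.map σ = (tau K).1 from ?_)).trans ctr_tau.symm
      ext i j; fin_cases i <;> fin_cases j <;> simp [tau]

theorem exists_card {K : Type*} [Field K] [Finite K] {m : ℕ} (h : m ∣ Nat.card K - 1) :
    ∃ μ : Subgroup Kˣ, Nat.card μ = m := by
  obtain ⟨a, ha, ho⟩ := GLC.exists_orderOf_eq h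
  exact ⟨zpowers (.mk0 a ha), by rw [Nat.card_zpowers, ← orderOf_units, Units.val_mk0, ho]⟩

/-- Let F be a finite field of odd order and G₂(F) the automorphism group of the split octonion algebra over F (realized on F⁸ with the Zorn vector-matrix multiplication). A Sylow 2-subgroup P of G₂(F) has P/P' elementary abelian: the square of every element of P lies in the derived subgroup of P. -/
theorem result {F : Type*} [Field F] [Fintype F] (hF : Odd (Fintype.card F)) (P : Sylow 2 (Cfsg.Lie.G2 F)) : ∀ x : (P : Subgroup (Cfsg.Lie.G2 F)), x ^ 2 ∈ commutator (P : Subgroup (Cfsg.Lie.G2 F)) := by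
  have := Fact.mk Nat.prime_two
  obtain ⟨r, hr⟩ := hF
  rw [← Nat.card_eq_fintype_card] at hr
  have h0 : r ≠ 0 := by have := Finite.one_lt_card (α := F); omega
  obtain ⟨Q, k, l, h1, h2, h3, h4⟩ : ∃ (Q : Subgroup (G2 F)) (k l : ℕ), Sq Q ∧ Nat.card Q = 4 * (2 ^ k) ^ 2 ∧
      Odd l ∧ Nat.card F ^ 2 - 1 = 2 * 2 ^ k * l := by
    have e : Nat.card F ^ 2 - 1 = 2 * r * (2 * (r + 1)) := by rw [hr]; exact Nat.sub_eq_of_eq_add (by ring)
    rcases r.even_or_odd with h | h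
    · obtain ⟨k, l, hl, e1⟩ := Nat.exists_eq_two_pow_mul_odd (n := 2 * r) (by omega)
      obtain ⟨μ, hμ⟩ := exists_card (K := F) (m := 2 ^ k) ⟨l, by omega⟩
      obtain ⟨Q, h1, h2, -⟩ := exists_sq μ
      exact ⟨Q, k, l * (r + 1), h1, hμ ▸ h2, hl.mul h.add_one, by rw [e, e1]; ring⟩
    · obtain ⟨k, l, hl, e1⟩ := Nat.exists_eq_two_pow_mul_odd (n := 2 * (r + 1)) (by omega)
      obtain ⟨E, _, σ, hσ, ι, hι, h5⟩ := exists_emb F
      have := hσ.finite
      obtain ⟨μ, hμ⟩ := exists_card (K := E) (m := 2 ^ k) ⟨2 * r * l, by rw [hσ.card, e, e1]; ring⟩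
      obtain ⟨Q, h1, h2, h3⟩ := exists_sq μ
      have h4 := map_comap_eq_self ((h3 σ fun a ha => eq_inv_of_mul_eq_one_right (by
        have := congrArg (·.1.1) (pow_card_eq_one' (x := (⟨a, ha⟩ : μ)))
        rw [hσ.norm_eq, hr, show 2 * r + 1 + 1 = 2 ^ k * l from e1, pow_mul, ← hμ]
        exact (congrArg (· ^ l) this).trans (one_pow l))).trans h5.ge)
      exact ⟨Q.comap ι, k, r * l, (sq_map hι).1 (h4.symm ▸ h1), by
        rw [← card_map_of_injective hι, h4, h2, hμ], h.mul hl, by rw [e, e1]; ring⟩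
  have h5 : Nat.card F ^ 6 - 1 = (Nat.card F ^ 2 - 1) * (2 * (8 * r ^ 4 + 16 * r ^ 3 + 14 * r ^ 2 + 6 * r + 1) + 1) := by
    rw [hr, show (2 * r + 1) ^ 2 - 1 = 4 * r * (r + 1) from Nat.sub_eq_of_eq_add (by ring)]
    exact Nat.sub_eq_of_eq_add (by ring)
  have h6 := Q.card_mul_index
  rw [card_G2, h5, h4, h2] at h6
  generalize 8 * r ^ 4 + 16 * r ^ 3 + 14 * r ^ 2 + 6 * r + 1 = s at h6
  have h7 : Odd Q.index := by
    rw [Nat.eq_of_mul_eq_mul_left (m := Q.index) (k := Nat.card F ^ 6 * l * l * (2 * s + 1)) (by positivity) (h6.trans (by ring))]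
    exact (((hr ▸ odd_two_mul_add_one r).pow.mul h3).mul h3).mul (odd_two_mul_add_one _)
  obtain ⟨g, hg⟩ := MulAction.exists_smul_eq (G2 F) ((IsPGroup.of_card (n := 2 + k * 2)
    (h2.trans (by ring))).toSylow h7.not_two_dvd_nat) P
  have h8 : Sq (P : Subgroup (G2 F)) := hg ▸ (sq_map (MulAut.conj g).injective).2 h1
  exact fun x => (mem_map_iff_mem (subtype_injective _)).1 ((map_subtype_commutator _).ge (h8 x x.2))

end Cfsg.Agent.S4632
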