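import Cfsg.Statements.S4741
import Cfsg.Agent.Lib.Modular.Robinson

set_option autoImplicit false
open Cfsg

namespace Cfsg.Agent.S4741

open Cfsg.Lib.Block Cfsg.Lib.Char Cfsg.Lib.Modular
open scoped ComplexConjugate

/-- Let p be a prime, M a maximal ideal of the algebraic integers containing p, and D a subgroup of the finite group G. Let x₁, …, x_r be pairwise non-conjugate elements of G such that D is a Sylow p-subgroup of the centralizer of each xᵢ, and such that for any conjugates g of some xᵢ and h of some xⱼ the element g h⁻¹ is never a non-identity p-element. Then there are r distinct p-blocks B₁, …, B_r of G, each having D as a defect group, such that for every choice of characters χᵢ ∈ Bᵢ of height zero the determinant of the r × r matrix (χᵢ(xⱼ)) does not lie in the local ideal at M. -/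
theorem result {G : Type*} [Group G] [Finite G] (p : ℕ) [Fact p.Prime] (M : Ideal Cfsg.AlgInt) (hM : Cfsg.IsPModular p M) (D : Subgroup G) {r : ℕ} (x : Fin r → G) (hx : ∀ i j : Fin r, IsConj (x i) (x j) → i = j) (hD : ∀ i : Fin r, ∃ S : Sylow p ↥(Subgroup.centralizer ({x i} : Set G)), (S : Subgroup ↥(Subgroup.centralizer ({x i} : Set G))).map (Subgroup.centralizer ({x i} : Set G)).subtype = D) (hsep : ∀ i j : Fin r, ∀ g h : G, IsConj (x i) g → IsConj (x j) h → ∀ k : ℕ, 0 < k → orderOf (g * h⁻¹) ≠ p ^ k) : ∃ B : Fin r → Set (Cfsg.IrrCharacter G), Function.Injective B ∧ (∀ i : Fin r, Cfsg.IsPBlock M (B i) ∧ Cfsg.IsDefectGroup p M (B i) D) ∧ ∀ χ : Fin r → Cfsg.IrrCharacter G, (∀ i : Fin r, χ i ∈ B i ∧ Cfsg.blockHeight p (B i) (χ i : G → ℂ) = 0) → ¬ Cfsg.MemLocalIdeal M (Matrix.det (Matrix.of fun i j : Fin r => (χ i : G → ℂ) (x j))) := by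
  classical
  have : Modular p M := ⟨hM⟩
  have := Fintype.ofFinite G
  obtain ⟨B, h1, h2, h3⟩ := exists_blocks_of_sep (M := M) hx (fun i => sylC_iff.2 (hD i))
    (fun i j g hg k hk => by
      rcases Nat.eq_zero_or_pos k with rfl | h
      · exact mul_inv_eq_one.1 (orderOf_eq_one_iff.1 hk)
      · exact (hsep j i g (x i) hg (IsConj.refl _) k h hk).elim)
  exact ⟨fun i => (B i).1, Subtype.val_injective.comp h1, fun i => ⟨(B i).2, h2 i⟩,
    fun χ hχ => det_notMem_of_det_lam (fun i => sylC_iff.2 (hD i)) h2 h3 hχ⟩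

end Cfsg.Agent.S4741
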