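import Cfsg.Statements.S4743
import Cfsg.Agent.S4742

set_option autoImplicit false
open Cfsg

namespace Cfsg.Agent.S4743

open Cfsg.Lib.Inv

theorem dvd_of_normal {G : Type*} [Group G] [Finite G] {p q : ℕ} [Fact p.Prime] [Fact q.Prime]
    (h : ∀ z : G, z ≠ 1 → (∃ k : ℕ, orderOf z = q ^ k) → ∃ g h : G, IsConj z g ∧ IsConj z h ∧
      g * h⁻¹ ≠ 1 ∧ ∃ k : ℕ, orderOf (g * h⁻¹) = p ^ k) (N : Subgroup G) [hN : N.Normal]
    (hq : q ∣ Nat.card N) : p ∣ Nat.card N := by
  obtain ⟨z, hz⟩ := exists_prime_orderOf_dvd_card' q hq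
  rw [← Subgroup.orderOf_coe] at hz
  obtain ⟨g, g', hg, hg', h1, k, hk⟩ := h z (fun e => by
    rw [e, orderOf_one] at hz
    exact (Fact.out : q.Prime).one_lt.ne hz) ⟨1, by rw [hz, pow_one]⟩
  obtain ⟨a, rfl⟩ := isConj_iff.1 hg
  obtain ⟨b, rfl⟩ := isConj_iff.1 hg'
  refine dvd_trans ?_ (Subgroup.orderOf_dvd_natCard N
    (N.mul_mem (hN.conj_mem _ z.2 a) (N.inv_mem (hN.conj_mem _ z.2 b))))
  rw [hk]
  refine dvd_pow_self p ?_
  rintro rfl
  exact h1 (orderOf_eq_one_iff.1 hk)

theorem not_dvd_of_isPSolvable {G : Type*} [Group G] [Finite G] {p q : ℕ} [hp : Fact p.Prime]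
    [hq : Fact q.Prime] (hpq : p ≠ q)
    (h : ∀ (N : Subgroup G) [N.Normal], p ∣ Nat.card N ↔ q ∣ Nat.card N) (hs : IsPSolvable p G) :
    ¬ p ∣ Nat.card G := by
  obtain ⟨n, H, h0, h1, hm, hn, hi⟩ := hs
  have : ∀ i, ¬ p ∣ Nat.card (H i) := fun i => by
    induction i using Fin.induction with
    | zero => rw [h0, Subgroup.card_bot]; exact hp.out.not_dvd_one
    | succ i ih =>
      have e := Lib.Core.card_mul_relIndex (hm i.castSucc_le_succ)
      have := hn i.succ
      have := hn i.castSucc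
      rcases hi i with ⟨m, hm'⟩ | hc
      · rw [h, ← e, hm', hq.out.dvd_mul, ← h]
        rintro (h2 | h2)
        · exact ih h2
        · exact hpq ((Nat.prime_dvd_prime_iff_eq hq.out hp.out).1 (hq.out.dvd_of_dvd_pow h2)).symm
      · rw [← e, hp.out.dvd_mul]
        rintro (h2 | h2)
        · exact ih h2
        · exact Lib.Core.coprime_iff_not_dvd.1 hc h2
  simpa [h1] using this (Fin.last n)

/-- Let p ≠ q be primes dividing the order of the finite group G, suppose the centralizer of every non-identity p-element has order prime to q, and suppose G is p-solvable or q-solvable. Then G has an irreducible character of p-defect zero or an irreducible character of q-defect zero. -/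
theorem result {G : Type*} [Group G] [Finite G] (p q : ℕ) [Fact p.Prime] [Fact q.Prime] (hppq : p ≠ q) (hpG : p ∣ Nat.card G) (hqG : q ∣ Nat.card G) (hC : ∀ g : G, g ≠ 1 → (∃ k : ℕ, orderOf g = p ^ k) → ¬ q ∣ Nat.card ↥(Subgroup.centralizer ({g} : Set G))) (hsolv : Cfsg.IsPSolvable p G ∨ Cfsg.IsPSolvable q G) : (∃ χ : Cfsg.IrrCharacter G, (Cfsg.charDegree (χ : G → ℂ)).factorization p = (Nat.card G).factorization p) ∨ (∃ χ : Cfsg.IrrCharacter G, (Cfsg.charDegree (χ : G → ℂ)).factorization q = (Nat.card G).factorization q) := by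
  refine or_iff_not_imp_left.2 fun h1 => by_contra fun h2 => ?_
  have hC' : ∀ g : G, g ≠ 1 → (∃ k : ℕ, orderOf g = q ^ k) →
      ¬ p ∣ Nat.card ↥(Subgroup.centralizer ({g} : Set G)) := fun z hz ⟨k, hk⟩ hd => by
    obtain ⟨g, hg⟩ := exists_prime_orderOf_dvd_card' p hd
    rw [← Subgroup.orderOf_coe] at hg
    refine hC g (fun h1 => ?_) ⟨1, by rw [hg, pow_one]⟩ ?_
    · rw [h1, orderOf_one] at hg
      exact (Fact.out : p.Prime).one_lt.ne hg
    · have hz' : z ∈ Subgroup.centralizer ({(g : G)} : Set G) :=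
        Subgroup.mem_centralizer_singleton_iff.2 (Subgroup.mem_centralizer_singleton_iff.1 g.2).symm
      refine dvd_trans ?_ (Subgroup.orderOf_dvd_natCard _ hz')
      rw [hk]
      refine dvd_pow_self q ?_
      rintro rfl
      exact hz (orderOf_eq_one_iff.1 hk)
  have ha := (S4742.result p q hppq hpG hqG hC).resolve_left h1
  have hb := (S4742.result q p hppq.symm hqG hpG hC').resolve_left h2
  rcases hsolv with hs | hs
  · exact not_dvd_of_isPSolvable hppq (fun N _ => ⟨dvd_of_normal hb N, dvd_of_normal ha N⟩) hs hpG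
  · exact not_dvd_of_isPSolvable hppq.symm
      (fun N _ => ⟨dvd_of_normal ha N, dvd_of_normal hb N⟩) hs hqG

end Cfsg.Agent.S4743
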