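import Cfsg.Statements.S4744
import Cfsg.Agent.Lib.Modular.Wada

set_option autoImplicit false
open Cfsg

namespace Cfsg.Agent.S4744

open Cfsg.Lib.Block Cfsg.Lib.Char Cfsg.Lib.Modular Cfsg.Lib.Inv Cfsg.Lib.Induce
open scoped ComplexConjugate

/-- Let p be an odd prime and G a finite group of even order divisible by p in which the centralizer of every non-identity p-element has odd order. Then either G has an irreducible character of p-defect zero, or the normalizer of every Sylow p-subgroup P of G has even order and P is abelian. -/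
theorem result {G : Type*} [Group G] [Finite G] (p : ℕ) [Fact p.Prime] (hp2 : p ≠ 2) (hpG : p ∣ Nat.card G) (h2G : 2 ∣ Nat.card G) (hC : ∀ g : G, g ≠ 1 → (∃ k : ℕ, orderOf g = p ^ k) → Odd (Nat.card ↥(Subgroup.centralizer ({g} : Set G)))) : (∃ χ : Cfsg.IrrCharacter G, (Cfsg.charDegree (χ : G → ℂ)).factorization p = (Nat.card G).factorization p) ∨ ∀ P : Sylow p G, Even (Nat.card ↥(Subgroup.normalizer ((P : Subgroup G) : Set G))) ∧ IsMulCommutative ↥(P : Subgroup G) := by
  refine or_iff_not_imp_left.2 fun hno P => ?_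
  have h := noTwoP_of_odd hC
  obtain ⟨t, ht⟩ := exists_involution_of_even (even_iff_two_dvd.2 h2G)
  obtain ⟨t', h0, h1⟩ := h.exists_conj_inverts hp2 hno ht P
  refine ⟨even_card_of_involution_mem ((orderOf_eq_of_isConj h0).symm.trans ht)
    (Lib.Transfer.mem_normalizer_of_conj_le (Lib.Transfer.conj_le_iff.2 fun u hu => ?_)),
    comm_of_inverts h1⟩
  rw [h1 u hu]
  exact inv_mem hu

end Cfsg.Agent.S4744
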