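import Cfsg.Statements.S4746
import Cfsg.Agent.Lib.Modular.Wada

set_option autoImplicit false
open Cfsg

namespace Cfsg.Agent.S4746

open Cfsg.Lib.Block Cfsg.Lib.Char Cfsg.Lib.Modular Cfsg.Lib.Inv Cfsg.Lib.Induce
open scoped ComplexConjugate

/-- Let p be an odd prime and G a finite group of even order divisible by p in which the centralizer of every non-identity p-element has odd order. Then G has an irreducible character of p-defect zero or an irreducible character of even degree. -/
theorem result {G : Type*} [Group G] [Finite G] (p : ℕ) [Fact p.Prime] (hp2 : p ≠ 2) (hpG : p ∣ Nat.card G) (h2G : 2 ∣ Nat.card G) (hC : ∀ g : G, g ≠ 1 → (∃ k : ℕ, orderOf g = p ^ k) → Odd (Nat.card ↥(Subgroup.centralizer ({g} : Set G)))) : (∃ χ : Cfsg.IrrCharacter G, (Cfsg.charDegree (χ : G → ℂ)).factorization p = (Nat.card G).factorization p) ∨ ∃ χ : Cfsg.IrrCharacter G, Even (Cfsg.charDegree (χ : G → ℂ)) := by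
  refine or_iff_not_imp_left.2 fun hno => ?_
  have h := noTwoP_of_odd hC
  obtain ⟨t, ht⟩ := exists_involution_of_even (even_iff_two_dvd.2 h2G)
  obtain ⟨s, h1, ⟨k, h2⟩, h3⟩ := h.exists_inverted hno ht
  exact exists_even_degree h1 (isConj_iff.2 ⟨t, h3⟩) (h.odd_centralizer h1 h2)

end Cfsg.Agent.S4746
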