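import Cfsg.Statements.S4748
import Cfsg.Agent.Lib.OddChar.TISylow
import Cfsg.Agent.Lib.Core.PSolvable
import Cfsg.Agent.Lib.Char.Product

set_option autoImplicit false
open scoped Pointwise
open Cfsg

namespace Cfsg.Agent.S4748

open Cfsg.Lib.Char Cfsg.Lib.OddChar Cfsg.Lib.Core

/-- Let G be a finite p-solvable group whose Sylow p-subgroup P meets each conjugate g P g⁻¹ with g outside N_G(P) trivially, and let χ be a faithful character of G (χ g = χ 1 only for g = 1) whose degree d satisfies d² ≤ |P|. Then P is normal in G. -/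
theorem result {G : Type*} [Group G] [Finite G] (p : ℕ) [Fact p.Prime] (hsolv : Cfsg.IsPSolvable p G) (P : Sylow p G) (hTI : ∀ g : G, g ∉ Subgroup.normalizer ((P : Subgroup G) : Set G) → (P : Subgroup G) ⊓ (MulAut.conj g • (P : Subgroup G)) = ⊥) (χ : G → ℂ) (hχ : Cfsg.IsCharacter G χ) (hfaith : ∀ g : G, χ g = χ 1 → g = 1) (hdeg : Cfsg.charDegree χ ^ 2 ≤ Nat.card ↥(P : Subgroup G)) : (P : Subgroup G).Normal := by
  classical
  by_contra hPn
  obtain ⟨g₀, hg₀⟩ : ∃ g, g ∉ Subgroup.normalizer ((P : Subgroup G) : Set G) := by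
    by_contra hh
    push Not at hh
    exact hPn (Subgroup.normalizer_eq_top_iff.1 (top_le_iff.1 fun g _ => hh g))
  have hO : pCore p G = ⊥ := by
    rw [eq_bot_iff, ← hTI g₀ hg₀]
    exact le_inf (pCore_le_sylow P) (pCore_le_sylow (g₀ • P))
  have hCK := centralizer_pPrimeCore_le_of_isPSolvable hsolv hO
  have hKP : ∀ y ∈ pPrimeCore p G, y ∈ (P : Subgroup G) → y = 1 := by
    intro y h1 h2
    obtain ⟨k, hk⟩ := P.2 ⟨y, h2⟩
    have hk' : y ^ p ^ k = 1 := congrArg Subtype.val hk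
    exact orderOf_eq_one_iff.1 (Nat.eq_one_of_dvd_coprimes ((pPrimeCore_coprime p G).pow_right k)
      (Subgroup.orderOf_dvd_natCard _ h1) (orderOf_dvd_of_pow_eq_one hk'))
  haveI : Nontrivial P := by
    rw [← not_subsingleton_iff_nontrivial]
    intro hs
    exact hPn (by rw [Subgroup.eq_bot_of_subsingleton (P : Subgroup G)]; infer_instance)
  obtain ⟨⟨z, hzc⟩, hz1⟩ := @exists_ne _ (IsPGroup.center_nontrivial P.2) 1
  generalize hK : pPrimeCore p G = K at hCK hKP
  haveI : K.Normal := hK ▸ inferInstance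
  let L : Subgroup G := K ⊔ P
  letI := Fintype.ofFinite L
  have hPL : (P : Subgroup G) ≤ L := le_sup_right
  let N := (Subgroup.normalizer ((P : Subgroup G) : Set G)).subgroupOf L
  let z' : N := ⟨⟨z, hPL z.2⟩, Subgroup.le_normalizer z.2⟩
  have hz' : z' ∈ Subgroup.center N := by
    refine Subgroup.mem_center_iff.2 fun n => Subtype.ext (Subtype.ext ?_)
    obtain ⟨k, hk, y, hy, e⟩ := Subgroup.mem_sup_of_normal_left.1 n.1.2
    have hkN : k ∈ Subgroup.normalizer ((P : Subgroup G) : Set G) := by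
      have h1 : k * y ∈ Subgroup.normalizer ((P : Subgroup G) : Set G) := e ▸ n.2
      simpa using mul_mem h1 (inv_mem (Subgroup.le_normalizer hy))
    have h1 : k * z * k⁻¹ * (z : G)⁻¹ = 1 := hKP _ (by
      simpa [mul_assoc] using mul_mem hk ((inferInstance : K.Normal).conj_mem _ (inv_mem hk) z))
      (mul_mem ((hkN z).1 z.2) (inv_mem z.2))
    have h2 : y * z = z * y := congrArg Subtype.val (Subgroup.mem_center_iff.1 hzc ⟨y, hy⟩)
    change (n.1 : G) * z = z * n.1
    rw [← e, mul_assoc, h2, ← mul_assoc, ← mul_assoc, mul_left_inj]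
    rw [mul_inv_eq_one, mul_inv_eq_iff_eq_mul] at h1
    exact h1
  have hχL := hχ.restrict L
  have key : ∀ ψ : IrrCharacter L, mlt (fun k : L => χ k) ψ ≠ 0 → (z' : L) ∈ charCenter (ψ : L → ℂ) := by
    intro ψ hψ
    have hle : charDegree (ψ : L → ℂ) ≤ charDegree χ :=
      hχL.degree_le_of_constituent ψ.2 ((mlt_ne_zero_iff hχL.isGeneralizedCharacter).1 hψ) ψ.2.apply_one_eq
        hχ.apply_one_eq
    have h1 := inner_res_eq_of_ti (p := p) (P := (P : Subgroup G).subgroupOf L) (N := N) (H := N) (P.subtype hPL).2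
      (fun y hy => Subgroup.le_normalizer hy)
      (fun y hy g hg hyg => Subtype.ext (free_of_ti_sylow P hTI y hy g hg hyg)) le_rfl ψ.2.isCharacter (by
        rw [Nat.card_congr (Subgroup.subgroupOfEquivOfLe hPL).toEquiv]; nlinarith)
    have hirr := (ψ.2.isCharacter.restrict N).isIrrCharacter_of_inner_self (h1 ▸ ψ.2.inner_self)
    exact ψ.2.isCharacter.mem_charCenter_iff.2 (hirr.isCharacter.mem_charCenter_iff.1 (hirr.center_le_charCenter hz'))
  refine hz1 (Subtype.ext (Subtype.ext (hKP z (hCK fun k hk => ?_) z.2)))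
  let k' : L := ⟨k, (le_sup_left : K ≤ L) hk⟩
  have : (z' : L) * k' * (z' : L)⁻¹ * k'⁻¹ = 1 := by
    refine Subtype.ext (hfaith _ ?_)
    have e1 := apply_eq_sum_mlt hχL.isGeneralizedCharacter ((z' : L) * k' * (z' : L)⁻¹ * k'⁻¹)
    have e2 := apply_eq_sum_mlt hχL.isGeneralizedCharacter 1
    refine e1.trans (Eq.trans (Finset.sum_congr rfl fun ψ _ => ?_) e2.symm)
    by_cases hψ : mlt (fun k : L => χ k) ψ = 0
    · simp [hψ]
    rw [ψ.2.isCharacter.mem_charKer_iff.1 (ψ.2.isCharacter.commutator_mem_charKer (key ψ hψ) k')]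
  rw [mul_inv_eq_one, mul_inv_eq_iff_eq_mul] at this
  exact (congrArg Subtype.val this).symm

end Cfsg.Agent.S4748
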