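import Cfsg.Statements.S4752
import Cfsg.Agent.Lib.B27.Fus
import Cfsg.Agent.Lib.Transfer.Tate

set_option autoImplicit false
open Cfsg

namespace Cfsg.Agent.S4752

open Finset Subgroup Cfsg.Lib Cfsg.Lib.B27 Cfsg.Lib.Char Cfsg.Lib.Block Cfsg.Lib.Modular Cfsg.Lib.Transfer
open scoped commutatorElement

/-- Let G be a finite group whose Sylow 3-subgroup P is extraspecial of order 27 and exponent 3, with N_G(P) ≤ C_G(Z(P)), and let M be a maximal ideal of the algebraic integers containing 3, B the principal 3-block of G, k its number of irreducible characters, k₀ the number of those of height zero, l its 3-regular rank (number of irreducible Brauer characters), and e the index of P·C_G(P) in N_G(P) (the order of the inertial quotient). Then e = 1 gives (k, k₀, l) = (11, 9, 1); e = 2 gives (10, 6, 2); e = 4 gives (14, 6, 4); e = 8 gives (16, 6, 5). -/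
theorem result {G : Type*} [Group G] [Finite G] (P : Sylow 3 G) (hE : Cfsg.IsExtraspecial 3 ↥(P : Subgroup G)) (h27 : Nat.card ↥(P : Subgroup G) = 27) (hexp : ∀ x ∈ (P : Subgroup G), x ^ 3 = 1) (hNC : ∀ g ∈ Subgroup.normalizer ((P : Subgroup G) : Set G), ∀ z ∈ (P : Subgroup G), (∀ y ∈ (P : Subgroup G), z * y = y * z) → g * z = z * g) (M : Ideal Cfsg.AlgInt) (hM : Cfsg.IsPModular 3 M) (k k₀ l e : ℕ) (hk : Nat.card ↥(Cfsg.principalBlock M G) = k) (hk₀ : Nat.card {χ : Cfsg.IrrCharacter G // χ ∈ Cfsg.principalBlock M G ∧ Cfsg.blockHeight 3 (Cfsg.principalBlock M G) (χ : G → ℂ) = 0} = k₀) (hl : Cfsg.blockRank 3 (Cfsg.principalBlock M G) = l) (he : ((P : Subgroup G) ⊔ Subgroup.centralizer ((P : Subgroup G) : Set G)).relIndex (Subgroup.normalizer ((P : Subgroup G) : Set G)) = e) : (e = 1 → k = 11 ∧ k₀ = 9 ∧ l = 1) ∧ (e = 2 → k = 10 ∧ k₀ = 6 ∧ l = 2) ∧ (e = 4 → k = 14 ∧ k₀ = 6 ∧ l = 4) ∧ (e = 8 → k = 16 ∧ k₀ = 6 ∧ l = 5) := by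
  classical
  have : Modular 3 M := ⟨hM⟩
  have := Fintype.ofFinite G
  obtain ⟨z, hz⟩ := isCyclic_iff_exists_zpowers_eq_top.1 (isCyclic_of_prime_card hE.2)
  have a : ∀ {x : P}, x ∈ center P → x.1 ∈ zpowers z.1.1 := fun {x} b => by
    obtain ⟨k, e⟩ := hz.ge (mem_top (⟨x, b⟩ : center P))
    exact ⟨k, congrArg (·.1.1) e⟩
  have h : Es (P : Subgroup G) z.1.1 := ⟨h27, P.not_dvd_index, hexp, z.1.2, fun e => by
      have := hE.2
      rw [← card_top, ← hz, show z = 1 from Subtype.ext (Subtype.ext e)] at this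
      simp at this, fun x b c => a (x := ⟨x, b⟩) (mem_center_iff.2 fun y => Subtype.ext (c y y.2)),
    fun x b y c => a (x := ⁅(⟨x, b⟩ : P), ⟨y, c⟩⁆) (hE.1.2.2 ▸ commutator_mem_commutator (mem_top _) (mem_top _)),
    fun g b => hNC g b _ z.1.2 fun y c => congrArg Subtype.val (mem_center_iff.1 z.2 ⟨y, c⟩).symm⟩
  obtain ⟨U, b, c, d⟩ := h.exists_hyp
  have f := b.card_eq (M := M)
  have k1 : k = #(K G M) := hk ▸ card_eq_card_filter _
  have k2 : k₀ = #(K0 G M) := by rw [← hk₀, ← Nat.card_eq_finsetCard]; simp only [mem_filter, mem_univ, true_and]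
  rw [← k1, hl] at f
  rw [ii, he] at c
  have key : 2 ∣ e → k₀ = 6 ∧ l + #U = 6 ∧ k + #U = l + 12 := fun i => by
    obtain ⟨u, j⟩ := card_pos.1 (Nat.pos_of_ne_zero fun j => by simp [j] at c : 0 < #U)
    obtain ⟨h', m⟩ := h.sub (H := centralizer {z.1.1}) fun g m => mem_centralizer_singleton_iff.2 (h.nc g m)
    obtain ⟨U', b', c', d'⟩ := h'.exists_hyp
    rw [m, ii, he, ← c, Nat.mul_left_inj (by rintro rfl; simp at c)] at c'
    obtain ⟨u', j'⟩ := card_pos.1 (c' ▸ card_pos.2 ⟨u, j⟩)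
    have n := b'.central (M := M) (fun u j => h'.real (i.trans (m.trans he).symm.dvd) (d' u j).1 (d' u j).2) (selfC_mem_center _)
      (fun u j => (h'.conj (d' u j).1 (d' u j).2 (mem_zpowers _)).elim fun r o => isConj_iff.2 ⟨r, o.2⟩) j'
    obtain ⟨Θ, ω, t1, t2, t3, t4, t5, t6, t7⟩ := h.exists_theta
    have := b.main (M := M) (fun u j => h.real (i.trans he.symm.dvd) (d u j).1 (d u j).2) t1 t2 t3 t4 t5 t6
      (fun u j => t7 u (d u j).1 (d u j).2) j (c' ▸ n)
    omega
  refine ⟨?_, fun i => by have := key (by omega); subst i; omega, fun i => by have := key (by omega); subst i; omega,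
    fun i => by have := key (by omega); subst i; omega⟩
  rintro rfl
  have n := hasNormalPComplement_of_controls_fusion P fun x i g j => by
    obtain ⟨n, m, o⟩ := h.fus i j
    obtain ⟨r, d, s, f, rfl⟩ := exists_mul_of_mem_sup' (le_normalizer.trans (normalizer_le_normalizer_centralizer' _))
      (sup_comm (P : Subgroup G) _ ▸ relIndex_eq_one.1 he m)
    exact ⟨r, d, by rw [← o, mul_assoc r s, ← f x i]; group⟩
  rw [rank_npc n] at hl
  rw [rank_npc (hasNormalPComplement_subgroup n _)] at f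
  have t := b.trace (M := M)
  rw [rank_npc n, sum_congr rfl fun χ i => show A M χ χ = (charDegree (χ : G → ℂ) : ℤ) ^ 2 from Int.cast_injective (α := ℂ) (by
    have := regInner_const_of_hasNormalPComplement n ((χ : G → ℂ) 1) ((χ : G → ℂ) 1)
    rw [b.card, ← regInner_congr (fun _ => apply_npc n (mem_K.1 i)) fun _ => apply_npc n (mem_K.1 i)] at this
    rw [b.cast_A i, mul_comm]; simpa [χ.2.isCharacter.apply_one_eq, sq] using this), sum_K] at t
  have t0 : 3 ∣ ∑ χ ∈ K0 G M, ((charDegree (χ : G → ℂ) : ℤ) ^ 2 - 1) := dvd_sum fun χ i => by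
    have := (CharDeg.blockHeight_principalBlock_eq_zero_iff hM χ).1 (mem_filter.1 i).2
    have : (charDegree (χ : G → ℂ) : ℤ) % 3 = 1 ∨ (charDegree (χ : G → ℂ) : ℤ) % 3 = 2 := by omega
    rcases this with m | m <;> simp [Int.dvd_iff_emod_eq_zero, sq, Int.sub_emod, Int.mul_emod, m]
  have t1 := card_nsmul_le_sum (K0 G M) (fun χ => (charDegree (χ : G → ℂ) : ℤ) ^ 2) 1 fun χ _ => by
    have := χ.2.charDegree_pos; nlinarith
  have t2 : ∀ χ ∈ K1 G M, 3 ∣ charDegree (χ : G → ℂ) := fun χ i =>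
    not_not.1 (mt (CharDeg.blockHeight_principalBlock_eq_zero_iff hM χ).2 (mem_filter.1 i).2)
  have t3 := card_nsmul_le_sum (K1 G M) (fun χ => (charDegree (χ : G → ℂ) : ℤ) ^ 2) 9 fun χ i => by
    have := Nat.le_of_dvd χ.2.charDegree_pos (t2 χ i); nlinarith
  have t4 : 3 ∣ ∑ χ ∈ K1 G M, (charDegree (χ : G → ℂ) : ℤ) ^ 2 := dvd_sum fun χ i =>
    dvd_pow (Int.natCast_dvd_natCast.2 (t2 χ i)) two_ne_zero
  rw [card_K] at k1
  simp only [sum_sub_distrib, sum_const, nsmul_eq_mul] at t0 t1 t3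
  omega

end Cfsg.Agent.S4752
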