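import Cfsg.Statements.S4755
import Cfsg.Agent.S4754

set_option autoImplicit false
open Cfsg

namespace Cfsg.Agent.S4755

open Cfsg.Lib.Char in
open scoped ComplexConjugate in

/-- Let x, y be non-identity elements of the finite group G such that χ(x' y') = χ(x') χ(y') for all conjugates x' of x, y' of y and every irreducible character χ. Then the conjugacy class of x y is the set of all products of a conjugate of x with a conjugate of y; every irreducible character of degree greater than 1 vanishes at x y; and the conjugacy class of x y is the coset of the commutator subgroup containing x y. -/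
theorem result {G : Type*} [Group G] [Finite G] (x y : G) (hx : x ≠ 1) (hy : y ≠ 1) (h : ∀ (a b : G) (χ : Cfsg.IrrCharacter G), (χ : G → ℂ) (a * x * a⁻¹ * (b * y * b⁻¹)) = (χ : G → ℂ) (a * x * a⁻¹) * (χ : G → ℂ) (b * y * b⁻¹)) : (∀ z : G, IsConj (x * y) z ↔ ∃ a b : G, z = a * x * a⁻¹ * (b * y * b⁻¹)) ∧ (∀ χ : Cfsg.IrrCharacter G, (χ : G → ℂ) 1 ≠ 1 → (χ : G → ℂ) (x * y) = 0) ∧ (∀ z : G, IsConj (x * y) z ↔ (x * y)⁻¹ * z ∈ commutator G) := by
  classical
  haveI := Fintype.ofFinite G
  have h0 : ∀ (a b : G) (χ : IrrCharacter G), (χ : G → ℂ) (a * x * a⁻¹ * (b * y * b⁻¹)) =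
      (χ : G → ℂ) x * (χ : G → ℂ) y := fun a b χ => by
    rw [h, χ.2.isClassFunction.conj_apply, χ.2.isClassFunction.conj_apply]
  have h1 : ∀ χ : IrrCharacter G, (χ : G → ℂ) 1 ≠ 1 → (χ : G → ℂ) x * (χ : G → ℂ) y = 0 := by
    intro χ hχ
    have h2 := χ.2.sum_conj_mul x y
    have h3 : ∀ a : G, (χ : G → ℂ) (a * x * a⁻¹ * y) = (χ : G → ℂ) x * (χ : G → ℂ) y :=
      fun a => by simpa using h0 a 1 χ
    simp only [h3, Finset.sum_const, Finset.card_univ, nsmul_eq_mul,
      ← Nat.card_eq_fintype_card] at h2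
    have h4 := card_ne_zero_complex G
    have h5 := χ.2.apply_one_ne_zero
    field_simp at h2
    have h6 : (χ : G → ℂ) x * (χ : G → ℂ) y * ((χ : G → ℂ) 1 - 1) = 0 := by
      linear_combination h2
    exact (mul_eq_zero.1 h6).resolve_right (sub_ne_zero.2 hχ)
  have h2 : ∀ χ : IrrCharacter G, (χ : G → ℂ) 1 ≠ 1 → (χ : G → ℂ) (x * y) = 0 := fun χ hχ => by
    rw [← h1 χ hχ]
    simpa using h0 1 1 χ
  refine ⟨(Cfsg.Agent.S4754.result x y).2 fun a b χ => ?_, h2, fun z => ⟨fun hz => ?_, fun hz => ?_⟩⟩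
  · rw [h0]
    by_cases hχ : (χ : G → ℂ) 1 = 1
    · rw [hχ, one_mul]
    · rw [h1 χ hχ, mul_zero]
  · obtain ⟨c, rfl⟩ := isConj_iff.1 hz
    have := Subgroup.commutator_mem_commutator (Subgroup.mem_top (x * y)⁻¹) (Subgroup.mem_top c)
    rw [commutatorElement_def] at this
    rw [_root_.commutator_def]
    simpa [mul_assoc] using this
  · by_contra hc
    have h3 := sum_irr_mul_conj_of_not_isConj hc
    have h4 : ∀ χ : IrrCharacter G, (χ : G → ℂ) (x * y) * conj ((χ : G → ℂ) z) =
        if (χ : G → ℂ) 1 = 1 then 1 else 0 := fun χ => by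
      split_ifs with hχ
      · obtain ⟨lam, hl⟩ := χ.2.isCharacter.exists_hom_of_apply_one hχ
        have h5 : lam ((x * y)⁻¹ * z) = 1 := Abelianization.commutator_subset_ker lam hz
        rw [map_mul, map_inv, inv_mul_eq_one] at h5
        rw [hl]
        simp only
        rw [conj_hom_apply, h5, ← Units.val_mul, ← map_mul]
        simp
      · rw [h2 χ hχ, zero_mul]
    simp only [h4, Finset.sum_boole, Nat.cast_eq_zero, Finset.card_eq_zero] at h3
    have : irrOne G ∈ Finset.univ.filter fun χ : IrrCharacter G => (χ : G → ℂ) 1 = 1 := by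
      simp [irrOne_apply]
    rw [h3] at this
    simp at this

end Cfsg.Agent.S4755
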