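import Cfsg.Statements.S4756
import Cfsg.Agent.Lib.BG.T03_9
import Cfsg.Agent.Lib.Modular.Values
import Cfsg.Agent.Lib.Frobenius.Basic
import Cfsg.Agent.Lib.CharDeg.DerivedP
import Cfsg.Agent.Lib.Clifford.Basic
import Cfsg.Agent.Lib.Coprime.Action

set_option autoImplicit false
open Cfsg

namespace Cfsg.Agent.S4756

open Subgroup Cfsg.Lib.Char
open scoped commutatorElement

section
variable {G : Type*} [Group G] [Finite G]

theorem isConj_of_vanish {y d : G} (hy : ∀ χ : G → ℂ, IsIrrCharacter G χ → χ 1 ≠ 1 → χ y = 0)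
    (hd : d ∈ commutator G) : IsConj (y * d) y := by
  by_contra h
  have h1 := sum_irr_mul_conj_of_not_isConj h
  have h2 := sum_irr_mul_conj_of_isConj (IsConj.refl y)
  rw [Finset.sum_congr rfl (g := fun χ : IrrCharacter G =>
    (χ : G → ℂ) y * (starRingEnd ℂ) ((χ : G → ℂ) y)) (fun χ _ => ?_), h2] at h1
  · exact card_ne_zero_complex _ h1
  · by_cases e : (χ : G → ℂ) 1 = 1
    · rw [χ.2.isCharacter.map_mul_of_apply_one e,
        Cfsg.Lib.CharDeg.apply_eq_one_of_mem_commutator χ.2.isCharacter e hd, mul_one]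
    · rw [hy χ χ.2 e]; simp

theorem vanish_of_coset {D : Subgroup G} [D.Normal] (hD : commutator G ≤ D) {χ : G → ℂ}
    (hχ : IsIrrCharacter G χ) (h1 : χ 1 ≠ 1) {g : G} (hg : ∀ d ∈ D, χ (d * g) = χ g) : χ g = 0 := by
  classical
  haveI := Fintype.ofFinite G
  have h2 : classInner (fun n : D => χ n) (fun _ => 1) = 0 := by
    by_contra h
    exact h1 (Cfsg.Lib.CharDeg.apply_one_of_commutator_le_ker hχ fun x hx =>
      (Cfsg.Lib.Clifford.classInner_res_one_ne_zero_iff D hχ).1 h x (hD hx))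
  rw [classInner_one_right, mul_eq_zero, or_iff_right (inv_ne_zero (card_ne_zero_complex _))] at h2
  have h3 := hχ.sum_classFun_mul (f := fun x => if x ∈ D then 1 else 0) (by
    rw [isClassFunction_iff_isConj]
    intro a b hab
    obtain ⟨c, rfl⟩ := isConj_iff.1 hab
    have : c * a * c⁻¹ ∈ D ↔ a ∈ D := by
      rw [Subgroup.Normal.mem_comm_iff ‹D.Normal›, inv_mul_cancel_left]
    simp only [this]) g
  simp only [ite_mul, one_mul, zero_mul] at h3
  have e : ∀ f : G → ℂ, ∑ a with a ∈ D, f a = ∑ a : D, f a := fun f =>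
    Finset.sum_subtype _ (by simp) f
  rw [← Finset.sum_filter, ← Finset.sum_filter, e, e, h2,
    Finset.sum_congr rfl (fun (d : D) _ => hg d d.2)] at h3
  simpa using h3

theorem sq_lt_card {χ : G → ℂ} (hχ : IsIrrCharacter G χ) (h1 : χ 1 ≠ 1) :
    charDegree χ ^ 2 < Nat.card G := by
  rw [← sum_charDegree_sq G]
  refine Finset.single_lt_sum (f := fun χ : IrrCharacter G => charDegree (χ : G → ℂ) ^ 2)
    (i := ⟨χ, hχ⟩) (j := irrOne G) (fun e => h1 ?_) (Finset.mem_univ _) (Finset.mem_univ _)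
    (pow_pos (irrOne G).2.charDegree_pos _) fun _ _ _ => Nat.zero_le _
  exact (congrFun (congrArg Subtype.val e) 1).symm

theorem index_dvd {p : ℕ} [Fact p.Prime] (P : Sylow p G) {χ : G → ℂ} (hχ : IsIrrCharacter G χ)
    (h : ∀ (q b : ℕ) (y : G), q.Prime → q ≠ p → y ≠ 1 → orderOf y = q ^ b → χ y = 0) :
    (P : Subgroup G).index ∣ charDegree χ := by
  rw [Nat.dvd_iff_prime_pow_dvd_dvd]
  intro q k hq hk
  rcases k with _ | k
  · simp
  haveI := Fact.mk hq
  obtain ⟨Q⟩ : Nonempty (Sylow q G) := inferInstance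
  refine (Q.pow_dvd_card_of_pow_dvd_card (hk.trans (index_dvd_card _))).trans
    (Cfsg.Lib.Modular.card_dvd_charDegree_of_vanish hχ.isCharacter _ fun g hg h1 => ?_)
  obtain ⟨b, hb⟩ := IsPGroup.iff_orderOf.1 Q.2 ⟨g, hg⟩
  refine h q b g hq ?_ h1 (by rw [← hb, Subgroup.orderOf_mk])
  rintro rfl
  exact P.not_dvd_index ((dvd_pow_self _ (Nat.succ_ne_zero k)).trans hk)

end

/-- For a finite group G the following are equivalent. (1) χ(x y) = χ(x) χ(y) for every irreducible character χ and all non-identity elements x, y of prime power orders for two different primes. (2) G is a p-group for some prime p, or G is abelian, or for some prime p: G = A P with P a normal Sylow p-subgroup and A a nontrivial cyclic subgroup of order prime to p such that, with C = C_P(A) and D = [A, P], one has P = C D, C abelian, D normal in G, C ∩ D = 1, and A acts fixed-point-freely on D (no non-identity element of A centralizes a non-identity element of D). -/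
theorem result {G : Type*} [Group G] [Finite G] : (∀ (x y : G) (χ : Cfsg.IrrCharacter G), x ≠ 1 → y ≠ 1 → (∃ p q a b : ℕ, p.Prime ∧ q.Prime ∧ p ≠ q ∧ orderOf x = p ^ a ∧ orderOf y = q ^ b) → (χ : G → ℂ) (x * y) = (χ : G → ℂ) x * (χ : G → ℂ) y) ↔ ((∃ p : ℕ, p.Prime ∧ IsPGroup p G) ∨ IsMulCommutative G ∨ ∃ (p : ℕ) (_ : Fact p.Prime) (P : Sylow p G) (A : Subgroup G), (P : Subgroup G).Normal ∧ IsCyclic ↥A ∧ A ≠ ⊥ ∧ (Nat.card ↥A).Coprime p ∧ A ⊔ (P : Subgroup G) = ⊤ ∧ IsMulCommutative ↥((P : Subgroup G) ⊓ Subgroup.centralizer (A : Set G)) ∧ (⁅A, (P : Subgroup G)⁆).Normal ∧ ((P : Subgroup G) ⊓ Subgroup.centralizer (A : Set G)) ⊔ ⁅A, (P : Subgroup G)⁆ = (P : Subgroup G) ∧ ((P : Subgroup G) ⊓ Subgroup.centralizer (A : Set G)) ⊓ ⁅A, (P : Subgroup G)⁆ = ⊥ ∧ ∀ a ∈ A, a ≠ 1 → ∀ d ∈ ⁅A, (P : Subgroup G)⁆, a * d = d * a → d = 1) := by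
  constructor
  · intro H
    by_cases hpg : ∃ p : ℕ, p.Prime ∧ IsPGroup p G
    · exact Or.inl hpg
    by_cases hab : IsMulCommutative G
    · exact Or.inr (Or.inl hab)
    refine Or.inr (Or.inr ?_)
    haveI := Fintype.ofFinite G
    have h1 : ∀ χ : G → ℂ, IsIrrCharacter G χ → χ 1 ≠ 1 → ∃ p : ℕ, p.Prime ∧
        ∀ (q b : ℕ) (y : G), q.Prime → q ≠ p → y ≠ 1 → orderOf y = q ^ b → χ y = 0 := by
      intro χ hχ hn
      by_cases h : ∃ (p a : ℕ) (x : G), p.Prime ∧ x ≠ 1 ∧ orderOf x = p ^ a ∧ χ x ≠ 0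
      · obtain ⟨p, a, x, hp, hx1, hx, hx0⟩ := h
        refine ⟨p, hp, fun q b y hq hqp hy1 hy => ?_⟩
        have h2 := hχ.sum_conj_mul x y
        rw [Finset.sum_congr rfl (g := fun _ => χ x * χ y) (fun g _ => by
          rw [← hχ.isClassFunction.conj_apply x g]
          exact H _ y ⟨χ, hχ⟩ (by simpa using hx1) hy1 ⟨p, q, a, b, hp, hq, hqp.symm, by
            rw [← hx]; exact (MulAut.conj g).orderOf_eq x, hy⟩), Finset.sum_const, nsmul_eq_mul,
          Finset.card_univ, ← Nat.card_eq_fintype_card, eq_div_iff hχ.apply_one_ne_zero] at h2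
        have h3 : (Nat.card G : ℂ) * χ x * (χ 1 - 1) * χ y = 0 := by linear_combination h2
        exact (mul_eq_zero.1 h3).resolve_left (mul_ne_zero (mul_ne_zero (card_ne_zero_complex _) hx0)
          (sub_ne_zero.2 hn))
      · push Not at h
        exact ⟨2, Nat.prime_two, fun q b y hq _ hy1 hy => h q b y hq hy1 hy⟩
    obtain ⟨χ₀, hχ₀⟩ : ∃ χ : IrrCharacter G, (χ : G → ℂ) 1 ≠ 1 :=
      not_forall.1 fun h => hab ⟨⟨comm_iff_forall_irr_apply_one.2 h⟩⟩
    obtain ⟨p, hp, hp₀⟩ := h1 χ₀ χ₀.2 hχ₀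
    haveI := Fact.mk hp
    have h2 : ∀ (q b : ℕ) (y : G), q.Prime → q ≠ p → y ≠ 1 → orderOf y = q ^ b →
        ∀ χ : G → ℂ, IsIrrCharacter G χ → χ 1 ≠ 1 → χ y = 0 := by
      intro q b y hq hqp hy1 hy χ hχ hn
      obtain ⟨r, hr, hr₀⟩ := h1 χ hχ hn
      by_cases e : r = p
      · exact hr₀ q b y hq (e ▸ hqp) hy1 hy
      exfalso
      haveI := Fact.mk hr
      obtain ⟨P⟩ : Nonempty (Sylow p G) := inferInstance
      obtain ⟨R⟩ : Nonempty (Sylow r G) := inferInstance
      have a1 := Nat.le_of_dvd χ₀.2.charDegree_pos (index_dvd P χ₀.2 hp₀)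
      have a2 := Nat.le_of_dvd hχ.charDegree_pos (index_dvd R hχ hr₀)
      have a3 := sq_lt_card χ₀.2 hχ₀
      have a4 := sq_lt_card hχ hn
      have a5 : Nat.card P ∣ (R : Subgroup G).index := by
        refine Nat.Coprime.dvd_of_dvd_mul_left
          (IsPGroup.coprime_card_of_ne p r (Ne.symm e) _ _ P.2 R.2) ?_
        rw [card_mul_index]
        exact card_subgroup_dvd_card _
      have a6 := Nat.le_of_dvd (Nat.pos_of_ne_zero index_ne_zero_of_finite) a5
      have a7 := (P : Subgroup G).card_mul_index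
      have a8 : Nat.card G ≤ charDegree χ * charDegree (χ₀ : G → ℂ) :=
        a7 ▸ Nat.mul_le_mul (a6.trans a2) a1
      nlinarith
    have h3 : ∀ (q : ℕ) (y : G), q.Prime → q ≠ p → orderOf y = q → ∀ d ∈ commutator G,
        IsConj (y * d) y := fun q y hq hqp hy d hd =>
      isConj_of_vanish (h2 q 1 y hq hqp (by rintro rfl; exact hq.ne_one (by simpa using hy.symm))
        (by rw [hy, pow_one])) hd
    have h4 : IsPGroup p (commutator G) := by
      refine IsPGroup.of_card (Nat.eq_prime_pow_of_unique_prime_dvd Nat.card_pos.ne'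
        fun {q} hq hd => ?_)
      by_contra hqp
      obtain ⟨y, hy, hy2⟩ := Cfsg.Lib.Core.exists_mem_orderOf_eq_prime hq hd
      have := h3 q y hq hqp hy2 _ (inv_mem hy)
      rw [mul_inv_cancel, isConj_one_right] at this
      exact hq.ne_one (by rw [← hy2, this, orderOf_one])
    obtain ⟨P, hP⟩ := h4.exists_le_sylow
    haveI hPn : (P : Subgroup G).Normal := ⟨fun x hx g => by
      have := mul_mem (hP (commutator_mem_commutator (mem_top g) (mem_top x))) hx
      simpa [commutatorElement_def] using this⟩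
    obtain ⟨A, hA⟩ := exists_right_complement'_of_coprime P.card_coprime_index
    have hAc : (Nat.card A).Coprime p := by
      rw [← hA.symm.index_eq_card]
      exact ((Nat.Prime.coprime_iff_not_dvd hp).2 P.not_dvd_index).symm
    have hfpf : ∀ a ∈ A, a ≠ 1 → ∀ d ∈ commutator G, a * d = d * a → d = 1 := by
      intro a ha ha1 d hd hc
      obtain ⟨q, hq, hqa⟩ := Nat.exists_prime_and_dvd (mt orderOf_eq_one_iff.1 ha1)
      have hqp : q ≠ p := by
        rintro rfl
        exact hq.ne_one (Nat.Coprime.eq_one_of_dvd hAc.symm (hqa.trans (A.orderOf_dvd_natCard ha)))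
      have ho := orderOf_pow_orderOf_div (orderOf_pos a).ne' hqa
      obtain ⟨c, hc2⟩ := isConj_iff.1 (h3 q _ hq hqp ho d hd)
      have e1 : (a ^ (orderOf a / q)) ^ q = 1 := by
        conv_lhs => rw [← ho]
        rw [ho]
        exact orderOf_dvd_iff_pow_eq_one.1 ho.dvd
      have e2 : (a ^ (orderOf a / q) * d) ^ q = 1 := by
        have := e1
        rw [← hc2, conj_pow] at this
        simpa using this
      rw [((show Commute a d from hc).pow_left _).mul_pow, e1, one_mul] at e2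
      obtain ⟨k, hk⟩ := h4 ⟨d, hd⟩
      have e3 := pow_gcd_eq_one.2 ⟨e2, (congrArg Subtype.val hk : d ^ p ^ k = 1)⟩
      rwa [Nat.Coprime.pow_right k ((Nat.coprime_primes hq hp).2 hqp), pow_one] at e3
    have hAab : IsMulCommutative A := ⟨⟨fun a b => Subtype.ext (by
      have : ⁅(a : G), (b : G)⁆ ∈ (P : Subgroup G) ⊓ A :=
        ⟨hP (commutator_mem_commutator (mem_top _) (mem_top _)),
          (commutator_le_sup A A).trans (sup_idem _).le (commutator_mem_commutator a.2 b.2)⟩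
      rw [hA.disjoint.eq_bot, mem_bot] at this
      exact commutatorElement_eq_one_iff_mul_comm.1 this)⟩⟩
    have hA0 : A ≠ ⊥ := by
      rintro rfl
      refine hpg ⟨p, hp, ?_⟩
      have : (P : Subgroup G) = ⊤ := by simpa using hA.sup_eq_top
      exact (this ▸ P.2 : IsPGroup p (⊤ : Subgroup G)).of_equiv topEquiv
    have hG' : commutator G ≠ ⊥ := fun e => hab ⟨⟨fun a b =>
      commutatorElement_eq_one_iff_mul_comm.1 (mem_bot.1 (e.le
        (commutator_mem_commutator (mem_top _) (mem_top _))))⟩⟩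
    have hD : ⁅A, (P : Subgroup G)⁆ ≤ commutator G := commutator_mono le_top le_top
    have hCG : (P : Subgroup G) ⊓ centralizer (A : Set G) ⊓ commutator G = ⊥ := by
      obtain ⟨⟨a, ha⟩, ha1⟩ := ne_bot_iff_exists_ne_one.1 hA0
      exact eq_bot_iff.2 fun x hx => hfpf a ha (fun e => ha1 (Subtype.ext e)) x hx.2 (hx.1.2 a ha)
    refine ⟨p, inferInstance, P, A, hPn, ?_, hA0, hAc, by rw [sup_comm, hA.sup_eq_top], ?_, ?_, ?_,
      eq_bot_iff.2 ((inf_le_inf_left _ hD).trans hCG.le), fun a ha h1 d hd => hfpf a ha h1 d (hD hd)⟩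
    · exact Cfsg.Lib.BG.regular_abelian_cyclic hAab hG' (by rw [normalizer_eq_top]; exact le_top)
        fun a ha h1 => eq_bot_iff.2 fun x hx => hfpf a ha h1 x hx.1 (hx.2 a rfl)
    · refine ⟨⟨fun a b => Subtype.ext (commutatorElement_eq_one_iff_mul_comm.1 (mem_bot.1 (hCG.le
        ⟨?_, commutator_mem_commutator (mem_top _) (mem_top _)⟩)))⟩⟩
      exact (commutator_le_sup _ _).trans (sup_idem _).le (commutator_mem_commutator a.2 b.2)
    · rw [← normalizer_eq_top_iff, eq_top_iff, ← hA.sup_eq_top]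
      exact sup_le (normalizer_commutator_ge_right _ _) (normalizer_commutator_ge_left _ _)
    · obtain ⟨k, hk⟩ := IsPGroup.iff_card.1 P.2
      rw [sup_comm, commutator_comm]
      exact Cfsg.Lib.Coprime.commutator_sup_centralizer (by rw [normalizer_eq_top]; exact le_top)
        (by rw [hk]; exact hAc.pow_right k)
        (Or.inr (by haveI := P.2.isNilpotent; infer_instance))
  · rintro (⟨p, hp, hG⟩ | hab | ⟨p, hp, P, A, hPn, hAc, hA0, hcop, hsup, hCab, hDn, hCD, -, hfpf⟩)
      x y χ hx1 hy1 ⟨q, r, a, b, hq, hr, hqr, hx, hy⟩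
    · exfalso
      haveI := Fact.mk hp
      have key : ∀ (z : G) (s c : ℕ), s.Prime → z ≠ 1 → orderOf z = s ^ c → s = p := by
        intro z s c hs hz h
        obtain ⟨k, hk⟩ := IsPGroup.iff_orderOf.1 hG z
        rcases c with _ | c
        · exact absurd (orderOf_eq_one_iff.1 h) hz
        · exact (Nat.prime_dvd_prime_iff_eq hs hp).1 (hs.dvd_of_dvd_pow
            (hk ▸ h ▸ dvd_pow_self s (Nat.succ_ne_zero c)))
      exact hqr ((key x q a hq hx1 hx).trans (key y r b hr hy1 hy).symm)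
    · exact χ.2.isCharacter.map_mul_of_apply_one χ.2.apply_one_of_comm x y
    by_cases hl : (χ : G → ℂ) 1 = 1
    · exact χ.2.isCharacter.map_mul_of_apply_one hl x y
    obtain ⟨C, hC⟩ : ∃ C, C = (P : Subgroup G) ⊓ centralizer (A : Set G) := ⟨_, rfl⟩
    obtain ⟨D, hD⟩ : ∃ D, D = ⁅A, (P : Subgroup G)⁆ := ⟨_, rfl⟩
    rw [← hC] at hCD hCab
    rw [← hD] at hCD hDn hfpf
    have hdec : ∀ g : G, ∃ a ∈ A, ∃ c ∈ C, ∃ d ∈ D, g = a * c * d := by
      intro g
      obtain ⟨a, ha, z, hz, rfl⟩ := mem_sup_of_normal_right.1 (hsup.ge (mem_top g))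
      obtain ⟨c, hc, d, hd, rfl⟩ := mem_sup_of_normal_right.1 (hCD.ge hz)
      exact ⟨a, ha, c, hc, d, hd, (mul_assoc _ _ _).symm⟩
    have hac : ∀ a ∈ A, ∀ c ∈ C, Commute a c := fun a ha c hc => (hC.le hc).2 a ha
    have hG' : commutator G ≤ D := by
      rw [← Subgroup.Normal.quotient_commutative_iff_commutator_le]
      refine ⟨⟨fun u v => ?_⟩⟩
      obtain ⟨u, rfl⟩ := QuotientGroup.mk_surjective u
      obtain ⟨v, rfl⟩ := QuotientGroup.mk_surjective v
      obtain ⟨a, ha, c, hc, d, hd, rfl⟩ := hdec u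
      obtain ⟨a', ha', c', hc', d', hd', rfl⟩ := hdec v
      rw [QuotientGroup.mk_mul_of_mem _ hd, QuotientGroup.mk_mul_of_mem _ hd',
        ← QuotientGroup.mk_mul, ← QuotientGroup.mk_mul]
      have e1 : Commute a a' := congrArg Subtype.val
        (IsCyclic.commGroup.mul_comm (⟨a, ha⟩ : A) ⟨a', ha'⟩)
      have e2 : Commute c c' := congrArg Subtype.val (hCab.1.1 (⟨c, hc⟩ : C) ⟨c', hc'⟩)
      rw [((e1.mul_right (hac a ha c' hc')).mul_left ((hac a' ha' c hc).symm.mul_right e2)).eq]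
    have hvan : ∀ g ∉ (P : Subgroup G), (χ : G → ℂ) g = 0 := by
      intro g hg
      obtain ⟨a, ha, c, hc, d, hd, rfl⟩ := hdec g
      have hDP : D ≤ P := le_sup_right.trans hCD.le
      have ha1 : a ≠ 1 := by
        rintro rfl
        exact hg (mul_mem (mul_mem (one_mem _) (hC.le hc).1) (hDP hd))
      obtain ⟨k, hk⟩ := P.2 ⟨c, (hC.le hc).1⟩
      have hk' : c ^ p ^ k = 1 := congrArg Subtype.val hk
      have hf : D ⊓ centralizer {a * c} = ⊥ := eq_bot_iff.2 fun z hz => by
        refine hfpf (a ^ p ^ k) (pow_mem ha _) (fun e => ha1 ?_) z hz.1 ?_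
        · exact Cfsg.Lib.Transfer.eq_one_of_pow_pow_eq_one_of_coprime e
            (Nat.Coprime.coprime_dvd_left (A.orderOf_dvd_natCard ha) hcop)
        · have := (show Commute (a * c) z from hz.2 _ rfl).pow_left (p ^ k)
          rwa [(hac a ha c hc).mul_pow, hk', mul_one] at this
      have key : ∀ e ∈ D, (χ : G → ℂ) (a * c * e) = (χ : G → ℂ) (a * c) := by
        intro e he
        obtain ⟨z, -, hz⟩ := Cfsg.Lib.Frobenius.exists_conj_eq_mul'
          (by rw [normalizer_eq_top]; exact mem_top _) hf he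
        rw [← hz, χ.2.isClassFunction.conj_apply]
      refine vanish_of_coset hG' χ.2 hl fun e he => ?_
      rw [χ.2.isClassFunction.mul_comm, mul_assoc (a * c), key _ (mul_mem hd he), key _ hd]
    have hnp : ∀ (z : G) (s c : ℕ), s.Prime → s ≠ p → z ≠ 1 → orderOf z = s ^ c →
        z ∉ (P : Subgroup G) := by
      intro z s c hs hsp hz h hP
      obtain ⟨k, hk⟩ := P.2 ⟨z, hP⟩
      exact hz (Cfsg.Lib.Transfer.eq_one_of_pow_pow_eq_one_of_coprime
        (congrArg Subtype.val hk : z ^ p ^ k = 1)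
        (h ▸ Nat.Coprime.pow_left c ((Nat.coprime_primes hs hp.out).2 hsp)))
    have hxy : x * y ∉ (P : Subgroup G) := by
      intro h
      have e1 : (x : G ⧸ (P : Subgroup G)) = (y : G ⧸ (P : Subgroup G))⁻¹ := by
        rw [eq_inv_iff_mul_eq_one, ← QuotientGroup.mk_mul, QuotientGroup.eq_one_iff]
        exact h
      have e2 : (x : G ⧸ (P : Subgroup G)) ^ q ^ a = 1 := by
        rw [← QuotientGroup.mk_pow, ← hx, pow_orderOf_eq_one, QuotientGroup.mk_one]
      have e3 : (x : G ⧸ (P : Subgroup G)) ^ r ^ b = 1 := by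
        rw [e1, inv_pow, ← QuotientGroup.mk_pow, ← hy, pow_orderOf_eq_one, QuotientGroup.mk_one,
          inv_one]
      have e4 := pow_gcd_eq_one.2 ⟨e2, e3⟩
      rw [Nat.Coprime.pow a b ((Nat.coprime_primes hq hr).2 hqr), pow_one,
        QuotientGroup.eq_one_iff] at e4
      have e5 : y ∈ (P : Subgroup G) := by simpa using mul_mem (inv_mem e4) h
      by_cases e : q = p
      · exact hnp y r b hr (fun e' => hqr (e.trans e'.symm)) hy1 hy e5
      · exact hnp x q a hq e hx1 hx e4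
    rw [hvan _ hxy]
    by_cases e : q = p
    · rw [hvan y (hnp y r b hr (fun e' => hqr (e.trans e'.symm)) hy1 hy), mul_zero]
    · rw [hvan x (hnp x q a hq e hx1 hx), zero_mul]

end Cfsg.Agent.S4756
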