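import Cfsg.Statements.S4759
import Cfsg.Agent.Lib.Dade.Main
import Cfsg.Agent.Lib.Clifford.Extension
import Cfsg.Agent.Lib.PGroup.Frattini

set_option autoImplicit false
open Cfsg

namespace Cfsg.Agent.S4759

open Subgroup Cfsg.Lib Cfsg.Lib.Dade

/-- Let G be a finite group that is the semidirect product of a normal extraspecial 2-subgroup E and a complement H acting faithfully on E (no non-identity element of H centralizes E), and suppose H has a normal subgroup K of odd order with [E, K] = E. Then every faithful irreducible character θ of E (there is exactly one) extends to G: some irreducible character of G restricts to θ on E. -/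
theorem result {G : Type*} [Group G] [Finite G] (E H : Subgroup G) [E.Normal] (hE : Cfsg.IsExtraspecial 2 ↥E) (hEH : E ⊓ H = ⊥) (hEHtop : E ⊔ H = ⊤) (hfaith : ∀ h ∈ H, (∀ e ∈ E, h * e = e * h) → h = 1) (K : Subgroup G) (hKH : K ≤ H) (hKn : ∀ h ∈ H, ∀ k ∈ K, h * k * h⁻¹ ∈ K) (hKodd : Odd (Nat.card ↥K)) (hEK : ⁅E, K⁆ = E) (θ : Cfsg.IrrCharacter ↥E) (hθ : ∀ e : ↥E, (θ : ↥E → ℂ) e = (θ : ↥E → ℂ) 1 → e = 1) : ∃ χ : Cfsg.IrrCharacter G, ∀ e : ↥E, (χ : G → ℂ) e = (θ : ↥E → ℂ) e := by
  obtain ⟨⟨hp, hF, -⟩, hZ⟩ := hE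
  obtain ⟨⟨z, zc⟩, z1, zu⟩ := (Nat.card_eq_two_iff' 1).1 hZ
  have h : ES z := ⟨fun e => z1 (Subtype.ext e), fun x => ⟨fun hx => or_iff_not_imp_left.2 fun e =>
    congrArg Subtype.val (zu ⟨x, hx⟩ fun e' => e (congrArg Subtype.val e')), by rintro (rfl | rfl); exacts [one_mem _, zc]⟩,
    fun x => by rw [← hF, ← pow_two]; exact PGroup.pow_mem_frattini hp x⟩
  obtain ⟨θ, hθ'⟩ := θ
  obtain ⟨n, ρ, hρ, rfl⟩ := id hθ'
  have hz : ρ z = -1 := by
    obtain ⟨c, hc⟩ := Char.exists_eq_smul_of_commute ρ (ρ z) fun g => by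
      change ρ z * ρ g = ρ g * ρ z
      rw [← map_mul, ← map_mul, mem_center_iff.1 zc]
    have := Char.nontrivial_of_isIrreducible ρ
    have e : (c * c) • (1 : Module.End ℂ (Fin n → ℂ)) = (1 : ℂ) • 1 := by
      rw [one_smul]; nth_rw 2 [← map_one ρ]; rw [← h.two, map_mul, hc]; ext; simp [mul_assoc]
    rcases mul_self_eq_one_iff.1 (show c * c = 1 from smul_left_injective ℂ (one_ne_zero (α := Module.End ℂ (Fin n → ℂ))) e) with rfl | rfl
    · exact absurd (hθ z (by simp only [Representation.character, hc, one_smul, map_one]; rfl)) h.ne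
    · rw [hc]; ext; simp
  have hinv : ∀ (g : G) (x : E), ρ.character ⟨g * x * g⁻¹, Normal.conj_mem ‹_› (x : G) x.2 g⟩ = ρ.character x := fun g x => by
    obtain ⟨X, hX, -⟩ := h.itw hz (MulAut.conjNormal g)
    change LinearMap.trace ℂ _ (ρ (MulAut.conjNormal g x)) = LinearMap.trace ℂ _ (ρ x)
    rw [← Units.mul_inv_cancel_right (ρ (MulAut.conjNormal g x)) X, ← hX.itw x trivial, LinearMap.trace_mul_comm,
      Units.inv_mul_cancel_left]
  have bij : Function.Bijective ((QuotientGroup.mk' E).comp H.subtype) := by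
    refine ⟨(injective_iff_map_eq_one _).2 fun x hx => Subtype.ext (mem_bot.1 (hEH.le ⟨(QuotientGroup.eq_one_iff _).1 hx, x.2⟩)),
      fun y => ?_⟩
    obtain ⟨y, rfl⟩ := QuotientGroup.mk_surjective y
    obtain ⟨a, ha, b, hb, rfl⟩ := mem_sup_of_normal_left.1 (hEHtop.ge (mem_top y))
    exact ⟨⟨b, hb⟩, by simp [(QuotientGroup.eq_one_iff a).2 ha]⟩
  let π : G →* H := (MulEquiv.ofBijective _ bij).symm.toMonoidHom.comp (QuotientGroup.mk' E)
  have p1 : ∀ g : G, ((π g : G) : G ⧸ E) = g := fun g => (MulEquiv.ofBijective _ bij).apply_symm_apply _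
  have p2 : Function.Surjective π := (MulEquiv.ofBijective _ bij).symm.surjective.comp (QuotientGroup.mk'_surjective E)
  have p3 : π.ker = E := by
    ext x; simp [π]
  have p4 : ∀ g : G, g * (π g : G)⁻¹ ∈ E := fun g => (QuotientGroup.eq_one_iff _).1 (by simp [p1])
  obtain ⟨χ, h1, h2⟩ := Clifford.exists_extension_of_sylow E hθ' hinv fun p pp _ => by
    have := Fact.mk pp
    let S : Sylow p H := default
    have le : E ≤ (S : Subgroup H).comap π := fun x hx => by rw [mem_comap, MonoidHom.mem_ker.1 (p3.ge hx)]; exact one_mem _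
    have ix : ¬ p ∣ ((S : Subgroup H).comap π).index := by rw [index_comap_of_surjective _ p2]; exact S.not_dvd_index
    by_cases c : p = 2
    · subst c
      obtain ⟨T, hT⟩ := stmt _ E z (Nat.lt_succ_self _) h S S.isPGroup'
        (MulAut.conjNormal.comp (H.subtype.comp (S : Subgroup H).subtype)) (K.map MulAut.conjNormal)
        ⟨hKodd.of_dvd_nat (card_map_dvd _ _), by
          rintro s _ ⟨k, hk, rfl⟩
          exact ⟨_, hKn _ s.1.2 k hk, by simp⟩, fun e he => mem_center_iff.2 fun g => Subtype.ext (by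
          refine mem_centralizer_singleton_iff.1 ((hEK.ge.trans (commutator_le.2 fun x hx k hk => ?_)) g.2)
          by_contra d
          have e1 := h.bt_mul ⟨x, hx⟩ (MulAut.conjNormal k (⟨x, hx⟩ : E)⁻¹) e
          have e2 : bt (MulAut.conjNormal k (⟨x, hx⟩ : E)⁻¹) e = bt (⟨x, hx⟩ : E)⁻¹ e := by
            nth_rw 1 [← he _ ⟨k, hk, rfl⟩]
            unfold bt
            congr 1
            rw [← map_mul, ← map_mul, EmbeddingLike.apply_eq_iff_eq]
          rw [bt_neg fun a => d (mem_centralizer_singleton_iff.2 (by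
            simpa [commutatorElement_def, mul_assoc] using congrArg Subtype.val a)), e2, ← h.bt_mul, bt_pos (by simp)] at e1
          omega)⟩ _ ρ hz
      let σ : Representation ℂ ((S : Subgroup H).comap π) (Fin n → ℂ) :=
        { toFun := fun x => ρ ⟨_, p4 x⟩ * T (π.subgroupComap S x)
          map_one' := by
            rw [map_one (π.subgroupComap S), map_one, mul_one, ← map_one ρ]
            congr 1; exact Subtype.ext (by simp)
          map_mul' := fun x y => by
            rw [map_mul (π.subgroupComap S), map_mul T, mul_assoc (ρ _), ← mul_assoc (T _), (hT _).itw _ trivial,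
              mul_assoc (ρ _), ← mul_assoc (ρ _) (ρ _), ← map_mul ρ]
            congr 2; exact Subtype.ext (by simp [mul_assoc, show ((π.subgroupComap S x : (S : Subgroup H)) : H) = π x from rfl]) }
      refine ⟨_, le, σ.character, ix, ⟨n, σ, rfl⟩, fun x => ?_⟩
      have e := MonoidHom.mem_ker.1 (p3.ge x.2)
      change LinearMap.trace ℂ _ (ρ ⟨_, p4 x⟩ * T (π.subgroupComap S ⟨x, le x.2⟩)) = LinearMap.trace ℂ _ (ρ x)
      rw [show π.subgroupComap S ⟨x, le x.2⟩ = 1 from Subtype.ext e, map_one, mul_one]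
      congr 2; exact Subtype.ext (by simp [e])
    · obtain ⟨η, a, b⟩ := Clifford.exists_extension_le_of_coprime E le hθ' (fun g _ => (Clifford.mem_inertia_iff E).2 (hinv g)) (by
        nth_rw 2 [← p3]
        rw [relIndex_ker, map_comap_eq_self_of_surjective p2]
        exact IsPGroup.coprime_card_of_ne 2 p (Ne.symm c) _ _ hp S.isPGroup')
      obtain ⟨m, τ, -, e⟩ := a
      exact ⟨_, le, η, ix, ⟨m, τ, e⟩, b⟩
  exact ⟨⟨χ, h1⟩, h2⟩

end Cfsg.Agent.S4759
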