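import Cfsg.Statements.S4763
import Cfsg.Agent.Lib.CharDeg.DerivedP
import Cfsg.Agent.Lib.CharDeg.GlaubermanCount
import Cfsg.Agent.Lib.Transfer.SylowIn

set_option autoImplicit false
open Cfsg

namespace Cfsg.Agent.S4763

open Cfsg.Lib.Char Cfsg.Lib.CharDeg Cfsg.Lib.Clifford Subgroup
open scoped commutatorElement

theorem count_irr {G : Type*} [Group G] [Finite G] {p : ℕ} [hp : Fact p.Prime] (N : Subgroup G)
    [hNn : N.Normal] (hN : (Nat.card N).Coprime p) {k : ℕ} (hidx : N.index = p ^ k)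
    (hab : _root_.commutator G ≤ N) :
    Nat.card {χ : IrrCharacter G // ¬ p ∣ charDegree (χ : G → ℂ)} =
      Nat.card {θ : IrrCharacter N // ∀ (g : G) (n : N),
        (θ : N → ℂ) (MulAut.conjNormal g n) = (θ : N → ℂ) n} * N.index := by
  haveI := Fintype.ofFinite N
  have hcop : (Nat.card N).Coprime N.index := hidx ▸ hN.pow_right k
  have hext : ∀ θ : {θ : IrrCharacter N // ∀ (g : G) (n : N),
      (θ : N → ℂ) (MulAut.conjNormal g n) = (θ : N → ℂ) n},
      ∃ η : G → ℂ, IsIrrCharacter G η ∧ ∀ n : N, η n = (θ.1 : N → ℂ) n := fun θ =>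
    exists_extension_of_coprime N θ.1.2 θ.2 hcop
  choose η hη hηr using hext
  have hres : ∀ θ, IsIrrCharacter N (fun n : N => η θ n) := fun θ => by
    rw [show (fun n : N => η θ n) = (θ.1 : N → ℂ) from funext (hηr θ)]; exact θ.1.2
  have hcard : Nat.card (G ⧸ N →* ℂˣ) = N.index := by
    haveI : IsMulCommutative (G ⧸ N) := Normal.quotient_commutative_iff_commutator_le.mpr hab
    have : _root_.commutator (G ⧸ N) = ⊥ := by
      rw [eq_bot_iff, _root_.commutator_def, commutator_le]
      intro a _ b _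
      rw [mem_bot, commutatorElement_eq_one_iff_mul_comm]
      exact IsMulCommutative.is_comm.comm a b
    rw [card_hom_units, this, index_bot]; rfl
  rw [← hcard, ← Nat.card_prod]
  symm
  refine Nat.card_eq_of_bijective (fun x => ⟨⟨fun g => ((x.2.comp (QuotientGroup.mk' N)) g : ℂ) *
    η x.1 g, (hη x.1).hom_mul _⟩, ?_⟩) ⟨?_, ?_⟩
  · have e : charDegree (fun g => ((x.2.comp (QuotientGroup.mk' N)) g : ℂ) * η x.1 g) =
        charDegree (x.1.1 : N → ℂ) := charDegree_congr (by rw [← hηr x.1 1]; simp)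
    change ¬ p ∣ charDegree (fun g => ((x.2.comp (QuotientGroup.mk' N)) g : ℂ) * η x.1 g)
    rw [e]
    exact fun h => (Nat.Prime.coprime_iff_not_dvd hp.out).1 hN.symm
      (h.trans x.1.1.2.charDegree_dvd_card)
  · rintro ⟨θ, l⟩ ⟨θ', l'⟩ e
    have e1 : (fun g => ((l.comp (QuotientGroup.mk' N)) g : ℂ) * η θ g) =
        fun g => ((l'.comp (QuotientGroup.mk' N)) g : ℂ) * η θ' g :=
      congrArg (fun x => (x.1 : G → ℂ)) e
    have hk : ∀ (m : G ⧸ N →* ℂˣ), ∀ n ∈ N, (m.comp (QuotientGroup.mk' N)) n = 1 := by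
      intro m n hn
      rw [MonoidHom.comp_apply, QuotientGroup.mk'_apply, (QuotientGroup.eq_one_iff n).2 hn, map_one]
    have hθ : θ = θ' := by
      apply Subtype.ext; apply Subtype.ext
      funext n
      have := congrFun e1 n
      simp only [hk l n n.2, hk l' n n.2, Units.val_one, one_mul] at this
      rw [← hηr θ n, ← hηr θ' n, this]
    subst hθ
    have := hom_eq_of_mul_eq N (hη θ).isCharacter (hres θ) (hk l) (hk l') e1
    refine Prod.ext rfl ?_
    ext g
    exact congrArg (fun f : G →* ℂˣ => (f g : ℂ)) this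
  · rintro ⟨χ, hχ⟩
    have hc : (charDegree (χ : G → ℂ)).Coprime N.index :=
      hidx ▸ ((Nat.Prime.coprime_iff_not_dvd hp.out).2 hχ).symm.pow_right k
    let θ : {θ : IrrCharacter N // ∀ (g : G) (n : N),
        (θ : N → ℂ) (MulAut.conjNormal g n) = (θ : N → ℂ) n} :=
      ⟨⟨_, isIrrCharacter_res_of_coprime N χ.2 hc⟩, fun g n => χ.2.isClassFunction.conj_apply _ _⟩
    obtain ⟨lam, hl, e⟩ := exists_hom_mul_eq_of_res_eq N (hη θ).isCharacter (hres θ)
      χ.2.isCharacter (fun n => (hηr θ n).symm)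
    refine ⟨(θ, QuotientGroup.lift N lam hl), Subtype.ext (Subtype.ext ?_)⟩
    rw [e]; rfl

theorem count_cl {G : Type*} [Group G] [Finite G] {p : ℕ} [hp : Fact p.Prime] (N : Subgroup G)
    [hNn : N.Normal] (hN : (Nat.card N).Coprime p) (hab : _root_.commutator G ≤ N)
    (P : Sylow p G) (hc : IsComplement' N P) :
    Nat.card {C : ConjClasses G // ¬ p ∣ Nat.card C.carrier} =
      Nat.card (ConjClasses ↥(N ⊓ centralizer (P : Set G))) * Nat.card P := by
  set C := N ⊓ centralizer (P : Set G) with hC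
  have hdis : ∀ x ∈ N, x ∈ (P : Subgroup G) → x = 1 := fun x h1 h2 =>
    mem_bot.1 (hc.disjoint.le_bot ⟨h1, h2⟩)
  have hPab : ∀ x ∈ (P : Subgroup G), ∀ y ∈ (P : Subgroup G), x * y = y * x := by
    intro x hx y hy
    refine commutatorElement_eq_one_iff_mul_comm.1 (hdis _
      (hab (commutator_mem_commutator (mem_top _) (mem_top _))) ?_)
    exact mul_mem (mul_mem (mul_mem hx hy) (inv_mem hx)) (inv_mem hy)
  have hCP : ∀ c : C, ∀ x ∈ (P : Subgroup G), x * c = c * x := fun c x hx => c.2.2 x hx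
  have hdec : ∀ g : G, ∃ n ∈ N, ∃ x ∈ (P : Subgroup G), n * x = g := by
    intro g
    obtain ⟨⟨n, x⟩, h, -⟩ := hc.existsUnique g
    exact ⟨n, n.2, x, x.2, h⟩
  rw [← Nat.card_prod]
  symm
  refine Nat.card_eq_of_bijective (fun y => ⟨ConjClasses.mk ((y.1.out : C) * (y.2 : G)), ?_⟩)
    ⟨?_, ?_⟩
  · rw [card_carrier_mk]
    refine fun h => P.not_dvd_index (h.trans (index_dvd_of_le fun x hx => ?_))
    rw [mem_centralizer_singleton_iff, mul_assoc, ← hPab x hx _ y.2.2, ← mul_assoc, ← mul_assoc,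
      hCP _ x hx]
  · rintro ⟨L, x⟩ ⟨L', x'⟩ e
    have e1 : IsConj ((L.out : C) * (x : G)) ((L'.out : C) * (x' : G)) :=
      ConjClasses.mk_eq_mk_iff_isConj.1 (congrArg Subtype.val e)
    obtain ⟨g, hg⟩ := isConj_iff.1 e1
    have hx : x = x' := by
      apply Subtype.ext
      rw [← mul_inv_eq_one]
      refine hdis _ ?_ (mul_mem x.2 (inv_mem x'.2))
      have h1 : ⁅g, (L.out : C) * (x : G)⁆ ∈ N :=
        hab (commutator_mem_commutator (mem_top _) (mem_top _))
      have h2 : (x : G) * (x' : G)⁻¹ = ((L.out : C) : G)⁻¹ * ⁅g, (L.out : C) * (x : G)⁆⁻¹ *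
          (L'.out : C) := by
        rw [commutatorElement_def, hg]; group
      rw [h2]
      exact mul_mem (mul_mem (inv_mem L.out.2.1) (inv_mem h1)) L'.out.2.1
    subst hx
    obtain ⟨j, hj⟩ := IsPGroup.iff_card.1 P.isPGroup'
    obtain ⟨m, hm1, hm2⟩ := Nat.chineseRemainder (hN.pow_right j) 1 0
    have hpow : ∀ c : C, ((c : G) * x) ^ m = c := by
      intro c
      rw [(show Commute (c : G) x from (hCP c x x.2).symm).mul_pow]
      have h1 : (x : G) ^ m = 1 := by
        obtain ⟨t, ht⟩ := (Nat.modEq_zero_iff_dvd).1 hm2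
        have : (x : G) ^ p ^ j = 1 := by
          have := pow_card_eq_one' (x := x)
          rw [hj] at this
          exact congrArg Subtype.val this
        rw [ht, pow_mul, this, one_pow]
      have h2 : (c : G) ^ m = c := by
        have := (pow_eq_pow_iff_modEq (x := (⟨c, c.2.1⟩ : N))).2
          (hm1.of_dvd (orderOf_dvd_natCard _))
        simpa using congrArg Subtype.val this
      rw [h1, h2, mul_one]
    have hg2 : g * (L.out : C) * g⁻¹ = (L'.out : C) := by
      rw [← hpow L.out, ← hpow L'.out, ← hg, conj_pow]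
    obtain ⟨n, hn, y, hy, rfl⟩ := hdec g
    have h3 : IsConj (inclusion (inf_le_left : C ≤ N) L.out) (inclusion inf_le_left L'.out) := by
      refine isConj_iff.2 ⟨⟨n, hn⟩, Subtype.ext ?_⟩
      change n * (L.out : C) * n⁻¹ = (L'.out : C)
      rw [← hg2, mul_assoc n y, hCP _ y hy]; group
    have h4 := isConj_of_isConj_map P.isPGroup' ((MulAut.conjNormal (H := N)).comp (P : Subgroup G).subtype)
      (inclusion (inf_le_left : C ≤ N)) (inclusion_injective _) (fun z => by
        constructor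
        · intro h
          refine ⟨⟨z, z.2, fun s hs => ?_⟩, rfl⟩
          have := congrArg Subtype.val (h ⟨s, hs⟩)
          change s * z * s⁻¹ = z at this
          rw [mul_inv_eq_iff_eq_mul] at this
          exact this
        · rintro ⟨c, rfl⟩ s
          apply Subtype.ext
          change s * (c : G) * (s : G)⁻¹ = c
          rw [hCP c s s.2, mul_inv_cancel_right])
      ((Nat.Prime.coprime_iff_not_dvd hp.out).1 hN.symm) h3
    refine Prod.ext ?_ rfl
    change L = L'
    rw [← L.out_eq, ← L'.out_eq]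
    exact ConjClasses.mk_eq_mk_iff_isConj.2 h4
  · rintro ⟨K, hK⟩
    obtain ⟨g, rfl⟩ := ConjClasses.mk_surjective K
    rw [card_carrier_mk] at hK
    obtain ⟨h, hh⟩ := Cfsg.Lib.Transfer.exists_conj_le_of_not_dvd_index hK P.isPGroup'
    have hcen : ∀ x ∈ (P : Subgroup G), x * (h⁻¹ * g * h) = (h⁻¹ * g * h) * x := by
      intro x hx
      have := mem_centralizer_singleton_iff.1 (hh (mem_map_of_mem _ hx))
      change h * x * h⁻¹ * g = g * (h * x * h⁻¹) at this
      calc x * (h⁻¹ * g * h) = h⁻¹ * (h * x * h⁻¹ * g) * h := by group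
        _ = _ := by rw [this]; group
    obtain ⟨n, hn, y, hy, e⟩ := hdec (h⁻¹ * g * h)
    have hnC : n ∈ C := by
      refine ⟨hn, fun x hx => ?_⟩
      have e2 : n = h⁻¹ * g * h * y⁻¹ := by rw [← e]; group
      rw [e2, ← mul_assoc, hcen x hx, mul_assoc _ x, hPab x hx _ (inv_mem hy), ← mul_assoc]
    refine ⟨(ConjClasses.mk ⟨n, hnC⟩, ⟨y, hy⟩), Subtype.ext ?_⟩
    refine ConjClasses.mk_eq_mk_iff_isConj.2 ?_
    have h5 : IsConj (ConjClasses.mk (⟨n, hnC⟩ : C)).out ⟨n, hnC⟩ :=
      ConjClasses.mk_eq_mk_iff_isConj.1 (ConjClasses.mk (⟨n, hnC⟩ : C)).out_eq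
    obtain ⟨d, hd⟩ := isConj_iff.1 h5
    have hd' := congrArg Subtype.val hd
    refine isConj_iff.2 ⟨h * d, ?_⟩
    change (d : G) * ((ConjClasses.mk (⟨n, hnC⟩ : C)).out : C) * (d : G)⁻¹ = n at hd'
    change h * d * (((ConjClasses.mk (⟨n, hnC⟩ : C)).out : C) * y) * (h * d)⁻¹ = g
    have e3 : g = h * (n * y) * h⁻¹ := by rw [e]; group
    generalize ((ConjClasses.mk (⟨n, hnC⟩ : C)).out : C) = c at hd' ⊢
    rw [e3, ← hd']
    have := hCP d⁻¹ y hy
    rw [InvMemClass.coe_inv] at this
    calc _ = h * (d * c * (y * (d : G)⁻¹)) * h⁻¹ := by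
          group
      _ = _ := by rw [this]; group

theorem card_split {α : Type*} [Finite α] (q : α → Prop) :
    Nat.card {x // q x} + Nat.card {x // ¬ q x} = Nat.card α := by
  classical
  rw [← Nat.card_sum]
  exact Nat.card_congr (Equiv.sumCompl q)

/-- Let p be a prime and G a finite group that is not nilpotent and has a normal p-complement (a normal subgroup of order prime to p and index a power of p). If G has exactly one irreducible complex character of degree divisible by p, then G has exactly one conjugacy class whose size is divisible by p. -/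
theorem result {G : Type*} [Group G] [Finite G] (p : ℕ) [Fact p.Prime] (hnil : ¬ Group.IsNilpotent G) (N : Subgroup G) [N.Normal] (hN : (Nat.card N).Coprime p) (hidx : ∃ k : ℕ, N.index = p ^ k) (hone : Nat.card {χ : Cfsg.IrrCharacter G // p ∣ Cfsg.charDegree (χ : G → ℂ)} = 1) : Nat.card {C : ConjClasses G // p ∣ Nat.card C.carrier} = 1 := by
  have hp : p.Prime := Fact.out
  obtain ⟨k, hk⟩ := hidx
  obtain ⟨⟨χ, hχp⟩, hu⟩ := Nat.card_eq_one_iff_exists.1 hone
  have hu' : ∀ φ ψ : G → ℂ, IsIrrCharacter G φ → IsIrrCharacter G ψ → p ∣ charDegree φ →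
      p ∣ charDegree ψ → φ = ψ := by
    intro φ ψ hφ hψ h1 h2
    have e := (hu ⟨⟨φ, hφ⟩, h1⟩).trans (hu ⟨⟨ψ, hψ⟩, h2⟩).symm
    exact congrArg (fun x => (x.1 : G → ℂ)) e
  have hq : IsPGroup p (G ⧸ N) := IsPGroup.of_card hk
  have hab : _root_.commutator G ≤ N := by
    refine (eq_bot_or_commutator_le_of_unique N hq hu').resolve_left ?_
    rintro rfl
    rw [index_bot] at hk
    exact hnil (IsPGroup.of_card hk).isNilpotent
  obtain ⟨P⟩ : Nonempty (Sylow p G) := inferInstance
  have hP : Nat.card P = p ^ k := by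
    rw [P.card_eq_multiplicity, ← N.card_mul_index, hk,
      Nat.factorization_mul Nat.card_pos.ne' (pow_ne_zero k hp.ne_zero), Finsupp.add_apply,
      Nat.factorization_eq_zero_of_not_dvd ((Nat.Prime.coprime_iff_not_dvd hp).1 hN.symm),
      hp.factorization_pow]
    simp
  have hc : IsComplement' N P := isComplement'_of_coprime (by rw [hP, ← hk, N.card_mul_index])
    (hP ▸ hN.pow_right k)
  have h1 := count_irr N hN hk hab
  have h2 := count_cl N hN hab P hc
  have h3 := card_invariant_irr_eq_card_irr (A := P) (C := ↥(N ⊓ centralizer (P : Set G)))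
    (by haveI := P.isPGroup'.isNilpotent; infer_instance) N
    ((MulAut.conjNormal (H := N)).comp (P : Subgroup G).subtype)
    (inclusion inf_le_left) (inclusion_injective _) (fun z => by
      constructor
      · intro h
        refine ⟨⟨z, z.2, fun s hs => ?_⟩, rfl⟩
        have := congrArg Subtype.val (h ⟨s, hs⟩)
        change s * z * s⁻¹ = z at this
        rw [mul_inv_eq_iff_eq_mul] at this
        exact this
      · rintro ⟨c, rfl⟩ s
        apply Subtype.ext
        change s * (c : G) * (s : G)⁻¹ = c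
        rw [c.2.2 s s.2, mul_inv_cancel_right]) (hP ▸ hN.pow_right k)
  have h4 : Nat.card {θ : IrrCharacter N // ∀ (g : G) (n : N),
        (θ : N → ℂ) (MulAut.conjNormal g n) = (θ : N → ℂ) n} =
      Nat.card {θ : IrrCharacter N // ∀ (a : (P : Subgroup G)) (n : N), (θ : N → ℂ)
        (((MulAut.conjNormal (H := N)).comp (P : Subgroup G).subtype) a n) = (θ : N → ℂ) n} := by
    refine Nat.card_congr (Equiv.subtypeEquivRight fun θ => ⟨fun h a n => h a n, fun h g n => ?_⟩)
    obtain ⟨⟨m, x⟩, e, -⟩ := hc.existsUnique g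
    rw [← e, map_mul, MulAut.mul_apply, ← h ⟨x, x.2⟩ n]
    exact θ.2.isClassFunction.conj_apply _ ⟨m, m.2⟩
  have h5 := card_split (fun χ : IrrCharacter G => p ∣ charDegree (χ : G → ℂ))
  have h6 := card_split (fun C : ConjClasses G => p ∣ Nat.card C.carrier)
  rw [h1, h4, h3, card_irr_eq_card_conjClasses, card_irr_eq_card_conjClasses, hone, hk] at h5
  rw [h2, hP] at h6
  omega

end Cfsg.Agent.S4763
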