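import Cfsg.Statements.S4768
import Cfsg.Agent.S4713
import Cfsg.Agent.Lib.CharDeg.MinNonab

set_option autoImplicit false
open Cfsg

namespace Cfsg.Agent.S4768

open Cfsg.Lib.Char Cfsg.Lib.CharDeg Cfsg.Lib.Clifford Cfsg.Lib.Induce Cfsg.Lib.Core Subgroup
open scoped commutatorElement

section
variable {G : Type*} [Group G] [Finite G] {p : ℕ} [hp : Fact p.Prime]

theorem comm_of_cd (hG : IsPSolvable p G) (h : ∀ χ, IsIrrCharacter G χ → ¬ p ∣ charDegree χ)
    {Q : Subgroup G} (hQ : IsPGroup p Q) {a b : G} (ha : a ∈ Q) (hb : b ∈ Q) : a * b = b * a := by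
  obtain ⟨P, hP⟩ := hQ.exists_le_sylow
  exact congrArg Subtype.val (((Cfsg.Agent.S4713.result p hG P).2 fun χ => h _ χ.2).2.is_comm.comm
    (⟨a, hP ha⟩ : (P : Subgroup G)) ⟨b, hP hb⟩)

theorem commutator_mem (hG : IsPSolvable p G) (N : Subgroup G) [N.Normal] (hN : N ≠ ⊥)
    (hNp : IsPGroup p N) (h : ∀ χ, IsIrrCharacter G χ → p ∣ charDegree χ → ∀ x ∈ N, χ x = χ 1)
    (P : Sylow p G) {a b : G} (ha : a ∈ (P : Subgroup G)) (hb : b ∈ (P : Subgroup G)) :
    ⁅a, b⁆ ∈ N := by
  haveI := Fintype.ofFinite G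
  haveI := Fintype.ofFinite N
  haveI := Fintype.ofFinite (P : Subgroup G)
  have hNP : N ≤ P := by
    obtain ⟨Q, hQ⟩ := hNp.exists_le_sylow
    obtain ⟨g, rfl⟩ := MulAction.exists_smul_eq G Q P
    intro x hx
    have := (inferInstance : N.Normal).conj_mem x hx g⁻¹
    exact ⟨_, hQ this, by simp [mul_assoc]⟩
  obtain ⟨x, hx, hx1⟩ := (bot_or_exists_ne_one N).resolve_left hN
  obtain ⟨χ, hχ, hχx⟩ := exists_irr_apply_ne_of_ne_one hx1
  have hχp : ¬ p ∣ charDegree χ := fun hd => hχx (h χ hχ hd x hx)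
  obtain ⟨μ, hμ, hne, hμp⟩ := exists_constituent_not_dvd
    (hχ.isCharacter.restrict (P : Subgroup G)) hχp
  obtain ⟨μ, rfl⟩ := hμ.isCharacter.exists_hom_of_apply_one (by
    by_contra h1
    exact hμp ((dvd_charDegree_iff_of_isPGroup P.isPGroup' hμ).2 h1))
  set lam := μ.comp (inclusion hNP) with hlam
  have hl := isIrrCharacter_hom lam
  have h1 : classInner (fun n : N => χ n) (fun n => (lam n : ℂ)) ≠ 0 :=
    inner_comp_ne_zero_of_constituent (inclusion hNP) (hχ.isCharacter.restrict (P : Subgroup G)) hμ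
      hne hl.isCharacter (by
        rw [show (fun n => (μ (inclusion hNP n) : ℂ)) = fun n => (lam n : ℂ) from rfl, hl.inner_self]
        exact one_ne_zero)
  have hl1 : ∀ ξ, IsIrrCharacter G ξ → classInner (fun n : N => ξ n) (fun n => (lam n : ℂ)) ≠ 0 →
      ¬ p ∣ charDegree ξ := by
    intro ξ hξ h2 hd
    have h3 : (fun n => (lam n : ℂ)) = fun _ => 1 := funext fun n => by
      rw [(hξ.isCharacter.restrict N).apply_eq_of_constituent hl h2 (h ξ hξ hd n n.2)]; simp
    rw [h3, classInner_res_one_ne_zero_iff N hχ] at h1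
    exact hχx (h1 x hx)
  set T := inertia N (fun n => (lam n : ℂ)) with hT
  have hNT : N ≤ T := le_inertia N hl.isClassFunction
  have hPT : (P : Subgroup G) ≤ T := fun g hg => mem_inertia_hom.2 fun n => by
    have : inclusion hNP ⟨g * n * g⁻¹, (inferInstance : N.Normal).conj_mem _ n.2 g⟩ =
      ⟨g, hg⟩ * inclusion hNP n * ⟨g, hg⟩⁻¹ := rfl
    rw [hlam, MonoidHom.comp_apply, this, map_mul, map_mul, map_inv, mul_inv_cancel_comm]
    rfl
  obtain ⟨ψ, hψ, hψχ, hψ1⟩ := exists_indFun_eq_of_over N hNT hl le_rfl hχ h1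
  have h2 := res_eq_smul_of_le_inertia N hNT hψ hl (hψ1 ▸ h1) le_rfl
  have h3 : classInner (fun n : N => ψ ⟨n, hNT n.2⟩) (fun n => (lam n : ℂ)) = charDegree ψ := by
    have := congrFun h2 1
    rw [Pi.smul_apply, map_one, Units.val_one, smul_eq_mul, mul_one] at this
    rw [← this]
    exact hψ.apply_one_eq
  have h4 : (charDegree ψ).Coprime (Nat.card N) := by
    obtain ⟨k, hk⟩ := hNp.exists_card_eq
    rw [hk]
    refine Nat.Coprime.pow_right k ((Nat.Prime.coprime_iff_not_dvd hp.out).2 fun hd => hχp ?_).symm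
    rw [← hψχ, charDegree_indFun' T hψ.isCharacter]
    exact hd.mul_left _
  obtain ⟨c, -, hc⟩ := Nat.exists_mul_mod_eq_of_coprime 1 h4 Nat.card_pos.ne'
  have h5 : ∀ n : N, ((detHom ψ ^ c) ⟨n, hNT n.2⟩ : ℂ) = lam n := by
    intro n
    have h6 := congrFun (detChar_comp hψ.isCharacter (inclusion hNT)) n
    rw [show (fun x => ψ (inclusion hNT x)) = fun n : N => ψ ⟨n, hNT n.2⟩ from rfl, h2, h3,
      detChar_natCast_smul hl.isCharacter, detChar_hom, Pi.pow_apply] at h6
    rw [MonoidHom.pow_apply, Units.val_pow_eq_pow_val, detHom_apply]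
    change detChar ψ (inclusion hNT n) ^ c = _
    rw [← h6, ← pow_mul, pow_eq_pow_mod _ (hom_apply_pow_card lam n), hc,
      ← pow_eq_pow_mod _ (hom_apply_pow_card lam n), pow_one]
  have h6 := comm_of_cd (isPSolvable_quotient (isPSolvable_subgroup hG T) (N.subgroupOf T))
    (fun β hβ hd => by
      have h7 := hβ.inflate.hom_mul (detHom ψ ^ c)
      have h8 : classInner (fun n : N => ((detHom ψ ^ c) ⟨n, hNT n.2⟩ : ℂ) *
          β ((⟨n, hNT n.2⟩ : T) : T ⧸ N.subgroupOf T)) (fun n => (lam n : ℂ)) ≠ 0 := by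
        rw [show (fun n : N => ((detHom ψ ^ c) ⟨n, hNT n.2⟩ : ℂ) *
          β ((⟨n, hNT n.2⟩ : T) : T ⧸ N.subgroupOf T)) = β 1 • fun n => (lam n : ℂ) from
          funext fun n => by
            rw [h5, (QuotientGroup.eq_one_iff (⟨n, hNT n.2⟩ : T)).2 (mem_subgroupOf.2 n.2),
              Pi.smul_apply, smul_eq_mul, mul_comm],
          classInner_smul_left, hl.inner_self, mul_one]
        exact hβ.apply_one_ne_zero
      refine hl1 _ (isIrrCharacter_indFun_of_over N hNT hl le_rfl h7 h8)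
        (by rw [classInner_res_indFun_of_inertia_le N hNT hl le_rfl h7 h8]; exact h8) ?_
      rw [charDegree_indFun' T h7.isCharacter, charDegree_congr (ψ := β) (by simp)]
      exact hd.mul_left _)
    (((P.isPGroup'.comap_subtype (K := T))).map (QuotientGroup.mk' (N.subgroupOf T)))
    (mem_map_of_mem _ (show (⟨a, hPT ha⟩ : T) ∈ _ from ha))
    (mem_map_of_mem _ (show (⟨b, hPT hb⟩ : T) ∈ _ from hb))
  rw [← commutatorElement_eq_one_iff_mul_comm, ← map_commutatorElement, QuotientGroup.mk'_apply,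
    QuotientGroup.eq_one_iff] at h6
  exact h6

omit hp in
theorem count (N : Subgroup G) [N.Normal] :
    Nat.card {χ : IrrCharacter (G ⧸ N) // p ∣ charDegree (χ : G ⧸ N → ℂ)} ≤
      Nat.card {χ : IrrCharacter G // p ∣ charDegree (χ : G → ℂ)} ∧
    ((∃ χ, IsIrrCharacter G χ ∧ p ∣ charDegree χ ∧ ∃ x ∈ N, χ x ≠ χ 1) →
      Nat.card {χ : IrrCharacter (G ⧸ N) // p ∣ charDegree (χ : G ⧸ N → ℂ)} <
      Nat.card {χ : IrrCharacter G // p ∣ charDegree (χ : G → ℂ)}) := by
  let F : {χ : IrrCharacter (G ⧸ N) // p ∣ charDegree (χ : G ⧸ N → ℂ)} →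
      {χ : IrrCharacter G // p ∣ charDegree (χ : G → ℂ)} := fun β => ⟨⟨_, β.1.2.inflate⟩, β.2⟩
  have hF : Function.Injective F := fun β γ e => Subtype.ext (Subtype.ext (funext fun y => by
    obtain ⟨x, rfl⟩ := QuotientGroup.mk_surjective y
    exact congrFun (congrArg (fun z => (z.1 : G → ℂ)) e) x))
  refine ⟨Nat.card_le_card_of_injective F hF, fun ⟨χ, hχ, hd, x, hx, hne⟩ => ?_⟩
  haveI := Fintype.ofFinite {χ : IrrCharacter (G ⧸ N) // p ∣ charDegree (χ : G ⧸ N → ℂ)}
  haveI := Fintype.ofFinite {χ : IrrCharacter G // p ∣ charDegree (χ : G → ℂ)}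
  rw [Nat.card_eq_fintype_card, Nat.card_eq_fintype_card]
  refine Fintype.card_lt_of_injective_of_notMem F hF (b := ⟨⟨χ, hχ⟩, hd⟩) ?_
  rintro ⟨β, e⟩
  obtain rfl : (fun g : G => (β.1 : G ⧸ N → ℂ) g) = χ := congrArg (fun z => (z.1 : G → ℂ)) e
  exact hne (inflate_apply_of_mem N _ hx)

end

theorem derived_mono {G : Type*} [Group G] {a b : ℕ} (h : derivedSeries G a = ⊥) (hab : a ≤ b) :
    derivedSeries G b = ⊥ := by
  induction hab with
  | refl => exact h
  | step _ ih => rw [derivedSeries_succ, ih]; simp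

universe u in
theorem aux (p : ℕ) [Fact p.Prime] (k : ℕ) : ∀ (G : Type u) [Group G] [Finite G], Nat.card G = k →
    IsPSolvable p G → ∀ P : Sylow p G, derivedSeries (P : Subgroup G)
      (Nat.card {χ : IrrCharacter G // p ∣ charDegree (χ : G → ℂ)} + 1) = ⊥ := by
  induction k using Nat.strong_induction_on with
  | _ k ih =>
  intro G _ _ hk hG P
  rcases subsingleton_or_nontrivial G with hs | hs
  · exact Subsingleton.elim _ _
  obtain ⟨N, hN⟩ := exists_isMinNormal (G := G)
  haveI := hN.normal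
  have hc := N.card_mul_index
  have h3 : 1 < Nat.card N := (one_lt_card_iff_ne_bot N).2 hN.ne_bot
  have h4 := Nat.pos_of_ne_zero (N.index_ne_zero_of_finite)
  have h5 := ih _ (by rw [← hk, ← hc]; change N.index < _; nlinarith) (G ⧸ N) rfl
    (isPSolvable_quotient hG N) (P.mapSurjective (QuotientGroup.mk'_surjective N))
  have h6 : ∀ j, derivedSeries ((P : Subgroup G).map (QuotientGroup.mk' N)) j = ⊥ →
      derivedSeries (P : Subgroup G) j ≤ N.subgroupOf P := fun j hj => by
    rw [← map_derivedSeries_eq ((QuotientGroup.mk' N).subgroupMap_surjective P),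
      Subgroup.map_eq_bot_iff] at hj
    exact fun x hx => (QuotientGroup.eq_one_iff (x : G)).1 (congrArg Subtype.val (hj hx))
  rcases IsMinNormal.isPGroup_or_coprime hN (isPSolvable_subgroup hG N) with hp | hp
  swap
  · refine eq_bot_iff.2 ((h6 _ (derived_mono h5 (Nat.succ_le_succ (count N).1))).trans ?_)
    obtain ⟨j, hj⟩ := P.isPGroup'.exists_card_eq
    intro x hx
    exact orderOf_eq_one_iff.1 (Nat.eq_one_of_dvd_coprimes (hp.pow_right j)
      (by rw [← Subgroup.orderOf_coe]; exact N.orderOf_dvd_natCard hx) (hj ▸ orderOf_dvd_natCard x))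
  haveI := hp.isNilpotent
  have h7 : ∀ j, derivedSeries (P : Subgroup G) j ≤ N.subgroupOf P →
      derivedSeries (P : Subgroup G) (j + 1) = ⊥ := fun j hj => by
    rw [derivedSeries_succ, eq_bot_iff, commutator_le]
    intro a ha b hb
    have := congrArg Subtype.val
      ((hN.isMulCommutative inferInstance).is_comm.comm (⟨a, hj ha⟩ : N) ⟨b, hj hb⟩)
    exact commutatorElement_eq_one_iff_mul_comm.2 (Subtype.ext this)
  by_cases h8 : ∃ χ, IsIrrCharacter G χ ∧ p ∣ charDegree χ ∧ ∃ x ∈ N, χ x ≠ χ 1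
  · exact h7 _ (h6 _ (derived_mono h5 ((count N).2 h8)))
  push Not at h8
  by_cases h9 : ∃ χ, IsIrrCharacter G χ ∧ p ∣ charDegree χ
  · obtain ⟨χ, hχ, hd⟩ := h9
    haveI : Nonempty {χ : IrrCharacter G // p ∣ charDegree (χ : G → ℂ)} := ⟨⟨⟨χ, hχ⟩, hd⟩⟩
    refine derived_mono (h7 1 ?_) (Nat.succ_le_succ Nat.card_pos)
    rw [derivedSeries_one, _root_.commutator_def, commutator_le]
    exact fun a _ b _ => commutator_mem hG N hN.ne_bot hp h8 P a.2 b.2
  · push Not at h9
    refine derived_mono (a := 1) ?_ (Nat.succ_le_succ (Nat.zero_le _))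
    rw [derivedSeries_one, _root_.commutator_def, eq_bot_iff, commutator_le]
    exact fun a _ b _ => commutatorElement_eq_one_iff_mul_comm.2
      (Subtype.ext (comm_of_cd hG h9 P.isPGroup' a.2 b.2))

/-- Let p be a prime, G a finite p-solvable group and P a Sylow p-subgroup of G. If n is the number of irreducible complex characters of G whose degree is divisible by p, then the (n+1)-st term of the derived series of P is trivial. (The p-solvable case has a direct inductive proof.) -/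
theorem result {G : Type*} [Group G] [Finite G] (p : ℕ) [Fact p.Prime] (hG : Cfsg.IsPSolvable p G) (P : Sylow p G) : derivedSeries ↥(P : Subgroup G) (Nat.card {χ : Cfsg.IrrCharacter G // p ∣ Cfsg.charDegree (χ : G → ℂ)} + 1) = ⊥ := by
  exact aux p _ G rfl hG P

end Cfsg.Agent.S4768
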