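import Cfsg.Statements.S4775
import Cfsg.Agent.Lib.Sz.Degrees

set_option autoImplicit false
open Cfsg

namespace Cfsg.Agent.S4775

open Lib.PF

/-- Let F be a finite field with q = 2^(2m+1) ≥ 8 elements and let S be isomorphic to the Suzuki group over F. Then the vertices of the character degree graph of S are 2 and the primes dividing (q − 1)(q² + 1); the primes dividing (q − 1)(q² + 1) are pairwise adjacent, and 2 is adjacent exactly to the primes dividing q − 1. -/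
theorem result (F : Type*) [Field F] [Fintype F] (m : ℕ) (hm : 1 ≤ m) (q : ℕ) (hq : Fintype.card F = q) (hqm : q = 2 ^ (2 * m + 1)) {S : Type*} [Group S] [Finite S] (hS : Nonempty (S ≃* ↥(Cfsg.Lie.Sz F (2 ^ (m + 1))))) : Cfsg.degreePrimes S = {r : ℕ | r.Prime ∧ (r = 2 ∨ r ∣ (q - 1) * (q ^ 2 + 1))} ∧ ∀ r s : ℕ, (Cfsg.degreeGraph S).Adj r s ↔ (r ≠ s ∧ r.Prime ∧ s.Prime ∧ ((r ∣ (q - 1) * (q ^ 2 + 1) ∧ s ∣ (q - 1) * (q ^ 2 + 1)) ∨ (r = 2 ∧ s ∣ q - 1) ∨ (s = 2 ∧ r ∣ q - 1))) := by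
  obtain ⟨e⟩ := hS
  let M := (Lib.Sz.lieModel (hq.trans hqm)).congr e
  have hF : Nat.card F = q := Nat.card_eq_fintype_card.trans hq
  have q1 : 1 ≤ q := hF ▸ Nat.card_pos
  obtain ⟨⟨a, ha⟩, ⟨b, hb⟩, ⟨c, hc⟩, ⟨d, hd⟩, h⟩ := M.degrees (hF.trans hqm) hm (q := q) rfl (by
    rw [hqm]; push_cast; ring)
  have c1 : ((q - 1 : ℕ) : ℤ) = q - 1 := Nat.cast_pred q1
  have f : (q : ℤ) ^ 2 + 1 = (q + 2 * 2 ^ m + 1) * (q - 2 * 2 ^ m + 1) := by rw [hqm]; push_cast; ring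
  have t : ∀ r : ℕ, r.Prime → r ∣ (q - 1) * (q ^ 2 + 1) → (r ∣ deg b.1 ∧ r ∣ deg c.1) ∨ (r ∣ deg a.1 ∧ r ∣ deg c.1) ∨
      (r ∣ deg a.1 ∧ r ∣ deg b.1) := fun r hr h => by
    simp only [← Int.natCast_dvd_natCast, ha, hb, hc, f, Nat.cast_mul, c1, Nat.cast_add, Nat.cast_pow, Nat.cast_one] at h ⊢
    have p := Nat.prime_iff_prime_int.1 hr
    exact (p.dvd_or_dvd h).imp (fun h => ⟨h.mul_right _, h.mul_right _⟩) fun h => (p.dvd_or_dvd h).imp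
      (fun h => ⟨h.mul_right _, h.mul_left _⟩) fun h => ⟨h.mul_left _, h.mul_left _⟩
  have u : ∀ (χ : IrrCharacter S) (r : ℕ), r.Prime → r ∣ deg χ.1 → r = 2 ∨ r ∣ (q - 1) * (q ^ 2 + 1) := fun χ r hr h => by
    have := h.trans (Irr.deg_dvd_card (mem_Irr_top.2 χ.2))
    rw [Subgroup.card_top, M.card_G, hF, mul_assoc, hr.dvd_mul] at this
    exact this.imp_left fun h => (Nat.prime_dvd_prime_iff_eq hr Nat.prime_two).1
      (hr.dvd_of_dvd_pow (hqm ▸ hr.dvd_of_dvd_pow h))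
  replace hd : 2 * (q - 1) ∣ deg d.1 := by rwa [← Int.natCast_dvd_natCast, Nat.cast_mul, c1]
  have w : ∀ (χ : IrrCharacter S) (s : ℕ), s.Prime → s ≠ 2 → 2 ∣ deg χ.1 → s ∣ deg χ.1 → s ∣ q - 1 := fun χ s hs n h1 h2 =>
    (hs.dvd_mul.1 ((u χ s hs h2).resolve_left n)).resolve_right fun h3 => h χ s hs (by exact_mod_cast h3) h2 h1
  refine ⟨Set.ext fun r => and_congr_right fun hr => ⟨fun ⟨_, ⟨χ, rfl⟩, h⟩ => u χ r hr h, ?_⟩, fun r s =>
    and_congr_right fun n => and_congr_right fun hr => and_congr_right fun hs => ⟨fun ⟨_, ⟨χ, rfl⟩, h⟩ => ?_, ?_⟩⟩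
  · rintro (rfl | h)
    · exact ⟨_, ⟨d, rfl⟩, (dvd_mul_right _ _).trans hd⟩
    rcases t r hr h with h | h | h <;> exact ⟨_, ⟨_, rfl⟩, h.1⟩
  · have h1 := (dvd_mul_right r s).trans h
    have h2 := (dvd_mul_left s r).trans h
    rcases u χ r hr h1 with rfl | h3
    · exact .inr (.inl ⟨rfl, w χ s hs n.symm h1 h2⟩)
    rcases u χ s hs h2 with rfl | h4
    · exact .inr (.inr ⟨rfl, w χ r hr n h2 h1⟩)
    · exact .inl ⟨h3, h4⟩
  · have v : ∀ χ : IrrCharacter S, r ∣ deg χ.1 → s ∣ deg χ.1 → ∃ d ∈ charDegrees S, r * s ∣ d := fun χ h1 h2 =>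
      ⟨_, ⟨χ, rfl⟩, ((Nat.coprime_primes hr hs).2 n).mul_dvd_of_dvd_of_dvd h1 h2⟩
    rintro (⟨h1, h2⟩ | ⟨rfl, h⟩ | ⟨rfl, h⟩)
    · rcases t r hr h1 with h | h | h <;> rcases t s hs h2 with h' | h' | h' <;>
        first | exact v _ h.1 h'.1 | exact v _ h.2 h'.2 | exact v _ h.1 h'.2 | exact v _ h.2 h'.1
    · exact v d ((dvd_mul_right _ _).trans hd) ((h.mul_left _).trans hd)
    · exact v d ((h.mul_left _).trans hd) ((dvd_mul_right _ _).trans hd)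

end Cfsg.Agent.S4775
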