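import Cfsg.Statements.S4780
import Cfsg.Agent.Lib.Nd4.Main

set_option autoImplicit false
open Cfsg

namespace Cfsg.Agent.S4780

open Cfsg.Lib.CharDeg

/-- Let G be a finite solvable group in which no irreducible complex character degree a with 1 < a divides a larger irreducible character degree b. Then G has at most 4 distinct irreducible character degrees and derived length at most 3. -/
theorem result {G : Type*} [Group G] [Finite G] [Group.IsSolvable G] (hnd : ∀ a ∈ Cfsg.charDegrees G, ∀ b ∈ Cfsg.charDegrees G, 1 < a → a < b → ¬ a ∣ b) : Nat.card ↥(Cfsg.charDegrees G) ≤ 4 ∧ derivedSeries G 3 = ⊥ := by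
  have := Fintype.ofFinite G
  have nd : ∀ a ∈ cd G, ∀ b ∈ cd G, a ≠ 1 → a ∣ b → a = b := fun a ha b hb h1 h2 => by_contra fun e =>
    hnd a (mem_cd.1 ha) b (mem_cd.1 hb) (by have := pos_of_mem_cd ha; omega)
      (lt_of_le_of_ne (Nat.le_of_dvd (pos_of_mem_cd hb) h2) e) h2
  exact (Cfsg.Lib.Nd4.main nd).imp_left (card_cd.symm.trans_le)

end Cfsg.Agent.S4780
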