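import Cfsg.Statements.S4781
import Cfsg.Agent.Lib.Nda.D
import Cfsg.Agent.Lib.CharDeg.MinNonab

set_option autoImplicit false
open Cfsg

namespace Cfsg.Agent.S4781

open Cfsg.Lib Cfsg.Lib.Char Cfsg.Lib.CharDeg Cfsg.Lib.Clifford Cfsg.Lib.Core Cfsg.Lib.Gar Cfsg.Lib.Nda Subgroup
open scoped commutatorElement

theorem one_comp {G : Type*} [Group G] [Finite G] {p s : ℕ} (hp : p.Prime) (hs : s.Prime)
    (h : ∀ d ∈ cd G, d ≠ 1 → (p ∣ d ∨ s ∣ d) ∧ ∃ e ∈ cd G, p ∣ e ∧ s ∣ e) :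
    Nat.card ((degreeGraph G).induce (degreePrimes G)).ConnectedComponent ≠ 2 := by
  have aux : ∀ (a b : degreePrimes G), ∀ d ∈ cd G, a.1 ∣ d → b.1 ∣ d →
      ((degreeGraph G).induce (degreePrimes G)).Reachable a b := fun a b d hd h1 h2 => by
    by_cases e : a.1 = b.1
    · rw [Subtype.ext e]
    · exact SimpleGraph.Adj.reachable ⟨e, a.2.1, b.2.1, d, mem_cd.1 hd,
        Nat.Coprime.mul_dvd_of_dvd_of_dvd ((Nat.coprime_primes a.2.1 b.2.1).2 e) h1 h2⟩
  have k : ∀ a : degreePrimes G, ∃ h : p ∈ degreePrimes G,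
      ((degreeGraph G).induce (degreePrimes G)).Reachable a ⟨p, h⟩ := fun a => by
    obtain ⟨d, hd, h1⟩ := a.2.2
    obtain ⟨h2, e, e1, e2, e3⟩ := h d (mem_cd.2 hd) (by rintro rfl; exact a.2.1.not_dvd_one h1)
    refine ⟨⟨hp, e, mem_cd.1 e1, e2⟩, h2.elim (fun h2 => aux _ _ d (mem_cd.2 hd) h1 h2) fun h2 => ?_⟩
    exact (aux a ⟨s, hs, e, mem_cd.1 e1, e3⟩ d (mem_cd.2 hd) h1 h2).trans (aux _ _ e e1 e3 e2)
  intro e
  obtain ⟨A, B, h1, -⟩ := Nat.card_eq_two_iff.1 e
  obtain ⟨a, rfl⟩ := A.exists_rep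
  obtain ⟨b, rfl⟩ := B.exists_rep
  exact h1 (SimpleGraph.ConnectedComponent.sound ((k a).2.trans (k b).2.symm))

theorem uniq {G : Type*} [Group G] [Finite G] [Group.IsSolvable G] {N : Subgroup G} [N.Normal] {p : ℕ}
    (hp : p.Prime) (nd : ∀ a ∈ cd G, ∀ b ∈ cd G, a ≠ 1 → a ∣ b → a = b) (h0 : N.index ≠ 1)
    (h1 : _root_.commutator G ≤ N) (h2 : ¬ p ∣ N.index) (h3 : ∀ m ∈ cd N, m ≠ 1 → p ∣ m)
    (h4 : ∀ d ∈ cd G, p ∣ d → d.Coprime N.index) (h5 : ∀ y ∉ N, ∃ x ∈ N, ⁅y, x⁆ ∉ ⁅N, N⁆) :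
    ∃ m, ∀ d ∈ cd N, d ≠ 1 → d = m := by
  obtain ⟨r, hr, hd⟩ := Nat.exists_prime_and_dvd h0
  have := Fact.mk hr
  obtain ⟨y, hy⟩ := exists_prime_orderOf_dvd_card' (G := G ⧸ N) r hd
  obtain ⟨y, rfl⟩ := QuotientGroup.mk_surjective y
  set T := (zpowers (y : G ⧸ N)).comap (QuotientGroup.mk' N)
  have l : N ≤ T := le_comap_mk'' _ _
  have := Normal.of_commutator_le G (h1.trans l)
  have := Fintype.ofFinite T
  have e := cd_congr (subgroupOfEquivOfLe l)
  have ix : (N.subgroupOf T).index = r := by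
    rw [← hy, ← Nat.card_zpowers, ← map_comap_mk' N (zpowers _), card_map_mk'_eq_relIndex]; rfl
  have up : ∀ a ∈ cd T, p ∣ a → a ∈ cd G := fun a ha h => by
    obtain ⟨k, k1, k2⟩ := exists_mem_cd_of_normal T ha
    rwa [Nat.eq_one_of_dvd_coprimes (h4 _ k2 (h.mul_left _)) (dvd_mul_right _ _)
      (k1.trans (index_dvd_of_le l)), one_mul] at k2
  have cl : ∀ a ∈ cd T, ¬ p ∣ a → a ∣ r := fun a ha h => by
    obtain ⟨k, m, k1, k2, rfl⟩ := exists_mem_cd_normal (N.subgroupOf T) ha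
    rwa [by_contra fun c => h ((h3 m (e ▸ k2) c).mul_left _), mul_one, ← ix]
  have H : Hy T (N.subgroupOf T) r := ⟨hr, ix, fun χ c1 c2 => by
      obtain ⟨ψ, p1, p2⟩ := Induce.exists_irr_below (N.subgroupOf T) c1
      refine (kr_iff c1 p1 p2).2 (by_contra fun c => hr.ne_one (Nat.eq_one_of_dvd_coprimes
        (?_ : (charDegree χ).Coprime _) c2 hd))
      have := (h3 _ (e ▸ charDegree_mem_cd p1) c).trans ((dvd_mul_left _ _).trans (deg_dvd c1 p1 p2))
      exact h4 _ (up _ (charDegree_mem_cd c1) this) this,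
    fun a ha b hb a1 ab => by
      by_cases c : p ∣ b
      · by_cases c' : p ∣ a
        · exact nd a (up a ha c') b (up b hb c) a1 ab
        · exact absurd (Nat.eq_one_of_dvd_coprimes (h4 _ (up b hb c) c) ab ((cl a ha c').trans hd)) a1
      · rcases (Nat.dvd_prime hr).1 (cl b hb c) with rfl | rfl
        · exact absurd (Nat.eq_one_of_dvd_one ab) a1
        · exact ((Nat.dvd_prime hr).1 ab).resolve_left a1,
    fun c => by
      obtain ⟨x, x1, x2⟩ := h5 y fun h => hr.ne_one (by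
        rw [← hy, (QuotientGroup.eq_one_iff y).2 h, orderOf_one])
      have := mem_map_of_mem T.subtype (c (commutator_mem_commutator
        (mem_top ⟨y, mem_zpowers _⟩) (show ⟨x, l x1⟩ ∈ N.subgroupOf T from x1)))
      rw [map_commutator, map_subgroupOf_eq_of_le l] at this
      exact x2 this⟩
  obtain ⟨m, hm⟩ := Hy.main T inferInstance _ r H
  refine ⟨m, fun d h c => ?_⟩
  obtain ⟨ψ, p1, rfl⟩ := mem_cd'.1 (e ▸ h : d ∈ cd (N.subgroupOf T))
  obtain ⟨-, χ, c1, c2, c3⟩ := H.res p1 c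
  rw [← c3, hm χ c1 c2]

/-- Let G be a finite solvable group in which no irreducible complex character degree a with 1 < a divides a larger irreducible character degree, and suppose the character degree graph of G (primes dividing some degree, distinct primes adjacent when their product divides a degree) has exactly two connected components. Then G has exactly three distinct irreducible character degrees. -/
theorem result {G : Type*} [Group G] [Finite G] [Group.IsSolvable G] (hnd : ∀ a ∈ Cfsg.charDegrees G, ∀ b ∈ Cfsg.charDegrees G, 1 < a → a < b → ¬ a ∣ b) (htwo : Nat.card ((Cfsg.degreeGraph G).induce (Cfsg.degreePrimes G)).ConnectedComponent = 2) : Nat.card ↥(Cfsg.charDegrees G) = 3 := by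
  have nd : ∀ a ∈ cd G, ∀ b ∈ cd G, a ≠ 1 → a ∣ b → a = b := fun a ha b hb h1 h2 => by_contra fun e =>
    hnd a (mem_cd.1 ha) b (mem_cd.1 hb) (by have := pos_of_mem_cd ha; omega)
      (lt_of_le_of_ne (Nat.le_of_dvd (pos_of_mem_cd hb) h2) e) h2
  by_cases hc : _root_.commutator G ≤ ⊥
  · refine absurd htwo (one_comp Nat.prime_two Nat.prime_two fun d hd h1 => absurd ?_ h1)
    obtain ⟨χ, hχ, rfl⟩ := mem_cd'.1 hd
    exact hχ.isCharacter.charDegree_eq_one_iff.2 (apply_one_of_commutator_le_ker hχ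
      fun x hx => by rw [mem_bot.1 (hc hx)])
  obtain ⟨K, _, -, hK⟩ := exists_minNonab ⊥ hc
  have hπ := QuotientGroup.mk'_surjective K
  obtain ⟨p, hp, hP | ⟨h1, h2, h3, h4⟩⟩ := hK.struct inferInstance <;> have := Fact.mk hp
  · obtain ⟨m, hm, hm1⟩ : ∃ m ∈ cd (G ⧸ K), m ≠ 1 := by
      by_contra! h
      exact hK.ne_bot (eq_bot_iff.2 (commutator_le.2 fun a _ b _ =>
        commutatorElement_eq_one_iff_mul_comm.2 (comm_iff_cd.2 h a b)))
    obtain ⟨k, hk⟩ := hP.exists_card_eq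
    have k : ∀ d ∈ cd G, d ≠ 1 → p ∣ d := fun d hd e => by_contra fun h => hm1
      ((Nat.mul_eq_right (pos_of_mem_cd hd).ne').1 (nd d hd _ (mul_mem_cd_of_coprime K hm hd (by
        rw [index, hk]
        exact (hp.coprime_iff_not_dvd.2 h).symm.pow_right k)) e (dvd_mul_left _ _)).symm)
    exact absurd htwo (one_comp hp hp fun d hd e => ⟨.inl (k d hd e), d, hd, k d hd e, k d hd e⟩)
  obtain ⟨k, hk⟩ := h1.exists_card_eq
  set N := (_root_.commutator (G ⧸ K)).comap (QuotientGroup.mk' K)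
  rw [← index_comap_of_surjective _ hπ] at h3
  have mu : ∀ m ∈ cd N, ¬ p ∣ m → N.index * m ∈ cd G := fun m hm h => by
    obtain ⟨ψ, hψ, rfl⟩ := mem_cd'.1 hm
    rw [index_comap_of_surjective _ hπ]
    exact h4.mul_mem_cd _ hπ hK.ne_bot h2 rfl hψ
      (hk ▸ (hp.coprime_iff_not_dvd.2 h).symm.pow_right k)
  have f1 := mul_one N.index ▸ mu 1 one_mem_cd hp.not_dvd_one
  have ab : ⁅N, N⁆ ≤ K := by
    rw [commutator_le_iff_map_mk', map_comap_mk', commutator_eq_bot_iff_le_centralizer]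
    exact le_centralizer_iff_isMulCommutative.2 h2
  have f2 : N.index ≠ 1 := fun e => hK.ne_bot (by
    rw [index_eq_one] at e
    rw [e, commutator_le_iff_map_mk', map_top_of_surjective _ hπ] at ab
    exact ab)
  have pm : ∀ m ∈ cd N, m ≠ 1 → p ∣ m := fun m hm e => by_contra fun h => e ((Nat.mul_eq_left
    index_ne_zero_of_finite).1 (nd _ f1 _ (mu m hm h) f2 (dvd_mul_right _ _)).symm)
  have cl : ∀ d ∈ cd G, d ≠ 1 → ¬ p ∣ d → d = N.index := fun d hd e h => by
    obtain ⟨k, m, k1, k2, rfl⟩ := exists_mem_cd_normal N hd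
    refine nd _ hd _ f1 e ?_
    rwa [by_contra fun c => h ((pm m k2 c).mul_left _), mul_one]
  have cp : ∀ d ∈ cd G, p ∣ d → d.Coprime N.index := fun d hd h => by_contra fun c => by
    obtain ⟨s, hs, s1, s2⟩ := Nat.Prime.not_coprime_iff_dvd.1 c
    exact one_comp hp hs (fun a ha e => ⟨or_iff_not_imp_left.2 fun h => cl a ha e h ▸ s2,
      d, hd, h, s1⟩) htwo
  obtain ⟨b, b1, b2⟩ : ∃ b ∈ cd G, p ∣ b := by
    by_contra! h
    obtain ⟨s, hs, s1⟩ := Nat.exists_prime_and_dvd f2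
    exact one_comp hs hs (fun a ha e => ⟨.inl (cl a ha e (h a ha) ▸ s1), _, f1, s1, s1⟩) htwo
  obtain ⟨m, hm⟩ := uniq hp nd f2 (map_le_iff_le_comap.1 (map_derivedSeries_le_derivedSeries _ 1))
    h3 pm cp fun y hy => by
      by_contra! h
      have := (nontrivial_iff_ne_bot _).2 hK.ne_bot
      obtain ⟨μ, hμ⟩ := exists_hom_ne_one_of_comm (V := _root_.commutator (G ⧸ K))
      refine hμ (h4 y hy μ fun ⟨v, hv⟩ => congrArg μ (Subtype.ext ?_))
      obtain ⟨x, rfl⟩ := hπ v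
      exact mul_inv_eq_one.1 ((QuotientGroup.eq_one_iff _).2 (ab (h x hv)))
  have km : ∀ d ∈ cd G, p ∣ d → d = m := fun d hd h => by
    obtain ⟨k, j, k1, k2, rfl⟩ := exists_mem_cd_normal N hd
    obtain rfl := Nat.eq_one_of_dvd_coprimes (cp _ hd h) (dvd_mul_right _ _) k1
    rw [one_mul] at h ⊢
    exact hm j k2 (by rintro rfl; exact hp.not_dvd_one h)
  refine card_cd.symm.trans (Finset.card_eq_three.2 ⟨1, N.index, b, f2.symm, ?_, ?_,
    Finset.ext fun d => ⟨fun hd => ?_, ?_⟩⟩)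
  · rintro rfl; exact hp.not_dvd_one b2
  · rintro rfl; exact h3 b2
  · simp only [Finset.mem_insert, Finset.mem_singleton]
    by_cases e : p ∣ d
    · exact .inr (.inr ((km d hd e).trans (km b b1 b2).symm))
    · exact or_iff_not_imp_left.2 fun c => .inl (cl d hd c e)
  · simp only [Finset.mem_insert, Finset.mem_singleton]
    rintro (rfl | rfl | rfl)
    exacts [one_mem_cd, f1, b1]

end Cfsg.Agent.S4781
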