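import Cfsg.Statements.S4782
import Cfsg.Agent.Lib.CharDeg.Cd
import Cfsg.Agent.Lib.Char.Burnside

set_option autoImplicit false
open Cfsg

namespace Cfsg.Agent.S4782

open Cfsg.Lib Cfsg.Lib.CharDeg Cfsg.Lib.Char

universe u

/-- Burnside's argument: in a simple group an `r`-central element forces commutativity when every
degree prime to `s` is a power of `r`. -/
theorem simple_case {G : Type u} [Group G] [Finite G] [IsSimpleGroup G] {r s : ℕ} (hr : r.Prime)
    (hs : s.Prime) (hrG : r ∣ Nat.card G)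
    (h : ∀ n ∈ cd G, ∀ t : ℕ, t.Prime → t ∣ n → t = r ∨ t = s) : Group.IsSolvable G := by
  have := Fact.mk hr
  obtain ⟨P⟩ : Nonempty (Sylow r G) := inferInstance
  have : Nontrivial P := (Subgroup.nontrivial_iff_ne_bot _).2 (P.ne_bot_of_dvd_card hrG)
  have := P.isPGroup'.center_nontrivial
  obtain ⟨z, hz⟩ := exists_ne (1 : Subgroup.center P)
  have hz1 : ((z : P) : G) ≠ 1 := fun hh => hz (Subtype.ext (Subtype.ext hh))
  have hle : (P : Subgroup G) ≤ Subgroup.centralizer ({((z : P) : G)} : Set G) := fun x hx => by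
    rw [Subgroup.mem_centralizer_singleton_iff]
    exact congrArg Subtype.val (Subgroup.mem_center_iff.1 z.2 ⟨x, hx⟩)
  have hdvd := Subgroup.index_dvd_of_le hle
  obtain ⟨χ, hχ, h1, h2, h3⟩ := exists_irr_ne_one_not_dvd_apply_ne_zero hz1 hs
  have hcop : (charDegree χ).Coprime (Subgroup.centralizer ({((z : P) : G)} : Set G)).index := by
    refine Nat.coprime_of_dvd fun t ht h4 h5 => ?_
    rcases h _ (charDegree_mem_cd hχ) t ht h4 with rfl | rfl
    · exact P.not_dvd_index (h5.trans hdvd)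
    · exact h2 h4
  have h4 := hχ.isCharacter.charCenter_le_center (hχ.charKer_eq_bot_of_isSimpleGroup h1)
    (hχ.isCharacter.mem_charCenter_iff.2 ((hχ.eq_zero_or_norm_eq_of_coprime hcop).resolve_left h3))
  have h5 : Subgroup.center G = ⊤ :=
    (Subgroup.Normal.eq_bot_or_eq_top inferInstance).resolve_left fun h => hz1 (by
      rwa [h, Subgroup.mem_bot] at h4)
  have : IsMulCommutative G := ⟨⟨fun a b => by
    have : b ∈ Subgroup.center G := h5 ▸ Subgroup.mem_top b
    exact Subgroup.mem_center_iff.1 this a⟩⟩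
  exact Core.isSolvable_of_isMulCommutative G

theorem aux (G : Type u) [Group G] [Finite G] {p q : ℕ} (hp : p.Prime) (hq : q.Prime)
    (h : ∀ n ∈ cd G, ∀ t : ℕ, t.Prime → t ∣ n → t = p ∨ t = q) : Group.IsSolvable G := by
  revert h
  refine Core.induction_on_card (P := fun G _ _ =>
    (∀ n ∈ cd G, ∀ t : ℕ, t.Prime → t ∣ n → t = p ∨ t = q) → Group.IsSolvable G) G ?_
  intro G _ _ ih h
  rcases subsingleton_or_nontrivial G with hG | hG
  · infer_instance
  by_cases hs : IsSimpleGroup G
  · by_cases hc : ∀ n ∈ cd G, n = 1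
    · have : IsMulCommutative G := ⟨⟨comm_iff_cd.2 hc⟩⟩
      exact Core.isSolvable_of_isMulCommutative G
    · push Not at hc
      obtain ⟨n, hn, h1⟩ := hc
      obtain ⟨r, hr, hrn⟩ := Nat.exists_prime_and_dvd h1
      have hrG := hrn.trans (dvd_card_of_mem_cd hn)
      rcases h n hn r hr hrn with rfl | rfl
      · exact simple_case hr hq hrG h
      · exact simple_case hr hp hrG fun n hn t ht h2 => (h n hn t ht h2).symm
  · have : ∃ N : Subgroup G, N.Normal ∧ N ≠ ⊥ ∧ N ≠ ⊤ := by
      by_contra hcon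
      push Not at hcon
      exact hs ⟨fun N hN => or_iff_not_imp_left.2 (hcon N hN)⟩
    obtain ⟨N, hN, h1, h2⟩ := this
    refine Core.isSolvable_of_normal_quotient N
      (ih N (Core.card_lt_of_ne_top h2) fun n hn t ht hd => ?_)
      (ih _ (Core.card_quotient_lt h1) fun n hn => h n (cd_quotient_subset N hn))
    obtain ⟨k, -, hk⟩ := exists_mem_cd_of_normal N hn
    exact h _ hk t ht (hd.mul_left k)

/-- If the finite group G is not solvable, then at least three distinct primes each divide some irreducible complex character degree of G. -/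
theorem result {G : Type*} [Group G] [Finite G] (hG : ¬ Group.IsSolvable G) : ∃ p q r : ℕ, p ≠ q ∧ q ≠ r ∧ p ≠ r ∧ p ∈ Cfsg.degreePrimes G ∧ q ∈ Cfsg.degreePrimes G ∧ r ∈ Cfsg.degreePrimes G := by
  by_contra hc
  have key : ∀ p q : ℕ, p.Prime → q.Prime → (∀ t ∈ degreePrimes G, t = p ∨ t = q) → False :=
    fun p q hp hq h => hG (aux G hp hq fun n hn t ht hd => h t ⟨ht, n, mem_cd.1 hn, hd⟩)
  by_cases h1 : ∃ p, p ∈ degreePrimes G
  · obtain ⟨p, hp⟩ := h1
    by_cases h2 : ∃ q ∈ degreePrimes G, q ≠ p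
    · obtain ⟨q, hq, hqp⟩ := h2
      refine key p q hp.1 hq.1 fun t ht => ?_
      by_contra h3
      push Not at h3
      exact hc ⟨p, q, t, hqp.symm, h3.2.symm, h3.1.symm, hp, hq, ht⟩
    · push Not at h2
      exact key p p hp.1 hp.1 fun t ht => Or.inl (h2 t ht)
  · exact key 2 2 Nat.prime_two Nat.prime_two fun t ht => (h1 ⟨t, ht⟩).elim

end Cfsg.Agent.S4782
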