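import Cfsg.Statements.S4784
import Cfsg.Agent.Lib.CharDeg.FS
import Cfsg.Agent.Lib.Induce.TI

set_option autoImplicit false
open Cfsg

namespace Cfsg.Agent.S4784

open Cfsg.Lib.Char Cfsg.Lib.CharDeg Cfsg.Lib.Induce Subgroup in
open scoped ComplexConjugate in

/-- Let H be a subgroup of the finite group G and consider the permutation character of G on the cosets of H (the function induced from the principal character of H). Then exactly one irreducible constituent of it is real-valued with Frobenius–Schur indicator +1 (namely the principal character) if and only if the normal core of H has odd index in G. -/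
theorem result {G : Type*} [Group G] [Fintype G] (H : Subgroup G) : Nat.card {χ : Cfsg.IrrCharacter G // Cfsg.classInner (Cfsg.indFun H (fun _ : H => (1 : ℂ))) (χ : G → ℂ) ≠ 0 ∧ (∀ g : G, (starRingEnd ℂ) ((χ : G → ℂ) g) = (χ : G → ℂ) g) ∧ (Nat.card G : ℂ)⁻¹ * ∑ g : G, (χ : G → ℂ) (g * g) = 1} = 1 ↔ Odd H.normalCore.index := by
  classical
  haveI := Fintype.ofFinite H
  have hπ := isCharacter_indFun H (isCharacter_one (G := H))
  have h1 : classInner (indFun H fun _ : H => (1 : ℂ)) (fun _ => 1) = 1 := by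
    rw [classInner_indFun_one]; exact isIrrCharacter_one.inner_self
  have hfix : ∀ g ∈ H.normalCore, ∀ q : G ⧸ H, g • q = q := by
    intro g hg q
    rw [normalCore_eq_ker] at hg
    exact DFunLike.congr_fun (MonoidHom.mem_ker.1 hg) q
  have hone : classInner (indFun H fun _ : H => (1 : ℂ)) (irrOne G : G → ℂ) ≠ 0 ∧
      (∀ g : G, conj ((irrOne G : G → ℂ) g) = (irrOne G : G → ℂ) g) ∧
      (Nat.card G : ℂ)⁻¹ * ∑ g : G, (irrOne G : G → ℂ) (g * g) = 1 :=
    ⟨by rw [coe_irrOne, h1]; exact one_ne_zero, fun g => by simp, by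
      simp [← Nat.card_eq_fintype_card, card_ne_zero_complex G]⟩
  rw [Nat.card_eq_one_iff_exists]
  constructor
  · rintro ⟨x, hx⟩
    by_contra hodd
    haveI : Fact (Nat.Prime 2) := ⟨Nat.prime_two⟩
    obtain ⟨t, ht⟩ := exists_prime_orderOf_dvd_card' (G := G ⧸ H.normalCore) 2
      (Nat.not_odd_iff_even.1 hodd).two_dvd
    obtain ⟨t, rfl⟩ := QuotientGroup.mk_surjective t
    have h2 : t * t ∈ H.normalCore := by
      rw [← QuotientGroup.eq_one_iff, QuotientGroup.mk_mul, ← sq, ← ht, pow_orderOf_eq_one]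
    have h3 : ∃ q : G ⧸ H, t • q ≠ q := by
      by_contra hcon
      push Not at hcon
      have h4 : t ∈ H.normalCore := by
        rw [normalCore_eq_ker]; exact MonoidHom.mem_ker.2 (Equiv.ext hcon)
      rw [(QuotientGroup.eq_one_iff t).2 h4, orderOf_one] at ht
      omega
    have h4 : ∀ g : G, MulAction.fixedBy (G ⧸ H) g ⊆ MulAction.fixedBy (G ⧸ H) (g * g) :=
      fun g q hq => by rw [MulAction.mem_fixedBy] at hq ⊢; rw [mul_smul, hq, hq]
    have h5 : ∑ g : G, Nat.card (MulAction.fixedBy (G ⧸ H) g) <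
        ∑ g : G, Nat.card (MulAction.fixedBy (G ⧸ H) (g * g)) := by
      refine Finset.sum_lt_sum (fun g _ => Nat.card_mono (Set.toFinite _) (h4 g))
        ⟨t, Finset.mem_univ _, ?_⟩
      obtain ⟨q, hq⟩ := h3
      exact Set.ncard_lt_ncard ⟨h4 t, fun h => hq (h (hfix _ h2 q))⟩
    have h6 : ∑ g : G, Nat.card (MulAction.fixedBy (G ⧸ H) g) = Nat.card G := by
      rw [classInner_one_right, inv_mul_eq_iff_eq_mul₀ (card_ne_zero_complex G), mul_one] at h1
      simp only [indFun_one_eq_card_fixedBy] at h1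
      exact_mod_cast h1
    obtain ⟨m, hm⟩ := hπ.exists_eq_sum_nat
    choose ν hν hν' using fun χ : IrrCharacter G => exists_int_frobeniusSchur χ.2
    have h7 : ((∑ g : G, Nat.card (MulAction.fixedBy (G ⧸ H) (g * g)) : ℕ) : ℤ) =
        Nat.card G * ∑ χ, m χ * ν χ := by
      have h8 : ((∑ g : G, Nat.card (MulAction.fixedBy (G ⧸ H) (g * g)) : ℕ) : ℂ) =
          Nat.card G * ∑ χ, (m χ : ℂ) * ν χ := by
        simp only [Nat.cast_sum, ← indFun_one_eq_card_fixedBy, ← hν, Finset.mul_sum]
        rw [hm]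
        simp only [Finset.sum_apply, Pi.smul_apply, smul_eq_mul]
        rw [Finset.sum_comm]
        refine Finset.sum_congr rfl fun χ _ => Finset.sum_congr rfl fun g _ => ?_
        have := card_ne_zero_complex G
        field_simp
      exact_mod_cast h8
    have hmi : ∀ χ : IrrCharacter G, classInner (indFun H fun _ : H => (1 : ℂ)) χ = m χ :=
      fun χ => by rw [hm, classInner_sum_smul_irr]
    have h8 : ∑ χ, (m χ : ℤ) * ν χ ≤ 1 := by
      rw [← Finset.add_sum_erase _ _ (Finset.mem_univ (irrOne G))]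
      have h9 : (m (irrOne G) : ℤ) * ν (irrOne G) = 1 := by
        have h10 := hmi (irrOne G)
        have h11 := hν (irrOne G)
        rw [coe_irrOne, h1] at h10
        rw [hone.2.2] at h11
        have : ((m (irrOne G) : ℤ) * ν (irrOne G) : ℂ) = 1 := by
          rw [Int.cast_natCast, ← h10, ← h11, one_mul]
        exact_mod_cast this
      rw [h9, add_le_iff_nonpos_right]
      refine Finset.sum_nonpos fun χ hχ => ?_
      by_cases h0 : m χ = 0
      · simp [h0]
      refine mul_nonpos_of_nonneg_of_nonpos (Int.natCast_nonneg _) ?_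
      rcases hν' χ with ⟨-, h⟩ | ⟨hr, h | h⟩
      · exact h.le
      · refine absurd (congrArg Subtype.val ((hx ⟨χ, ?_, fun g => Complex.conj_eq_iff_im.2 (hr g),
          by rw [hν, h, Int.cast_one]⟩).trans (hx ⟨_, hone⟩).symm)) (Finset.mem_erase.1 hχ).1
        rw [hmi]; exact_mod_cast h0
      · rw [h]; norm_num
    have h9 : (0 : ℤ) < Nat.card G := by exact_mod_cast Nat.card_pos
    have h10 : (Nat.card G : ℤ) < ((∑ g : G, Nat.card (MulAction.fixedBy (G ⧸ H) (g * g)) : ℕ) : ℤ) := by
      rw [← h6]; exact_mod_cast h5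
    nlinarith
  · intro hodd
    refine ⟨⟨_, hone⟩, fun ⟨χ, h2, h3, _⟩ => Subtype.ext (Subtype.ext ?_)⟩
    obtain ⟨β, hβ, e⟩ := χ.2.exists_deflate H.normalCore fun g hg =>
      hπ.apply_eq_of_constituent χ.2 h2 (by
        rw [indFun_one_eq_card_fixedBy, indFun_one_eq_card_fixedBy]
        congr 3
        exact Set.ext fun q => by simp [hfix g hg q])
    have h4 := hβ.eq_one_of_real_of_odd hodd fun y => by
      obtain ⟨g, rfl⟩ := QuotientGroup.mk_surjective y
      rw [e]; exact Complex.conj_eq_iff_im.1 (h3 g)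
    exact funext fun g => by rw [← e, h4]; rfl

end Cfsg.Agent.S4784
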