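import Cfsg.Statements.S4796
import Cfsg.Agent.Lib.CharDeg.Codeg
import Cfsg.Agent.Lib.Frobenius.Basic

set_option autoImplicit false
open Cfsg

namespace Cfsg.Agent.S4796

open Cfsg.Lib.Char Cfsg.Lib.CharDeg Cfsg.Lib.Frobenius in

/-- Let G be a finite group with a faithful irreducible complex character χ whose codegree #G / χ(1) is a prime p (for a faithful character the kernel is trivial, so the codegree is #G / χ(1)). Then either G is cyclic of order p, or G is a Frobenius group whose Frobenius kernel has order p: some proper non-trivial subgroup H satisfies H ∩ gHg⁻¹ = 1 for every element g outside H, and the set of elements lying in no conjugate of H, together with the identity, has exactly p elements. -/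
theorem result {G : Type*} [Group G] [Finite G] (χ : Cfsg.IrrCharacter G) (hfaith : ∀ g : G, (χ : G → ℂ) g = (χ : G → ℂ) 1 → g = 1) (p : ℕ) (hp : p.Prime) (hcod : Nat.card G = p * Cfsg.charDegree (χ : G → ℂ)) : (IsCyclic G ∧ Nat.card G = p) ∨ ∃ H : Subgroup G, Cfsg.IsFrobeniusComplement H ∧ Nat.card ↥(Cfsg.frobeniusKernel H) = p := by
  obtain ⟨P, hn, h1, h2, h3⟩ := exists_normal_of_prime_codeg χ.2 hfaith hp hcod
  haveI := Fact.mk hp
  obtain ⟨H, hH⟩ := Subgroup.exists_right_complement'_of_coprime (N := P)
    (by rw [h1]; exact (hp.coprime_iff_not_dvd).2 h3)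
  by_cases h0 : H = ⊥
  · left
    have h4 : P = ⊤ := by simpa [h0] using hH.sup_eq_top
    have h5 : Nat.card G = p := by rw [← h1, h4, Subgroup.card_top]
    exact ⟨isCyclic_of_prime_card h5, h5⟩
  · right
    have hf : ∀ h ∈ H, h ≠ 1 → P ⊓ Subgroup.centralizer {h} = ⊥ := fun h hh hh1 => by
      rcases (Nat.dvd_prime hp).1 (h1 ▸ Subgroup.card_dvd_of_le
        (inf_le_left : P ⊓ Subgroup.centralizer {h} ≤ P)) with h4 | h4
      · exact Subgroup.eq_bot_of_card_eq _ h4
      · have h5 : P ⊓ Subgroup.centralizer {h} = P :=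
          Subgroup.eq_of_le_of_card_ge inf_le_left (by rw [h4, h1])
        have h6 : h ∈ P := h2 fun x hx => by
          have := (inf_eq_left.1 h5) hx
          exact Subgroup.mem_centralizer_singleton_iff.1 this
        exact absurd (Subgroup.disjoint_def.1 hH.disjoint h6 hh) hh1
    refine ⟨H, isFrobeniusComplement_of_fpf hH.sup_eq_top (fun e => hp.ne_one ?_) h0 hf, ?_⟩
    · rw [← h1, e, Subgroup.card_bot]
    · rw [frobeniusKernel_eq_of_fpf hH.sup_eq_top hf]
      exact h1

end Cfsg.Agent.S4796
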