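import Cfsg.Statements.S4797
import Cfsg.Agent.Lib.CharDeg.Codeg

set_option autoImplicit false
open Cfsg

namespace Cfsg.Agent.S4797

open Cfsg.Lib.Char Cfsg.Lib.CharDeg in

/-- The codegree of an irreducible complex character χ of a finite group G is [G : ker χ] / χ(1), where ker χ is the set of elements at which χ takes the value χ(1). A non-trivial finite group is perfect if and only if no irreducible complex character of it has prime codegree. -/
theorem result {G : Type*} [Group G] [Finite G] [Nontrivial G] : commutator G = ⊤ ↔ ∀ χ : Cfsg.IrrCharacter G, ¬ ((Nat.card G / (Nat.card {g : G // (χ : G → ℂ) g = (χ : G → ℂ) 1} * Cfsg.charDegree (χ : G → ℂ)))).Prime := by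
  classical
  constructor
  · intro hG χ hp
    haveI := χ.2.isCharacter.charKer_normal
    obtain ⟨χ', h1, h2, h3, h4⟩ := exists_faithful_deflate χ.2
    obtain ⟨P, hn, h5, h6, -⟩ := exists_normal_of_prime_codeg h1 h3 hp
      (by rw [h4, codeg_mul_charDegree χ.2]; rfl)
    haveI := Fact.mk hp
    have hc : IsCyclic P := isCyclic_of_prime_card h5
    have h7 : ⁅(⊤ : Subgroup (G ⧸ charKer (χ : G → ℂ))), (⊤ : Subgroup (G ⧸ charKer (χ : G → ℂ)))⁆ = ⊤ := by
      have := congrArg (Subgroup.map (QuotientGroup.mk' (charKer (χ : G → ℂ)))) hG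
      rwa [commutator_def, Subgroup.map_commutator, Subgroup.map_top_of_surjective _
        (QuotientGroup.mk'_surjective _)] at this
    have h8 := Cfsg.Lib.PGroup.commutator_le_centralizer_of_isCyclic (R := ⊤) (A := ⊤) hc
      (by rw [Subgroup.normalizer_eq_top]) (by rw [Subgroup.normalizer_eq_top])
    rw [h7] at h8
    have h9 : P = ⊤ := top_le_iff.1 (h8.trans h6)
    rw [h9] at h8
    have h10 : ⁅(⊤ : Subgroup (G ⧸ charKer (χ : G → ℂ))), (⊤ : Subgroup (G ⧸ charKer (χ : G → ℂ)))⁆ = ⊥ :=
      Subgroup.commutator_eq_bot_iff_le_centralizer.2 h8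
    rw [h9, ← h7, h10, Subgroup.card_bot] at h5
    exact hp.ne_one h5.symm
  · intro h
    by_contra hG
    have h1 : (commutator G).index ≠ 1 := fun e => hG (Subgroup.index_eq_one.1 e)
    obtain ⟨p, hp, hd⟩ := Nat.exists_prime_and_dvd h1
    haveI := Fact.mk hp
    rw [← card_hom_units] at hd
    haveI : Finite (G →* ℂˣ) := Nat.finite_of_card_ne_zero (by
      rw [card_hom_units]; exact Subgroup.index_ne_zero_of_finite)
    obtain ⟨lam, hl⟩ := exists_prime_orderOf_dvd_card' p hd
    have h2 := codeg_mul_charDegree (isIrrCharacter_hom lam)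
    have h3 : charDegree (fun g => (lam g : ℂ)) = 1 := charDegree_eq_of_apply_one (by simp)
    have h4 : charKer (fun g => (lam g : ℂ)) = lam.ker := by
      ext x
      rw [(isCharacter_hom lam).mem_charKer_iff]
      simp only [map_one, Units.val_one, MonoidHom.mem_ker, Units.val_eq_one]
    apply h ⟨_, isIrrCharacter_hom lam⟩
    rw [h3, mul_one] at h2
    simp only [h3]
    rw [h2, h4, Subgroup.index_ker]
    have h5 : lam.range ≤ rootsOfUnity p ℂ := by
      rintro _ ⟨x, rfl⟩
      rw [mem_rootsOfUnity, ← MonoidHom.pow_apply, ← hl, pow_orderOf_eq_one]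
      rfl
    have h6 := Subgroup.card_dvd_of_le h5
    rw [Complex.card_rootsOfUnity] at h6
    rcases (Nat.dvd_prime hp).1 h6 with h7 | h7
    · rw [Subgroup.card_eq_one, MonoidHom.range_eq_bot_iff] at h7
      rw [h7, orderOf_one] at hl
      exact absurd hl.symm hp.ne_one
    · rwa [h7]

end Cfsg.Agent.S4797
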