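import Cfsg.Statements.S4798
import Cfsg.Agent.Lib.CharDeg.Codeg

set_option autoImplicit false
open Cfsg

namespace Cfsg.Agent.S4798

open Cfsg.Lib.Char Cfsg.Lib.CharDeg Cfsg.Lib.Induce in

/-- Let p be a prime and χ a faithful irreducible complex character of the finite group G (χ(g) = χ(1) only for g = 1), so that its codegree is #G / χ(1). Then #G / χ(1) is a power of p if and only if χ is induced from a character of a Sylow p-subgroup of G. -/
theorem result {G : Type*} [Group G] [Fintype G] (p : ℕ) [Fact p.Prime] (χ : Cfsg.IrrCharacter G) (hfaith : ∀ g : G, (χ : G → ℂ) g = (χ : G → ℂ) 1 → g = 1) : (∃ k : ℕ, Nat.card G = p ^ k * Cfsg.charDegree (χ : G → ℂ)) ↔ ∃ (P : Sylow p G) (θ : ↥(P : Subgroup G) → ℂ), Cfsg.IsCharacter ↥(P : Subgroup G) θ ∧ (χ : G → ℂ) = Cfsg.indFun (P : Subgroup G) θ := by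
  classical
  have hp : p.Prime := Fact.out
  constructor
  · rintro ⟨k, hk⟩
    obtain ⟨P⟩ : Nonempty (Sylow p G) := inferInstance
    have hd := χ.2.charDegree_pos
    set d := charDegree (χ : G → ℂ) with hdd
    obtain ⟨θ, hθ, h0, h1⟩ := exists_below_not_dvd χ.2 (P : Subgroup G)
      (Nat.pow_succ_factorization_not_dvd hd.ne' hp)
    obtain ⟨i, hi⟩ := exists_charDegree_eq_pow hp P.isPGroup' hθ
    refine ⟨P, θ, hθ.isCharacter, eq_indFun_of_index_mul_le χ.2 _ hθ.isCharacter h0 ?_⟩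
    rw [hi] at h1 ⊢
    have h2 : i ≤ d.factorization p := by
      by_contra h
      exact h1 (pow_dvd_pow p (not_le.1 h))
    have h3 : (P : Subgroup G).index ∣ d := by
      refine (Nat.Coprime.pow_right k
        ((hp.coprime_iff_not_dvd).2 P.not_dvd_index).symm).dvd_of_dvd_mul_left ?_
      rw [← hk]
      exact Subgroup.index_dvd_card _
    refine Nat.le_of_dvd hd (Nat.Coprime.mul_dvd_of_dvd_of_dvd ?_ h3 ?_)
    · exact Nat.Coprime.pow_right i ((hp.coprime_iff_not_dvd).2 P.not_dvd_index).symm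
    · exact (pow_dvd_pow p h2).trans (Nat.ordProj_dvd _ _)
  · rintro ⟨P, θ, hθ, h⟩
    have h1 := isIrrCharacter_of_indFun _ hθ (h ▸ χ.2)
    obtain ⟨c, hc⟩ := h1.charDegree_dvd_card
    obtain ⟨n, hn⟩ := P.isPGroup'.exists_card_eq
    obtain ⟨k, -, hk⟩ := (Nat.dvd_prime_pow hp).1 (show c ∣ p ^ n from hn ▸ Dvd.intro_left _ hc.symm)
    refine ⟨k, ?_⟩
    rw [h, charDegree_indFun' _ hθ, ← (P : Subgroup G).card_mul_index, hc, hk]
    ring

end Cfsg.Agent.S4798
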