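import Cfsg.Statements.S4801
import Cfsg.Agent.Lib.CharDeg.Codeg

set_option autoImplicit false
open Cfsg

namespace Cfsg.Agent.S4801

open Cfsg.Lib.Char Cfsg.Lib.CharDeg in

/-- The codegree of an irreducible complex character χ of a finite group G is [G : ker χ] / χ(1), where ker χ is the set of elements at which χ takes the value χ(1). Let S be a finite simple group and G a finite group such that every codegree of an irreducible character of S is a codegree of an irreducible character of G. Then the order of S divides the order of G. -/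
theorem result {S : Type*} [Group S] [Finite S] (hS : IsSimpleGroup S) {G : Type*} [Group G] [Finite G] (hsub : ∀ χ : Cfsg.IrrCharacter S, ∃ ψ : Cfsg.IrrCharacter G, (Nat.card S / (Nat.card {g : S // (χ : S → ℂ) g = (χ : S → ℂ) 1} * Cfsg.charDegree (χ : S → ℂ))) = (Nat.card G / (Nat.card {g : G // (ψ : G → ℂ) g = (ψ : G → ℂ) 1} * Cfsg.charDegree (ψ : G → ℂ)))) : Nat.card S ∣ Nat.card G := by
  classical
  have h1 : ∀ χ ∈ Finset.univ.erase (irrOne S), Nat.card S ∣
      Nat.card G * charDegree (χ : S → ℂ) ^ 2 := fun χ hχ => by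
    have h2 := codeg_mul_charDegree χ.2
    obtain ⟨ψ, hψ⟩ := hsub χ
    rw [χ.2.charKer_eq_bot_of_isSimpleGroup
      (fun e => Finset.ne_of_mem_erase hχ (Subtype.ext e)), Subgroup.index_bot, hψ] at h2
    rw [← h2]
    exact mul_dvd_mul (codeg_dvd_card ψ.2) (dvd_pow_self _ two_ne_zero)
  have h2 := Finset.dvd_sum h1
  have h3 := sum_charDegree_sq S
  rw [← Finset.add_sum_erase _ _ (Finset.mem_univ (irrOne S)), coe_irrOne, charDegree_one] at h3
  rw [← Finset.mul_sum] at h2
  have h4 : Nat.card S ∣ Nat.card G + Nat.card G *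
      ∑ χ ∈ Finset.univ.erase (irrOne S), charDegree (χ : S → ℂ) ^ 2 := by
    refine ⟨Nat.card G, ?_⟩
    conv_rhs => rw [← h3]
    ring
  exact (Nat.dvd_add_left h2).1 h4

end Cfsg.Agent.S4801
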