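import Cfsg.Statements.S4802
import Cfsg.Agent.Lib.CharDeg.CosetSum

set_option autoImplicit false
open Cfsg

namespace Cfsg.Agent.S4802

open Cfsg.Lib.Char Cfsg.Lib.CharDeg in
open scoped ComplexConjugate in

/-- Let N < M be normal subgroups of the finite group G and g ∈ M ∖ N. Then the conjugacy class of g is exactly M ∖ N if and only if every irreducible complex character of G whose kernel contains N takes the same value at all elements of M ∖ N, and every irreducible complex character of G whose kernel does not contain N vanishes at g. -/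
theorem result {G : Type*} [Group G] [Finite G] (N M : Subgroup G) [N.Normal] [M.Normal] (hNM : N < M) (g : G) (hgM : g ∈ M) (hgN : g ∉ N) : {h : G | IsConj g h} = (M : Set G) \ (N : Set G) ↔ ((∀ χ : Cfsg.IrrCharacter G, (∀ x ∈ N, (χ : G → ℂ) x = (χ : G → ℂ) 1) → ∀ x ∈ M, x ∉ N → ∀ y ∈ M, y ∉ N → (χ : G → ℂ) x = (χ : G → ℂ) y) ∧ (∀ χ : Cfsg.IrrCharacter G, (∃ x ∈ N, (χ : G → ℂ) x ≠ (χ : G → ℂ) 1) → (χ : G → ℂ) g = 0)) := by
  classical
  haveI := Fintype.ofFinite G
  haveI := Fintype.ofFinite N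
  constructor
  · intro h
    have h1 : ∀ x ∈ M, x ∉ N → IsConj g x := fun x hx hx' => by
      have : x ∈ {h : G | IsConj g h} := h ▸ ⟨hx, hx'⟩
      exact this
    refine ⟨fun χ _ x hx hx' y hy hy' => ?_, fun χ hχ => ?_⟩
    · rw [← χ.2.isClassFunction.eq_of_isConj (h1 x hx hx'),
        χ.2.isClassFunction.eq_of_isConj (h1 y hy hy')]
    · have h2 := sum_normal_mul_apply N χ.2 g
      rw [if_neg (by push Not; exact hχ)] at h2
      have h3 : ∀ n : N, (χ : G → ℂ) (n * g) = (χ : G → ℂ) g := fun n =>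
        (χ.2.isClassFunction.eq_of_isConj (h1 _ (M.mul_mem (hNM.le n.2) hgM)
          (fun h => hgN ((N.mul_mem_cancel_left n.2).1 h)))).symm
      simpa [h3] using h2
  · rintro ⟨h1, h2⟩
    ext x
    simp only [Set.mem_setOf_eq, Set.mem_diff, SetLike.mem_coe]
    constructor
    · intro h
      obtain ⟨c, rfl⟩ := isConj_iff.1 h
      exact ⟨Subgroup.Normal.conj_mem inferInstance g hgM c,
        fun h => hgN (by simpa [mul_assoc] using Subgroup.Normal.conj_mem inferInstance _ h c⁻¹)⟩
    · rintro ⟨hx, hx'⟩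
      by_contra hc
      have h3 := sum_irr_mul_conj_of_not_isConj hc
      have h4 : ∀ χ : IrrCharacter G, (χ : G → ℂ) g * conj ((χ : G → ℂ) x) =
          (χ : G → ℂ) g * conj ((χ : G → ℂ) g) := fun χ => by
        by_cases hχ : ∀ x ∈ N, (χ : G → ℂ) x = (χ : G → ℂ) 1
        · rw [h1 χ hχ x hx hx' g hgM hgN]
        · rw [h2 χ (by push Not at hχ; exact hχ), zero_mul, zero_mul]
      simp only [h4] at h3
      rw [sum_irr_mul_conj_of_isConj (IsConj.refl g)] at h3
      exact card_ne_zero_complex _ h3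

end Cfsg.Agent.S4802
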