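import Cfsg.Statements.S4807
import Cfsg.Agent.Lib.Rel.Bridge

set_option autoImplicit false
open Cfsg

namespace Cfsg.Agent.S4807

open Cfsg.Lib.Rel Cfsg.Lib.PF Cfsg.Lib.Char Cfsg.Lib.Coprime Cfsg.Lib.CharDeg Subgroup

/-- Let p be a prime and G a finite p-solvable group, L a normal subgroup of G, S a Sylow p-subgroup of G and P the subgroup generated by L and S (so P/L is a Sylow p-subgroup of G/L), and let ν be an irreducible complex character of L that is invariant under conjugation by every element of P. Let N be the normalizer of P in G (it contains L). Then the number of irreducible characters of G of degree prime to p lying over ν (restriction to L not orthogonal to ν) equals the number of irreducible characters of N of degree prime to p lying over ν. -/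
theorem result {G : Type*} [Group G] [Finite G] (p : ℕ) [Fact p.Prime] (hG : Cfsg.IsPSolvable p G) (L : Subgroup G) [L.Normal] (S : Sylow p G) (P : Subgroup G) (hP : P = L ⊔ (S : Subgroup G)) (hLN : L ≤ (Subgroup.normalizer ((P : Subgroup G) : Set G))) (ν : Cfsg.IrrCharacter ↥L) (hν : ∀ x ∈ P, Cfsg.IsConjCharOf L x (ν : ↥L → ℂ) (ν : ↥L → ℂ)) : Nat.card {χ : Cfsg.IrrCharacter G // ¬ p ∣ Cfsg.charDegree (χ : G → ℂ) ∧ (∑ᶠ l : ↥L, (χ : G → ℂ) (l : G) * (starRingEnd ℂ) ((ν : ↥L → ℂ) l)) ≠ 0} = Nat.card {ψ : Cfsg.IrrCharacter ↥(Subgroup.normalizer ((P : Subgroup G) : Set G)) // ¬ p ∣ Cfsg.charDegree (ψ : ↥(Subgroup.normalizer ((P : Subgroup G) : Set G)) → ℂ) ∧ (∑ᶠ l : ↥L, (ψ : ↥(Subgroup.normalizer ((P : Subgroup G) : Set G)) → ℂ) (Subgroup.inclusion hLN l) * (starRingEnd ℂ) ((ν : ↥L → ℂ) l)) ≠ 0} := by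
  subst hP
  rw [card_subtype_top (IrrP_subset (p := p) (L := L) (extendByZero L ν.1)) fun χ => by
      rw [mem_IrrP, mem_IrrO, deg_top, cfdot_ext_ne_zero_iff, and_iff_right (mem_Irr_top.2 χ.2),
        and_comm],
    card_subtype_ext (IrrP_subset (p := p) (L := L) (extendByZero L ν.1)) fun χ => by
      rw [mem_IrrP, mem_IrrO, deg_ext, cfdot_ext_ne_zero_iff, and_iff_right (ext_mem_Irr χ),
        and_comm]
      have : ∀ l : L, extendByZero _ χ.1 (l : G) = χ.1 (inclusion hLN l) := fun l =>
        Cfsg.Lib.Induce.extendByZero_coe _ χ.1 (inclusion hLN l)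
      simp only [this]]
  exact card_IrrP_top_eq hG S ⟨ext_mem_Irr ν, (le_inertia_ext_iff le_normalizer_of_normal ν).2
    fun s hs => hν s (mem_sup_right hs)⟩

end Cfsg.Agent.S4807
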