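import Cfsg.Statements.S4808
import Cfsg.Agent.Lib.CharDeg.Codeg

set_option autoImplicit false
open Cfsg

namespace Cfsg.Agent.S4808

open Cfsg.Lib.Char Cfsg.Lib.CharDeg in

/-- The codegree of an irreducible complex character χ of a finite group G is [G : ker χ] / χ(1), where ker χ is the set of elements at which χ takes the value χ(1). A prime divides the order of G if and only if it divides the codegree of some irreducible complex character of G. -/
theorem result {G : Type*} [Group G] [Finite G] (p : ℕ) (hp : p.Prime) : p ∣ Nat.card G ↔ ∃ χ : Cfsg.IrrCharacter G, p ∣ (Nat.card G / (Nat.card {g : G // (χ : G → ℂ) g = (χ : G → ℂ) 1} * Cfsg.charDegree (χ : G → ℂ))) := by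
  classical
  refine ⟨fun h => ?_, fun ⟨χ, hχ⟩ => hχ.trans (codeg_dvd_card χ.2)⟩
  haveI := Fact.mk hp
  obtain ⟨g, hg⟩ := exists_prime_orderOf_dvd_card' p h
  have hg1 : g ≠ 1 := fun e => hp.ne_one (by rw [← hg, e, orderOf_one])
  by_contra hc
  push Not at hc
  have h1 : ∀ χ : IrrCharacter G, (χ : G → ℂ) g = (χ : G → ℂ) 1 ∨ (χ : G → ℂ) g = 0 := by
    intro χ
    rw [or_iff_not_imp_left]
    intro hne
    haveI := χ.2.isCharacter.charKer_normal
    obtain ⟨χ', h1, h2, h3, h4⟩ := exists_faithful_deflate χ.2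
    rw [← h2]
    refine h1.apply_eq_zero_of_defect_zero hp ?_ ?_
    · have h5 := codeg_mul_charDegree χ.2
      rw [h4]
      refine (Nat.Coprime.pow_left _ ((hp.coprime_iff_not_dvd).2 (hc χ))).dvd_of_dvd_mul_left ?_
      rw [h5]
      exact Nat.ordProj_dvd _ _
    · have h5 : orderOf (g : G ⧸ charKer (χ : G → ℂ)) ∣ p :=
        hg ▸ orderOf_map_dvd (QuotientGroup.mk' _) g
      rcases (Nat.dvd_prime hp).1 h5 with h6 | h6
      · rw [orderOf_eq_one_iff] at h6
        exact absurd (by rw [← h2, h6, ← h2]; rfl) hne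
      · rw [h6]
  have h2 := sum_irr_apply_one_mul_apply_of_ne_one hg1
  have h3 : ∀ χ : IrrCharacter G, (χ : G → ℂ) 1 * (χ : G → ℂ) g =
      ((if (χ : G → ℂ) g = 0 then 0 else charDegree (χ : G → ℂ) ^ 2 : ℕ) : ℂ) := fun χ => by
    split_ifs with h
    · simp [h]
    · rw [(h1 χ).resolve_right h, χ.2.apply_one_eq]
      push_cast
      ring
  simp only [h3, ← Nat.cast_sum, Nat.cast_eq_zero, Finset.sum_eq_zero_iff] at h2
  have h4 := h2 (irrOne G) (Finset.mem_univ _)
  simp [irrOne_apply, (irrOne G).2.charDegree_pos.ne'] at h4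

end Cfsg.Agent.S4808
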