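import Cfsg.Statements.S4813
import Cfsg.Agent.S4466
import Cfsg.Agent.Lib.CharDeg.MinNonab

set_option autoImplicit false
open Cfsg

namespace Cfsg.Agent.S4813

open Cfsg.Lib.Char Cfsg.Lib.CharDeg Subgroup in

/-- If every irreducible complex character of the finite group G of degree greater than one has prime degree, then G has at most three distinct irreducible character degrees. -/
theorem result {G : Type*} [Group G] [Finite G] (hprime : ∀ d ∈ Cfsg.charDegrees G, d = 1 ∨ d.Prime) : Nat.card ↥(Cfsg.charDegrees G) ≤ 3 := by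
  haveI := Cfsg.Agent.S4466.result (G := G) fun χ h => (hprime _ ⟨χ, rfl⟩).resolve_left h
  have hpr : ∀ d ∈ cd G, d = 1 ∨ d.Prime := fun d hd => hprime d (mem_cd.1 hd)
  suffices h : ∃ p q : ℕ, ∀ d ∈ cd G, d = 1 ∨ d = p ∨ d = q by
    obtain ⟨p, q, h⟩ := h
    have h1 : charDegrees G ⊆ (({1, p, q} : Finset ℕ) : Set ℕ) := fun d hd => by
      simpa using h d (mem_cd.2 hd)
    exact (Nat.card_mono (Finset.finite_toSet _) h1).trans
      (by rw [Nat.card_coe_set_eq, Set.ncard_coe_finset]; exact Finset.card_le_three)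
  by_cases hc : _root_.commutator G ≤ ⊥
  · exact ⟨1, 1, fun d hd => Or.inl (by
      obtain ⟨χ, hχ, rfl⟩ := mem_cd'.1 hd
      exact hχ.isCharacter.charDegree_eq_one_iff.2 (apply_one_of_commutator_le_ker hχ
        fun x hx => by rw [mem_bot.1 (hc hx)]))⟩
  obtain ⟨K, _, -, hK⟩ := exists_minNonab ⊥ hc
  obtain ⟨m, hm, hm1⟩ : ∃ m ∈ cd (G ⧸ K), m ≠ 1 := by
    by_contra hcon
    push Not at hcon
    exact hK.ne_bot (eq_bot_iff.2 (commutator_le.2 fun a _ b _ =>
      commutatorElement_eq_one_iff_mul_comm.2 (comm_iff_cd.2 hcon a b)))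
  have hdvd : ∀ d ∈ cd G, d.Prime → d ∣ Nat.card (G ⧸ K) := by
    intro d hd hp
    by_contra hn
    rcases hpr _ (mul_mem_cd_of_coprime K hm hd ((Nat.Prime.coprime_iff_not_dvd hp).2 hn)) with h | h
    · exact hm1 (Nat.eq_one_of_mul_eq_one_right h)
    · exact Nat.not_prime_mul hm1 hp.ne_one h
  obtain ⟨p, hp, hP | ⟨h1, h2, -, h4⟩⟩ := hK.struct inferInstance
  · haveI := Fact.mk hp
    obtain ⟨k, hk⟩ := hP.exists_card_eq
    exact ⟨p, p, fun d hd => (hpr d hd).imp_right fun h => Or.inl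
      ((Nat.prime_dvd_prime_iff_eq h hp).1 (h.dvd_of_dvd_pow (hk ▸ hdvd d hd h)))⟩
  · haveI := Fact.mk hp
    obtain ⟨k, hk⟩ := h1.exists_card_eq
    have h5 := h4.mul_mem_cd (QuotientGroup.mk' K) (QuotientGroup.mk'_surjective K) hK.ne_bot h2 rfl
      isIrrCharacter_one (by rw [charDegree_one]; exact Nat.coprime_one_left _)
    rw [charDegree_one, mul_one] at h5
    refine ⟨p, (_root_.commutator (G ⧸ K)).index, fun d hd => (hpr d hd).imp_right fun h => ?_⟩
    have h6 := hdvd d hd h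
    rw [← card_mul_index (_root_.commutator (G ⧸ K)), hk] at h6
    refine ((Nat.Prime.dvd_mul h).1 h6).imp
      (fun h7 => (Nat.prime_dvd_prime_iff_eq h hp).1 (h.dvd_of_dvd_pow h7)) fun h7 => ?_
    rcases hpr _ h5 with h8 | h8
    · rw [h8] at h7; exact absurd h7 h.not_dvd_one
    · exact (Nat.prime_dvd_prime_iff_eq h h8).1 h7

end Cfsg.Agent.S4813
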