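import Cfsg.Statements.S4814
import Cfsg.Agent.Lib.Char.Central

set_option autoImplicit false
open Cfsg

namespace Cfsg.Agent.S4814

open Cfsg.Lib.Char

theorem sum_comm_mul {G : Type*} [Group G] [Fintype G] {χ : G → ℂ} (h : IsIrrCharacter G χ)
    (w : G) : ∑ b, ∑ a, χ (a * b * a⁻¹ * b⁻¹ * w) = Nat.card G ^ 2 * χ w / χ 1 ^ 2 := by
  have h1 : ∀ b, ∑ a, χ (a * b * a⁻¹ * b⁻¹ * w) = Nat.card G / χ 1 * (χ b * χ (b⁻¹ * w)) :=
    fun b => by
      have := h.sum_conj_mul b (b⁻¹ * w)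
      simp only [← mul_assoc] at this ⊢
      rw [this]
      ring
  have h2 := h.sum_inv_mul_apply_mul_self w
  rw [← Equiv.sum_comp (Equiv.inv G)] at h2
  simp only [Equiv.inv_apply, inv_inv] at h2
  simp only [h1]
  rw [← Finset.mul_sum, h2]
  ring

/-- Let G be a finite group such that the sum, over the irreducible complex characters χ of G, of 1/χ(1)² is less than 2. Then every element of G is a product of two commutators. -/
theorem result {G : Type*} [Group G] [Finite G]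
    (h : ∑ᶠ χ : Cfsg.IrrCharacter G, 1 / ‖(χ : G → ℂ) 1‖ ^ 2 < (2 : ℝ)) (g : G) :
    ∃ a b c d : G, (a * b * a⁻¹ * b⁻¹) * (c * d * c⁻¹ * d⁻¹) = g := by
  classical
  haveI := Fintype.ofFinite G
  by_contra hc
  push Not at hc
  have h1 : ∑ d, ∑ c, ∑ b, ∑ a, regChar G (a * b * a⁻¹ * b⁻¹ * (c * d * c⁻¹ * d⁻¹ * g⁻¹)) = 0 := by
    refine Finset.sum_eq_zero fun d _ => Finset.sum_eq_zero fun c _ => Finset.sum_eq_zero fun b _ =>
      Finset.sum_eq_zero fun a _ => regChar_of_ne_one fun h => hc a b c d ?_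
    rwa [← mul_assoc, mul_inv_eq_one] at h
  have h2 : ∑ d, ∑ c, ∑ b, ∑ a, regChar G (a * b * a⁻¹ * b⁻¹ * (c * d * c⁻¹ * d⁻¹ * g⁻¹)) =
      ∑ χ : IrrCharacter G, (χ : G → ℂ) 1 * ∑ d, ∑ c, ∑ b, ∑ a,
        (χ : G → ℂ) (a * b * a⁻¹ * b⁻¹ * (c * d * c⁻¹ * d⁻¹ * g⁻¹)) := by
    simp only [← sum_irr_apply_one_mul_apply, Finset.mul_sum]
    symm
    rw [Finset.sum_comm]
    refine Finset.sum_congr rfl fun d _ => ?_
    rw [Finset.sum_comm]
    refine Finset.sum_congr rfl fun c _ => ?_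
    rw [Finset.sum_comm]
    refine Finset.sum_congr rfl fun b _ => ?_
    rw [Finset.sum_comm]
  have h3 : ∀ χ : IrrCharacter G, (χ : G → ℂ) 1 * ∑ d, ∑ c, ∑ b, ∑ a,
        (χ : G → ℂ) (a * b * a⁻¹ * b⁻¹ * (c * d * c⁻¹ * d⁻¹ * g⁻¹)) =
      Nat.card G ^ 4 * ((χ : G → ℂ) g⁻¹ / (χ : G → ℂ) 1 ^ 3) := fun χ => by
    simp only [sum_comm_mul χ.2, mul_div_right_comm, ← Finset.mul_sum]
    have := χ.2.apply_one_ne_zero
    field_simp
  rw [h1, Finset.sum_congr rfl fun χ _ => h3 χ, ← Finset.mul_sum, eq_comm,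
    mul_eq_zero_iff_left (pow_ne_zero _ (card_ne_zero_complex G)),
    ← Finset.add_sum_erase _ _ (Finset.mem_univ (irrOne G))] at h2
  rw [finsum_eq_sum_of_fintype, ← Finset.add_sum_erase _ _ (Finset.mem_univ (irrOne G))] at h
  simp only [irrOne_apply, one_pow, div_one, norm_one] at h h2
  have h4 : ‖∑ χ ∈ Finset.univ.erase (irrOne G), (χ : G → ℂ) g⁻¹ / (χ : G → ℂ) 1 ^ 3‖ = 1 := by
    rw [eq_neg_of_add_eq_zero_right h2]
    simp
  have h5 := (norm_sum_le _ _).trans' h4.ge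
  have h6 : ∑ χ ∈ Finset.univ.erase (irrOne G), ‖(χ : G → ℂ) g⁻¹ / (χ : G → ℂ) 1 ^ 3‖ ≤
      ∑ χ ∈ Finset.univ.erase (irrOne G), 1 / ‖(χ : G → ℂ) 1‖ ^ 2 :=
    Finset.sum_le_sum fun χ _ => by
      have h7 : 0 < ‖(χ : G → ℂ) 1‖ := norm_pos_iff.2 χ.2.apply_one_ne_zero
      rw [norm_div, norm_pow, div_le_div_iff₀ (by positivity) (by positivity)]
      have := χ.2.isCharacter.norm_le g⁻¹
      nlinarith [pow_pos h7 2]
  linarith

end Cfsg.Agent.S4814
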