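import Cfsg.Statements.S4823
import Cfsg.Agent.Lib.BP21.Main
import Cfsg.Agent.Lib.CharDeg.SigmaPow

set_option autoImplicit false
universe u
open Cfsg

namespace Cfsg.Agent.S4823

/-- For every prime p and every natural number k there is a bound N such that, for every finite group G and every maximal ideal M of the algebraic integers containing p, if the principal p-block of G has at most k irreducible characters then the p-part of the order of G (the order of a defect group of the principal block) is at most p ^ N. -/
theorem result (p : ℕ) [Fact p.Prime] (k : ℕ) : ∃ N : ℕ, ∀ (G : Type u) [Group G] [Finite G] (M : Ideal Cfsg.AlgInt), Cfsg.IsPModular p M → Nat.card (Cfsg.principalBlock M G) ≤ k → (Nat.card G).factorization p ≤ N := by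
  classical
  obtain ⟨b, hb⟩ := Lib.BP21.den_le.{u} k
  refine ⟨b, fun G _ _ M hM hk => ?_⟩
  have := Fintype.ofFinite G
  have : Lib.Block.Modular p M := ⟨hM⟩
  have hp : p.Prime := Fact.out
  have e : Lib.Block.regSet p G = (Finset.univ.filter fun g : G => ¬ p ∣ orderOf g) := by ext; simp [Lib.Block.mem_regSet]
  obtain ⟨N, h1, h2, h3⟩ := hb G (Finset.univ.filter fun g => ¬ p ∣ orderOf g)
    (fun g h => by simp only [Finset.mem_filter, Finset.mem_univ, true_and]; rw [Lib.Modular.orderOf_conj_eq])
    (fun k hk g => by
      simp only [Finset.mem_filter, Finset.mem_univ, true_and]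
      rw [(hk.coprime_dvd_right (orderOf_dvd_natCard g)).symm.orderOf_pow])
    (principalBlock M G).toFinset (Set.mem_toFinset.2 Lib.Block.irrOne_mem_principalBlock) (fun χ h => by
      rw [Set.mem_toFinset, Lib.CharDeg.mem_principal_iff_sum_reg hM, not_not, e, finsum_mem_coe_finset] at h
      exact h) (by rwa [Set.toFinset_card, Fintype.card_eq_nat_card])
  have h4 := Lib.Block.not_dvd_card_regSet (p := p) (G := G) M
  rw [e, Finset.coe_sort_coe, Nat.card_eq_finsetCard] at h4
  have h5 := ((hp.coprime_iff_not_dvd.2 h4).pow_left _).dvd_of_dvd_mul_right ((Nat.ordProj_dvd _ p).trans h3)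
  exact ((Nat.lt_pow_self hp.one_lt).le.trans (Nat.le_of_dvd h1 h5)).trans h2

end Cfsg.Agent.S4823
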