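import Cfsg.Statements.S4825
import Cfsg.Agent.Lib.Block.Osima
import Cfsg.Agent.Lib.Clifford.Basic
import Cfsg.Agent.Lib.Char.Central

set_option autoImplicit false
open Cfsg

namespace Cfsg.Agent.S4825

open Cfsg.Lib.Char Cfsg.Lib.Block Cfsg.Lib.Clifford Subgroup in
open scoped ComplexConjugate in

/-- Let p be a prime, G a finite group with Sylow p-subgroup P, M a maximal ideal of the algebraic integers containing p, and B a p-block of G with defect group P. Let N be a normal subgroup of G not containing P and θ an irreducible character of N. Then the number of irreducible characters in B of degree prime to p lying over θ (having θ as a constituent on restriction to N) is either 0 or at least 2, and when p ≤ 3 it is divisible by p. -/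
theorem result {G : Type*} [Group G] [Fintype G] (p : ℕ) [Fact p.Prime] (P : Sylow p G) (M : Ideal Cfsg.AlgInt) (hM : Cfsg.IsPModular p M) (B : Set (Cfsg.IrrCharacter G)) (hB : Cfsg.IsPBlock M B) (hBP : Cfsg.IsDefectGroup p M B P) (N : Subgroup G) [N.Normal] [Fintype N] (hPN : ¬ (P : Subgroup G) ≤ N) (θ : Cfsg.IrrCharacter N) :
    (Nat.card {χ : Cfsg.IrrCharacter G // χ ∈ B ∧ ¬ p ∣ Cfsg.charDegree (χ : G → ℂ) ∧ Cfsg.classInner (fun n : N => (χ : G → ℂ) n) (θ : N → ℂ) ≠ 0} = 0 ∨
      2 ≤ Nat.card {χ : Cfsg.IrrCharacter G // χ ∈ B ∧ ¬ p ∣ Cfsg.charDegree (χ : G → ℂ) ∧ Cfsg.classInner (fun n : N => (χ : G → ℂ) n) (θ : N → ℂ) ≠ 0}) ∧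
    (p ≤ 3 → p ∣ Nat.card {χ : Cfsg.IrrCharacter G // χ ∈ B ∧ ¬ p ∣ Cfsg.charDegree (χ : G → ℂ) ∧ Cfsg.classInner (fun n : N => (χ : G → ℂ) n) (θ : N → ℂ) ≠ 0}) := by
  classical
  haveI : Modular p M := ⟨hM⟩
  have hp : p.Prime := Fact.out
  have hidx : p ∣ N.index := by
    by_contra h
    refine hPN fun x hx => ?_
    obtain ⟨k, hk⟩ := P.isPGroup' ⟨x, hx⟩
    have h1 : x ^ p ^ k = 1 := congrArg Subtype.val hk
    have h2 : orderOf (x : G ⧸ N) = 1 := Nat.eq_one_of_dvd_coprimes
      (((Nat.Prime.coprime_iff_not_dvd hp).2 h).pow_left k)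
      (orderOf_dvd_of_pow_eq_one (by rw [← QuotientGroup.mk_pow, h1, QuotientGroup.mk_one]))
      (orderOf_dvd_natCard _)
    exact (QuotientGroup.eq_one_iff x).1 (orderOf_eq_one_iff.1 h2)
  set S := Finset.univ.filter (fun χ : IrrCharacter G => χ ∈ B ∧
    classInner (fun n : N => (χ : G → ℂ) n) (θ : N → ℂ) ≠ 0) with hS
  have h1 : ((∑ χ ∈ S, charDegree (χ : G → ℂ) ^ 2 : ℕ) : ℂ) = N.index *
      (((inertia N (θ : N → ℂ)).index : ℂ) * (θ : N → ℂ) 1 *
        ∑ n : N, (θ : N → ℂ) n * blockCoeff B n) := by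
    have h2 : ((∑ χ ∈ S, charDegree (χ : G → ℂ) ^ 2 : ℕ) : ℂ) =
        ∑ χ ∈ Finset.univ.filter (fun χ : IrrCharacter G => χ ∈ B),
          ((inertia N (θ : N → ℂ)).index : ℂ) * (θ : N → ℂ) 1 *
            ((χ : G → ℂ) 1 * classInner (θ : N → ℂ) (fun n : N => (χ : G → ℂ) n)) := by
      rw [hS, ← Finset.filter_filter, Finset.sum_filter, Nat.cast_sum]
      refine Finset.sum_congr rfl fun χ _ => ?_
      rw [θ.2.isCharacter.inner_comm (χ.2.isCharacter.restrict N)]
      split_ifs with h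
      · rw [Nat.cast_pow, ← χ.2.apply_one_eq, sq]
        nth_rewrite 2 [clifford_degree N χ.2 θ.2 h]
        ring
      · rw [not_not.1 h]; simp
    rw [h2, ← Finset.mul_sum, mul_left_comm]
    congr 1
    simp only [classInner_def, blockCoeff_eq, Finset.mul_sum]
    rw [Finset.sum_comm]
    refine Finset.sum_congr rfl fun n _ => Finset.sum_congr rfl fun χ _ => ?_
    rw [← N.card_mul_index]
    have h3 := card_ne_zero_complex N
    have h4 : (N.index : ℂ) ≠ 0 := by exact_mod_cast N.index_ne_zero_of_finite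
    push_cast
    field_simp
  have h2 : p ∣ ∑ χ ∈ S, charDegree (χ : G → ℂ) ^ 2 := by
    rw [← red_natCast_eq_zero_iff (M := M), h1, red_mul (natCast_mem _ _) (mul_mem (mul_mem
      (natCast_mem _ _) (mem_locRing_of_isIntegral (θ.2.isIntegral _))) (sum_mem fun n _ =>
      mul_mem (mem_locRing_of_isIntegral (θ.2.isIntegral _)) (hB.blockCoeff_mem _))),
      (red_natCast_eq_zero_iff _).2 hidx, zero_mul]
  set T := S.filter (fun χ : IrrCharacter G => ¬ p ∣ charDegree (χ : G → ℂ)) with hT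
  have h3 : p ∣ ∑ χ ∈ T, charDegree (χ : G → ℂ) ^ 2 := by
    rw [← Finset.sum_filter_add_sum_filter_not S
      (fun χ : IrrCharacter G => p ∣ charDegree (χ : G → ℂ))] at h2
    exact (Nat.dvd_add_right (Finset.dvd_sum fun χ hχ =>
      Dvd.dvd.trans (Finset.mem_filter.1 hχ).2 (dvd_pow_self _ two_ne_zero))).1 h2
  rw [Nat.subtype_card T (fun χ => by simp only [hT, hS, Finset.mem_filter, Finset.mem_univ]; tauto)]
  constructor
  · by_contra h
    obtain ⟨χ, h4⟩ := Finset.card_eq_one.1 (show T.card = 1 by omega)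
    rw [h4, Finset.sum_singleton] at h3
    exact (Finset.mem_filter.1 (show χ ∈ T by rw [h4]; exact Finset.mem_singleton_self χ)).2
      (hp.dvd_of_dvd_pow h3)
  · intro h
    rw [← ZMod.natCast_eq_zero_iff] at h3 ⊢
    rw [← h3, Nat.cast_sum, Finset.card_eq_sum_ones, Nat.cast_sum]
    refine Finset.sum_congr rfl fun χ hχ => ?_
    have h4 := ZMod.pow_card_sub_one_eq_one
      ((ZMod.natCast_eq_zero_iff _ _).not.2 (Finset.mem_filter.1 hχ).2)
    have h5 := hp.two_le
    rw [Nat.cast_pow, Nat.cast_one]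
    obtain rfl | rfl : p = 2 ∨ p = 3 := by omega
    · rw [show 2 - 1 = 1 from rfl, pow_one] at h4
      rw [h4, one_pow]
    · exact h4.symm

end Cfsg.Agent.S4825
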