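import Cfsg.Statements.S4828
import Cfsg.Agent.Lib.Block.Quot

set_option autoImplicit false
open Cfsg

namespace Cfsg.Agent.S4828

open Cfsg.Lib.Block Cfsg.Lib.Char Cfsg.Lib.Transfer MonoidAlgebra Subgroup

/-- Let p be a prime, M a maximal ideal of the algebraic integers containing p, and (Q, e) a Brauer pair of the finite group G (Q a p-subgroup, e a block of C_G(Q)). Then (Q, e) is a maximal Brauer pair of some block of G if and only if e contains an irreducible character θ such that θ takes the value θ(1) at every element of Z(Q) = Q ∩ C_G(Q), the p-part of θ(1) times the p-part of the order of Z(Q) equals the p-part of the order of C_G(Q) (θ has defect zero as a character of C_G(Q)/Z(Q)), and every element of N_G(Q) of p-power order that stabilizes e lies in Q·C_G(Q) (the stabilizer of e in N_G(Q) has index prime to p over Q·C_G(Q)). -/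
theorem result {G : Type*} [Group G] [Finite G] (p : ℕ) [Fact p.Prime] (M : Ideal Cfsg.AlgInt) (hM : Cfsg.IsPModular p M) (Q : Subgroup G) (e : Set (Cfsg.IrrCharacter (Subgroup.centralizer (Q : Set G)))) (he : Cfsg.IsBrauerPair p M Q e) :
    (∃ B : Set (Cfsg.IrrCharacter G), Cfsg.IsMaximalBrauerPair p M B Q e) ↔
      ∃ θ ∈ e, (∀ z : Subgroup.centralizer (Q : Set G), (z : G) ∈ Q → (θ : Subgroup.centralizer (Q : Set G) → ℂ) z = (θ : Subgroup.centralizer (Q : Set G) → ℂ) 1) ∧
        (Cfsg.charDegree (θ : Subgroup.centralizer (Q : Set G) → ℂ)).factorization p + (Nat.card ↥(Q ⊓ Subgroup.centralizer (Q : Set G))).factorization p = (Nat.card (Subgroup.centralizer (Q : Set G))).factorization p ∧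
        (∀ g : G, g ∈ Subgroup.normalizer (Q : Set G) → Cfsg.StabilizesBlock (Subgroup.centralizer (Q : Set G)) e g → (∃ k : ℕ, orderOf g = p ^ k) → g ∈ Q ⊔ Subgroup.centralizer (Q : Set G)) := by
  have : Modular p M := ⟨hM⟩
  have hQ := he.1
  have he' := he.2
  have h := he.isPair
  let C := centralizer (Q : Set G)
  let T := ⊤ ⊓ normalizer (Q : Set G) ⊓ stab (ebl C M e)
  have hZ : Q ⊓ C ≤ C := inf_le_right
  have : ((Q ⊓ C).subgroupOf C).Normal := (normal_subgroupOf_iff_le_normalizer hZ).2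
    (Lib.Core.le_normalizer_inf (centralizer_le_normalizer _) le_normalizer)
  have key := he'.isDefectGroup_iff_exists_kerSet (Q := (Q ⊓ C).subgroupOf C)
    (hQ.to_inf_left.comap_subtype) fun x _ y hy => Subtype.ext (x.2 y hy.1)
  rw [Nat.card_congr (subgroupOfEquivOfLe hZ).toEquiv, he'.isDefectGroup_iff_isDefIn hZ] at key
  have hQT : Q ≤ T := le_inf (le_inf le_top le_normalizer) h.mem_fix
  have hCT : ⊤ ⊓ C ≤ T := h.inf_centralizer_le_stab
  constructor
  · rintro ⟨B, hB⟩
    have hm := hB.isMaxPair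
    have h1 := (h.fong hQT hCT le_rfl hm.isDefIn_stab).2
    rw [top_inf_eq] at h1
    obtain ⟨θ, h2, h3, h4⟩ := key.1 h1
    refine ⟨θ, h2, fun z hz => h3 z ⟨hz, z.2⟩, h4, fun g h5 h6 h7 => ?_⟩
    have := hm.pElt_mem_sup ⟨⟨trivial, h5⟩, (he'.stabilizesBlock_iff.1 h6).2⟩ h7
    rwa [top_inf_eq] at this
  · rintro ⟨θ, h2, h3, h4, h5⟩
    obtain ⟨a, ha, h6⟩ := h.exists_isPairOf le_top
    obtain ⟨B, hB, rfl⟩ := isBlkIdem_top_iff.1 ha
    refine ⟨B, isMaximalBrauerPair_iff.2 ⟨hB, he', ha, h6, (h6.isDefIn_iff ha).2 ?_⟩⟩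
    rw [top_inf_eq] at hCT
    refine he'.isBlkIdem.isDefIn_of_fong (h.isBlkIdem_stab le_top) hCT
      ((inf_le_left.trans inf_le_right).trans (normalizer_le_normalizer_centralizer Q)) hQ hQT
      (by rw [h.br_eq]; exact he'.ebl_ne_zero) ?_ (key.2 ⟨θ, h2, fun z hz => h3 z hz.1, h4⟩)
    obtain ⟨S, -, h7, h8, h9⟩ := exists_sylowIn_ge (p := p) (Q := ⊥) (H := T) .of_bot bot_le
    exact fun h10 => h9 (h10.trans (relIndex_dvd_of_le_left _ fun g hg => h5 g (h7 hg).1.2
      (he'.stabilizesBlock_iff.2 ⟨normalizer_le_normalizer_centralizer Q (h7 hg).1.2, (h7 hg).2⟩)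
      (Lib.Modular.pElt_of_mem Fact.out h8 hg)))

end Cfsg.Agent.S4828
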