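import Cfsg.Statements.S4838
import Cfsg.Agent.Lib.CharDeg.Gagola

set_option autoImplicit false
open Cfsg

namespace Cfsg.Agent.S4838

open Cfsg.Lib.CharDeg Cfsg.Lib.Char Cfsg.Lib.Clifford Subgroup in

/-- Let G be a finite group of order greater than 2 with an irreducible character χ nonzero on exactly two conjugacy classes, N the normal p-subgroup of elements where χ is nonzero, and P a Sylow p-subgroup of G. Then (a) for every x outside N the centralizer of x in G has the same order as the centralizer of xN in G/N; (b) the centre of P lies in N, and equals N exactly when P is normal in G; (c) N, viewed inside P, is a term of the upper central series of P. -/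
theorem result {G : Type*} [Group G] [Finite G] (hG : 2 < Nat.card G) (χ : Cfsg.IrrCharacter G) (hχ : Nat.card {C : ConjClasses G // ∃ g ∈ C.carrier, (χ : G → ℂ) g ≠ 0} = 2) (p : ℕ) [Fact p.Prime] (N : Subgroup G) [N.Normal] (hN : ∀ g : G, g ∈ N ↔ (χ : G → ℂ) g ≠ 0) (hNp : IsPGroup p N) (hN1 : N ≠ ⊥) (P : Sylow p G) :
    (∀ x : G, x ∉ N → Nat.card (Subgroup.centralizer ({x} : Set G)) = Nat.card (Subgroup.centralizer ({(x : G ⧸ N)} : Set (G ⧸ N)))) ∧
      ((Subgroup.center ↥(P : Subgroup G)).map (P : Subgroup G).subtype ≤ N ∧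
        ((Subgroup.center ↥(P : Subgroup G)).map (P : Subgroup G).subtype = N ↔ (P : Subgroup G).Normal)) ∧
      (∃ i : ℕ, Subgroup.upperCentralSeries ↥(P : Subgroup G) i = N.subgroupOf (P : Subgroup G)) := by
  obtain ⟨x, h⟩ := exists_gag hG χ hχ
  have h1 : ∀ y, y ∉ N → Nat.card (centralizer ({y} : Set G)) =
      Nat.card (centralizer ({(y : G ⧸ N)} : Set (G ⧸ N))) := fun y hy =>
    card_centralizer_eq_quotient fun n => h.isConj_mul hN hy
  have hNP : N ≤ P := hNp.le_sylow_of_normal P
  have h2 : ∀ i, Subgroup.upperCentralSeries P i < N.subgroupOf P →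
      Subgroup.upperCentralSeries P (i + 1) ≤ N.subgroupOf P := fun i hi y hy => by
    by_contra e
    have e1 : Nat.card (centralizer ({y} : Set P)) ∣ N.index := by
      rw [show centralizer ({y} : Set P) = (centralizer {y.1}).comap (P : Subgroup G).subtype from
        Subgroup.ext fun g => by
          simp only [mem_comap, mem_centralizer_singleton_iff, Subtype.ext_iff]; rfl]
      refine (card_comap_dvd_of_injective _ _ Subtype.val_injective).trans ?_
      rw [h1 y e]
      exact card_subgroup_dvd_card _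
    obtain ⟨a, ha⟩ := IsPGroup.iff_card.1 (P.isPGroup'.to_subgroup (centralizer ({y} : Set P)))
    obtain ⟨b, hb⟩ := IsPGroup.iff_card.1 hNp
    have e2 := P.pow_dvd_card_of_pow_dvd_card (n := a + b) (by
      rw [pow_add, ← ha, ← hb, ← N.index_mul_card]; exact Nat.mul_dvd_mul_right e1 _)
    rw [pow_add, ← ha, ← hb, ← (centralizer ({y} : Set P)).card_mul_index] at e2
    have e3 := Nat.le_of_dvd (Nat.pos_of_ne_zero index_ne_zero_of_finite)
      (Nat.dvd_of_mul_dvd_mul_left Nat.card_pos e2)
    have e4 : (centralizer ({y} : Set P)).index ≤ Nat.card (Subgroup.upperCentralSeries P i) := by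
      rw [← ncard_conjugatesOf]
      refine Set.ncard_le_ncard_of_injOn (t := (Subgroup.upperCentralSeries P i : Set P))
        (fun w => y * w⁻¹) (fun w hw => ?_) fun _ _ _ _ e => by simpa using e
      obtain ⟨c, rfl⟩ := isConj_iff.1 hw
      simpa [commutatorElement_def, mul_assoc] using Subgroup.mem_upperCentralSeries_succ_iff.1 hy c
    have e5 : Nat.card (Subgroup.upperCentralSeries P i) < Nat.card (N.subgroupOf P) :=
      Set.ncard_lt_ncard hi
    rw [Nat.card_congr (subgroupOfEquivOfLe hNP).toEquiv] at e5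
    omega
  have h3 : (⊥ : Subgroup P) < N.subgroupOf P := bot_lt_iff_ne_bot.2 fun e =>
    hN1 ((subgroupOf_eq_bot.1 e).eq_bot_of_le hNP)
  have h4 : (center P).map (P : Subgroup G).subtype ≤ N :=
    map_le_iff_le_comap.2 (Subgroup.upperCentralSeries_one P ▸ h2 0 h3)
  refine ⟨h1, ⟨h4, fun e => ?_, fun e => le_antisymm h4 (h.le_of_normal hN _ ?_)⟩, ?_⟩
  · have e1 : (P : Subgroup G) ≤ centralizer N := fun g hg n hn => by
      obtain ⟨n, hn', rfl⟩ := e.ge hn
      exact congrArg Subtype.val (mem_center_iff.1 hn' ⟨g, hg⟩).symm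
    rw [← P.is_maximal' ((h.isPGroup_centralizer hN hNp (h.mem hN) h.ne).to_le
      (centralizer_le (Set.singleton_subset_iff.2 (h.mem hN)))) e1]
    infer_instance
  · haveI : Nontrivial P := (nontrivial_iff_ne_bot _).2 fun e => hN1 (eq_bot_iff.2 (e ▸ hNP))
    rw [Ne, map_eq_bot_iff_of_injective _ Subtype.val_injective, ← Ne, ← nontrivial_iff_ne_bot]
    exact P.isPGroup'.center_nontrivial
  · by_contra e
    have e1 : ∀ i, Subgroup.upperCentralSeries P i < N.subgroupOf P := fun i => by
      induction i with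
      | zero => exact h3
      | succ i ih => exact lt_of_le_of_ne (h2 i ih) fun e' => e ⟨_, e'⟩
    haveI := P.isPGroup'.isNilpotent
    exact not_top_lt (Subgroup.upperCentralSeries_nilpotencyClass (G := P) ▸ e1 _)

end Cfsg.Agent.S4838
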