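import Cfsg.Statements.S4839
import Cfsg.Agent.Lib.CharDeg.Gagola
import Cfsg.Agent.Lib.Frobenius.Basic
import Cfsg.Agent.Lib.Inv.SylowTwo
import Cfsg.Agent.Lib.Core.PCore

set_option autoImplicit false
open Cfsg

namespace Cfsg.Agent.S4839

open Cfsg.Lib.CharDeg Cfsg.Lib.Frobenius Cfsg.Lib.Core Subgroup in
theorem fpf_of_camina {G : Type*} [Group G] [Finite G] {N H : Subgroup G} [hn : N.Normal]
    (hs : N ⊔ H = ⊤) (hd : N ⊓ H = ⊥) (hc : ∀ y ∉ N, ∀ n ∈ N, IsConj y (y * n)) :
    ∀ h ∈ H, h ≠ 1 → N ⊓ centralizer {h} = ⊥ := by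
  intro y hy hy1
  have hyN : y ∉ N := fun e => hy1 (by
    have : y ∈ N ⊓ H := ⟨e, hy⟩
    rwa [hd, mem_bot] at this)
  let f : N → N := fun m => ⟨y⁻¹ * m * y * (m : G)⁻¹, N.mul_mem
    (by simpa using hn.conj_mem _ m.2 y⁻¹) (N.inv_mem m.2)⟩
  have hf : Function.Surjective f := by
    rintro ⟨n, hn'⟩
    obtain ⟨g, hg⟩ := isConj_iff.1 (hc y hyN n hn')
    obtain ⟨m, hm, k, hk, rfl⟩ := exists_mul_of_mem_sup (K := N) (H := H)
      (by simp [normalizer_eq_top]) (hs ▸ mem_top g)
    have h1 : y⁻¹ * (k * y * k⁻¹) ∈ N ⊓ H := by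
      refine ⟨?_, H.mul_mem (H.inv_mem hy) (H.mul_mem (H.mul_mem hk hy) (H.inv_mem hk))⟩
      have e : y⁻¹ * (k * y * k⁻¹) = (y⁻¹ * m⁻¹ * y⁻¹⁻¹) * (n * m) := by
        calc y⁻¹ * (k * y * k⁻¹) = y⁻¹ * m⁻¹ * (m * k * y * (m * k)⁻¹) * m := by group
          _ = _ := by rw [hg]; group
      change _ ∈ N
      rw [e]
      exact N.mul_mem (hn.conj_mem _ (N.inv_mem hm) _) (N.mul_mem hn' hm)
    rw [hd, mem_bot, inv_mul_eq_one] at h1
    refine ⟨⟨m, hm⟩, Subtype.ext ?_⟩
    change y⁻¹ * m * y * m⁻¹ = n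
    calc y⁻¹ * m * y * m⁻¹ = y⁻¹ * (m * (k * y * k⁻¹) * m⁻¹) := by rw [← h1]; group
      _ = y⁻¹ * (m * k * y * (m * k)⁻¹) := by group
      _ = n := by rw [hg]; group
  rw [inf_centralizer_eq_bot_iff]
  intro k hk e
  have := Finite.injective_iff_surjective.2 hf (a₁ := ⟨k, hk⟩) (a₂ := 1) (Subtype.ext (by
    change y⁻¹ * k * y * k⁻¹ = y⁻¹ * 1 * y * 1⁻¹
    rw [mul_assoc y⁻¹, ← e]; group))
  exact congrArg Subtype.val this

open Cfsg.Lib.Frobenius Subgroup in
theorem inv_of_fpf {G : Type*} [Group G] [Finite G] {N : Subgroup G} [hn : N.Normal] {t : G}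
    (ht : t * t = 1) (hf : N ⊓ centralizer {t} = ⊥) {n : G} (h : n ∈ N) : t * n * t⁻¹ = n⁻¹ := by
  obtain ⟨x, -, e⟩ := exists_conj_eq_mul' (K := N) (h := t) (by simp [normalizer_eq_top]) hf h
  have : t * n * (t * n) = 1 := by rw [← e, conj_mul, ht]; simp
  rw [inv_eq_of_mul_eq_one_right ht, eq_inv_iff_mul_eq_one]
  simpa [mul_assoc] using this

/-- Let G be a finite group of order greater than 2 with an irreducible character χ nonzero on exactly two conjugacy classes, and let N be the normal p-subgroup of elements where χ is nonzero. Then N is the whole p-core O_p(G) if and only if G is a doubly transitive Frobenius group with kernel N: G has a Frobenius complement H whose Frobenius kernel is N and whose order is one less than that of N. -/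
theorem result {G : Type*} [Group G] [Finite G] (hG : 2 < Nat.card G) (χ : Cfsg.IrrCharacter G) (hχ : Nat.card {C : ConjClasses G // ∃ g ∈ C.carrier, (χ : G → ℂ) g ≠ 0} = 2) (p : ℕ) [Fact p.Prime] (N : Subgroup G) [N.Normal] (hN : ∀ g : G, g ∈ N ↔ (χ : G → ℂ) g ≠ 0) (hNp : IsPGroup p N) (hN1 : N ≠ ⊥) :
    N = Cfsg.pCore p G ↔ ∃ H : Subgroup G, Cfsg.IsFrobeniusComplement H ∧ Cfsg.frobeniusKernel H = (N : Set G) ∧ Nat.card H + 1 = Nat.card N := by
  classical
  open Cfsg.Lib.CharDeg Cfsg.Lib.Frobenius Cfsg.Lib.Core Subgroup in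
  have hp : p.Prime := Fact.out
  obtain ⟨x, h⟩ := exists_gag hG χ hχ
  have hn : N.Normal := inferInstance
  have hx := h.mem hN
  constructor
  · intro hO
    have hab : ∀ a ∈ N, ∀ b ∈ N, a * b = b * a := fun a ha b hb =>
      congrArg Subtype.val ((h.isElementaryAbelian hN hNp).1.1.1 ⟨a, ha⟩ ⟨b, hb⟩)
    have hC : ∀ g : G, (∀ n ∈ N, n * g = g * n) → g ∈ N := fun g hg => by
      have : centralizer (N : Set G) ≤ pCore p G := le_pCore inferInstance
        ((h.isPGroup_centralizer hN hNp hx h.ne).to_le (centralizer_le (by simpa using hx)))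
      rw [hO]
      exact this (mem_centralizer_iff.2 hg)
    have hf : ∀ y : G, (∀ k, (y : G ⧸ N) ^ p ^ k ≠ 1) → N ⊓ centralizer {y} = ⊥ := fun y hy => by
      rw [inf_centralizer_eq_bot_iff]
      intro a ha e
      by_contra ha1
      obtain ⟨k, hk⟩ := h.isPGroup_centralizer hN hNp ha ha1 ⟨y, mem_centralizer_singleton_iff.2 e⟩
      refine hy k ?_
      have : y ^ p ^ k = 1 := congrArg Subtype.val hk
      rw [← QuotientGroup.mk_pow, this, QuotientGroup.mk_one]
    obtain ⟨H, hs, hd⟩ : ∃ H : Subgroup G, N ⊔ H = ⊤ ∧ N ⊓ H = ⊥ := by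
      by_cases h2 : p = 2
      · subst h2
        have hodd : ¬ 2 ∣ Nat.card (G ⧸ N) := fun e => by
          obtain ⟨t, ht⟩ := exists_prime_orderOf_dvd_card' 2 e
          have ht2 : t * t = 1 := by rw [← sq, ← ht, pow_orderOf_eq_one]
          have hq : pCore 2 (G ⧸ N) = ⊥ := by
            subst hO
            exact pCore_quotient_pCore 2 G
          have ht1 : t ≠ 1 := fun e => by simp [e] at ht
          obtain ⟨y, hy1, hy, e⟩ := Cfsg.Lib.Inv.exists_odd_inverted_of_not_mem_pCore ht2
            (by rw [hq, mem_bot]; exact ht1)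
          obtain ⟨t, rfl⟩ := QuotientGroup.mk_surjective t
          obtain ⟨y, rfl⟩ := QuotientGroup.mk_surjective y
          have hy2 : N ⊓ centralizer {y⁻¹} = ⊥ := hf _ fun k e => hy1 (by
            have h1 := orderOf_dvd_of_pow_eq_one e
            rw [QuotientGroup.mk_inv, orderOf_inv] at h1
            exact orderOf_eq_one_iff.1 (Nat.eq_one_of_dvd_coprimes
              (Nat.Coprime.pow_left k hy.coprime_two_left) h1 dvd_rfl))
          have h3 : y⁻¹⁻¹ * (t * y * t⁻¹) ∈ N := QuotientGroup.eq.1 (by simpa using e.symm)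
          obtain ⟨m, hm, e2⟩ := exists_conj_eq_mul' (K := N) (h := y⁻¹)
            (by simp [normalizer_eq_top]) hy2 h3
          have e3 : m⁻¹ * t * y * (m⁻¹ * t)⁻¹ = y⁻¹ := by
            calc m⁻¹ * t * y * (m⁻¹ * t)⁻¹ = m⁻¹ * (y⁻¹ * (y⁻¹⁻¹ * (t * y * t⁻¹))) * m := by group
              _ = _ := by rw [← e2]; group
          have hs : ((m⁻¹ * t : G) : G ⧸ N) = t := by
            rw [QuotientGroup.mk_mul, (QuotientGroup.eq_one_iff _).2 (N.inv_mem hm), one_mul]
          generalize m⁻¹ * t = s at e3 hs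
          have h4 : s * s = 1 := (inf_centralizer_eq_bot_iff N y⁻¹).1 hy2 _
            ((QuotientGroup.eq_one_iff _).1 (by rw [QuotientGroup.mk_mul, hs, ht2])) (by
              have e4 : s * y⁻¹ * s⁻¹ = y := by rw [← conj_inv, e3, inv_inv]
              calc y⁻¹ * (s * s) = s * (s * y⁻¹ * s⁻¹) * s⁻¹ * (s * s) := by rw [e4, e3]
                _ = _ := by group)
          have h5 : s ∉ N := fun e => ht1 (by rw [← hs]; exact (QuotientGroup.eq_one_iff _).2 e)
          refine h5 (hC s fun n hn' => ?_)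
          obtain ⟨c, hc⟩ := isConj_iff.1 (h.isConj_mul hN h5 hn')
          have h6 : s * n * (s * n) = 1 := by rw [← hc, conj_mul, h4]; simp
          have h7 : n * n = 1 := by
            simpa [sq] using (h.isElementaryAbelian hN hNp).2 n hn'
          calc n * s = (s * s) * n * s * (n * n) := by rw [h4, h7]; group
            _ = s * (s * n * (s * n)) * n := by group
            _ = s * n := by rw [h6]; group
        obtain ⟨k, hk⟩ := IsPGroup.iff_card.1 hNp
        obtain ⟨H, hH⟩ := exists_right_complement'_of_coprime (N := N)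
          (by rw [hk]; exact Nat.Coprime.pow_left _ ((Nat.Prime.coprime_iff_not_dvd hp).2 hodd))
        exact ⟨H, hH.sup_eq_top, hH.disjoint.eq_bot⟩
      · obtain ⟨k, hk⟩ := IsPGroup.iff_card.1 hNp
        have h1 := h.index_add_one hN hx h.ne
        have h3 : 2 ∣ (centralizer ({x} : Set G)).index := by
          have : Odd (Nat.card N) := hk ▸ (hp.odd_of_ne_two h2).pow
          rw [← h1] at this
          exact (Nat.odd_add_one.1 this |> Nat.not_odd_iff_even.1).two_dvd
        obtain ⟨t, ht⟩ := exists_prime_orderOf_dvd_card' 2 (h3.trans (index_dvd_card _))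
        have ht2 : t * t = 1 := by rw [← sq, ← ht, pow_orderOf_eq_one]
        have hft : ∀ u : G, orderOf u = 2 → N ⊓ centralizer {u} = ⊥ := fun u hu => by
          rw [inf_centralizer_eq_bot_iff]
          intro a ha e
          by_contra ha1
          obtain ⟨k, hk⟩ := h.isPGroup_centralizer hN hNp ha ha1
            ⟨u, mem_centralizer_singleton_iff.2 e⟩
          have h4 : u ^ p ^ k = 1 := congrArg Subtype.val hk
          have h5 := orderOf_dvd_of_pow_eq_one h4
          rw [hu] at h5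
          exact h2 ((Nat.prime_dvd_prime_iff_eq Nat.prime_two hp).1
            (Nat.prime_two.dvd_of_dvd_pow h5)).symm
        refine ⟨centralizer {t}, eq_top_iff.2 fun g _ => ?_, hft t ht⟩
        have hu : orderOf (g * t * g⁻¹) = 2 := by
          rw [← ht]; exact (MulAut.conj g).orderOf_eq t
        have hu2 : g * t * g⁻¹ * (g * t * g⁻¹) = 1 := by rw [conj_mul, ht2]; simp
        have h4 : t⁻¹ * (g * t * g⁻¹) ∈ N := hC _ fun n hn' => by
          have e1 := inv_of_fpf hu2 (hft _ hu) hn'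
          have e2 := inv_of_fpf ht2 (hft _ ht) hn'
          generalize g * t * g⁻¹ = u at e1
          calc n * (t⁻¹ * u) = t⁻¹ * (t * n * t⁻¹) * u := by group
            _ = t⁻¹ * (u * n * u⁻¹) * u := by rw [e1, e2]
            _ = _ := by group
        obtain ⟨m, hm, e⟩ := exists_conj_eq_mul' (K := N) (h := t)
          (by simp [normalizer_eq_top]) (hft t ht) h4
        have h5 : m⁻¹ * g ∈ centralizer ({t} : Set G) := mem_centralizer_singleton_iff.2 (by
          calc m⁻¹ * g * t = m⁻¹ * (t * (t⁻¹ * (g * t * g⁻¹))) * g := by group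
            _ = _ := by rw [← e]; group)
        simpa using mul_mem_sup hm h5
    have hfp := fpf_of_camina hs hd fun y hy n hn' => h.isConj_mul hN hy hn'
    have hc : centralizer ({x} : Set G) = N := le_antisymm (fun g hg =>
      mem_of_commute_of_mem_kernel (K := N) (H := H) (by simp [normalizer_eq_top]) hfp hx h.ne
        (hs ▸ mem_top g) (mem_centralizer_singleton_iff.1 hg))
      fun g hg => mem_centralizer_singleton_iff.2 (hab g hg x hx)
    have h1 := h.index_add_one hN hx h.ne
    have hcomp : IsComplement' N H := isComplement'_of_disjoint_and_mul_eq_univ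
      (disjoint_iff.2 hd) (by rw [← normal_mul, hs, coe_top])
    rw [hc, hcomp.symm.index_eq_card] at h1
    refine ⟨H, isFrobeniusComplement_of_fpf hs hN1 ?_ hfp, frobeniusKernel_eq_of_fpf hs hfp, h1⟩
    rintro rfl
    have h2 := hcomp.card_mul
    rw [card_bot] at h1 h2
    omega
  · rintro ⟨H, hH, hK, hc⟩
    refine le_antisymm (le_pCore hn hNp) fun g hg => ?_
    have hcomp := isComplement'_of_coe_eq_frobeniusKernel hH hK.symm
    obtain ⟨k, hk⟩ := pCore_isPGroup p G ⟨g, hg⟩
    have h1 : (g : G ⧸ N) ^ p ^ k = 1 := by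
      have : g ^ p ^ k = 1 := congrArg Subtype.val hk
      rw [← QuotientGroup.mk_pow, this, QuotientGroup.mk_one]
    have h2 : ¬ p ∣ N.index := by
      rw [hcomp.symm.index_eq_card]
      have := h.index_add_one hN hx h.ne
      rw [show Nat.card H = (centralizer ({x} : Set G)).index by omega]
      exact h.not_dvd_index hN hNp hx h.ne
    have h3 : orderOf (g : G ⧸ N) ∣ N.index := orderOf_dvd_natCard _
    refine (QuotientGroup.eq_one_iff _).1 (orderOf_eq_one_iff.1 (Nat.eq_one_of_dvd_coprimes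
      (Nat.Coprime.pow_left k ((Nat.Prime.coprime_iff_not_dvd hp).2 h2))
      (orderOf_dvd_of_pow_eq_one h1) h3))

end Cfsg.Agent.S4839
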