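import Cfsg.Statements.S4843
import Cfsg.Agent.Lib.CharDeg.DerivedP
import Cfsg.Agent.Lib.Char.Galois
import Cfsg.Agent.Lib.Core.Fitting

set_option autoImplicit false
open Cfsg

namespace Cfsg.Agent.S4843

open Cfsg.Lib.Char Cfsg.Lib.CharDeg Cfsg.Lib.Core Subgroup
open scoped ComplexConjugate commutatorElement

theorem sum_conj_of_res {G Γ : Type*} [Group G] [Fintype G] [Group Γ] (f : G →* Γ) {Θ : Γ → ℂ}
    (hΘ : IsCharacter Γ Θ) (h : IsIrrCharacter G fun g => Θ (f g)) (u v : Γ) :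
    ∑ g, Θ (f g * u * (f g)⁻¹ * v) = Nat.card G * Θ u * Θ v / Θ 1 := by
  obtain ⟨n, ρ, rfl⟩ := hΘ
  haveI : Representation.IsIrreducible (ρ.comp f : Representation ℂ G (Fin n → ℂ)) :=
    (isIrrCharacter_character_iff _).1 h
  obtain ⟨c, hc⟩ := exists_eq_smul_of_commute (ρ.comp f : Representation ℂ G (Fin n → ℂ))
    (∑ g, ρ (f g * u * (f g)⁻¹)) fun a => by
      change _ * ρ (f a) = ρ (f a) * _
      rw [Finset.sum_mul, Finset.mul_sum, ← Equiv.sum_comp (Equiv.mulLeft a)]
      refine Finset.sum_congr rfl fun g _ => ?_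
      rw [Equiv.coe_mulLeft, map_mul f, ← map_mul ρ, ← map_mul ρ]
      congr 1
      group
  have h1 : ∀ w, ∑ g, ρ.character (f g * u * (f g)⁻¹ * w) = c * ρ.character w := fun w => by
    have := congrArg (fun A => LinearMap.trace ℂ _ (A * ρ w)) hc
    simp only [Finset.sum_mul, map_sum, ← map_mul, smul_mul_assoc, map_smul,
      ← Module.End.one_eq_id, one_mul, smul_eq_mul] at this
    exact this
  have h2 := h1 1
  simp only [mul_one, Representation.char_conj, Finset.sum_const, Finset.card_univ, nsmul_eq_mul,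
    ← Nat.card_eq_fintype_card] at h2
  have h3 : ρ.character 1 ≠ 0 := by simpa using h.apply_one_ne_zero
  rw [h1, h2]
  field_simp

/-- Let G be a finite group with a faithful irreducible character χ (taking the value χ(1) only at the identity) and let k be prime to the order of G, so that g ↦ χ(g^k) is a Galois conjugate of χ. If the pointwise product g ↦ χ(g)·χ(g^k) is again an irreducible character, then the Fitting subgroup of G equals its centre. -/
theorem result {G : Type*} [Group G] [Finite G] (χ : Cfsg.IrrCharacter G) (hfaith : ∀ g : G, (χ : G → ℂ) g = (χ : G → ℂ) 1 → g = 1) (k : ℕ) (hk : Nat.Coprime k (Nat.card G)) (hirr : Cfsg.IsIrrCharacter G (fun g => (χ : G → ℂ) g * (χ : G → ℂ) (g ^ k))) : Cfsg.fittingSubgroup G = Subgroup.center G := by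
  haveI := Fintype.ofFinite G
  refine le_antisymm ?_ (le_fittingSubgroup inferInstance (isNilpotent_of_isMulCommutative _))
  by_contra hF
  obtain ⟨x, hxF, hx, hxc⟩ : ∃ x ∈ fittingSubgroup G, x ∉ center G ∧
      ∀ y ∈ fittingSubgroup G, ⁅x, y⁆ ∈ center G := by
    haveI := isNilpotent_map (QuotientGroup.mk' (center G)) (fittingSubgroup_isNilpotent G)
    haveI := (nontrivial_iff_ne_bot ((fittingSubgroup G).map (QuotientGroup.mk' (center G)))).2
      (by rwa [Ne, Subgroup.map_eq_bot_iff, QuotientGroup.ker_mk'])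
    obtain ⟨⟨_, x, hx, rfl⟩, h1, h2⟩ := (bot_or_exists_ne_one _).resolve_left
      (Group.IsNilpotent.center_ne_bot ((fittingSubgroup G).map (QuotientGroup.mk' (center G))))
    refine ⟨x, hx, fun h => h2 (Subtype.ext ((QuotientGroup.eq_one_iff x).2 h)), fun y hy => ?_⟩
    rw [← QuotientGroup.eq_one_iff, ← QuotientGroup.mk'_apply, map_commutatorElement,
      commutatorElement_eq_one_iff_mul_comm]
    exact (congrArg Subtype.val (mem_center_iff.1 h1 ⟨_, mem_map_of_mem _ hy⟩)).symm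
  obtain ⟨j, -, hj⟩ := Nat.exists_mul_mod_eq_of_coprime 1 hk Nat.card_pos.ne'
  have hjk : ∀ g : G, (g ^ j) ^ k = g := fun g => by
    rw [← pow_mul, mul_comm, ← pow_mod_natCard, hj, pow_mod_natCard, pow_one]
  have hψ := χ.2.comp_pow hk
  have hval : ∀ g : G, (χ : G → ℂ) ((g * (x ^ j)⁻¹ * g⁻¹ * x ^ j) ^ k) =
      conj ((χ : G → ℂ) (g * x * g⁻¹ * x⁻¹)) := by
    intro g
    have hy := (fittingSubgroup_normal G).conj_mem x hxF g
    rw [show g * (x ^ j)⁻¹ * g⁻¹ = (g * x * g⁻¹)⁻¹ ^ j by rw [inv_pow, conj_pow]; group]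
    generalize g * x * g⁻¹ = y at hy
    by_cases hc : Commute x y
    · rw [← hc.symm.inv_left.mul_pow, hjk, ← χ.2.isCharacter.apply_inv, mul_inv_rev, inv_inv,
        hc.inv_right.eq]
    · have h1 : ⁅x, y * x⁻¹⁆ = ⁅x, y⁆ := by simp only [commutatorElement_def]; group
      have h2 : ⁅x, y⁻¹ ^ j * x ^ j⁆ = ⁅x, y⁻¹⁆ ^ j := by
        have h3 : Commute ⁅x, y⁻¹⁆ y⁻¹ := (mem_center_iff.1 (hxc _ (inv_mem hy)) _).symm
        have h4 : x * y⁻¹ ^ j * x⁻¹ = ⁅x, y⁻¹⁆ ^ j * y⁻¹ ^ j := by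
          rw [← h3.mul_pow, ← conj_pow]; simp only [commutatorElement_def]; group
        calc _ = x * y⁻¹ ^ j * x⁻¹ * (y⁻¹ ^ j)⁻¹ := by simp only [commutatorElement_def]; group
          _ = _ := by rw [h4, mul_inv_cancel_right]
      rw [vanish_of_commutator_central χ.2 (w := x) (h1 ▸ hxc y hy) fun e =>
        hc (commutatorElement_eq_one_iff_commute.1 (h1 ▸ hfaith _ e)), map_zero]
      refine vanish_of_commutator_central hψ (w := x) (h2 ▸ pow_mem (hxc _ (inv_mem hy)) j) fun e => ?_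
      rw [h2, hjk, one_pow] at e
      exact hc (Commute.inv_right_iff.1 (commutatorElement_eq_one_iff_commute.1 (hfaith _ e)))
  have h1 := sum_conj_of_res ((MonoidHom.id G).prod (MonoidHom.id G))
    (χ.2.isCharacter.prod hψ.isCharacter) hirr (x, (x ^ j)⁻¹) (x⁻¹, x ^ j)
  have h2 := χ.2.sum_conj_mul x x⁻¹
  simp only [MonoidHom.prod_apply, MonoidHom.id_apply, Prod.inv_mk, Prod.mk_mul_mk, hval, inv_pow,
    hjk, Prod.fst_one, Prod.snd_one, one_pow] at h1
  have h0 := χ.2.apply_one_ne_zero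
  have hG := card_ne_zero_complex G
  set c := (χ : G → ℂ) x * (χ : G → ℂ) x⁻¹ / (χ : G → ℂ) 1 with hc
  have hcc : conj c = c := by
    rw [hc, map_div₀, map_mul, χ.2.isCharacter.conj_apply_one, χ.2.isCharacter.apply_inv,
      Complex.conj_conj, mul_comm]
  have h3 : ∑ g : G, ((χ : G → ℂ) (g * x * g⁻¹ * x⁻¹) - c) *
      conj ((χ : G → ℂ) (g * x * g⁻¹ * x⁻¹) - c) = 0 := by
    have h4 := congrArg conj h2
    rw [map_sum, mul_assoc, mul_div_assoc, ← hc, map_mul, hcc, map_natCast] at h4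
    simp only [map_sub, hcc, sub_mul, mul_sub, Finset.sum_sub_distrib, ← Finset.sum_mul,
      ← Finset.mul_sum, h1, h2, h4, Finset.sum_const, Finset.card_univ, nsmul_eq_mul,
      ← Nat.card_eq_fintype_card]
    rw [hc]
    field_simp
    ring
  simp only [Complex.mul_conj, ← Complex.ofReal_sum, Complex.ofReal_eq_zero] at h3
  rw [Finset.sum_eq_zero_iff_of_nonneg fun g _ => Complex.normSq_nonneg _] at h3
  have h5 := fun g => sub_eq_zero.1 (Complex.normSq_eq_zero.1 (h3 g (Finset.mem_univ g)))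
  refine hx (mem_center_iff.2 fun g => commutatorElement_eq_one_iff_mul_comm.1 (hfaith _ ?_))
  rw [commutatorElement_def, h5, ← h5 1]
  simp

end Cfsg.Agent.S4843
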