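import Cfsg.Statements.S4847
import Cfsg.Agent.Lib.Pal.Main

set_option autoImplicit false
open Cfsg

namespace Cfsg.Agent.S4847

/-- Let G be a finite solvable group and p, q, r three distinct primes each dividing the degree of some irreducible character of G. Then for some two of them the product divides the degree of some irreducible character of G (the character degree graph of a solvable group has no three pairwise non-adjacent vertices). -/
theorem result {G : Type*} [Group G] [Finite G] [hs : Group.IsSolvable G] (p q r : ℕ) (hp : p.Prime) (hq : q.Prime) (hr : r.Prime) (hpq : p ≠ q) (hqr : q ≠ r) (hpr : p ≠ r)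
    (hpd : ∃ χ : Cfsg.IrrCharacter G, p ∣ Cfsg.charDegree (χ : G → ℂ)) (hqd : ∃ χ : Cfsg.IrrCharacter G, q ∣ Cfsg.charDegree (χ : G → ℂ)) (hrd : ∃ χ : Cfsg.IrrCharacter G, r ∣ Cfsg.charDegree (χ : G → ℂ)) :
    (∃ χ : Cfsg.IrrCharacter G, p * q ∣ Cfsg.charDegree (χ : G → ℂ)) ∨ (∃ χ : Cfsg.IrrCharacter G, q * r ∣ Cfsg.charDegree (χ : G → ℂ)) ∨ (∃ χ : Cfsg.IrrCharacter G, p * r ∣ Cfsg.charDegree (χ : G → ℂ)) := by
  have := Fact.mk hp
  have := Fact.mk hq
  have := Fact.mk hr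
  have e : ∀ a : ℕ, (∃ χ : Cfsg.IrrCharacter G, a ∣ Cfsg.charDegree (χ : G → ℂ)) ↔ Cfsg.Lib.Pal.Rho G a :=
    fun a => ⟨fun ⟨χ, h⟩ => ⟨_, Cfsg.Lib.CharDeg.charDegree_mem_cd χ.2, h⟩, fun ⟨_, h1, h2⟩ => by
      obtain ⟨χ, rfl⟩ := Cfsg.Lib.CharDeg.mem_cd.1 h1
      exact ⟨χ, h2⟩⟩
  simp only [e] at hpd hqd hrd ⊢
  exact Cfsg.Lib.Pal.palfy hpq hpr hqr G hpd hqd hrd

end Cfsg.Agent.S4847
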