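import Cfsg.Statements.S4850
import Cfsg.Agent.Lib.CharDeg.VanP

set_option autoImplicit false
open Cfsg

namespace Cfsg.Agent.S4850

open Subgroup Cfsg.Lib.CharDeg.VanP Cfsg.Lib.Core Cfsg.Lib.BG

/-- Let p be a prime and G a finite solvable group whose vanishing elements (elements at which some irreducible character is zero) of order divisible by p all have the same order, with at least one such element. Let P be a Sylow p-subgroup of G. Then the derived subgroup of P is subnormal in G and the image of P in G/O_p(G) is cyclic. -/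
theorem result {G : Type*} [Group G] [Finite G] [hs : Group.IsSolvable G] (p : ℕ) [Fact p.Prime] (b : ℕ) (hvo : {n : ℕ | p ∣ n ∧ ∃ (g : G) (χ : Cfsg.IrrCharacter G), orderOf g = n ∧ (χ : G → ℂ) g = 0} = {b}) (P : Sylow p G) :
    ((commutator ↥(P : Subgroup G)).map (P : Subgroup G).subtype).IsSubnormal ∧ IsCyclic ↥((P : Subgroup G).map (QuotientGroup.mk' (Cfsg.pCore p G))) := by
  have key : ∀ x : G, Van p x → orderOf x = b := fun x ⟨⟨χ, hχ⟩, hx⟩ => hvo.le ⟨hx, x, χ, rfl, hχ⟩
  have h2 := not_dvd_index hs fun x y hx hy => (key x hx).trans (key y hy).symm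
  obtain ⟨k, hk⟩ := IsPGroup.iff_card.1 (P.isPGroup'.map (QuotientGroup.mk' (pCore p G)))
  have h4 : k ≤ 1 := not_lt.1 fun e => h2 ((pow_dvd_pow p e).trans
    (hk.symm.dvd.trans (card_subgroup_dvd_card _)))
  have h5 : IsCyclic ((P : Subgroup G).map (QuotientGroup.mk' (pCore p G))) :=
    isCyclic_of_card_dvd_prime (p := p) (hk.dvd.trans ((pow_dvd_pow p h4).trans (pow_one p).dvd))
  refine ⟨?_, h5⟩
  have h6 := abelian_iff_der.1 (abelian_of_cyclic h5)
  rw [← map_commutator, Subgroup.map_eq_bot_iff, QuotientGroup.ker_mk'] at h6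
  rw [map_subtype_commutator]
  exact IsSubnormal.trans h6 (normal_subgroupOf_of_le_normalizer ((pCore_le_sylow P).trans
    (norm_der (le_norm _)))).isSubnormal (Normal.isSubnormal inferInstance)

end Cfsg.Agent.S4850
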