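import Cfsg.Statements.S4862
import Cfsg.Agent.Lib.CharDeg.RealOver

set_option autoImplicit false
open Cfsg

namespace Cfsg.Agent.S4862

open Cfsg.Lib.Char Cfsg.Lib.CharDeg Cfsg.Lib.Clifford Cfsg.Lib.Induce Subgroup in

/-- Let p be an odd prime and G a finite group such that the subgroup generated by the p-elements of G is solvable and every real-valued irreducible complex character of G has degree prime to p. Let K be the subgroup generated by the 2-elements of G and P a Sylow p-subgroup of G. Then every normal subgroup M of G contained in K and in the derived subgroup of P is centralized by K. -/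
theorem result {G : Type*} [Group G] [Finite G] (p : ℕ) [Fact p.Prime] (hp : p ≠ 2) (hsolv : Group.IsSolvable ↥(Subgroup.closure {g : G | ∃ k : ℕ, orderOf g = p ^ k})) (hreal : ∀ χ : Cfsg.IrrCharacter G, (∀ g : G, ((χ : G → ℂ) g).im = 0) → ¬ p ∣ Cfsg.charDegree (χ : G → ℂ)) (P : Sylow p G) (M : Subgroup G) (hM : M.Normal) (hMK : M ≤ (Subgroup.closure {g : G | ∃ k : ℕ, orderOf g = 2 ^ k})) (hMP : M ≤ ⁅(P : Subgroup G), (P : Subgroup G)⁆) : (Subgroup.closure {g : G | ∃ k : ℕ, orderOf g = 2 ^ k}) ≤ Subgroup.centralizer (M : Set G) := by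
  have hMP' : M ≤ P := hMP.trans (commutator_le.2 fun a ha b hb =>
    mul_mem (mul_mem (mul_mem ha hb) (inv_mem ha)) (inv_mem hb))
  have key : ∀ s : G, s * s ∈ centralizer (M : Set G) → s ∈ centralizer (M : Set G) := by
    intro s h2
    by_contra h1
    obtain ⟨φ, hφ, hφ1, hs⟩ := exists_irr_inverted M h2 h1
    haveI := Fintype.ofFinite M
    haveI := Fintype.ofFinite G
    haveI := Fintype.ofFinite (P : Subgroup G)
    obtain ⟨k, hk⟩ := (P.isPGroup'.to_le hMP').exists_card_eq
    obtain ⟨χ, hχ, hr, hne⟩ := exists_real_over_of_odd M (fun h => hp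
      ((Nat.prime_dvd_prime_iff_eq Nat.prime_two Fact.out).1
        (Nat.prime_two.dvd_of_dvd_pow (hk ▸ h))).symm) hφ hs
    obtain ⟨μ, hμ, h3, h4⟩ := exists_constituent_not_dvd (hχ.isCharacter.restrict (P : Subgroup G))
      (hreal ⟨χ, hχ⟩ hr)
    have h5 : μ 1 = 1 := by
      by_contra h
      exact h4 ((dvd_charDegree_iff_of_isPGroup P.isPGroup' hμ).2 h)
    have h6 : (fun n : M => μ (inclusion hMP' n)) = fun _ => 1 := funext fun n =>
      apply_eq_one_of_mem_commutator hμ.isCharacter h5 (by
        have := hMP n.2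
        rw [← map_subtype_commutator] at this
        obtain ⟨y, hy, e⟩ := this
        rwa [show inclusion hMP' n = y from Subtype.ext e.symm])
    have h7 := (classInner_res_one_ne_zero_iff M hχ).1
      (inner_comp_ne_zero_of_constituent (inclusion hMP')
        (hχ.isCharacter.restrict (P : Subgroup G)) hμ h3 isCharacter_one
        (by rw [h6, isIrrCharacter_one.inner_self]; exact one_ne_zero))
    refine hne ?_
    rw [show (fun n : M => χ n) = χ 1 • fun _ => 1 from funext fun n => by simp [h7 n n.2],
      classInner_smul_left, isIrrCharacter_one.inner_eq_zero_of_ne hφ hφ1.symm, mul_zero]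
  have h1 : ∀ (k : ℕ) (t : G), t ^ 2 ^ k ∈ centralizer (M : Set G) → t ∈ centralizer (M : Set G) := by
    intro k
    induction k with
    | zero => simp
    | succ k ih => exact fun t ht => ih t (key _ (by rwa [← sq, ← pow_mul, ← pow_succ]))
  refine (closure_le _).2 fun t ⟨k, hk⟩ => h1 k t ?_
  rw [← hk, pow_orderOf_eq_one]
  exact one_mem _

end Cfsg.Agent.S4862
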