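import Cfsg.Statements.S4864
import Cfsg.Agent.Lib.CharDeg.RealOver
import Cfsg.Agent.Lib.CharDeg.OverSum
import Cfsg.Agent.Lib.CharDeg.Glauberman

set_option autoImplicit false
open Cfsg

namespace Cfsg.Agent.S4864

open Cfsg.Lib.Char Cfsg.Lib.CharDeg Cfsg.Lib.Clifford Cfsg.Lib.Induce Subgroup
open scoped ComplexConjugate

section
variable {G : Type*} [Group G] [Finite G]

theorem pow_pred (g : G) : g ^ (Nat.card G - 1) = g⁻¹ := by
  rw [eq_inv_iff_mul_eq_one, ← pow_succ, Nat.sub_add_cancel Nat.card_pos, pow_card_eq_one']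

theorem coprime_pred : (Nat.card G - 1).Coprime (Nat.card G) := by
  nth_rewrite 2 [← Nat.sub_add_cancel (Nat.card_pos (α := G))]
  simp

theorem real_below (K : Subgroup G) [K.Normal] [Fintype K] (hodd : Odd K.index) {χ : G → ℂ}
    (hχ : IsIrrCharacter G χ) (hr : ∀ g, (χ g).im = 0) {θ : K → ℂ} (hθ : IsIrrCharacter K θ)
    (h : classInner (fun n : K => χ n) θ ≠ 0) (n : K) : (θ n).im = 0 := by
  haveI := Fintype.ofFinite G
  have h2 := comp_pow_eq_of_constituent K (Nat.coprime_two_left.2 hodd) coprime_pred (by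
    obtain ⟨k, hk⟩ := Nat.exists_eq_add_one_of_ne_zero (Nat.card_pos (α := G)).ne'
    rw [hk, Nat.add_sub_cancel]
    refine (Nat.modEq_iff_dvd.2 ⟨1 - k, ?_⟩)
    push_cast; ring) hχ
    (fun g => by rw [pow_pred, hχ.apply_inv, Complex.conj_eq_iff_im.2 (hr g)]) hθ h n
  rw [← Complex.conj_eq_iff_im, ← hθ.apply_inv, ← h2]
  exact congrArg θ (Subtype.ext (pow_pred (n : G)).symm)

theorem real_unique (K : Subgroup G) [K.Normal] [Fintype K] (hodd : Odd K.index) {χ ψ : G → ℂ}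
    (hχ : IsIrrCharacter G χ) (hr : ∀ g, (χ g).im = 0) (hψ : IsIrrCharacter G ψ)
    (hr' : ∀ g, (ψ g).im = 0) {θ : K → ℂ} (hθ : IsIrrCharacter K θ)
    (h : classInner (fun n : K => χ n) θ ≠ 0) (h' : classInner (fun n : K => ψ n) θ ≠ 0) :
    χ = ψ := by
  haveI := Fintype.ofFinite G
  exact congrArg Subtype.val ((existsUnique_over_pow_fixed K hodd coprime_pred
    (fun g _ => pow_pred g) hθ (fun n => by
      rw [show n ^ (Nat.card G - 1) = n⁻¹ from Subtype.ext (pow_pred (n : G)), hθ.apply_inv,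
        Complex.conj_eq_iff_im.2 (real_below K hodd hχ hr hθ h n)])).unique
    (y₁ := ⟨χ, hχ⟩) (y₂ := ⟨ψ, hψ⟩)
    ⟨h, fun g => (congrArg χ (pow_pred g)).trans
      ((hχ.apply_inv g).trans (Complex.conj_eq_iff_im.2 (hr g)))⟩
    ⟨h', fun g => (congrArg ψ (pow_pred g)).trans
      ((hψ.apply_inv g).trans (Complex.conj_eq_iff_im.2 (hr' g)))⟩)

theorem card_real (G : Type*) [Group G] [Finite G] :
    Nat.card {χ : IrrCharacter G // ∀ g, ((χ : G → ℂ) g).im = 0} =
      Nat.card {C : ConjClasses G // ∀ g, ConjClasses.mk g = C → IsConj g g⁻¹} := by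
  rw [← brauer_permutation_comp (G := G) (fun g => g⁻¹) (fun a b h => by
      obtain ⟨c, rfl⟩ := isConj_iff.1 h
      exact isConj_iff.2 ⟨c, by group⟩) (fun χ h => h.comp_inv)]
  exact Nat.card_congr (Equiv.subtypeEquivRight fun χ => forall_congr' fun g => by
    rw [χ.2.apply_inv, Complex.conj_eq_iff_im])

theorem real_conj {x y : G} (h : IsConj x y) (hx : IsConj x x⁻¹) : IsConj y y⁻¹ := by
  obtain ⟨c, rfl⟩ := isConj_iff.1 h
  exact h.symm.trans (hx.trans (isConj_iff.2 ⟨c, by group⟩))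

theorem core {p : ℕ} [hp : Fact p.Prime] (K : Subgroup G) [hKn : K.Normal] (hodd : Odd K.index)
    (hK : ¬ p ∣ Nat.card K)
    (h : ∀ χ, IsIrrCharacter G χ → (∀ g, (χ g).im = 0) → ¬ p ∣ charDegree χ) (P : Sylow p G)
    {x : G} (hx : IsConj x x⁻¹) : ∃ y ∈ normalizer ((P : Subgroup G) : Set G), IsConj x y := by
  classical
  set N := normalizer ((P : Subgroup G) : Set G) with hN
  haveI := Fintype.ofFinite G
  haveI := Fintype.ofFinite K
  haveI := Fintype.ofFinite (K.subgroupOf N)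
  have hcent : ∀ z ∈ K, z ∈ N → z ∈ centralizer ((P : Subgroup G) : Set G) := by
    intro z hz hzN s hs
    obtain ⟨k, hk⟩ := P.isPGroup'.exists_card_eq
    have h1 : s * z * s⁻¹ * z⁻¹ ∈ (P : Subgroup G) ⊓ K := ⟨by
      rw [mul_assoc, mul_assoc, ← mul_assoc z]
      exact Subgroup.mul_mem _ hs ((mem_normalizer_iff.1 hzN _).1 (Subgroup.inv_mem _ hs)),
      Subgroup.mul_mem _ (hKn.conj_mem z hz s) (Subgroup.inv_mem _ hz)⟩
    rw [inf_eq_bot_of_coprime (by
      rw [hk]; exact ((Nat.Prime.coprime_iff_not_dvd hp.out).2 hK).pow_left k), mem_bot] at h1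
    exact commutatorElement_eq_one_iff_mul_comm.1 h1
  let ι : K.subgroupOf N →* K := N.subtype.subgroupComap K
  let φ : (P : Subgroup G) →* MulAut K := MulAut.conjNormal.comp (P : Subgroup G).subtype
  obtain ⟨f, hf⟩ := exists_glauberman_equiv P.isPGroup' φ ι
    (fun a b e => Subtype.ext (Subtype.ext (congrArg Subtype.val e :)))
    (fun z => ⟨fun hz => ⟨⟨⟨z, centralizer_le_normalizer _ fun s hs =>
        mul_inv_eq_iff_eq_mul.1 (congrArg Subtype.val (hz ⟨s, hs⟩) :)⟩, z.2⟩, rfl⟩, by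
      rintro ⟨c, rfl⟩ s
      exact Subtype.ext (mul_inv_eq_iff_eq_mul.2 (hcent _ c.2 c.1.2 s s.2))⟩) hK
  have hf' : ∀ χ ξ, (resMult ι χ.1 ξ : ZMod p) ≠ 0 ↔ ξ = f χ := fun χ ξ =>
    ⟨fun h1 => by_contra fun h2 => h1 ((hf χ ξ).2 h2), fun h1 => by
      rcases (hf χ ξ).1 h1 with e | e <;> simp [e]⟩
  have hoddN : Odd (K.subgroupOf N).index := hodd.of_dvd_nat (relIndex_dvd_index_of_normal K N)
  have hex : ∀ χ : {χ : IrrCharacter G // ∀ g, ((χ : G → ℂ) g).im = 0},
      ∃ ξ : {ξ : IrrCharacter N // ∀ g, ((ξ : N → ℂ) g).im = 0}, ∃ θ,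
        classInner (fun n : K => (χ.1 : G → ℂ) n) (θ.1 : K → ℂ) ≠ 0 ∧
        classInner (fun n : K.subgroupOf N => (ξ.1 : N → ℂ) n) (f θ : _ → ℂ) ≠ 0 := by
    rintro ⟨χ, hr⟩
    obtain ⟨θ, hθ, hne⟩ := exists_irr_below K χ.2
    obtain ⟨c, hc⟩ := Cfsg.Lib.Transfer.exists_conj_le_of_not_dvd_index (T := inertia K θ)
      (fun hd => h _ χ.2 hr (hd.trans (index_inertia_dvd_charDegree K χ.2 hθ hne))) P.isPGroup'
    rw [← classInner_res_conjChar K χ.2.isClassFunction c] at hne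
    have hθ' := isIrrCharacter_conjChar K hθ c
    have hinv : ∀ s g, conjChar K c θ (φ s g) = conjChar K c θ g := fun s =>
      (mem_inertia_iff K).1 ((mem_inertia_conjChar K).2 (hc (mem_map_of_mem _ s.2)))
    have hreal := real_below K hodd χ.2 hr hθ' hne
    set θ' : {χ : IrrCharacter K // ∀ s g, (χ : K → ℂ) (φ s g) = (χ : K → ℂ) g} :=
      ⟨⟨_, hθ'⟩, hinv⟩ with hθ'def
    have h1 : (⟨_, (f θ').2.conj⟩ : IrrCharacter _) = f θ' := (hf' θ' _).1 (by
      rw [resMult_eq_of_inner (m := resMult ι θ'.1 (f θ')) (by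
        rw [← inner_eq_resMult']
        refine Eq.trans ?_ (classInner_conj_conj _ _)
        congr 1
        exact funext fun n => (Complex.conj_eq_iff_im.2 (hreal _)).symm)]
      exact (hf' θ' _).2 rfl)
    obtain ⟨ξ, hξ, h2, h3⟩ := exists_real_over_of_odd_index _ hoddN (f θ').2
      (conj_eq_self_iff_im.1 (congrArg Subtype.val h1))
    exact ⟨⟨⟨ξ, hξ⟩, h2⟩, θ', hne, h3⟩
  choose F θ hF1 hF2 using hex
  have hF : Function.Injective F := by
    intro χ ψ e
    obtain ⟨n, hn⟩ := exists_conjChar_eq_of_constituents _ (F χ).1.2 (f (θ χ)).2 (f (θ ψ)).2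
      (hF2 χ) (e ▸ hF2 ψ)
    have hinv : ∀ s g, conjChar K n ((θ χ).1 : K → ℂ) (φ s g) = conjChar K n (θ χ).1 g := fun s =>
      (mem_inertia_iff K).1 ((mem_inertia_conjChar K).2 ((mem_inertia_iff K).2
        ((θ χ).2 ⟨_, (mem_normalizer_iff.1 n.2 _).1 s.2⟩)))
    have h1 : f (θ ψ) = f ⟨⟨_, isIrrCharacter_conjChar K (θ χ).1.2 n⟩, hinv⟩ := (hf' _ _).1 (by
      rw [resMult_eq_of_inner (m := resMult ι (θ χ).1 (f (θ χ))) (by
        rw [← inner_eq_resMult, ← hn]
        exact classInner_conjChar _ n (fun c => ((θ χ).1 : K → ℂ) (ι c)) _)]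
      exact (hf' _ _).2 rfl)
    have h2 := hF1 ψ
    rw [f.injective h1, classInner_res_conjChar K ψ.1.2.isClassFunction] at h2
    exact Subtype.ext (Subtype.ext (real_unique K hodd χ.1.2 χ.2 ψ.1.2 ψ.2 (θ χ).1.2 (hF1 χ) h2))
  let J : {C : ConjClasses N // ∀ g, ConjClasses.mk g = C → IsConj g g⁻¹} →
      {C : ConjClasses G // ∀ g, ConjClasses.mk g = C → IsConj g g⁻¹} := fun C =>
    ⟨ConjClasses.map N.subtype C.1, fun g hg => by
      obtain ⟨C, hC⟩ := C
      obtain ⟨y, rfl⟩ := ConjClasses.mk_surjective C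
      exact real_conj (ConjClasses.mk_eq_mk_iff_isConj.1 hg).symm (N.subtype.map_isConj (hC y rfl))⟩
  have hmemK : ∀ z : G, IsConj z z⁻¹ → z ∈ K := fun z hz => (QuotientGroup.eq_one_iff z).1
    (eq_one_of_isConj_inv_of_odd hodd ((QuotientGroup.mk' K).map_isConj hz))
  have hJ : Function.Injective J := by
    rintro ⟨C, hC⟩ ⟨D, hD⟩ e
    obtain ⟨y, rfl⟩ := ConjClasses.mk_surjective C
    obtain ⟨z, rfl⟩ := ConjClasses.mk_surjective D
    obtain ⟨c, hc⟩ := isConj_iff.1 (ConjClasses.mk_eq_mk_iff_isConj.1 (congrArg Subtype.val e))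
    obtain ⟨n, hn, h1⟩ := P.conj_eq_normalizer_conj_of_mem_centralizer y c⁻¹
      (hcent _ (hmemK _ (N.subtype.map_isConj (hC y rfl))) y.2) (by
        rw [inv_inv, show c * y * c⁻¹ = z from hc]
        exact hcent _ (hmemK _ (N.subtype.map_isConj (hD z rfl))) z.2)
    refine Subtype.ext (ConjClasses.mk_eq_mk_iff_isConj.2 (isConj_iff.2 ⟨⟨n, hn⟩⁻¹, Subtype.ext ?_⟩))
    rw [inv_inv] at h1
    simpa using h1.symm.trans hc
  obtain ⟨⟨C, hC⟩, e⟩ := ((Nat.bijective_iff_injective_and_card J).2 ⟨hJ, le_antisymm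
    (Nat.card_le_card_of_injective J hJ) (by
      rw [← card_real, ← card_real]; exact Nat.card_le_card_of_injective F hF)⟩).2
    ⟨ConjClasses.mk x, fun g hg => real_conj (ConjClasses.mk_eq_mk_iff_isConj.1 hg).symm hx⟩
  obtain ⟨y, rfl⟩ := ConjClasses.mk_surjective C
  exact ⟨y, y.2, (ConjClasses.mk_eq_mk_iff_isConj.1 (congrArg Subtype.val e)).symm⟩

end

/-- Let p be a prime and G a finite group such that the subgroup generated by the p-elements of G is solvable and every real-valued irreducible complex character of G has degree prime to p. Then the normalizer of a Sylow p-subgroup of G contains an element of every real conjugacy class of G: every element conjugate to its inverse is conjugate to an element of that normalizer. -/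
theorem result {G : Type*} [Group G] [Finite G] (p : ℕ) [Fact p.Prime] (hsolv : Group.IsSolvable ↥(Subgroup.closure {g : G | ∃ k : ℕ, orderOf g = p ^ k})) (hreal : ∀ χ : Cfsg.IrrCharacter G, (∀ g : G, ((χ : G → ℂ) g).im = 0) → ¬ p ∣ Cfsg.charDegree (χ : G → ℂ)) (P : Sylow p G) (x : G) (hx : IsConj x x⁻¹) : ∃ y ∈ Subgroup.normalizer ((P : Subgroup G) : Set G), IsConj x y := by
  haveI := closure_pElts_normal G 2
  set K := closure {g : G | ∃ k : ℕ, orderOf g = 2 ^ k} with hK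
  obtain ⟨Q⟩ : Nonempty (Sylow p K) := inferInstance
  have hQ := sylow_normal_of_real' hsolv (fun χ h => hreal ⟨χ, h⟩) K le_rfl (a := 0)
    (by rw [relIndex_self, pow_zero]) Q
  haveI := Q.characteristic_of_normal hQ
  set L := (Q : Subgroup K).map K.subtype with hL
  have hLP : L ≤ P := by
    obtain ⟨R, hR⟩ := (Q.isPGroup'.map K.subtype).exists_le_sylow
    obtain ⟨g, rfl⟩ := MulAction.exists_smul_eq G R P
    intro x hx
    exact ⟨_, hR ((inferInstance : L.Normal).conj_mem x hx g⁻¹), by simp [mul_assoc]⟩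
  have hs := QuotientGroup.mk'_surjective L
  haveI := (inferInstance : K.Normal).map _ hs
  obtain ⟨y, hy, hxy⟩ := core (p := p) (K.map (QuotientGroup.mk' L)) (Odd.of_dvd_nat
    (Nat.odd_iff.2 (Nat.two_dvd_ne_zero.1 (not_dvd_index_closure_pElts G 2))) (index_map_dvd _ hs))
    (by
      rw [← relIndex_ker, QuotientGroup.ker_mk', relIndex, hL, subgroupOf, comap_map_eq_self_of_injective
        K.subtype_injective]
      exact Q.not_dvd_index)
    (fun β hβ hr => hreal ⟨_, hβ.inflate⟩ fun g => hr g) (P.mapSurjective hs)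
    ((QuotientGroup.mk' L).map_isConj hx)
  obtain ⟨c, rfl⟩ := isConj_iff.1 hxy
  obtain ⟨c, rfl⟩ := hs c
  refine ⟨c * x * c⁻¹, ?_, isConj_iff.2 ⟨c, rfl⟩⟩
  rw [← map_inv, ← map_mul, ← map_mul, ← mem_comap, Sylow.coe_mapSurjective,
    comap_normalizer_eq_of_surjective _ hs, comap_map_eq, QuotientGroup.ker_mk',
    sup_eq_left.2 hLP] at hy
  exact hy

end Cfsg.Agent.S4864
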