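import Cfsg.Statements.S4865
import Cfsg.Agent.Lib.CharDeg.RealMcKay

set_option autoImplicit false
open Cfsg

namespace Cfsg.Agent.S4865

open Cfsg.Lib.CharDeg Subgroup

/-- Let p be a prime and G a finite group such that the subgroup generated by the p-elements of G is solvable and every real-valued irreducible complex character of G has degree prime to p. Let N be the normalizer of a Sylow p-subgroup of G. Then there is a bijection from the real-valued irreducible characters of G onto the real-valued irreducible characters of N of degree prime to p under which corresponding degrees are congruent modulo p up to sign. -/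
theorem result {G : Type*} [Group G] [Finite G] (p : ℕ) [Fact p.Prime] (hsolv : Group.IsSolvable ↥(Subgroup.closure {g : G | ∃ k : ℕ, orderOf g = p ^ k})) (hreal : ∀ χ : Cfsg.IrrCharacter G, (∀ g : G, ((χ : G → ℂ) g).im = 0) → ¬ p ∣ Cfsg.charDegree (χ : G → ℂ)) (P : Sylow p G) : ∃ f : {χ : Cfsg.IrrCharacter G // ∀ g : G, ((χ : G → ℂ) g).im = 0} → {ξ : Cfsg.IrrCharacter ↥(Subgroup.normalizer ((P : Subgroup G) : Set G)) // (∀ n, ((ξ : ↥(Subgroup.normalizer ((P : Subgroup G) : Set G)) → ℂ) n).im = 0) ∧ ¬ p ∣ Cfsg.charDegree (ξ : ↥(Subgroup.normalizer ((P : Subgroup G) : Set G)) → ℂ)}, Function.Bijective f ∧ ∀ χ, ((Cfsg.charDegree ((f χ).1 : ↥(Subgroup.normalizer ((P : Subgroup G) : Set G)) → ℂ) : ZMod p) = (Cfsg.charDegree (χ.1 : G → ℂ) : ZMod p) ∨ (Cfsg.charDegree ((f χ).1 : ↥(Subgroup.normalizer ((P : Subgroup G) : Set G)) → ℂ) : ZMod p) = -(Cfsg.charDegree (χ.1 : G → ℂ) : ZMod p)) := by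
  haveI := closure_pElts_normal G 2
  set K := closure {g : G | ∃ k : ℕ, orderOf g = 2 ^ k} with hK
  obtain ⟨Q⟩ : Nonempty (Sylow p K) := inferInstance
  have hQ := sylow_normal_of_real' hsolv (fun χ h => hreal ⟨χ, h⟩) K le_rfl (a := 0)
    (by rw [relIndex_self, pow_zero]) Q
  haveI := Q.characteristic_of_normal hQ
  set L := (Q : Subgroup K).map K.subtype with hL
  have hi : ¬ p ∣ L.relIndex K := Cfsg.Lib.Transfer.not_dvd_relIndex_map_sylow Q
  have hLP : L ≤ P := by
    obtain ⟨R, hR⟩ := (Q.isPGroup'.map K.subtype).exists_le_sylow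
    obtain ⟨g, rfl⟩ := MulAction.exists_smul_eq G R P
    intro x hx
    exact ⟨_, hR ((inferInstance : L.Normal).conj_mem x hx g⁻¹), by simp [mul_assoc]⟩
  exact exists_real_bij P K L
    (Nat.odd_iff.2 (Nat.two_dvd_ne_zero.1 (not_dvd_index_closure_pElts G 2))) (map_subtype_le _) hLP
    (Cfsg.Lib.Transfer.eq_of_not_dvd_relIndex_of_le hi (P.isPGroup'.to_le inf_le_left)
      inf_le_right (le_inf hLP (map_subtype_le _))).ge hi hreal rfl

end Cfsg.Agent.S4865
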