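import Cfsg.Statements.S4866
import Cfsg.Agent.Lib.CharDeg.OverSum

set_option autoImplicit false
open Cfsg

namespace Cfsg.Agent.S4866

open Cfsg.Lib.Char Cfsg.Lib.CharDeg Cfsg.Lib.Clifford Cfsg.Lib.Induce in

/-- Let K be a normal subgroup of odd index in the finite group G. Then G has as many orbits on the real-valued irreducible complex characters of K (acting by conjugation) as it has orbits on the conjugacy classes of K that are real in K; equivalently, the number of G-orbits of real-valued irreducible characters of K equals the number of G-conjugacy classes of elements of K that are conjugate in K to their inverses. -/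
theorem result {G : Type*} [Group G] [Finite G] (K : Subgroup G) [K.Normal] (hodd : Odd K.index) : Nat.card (Quot (fun θ η : {θ : Cfsg.IrrCharacter ↥K // (∀ k : ↥K, ((θ : ↥K → ℂ) k).im = 0)} => ∃ g : G, ∀ k k' : ↥K, (k' : G) = g * (k : G) * g⁻¹ → (η.1 : ↥K → ℂ) k' = (θ.1 : ↥K → ℂ) k)) = Nat.card (Quot (fun x y : {x : ↥K // IsConj x x⁻¹} => ∃ g : G, (y.1 : G) = g * x.1 * g⁻¹)) := by
  classical
  haveI := Fintype.ofFinite G
  haveI := Fintype.ofFinite K
  have hK : K.Normal := inferInstance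
  have hpos : 0 < Nat.card G := Nat.card_pos
  set k := Nat.card G - 1 with hkdef
  have hkk : k + 1 = Nat.card G := Nat.sub_add_cancel hpos
  have hk : k.Coprime (Nat.card G) := by rw [← hkk]; simp
  have hinv : ∀ g : G, g ^ k = g⁻¹ := fun g => by
    rw [eq_inv_iff_mul_eq_one, ← pow_succ, hkk, pow_card_eq_one']
  have hinvN : ∀ g : K, g ^ k = g⁻¹ := fun g => Subtype.ext (hinv g)
  have hk2 : k ^ 2 ≡ 1 [MOD Nat.card G] := by
    rw [← hkk]
    refine (Nat.modEq_iff_dvd.2 ⟨1 - k, ?_⟩)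
    push_cast; ring
  have hb := brauer_permutation_comp (G := G) (fun g => g⁻¹)
    (fun a b h => by
      obtain ⟨c, rfl⟩ := isConj_iff.1 h
      exact isConj_iff.2 ⟨c, by group⟩)
    (fun χ h => by simpa only [hinv] using h.comp_pow hk)
  have hex : ∀ θ : {θ : IrrCharacter K // ∀ k : K, ((θ : K → ℂ) k).im = 0},
      ∃! χ : IrrCharacter G, classInner (fun n : K => (χ : G → ℂ) n) (θ.1 : K → ℂ) ≠ 0 ∧
        ∀ g, (χ : G → ℂ) g⁻¹ = (χ : G → ℂ) g := by
    intro θ
    simpa only [hinv] using existsUnique_over_pow_fixed K hodd hk (fun g _ => hinv g) θ.1.2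
      (fun n => by rw [hinvN, θ.1.2.apply_inv, Complex.conj_eq_iff_im.2 (θ.2 n)])
  choose F hF hFu using hex
  refine Eq.trans ?_ (hb.trans (Eq.symm ?_))
  · refine Nat.card_congr (Equiv.ofBijective (Quot.lift (fun θ => ⟨F θ, (hF θ).2⟩) ?_) ⟨?_, ?_⟩)
    · rintro θ η ⟨g, hg⟩
      refine Subtype.ext (hFu η _ ⟨?_, (hF θ).2⟩)
      have : (θ.1 : K → ℂ) = conjChar K g (η.1 : K → ℂ) := funext fun n => (hg n _ rfl).symm
      have h1 := (hF θ).1
      rwa [this, classInner_res_conjChar K (F θ).2.isClassFunction] at h1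
    · rintro ⟨θ⟩ ⟨η⟩ h
      have h1 : F θ = F η := congrArg Subtype.val h
      obtain ⟨g, hg⟩ := exists_conjChar_eq_of_constituents K (F θ).2 η.1.2 θ.1.2
        (h1 ▸ (hF η).1) (hF θ).1
      refine Quot.sound ⟨g, fun n n' hn => ?_⟩
      have e : n' = ⟨g * n * g⁻¹, hK.conj_mem _ n.2 g⟩ := Subtype.ext hn
      rw [← hg, conjChar_apply, e]
    · rintro ⟨χ, hχ⟩
      obtain ⟨θ, hθ, h⟩ := exists_irr_below K χ.2
      have h2 := comp_pow_eq_of_constituent K (Nat.coprime_two_left.2 hodd) hk hk2 χ.2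
        (fun g => by rw [hinv, hχ]) hθ h
      have h3 : ∀ n, (θ n).im = 0 := fun n => by
        rw [← Complex.conj_eq_iff_im, ← hθ.apply_inv, ← hinvN, h2]
      have h4 := hFu ⟨⟨θ, hθ⟩, h3⟩ χ ⟨h, hχ⟩
      exact ⟨Quot.mk _ ⟨⟨θ, hθ⟩, h3⟩, Subtype.ext h4.symm⟩
  · refine Nat.card_congr (Equiv.ofBijective (Quot.lift (fun x => ⟨ConjClasses.mk (x.1 : G), ?_⟩) ?_)
      ⟨?_, ?_⟩)
    · intro g hg
      obtain ⟨c, rfl⟩ := isConj_iff.1 (ConjClasses.mk_eq_mk_iff_isConj.1 hg.symm)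
      obtain ⟨d, hd⟩ := isConj_iff.1 x.2
      have hd' : (d : G) * x.1 * (d : G)⁻¹ = (x.1 : G)⁻¹ := congrArg Subtype.val hd
      refine isConj_iff.2 ⟨c * d * c⁻¹, ?_⟩
      calc c * d * c⁻¹ * (c * x.1 * c⁻¹) * (c * d * c⁻¹)⁻¹ = c * ((d : G) * x.1 * (d : G)⁻¹) * c⁻¹ := by
            group
        _ = _ := by rw [hd']; group
    · rintro x y ⟨g, hg⟩
      exact Subtype.ext (ConjClasses.mk_eq_mk_iff_isConj.2 (isConj_iff.2 ⟨g, hg.symm⟩))
    · rintro ⟨x⟩ ⟨y⟩ h
      obtain ⟨c, hc⟩ := isConj_iff.1 (ConjClasses.mk_eq_mk_iff_isConj.1 (congrArg Subtype.val h))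
      exact Quot.sound ⟨c, hc.symm⟩
    · rintro ⟨C, hC⟩
      obtain ⟨g, rfl⟩ := ConjClasses.mk_surjective C
      have h1 := hC g rfl
      have hg : g ∈ K := mem_of_isConj_pow K hodd (fun g _ => hinv g) K.one_mem
        (by rw [hinv, one_mul]; exact h1.symm)
      obtain ⟨c, hc⟩ := isConj_iff.1 h1
      obtain ⟨j, hj⟩ := hodd
      have h2 : c ^ 2 ∈ Subgroup.centralizer ({g} : Set G) := by
        rw [mem_centralizer_singleton_iff_conj]
        have : c ^ 2 * g * (c ^ 2)⁻¹ = c * (c * g * c⁻¹) * c⁻¹ := by rw [pow_two]; group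
        rw [this, hc]
        have : c * g⁻¹ * c⁻¹ = (c * g * c⁻¹)⁻¹ := by group
        rw [this, hc, inv_inv]
      have h3 := mem_centralizer_singleton_iff_conj.1 (Subgroup.pow_mem _ h2 j)
      refine ⟨Quot.mk _ ⟨⟨g, hg⟩, isConj_iff.2 ⟨⟨c ^ K.index, K.pow_index_mem c⟩, Subtype.ext ?_⟩⟩, rfl⟩
      change c ^ K.index * g * (c ^ K.index)⁻¹ = g⁻¹
      rw [hj, pow_succ', pow_mul, ← hc]
      conv_rhs => rw [← h3]
      group

end Cfsg.Agent.S4866
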