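import Cfsg.Statements.S4871
import Cfsg.Agent.Lib.CharDeg.RealInd
import Cfsg.Agent.Lib.CharDeg.MinNonab

set_option autoImplicit false
open Cfsg

namespace Cfsg.Agent.S4871


open Cfsg.Lib.Char Cfsg.Lib.CharDeg Cfsg.Lib.Clifford Cfsg.Lib.Induce Subgroup
open scoped commutatorElement

theorem fs_one {G : Type*} [Group G] [Fintype G] (N P : Subgroup G) [hN : N.Normal]
    (hc : N.IsComplement' P) (I : Subgroup G) (hNI : N ≤ I) (lam : N →* ℂˣ) (f : I → ℂ)
    (hf : ∀ (n : N) (t : P) (h : ((n : G) * t) * (n * t) ∈ I),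
      f ⟨_, h⟩ = (lam n : ℂ) * lam (MulAut.conjNormal (t : G) n))
    (z : P) (hz : ∀ n ∈ N, (z : G) * n * (z : G)⁻¹ = n⁻¹) (hzz : (z : G) * z ∈ I)
    (hirr : IsIrrCharacter G (indFun I f)) :
    (Nat.card G : ℂ)⁻¹ * ∑ s : G, indFun I f (s * s) = 1 := by
  classical
  haveI := Fintype.ofFinite N
  haveI := Fintype.ofFinite P
  have h1 : ∑ s : G, indFun I f (s * s) =
      (Nat.card I : ℂ)⁻¹ * (Nat.card G * ∑ s : G, extendByZero I f (s * s)) := by
    simp only [indFun]
    rw [← Finset.mul_sum, Finset.sum_comm]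
    congr 1
    rw [Finset.sum_congr rfl (g := fun _ => ∑ s : G, extendByZero I f (s * s)) fun x _ => ?_]
    · simp [Nat.card_eq_fintype_card]
    · refine Fintype.sum_equiv (MulAut.conj x⁻¹).toEquiv _ _ fun s => ?_
      congr 1
      simp [mul_assoc]
  have hmem : ∀ (n : N) (t : P), ((n : G) * t) * (n * t) ∈ I ↔ (t : G) * t ∈ I := by
    intro n t
    have : ((n : G) * t) * (n * t) = (n * (t * n * (t : G)⁻¹)) * (t * t) := by group
    rw [this]
    exact I.mul_mem_cancel_left (hNI (N.mul_mem n.2 (hN.conj_mem _ n.2 _)))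
  have h2 : ∀ t : P, ∃ k : ℕ, ∑ n : N, extendByZero I f (((n : G) * t) * (n * t)) = k ∧
      (t = z → 0 < k) := by
    intro t
    by_cases ht : (t : G) * t ∈ I
    · let μ : N →* ℂ := (Units.coeHom ℂ).comp (lam * lam.comp (MulAut.conjNormal (t : G)).toMonoidHom)
      have e : ∑ n : N, extendByZero I f (((n : G) * t) * (n * t)) = ∑ n : N, μ n :=
        Finset.sum_congr rfl fun n _ => by
          rw [extendByZero_of_mem I f ((hmem n t).2 ht), hf]
          simp [μ]
      rw [e, sum_hom_units]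
      split_ifs with h
      · exact ⟨Fintype.card N, rfl, fun _ => Fintype.card_pos⟩
      · refine ⟨0, by simp, fun e => (h ?_).elim⟩
        subst e
        ext n
        have : MulAut.conjNormal (t : G) n = n⁻¹ := Subtype.ext (by simpa using hz n n.2)
        simp [μ, this]
    · exact ⟨0, by simp [extendByZero_of_not_mem I f (fun h => ht ((hmem _ t).1 h))],
        fun e => (ht (e ▸ hzz)).elim⟩
  choose k hk hkz using h2
  have h3 : ∑ s : G, extendByZero I f (s * s) = ((∑ t, k t : ℕ) : ℂ) := by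
    rw [← Function.Bijective.sum_comp hc (fun s => extendByZero I f (s * s)), Fintype.sum_prod_type_right]
    push_cast
    exact Finset.sum_congr rfl fun t _ => hk t
  have hpos : 0 < ∑ t, k t :=
    lt_of_lt_of_le (hkz z rfl) (Finset.single_le_sum (f := k) (fun _ _ => Nat.zero_le _) (Finset.mem_univ z))
  have h4 : (Nat.card G : ℂ)⁻¹ * ∑ s : G, indFun I f (s * s) =
      (((Nat.card I : ℝ)⁻¹ * ((∑ t, k t : ℕ) : ℝ) : ℝ) : ℂ) := by
    rw [h1, h3]
    have := natCard_cast_ne_zero G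
    push_cast
    field_simp
  have h5 : (0 : ℝ) < (Nat.card I : ℝ)⁻¹ * ((∑ t, k t : ℕ) : ℝ) := by
    have : 0 < Nat.card I := Nat.card_pos
    positivity
  rcases hirr.frobeniusSchur with ⟨-, h⟩ | ⟨-, h | h⟩
  · rw [h4] at h
    exact absurd (by exact_mod_cast h) h5.ne'
  · exact h
  · rw [h4] at h
    have : (Nat.card I : ℝ)⁻¹ * ((∑ t, k t : ℕ) : ℝ) = -1 := by exact_mod_cast h
    linarith

theorem exists_inv {G : Type*} [Group G] [Finite G] (N P : Subgroup G) [hN : N.Normal] (q : ℕ)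
    [Fact q.Prime] (hq : q ≠ 2) (hNel : Cfsg.IsElementaryAbelian q N) (hP : IsPGroup 2 ↥P)
    (hP1 : P ≠ ⊥) (hdisj : N ⊓ P = ⊥) (hprod : N ⊔ P = ⊤)
    (hmin : N ≠ ⊥ ∧ ∀ M : Subgroup G, M.Normal → M ≠ ⊥ → N ≤ M) :
    ∃ z : P, ∀ n ∈ N, (z : G) * n * (z : G)⁻¹ = n⁻¹ := by
  haveI := (nontrivial_iff_ne_bot P).2 hP1
  haveI := hP.center_nontrivial
  obtain ⟨w, hw⟩ := exists_prime_orderOf_dvd_card' (G := center P) 2 (by
    obtain ⟨k, hk⟩ := (hP.to_subgroup (center P)).exists_card_eq
    rw [hk]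
    refine dvd_pow_self 2 fun h0 => ?_
    rw [h0, pow_zero] at hk
    exact (Finite.one_lt_card (α := center P)).ne' hk)
  have hcomm : ∀ a ∈ N, ∀ b ∈ N, a * b = b * a := fun a ha b hb =>
    congrArg Subtype.val (hNel.1.is_comm.comm (⟨a, ha⟩ : N) ⟨b, hb⟩)
  set z : G := ((w : P) : G) with hzdef
  have hz2 : z * z = 1 := by
    have : w ^ 2 = 1 := hw ▸ pow_orderOf_eq_one w
    have := congrArg (fun x : center P => ((x : P) : G)) this
    simpa [sq] using this
  have hz1 : z ≠ 1 := by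
    intro h
    have : w = 1 := Subtype.ext (Subtype.ext h)
    rw [this] at hw
    simp at hw
  have hzP : ∀ t ∈ P, t * z = z * t := fun t ht =>
    congrArg Subtype.val (mem_center_iff.1 w.2 ⟨t, ht⟩)
  have hC : N ⊓ centralizer {z} = ⊥ := by
    by_contra h
    have hn : (N ⊓ centralizer {z}).Normal := by
      rw [← normalizer_eq_top_iff, eq_top_iff, ← hprod]
      refine sup_le (fun g hg => mem_normalizer_fintype fun n hn => ?_)
        (fun g hg => mem_normalizer_fintype fun n hn => ⟨hN.conj_mem _ hn.1 _, ?_⟩)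
      · rw [hcomm g hg n hn.1, mul_inv_cancel_right]; exact hn
      · have h1 := mem_centralizer_singleton_iff.1 hn.2
        refine mem_centralizer_singleton_iff.2 ?_
        have h2 := hzP g⁻¹ (P.inv_mem hg)
        have h3 := hzP g hg
        calc g * n * g⁻¹ * z = g * n * (g⁻¹ * z) := by group
          _ = g * (n * z) * g⁻¹ := by rw [h2]; group
          _ = g * z * n * g⁻¹ := by rw [h1]; group
          _ = z * (g * n * g⁻¹) := by rw [h3]; group
    have hle := hmin.2 _ hn h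
    have hzc : z ∈ center G := by
      have : (⊤ : Subgroup G) ≤ centralizer {z} := by
        rw [← hprod]
        exact sup_le (hle.trans inf_le_right) fun t ht => mem_centralizer_singleton_iff.2 (hzP t ht)
      exact mem_center_iff.2 fun g => mem_centralizer_singleton_iff.1 (this (mem_top g))
    have := hmin.2 (zpowers z) ⟨fun x hx g => by
      rw [mem_center_iff.1 (zpowers_le.2 hzc hx) g, mul_inv_cancel_right]; exact hx⟩ (by simpa using hz1)
    exact hmin.1 (by rw [← hdisj]; exact (inf_eq_left.2 (this.trans (zpowers_le.2 (w : P).2))).symm)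
  refine ⟨w, fun n hn => ?_⟩
  have hm : n * (z * n * z⁻¹) ∈ N ⊓ centralizer {z} := by
    refine ⟨N.mul_mem hn (hN.conj_mem _ hn _), mem_centralizer_singleton_iff.2 ?_⟩
    have h1 := hcomm n hn _ (hN.conj_mem _ hn z)
    have h2 : z⁻¹ = z := inv_eq_of_mul_eq_one_right hz2
    rw [h2] at h1 ⊢
    calc n * (z * n * z) * z = n * z * n * (z * z) := by group
      _ = (z * z) * n * z * n := by rw [hz2]; group
      _ = z * (z * n * z * n) := by group
      _ = z * (n * (z * n * z)) := by rw [← h1]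
  rw [hC, mem_bot] at hm
  exact eq_inv_of_mul_eq_one_right hm

/-- Let G be a finite group that is the semidirect product of a normal elementary abelian subgroup N of odd order by a non-trivial 2-subgroup P, with N the unique minimal normal subgroup of G. Consider the strongly real irreducible complex characters of G (Frobenius–Schur indicator +1) whose degree is 1 or even. Then their average degree is at least 4/3: four times their number is at most three times the sum of their degrees. -/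
theorem result {G : Type*} [Group G] [Finite G] (N P : Subgroup G) (hN : N.Normal) (q : ℕ) [Fact q.Prime] (hq : q ≠ 2) (hNel : Cfsg.IsElementaryAbelian q N) (hP : IsPGroup 2 ↥P) (hP1 : P ≠ ⊥) (hdisj : N ⊓ P = ⊥) (hprod : N ⊔ P = ⊤) (hmin : N ≠ ⊥ ∧ ∀ M : Subgroup G, M.Normal → M ≠ ⊥ → N ≤ M) : 4 * Nat.card {χ : Cfsg.IrrCharacter G // (Cfsg.charDegree (χ : G → ℂ) = 1 ∨ 2 ∣ Cfsg.charDegree (χ : G → ℂ)) ∧ (Nat.card G : ℂ)⁻¹ * ∑ᶠ g : G, (χ : G → ℂ) (g * g) = 1} ≤ 3 * (∑ᶠ χ : {χ : Cfsg.IrrCharacter G // (Cfsg.charDegree (χ : G → ℂ) = 1 ∨ 2 ∣ Cfsg.charDegree (χ : G → ℂ)) ∧ (Nat.card G : ℂ)⁻¹ * ∑ᶠ g : G, (χ : G → ℂ) (g * g) = 1}, Cfsg.charDegree (χ.1 : G → ℂ)) := by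
  classical
  haveI := Fintype.ofFinite G
  obtain ⟨z, hz⟩ := exists_inv N P q hq hNel hP hP1 hdisj hprod hmin
  have hc : N.IsComplement' P := isComplement'_of_disjoint_and_mul_eq_univ (disjoint_iff.2 hdisj)
    (by rw [← normal_mul, hprod]; rfl)
  haveI := (nontrivial_iff_ne_bot N).2 hmin.1
  haveI := hNel.1
  obtain ⟨lam, hlam⟩ := exists_hom_ne_one_of_comm (V := N)
  obtain ⟨r, hr⟩ := (Fact.out : q.Prime).odd_of_ne_two hq
  have hsq : ∀ n ∈ N, n = n ^ (r + 1) * n ^ (r + 1) := fun n hn => by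
    have := hNel.2 n hn
    rw [hr] at this
    calc n = n ^ (2 * r + 1) * n := by rw [this, one_mul]
      _ = _ := by rw [← pow_succ, ← pow_add]; congr 1; ring
  have hN' : N ≤ commutator G := fun n hn => by
    have h := hz _ (N.inv_mem (N.pow_mem hn (r + 1)))
    have : n = ⁅n ^ (r + 1), (z : G)⁆ := by
      rw [commutatorElement_def, mul_assoc, mul_assoc, ← mul_assoc (z : G), h, inv_inv]
      exact hsq n hn
    rw [this]
    exact commutator_mem_commutator (mem_top _) (mem_top _)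
  have hφ := isIrrCharacter_hom lam
  set I := inertia N (fun n => (lam n : ℂ)) with hI
  have hNI : N ≤ I := le_inertia N hφ.isClassFunction
  have hIinv : ∀ g ∈ I, ∀ n : N, lam (MulAut.conjNormal g n) = lam n := fun g hg n =>
    Units.ext ((mem_inertia_iff N).1 hg n)
  have heq : ∀ (n : N) (t : P), (hc.equiv ((n : G) * t)).1 = n := fun n t => by
    have : hc.equiv ((n : G) * t) = (n, t) := hc.equiv.apply_symm_apply (n, t)
    rw [this]
  have hdec : ∀ g : G, ∃ (n : N) (t : P), g = n * t := fun g => by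
    obtain ⟨⟨n, t⟩, h⟩ := hc.2 g
    exact ⟨n, t, h.symm⟩
  have hmul : ∀ (n m : N) (t u : P), (hc.equiv (((n : G) * t) * (m * u))).1 =
      n * MulAut.conjNormal (t : G) m := fun n m t u => by
    rw [← heq (n * MulAut.conjNormal (t : G) m) (t * u)]
    congr 2
    simp [mul_assoc]
  let ψ : I →* ℂˣ := MonoidHom.mk' (fun x => lam (hc.equiv (x : G)).1) fun x y => by
    obtain ⟨n, t, hx⟩ := hdec x
    obtain ⟨m, u, hy⟩ := hdec y
    have ht : (t : G) ∈ I := (I.mul_mem_cancel_left (hNI n.2)).1 (hx ▸ x.2)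
    rw [coe_mul, hx, hy, hmul, heq, heq, map_mul, hIinv _ ht]
  have hzI : (z : G) ∉ I := fun h => hlam (MonoidHom.ext fun n => by
    have h1 : MulAut.conjNormal (z : G) (n ^ (r + 1)) = (n ^ (r + 1))⁻¹ :=
      Subtype.ext (by simpa using hz _ (N.pow_mem n.2 (r + 1)))
    have h2 := hIinv _ h (n ^ (r + 1))
    rw [h1, map_inv, inv_eq_iff_mul_eq_one, ← map_mul] at h2
    rw [show n = n ^ (r + 1) * n ^ (r + 1) from Subtype.ext (hsq n n.2)]
    exact h2)
  have hzz : (z : G) * z ∈ I := (mem_inertia_iff N).2 fun n => by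
    congr 2
    refine Subtype.ext ?_
    have h1 := hz _ n.2
    have h2 := hz _ (N.inv_mem n.2)
    calc (z : G) * z * n * ((z : G) * z)⁻¹ = z * (z * n * (z : G)⁻¹) * (z : G)⁻¹ := by group
      _ = n := by rw [h1, h2, inv_inv]
  have hk2 : 2 ∣ I.index := by
    obtain ⟨k, hk⟩ := hP.exists_card_eq
    have h1 : I.index ∣ 2 ^ k := by
      rw [← hk, ← hc.symm.index_eq_card]
      exact index_dvd_of_le hNI
    obtain ⟨j, -, hj⟩ := (Nat.dvd_prime_pow Nat.prime_two).1 h1
    rw [hj]
    refine dvd_pow_self 2 fun h0 => hzI ?_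
    rw [h0, pow_zero, index_eq_one] at hj
    rw [hj]; exact mem_top _
  have hk0 : 2 ≤ I.index := Nat.le_of_dvd (Nat.pos_of_ne_zero index_ne_zero_of_finite) hk2
  let F : IrrCharacter G → Prop := fun χ => (Nat.card G : ℂ)⁻¹ * ∑ᶠ g : G, (χ : G → ℂ) (g * g) = 1
  have key := card_linear_le N hN' hφ (I := I) le_rfl hNI (isIrrCharacter_hom ψ)
    (fun n => by
      have := heq n 1
      simp only [OneMemClass.coe_one, mul_one] at this
      simp [ψ, this])
    (fun χ => charDegree (χ : G → ℂ) = 1 ∧ F χ) (fun χ => charDegree (χ : G → ℂ) = I.index ∧ F χ)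
    (fun χ h => χ.2.isCharacter.charDegree_eq_one_iff.1 h.1) (fun χ χ' h _ e => by
      have h1 := χ.2.isCharacter.charDegree_eq_one_iff.1 h.1
      refine ⟨charDegree_eq_of_apply_one (by rw [e, indFun_one]; simp [h1]), ?_⟩
      simp only [F, finsum_eq_sum_of_fintype] at h ⊢
      rw [e]
      refine fs_one N P hc I hNI lam _ (fun n t _ => ?_) z hz hzz (e ▸ χ'.2)
      obtain ⟨μ, hμ⟩ := χ.2.isCharacter.exists_hom_of_apply_one h1
      have hre : ∀ g, ((χ : G → ℂ) g).im = 0 := by
        rcases χ.2.frobeniusSchur with ⟨-, h'⟩ | ⟨h', -⟩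
        · rw [h.2] at h'; exact absurd h' one_ne_zero
        · exact h'
      have h2 : ∀ g, (χ : G → ℂ) (g * g) = 1 := fun g => by
        have h3 := conj_hom_apply μ g
        have h4 := Complex.conj_eq_iff_im.2 (hre g)
        rw [hμ] at h4 ⊢
        simp only at h4 ⊢
        rw [map_mul, Units.val_mul]
        nth_rewrite 1 [← h4]
        rw [h3]
        simp
      simp only [h2, one_mul, ψ, MonoidHom.mk'_apply, hmul, map_mul, Units.val_mul])
  change 4 * Nat.card {χ : IrrCharacter G // (charDegree (χ : G → ℂ) = 1 ∨ 2 ∣ charDegree (χ : G → ℂ)) ∧ F χ} ≤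
    3 * ∑ᶠ χ : {χ : IrrCharacter G // (charDegree (χ : G → ℂ) = 1 ∨ 2 ∣ charDegree (χ : G → ℂ)) ∧ F χ},
      charDegree (χ.1 : G → ℂ)
  generalize F = F' at key ⊢
  rw [finsum_eq_sum_of_fintype, ← Finset.sum_subtype (Finset.univ.filter fun χ : IrrCharacter G =>
    (charDegree (χ : G → ℂ) = 1 ∨ 2 ∣ charDegree (χ : G → ℂ)) ∧ F' χ) (by simp)
    (fun χ : IrrCharacter G => charDegree (χ : G → ℂ))]
  rw [Nat.subtype_card (Finset.univ.filter _) (fun x => by simp; rfl)] at key ⊢
  rw [Nat.subtype_card (Finset.univ.filter _) (fun x => by simp; rfl)] at key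
  simp only [Finset.card_filter, Finset.sum_filter, Finset.mul_sum] at key ⊢
  have key2 : ∑ χ : IrrCharacter G, (4 * (if (charDegree (χ : G → ℂ) = 1 ∨ 2 ∣ charDegree (χ : G → ℂ)) ∧ F' χ
      then 1 else 0) + I.index * (if charDegree (χ : G → ℂ) = I.index ∧ F' χ then 1 else 0)) ≤
      ∑ χ : IrrCharacter G, (3 * (if (charDegree (χ : G → ℂ) = 1 ∨ 2 ∣ charDegree (χ : G → ℂ)) ∧ F' χ
      then charDegree (χ : G → ℂ) else 0) + (if charDegree (χ : G → ℂ) = 1 ∧ F' χ then 1 else 0)) := by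
    refine Finset.sum_le_sum fun χ _ => ?_
    have := χ.2.charDegree_pos
    generalize charDegree (χ : G → ℂ) = d at this
    generalize I.index = k at hk0 hk2
    by_cases hF : F' χ
    · simp only [hF, and_true]
      split_ifs <;> omega
    · simp [hF]
  rw [Finset.sum_add_distrib, Finset.sum_add_distrib] at key2
  omega

end Cfsg.Agent.S4871
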