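import Cfsg.Statements.S4872
import Cfsg.Agent.Lib.CharDeg.Quatern
import Cfsg.Agent.Lib.Char.DefectZero
import Cfsg.Agent.Lib.Clifford.Degree

set_option autoImplicit false
open Cfsg

namespace Cfsg.Agent.S4872

open Cfsg.Lib.Char Cfsg.Lib.CharDeg Cfsg.Lib.Clifford Cfsg.Lib.Induce Subgroup in
open scoped ComplexConjugate in

/-- Let N be a normal subgroup of the finite group G with G/N a 2-group, and let φ be an irreducible complex character of N of 2-defect zero (the 2-part of #N divides φ(1)) whose complex conjugate is G-conjugate to φ. Then some irreducible character of G with Frobenius–Schur indicator +1 contains φ with multiplicity exactly one on restriction to N. -/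
theorem result {G : Type*} [Group G] [Finite G] (N : Subgroup G) [N.Normal] (h2 : IsPGroup 2 (G ⧸ N)) (φ : Cfsg.IrrCharacter ↥N) (hdef : 2 ^ (Nat.card ↥N).factorization 2 ∣ Cfsg.charDegree (φ : ↥N → ℂ)) (hconj : ∃ g : G, ∀ n n' : ↥N, (n' : G) = g * (n : G) * g⁻¹ → (φ : ↥N → ℂ) n' = (starRingEnd ℂ) ((φ : ↥N → ℂ) n)) : ∃ χ : Cfsg.IrrCharacter G, (Nat.card G : ℂ)⁻¹ * ∑ᶠ g : G, (χ : G → ℂ) (g * g) = 1 ∧ (Nat.card ↥N : ℂ)⁻¹ * ∑ᶠ n : ↥N, (χ : G → ℂ) n * (starRingEnd ℂ) ((φ : ↥N → ℂ) n) = 1 := by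
  classical
  haveI := Fintype.ofFinite G
  haveI := Fintype.ofFinite N
  obtain ⟨P⟩ : Nonempty (Sylow 2 G) := inferInstance
  haveI := Fintype.ofFinite (P : Subgroup G)
  have hΦ := isCharacter_indFun N φ.2.isCharacter
  choose e he using fun χ : IrrCharacter G =>
    (χ.2.isCharacter.restrict N).exists_inner_eq_nat φ.2.isCharacter
  choose b hb using fun χ : IrrCharacter G =>
    (χ.2.isCharacter.restrict (P : Subgroup G)).exists_inner_eq_nat isCharacter_one
  have h1 : ((∑ χ, e χ * b χ : ℕ) : ℂ) =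
      classInner (fun x : (P : Subgroup G) => indFun N (φ : N → ℂ) x) (fun _ => 1) := by
    rw [indFun_eq_sum_irr N φ.2.isGeneralizedCharacter, Nat.cast_sum]
    simp only [Nat.cast_mul, ← hb, ← classInner_smul_left, ← classInner_sum_left, he]
    congr 1
    exact funext fun x => by simp
  have h3 : (∑ χ, e χ * b χ) * Nat.card P = N.index * charDegree (φ : N → ℂ) := by
    rw [classInner_one_right, Finset.sum_eq_single 1 (fun x _ hx =>
      indFun_eq_zero_of_forall' N _ _ fun y hy =>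
        φ.2.apply_eq_zero_of_defect_zero Nat.prime_two hdef ?_) (by simp),
      OneMemClass.coe_one, indFun_one, φ.2.apply_one_eq, eq_inv_mul_iff_mul_eq₀
        (card_ne_zero_complex _), mul_comm] at h1
    · exact_mod_cast h1
    · obtain ⟨k, hk⟩ := IsPGroup.iff_orderOf.1 P.isPGroup' x
      rw [← Subgroup.orderOf_coe]
      change 2 ∣ orderOf (MulAut.conj y (x : G))
      rw [MulEquiv.orderOf_eq, Subgroup.orderOf_coe, hk]
      exact dvd_pow_self 2 fun h0 => hx (orderOf_eq_one_iff.1 (by rw [hk, h0, pow_zero]))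
  have h4 : ¬ 2 ∣ ∑ χ, e χ * b χ := fun h => P.not_dvd_index (h.trans
    (Nat.dvd_of_mul_dvd_mul_right (Nat.card_pos (α := P)) (by
      rw [h3, index_mul_card, ← N.index_mul_card]
      exact Nat.mul_dvd_mul_left _ φ.2.charDegree_dvd_card)))
  obtain ⟨g, hg⟩ := hconj
  have hg' : (fun n => conj ((φ : N → ℂ) n)) = conjChar N g φ := funext fun n => (hg n _ rfl).symm
  let c : IrrCharacter G → IrrCharacter G := fun χ => ⟨_, χ.2.conj⟩
  have hec : ∀ χ, e (c χ) = e χ := fun χ => by
    have h5 := classInner_conj_conj (fun n : N => (χ : G → ℂ) n) (fun n => conj ((φ : N → ℂ) n))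
    simp only [Complex.conj_conj] at h5
    rw [φ.2.conj.isCharacter.inner_comm (χ.2.isCharacter.restrict N), hg',
      classInner_res_conjChar N χ.2.isClassFunction, he] at h5
    exact_mod_cast (he (c χ)).symm.trans h5
  have hbc : ∀ χ, b (c χ) = b χ := fun χ => by
    have h5 := classInner_conj_conj (fun n : (P : Subgroup G) => (χ : G → ℂ) n) (fun _ => 1)
    simp only [map_one] at h5
    rw [isCharacter_one.inner_comm (χ.2.isCharacter.restrict _), hb] at h5
    exact_mod_cast (hb (c χ)).symm.trans h5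
  obtain ⟨χ, hχ, hodd⟩ : ∃ χ, c χ = χ ∧ ¬ 2 ∣ e χ * b χ := by
    by_contra hcon
    push Not at hcon
    refine h4 ((ZMod.natCast_eq_zero_iff _ _).1 ?_)
    rw [Nat.cast_sum]
    exact Finset.sum_involution (fun χ _ => c χ)
      (fun χ _ => by rw [hec, hbc, CharTwo.add_self_eq_zero])
      (fun χ _ h0 h => h0 ((ZMod.natCast_eq_zero_iff _ _).2 (hcon χ h)))
      (fun _ _ => Finset.mem_univ _) (fun χ _ => Subtype.ext (funext fun x => Complex.conj_conj _))
  refine ⟨χ, ?_, ?_⟩
  · rw [finsum_eq_sum_of_fintype]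
    rcases χ.2.frobeniusSchur with ⟨⟨x, hx⟩, -⟩ | ⟨-, h | h⟩
    · exact absurd (conj_eq_self_iff_im.1 (congrArg Subtype.val hχ) x) hx
    · exact h
    · obtain ⟨n, hn, h5⟩ := even_inner_one_of_fs (P : Subgroup G).subtype χ.2 h
      have h6 : n = b χ := by exact_mod_cast h5.symm.trans (hb χ)
      exact absurd ((h6 ▸ hn).two_dvd.mul_left _) hodd
  · rw [finsum_eq_sum_of_fintype, ← classInner_def, he]
    obtain ⟨e', h5, h6⟩ := exists_classInner_res_dvd_relIndex N χ.2 φ.2 (by
      rw [he]; exact_mod_cast fun h0 => hodd (by simp [h0]))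
    obtain rfl : e' = e χ := by exact_mod_cast h5.symm.trans (he χ)
    obtain ⟨k, hk⟩ := h2.exists_card_eq
    have h7 := h6.trans (relIndex_dvd_index_of_normal N _)
    rw [index, hk] at h7
    obtain ⟨i, -, hi⟩ := (Nat.dvd_prime_pow Nat.prime_two).1 h7
    rcases i with _ | i
    · rw [hi]; simp
    · exact absurd (Dvd.dvd.mul_right (hi ▸ dvd_pow_self 2 (Nat.succ_ne_zero i)) _) hodd

end Cfsg.Agent.S4872
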