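import Cfsg.Statements.S4873
import Cfsg.Agent.Lib.CharDeg.OverSum

set_option autoImplicit false
open Cfsg

namespace Cfsg.Agent.S4873

open Cfsg.Lib.Char Cfsg.Lib.CharDeg Cfsg.Lib.Clifford in

/-- Let N be a normal subgroup of odd index in the finite group G. Then every irreducible complex character of N with Frobenius–Schur indicator +1 lies under exactly one irreducible character of G with Frobenius–Schur indicator +1. -/
theorem result {G : Type*} [Group G] [Finite G] (N : Subgroup G) [N.Normal] (hodd : Odd N.index) (φ : Cfsg.IrrCharacter ↥N) (hφ : (Nat.card ↥N : ℂ)⁻¹ * ∑ᶠ g : ↥N, (φ : ↥N → ℂ) (g * g) = 1) : ∃! χ : Cfsg.IrrCharacter G, (Nat.card G : ℂ)⁻¹ * ∑ᶠ g : G, (χ : G → ℂ) (g * g) = 1 ∧ (∑ᶠ n : ↥N, (χ : G → ℂ) n * (starRingEnd ℂ) ((φ : ↥N → ℂ) n)) ≠ 0 := by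
  classical
  haveI := Fintype.ofFinite G
  haveI := Fintype.ofFinite N
  simp only [finsum_eq_sum_of_fintype] at hφ ⊢
  have hpos : 0 < Nat.card G := Nat.card_pos
  set k := Nat.card G - 1 with hkdef
  have hkk : k + 1 = Nat.card G := Nat.sub_add_cancel hpos
  have hk : k.Coprime (Nat.card G) := by rw [← hkk]; simp
  have hinv : ∀ g : G, g ^ k = g⁻¹ := fun g => by
    rw [eq_inv_iff_mul_eq_one, ← pow_succ, hkk, pow_card_eq_one']
  have hinvN : ∀ g : N, g ^ k = g⁻¹ := fun g => Subtype.ext (hinv g)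
  have hreal : ∀ {H : Type _} [Group H] [Fintype H] (ψ : IrrCharacter H),
      (Nat.card H : ℂ)⁻¹ * ∑ s, (ψ : H → ℂ) (s * s) ≠ 0 → ∀ g, (ψ : H → ℂ) g⁻¹ = (ψ : H → ℂ) g := by
    intro H _ _ ψ h g
    rcases ψ.2.frobeniusSchur with h1 | h1
    · exact absurd h1.2 h
    · rw [ψ.2.apply_inv, Complex.conj_eq_iff_im.2 (h1.1 g)]
  have hφr := hreal φ (by rw [hφ]; exact one_ne_zero)
  obtain ⟨χ, ⟨h1, h2⟩, hu⟩ := existsUnique_over_pow_fixed N hodd hk (fun g _ => hinv g) φ.2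
    (fun n => by rw [hinvN, hφr])
  have hover : ∀ ψ : IrrCharacter G, (∑ n : N, (ψ : G → ℂ) n * (starRingEnd ℂ) ((φ : N → ℂ) n)) ≠ 0 ↔
      classInner (fun n : N => (ψ : G → ℂ) n) (φ : N → ℂ) ≠ 0 := by
    intro ψ
    rw [← card_mul_classInner (fun n : N => (ψ : G → ℂ) n), mul_ne_zero_iff]
    exact and_iff_right (card_ne_zero_complex N)
  -- the sum identity
  have hsq : ∀ n : N, ∑ ψ : IrrCharacter G, ((Nat.card G : ℂ)⁻¹ * ∑ s, (ψ : G → ℂ) (s * s)) *
      (starRingEnd ℂ) ((ψ : G → ℂ) n) = ∑ ψ : IrrCharacter N, ((Nat.card N : ℂ)⁻¹ * ∑ s, (ψ : N → ℂ) (s * s)) *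
      (starRingEnd ℂ) ((ψ : N → ℂ) n) := by
    intro n
    rw [← card_sq_eq_sum_irr, ← card_sq_eq_sum_irr]
    congr 1
    have hmem : ∀ s : G, s * s = n → s ∈ N := fun s hs =>
      mem_of_pow_mem_of_coprime (Nat.coprime_two_left.2 hodd) (by rw [pow_two, hs]; exact n.2)
        (N.pow_index_mem s)
    exact Nat.card_congr
      { toFun := fun s => ⟨⟨s.1, hmem s.1 s.2⟩, Subtype.ext s.2⟩
        invFun := fun s => ⟨s.1, congrArg Subtype.val s.2⟩
        left_inv := fun _ => rfl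
        right_inv := fun _ => rfl }
  have key : ∑ ψ : IrrCharacter G, ((Nat.card G : ℂ)⁻¹ * ∑ s, (ψ : G → ℂ) (s * s)) *
      classInner (φ : N → ℂ) (fun n : N => (ψ : G → ℂ) n) = 1 := by
    have e1 : ∑ ψ : IrrCharacter G, ((Nat.card G : ℂ)⁻¹ * ∑ s, (ψ : G → ℂ) (s * s)) *
        classInner (φ : N → ℂ) (fun n : N => (ψ : G → ℂ) n) =
        ∑ ψ : IrrCharacter N, ((Nat.card N : ℂ)⁻¹ * ∑ s, (ψ : N → ℂ) (s * s)) *
        classInner (φ : N → ℂ) (ψ : N → ℂ) := by
      have a : ∀ {ι : Type _} [Fintype ι] (c : ι → ℂ) (f : ι → N → ℂ),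
          ∑ i, c i * classInner (φ : N → ℂ) (f i) =
            (Nat.card N : ℂ)⁻¹ * ∑ n, (φ : N → ℂ) n * ∑ i, c i * (starRingEnd ℂ) (f i n) := by
        intro ι _ c f
        simp only [classInner_def, Finset.mul_sum]
        rw [Finset.sum_comm]
        exact Finset.sum_congr rfl fun _ _ => Finset.sum_congr rfl fun _ _ => by ring
      rw [a, a]
      simp only [hsq]
    rw [e1, Finset.sum_eq_single φ, φ.2.inner_self, hφ, one_mul]
    · intro ψ _ hne
      rw [φ.2.inner_eq_zero_of_ne ψ.2 (fun e => hne (Subtype.ext e).symm), mul_zero]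
    · intro h; exact absurd (Finset.mem_univ _) h
  rw [Finset.sum_eq_single χ] at key
  · refine ⟨χ, ⟨?_, (hover χ).2 h1⟩, fun ψ hψ => hu ψ ⟨(hover ψ).1 hψ.2, fun g => ?_⟩⟩
    · obtain ⟨e, he⟩ := φ.2.isCharacter.exists_inner_eq_nat (χ.2.isCharacter.restrict N)
      rw [he] at key
      rcases χ.2.frobeniusSchur with h | ⟨_, h | h⟩
      · rw [h.2, zero_mul] at key; exact absurd key zero_ne_one
      · exact h
      · rw [h] at key
        have : ((e : ℂ) + 1) = 0 := by linear_combination -key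
        exact absurd this (by exact_mod_cast Nat.succ_ne_zero e)
    · rw [hinv, hreal ψ (by rw [hψ.1]; exact one_ne_zero)]
  · intro ψ _ hne
    by_contra hc
    rw [← ne_eq, mul_ne_zero_iff] at hc
    exact hne (hu ψ ⟨fun h => hc.2 (classInner_eq_zero_comm.1 h), fun g => by rw [hinv, hreal ψ hc.1]⟩)
  · intro h; exact absurd (Finset.mem_univ _) h

end Cfsg.Agent.S4873
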