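import Cfsg.Statements.S4885
import Cfsg.Agent.Lib.CharDeg.NavWolf
import Cfsg.Agent.Lib.CharDeg.PrincSolv

set_option autoImplicit false
open Cfsg

namespace Cfsg.Agent.S4885

open Cfsg.Lib.NavWolf Cfsg.Lib.CharDeg Cfsg.Lib.Core

/-- Let p and q be primes dividing the order of the finite group G, and suppose G is p-solvable and q-solvable. Fix maximal ideals of the algebraic integers containing p and q, defining the principal p-block and the principal q-block. If the irreducible characters of degree prime to p in the principal p-block are exactly the irreducible characters of degree prime to q in the principal q-block, then p = q. -/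
theorem result {G : Type*} [Group G] [Finite G] (p q : ℕ) [Fact p.Prime] [Fact q.Prime] (hp : p ∣ Nat.card G) (hq : q ∣ Nat.card G) (hps : Cfsg.IsPSolvable p G) (hqs : Cfsg.IsPSolvable q G) (Mp Mq : Ideal Cfsg.AlgInt) (hMp : Cfsg.IsPModular p Mp) (hMq : Cfsg.IsPModular q Mq) (h : ∀ χ : Cfsg.IrrCharacter G, (χ ∈ Cfsg.principalBlock Mp G ∧ ¬ p ∣ Cfsg.charDegree (χ : G → ℂ)) ↔ (χ ∈ Cfsg.principalBlock Mq G ∧ ¬ q ∣ Cfsg.charDegree (χ : G → ℂ))) : p = q := by
  by_contra hpq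
  obtain ⟨P⟩ : Nonempty (Sylow p G) := inferInstance
  obtain ⟨Q⟩ : Nonempty (Sylow q G) := inferInstance
  have h1 : pPrimeCore q G ⊓ P ≤ ⁅(P : Subgroup G), (P : Subgroup G)⁆ := fun x hx =>
    mem_commutator_of_ker' P (pPrimeCore p G) (pPrimeCore_coprime p G) hx.2 fun χ hχ hd hk =>
      (mem_principalBlock_iff_of_isPSolvable hMq hqs ⟨χ, hχ⟩).1 ((h ⟨χ, hχ⟩).1
        ⟨(mem_principalBlock_iff_of_isPSolvable hMp hps ⟨χ, hχ⟩).2 hk, hd⟩).1 x hx.1
  have h2 : pPrimeCore p G ⊓ Q ≤ ⁅(Q : Subgroup G), (Q : Subgroup G)⁆ := fun x hx =>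
    mem_commutator_of_ker' Q (pPrimeCore q G) (pPrimeCore_coprime q G) hx.2 fun χ hχ hd hk =>
      (mem_principalBlock_iff_of_isPSolvable hMp hps ⟨χ, hχ⟩).1 ((h ⟨χ, hχ⟩).2
        ⟨(mem_principalBlock_iff_of_isPSolvable hMq hqs ⟨χ, hχ⟩).2 hk, hd⟩).1 x hx.1
  exact not_dvd_card_of_inf_le P _ h1 (sup_eq_top_of_inf_le hpq hps P Q h1 h2) hp

end Cfsg.Agent.S4885
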