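import Cfsg.Statements.S4886
import Cfsg.Agent.Lib.CharDeg.NavWolf2
import Cfsg.Agent.Lib.CharDeg.PrincSolv

set_option autoImplicit false
open Cfsg

namespace Cfsg.Agent.S4886

open Cfsg.Lib.NavWolf Cfsg.Lib.CharDeg Cfsg.Lib.Core Cfsg.Lib.Char Subgroup

theorem fwd {G : Type*} [Group G] [Finite G] {p q : ℕ} [Fact p.Prime] [Fact q.Prime] (hpq : p ≠ q)
    {M : Ideal AlgInt} (hM : IsPModular p M) (hps : IsPSolvable p G) (hqs : IsPSolvable q G)
    (h : ∀ χ : IrrCharacter G, χ ∈ principalBlock M G → ¬ p ∣ charDegree (χ : G → ℂ) →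
      ¬ q ∣ charDegree (χ : G → ℂ)) : ¬ q ∣ (pPrimeCore p G).index := by
  have := Hyp.not_dvd_index_pPrimeCore hpq (G ⧸ pPrimeCore p G) (fun χ hχ =>
    h ⟨_, hχ.inflate⟩ ((mem_principalBlock_iff_of_isPSolvable hM hps _).2 fun k hk => by
      simp only [(QuotientGroup.eq_one_iff k).2 hk, QuotientGroup.mk_one]))
    (isPSolvable_quotient hps _) (isPSolvable_quotient hqs _)
  rwa [pPrimeCore_quotient_pPrimeCore, index_bot] at this

theorem bwd {G : Type*} [Group G] [Finite G] {p q : ℕ} [hp : Fact p.Prime] [hq : Fact q.Prime]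
    (hpq : p ≠ q) {M : Ideal AlgInt} (hM : IsPModular p M) (hps : IsPSolvable p G) (P : Sylow p G)
    (Q : Sylow q G) (h : (Q : Subgroup G) ≤ centralizer ((P : Subgroup G) : Set G))
    (χ : IrrCharacter G) (hχ : χ ∈ principalBlock M G) : ¬ q ∣ charDegree (χ : G → ℂ) := by
  have h1 := h.trans (centralizer_sylow_le_pPrimePCore (isPConstrained_of_isPSolvable hps) P)
  have h2 : (Q : Subgroup G) ≤ pPrimeCore p G := by
    have h3 : (Q : Subgroup G).map (QuotientGroup.mk' (pPrimeCore p G)) = ⊥ := by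
      refine eq_bot_of_isPGroup_of_coprime (p := q) (Q.isPGroup'.map _) ?_
      have h4 := map_mono (f := QuotientGroup.mk' (pPrimeCore p G)) h1
      rw [map_pPrimePCore_mk'] at h4
      exact coprime_card_of_isPGroup ((pCore_isPGroup p _).to_le h4)
        ((Nat.coprime_primes hq.out hp.out).2 hpq.symm)
    rwa [Subgroup.map_eq_bot_iff, QuotientGroup.ker_mk'] at h3
  obtain ⟨ψ, hψ, e⟩ := χ.2.exists_deflate (pPrimeCore p G)
    ((mem_principalBlock_iff_of_isPSolvable hM hps χ).1 hχ)
  have h3 : charDegree (χ : G → ℂ) = charDegree ψ :=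
    charDegree_eq_of_apply_one (by rw [← e, ← hψ.apply_one_eq, QuotientGroup.mk_one])
  rw [h3]
  exact fun hd => Q.not_dvd_index ((hd.trans hψ.charDegree_dvd_card).trans (index_dvd_of_le h2))

/-- Let p ≠ q be primes and G a finite group that is p-solvable and q-solvable. Fix maximal ideals of the algebraic integers containing p and q, defining the principal p-block and the principal q-block. Then every irreducible character of degree prime to p in the principal p-block has degree prime to q and every irreducible character of degree prime to q in the principal q-block has degree prime to p, if and only if some Sylow p-subgroup of G commutes elementwise with some Sylow q-subgroup. -/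
theorem result {G : Type*} [Group G] [Finite G] (p q : ℕ) [Fact p.Prime] [Fact q.Prime] (hpq : p ≠ q) (Mp Mq : Ideal Cfsg.AlgInt) (hMp : Cfsg.IsPModular p Mp) (hMq : Cfsg.IsPModular q Mq) (hps : Cfsg.IsPSolvable p G) (hqs : Cfsg.IsPSolvable q G) : ((∀ χ : Cfsg.IrrCharacter G, χ ∈ Cfsg.principalBlock Mp G → ¬ p ∣ Cfsg.charDegree (χ : G → ℂ) → ¬ q ∣ Cfsg.charDegree (χ : G → ℂ)) ∧ (∀ χ : Cfsg.IrrCharacter G, χ ∈ Cfsg.principalBlock Mq G → ¬ q ∣ Cfsg.charDegree (χ : G → ℂ) → ¬ p ∣ Cfsg.charDegree (χ : G → ℂ))) ↔ ∃ (P : Sylow p G) (Q : Sylow q G), ∀ x ∈ (P : Subgroup G), ∀ y ∈ (Q : Subgroup G), x * y = y * x := by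
  constructor
  · rintro ⟨h1, h2⟩
    have h3 := fwd hpq hMp hps hqs h1
    have h4 := fwd hpq.symm hMq hqs hps h2
    obtain ⟨P⟩ : Nonempty (Sylow p G) := inferInstance
    obtain ⟨Q, -, hQ⟩ := exists_invariant_sylow (T := ⊤) P.isPGroup' (pPrimeCore_coprime p G) h3 le_top
      (by rw [index_top]; exact (Fact.out : q.Prime).not_dvd_one)
    have h5 : (P : Subgroup G) ≤ pPrimeCore q G :=
      le_of_isPGroup_of_coprime_index P.isPGroup' (coprime_iff_not_dvd.2 h4)
    have h6 : ⁅(Q : Subgroup G), (P : Subgroup G)⁆ = ⊥ := by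
      rw [eq_bot_iff, ← inf_eq_bot_of_isPGroup_of_coprime Q.isPGroup' (pPrimeCore_coprime q G)]
      exact le_inf (Cfsg.Lib.Coprime.commutator_le_of_le_normalizer hQ)
        ((commutator_mono le_rfl h5).trans (commutator_le_right _ _))
    exact ⟨P, Q, fun x hx y hy => commutator_eq_bot_iff_le_centralizer.1 h6 hy x hx⟩
  · rintro ⟨P, Q, h⟩
    exact ⟨fun χ hχ _ => bwd hpq hMp hps P Q (fun y hy x hx => h x hx y hy) χ hχ,
      fun χ hχ _ => bwd hpq.symm hMq hqs Q P (fun x hx y hy => (h x hx y hy).symm) χ hχ⟩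

end Cfsg.Agent.S4886
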