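import Cfsg.Statements.S4890
import Cfsg.Agent.Lib.Block.EqDeg

set_option autoImplicit false
open Cfsg

namespace Cfsg.Agent.S4890

open Cfsg.Lib.Block Cfsg.Lib.Char Cfsg.Lib.Transfer MonoidAlgebra Subgroup

/-- Let G be a finite group, p a prime, M a maximal ideal of the algebraic integers containing p, and B a p-block of G with a defect group that is normal in G. Then all height-zero irreducible characters of B have the same degree if and only if B is a nilpotent block. -/
theorem result {G : Type*} [Group G] [Finite G] (p : ℕ) [Fact p.Prime] (M : Ideal Cfsg.AlgInt) (hM : Cfsg.IsPModular p M) (B : Set (Cfsg.IrrCharacter G)) (hB : Cfsg.IsPBlock M B) (D : Subgroup G) (hD : Cfsg.IsDefectGroup p M B D) (hDn : D.Normal) : (∃ d : ℕ, ∀ χ : Cfsg.IrrCharacter G, χ ∈ B → Cfsg.blockHeight p B (χ : G → ℂ) = 0 → Cfsg.charDegree (χ : G → ℂ) = d) ↔ Cfsg.IsNilpotentBlock p M B := by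
  have : Modular p M := ⟨hM⟩
  rw [hB.isNilpotentBlock_iff_top]
  exact ⟨fun ⟨m, hm⟩ => hB.isNilIn_of_degree_of_normal hD hm, hB.exists_degree_of_nil⟩

end Cfsg.Agent.S4890
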