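import Cfsg.Statements.S4892
import Cfsg.Agent.Lib.Block.PrinExt
import Cfsg.Agent.Lib.Clifford.Extension
import Cfsg.Agent.Lib.Char.ComplexAut

set_option autoImplicit false
open Cfsg

namespace Cfsg.Agent.S4892

open Cfsg.Lib.Block Cfsg.Lib.Char Cfsg.Lib.Transfer MonoidAlgebra Subgroup

open Cfsg.Lib.Modular Cfsg.Lib.Clifford Cfsg.Lib.Induce

theorem fix_adjoin (σ : ℂ →+* ℂ) {ζ z : ℂ} (hζ : σ ζ = ζ)
    (hz : z ∈ IntermediateField.adjoin ℚ ({ζ} : Set ℂ)) : σ z = z := by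
  induction hz using IntermediateField.adjoin_induction with
  | mem x hx => rwa [hx]
  | algebraMap x => simp
  | add x y _ _ hx hy => rw [map_add, hx, hy]
  | inv x _ hx => rw [map_inv₀, hx]
  | mul x y _ _ hx hy => rw [map_mul, hx, hy]

theorem not_dvd_detOrder {G : Type*} [Group G] [Finite G] {p m : ℕ} (hp : p.Prime) (h2 : p ≠ 2)
    (hm : ¬ p ∣ m) {θ : G → ℂ} (hθ : IsCharacter G θ) (h : ∀ g, θ g ∈ IntermediateField.adjoin ℚ
      ({Complex.exp (2 * Real.pi * Complex.I / m)} : Set ℂ)) : ¬ p ∣ detOrder θ := by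
  have h0 : m ≠ 0 := fun h => hm (h ▸ dvd_zero p)
  obtain ⟨σ, h1, h3⟩ := exists_ringEquiv_pow_fix hp.ne_zero h0 (hp.coprime_iff_not_dvd.2 hm)
    ((Nat.coprime_primes Nat.prime_two hp).2 h2.symm)
  have h4 := detChar_map_ringHom hθ σ.toRingHom
  rw [funext fun g => fix_adjoin σ.toRingHom
    (h3 _ (Complex.isPrimitiveRoot_exp m h0).pow_eq_one) (h g)] at h4
  rintro ⟨k, hk⟩
  have h5 := detOrder_pos θ
  refine pow_ne_one_of_lt_orderOf (x := detChar θ) (n := k) (by rintro rfl; omega)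
    (hk.symm ▸ (Nat.lt_mul_iff_one_lt_left (Nat.pos_of_ne_zero (by rintro rfl; omega))).2
      hp.one_lt : k < detOrder θ) (funext fun g => ?_)
  have h6 := h1 (detChar θ g ^ k) (by rw [← pow_mul', ← hk, detChar_pow_detOrder])
  rw [map_pow, show σ (detChar θ g) = detChar θ g from (congrFun h4 g).symm, sq] at h6
  exact (mul_eq_left₀ (pow_ne_zero k (detChar_ne_zero θ g))).1 h6.symm

theorem exists_twist {G : Type*} [Group G] [Finite G] {p : ℕ} [hp : Fact p.Prime]
    {N : Subgroup G} {χ : G → ℂ} (hχ : IsCharacter G χ) (hd : ¬ p ∣ charDegree χ)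
    (h : ¬ p ∣ detOrder fun n : N => χ n) : ∃ ν : G →* ℂˣ, (∀ n ∈ N, ν n = 1) ∧
      (∀ g, ∃ k, (ν g : ℂ) ^ p ^ k = 1) ∧
        ∀ g, detChar (fun g => ν g * χ g) g = detChar χ (regPart p g) := by
  let ν := detHom χ * (detHom χ ^ regExp p (Nat.card G))⁻¹
  have h1 : ∀ g, ν g = detHom χ (pPart p g) := fun g => by simp [ν, pPart, regPart]
  have h2 : ν ^ ordProj[p] (Nat.card G) = 1 := MonoidHom.ext fun g => by
    obtain ⟨k, hk⟩ := pElt_pPart hp.out g
    rw [MonoidHom.pow_apply, h1, ← map_pow, orderOf_dvd_iff_pow_eq_one.1, map_one,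
      MonoidHom.one_apply]
    exact hk ▸ pow_dvd_pow _ ((hp.out.pow_dvd_iff_le_factorization Nat.card_pos.ne').1
      (hk ▸ orderOf_dvd_natCard _))
  obtain ⟨t, ht⟩ := exists_pow_eq_self_of_coprime (x := ν) (n := charDegree χ)
    (((hp.out.coprime_iff_not_dvd.2 hd).symm.pow_right _).coprime_dvd_right
      (orderOf_dvd_of_pow_eq_one h2))
  refine ⟨(ν ^ t)⁻¹, fun n hn => ?_, fun g => ⟨(Nat.card G).factorization p, ?_⟩, fun g => ?_⟩
  · have h3 := detChar_pow_detOrder (fun n : N => χ n) ⟨_, pPart_mem p hn⟩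
    rw [congrFun (detChar_restrict hχ N), ← detHom_apply, ← h1, ← Units.val_pow_eq_pow_val,
      Units.val_eq_one] at h3
    have h4 := (pow_gcd_eq_one.2 ⟨h3, DFunLike.congr_fun h2 n⟩)
    rw [((hp.out.coprime_iff_not_dvd.2 h).symm.pow_right _).gcd_eq_one, pow_one] at h4
    simp [h4]
  · rw [← Units.val_pow_eq_pow_val, MonoidHom.inv_apply, MonoidHom.pow_apply, inv_pow, ← pow_mul,
      pow_mul', ← MonoidHom.pow_apply, h2]
    simp
  · rw [← detHom_apply, detHom_hom_mul hχ hχ.apply_one_eq, MonoidHom.mul_apply,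
      MonoidHom.pow_apply, MonoidHom.inv_apply, MonoidHom.pow_apply, inv_pow, ← pow_mul, pow_mul',
      ← MonoidHom.pow_apply, ← MonoidHom.pow_apply, ht, ← detHom_apply]
    simp [ν, regPart]

theorem rat {G : Type*} [Group G] [Finite G] {p m a : ℕ} [hp : Fact p.Prime] {M : Ideal AlgInt}
    [Modular p M] {N K : Subgroup G} [N.Normal] [K.Normal] (hm : ¬ p ∣ m) (ha : K.index = p ^ a)
    {ψ χ : G → ℂ} (h3 : IsIrrCharacter G ψ) (h6 : IsIrrCharacter N fun n : N => ψ n)
    (s6 : ¬ p ∣ charDegree ψ) (hrat : ∀ n : N, ψ n ∈ IntermediateField.adjoin ℚ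
      ({Complex.exp (2 * Real.pi * Complex.I / m)} : Set ℂ))
    (n3 : ∀ g, detChar ψ g = detChar χ (regPart p g))
    (h5 : ∀ x ∈ K, ∃ n ∈ N, ∃ c, x = n * c ∧ red M (ψ c / ψ 1) = 1) :
    ∃ n : ℕ, ¬ p ∣ n ∧ ∀ g : G, ψ g ∈ IntermediateField.adjoin ℚ
      ({Complex.exp (2 * Real.pi * Complex.I / n)} : Set ℂ) := by
  have hp' := hp.out
  have hn : ¬ p ∣ m * ordCompl[p] (Nat.card G) := fun h =>
    (hp'.dvd_mul.1 h).elim hm (Nat.not_dvd_ordCompl hp' Nat.card_pos.ne')
  refine ⟨_, hn, fun g => ?_⟩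
  have hζ := Complex.isPrimitiveRoot_exp _ (ne_zero_of_not_dvd hn)
  generalize Complex.exp (_ / (_ * _ : ℕ)) = ζ at hζ ⊢
  obtain ⟨z, hz⟩ := mem_range_of_forall_algEquiv (K := IntermediateField.adjoin ℚ ({ζ} : Set ℂ))
    (h3.isIntegral g).tower_top fun σ => by
    have := NeZero.mk (ne_zero_of_not_dvd hn)
    have s1 : ∀ z : ℂ, z ^ (m * ordCompl[p] (Nat.card G)) = 1 → σ.toRingEquiv.toRingHom z = z :=
      fun z hz => by
        obtain ⟨i, -, rfl⟩ := hζ.eq_pow_of_pow_eq_one hz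
        rw [map_pow]
        exact congrArg (· ^ i) (σ.commutes ⟨ζ, IntermediateField.mem_adjoin_simple_self ℚ ζ⟩)
    change σ.toRingEquiv.toRingHom _ = _
    generalize σ.toRingEquiv.toRingHom = σ at s1
    have s2 : ∀ g : G, orderOf (regPart p g) ∣ m * ordCompl[p] (Nat.card G) := fun g =>
      (Nat.Coprime.dvd_of_dvd_mul_left (m := ordProj[p] (Nat.card G))
        ((hp'.coprime_iff_not_dvd.2 (not_dvd_orderOf_regPart hp' g)).symm.pow_right _)
        (by rw [Nat.ordProj_mul_ordCompl_eq_self]; exact orderOf_dvd_natCard _)).mul_left m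
    have s3 := h3.isCharacter.map_ringHom σ
    obtain ⟨l, s4, s5⟩ := exists_hom_mul_eq_of_res_eq N h3.isCharacter h6 s3 fun n =>
      fix_adjoin σ (s1 _ (by rw [pow_mul,
        (Complex.isPrimitiveRoot_exp m (ne_zero_of_not_dvd hm)).pow_eq_one, one_pow])) (hrat n)
    have s7 : l ^ charDegree ψ = 1 := by
      rw [← mul_left_inj (detHom ψ), ← detHom_hom_mul h3.isCharacter h3.apply_one_eq, ← s5]
      ext g
      rw [MonoidHom.mul_apply, MonoidHom.one_apply, one_mul, detHom_apply, detHom_apply, detChar_map_ringHom h3.isCharacter, n3]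
      exact (congrArg σ (n3 g)).trans ((isCharacter_detChar _).isGeneralizedCharacter
        |>.map_apply_eq_self_of_dvd σ (s2 g) s1)
    have s8 : l = 1 := hom_eq_one_of_coprime K (fun x hx => by
      obtain ⟨n, hn, c, rfl, s9⟩ := h5 x hx
      have s10 := red_char_regPart (M := M) s3 c
      rw [h3.isGeneralizedCharacter.map_apply_eq_self_of_dvd σ (s2 c) s1,
        red_char_regPart h3.isCharacter, congrFun s5 c,
        red_mul (char_mem (isCharacter_hom l) c) (char_mem h3.isCharacter c), eq_comm,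
        mul_eq_right₀ fun h => by
          rw [red_div (char_mem h3.isCharacter _) (by
            rwa [h3.apply_one_eq, Ne, red_natCast_eq_zero_iff]), h, zero_div] at s9
          exact zero_ne_one s9] at s10
      rw [map_mul, s4 n hn, one_mul]
      exact Units.ext (eq_one_of_red_eq_one s6 (by
        rw [← Units.val_pow_eq_pow_val, ← MonoidHom.pow_apply, s7]; rfl) s10))
      (ha ▸ (hp'.coprime_iff_not_dvd.2 s6).pow_left a) s7
    simpa [s8] using congrFun s5 g
  exact hz ▸ z.2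

/-- Let p be an odd prime, M a maximal ideal of the algebraic integers containing p, N a normal subgroup of the finite group G, and θ an irreducible character of N that is G-invariant, of degree prime to p, p-rational (values in the field generated over ℚ by a root of unity of order prime to p) and lies in the principal p-block of N. Let Q be a Sylow p-subgroup of N and suppose the index of N·C_G(Q) in G is a power of p. Then θ extends to a p-rational irreducible character of G lying in the principal p-block of G. -/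
theorem result {G : Type*} [Group G] [Finite G] (p : ℕ) [Fact p.Prime] (hp : p ≠ 2) (M : Ideal Cfsg.AlgInt) (hM : Cfsg.IsPModular p M) (N : Subgroup G) [N.Normal] (θ : Cfsg.IrrCharacter ↥N) (hinv : ∀ g : G, ∀ n n' : ↥N, (n' : G) = g * (n : G) * g⁻¹ → (θ : ↥N → ℂ) n' = (θ : ↥N → ℂ) n) (hdeg : ¬ p ∣ Cfsg.charDegree (θ : ↥N → ℂ)) (hrat : ∃ m : ℕ, ¬ p ∣ m ∧ ∀ n : ↥N, (θ : ↥N → ℂ) n ∈ IntermediateField.adjoin ℚ ({Complex.exp (2 * Real.pi * Complex.I / m)} : Set ℂ)) (hB : θ ∈ Cfsg.principalBlock M ↥N) (Q : Sylow p ↥N) (hidx : ∃ a : ℕ, (N ⊔ Subgroup.centralizer (((Q : Subgroup ↥N).map N.subtype : Subgroup G) : Set G)).index = p ^ a) : ∃ χ : Cfsg.IrrCharacter G, χ ∈ (Cfsg.principalBlock M G) ∧ (∃ n : ℕ, ¬ p ∣ n ∧ ∀ g : G, (χ : G → ℂ) g ∈ IntermediateField.adjoin ℚ ({Complex.exp (2 * Real.pi * Complex.I / n)} : Set ℂ)) ∧ ∀ n : ↥N, (χ : G → ℂ) n = (θ : ↥N → ℂ) n := by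
  have : Modular p M := ⟨hM⟩
  have hp' : p.Prime := Fact.out
  obtain ⟨m, hm, hrat⟩ := hrat
  obtain ⟨a, ha⟩ := hidx
  let R : Subgroup G := (Q : Subgroup N).map N.subtype
  let K := N ⊔ centralizer (R : Set G)
  have hR : IsPGroup p R := Q.isPGroup'.map _
  have hRN : R ≤ N := map_subtype_le _
  have hi : ¬ p ∣ R.relIndex N := not_dvd_relIndex_map_sylow Q
  have hK : K.Normal := normal_sup_centralizer hRN hR hi
  have hNK : N ≤ K := le_sup_left
  have ho := not_dvd_detOrder hp' hp hm θ.2.isCharacter hrat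
  obtain ⟨χ, hχ, hχθ⟩ := exists_extension_of_local N θ.2 (fun g n => hinv g n _ rfl)
    fun r hr _ => by
    have := Fact.mk hr
    by_cases hrp : r = p
    · subst hrp
      obtain ⟨S⟩ : Nonempty (Sylow r G) := inferInstance
      exact ⟨N ⊔ S, le_sup_left, not_dvd_index_of_sylow_le S le_sup_right, .inr ⟨_, 1, fun h =>
        (hr.dvd_mul.1 h).elim hdeg ho, fun n => (detChar_pow_detOrder _ n).symm⟩⟩
    obtain ⟨S, -, h1, h2, h3⟩ := exists_sylowIn_ge (p := r) (H := centralizer (R : Set G))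
      IsPGroup.of_bot bot_le
    obtain ⟨k, hk⟩ := relIndex_sup_pGroup (K := N) h2 (le_top.trans le_normalizer_top)
    have h4 : S ⊔ N ≤ K := sup_le (h1.trans le_sup_right) hNK
    obtain ⟨η, -, hη⟩ := exists_extension_principal_le (M := M) le_sup_right hRN hR hi
      (fun h => hrp ((Nat.prime_dvd_prime_iff_eq hp' hr).1 (hp'.dvd_of_dvd_pow (hk ▸ h))).symm)
      h4 hB
    refine ⟨S ⊔ N, le_sup_right, fun h => ?_, .inl ⟨η, η.2.isCharacter, hη⟩⟩
    rw [← relIndex_mul_index h4, hr.dvd_mul] at h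
    refine h.elim (fun h => h3 (h.trans ?_)) fun h =>
      hrp ((Nat.prime_dvd_prime_iff_eq hr hp').1 (hr.dvd_of_dvd_pow (ha ▸ h)))
    rw [show K = _ from sup_comm _ _]
    exact relIndex_sup_dvd h1 (le_top.trans le_normalizer_top)
  have hi' : ¬ p ∣ (R.subgroupOf K).relIndex (N.subgroupOf K) := by rwa [relIndex_subgroupOf hNK]
  have hC : ∀ c : K, (c : G) ∈ centralizer (R : Set G) →
      c ∈ centralizer ((R.subgroupOf K : Subgroup K) : Set K) := fun c hc y hy =>
    Subtype.ext (hc y hy)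
  obtain ⟨l, l1, l2, l3⟩ := exists_relPrin (M := M) hi' (sup_centralizer_subgroupOf hNK le_rfl)
    (θ := irrEquiv (subgroupOfEquivOfLe hNK) θ)
    (by rwa [← preimage_irrEquiv_principalBlock (subgroupOfEquivOfLe hNK)] at hB)
    (hχ.isCharacter.restrict K) fun n => hχθ ⟨n, n.2⟩
  have hd : charDegree χ = charDegree (θ : N → ℂ) := charDegree_congr (hχθ 1)
  have hc := Nat.not_dvd_ordCompl hp' (Nat.card_pos (α := K)).ne'
  have h1 : red M (χ 1) ≠ 0 := by rwa [hχ.apply_one_eq, Ne, red_natCast_eq_zero_iff, hd]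
  have l4 : ∀ c : K, (c : G) ∈ centralizer (R : Set G) → red M (l c) * red M (χ c / χ 1) = 1 :=
    fun c hc => by
      have := l3.red_div ((isCharacter_hom l).mul (hχ.isCharacter.restrict K)).isClassFunction
        hi' (hC c hc)
      rwa [map_one, Units.val_one, one_mul, OneMemClass.coe_one, mul_div_assoc, red_mul (char_mem (isCharacter_hom l) c)
        (div_mem_of_red_ne_zero (char_mem hχ.isCharacter _) h1)] at this
  obtain ⟨μ, hμ, -⟩ := exists_hom_extension_of_coprime K l (fun g x => by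
    obtain ⟨n, hn, h2⟩ := frattini_argument hRN hR hi le_normalizer_top (mem_top g)
    obtain ⟨n', hn', c, hc', e⟩ := exists_mul_of_mem_sup (le_top.trans le_normalizer_top) x.2
    have h3 : n * g * c * (n * g)⁻¹ ∈ centralizer (R : Set G) :=
      (mem_normalizer_iff.1 (normalizer_le_normalizer_centralizer R h2) c).1 hc'
    have h4 := l4 ⟨_, mem_sup_right h3⟩ h3
    rw [hχ.isClassFunction c] at h4
    have h5 := Units.ext (eq_of_red_eq (M := M) hc hc (l2 _) (l2 _) (mul_right_cancel₀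
      (right_ne_zero_of_mul_eq_one h4) (h4.trans (l4 ⟨c, mem_sup_right hc'⟩ hc').symm)))
    have h6 : g * n' * g⁻¹ ∈ N := Normal.conj_mem inferInstance _ hn' g
    rw [show (⟨g * x * g⁻¹, hK.conj_mem _ x.2 g⟩ : K) = ⟨_, hNK h6⟩ * (⟨n, hNK hn⟩⁻¹ *
      ⟨_, mem_sup_right h3⟩ * ⟨n, hNK hn⟩) from Subtype.ext (by simp [e, mul_assoc]),
      show x = ⟨n', hNK hn'⟩ * ⟨c, mem_sup_right hc'⟩ from Subtype.ext e]
    simp only [map_mul, map_inv, h5, l1 ⟨_, hNK h6⟩ h6, l1 ⟨_, hNK hn⟩ hn, l1 ⟨_, hNK hn'⟩ hn']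
    simp) (ha ▸ ((hp'.coprime_iff_not_dvd.2 hc).pow_left a).coprime_dvd_right
      (orderOf_dvd_of_pow_eq_one (MonoidHom.ext fun g => Units.ext (l2 g))))
  have h2 : ∀ n : N, (μ n : ℂ) * χ n = (θ : N → ℂ) n := fun n => by
    rw [hμ ⟨n, hNK n.2⟩, l1 ⟨n, hNK n.2⟩ n.2, Units.val_one, one_mul, hχθ]
  obtain ⟨ν, n1, n2, n3⟩ := exists_twist (p := p) (N := N) (hχ.hom_mul μ).isCharacter
    (by rwa [charDegree_congr (ψ := (θ : N → ℂ)) (h2 1)]) (by rwa [funext h2])
  have h3 := (hχ.hom_mul μ).hom_mul ν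
  have h4 : ∀ n : N, (ν n : ℂ) * (μ n * χ n) = (θ : N → ℂ) n := fun n => by
    rw [n1 n n.2, h2, Units.val_one, one_mul]
  have h5 : RelPrin (N.subgroupOf K) (fun x : K => ν x * (μ x * χ x)) M := by
    simp only [hμ]
    exact l3.hom_mul (l := ν.comp K.subtype) (fun n hn => n1 n hn) fun g =>
      (n2 g).elim fun _ => red_eq_one_of_pow_eq_one
  have h6 : IsIrrCharacter N fun n : N => (ν n : ℂ) * (μ n * χ n) := funext h4 ▸ θ.2
  have h7 := isIrrCharacter_of_comp (inclusion hNK) (h3.isCharacter.restrict K) h6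
  have h8 : (⟨_, h7⟩ : IrrCharacter K) ∈ principalBlock M K :=
    RelPrin.mem_principal_top (ξ := ⟨_, h7⟩) h5
  have h9 := (over_of_res (θ := ⟨_, h7⟩) h3.isCharacter fun _ => rfl).mem_principal_of_index
    (χ := ⟨_, h3⟩) ⟨a, ha⟩ h8
  have h10 := rat (M := M) (K := K) hm ha h3 h6 (by
      rwa [charDegree_congr (ψ := (θ : N → ℂ)) (h4 1)]) (fun n => (h4 n).symm ▸ hrat n)
      n3 fun x hx => by
    obtain ⟨n, hn, c, hc, rfl⟩ := exists_mul_of_mem_sup (le_top.trans le_normalizer_top) hx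
    have := h5.red_div (h3.isClassFunction.restrict K) hi' (hC ⟨c, mem_sup_right hc⟩ hc)
    exact ⟨n, hn, c, rfl, this⟩
  exact ⟨_, h9, h10, h4⟩

end Cfsg.Agent.S4892
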