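import Cfsg.Statements.S4911
import Cfsg.Agent.Lib.Char.Galois
import Cfsg.Agent.Lib.CharDeg.GlaubermanSolvable

set_option autoImplicit false
open Cfsg

namespace Cfsg.Agent.S4911

open Cfsg.Lib.Char in
theorem card_real (K : Type*) [Group K] [Finite K] :
    Nat.card {θ : IrrCharacter K // ∀ k, ((θ : K → ℂ) k).im = 0} =
      Nat.card {c : ConjClasses K // ∀ k, ConjClasses.mk k = c → IsConj k k⁻¹} := by
  haveI := Fintype.ofFinite K
  rw [← brauer_permutation_comp (G := K) (fun g => g⁻¹)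
    (fun a b h => by
      obtain ⟨c, rfl⟩ := isConj_iff.1 h
      exact isConj_iff.2 ⟨c, by group⟩)
    (fun χ h => by simpa only [h.apply_inv] using h.map_ringHom (starRingEnd ℂ))]
  refine Nat.card_congr (Equiv.subtypeEquivRight fun θ => forall_congr' fun k => ?_)
  rw [θ.2.apply_inv, Complex.conj_eq_iff_im]

open Cfsg.Lib.Char Cfsg.Lib.CharDeg in

/-- Let P and K be subgroups of a finite group with P a p-group normalizing K and K of order prime to p. Then the number of P-invariant real-valued irreducible complex characters of K equals the number of conjugacy classes of K that are real (closed under inversion) and P-invariant. Moreover, if every real-valued irreducible character of K is P-invariant, then every real element of K (one conjugate in K to its inverse) is conjugate in K to an element centralized by P. -/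
theorem result {G : Type*} [Group G] [Finite G] (p : ℕ) [Fact p.Prime] (P K : Subgroup G) (hP : IsPGroup p ↥P) (hK : ¬ p ∣ Nat.card ↥K) (hPK : P ≤ Subgroup.normalizer (K : Set G)) : Nat.card {θ : Cfsg.IrrCharacter ↥K // (∀ k : ↥K, ((θ : ↥K → ℂ) k).im = 0) ∧ (∀ x ∈ P, ∀ k k' : ↥K, (k' : G) = x * (k : G) * x⁻¹ → (θ : ↥K → ℂ) k' = (θ : ↥K → ℂ) k)} = Nat.card {c : ConjClasses ↥K // (∀ k : ↥K, ConjClasses.mk k = c → IsConj k k⁻¹) ∧ ∀ k : ↥K, ConjClasses.mk k = c → ∀ x ∈ P, ∀ k' : ↥K, (k' : G) = x * (k : G) * x⁻¹ → ConjClasses.mk k' = c} ∧ ((∀ θ : Cfsg.IrrCharacter ↥K, (∀ k : ↥K, ((θ : ↥K → ℂ) k).im = 0) → (∀ x ∈ P, ∀ k k' : ↥K, (k' : G) = x * (k : G) * x⁻¹ → (θ : ↥K → ℂ) k' = (θ : ↥K → ℂ) k)) → ∀ k : ↥K, IsConj k k⁻¹ → ∃ k' : ↥K, IsConj k k' ∧ ∀ x ∈ P, x * (k' : G) * x⁻¹ = (k' : G)) := by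
  classical
  haveI := Fintype.ofFinite K
  let φ := conjAut hPK
  let C := fixedSub φ ⊤
  haveI := Fintype.ofFinite C
  have hfix : ∀ x, (∀ s, φ s x = x) ↔ x ∈ Set.range C.subtype := fun x =>
    ⟨fun h => ⟨⟨x, fun t _ => h t⟩, rfl⟩, fun ⟨c, hc⟩ s => hc ▸ c.2 s trivial⟩
  obtain ⟨f, hf⟩ := exists_glauberman_equiv hP φ C.subtype C.subtype_injective hfix hK
  have hinv : ∀ θ : IrrCharacter K, (∀ x ∈ P, ∀ k k' : K, (k' : G) = x * (k : G) * x⁻¹ →
      (θ : K → ℂ) k' = (θ : K → ℂ) k) ↔ ∀ s g, (θ : K → ℂ) (φ s g) = (θ : K → ℂ) g :=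
    fun θ => forall_conjAut_iff hPK (R := fun k k' => (θ : K → ℂ) k' = (θ : K → ℂ) k)
  have hne : ∀ χ, (resMult C.subtype χ.1 (f χ) : ZMod p) ≠ 0 := fun χ => by
    rcases (hf χ _).1 rfl with h | h <;> rw [h]
    · exact one_ne_zero
    · exact neg_ne_zero.2 one_ne_zero
  have hconj : ∀ (χ χ' : IrrCharacter K) (ξ ξ' : IrrCharacter C),
      (∀ g, (χ' : K → ℂ) g = starRingEnd ℂ ((χ : K → ℂ) g)) →
      (∀ g, (ξ' : C → ℂ) g = starRingEnd ℂ ((ξ : C → ℂ) g)) →
      resMult C.subtype χ' ξ' = resMult C.subtype χ ξ := by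
    intro χ χ' ξ ξ' h1 h2
    refine resMult_eq_of_inner ?_
    rw [funext h2]
    simp only [h1]
    rw [classInner_conj_conj, inner_eq_resMult']
  have hreal : ∀ χ, (∀ k, ((χ.1 : K → ℂ) k).im = 0) ↔ ∀ k, ((f χ : C → ℂ) k).im = 0 := by
    intro χ
    constructor
    · intro h k
      have h1 := hconj χ.1 χ.1 (f χ) ⟨_, (f χ).2.map_ringHom (starRingEnd ℂ)⟩
        (fun g => (Complex.conj_eq_iff_im.2 (h g)).symm) (fun _ => rfl)
      by_contra h2
      refine hne χ (h1 ▸ (hf χ _).2 fun e => h2 ?_)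
      exact Complex.conj_eq_iff_im.1 (congrFun (congrArg Subtype.val e) k)
    · intro h k
      let χ' : {χ : IrrCharacter K // ∀ s g, (χ : K → ℂ) (φ s g) = (χ : K → ℂ) g} :=
        ⟨⟨_, χ.1.2.map_ringHom (starRingEnd ℂ)⟩, fun s g => congrArg (starRingEnd ℂ) (χ.2 s g)⟩
      have h1 := hconj χ.1 χ'.1 (f χ) (f χ) (fun _ => rfl)
        (fun g => (Complex.conj_eq_iff_im.2 (h g)).symm)
      have h2 : f χ = f χ' := by
        by_contra h2
        exact hne χ (h1 ▸ (hf χ' _).2 h2)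
      have h3 := congrFun (congrArg (fun t => (t.1 : K → ℂ)) (f.injective h2)) k
      exact Complex.conj_eq_iff_im.1 h3.symm
  have key : Nat.card {θ : IrrCharacter K // (∀ k : K, ((θ : K → ℂ) k).im = 0) ∧
      (∀ x ∈ P, ∀ k k' : K, (k' : G) = x * (k : G) * x⁻¹ → (θ : K → ℂ) k' = (θ : K → ℂ) k)} =
      Nat.card {c : ConjClasses K // (∀ k : K, ConjClasses.mk k = c → IsConj k k⁻¹) ∧
        ∀ k : K, ConjClasses.mk k = c → ∀ x ∈ P, ∀ k' : K, (k' : G) = x * (k : G) * x⁻¹ →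
          ConjClasses.mk k' = c} := by
    refine Eq.trans ?_ ((card_real C).trans ?_)
    · refine Nat.card_congr (Equiv.trans ?_ (f.subtypeEquiv hreal))
      exact
        { toFun := fun θ => ⟨⟨θ.1, (hinv _).1 θ.2.2⟩, θ.2.1⟩
          invFun := fun θ => ⟨θ.1.1, θ.2, (hinv _).2 θ.1.2⟩
          left_inv := fun _ => rfl
          right_inv := fun _ => rfl }
    · refine Nat.card_congr (Equiv.ofBijective (fun c => ⟨ConjClasses.map C.subtype c.1, ?_⟩) ⟨?_, ?_⟩)
      · obtain ⟨c, hc⟩ := c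
        obtain ⟨c, rfl⟩ := ConjClasses.mk_surjective c
        have h1 := C.subtype.map_isConj (hc c rfl)
        rw [map_inv] at h1
        refine ⟨fun k hk => ?_, fun k hk x hx k' e => ?_⟩
        · obtain ⟨y, rfl⟩ := isConj_iff.1 (ConjClasses.mk_eq_mk_iff_isConj.1 hk.symm)
          obtain ⟨z, hz⟩ := isConj_iff.1 h1
          refine isConj_iff.2 ⟨y * z * y⁻¹, ?_⟩
          calc _ = y * (z * C.subtype c * z⁻¹) * y⁻¹ := by group
            _ = _ := by rw [hz]; group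
        · have e' : k' = φ ⟨x, hx⟩ k := Subtype.ext e
          have h2 := (φ ⟨x, hx⟩).toMonoidHom.map_isConj (ConjClasses.mk_eq_mk_iff_isConj.1 hk)
          rw [e']
          refine ConjClasses.mk_eq_mk_iff_isConj.2 (h2.trans ?_)
          have h3 : φ ⟨x, hx⟩ (C.subtype c) = C.subtype c := c.2 _ trivial
          exact h3.symm ▸ IsConj.refl _
      · rintro ⟨c, hc⟩ ⟨d, hd⟩ h
        obtain ⟨c, rfl⟩ := ConjClasses.mk_surjective c
        obtain ⟨d, rfl⟩ := ConjClasses.mk_surjective d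
        exact Subtype.ext (ConjClasses.mk_eq_mk_iff_isConj.2
          (isConj_of_isConj_map hP φ C.subtype C.subtype_injective hfix hK
            (ConjClasses.mk_eq_mk_iff_isConj.1 (congrArg Subtype.val h))))
      · rintro ⟨L, h1, h2⟩
        obtain ⟨k, rfl⟩ := ConjClasses.mk_surjective L
        obtain ⟨c, hc⟩ := exists_isConj_fixed hP φ C.subtype C.subtype_injective hfix hK (x := k)
          (fun s => (ConjClasses.mk_eq_mk_iff_isConj.1 (h2 k rfl s s.2 _ rfl)).symm)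
        refine ⟨⟨ConjClasses.mk c, fun d hd => ?_⟩,
          Subtype.ext (ConjClasses.mk_eq_mk_iff_isConj.2 hc.symm)⟩
        refine isConj_of_isConj_map hP φ C.subtype C.subtype_injective hfix hK ?_
        rw [map_inv]
        exact h1 _ (ConjClasses.mk_eq_mk_iff_isConj.2
          ((C.subtype.map_isConj (ConjClasses.mk_eq_mk_iff_isConj.1 hd)).trans hc.symm))
  refine ⟨key, fun hall k hk => ?_⟩
  rw [Nat.card_congr (Equiv.subtypeEquivRight (fun θ => and_iff_left_of_imp (hall θ))),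
    card_real] at key
  have hsurj := ((Nat.bijective_iff_injective_and_card
    (fun c : {c : ConjClasses K // (∀ k : K, ConjClasses.mk k = c → IsConj k k⁻¹) ∧
        ∀ k : K, ConjClasses.mk k = c → ∀ x ∈ P, ∀ k' : K, (k' : G) = x * (k : G) * x⁻¹ →
          ConjClasses.mk k' = c} =>
      (⟨c.1, c.2.1⟩ : {c : ConjClasses K // ∀ k : K, ConjClasses.mk k = c → IsConj k k⁻¹}))).2
    ⟨fun a b h => Subtype.ext (by simpa using h), key.symm⟩).2
  obtain ⟨⟨L, h1, h2⟩, hL⟩ := hsurj ⟨ConjClasses.mk k, fun k' hk' => by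
    obtain ⟨y, rfl⟩ := isConj_iff.1 (ConjClasses.mk_eq_mk_iff_isConj.1 hk'.symm)
    obtain ⟨z, hz⟩ := isConj_iff.1 hk
    refine isConj_iff.2 ⟨y * z * y⁻¹, ?_⟩
    calc _ = y * (z * k * z⁻¹) * y⁻¹ := by group
      _ = _ := by rw [hz]; group⟩
  obtain rfl : L = ConjClasses.mk k := congrArg Subtype.val hL
  obtain ⟨c, hc⟩ := exists_isConj_fixed hP φ C.subtype C.subtype_injective hfix hK (x := k)
    (fun s => (ConjClasses.mk_eq_mk_iff_isConj.1 (h2 k rfl s s.2 _ rfl)).symm)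
  exact ⟨_, hc, fun x hx => congrArg Subtype.val (c.2 ⟨x, hx⟩ trivial)⟩

end Cfsg.Agent.S4911
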