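import Cfsg.Statements.S4912
import Cfsg.Agent.Lib.CharDeg.RealInd

set_option autoImplicit false
open Cfsg

namespace Cfsg.Agent.S4912

open Cfsg.Lib.Char Cfsg.Lib.CharDeg Cfsg.Lib.Clifford Cfsg.Lib.Induce in

/-- Let G be a finite group with a non-abelian minimal normal subgroup N, and let φ be an irreducible complex character of N with stabilizer I in G such that φ extends to an irreducible character of I with Frobenius–Schur indicator +1. Put d = φ(1)·[G : I]. Then the number of linear characters of G with Frobenius–Schur indicator +1 is at most [G : I] times the number of irreducible characters of G of degree d with Frobenius–Schur indicator +1. -/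
theorem result {G : Type*} [Group G] [Finite G] (N : Subgroup G) (hN : N.Normal) (hN1 : N ≠ ⊥) (hmin : ∀ M : Subgroup G, M.Normal → M ≤ N → M = ⊥ ∨ M = N) (hna : ¬ IsMulCommutative ↥N) (φ : Cfsg.IrrCharacter ↥N) (I : Subgroup G) (hI : ∀ g : G, g ∈ I ↔ ∀ n n' : ↥N, (n' : G) = g * (n : G) * g⁻¹ → (φ : ↥N → ℂ) n' = (φ : ↥N → ℂ) n) (hNI : N ≤ I) (hext : ∃ ψ : Cfsg.IrrCharacter ↥I, (Nat.card ↥I : ℂ)⁻¹ * ∑ᶠ g : ↥I, (ψ : ↥I → ℂ) (g * g) = 1 ∧ ∀ n : ↥N, (ψ : ↥I → ℂ) (Subgroup.inclusion hNI n) = (φ : ↥N → ℂ) n) : Nat.card {χ : Cfsg.IrrCharacter G // Cfsg.charDegree (χ : G → ℂ) = 1 ∧ (Nat.card G : ℂ)⁻¹ * ∑ᶠ g : G, (χ : G → ℂ) (g * g) = 1} ≤ I.index * Nat.card {χ : Cfsg.IrrCharacter G // Cfsg.charDegree (χ : G → ℂ) = Cfsg.charDegree (φ : ↥N → ℂ) * I.index ∧ (Nat.card G : ℂ)⁻¹ * ∑ᶠ g : G, (χ : G → ℂ) (g * g) = 1} := by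
  haveI := Fintype.ofFinite G
  haveI := Fintype.ofFinite I
  simp only [finsum_eq_sum_of_fintype] at hext ⊢
  obtain ⟨ψ, hψ1, hψ⟩ := hext
  refine card_linear_le N (le_commutator_of_minimal N hN hmin hna) φ.2
    (fun g hg => (hI g).2 fun n n' h => ?_) hNI ψ.2 hψ _ _
    (fun χ h => χ.2.isCharacter.charDegree_eq_one_iff.1 h.1) (fun χ χ' h hirr e => ⟨?_, ?_⟩)
  · rw [← (mem_inertia_iff N).1 hg n]
    exact congrArg _ (Subtype.ext h)
  · refine charDegree_eq_of_apply_one ?_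
    have h1 : (ψ : I → ℂ) 1 = (φ : N → ℂ) 1 := by rw [← hψ, map_one]
    rw [e, indFun_one, h1, φ.2.apply_one_eq, OneMemClass.coe_one,
      χ.2.isCharacter.charDegree_eq_one_iff.1 h.1]
    push_cast; ring
  · rw [e]
    refine fs_indFun_eq_one I hirr ?_ (e ▸ χ'.2)
    have h1 := χ.2.isCharacter.charDegree_eq_one_iff.1 h.1
    have h2 : ∀ g : G, (χ : G → ℂ) (g * g) = 1 := by
      intro g
      rcases χ.2.frobeniusSchur with h3 | h3
      · rw [h3.2] at h; exact absurd h.2 zero_ne_one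
      · rw [χ.2.isCharacter.map_mul_of_apply_one h1]
        nth_rewrite 1 [← Complex.conj_eq_iff_im.2 (h3.1 g)]
        rw [← χ.2.apply_inv, ← χ.2.isCharacter.map_mul_of_apply_one h1, inv_mul_cancel, h1]
    simp only [Subgroup.coe_mul, h2, one_mul]
    exact hψ1

end Cfsg.Agent.S4912
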