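import Cfsg.Statements.S4914
import Cfsg.Agent.Lib.Rel.Glaub
import Cfsg.Agent.Lib.Coprime.Sylow

set_option autoImplicit false
open Cfsg

namespace Cfsg.Agent.S4914

open Cfsg.Lib.Char Subgroup

/-- Let P and K be subgroups of a finite group G with P a p-group normalizing K, and suppose K has a normal Sylow p-subgroup Q. Let C be the subgroup of those k ∈ K whose commutator with every element of P lies in Q (so that C/Q is the fixed-point subgroup of P on K/Q). Then there is a bijection f from the P-invariant irreducible complex characters of K onto the P-invariant irreducible complex characters of C such that, for every P-invariant irreducible character χ of K, the multiplicity of f(χ) in the restriction of χ to C is a natural number congruent to 1 or to −1 modulo p, every other P-invariant irreducible character of C occurs in that restriction with multiplicity divisible by p, and the degrees of χ and f(χ)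 are congruent modulo p up to sign. -/
theorem result {G : Type*} [Group G] [Finite G] (p : ℕ) [Fact p.Prime] (P K Q C : Subgroup G) (hP : IsPGroup p ↥P) (hPK : P ≤ Subgroup.normalizer (K : Set G)) (hQK : Q ≤ K) (hQn : ∀ k ∈ K, ∀ q ∈ Q, k * q * k⁻¹ ∈ Q) (hQp : ∃ a : ℕ, Nat.card ↥Q = p ^ a) (hQsyl : ¬ p ∣ Q.relIndex K) (hCK : C ≤ K) (hC : ∀ k : G, k ∈ C ↔ (k ∈ K ∧ ∀ x ∈ P, x * k * x⁻¹ * k⁻¹ ∈ Q)) : ∃ f : {χ : Cfsg.IrrCharacter ↥K // (∀ x ∈ P, ∀ k k' : ↥K, (k' : G) = x * (k : G) * x⁻¹ → (χ : ↥K → ℂ) k' = (χ : ↥K → ℂ) k)} → {ξ : Cfsg.IrrCharacter ↥C // (∀ x ∈ P, ∀ k k' : ↥C, (k' : G) = x * (k : G) * x⁻¹ → (ξ : ↥C → ℂ) k' = (ξ : ↥C → ℂ) k)}, Function.Bijective f ∧ ∀ χ, (∀ ξ : {ξ : Cfsg.IrrCharacter ↥C // (∀ x ∈ P, ∀ k k' : ↥C, (k' : G) = x * (k : G) * x⁻¹ → (ξ : ↥C → ℂ) k' = (ξ : ↥C → ℂ) k)}, ∃ m : ℕ, (Nat.card ↥C : ℂ)⁻¹ * ∑ᶠ c : ↥C, (χ.1 : ↥K → ℂ) (Subgroup.inclusion hCK c) * (starRingEnd ℂ) ((ξ.1 : ↥C → ℂ) c)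 = (m : ℂ) ∧ (ξ = f χ → ((m : ZMod p) = 1 ∨ (m : ZMod p) = -1)) ∧ (ξ ≠ f χ → p ∣ m)) ∧ ((Cfsg.charDegree ((f χ).1 : ↥C → ℂ) : ZMod p) = (Cfsg.charDegree (χ.1 : ↥K → ℂ) : ZMod p) ∨ (Cfsg.charDegree ((f χ).1 : ↥C → ℂ) : ZMod p) = -(Cfsg.charDegree (χ.1 : ↥K → ℂ) : ZMod p)) := by
  classical
  have := Fintype.ofFinite C
  obtain ⟨a, ha⟩ := hQp
  have hQ : IsPGroup p Q := IsPGroup.of_card ha
  have hK : K ≤ normalizer (Q : Set G) := fun k hk => mem_normalizer_fintype (hQn k hk)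
  have hPQ : P ≤ normalizer (Q : Set G) := fun x hx => mem_normalizer_fintype fun y hy =>
    Lib.Coprime.le_of_sylowIn_le_normalizer (T := Q) (H := K)
      (U := Q.map (MulAut.conj x).toMonoidHom) hQK hQ hQsyl
      (Lib.Coprime.map_conj_le_of_mem_normalizer hQK (hPK hx)) (hQ.map _)
      (fun q hq => Lib.Coprime.mem_normalizer_map_conj_iff.2
        (hK (Lib.Coprime.conj_mem_of_mem_normalizer' (hPK hx) (hQK hq)))) ⟨y, hy, rfl⟩
  have hPC : P ≤ normalizer (C : Set G) := fun s hs => mem_normalizer_fintype fun c hc => by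
    have hQC : Q ≤ C := fun n hn => (hC n).2 ⟨hQK hn, fun s hs =>
      Q.mul_mem (Lib.Coprime.conj_mem_of_mem_normalizer (hPQ hs) hn) (Q.inv_mem hn)⟩
    simpa using C.mul_mem (hQC (((hC c).1 hc).2 s hs)) hc
  obtain ⟨f, h1, h2⟩ := (Lib.Rel.modCor_relGlauberman hP hQK hK hPK hPQ hQsyl hC).exists_equiv hCK
    (fun _ h => h.1) (fun _ h => h.1)
    (fun χ => ((Lib.Rel.le_inertia_ext_iff hPK χ).symm.trans
      (and_iff_right (Lib.Rel.ext_mem_Irr χ)).symm))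
    (fun χ => ((Lib.Rel.le_inertia_ext_iff hPC χ).symm.trans
      (and_iff_right (Lib.Rel.ext_mem_Irr χ)).symm))
  refine ⟨f, h1, fun χ => ⟨fun ξ => ⟨Lib.CharDeg.resMult (inclusion hCK) χ.1 ξ.1, ?_, (h2 χ ξ).1,
    fun h => (ZMod.natCast_eq_zero_iff _ _).1 ((h2 χ ξ).2 h)⟩, ?_⟩⟩
  · rw [← Lib.CharDeg.inner_eq_resMult, classInner_def, finsum_eq_sum_of_fintype]
  · have := Fintype.ofFinite {ξ : IrrCharacter C // ∀ x ∈ P, ∀ k k' : C,
      (k' : G) = x * (k : G) * x⁻¹ → (ξ : C → ℂ) k' = (ξ : C → ℂ) k}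
    have hχ := (Lib.CharDeg.forall_conjAut_iff hPK
      (R := fun g g' => (χ.1 : K → ℂ) g' = (χ.1 : K → ℂ) g)).1 χ.2
    have h3 := Lib.CharDeg.sum_eq_sum_fixed_zmod hP
      (Lib.CharDeg.irrPermAut.comp (Lib.CharDeg.conjAut hPC))
      (Subtype.val : {ξ : IrrCharacter C // ∀ x ∈ P, ∀ k k' : C,
        (k' : G) = x * (k : G) * x⁻¹ → (ξ : C → ℂ) k' = (ξ : C → ℂ) k} → _) Subtype.val_injective
      (fun ξ => by
        rw [Subtype.range_coe_subtype, Set.mem_ofPred_eq, Lib.CharDeg.forall_conjAut_iff hPC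
          (R := fun g g' => (ξ : C → ℂ) g' = (ξ : C → ℂ) g)]
        exact forall_congr' fun s => Lib.CharDeg.irrPermAut_eq_iff _ _)
      (fun ξ => ((Lib.CharDeg.resMult (inclusion hCK) χ.1 ξ * charDegree (ξ : C → ℂ) : ℕ) : ZMod p))
      (fun s ξ => by
        have h4 := Lib.CharDeg.resMult_irrPermAut (inclusion hCK) (Lib.CharDeg.conjAut hPK s)
          (Lib.CharDeg.conjAut hPC s) (fun _ => Subtype.ext rfl) χ.1 ξ
        rw [(Lib.CharDeg.irrPermAut_eq_iff _ _).2 (hχ s)] at h4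
        rw [MonoidHom.comp_apply, h4]
        congr 2
        exact charDegree_congr (by rw [Lib.CharDeg.irrPermAut_apply, map_one]))
    rw [← Nat.cast_sum, ← Lib.CharDeg.charDegree_eq_sum_resMult,
      Finset.sum_eq_single (f χ) (fun ξ _ h => by rw [Nat.cast_mul, (h2 χ ξ).2 h, zero_mul])
        (by simp), Nat.cast_mul] at h3
    rcases (h2 χ _).1 rfl with h | h <;> rw [h3, h] <;> simp

end Cfsg.Agent.S4914
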