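import Cfsg.Statements.S4916
import Cfsg.Agent.Lib.Block.Quot
import Cfsg.Agent.Lib.Modular.Vanish

set_option autoImplicit false
open Cfsg

namespace Cfsg.Agent.S4916

open Cfsg.Lib.Block Cfsg.Lib.Char Cfsg.Lib.Transfer MonoidAlgebra Subgroup

/-- Let G be a finite group, p a prime and M a maximal ideal of the algebraic integers containing p. Then the principal character is the only irreducible character of degree prime to p in the principal p-block of G if and only if p does not divide the order of G. -/
theorem result {G : Type*} [Group G] [Finite G] (p : ℕ) [Fact p.Prime] (M : Ideal Cfsg.AlgInt) (hM : Cfsg.IsPModular p M) : (∀ χ : Cfsg.IrrCharacter G, χ ∈ Cfsg.principalBlock M G → ¬ p ∣ Cfsg.charDegree (χ : G → ℂ) → (χ : G → ℂ) = fun _ => (1 : ℂ)) ↔ ¬ p ∣ Nat.card G := by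
  have : Modular p M := ⟨hM⟩
  have := Fintype.ofFinite G
  have hp : p.Prime := Fact.out
  classical
  refine ⟨fun h hG => ?_, fun h χ hχ _ => ?_⟩
  · have h1 := Lib.Modular.factorization_sum_degree_sq (p := p) (isPBlock_principalBlock (M := M) (G := G))
    have h2 : blockDefect p (principalBlock M G) ≤ (Nat.card G).factorization p := Nat.sub_le _ _
    have h3 := hp.factorization_pos_of_dvd Nat.card_pos.ne' hG
    have h4 := Nat.dvd_of_factorization_pos (h1.trans_ne (by omega))
    rw [← Finset.add_sum_erase _ _ (a := irrOne G) (by simpa using irrOne_mem_principalBlock),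
      Nat.dvd_add_left (Finset.dvd_sum fun χ hχ => dvd_pow (by_contra fun h5 =>
        (Finset.mem_erase.1 hχ).1 (Subtype.ext (h χ (by simpa using (Finset.mem_erase.1 hχ).2) h5)))
        two_ne_zero), coe_irrOne, charDegree_one] at h4
    exact hp.not_dvd_one h4
  · rw [principalBlock_eq_singleton h] at hχ
    rw [hχ]; rfl

end Cfsg.Agent.S4916
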