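import Cfsg.Statements.S4923
import Cfsg.Agent.Lib.FGS.Taussky
import Cfsg.Agent.Lib.Char.Galois
import Cfsg.Agent.Lib.Char.Column

set_option autoImplicit false
open Cfsg

namespace Cfsg.Agent.S4923


open Cfsg.Lib.Char Cfsg.Lib.Transfer Cfsg.Lib.Inv Cfsg.Lib.FGS Subgroup
open scoped commutatorElement

theorem adjoin_le_iff_fix {A B : Set ℂ} (hB : ∀ b ∈ B, IsIntegral ℤ b) :
    IntermediateField.adjoin ℚ B ≤ IntermediateField.adjoin ℚ A ↔
      ∀ σ : ℂ ≃+* ℂ, (∀ a ∈ A, σ a = a) → ∀ b ∈ B, σ b = b := by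
  constructor
  · intro h σ hA b hb
    exact IntermediateField.adjoin_induction ℚ (p := fun x _ => σ x = x) hA (fun x => by simp)
      (fun x y _ _ hx hy => by rw [map_add, hx, hy]) (fun x _ hx => by rw [map_inv₀, hx])
      (fun x y _ _ hx hy => by rw [map_mul, hx, hy]) (h (IntermediateField.subset_adjoin ℚ B hb))
  · intro h
    rw [IntermediateField.adjoin_le_iff]
    intro b hb
    obtain ⟨⟨c, hc⟩, rfl⟩ := mem_range_of_forall_algEquiv (K := IntermediateField.adjoin ℚ A)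
      (α := b) (hB b hb).tower_top fun σ => h σ.toRingEquiv
        (fun a ha => σ.commutes ⟨a, IntermediateField.subset_adjoin ℚ A ha⟩) b hb
    exact hc

theorem fix_iff {ζ s : ℂ} (h0 : ζ ≠ 0) (hs : s * s = 1) (k : ℕ) :
    ζ ^ k + s * (ζ ^ k)⁻¹ = ζ + s * ζ⁻¹ ↔ ζ ^ k = ζ ∨ ζ ^ (k + 1) = s := by
  have h1 : ζ ^ k ≠ 0 := pow_ne_zero _ h0
  rw [pow_succ]
  generalize ζ ^ k = w at h1
  have : w + s * w⁻¹ - (ζ + s * ζ⁻¹) = (w - ζ) * (w * ζ - s) * (w * ζ)⁻¹ := by
    field_simp; ring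
  rw [← sub_eq_zero, this]
  simp [sub_eq_zero, h0, h1]

theorem field_iff {G : Type*} [Group G] [Finite G] {g : G} {n r : ℕ} (hg : orderOf g ∣ 2 ^ n)
    (hr : r ≤ n) (hn : n ≠ 0) {ζ : ℂ} (hζ : IsPrimitiveRoot ζ (2 ^ r)) {s : ℂ} (hs : s = 1 ∨ s = -1) :
    IntermediateField.adjoin ℚ {z : ℂ | ∃ χ : IrrCharacter G, (χ : G → ℂ) g = z} =
      IntermediateField.adjoin ℚ ({ζ + s * ζ⁻¹} : Set ℂ) ↔
    ∀ k : ℕ, Odd k → (IsConj g (g ^ k) ↔ ζ ^ k = ζ ∨ ζ ^ (k + 1) = s) := by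
  have h0 : ζ ≠ 0 := hζ.ne_zero (by positivity)
  have hs2 : s * s = 1 := by rcases hs with rfl | rfl <;> simp
  have hζn : ζ ^ 2 ^ n = 1 := hζ.pow_eq_one_iff_dvd _ |>.2 (pow_dvd_pow 2 hr)
  have key : ∀ (σ : ℂ ≃+* ℂ) (k : ℕ), (∀ z : ℂ, z ^ 2 ^ n = 1 → σ z = z ^ k) →
      ((∀ a ∈ {z : ℂ | ∃ χ : IrrCharacter G, (χ : G → ℂ) g = z}, σ a = a) ↔ IsConj g (g ^ k)) ∧
      ((∀ a ∈ ({ζ + s * ζ⁻¹} : Set ℂ), σ a = a) ↔ ζ ^ k = ζ ∨ ζ ^ (k + 1) = s) := by
    intro σ k hk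
    constructor
    · have : ∀ χ : IrrCharacter G, σ ((χ : G → ℂ) g) = (χ : G → ℂ) (g ^ k) := fun χ =>
        χ.2.isCharacter.isGeneralizedCharacter.map_apply_eq_pow_of_dvd σ.toRingHom hg hk
      rw [isConj_iff_forall_irr]
      exact ⟨fun h χ => (h _ ⟨χ, rfl⟩).symm.trans (this χ), by
        rintro h _ ⟨χ, rfl⟩; rw [this, ← h]⟩
    · have : σ s = s := by rcases hs with rfl | rfl <;> simp
      simp only [Set.mem_singleton_iff, forall_eq, map_add, map_mul, map_inv₀, this, hk ζ hζn]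
      exact fix_iff h0 hs2 k
  have hA : ∀ b ∈ {z : ℂ | ∃ χ : IrrCharacter G, (χ : G → ℂ) g = z}, IsIntegral ℤ b := by
    rintro _ ⟨χ, rfl⟩; exact χ.2.isCharacter.isIntegral g
  have hB : ∀ b ∈ ({ζ + s * ζ⁻¹} : Set ℂ), IsIntegral ℤ b := by
    rintro _ rfl
    exact (isIntegral_of_pow_eq_one (n := 2 ^ n) (by positivity) hζn).add
      ((isIntegral_of_pow_eq_one two_ne_zero (by rw [sq, hs2])).mul
        (isIntegral_of_pow_eq_one (n := 2 ^ n) (by positivity) (by rw [inv_pow, hζn, inv_one])))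
  rw [le_antisymm_iff, adjoin_le_iff_fix hA, adjoin_le_iff_fix hB]
  constructor
  · rintro ⟨h1, h2⟩ k hk
    obtain ⟨σ, hσ⟩ := exists_ringEquiv_pow (n := 2 ^ n) (k := k) (by positivity)
      (Nat.Coprime.pow_right _ (Nat.coprime_two_right.2 hk))
    rw [← (key σ k hσ).1, ← (key σ k hσ).2]
    exact ⟨h2 σ, h1 σ⟩
  · intro h
    refine ⟨fun σ => ?_, fun σ => ?_⟩ <;>
    · obtain ⟨k, hk, hσ⟩ := exists_pow_of_ringHom σ.toRingHom (n := 2 ^ n) (by positivity)
      rw [(key σ k hσ).1, (key σ k hσ).2,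
        h k (Nat.coprime_two_right.1 (hk.coprime_dvd_right (dvd_pow_self 2 hn)))]
      exact id

theorem exists_conj_in {G : Type*} [Group G] [Finite G] (P : Sylow 2 G) {a : G}
    (ha : a ∈ (P : Subgroup G)) (hP : (P : Subgroup G) ≤ normalizer (zpowers a : Set G)) {k : ℕ}
    (h : IsConj a (a ^ k)) : ∃ s ∈ (P : Subgroup G), s * a * s⁻¹ = a ^ k := by
  obtain ⟨x, hx⟩ := isConj_iff.1 h
  have hxN : x ∈ normalizer (zpowers a : Set G) :=
    Cfsg.Lib.PGroup.mem_normalizer_zpowers (k := (k : ℤ)) (by rw [hx, zpow_natCast])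
  have h1 := pResidual_sup_sylow (P.subtype hP)
  rw [sup_comm] at h1
  obtain ⟨s, hs, c, hc, e⟩ := mem_sup_of_normal_right.1 (h1.ge (mem_top ⟨x, hxN⟩))
  have h2 : pResidual 2 (normalizer (zpowers a : Set G)) ≤
      (centralizer (zpowers a : Set G)).subgroupOf _ := pResidual_le_iff.2 fun y hy =>
    mem_centralizer_of_odd_of_isCyclic (P.isPGroup'.to_le (zpowers_le.2 ha)) inferInstance y.2
      (by rw [← orderOf_coe] at hy; exact Nat.coprime_two_right.1 hy)
  have h3 : a * c = c * a := h2 hc a (mem_zpowers a)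
  refine ⟨s, hs, ?_⟩
  have e' : (s : G) * c = x := congrArg Subtype.val e
  rw [← hx, ← e', mul_assoc (s : G) c, ← h3]
  group

theorem even_index {G : Type*} [Group G] [Finite G] (P : Sylow 2 G) {a b : G}
    (hP : (P : Subgroup G) ≤ normalizer (zpowers a : Set G)) (hb : b ∈ (P : Subgroup G))
    (hab : b * a * b⁻¹ ≠ a) : 2 ∣ (centralizer ({a} : Set G)).index := by
  by_contra h
  have e : centralizer ({a} : Set G) = centralizer (zpowers a : Set G) := by
    rw [zpowers_eq_closure, centralizer_closure]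
  have h1 := Cfsg.Lib.Core.le_of_isPGroup_of_coprime_index (p := 2)
    (N := (centralizer (zpowers a : Set G)).subgroupOf (normalizer (zpowers a : Set G)))
    (P.isPGroup'.comap_subtype) (Nat.coprime_two_right.2 (Nat.odd_iff.2 (Nat.two_dvd_ne_zero.1
      fun h2 => h (e ▸ h2.trans (relIndex_dvd_index_of_le (centralizer_le_normalizer _))))))
  have h3 : a * b = b * a := h1 (x := ⟨b, hP hb⟩) hb a (mem_zpowers a)
  exact hab (by rw [← h3, mul_inv_cancel_right])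

theorem of_mc {G : Type*} [Group G] [Finite G] (P : Sylow 2 G) {a b : G} {m : ℕ} {ε δ : ℤ}
    (h : MC (P : Subgroup G) a b m ε δ) (hm : 1 ≤ m) {ζ : ℂ} (hζ : IsPrimitiveRoot ζ (2 ^ (m + 1))) :
    2 ∣ (centralizer ({a} : Set G)).index ∧
      ∀ k : ℕ, (IsConj a (a ^ k) ↔ ζ ^ k = ζ ∨ ζ ^ (k + 1) = ζ ^ (ε * 2 ^ m)) := by
  have h0 : ζ ≠ 0 := hζ.ne_zero (by positivity)
  have hz : ∀ i j : ℤ, ζ ^ i = ζ ^ j ↔ a ^ i = a ^ j := fun i j => by
    rw [h.zpow_eq_iff, ← div_eq_one_iff_eq (zpow_ne_zero _ h0), ← zpow_sub₀ h0,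
      hζ.zpow_eq_one_iff_dvd]
    push_cast; rfl
  have hP : (P : Subgroup G) ≤ normalizer (zpowers a : Set G) :=
    h.le_of_mem (le_normalizer (mem_zpowers a)) h.mem_normalizer
  refine ⟨even_index P hP h.b_mem fun e => ?_, fun k => ?_⟩
  · have h1 := h.zpow_eq_iff.1 ((h.conj.symm.trans e).trans (zpow_one a).symm)
    have h2 : (4 : ℤ) ∣ 2 ^ (m + 1) := pow_dvd_pow (2 : ℤ) (show 2 ≤ m + 1 by omega)
    have := h.four
    have := h2.trans h1
    omega
  have e1 : ζ ^ k = ζ ↔ a ^ k = a := by simpa using hz k 1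
  have e2 : ζ ^ (k + 1) = ζ ^ (ε * 2 ^ m) ↔ a ^ k = a ^ (ε * 2 ^ m - 1) := by
    rw [← zpow_natCast, hz, zpow_sub, zpow_one, eq_mul_inv_iff_mul_eq, zpow_natCast, pow_succ]
  rw [e1, e2]
  constructor
  · intro hc
    obtain ⟨s, hs, e⟩ := exists_conj_in P h.a_mem hP hc
    obtain ⟨i, rfl | rfl⟩ := h.mem_iff.1 hs
    · left; rw [← e]; group
    · right; rw [← e]; simpa using h.refl_conj i 1
  · rintro (e | e)
    · rw [e]
    · exact isConj_iff.2 ⟨b, by rw [e, h.conj]⟩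

theorem index_eq_four {P : Type*} [Group P] [Finite P] {r : ℕ} (hP : Nat.card P = 2 ^ (r + 3))
    {y : P} (hy : y ∈ _root_.commutator P) (h : y ^ 2 ^ r ≠ 1) : (_root_.commutator P).index = 4 := by
  have hp : IsPGroup 2 P := IsPGroup.of_card hP
  have hc : _root_.commutator P ≠ ⊥ := fun e => h (by rw [e, mem_bot] at hy; rw [hy, one_pow])
  have h1 := (Cfsg.Lib.PGroup.sq_le_index_frattini hp (not_isCyclic_of_commutator_ne_bot hc)).trans
    (index_antitone (Cfsg.Lib.PGroup.commutator_le_frattini hp))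
  obtain ⟨j, hj⟩ := IsPGroup.iff_orderOf.1 hp y
  have h2 : r + 1 ≤ j := by
    by_contra h2
    exact h (orderOf_dvd_iff_pow_eq_one.1 (hj ▸ pow_dvd_pow 2 (by omega)))
  have h3 := card_le_of_le (zpowers_le.2 hy)
  rw [Nat.card_zpowers, hj] at h3
  have h4 := (_root_.commutator P).card_mul_index
  have h5 := Nat.pow_le_pow_right two_pos h2
  have h6 : 2 ^ (r + 3) = 2 ^ (r + 1) * 4 := by ring
  have h7 : 0 < 2 ^ (r + 1) := by positivity
  by_contra h8
  nlinarith [Nat.mul_le_mul (h5.trans h3) (show 5 ≤ (_root_.commutator P).index by omega)]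

theorem of_field {G : Type*} [Group G] [Finite G] (P : Sylow 2 G) {r : ℕ}
    (hP : Nat.card P = 2 ^ (r + 3)) {ζ s : ℂ} (hζ : IsPrimitiveRoot ζ (2 ^ (r + 2)))
    (hs : s * s = 1) (g : P) (hi : 2 ∣ (centralizer ({(g : G)} : Set G)).index)
    (h : ∀ k : ℕ, Odd k → (IsConj (g : G) (g ^ k) ↔ ζ ^ k = ζ ∨ ζ ^ (k + 1) = s)) :
    (_root_.commutator P).index = 4 := by
  have h0 : ζ ≠ 0 := hζ.ne_zero (by positivity)
  obtain ⟨b, hb⟩ : ∃ b : P, b * g ≠ g * b := by
    by_contra! hb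
    exact P.not_dvd_index (hi.trans (index_dvd_of_le fun x hx =>
      mem_centralizer_singleton_iff.2 (congrArg Subtype.val (hb ⟨x, hx⟩))))
  refine index_eq_four hP (y := ⁅b, g⁆) (commutator_mem_commutator (mem_top _) (mem_top _)) ?_
  rcases r with _ | r
  · simpa [commutatorElement_eq_one_iff_mul_comm] using hb
  have hd : ∀ k : ℕ, Odd k → IsConj (g : G) (g ^ k) → 2 ^ (r + 3) ∣ k - 1 ∨ 2 ^ (r + 3) ∣ (k + 1) * 2 := by
    intro k hk hc
    rcases (h k hk).1 hc with e | e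
    · left
      rw [← hζ.pow_eq_one_iff_dvd]
      obtain ⟨t, rfl⟩ := hk
      rw [pow_succ] at e
      simpa [h0] using e
    · right
      rw [← hζ.pow_eq_one_iff_dvd, pow_mul, e, sq, hs]
  have h8 : 8 ∣ 2 ^ (r + 3) := pow_dvd_pow 2 (show 3 ≤ r + 3 by omega)
  obtain ⟨j, hj⟩ := IsPGroup.iff_orderOf.1 P.isPGroup' g
  have hj1 : r + 3 ≤ j := by
    have h1 : 2 ^ j ∣ 2 ^ (max j 2) := pow_dvd_pow 2 (le_max_left _ _)
    have h2 : 4 ∣ 2 ^ (max j 2) := pow_dvd_pow 2 (le_max_right j 2)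
    have h3 : (g : G) ^ (2 ^ (max j 2) + 1) = g := by
      rw [pow_succ, orderOf_dvd_iff_pow_eq_one.1 (by rw [orderOf_coe, hj]; exact h1), one_mul]
    rcases hd (2 ^ (max j 2) + 1) (Even.add_one (even_iff_two_dvd.2 (Dvd.dvd.trans (by norm_num) h2)))
      (by rw [h3]) with e | e
    · have := (Nat.pow_dvd_pow_iff_le_right one_lt_two).1 (by simpa using e)
      omega
    · have := h8.trans e
      omega
  have hz : (zpowers g).index = 2 := by
    have h1 := index_zpowers_le_two P.isPGroup' (x := g) (k := r + 2) (fun e => by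
      have := (Nat.pow_dvd_pow_iff_le_right one_lt_two).1 (hj ▸ orderOf_dvd_of_pow_eq_one e)
      omega) hP.le
    have h2 : (zpowers g).index ≠ 1 := fun e => by
      obtain ⟨i, rfl⟩ := (index_eq_one.1 e) ▸ mem_top b
      exact hb (by group)
    have := index_ne_zero_of_finite (H := zpowers g)
    omega
  have hj2 : j = r + 3 := by
    have h1 := (zpowers g).card_mul_index
    rw [Nat.card_zpowers, hj, hz, ← pow_succ] at h1
    have := Nat.pow_right_injective le_rfl (h1.trans hP)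
    omega
  subst hj2
  obtain ⟨k, hk⟩ := (mem_powers_iff_mem_zpowers).2
    ((normal_of_index_eq_two hz).conj_mem g (mem_zpowers g) b)
  simp only at hk
  have hko : Odd k := by
    have h1 : orderOf (g ^ k) = orderOf g := by
      rw [hk]; exact (MulAut.conj b).orderOf_eq g
    rw [orderOf_pow, Nat.div_eq_self, hj] at h1
    refine Nat.coprime_two_left.1 (Nat.Coprime.coprime_dvd_left (dvd_pow_self 2 (by omega)) (h1.resolve_left (by positivity)))
  have hy : ⁅b, g⁆ = g ^ (k - 1) := by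
    obtain ⟨t, rfl⟩ := hko
    rw [commutatorElement_def, ← hk, pow_succ]
    simp
  rcases hd k hko (isConj_iff.2 ⟨b, congrArg Subtype.val hk.symm⟩) with e | e
  · rw [orderOf_dvd_iff_pow_eq_one.1 (hj ▸ e)] at hy
    exact absurd (commutatorElement_eq_one_iff_mul_comm.1 hy) hb
  · rw [hy, ← pow_mul, Ne, ← orderOf_dvd_iff_pow_eq_one, hj,
      show 2 ^ (r + 3) = 4 * 2 ^ (r + 1) by ring, Nat.mul_dvd_mul_iff_right (by positivity)]
    have := h8.trans e
    have := hko.pos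
    omega

/-- Let G be a finite group with Sylow 2-subgroup P of order 2^n ≥ 8, and let ζ be a primitive 2^(n−1)-th root of unity in ℂ. Then the commutator subgroup of P has index 4 in P if and only if there is an element g of P whose conjugacy class in G has even size and such that the field generated over ℚ by the values at g of all irreducible complex characters of G equals ℚ(ζ + ζ⁻¹) or ℚ(ζ − ζ⁻¹). -/
theorem result {G : Type*} [Group G] [Finite G] (P : Sylow 2 G) (n : ℕ) (hn : 3 ≤ n) (hP : Nat.card P = 2 ^ n) (ζ : ℂ) (hζ : IsPrimitiveRoot ζ (2 ^ (n - 1))) :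
    (commutator ↥P).index = 4 ↔
      ∃ g : G, g ∈ (P : Subgroup G) ∧ 2 ∣ (Subgroup.centralizer ({g} : Set G)).index ∧
        (IntermediateField.adjoin ℚ {z : ℂ | ∃ χ : Cfsg.IrrCharacter G, (χ : G → ℂ) g = z} = IntermediateField.adjoin ℚ ({ζ + ζ⁻¹} : Set ℂ) ∨
          IntermediateField.adjoin ℚ {z : ℂ | ∃ χ : Cfsg.IrrCharacter G, (χ : G → ℂ) g = z} = IntermediateField.adjoin ℚ ({ζ - ζ⁻¹} : Set ℂ)) := by
  obtain ⟨r, rfl⟩ : ∃ r, n = r + 3 := ⟨n - 3, by omega⟩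
  have hζ' : IsPrimitiveRoot ζ (2 ^ (r + 2)) := hζ
  have key := fun (g : G) (hg : g ∈ (P : Subgroup G)) (s : ℂ) (hs : s = 1 ∨ s = -1) =>
    field_iff (g := g) (n := r + 3) (by rw [← hP]; exact orderOf_dvd_natCard _ hg) (by omega)
      (by omega) hζ' hs
  rw [show ζ + ζ⁻¹ = ζ + 1 * ζ⁻¹ by ring, show ζ - ζ⁻¹ = ζ + (-1) * ζ⁻¹ by ring]
  constructor
  · intro h
    obtain ⟨a, b, m, hm, hmc⟩ := exists_mc_of_index_commutator P.isPGroup' h fun e => by
      replace h := hP.symm.trans (index_bot.symm.trans ((congrArg index e).symm.trans h))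
      have := Nat.pow_right_injective le_rfl (h.trans (show 4 = 2 ^ 2 from rfl))
      omega
    have hmr : ∀ {ε δ : ℤ}, MC (⊤ : Subgroup P) a b m ε δ → m = r + 1 := fun h1 => by
      have h2 := h1.of_top.card_eq
      rw [hP] at h2
      have := Nat.pow_right_injective le_rfl h2
      omega
    rcases hmc with h1 | h1 | ⟨-, h1⟩ <;> obtain rfl := hmr h1 <;>
      obtain ⟨h2, h3⟩ := of_mc P h1.of_top hm hζ' <;> refine ⟨a, a.2, h2, ?_⟩
    · exact Or.inl ((key a a.2 1 (Or.inl rfl)).2 fun k _ => by simpa using h3 k)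
    · exact Or.inl ((key a a.2 1 (Or.inl rfl)).2 fun k _ => by simpa using h3 k)
    · refine Or.inr ((key a a.2 (-1) (Or.inr rfl)).2 fun k _ => ?_)
      have : ζ ^ ((1 : ℤ) * 2 ^ (r + 1)) = -1 := by
        rw [← (hζ'.pow (b := 2) (a := 2 ^ (r + 1)) (by positivity) (by ring)).eq_neg_one_of_two_right,
          ← zpow_natCast]
        push_cast; rw [one_mul]
      rw [← this]
      exact h3 k
  · rintro ⟨g, hg, h1, h | h⟩
    · exact of_field P hP hζ' (by simp) ⟨g, hg⟩ h1 ((key g hg 1 (Or.inl rfl)).1 h)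
    · exact of_field P hP hζ' (by simp) ⟨g, hg⟩ h1 ((key g hg (-1) (Or.inr rfl)).1 h)

end Cfsg.Agent.S4923
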