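import Cfsg.Statements.S4924
import Cfsg.Agent.Lib.K0.Cyc

set_option autoImplicit false
open Cfsg

namespace Cfsg.Agent.S4924

/-- Let G be a finite group, p a prime, M a maximal ideal of the algebraic integers containing p, P a Sylow p-subgroup of G, and k = 2 or k = 3. Then the principal p-block of G contains exactly k irreducible characters of degree not divisible by p (its height-zero characters) if and only if P has order k. -/
theorem result {G : Type*} [Group G] [Finite G] (p : ℕ) [Fact p.Prime] (M : Ideal Cfsg.AlgInt) (hM : Cfsg.IsPModular p M) (P : Sylow p G) (k : ℕ) (hk : k = 2 ∨ k = 3) :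
    Nat.card {χ : Cfsg.IrrCharacter G // χ ∈ Cfsg.principalBlock M G ∧ ¬ p ∣ Cfsg.charDegree (χ : G → ℂ)} = k ↔ Nat.card P = k := by
  refine ⟨fun h => ?_, fun h => ?_⟩
  · have hd := Lib.K0.dvd_of_k0 hM (G := G) (by omega)
    by_cases h2 : p = 2
    · subst h2
      obtain ⟨a, ha⟩ := Lib.K0.even_k0 hM hd
      obtain rfl : k = 2 := by omega
      exact Lib.K0.card_two hM P hd h
    · have hP := Lib.K0.card_eq hM P h2 hd (by omega)
      obtain ⟨f, h1, h3⟩ := Lib.K0.k0_mul hM h2 P hP rfl
      generalize Subgroup.relIndex (G := G) _ _ = e at h1 h3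
      have := (Fact.out : p.Prime).two_le
      have e3 : e ≤ 3 := by omega
      interval_cases e <;> omega
  · rcases hk with rfl | rfl
    · obtain rfl := Lib.K0.eq_of_card P Nat.prime_two h
      exact Lib.K0.k0_two hM P h
    · obtain rfl := Lib.K0.eq_of_card P Nat.prime_three h
      obtain ⟨f, h1, h3⟩ := Lib.K0.k0_mul hM (by omega) P h rfl
      generalize Subgroup.relIndex (G := G) _ _ = e at h1 h3
      have e3 : e ≤ 2 := Nat.le_of_dvd two_pos ⟨f, by omega⟩
      interval_cases e <;> omega

end Cfsg.Agent.S4924
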