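import Cfsg.Statements.S4926
import Cfsg.Agent.Lib.K0.Cyc

set_option autoImplicit false
open Cfsg

namespace Cfsg.Agent.S4926

/-- Let G be a finite group, p a prime, M a maximal ideal of the algebraic integers containing p, and P a Sylow p-subgroup of G with normalizer N and centralizer C. Then the principal p-block of G contains exactly five irreducible characters of degree not divisible by p if and only if either P has order 5 and the index of C in N is 1 or 4, or P has order 7 and the index of C in N is 2 or 3. -/
theorem result {G : Type*} [Group G] [Finite G] (p : ℕ) [Fact p.Prime] (M : Ideal Cfsg.AlgInt) (hM : Cfsg.IsPModular p M) (P : Sylow p G) :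
    Nat.card {χ : Cfsg.IrrCharacter G // χ ∈ Cfsg.principalBlock M G ∧ ¬ p ∣ Cfsg.charDegree (χ : G → ℂ)} = 5 ↔
      ((Nat.card P = 5 ∧ ((Subgroup.centralizer ((P : Subgroup G) : Set G)).relIndex (Subgroup.normalizer ((P : Subgroup G) : Set G)) = 1 ∨ (Subgroup.centralizer ((P : Subgroup G) : Set G)).relIndex (Subgroup.normalizer ((P : Subgroup G) : Set G)) = 4)) ∨
        (Nat.card P = 7 ∧ ((Subgroup.centralizer ((P : Subgroup G) : Set G)).relIndex (Subgroup.normalizer ((P : Subgroup G) : Set G)) = 2 ∨ (Subgroup.centralizer ((P : Subgroup G) : Set G)).relIndex (Subgroup.normalizer ((P : Subgroup G) : Set G)) = 3))) := by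
  refine ⟨fun h => ?_, fun h => ?_⟩
  · have hd := Lib.K0.dvd_of_k0 hM (G := G) (by omega)
    by_cases h2 : p = 2
    · subst h2
      obtain ⟨a, ha⟩ := Lib.K0.even_k0 hM hd
      omega
    · have hP := Lib.K0.card_eq hM P h2 hd (by omega)
      obtain ⟨f, h1, h3⟩ := Lib.K0.k0_mul hM h2 P hP rfl
      generalize Subgroup.relIndex (G := G) _ _ = e at h1 h3 ⊢
      have := (Fact.out : p.Prime).two_le
      have e3 : e ≤ 5 := by omega
      interval_cases e <;> omega
  · rcases h with ⟨h, he⟩ | ⟨h, he⟩
    · obtain rfl := Lib.K0.eq_of_card P Nat.prime_five h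
      obtain ⟨f, h1, h3⟩ := Lib.K0.k0_mul hM (by omega) P h rfl
      rcases he with he | he <;> rw [he] at h1 h3 <;> omega
    · obtain rfl := Lib.K0.eq_of_card P Nat.prime_seven h
      obtain ⟨f, h1, h3⟩ := Lib.K0.k0_mul hM (by omega) P h rfl
      rcases he with he | he <;> rw [he] at h1 h3 <;> omega

end Cfsg.Agent.S4926
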