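import Cfsg.Statements.S4931
import Cfsg.Agent.Lib.Clifford.ExtNorm
import Cfsg.Agent.Lib.Core.MinNormal

set_option autoImplicit false
open Cfsg

namespace Cfsg.Agent.S4931

open Cfsg.Lib.Char Cfsg.Lib.Clifford Cfsg.Lib.Transfer Subgroup
open scoped commutatorElement

/-- Let G be a finite group, p a prime and P a Sylow p-subgroup of G with normalizer N. Then every irreducible complex character of N of degree not divisible by p is the restriction of an irreducible character of G if and only if there is a normal subgroup K of G with KN = G and K ∩ N = 1. -/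
theorem result {G : Type*} [Group G] [Finite G] (p : ℕ) [Fact p.Prime] (P : Sylow p G) :
    (∀ θ : Cfsg.IrrCharacter ↥(Subgroup.normalizer ((P : Subgroup G) : Set G)), ¬ p ∣ Cfsg.charDegree (θ : ↥(Subgroup.normalizer ((P : Subgroup G) : Set G)) → ℂ) →
        ∃ χ : Cfsg.IrrCharacter G, ∀ x : ↥(Subgroup.normalizer ((P : Subgroup G) : Set G)), (χ : G → ℂ) x = (θ : ↥(Subgroup.normalizer ((P : Subgroup G) : Set G)) → ℂ) x) ↔
      ∃ K : Subgroup G, K.Normal ∧ K ⊔ Subgroup.normalizer ((P : Subgroup G) : Set G) = ⊤ ∧ K ⊓ Subgroup.normalizer ((P : Subgroup G) : Set G) = ⊥ := by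
  classical
  have hPN : (P : Subgroup G) ≤ normalizer ((P : Subgroup G) : Set G) := le_normalizer
  generalize hN : normalizer ((P : Subgroup G) : Set G) = N at *
  haveI hPn : ((P : Subgroup G).subgroupOf N).Normal := by
    subst hN; infer_instance
  constructor
  · intro h
    have hP' : ⁅(P : Subgroup G), (P : Subgroup G)⁆ ≤ P := (commutator_le_sup _ _).trans (sup_idem _).le
    have e : ⁅(P : Subgroup G).subgroupOf N, (P : Subgroup G).subgroupOf N⁆ =
        ⁅(P : Subgroup G), (P : Subgroup G)⁆.subgroupOf N := by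
      apply map_injective N.subtype_injective
      rw [map_commutator, map_subgroupOf_eq_of_le hPN, map_subgroupOf_eq_of_le (hP'.trans hPN)]
    haveI hn2 : (⁅(P : Subgroup G), (P : Subgroup G)⁆.subgroupOf N).Normal := by
      rw [← e]; infer_instance
    have hext : ∀ θ : N → ℂ, IsIrrCharacter N θ →
        (∀ x ∈ ⁅(P : Subgroup G), (P : Subgroup G)⁆.subgroupOf N, θ x = θ 1) →
        ∃ χ : G → ℂ, IsCharacter G χ ∧ ∀ x : N, χ x = θ x := by
      intro θ h1 h2
      obtain ⟨θ', h3, h4⟩ := h1.exists_deflate _ h2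
      have hs := QuotientGroup.mk'_surjective (⁅(P : Subgroup G), (P : Subgroup G)⁆.subgroupOf N)
      haveI : (((P : Subgroup G).subgroupOf N).map (QuotientGroup.mk'
          (⁅(P : Subgroup G), (P : Subgroup G)⁆.subgroupOf N))).Normal := Normal.map hPn _ hs
      haveI := Fintype.ofFinite (((P : Subgroup G).subgroupOf N).map (QuotientGroup.mk'
          (⁅(P : Subgroup G), (P : Subgroup G)⁆.subgroupOf N)))
      have h5 := charDegree_dvd_index_of_comm (((P : Subgroup G).subgroupOf N).map
          (QuotientGroup.mk' (⁅(P : Subgroup G), (P : Subgroup G)⁆.subgroupOf N))) h3 (by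
        rintro _ ⟨a, ha, rfl⟩ _ ⟨b, hb, rfl⟩
        rw [← commutatorElement_eq_one_iff_mul_comm, ← map_commutatorElement, QuotientGroup.mk'_apply,
          QuotientGroup.eq_one_iff, ← e]
        exact commutator_mem_commutator ha hb)
      have h6 := h5.trans (index_map_dvd _ hs)
      have h7 : ¬ p ∣ ((P : Subgroup G).subgroupOf N).index := (P.subtype hPN).not_dvd_index
      obtain ⟨χ, hχ⟩ := h ⟨θ, h1⟩ fun hd => h7 (hd.trans (by
        rwa [charDegree_congr (χ := θ) (ψ := θ') (h4 1).symm]))
      exact ⟨χ, χ.2.isCharacter, hχ⟩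
    have h1 := normalClosure_inf_eq (hP'.trans hPN) hext
    have h2 := normalClosure_inf_eq hPN (fun θ a b => hext θ a fun x hx => b x (hP' hx))
    have h3 := npc_of_le P (normalClosure ((⁅(P : Subgroup G), (P : Subgroup G)⁆ : Subgroup G) : Set G))
      (normalClosure ((P : Subgroup G) : Set G)) (normalClosure_mono hP') le_normalClosure
      ((inf_le_inf_left _ hPN).trans h1.le) le_normalClosure (by
        rw [hN, h2]; exact le_sup_right)
    have hPM : (P : Subgroup G) ≤ normalClosure ((P : Subgroup G) : Set G) := le_normalClosure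
    have h4 := Sylow.normalizer_sup_eq_top' P hPM
    obtain ⟨M, hM⟩ : ∃ M : Subgroup G, M = normalClosure ((P : Subgroup G) : Set G) := ⟨_, rfl⟩
    haveI : M.Normal := hM ▸ normalClosure_normal
    rw [← hM] at h2 h3 h4 hPM
    have h5 := congrArg (map M.subtype) (pResidual_sup_sylow (P.subtype hPM))
    rw [Subgroup.map_sup, Sylow.coe_subtype, map_subgroupOf_eq_of_le hPM, ← MonoidHom.range_eq_map,
      range_subtype] at h5
    rw [hasNormalPComplement_iff_pResidual_inf_sylow (P.subtype hPM)] at h3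
    refine ⟨(pResidual p M).map M.subtype, inferInstance, ?_, ?_⟩
    · rw [eq_top_iff, ← h4]
      exact sup_le (hN.le.trans le_sup_right) (h5.ge.trans (sup_le_sup_left hPN _))
    · rw [eq_bot_iff]
      rintro _ ⟨⟨x, hx, rfl⟩, hxN⟩
      have h6 : x ∈ pResidual p M ⊓ (P.subtype hPM : Subgroup M) := ⟨hx, h2.le ⟨x.2, hxN⟩⟩
      rw [h3, mem_bot] at h6
      rw [h6]
      exact one_mem _
  · rintro ⟨K, hK, h1, h2⟩ θ -
    have hc := (Cfsg.Lib.Core.isComplement'_of_inf_eq_bot h2 h1).symm
    refine ⟨⟨_, (θ.2.comp_equiv hc.QuotientMulEquiv).inflate⟩, fun x => ?_⟩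
    change (θ : N → ℂ) (hc.QuotientMulEquiv ((x : G) : G ⧸ K)) = _
    exact congrArg _ (hc.QuotientMulEquiv.apply_symm_apply x)

end Cfsg.Agent.S4931
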