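import Cfsg.Statements.S4949
import Cfsg.Agent.Lib.SnCh.Alt
import Cfsg.Agent.Lib.Modular.Contrib
import Cfsg.Agent.Lib.PGroup.MaxClass

set_option autoImplicit false
open Cfsg

namespace Cfsg.Agent.S4949

open Cfsg.Lib.Char Cfsg.Lib.SnCh Cfsg.Lib.Block Cfsg.Lib.Modular Cfsg.Lib.PGroup

/-- Let n be a natural number, p a prime, M a maximal ideal of the algebraic integers containing p, B a p-block of the alternating group of degree n and D a defect group of B. Then either B contains an irreducible character of height 1 and D has an irreducible complex character of degree p, or every irreducible character of B has height zero and D is commutative (so the least positive height in B and the least positive exponent of a character degree of D are both 1 or both absent). -/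
theorem result (n : ℕ) (p : ℕ) [Fact p.Prime] (M : Ideal Cfsg.AlgInt) (hM : Cfsg.IsPModular p M) (B : Set (Cfsg.IrrCharacter ↥(alternatingGroup (Fin n)))) (hB : Cfsg.IsPBlock M B) (D : Subgroup ↥(alternatingGroup (Fin n))) (hD : Cfsg.IsDefectGroup p M B D) :
    ((∃ χ : Cfsg.IrrCharacter ↥(alternatingGroup (Fin n)), χ ∈ B ∧ Cfsg.blockHeight p B (χ : ↥(alternatingGroup (Fin n)) → ℂ) = 1) ∧ (∃ φ : Cfsg.IrrCharacter ↥D, Cfsg.charDegree (φ : ↥D → ℂ) = p)) ∨
    ((∀ χ : Cfsg.IrrCharacter ↥(alternatingGroup (Fin n)), χ ∈ B → Cfsg.blockHeight p B (χ : ↥(alternatingGroup (Fin n)) → ℂ) = 0) ∧ IsMulCommutative D) := by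
  have : Modular p M := ⟨hM⟩
  rcases le_or_gt (blockDefect p B) 2 with l | l
  · exact .inr ⟨fun χ => height_eq_zero_of_defect_le_two hB l, isMulCommutative_of_card_le_sq hD.isPGroup
      (hB.card_defectGroup hD ▸ Nat.pow_le_pow_right (Fact.out : p.Prime).pos l)⟩
  obtain ⟨i, N, κ, w, P, h, c, hP, rfl, o, d⟩ := exists_alt hB hD ((hB.blockDefect_eq_zero_iff hD).not.1 (by omega))
  have l3 : 3 ≤ w := by_contra fun f => by have := (three_le d (by omega) (by omega)).1; omega
  have hB' := h.isPBlock M
  have d' := d.trans (h.defect (M := M)).symm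
  rcases le_or_gt p w with f | f
  · obtain ⟨ψ, a, b, e⟩ := h.exists_height_one (M := M) f l3
    obtain ⟨θ, g, k⟩ := (over_iff ψ.2.isCharacter).1 (c.over (Subgroup.subtype_injective _) hB' hB a)
    exact .inl ⟨⟨θ, g, (height_res i d' a g k e).trans b⟩, h.exists_deg hP f l3 o⟩
  refine .inr ⟨fun θ a => ?_, ?_⟩
  · obtain ⟨χ, ⟨β, b, b'⟩, e⟩ := c.exists_over hB' hB a
    obtain ⟨m, h1, -, h2⟩ := h.height (M := M) b b'
    rw [height_res i d' ⟨β, b, b'⟩ a ((over_subtype_iff χ θ).1 e) (by omega), h2]
    exact Nat.le_zero.1 (fact_lt f ▸ Nat.factorization_le_factorization_of_dvd_right h1 (fun e => w.factorial_ne_zero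
      (by simpa [e] using h1)) w.factorial_ne_zero)
  · obtain ⟨φ, a, b⟩ := h.exists_elem hP
    have : φ.range = P := Subgroup.eq_of_le_of_card_ge (by rintro _ ⟨v, rfl⟩; exact b v) (by
      rw [hB'.card_defectGroup hP, h.defect (M := M), fact_lt f, ← Nat.card_congr (MonoidHom.ofInjective a.1).toEquiv]
      simp [Nat.card_fun])
    subst this
    infer_instance

end Cfsg.Agent.S4949
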