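import Cfsg.Statements.S4984
import Cfsg.Agent.Lib.HCI.Main

set_option autoImplicit false
open Cfsg

namespace Cfsg.Agent.S4984

/-- Let G be a finite simple symplectic group PSp_{2m}(q) (m ≥ 2, excluding PSp₄(2)) or a finite simple orthogonal group PΩ_{2m+1}(q) (m ≥ 3, q odd), PΩ⁺_{2m}(q) or PΩ⁻_{2m}(q) (m ≥ 4). Then the character degree graph of G is complete: for any two distinct primes each dividing some irreducible complex character degree of G, their product divides some irreducible character degree of G. -/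
theorem result {G : Type*} [Group G] [Finite G] (h : Cfsg.IsPSp G ∨ Cfsg.IsPOmegaOdd G ∨ Cfsg.IsPOmegaPlus G ∨ Cfsg.IsPOmegaMinus G) (r s : ℕ) (hr : r ∈ Cfsg.degreePrimes G) (hs : s ∈ Cfsg.degreePrimes G) (hrs : r ≠ s) : (Cfsg.degreeGraph G).Adj r s := by
  exact Cfsg.Lib.HCI.FS.adj h hr hs hrs

end Cfsg.Agent.S4984
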