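import Cfsg.Statements.S4989
import Cfsg.Agent.Lib.Char.DefectZero
import Cfsg.Agent.Lib.Char.Galois

set_option autoImplicit false
open Cfsg

namespace Cfsg.Agent.S4989

open Cfsg.Lib.Char in

/-- Let H be a subgroup of the finite group G and χ an irreducible complex character of G. Then the inner product of the restriction of χ to H with itself, (1/#H)·Σ_{h ∈ H} |χ(h)|², is at most 1 + #(Z ∖ H)/#H, where Z is the set of zeros of χ in G. -/
theorem result {G : Type*} [Group G] [Finite G] (H : Subgroup G) (χ : Cfsg.IrrCharacter G) : (Nat.card ↥H : ℝ)⁻¹ * ∑ᶠ h : ↥H, ‖(χ : G → ℂ) h‖ ^ 2 ≤ 1 + (Set.ncard ({x : G | (χ : G → ℂ) x = 0} \ (H : Set G)) : ℝ) / (Nat.card ↥H : ℝ) := by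
  classical
  have := Fintype.ofFinite G
  have hH : (0 : ℝ) < Nat.card H := by exact_mod_cast Nat.card_pos
  rw [finsum_eq_sum_of_fintype, inv_mul_le_iff₀ hH, mul_add, mul_one, mul_div_cancel₀ _ hH.ne']
  set f : G → ℂ := (χ : G → ℂ) with hf
  set S : Finset G := Finset.univ.filter fun x => x ∉ H ∧ f x ≠ 0 with hS
  have h1 := χ.2.isGeneralizedCharacter.card_le_sum_norm_sq S (fun k hk g hg => by
    simp only [hS, Finset.mem_filter, Finset.mem_univ, true_and] at hg ⊢
    refine ⟨fun h => hg.1 ?_, fun h => hg.2 ?_⟩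
    · have := (Subgroup.zpowers_le.2 h) (mem_zpowers_pow_iff.2 (hk.coprime_dvd_right (orderOf_dvd_natCard g)))
      exact this
    · obtain ⟨σ, hσ⟩ := exists_ringEquiv_forall_map_apply G hk
      have h2 := hσ f χ.2.isGeneralizedCharacter g
      rw [h] at h2
      simpa using h2) (fun g hg => by
    simp only [hS, Finset.mem_filter, Finset.mem_univ, true_and] at hg
    exact hg.2)
  have h2 := χ.2.sum_norm_sq
  have h3 : ∑ h : H, ‖f h‖ ^ 2 = ∑ x ∈ Finset.univ.filter (· ∈ H), ‖f x‖ ^ 2 :=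
    (Finset.sum_subtype _ (by simp) (fun x => ‖f x‖ ^ 2)).symm
  have h4 := Finset.sum_filter_add_sum_filter_not Finset.univ (· ∈ H) (fun x => ‖f x‖ ^ 2)
  have h5 : ∑ x ∈ S, ‖f x‖ ^ 2 ≤ ∑ x ∈ Finset.univ.filter (· ∉ H), ‖f x‖ ^ 2 :=
    Finset.sum_le_sum_of_subset_of_nonneg (fun x hx => by
      simp only [hS, Finset.mem_filter, Finset.mem_univ, true_and] at hx ⊢
      exact hx.1) (fun _ _ _ => by positivity)
  have h6 : Set.ncard ({x : G | f x = 0} \ (H : Set G)) =
      (Finset.univ.filter fun x => x ∉ H ∧ f x = 0).card := by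
    rw [← Set.ncard_coe_finset]
    congr 1
    ext x
    simp [and_comm]
  have h7 : Nat.card H = (Finset.univ.filter (· ∈ H)).card := by
    rw [Nat.card_eq_fintype_card, Fintype.card_subtype]
  have h8 : (Finset.univ.filter (· ∈ H)).card + (S.card +
      (Finset.univ.filter fun x => x ∉ H ∧ f x = 0).card) = Nat.card G := by
    rw [Nat.card_eq_fintype_card, hS, Finset.card_filter, Finset.card_filter, Finset.card_filter,
      ← Finset.sum_add_distrib, ← Finset.sum_add_distrib, Fintype.card_eq_sum_ones]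
    refine Finset.sum_congr rfl fun x _ => ?_
    by_cases h : x ∈ H <;> by_cases h' : f x = 0 <;> simp [h, h']
  have h9 : ((Finset.univ.filter (· ∈ H)).card : ℝ) + (S.card +
      (Finset.univ.filter fun x => x ∉ H ∧ f x = 0).card) = Nat.card G := by exact_mod_cast h8
  rw [h3, h6, h7]
  linarith

end Cfsg.Agent.S4989
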