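import Cfsg.Statements.S4993
import Cfsg.Agent.Lib.CharDeg.PrimDeg
import Cfsg.Agent.Lib.PF.Main
import Cfsg.Agent.Lib.BG.Narrow

set_option autoImplicit false
open Cfsg

namespace Cfsg.Agent.S4993

open Subgroup Lib Lib.BG Lib.PF

/-- Let G be a group of odd order whose order has exactly two prime divisors and whose quotient by its Fitting subgroup is nilpotent (G is metanilpotent), and let χ be a primitive irreducible complex character of G (not induced from a character of any proper subgroup). Then χ(1) divides the size of some conjugacy class of G. -/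
theorem result {G : Type*} [Group G] [Fintype G] (hodd : Odd (Nat.card G)) (h2 : (Nat.card G).primeFactors.card = 2) [hF : (Cfsg.fittingSubgroup G).Normal] (hmeta : Group.IsNilpotent (G ⧸ Cfsg.fittingSubgroup G)) (χ : Cfsg.IrrCharacter G) (hprim : ¬ ∃ (H : Subgroup G), H ≠ ⊤ ∧ ∃ θ : ↥H → ℂ, Cfsg.IsCharacter ↥H θ ∧ Cfsg.indFun H θ = (χ : G → ℂ)) : ∃ g : G, Cfsg.charDegree (χ : G → ℂ) ∣ (Subgroup.centralizer ({g} : Set G)).index := by
  have hs := isSolvable_of_odd G hodd
  let π := QuotientGroup.mk' (fittingSubgroup G)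
  have key : ∀ p : ℕ, p.Prime → ∃ N : Subgroup G, N.Normal ∧ ¬ p ∣ N.index ∧ ∃ g : G, ∀ n ∈ N,
      (charDegree (χ : G → ℂ)).factorization p ≤ (centralizer {g * n}).index.factorization p := fun p hp => by
    have := Fact.mk hp
    let S : Sylow p (G ⧸ fittingSubgroup G) := default
    refine ⟨S.1.comap π, inferInstance, ?_, FixAvg.main p hs χ hprim _ fun L K h hd => ?_⟩
    · rw [index_comap_of_surjective _ (QuotientGroup.mk'_surjective _)]; exact S.not_dvd_index
    obtain ⟨q, hq, -, -, k, -, h2⟩ := h.elem inferInstance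
    obtain rfl : p = q := (Nat.prime_dvd_prime_iff_eq hp hq).1 (hp.dvd_of_dvd_pow (h2 ▸ hd))
    refine h.comm_le_of_relIndex (p := p) (h2 ▸ .prime_pow (π := {p}) hp rfl k) ⟨le_top, le_normalizer_of_normal⟩ (.of_dvd ?_
      (relIndex_dvd_of_le_left _ (PGroup.le_commStab (le_top.trans h.nmlV.2) (Fitting_stab_chief ⟨le_rfl, le_norm _⟩ h))))
    obtain ⟨j, hj⟩ := S.2.exists_card_eq
    rw [Core.fittingOf_top.trans (QuotientGroup.ker_mk' (fittingSubgroup G)).symm, relIndex_ker,
      map_comap_eq_self_of_surjective (QuotientGroup.mk'_surjective _), hj]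
    exact .prime_pow (π := {p}) hp rfl j
  obtain ⟨p, q, -, e⟩ := Finset.card_eq_two.1 h2
  have e' : ∀ r : ℕ, r.Prime → r ∣ Nat.card G → r = p ∨ r = q := fun r a b => by
    simpa using e.le (Nat.mem_primeFactors.2 ⟨a, b, Nat.card_pos.ne'⟩)
  obtain ⟨N, _, a1, g, a2⟩ := key p (Nat.prime_of_mem_primeFactors (by rw [e]; simp : p ∈ (Nat.card G).primeFactors))
  obtain ⟨M, -, b1, k, b2⟩ := key q (Nat.prime_of_mem_primeFactors (by rw [e]; simp : q ∈ (Nat.card G).primeFactors))
  have t : M ⊔ N = ⊤ := index_eq_one.1 (Nat.eq_one_iff_not_exists_prime_dvd.2 fun r a b =>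
    (e' r a (b.trans (index_dvd_card _))).elim (fun h => a1 (h ▸ b.trans (index_dvd_of_le le_sup_right)))
      fun h => b1 (h ▸ b.trans (index_dvd_of_le le_sup_left)))
  obtain ⟨m, hm, n, hn, c⟩ := exists_mul_of_sup_eq_top t (k⁻¹ * g)
  have hχ := mem_Irr_top.2 χ.2
  refine ⟨k * m, (Nat.factorization_prime_le_iff_dvd (Irr.deg_pos hχ).ne' index_ne_zero_of_finite).1 fun r hr => ?_⟩
  by_cases h : r ∣ Nat.card G
  · rcases e' r hr h with rfl | rfl
    · have := a2 _ (inv_mem hn)
      rwa [show g * n⁻¹ = k * m by rw [mul_inv_eq_iff_eq_mul, mul_assoc, ← c, mul_inv_cancel_left]] at this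
    · exact b2 m hm
  · rw [Nat.factorization_eq_zero_of_not_dvd fun d => h (d.trans (card_top (G := G) ▸ Irr.deg_dvd_card hχ))]
    exact Nat.zero_le _

end Cfsg.Agent.S4993
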