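import Cfsg.Statements.S4996
import Cfsg.Agent.Lib.CharDeg.CosetSum
import Cfsg.Agent.Lib.Char.Galois

set_option autoImplicit false
open Cfsg

namespace Cfsg.Agent.S4996

open Cfsg.Lib.Char Cfsg.Lib.CharDeg in
open scoped ComplexConjugate in

/-- Let N be a normal subgroup of the finite group G and χ an irreducible complex character of G. Then the restriction of χ to N is not irreducible if and only if χ vanishes on some whole coset Nx of N in G. -/
theorem result {G : Type*} [Group G] [Finite G] (N : Subgroup G) [N.Normal] (χ : Cfsg.IrrCharacter G) : ¬ Cfsg.IsIrrCharacter ↥N (fun n : ↥N => (χ : G → ℂ) n) ↔ ∃ x : G, ∀ n : ↥N, (χ : G → ℂ) ((n : G) * x) = 0 := by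
  classical
  haveI := Fintype.ofFinite G
  haveI := Fintype.ofFinite N
  set f : G → ℂ := (χ : G → ℂ) with hf
  have hN0 : (Nat.card N : ℂ) ≠ 0 := card_ne_zero_complex N
  constructor
  · intro hred
    by_contra hcon
    push Not at hcon
    apply hred
    -- the class function `F x = |N|⁻¹ ∑ |χ (n x)|²`
    set R : G → ℝ := fun x => (Nat.card N : ℝ)⁻¹ * ∑ n : N, ‖f (n * x)‖ ^ 2 with hR
    set φ : G → ℂ := f * fun g => conj (f g) with hφ
    have hφc : IsCharacter G φ := χ.2.isCharacter.mul χ.2.isCharacter.conj
    set F : G → ℂ := (Nat.card N : ℂ)⁻¹ • fun x => ∑ n : N, φ (n * x) with hF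
    have hFR : ∀ x, F x = R x := fun x => by
      simp [hF, hR, hφ, Complex.mul_conj, Complex.normSq_eq_norm_sq]
    have hFc : IsCharacter G F := by
      refine ((isClassFunction_coset_sum N hφc.isClassFunction).smul _).isCharacter_of_inner_nat
        fun β hβ => ?_
      rw [classInner_smul_left, classInner_coset_sum N φ hβ]
      split_ifs
      · rw [inv_mul_cancel_left₀ hN0]
        exact hφc.exists_inner_eq_nat hβ.isCharacter
      · exact ⟨0, by simp⟩
    have hNR : (0 : ℝ) < Nat.card N := by exact_mod_cast Nat.card_pos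
    have hRpos : ∀ x, 0 < R x := fun x => by
      obtain ⟨n, hn⟩ := hcon x
      refine mul_pos (inv_pos.2 hNR) (Finset.sum_pos' (fun _ _ => by positivity)
        ⟨n, Finset.mem_univ _, by positivity⟩)
    set S : Finset G := Finset.univ.filter (· ∉ N) with hS
    obtain ⟨m, hm⟩ := hFc.isGeneralizedCharacter.exists_int_prod S (fun k hk g hg => by
      simp only [hS, Finset.mem_filter, Finset.mem_univ, true_and] at hg ⊢
      exact fun h => hg ((Subgroup.zpowers_le.2 h)
        (mem_zpowers_pow_iff.2 (hk.coprime_dvd_right (orderOf_dvd_natCard g)))))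
    have hm' : ∏ g ∈ S, R g = m := by
      apply Complex.ofReal_injective
      simpa [hFR] using hm
    have h1 : (1 : ℝ) ≤ ∏ g ∈ S, R g := by
      have : (0 : ℝ) < m := hm' ▸ Finset.prod_pos fun g _ => hRpos g
      rw [hm']
      exact_mod_cast (show (0 : ℤ) < m by exact_mod_cast this)
    have h2 : 0 ≤ ∑ g ∈ S, Real.log (R g) := by
      rw [← Real.log_prod fun g hg => (hRpos g).ne']
      exact Real.log_nonneg h1
    have h3 : (S.card : ℝ) ≤ ∑ g ∈ S, R g := by
      have h5 := Finset.sum_le_sum fun g (_ : g ∈ S) => Real.log_le_sub_one_of_pos (hRpos g)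
      rw [Finset.sum_sub_distrib, Finset.sum_const, nsmul_eq_mul, mul_one] at h5
      linarith
    have h4 : ∑ g, R g = Nat.card G := by
      simp only [hR]
      rw [← Finset.mul_sum, Finset.sum_comm]
      have : ∀ n : N, ∑ x, ‖f (n * x)‖ ^ 2 = (Nat.card G : ℝ) := fun n => by
        rw [← χ.2.sum_norm_sq]
        exact Equiv.sum_comp (Equiv.mulLeft (n : G)) (fun x => ‖f x‖ ^ 2)
      simp only [this, Finset.sum_const, Finset.card_univ, nsmul_eq_mul]
      rw [← Nat.card_eq_fintype_card, inv_mul_cancel_left₀ hNR.ne']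
    have h5 : ∀ g ∈ Finset.univ.filter (· ∈ N), R g = R 1 := fun g hg => by
      simp only [Finset.mem_filter, Finset.mem_univ, true_and] at hg
      simp only [hR, mul_one]
      congr 1
      exact Equiv.sum_comp (Equiv.mulRight (⟨g, hg⟩ : N)) (fun n : N => ‖f n‖ ^ 2)
    have h6 := Finset.sum_filter_add_sum_filter_not Finset.univ (· ∈ N) R
    rw [Finset.sum_congr rfl h5, Finset.sum_const, nsmul_eq_mul, h4] at h6
    have h7 : Nat.card N = (Finset.univ.filter (· ∈ N)).card := by
      rw [Nat.card_eq_fintype_card, Fintype.card_subtype]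
    have h8 := Finset.card_filter_add_card_filter_not (s := (Finset.univ : Finset G)) (· ∈ N)
    rw [Finset.card_univ, ← Nat.card_eq_fintype_card, ← h7] at h8
    rw [← h7] at h6
    have h9 : (Nat.card N : ℝ) + S.card = Nat.card G := by exact_mod_cast h8
    have h10 : R 1 ≤ 1 := by
      apply le_of_mul_le_mul_left _ hNR
      linarith
    have hc := χ.2.isCharacter.restrict N
    obtain ⟨e, he⟩ := hc.exists_inner_eq_nat hc
    have h11 : R 1 = e := by
      apply Complex.ofReal_injective
      rw [classInner_self_eq] at he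
      simpa [hR] using he
    have h12 := hRpos 1
    rw [h11] at h10 h12
    have h13 : e = 1 := le_antisymm (by exact_mod_cast h10) (by exact_mod_cast h12)
    exact hc.isIrrCharacter_of_inner_self (by rw [he, h13, Nat.cast_one])
  · rintro ⟨x, hx⟩ hirr
    have h := sum_coset_mul_conj_self N χ.2.isCharacter hirr x
    refine hN0 (h.symm.trans (Finset.sum_eq_zero fun n _ => ?_))
    exact mul_eq_zero_of_left (hx n) _

end Cfsg.Agent.S4996
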