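import Cfsg.Statements.S5001
import Cfsg.Agent.Lib.Block.DefectOrder
import Cfsg.Agent.Lib.Modular.Subsection
import Cfsg.Agent.Lib.Modular.Principal

set_option autoImplicit false
open Cfsg

namespace Cfsg.Agent.S5001

open Cfsg.Lib.Block Cfsg.Lib.Char Cfsg.Lib.Transfer MonoidAlgebra Subgroup

theorem exists_constituent {G Γ : Type*} [Group G] [Finite G] [Group Γ] [Fintype Γ]
    {M : Ideal Cfsg.AlgInt} [M.IsPrime] {χ : G → ℂ} (hχ : IsCharacter G χ) (φ : Γ →* G) {g : Γ}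
    (h : red M (χ (φ g)) ≠ 0) : ∃ θ : IrrCharacter Γ,
      classInner (fun x => χ (φ x)) (θ : Γ → ℂ) ≠ 0 ∧ red M ((θ : Γ → ℂ) g) ≠ 0 := by
  by_contra! H
  refine h ?_
  have h1 := (hχ.comp φ).isClassFunction.apply_eq_sum_irr g
  have h2 : ∀ θ : IrrCharacter Γ, classInner (fun x => χ (φ x)) (θ : Γ → ℂ) ∈ locRing M :=
    fun θ => by
      obtain ⟨n, hn⟩ := (hχ.comp φ).exists_inner_eq_nat θ.2.isCharacter
      rw [hn]
      exact natCast_mem _ n
  rw [h1, red_sum _ _ fun θ _ => mul_mem (h2 θ) (irr_mem θ g)]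
  refine Finset.sum_eq_zero fun θ _ => ?_
  rw [red_mul (h2 θ) (irr_mem θ g)]
  by_cases h3 : classInner (fun x => χ (φ x)) (θ : Γ → ℂ) = 0
  · rw [h3, red_zero, zero_mul]
  · rw [H θ h3, mul_zero]

theorem div_eq_of_constituent {G Γ : Type*} [Group G] [Finite G] [Group Γ] [Fintype Γ]
    {χ : G → ℂ} (hχ : IsIrrCharacter G χ) (φ : Γ →* G) {θ : IrrCharacter Γ}
    (h : classInner (fun x => χ (φ x)) (θ : Γ → ℂ) ≠ 0) {z : Γ} (hz : z ∈ center Γ)
    (hz' : φ z ∈ center G) : (θ : Γ → ℂ) z / (θ : Γ → ℂ) 1 = χ (φ z) / χ 1 := by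
  have h1 := Lib.Modular.classInner_shift_irr hz (fun x => χ (φ x)) θ
  have h2 : Lib.Modular.shift z (fun x => χ (φ x)) = (χ (φ z) / χ 1) • fun x => χ (φ x) :=
    funext fun x => by
      rw [Lib.Modular.shift_apply, map_mul, Lib.Modular.irr_apply_central_mul hχ hz']
      rfl
  rw [h2, classInner_smul_left] at h1
  exact (mul_right_cancel₀ h h1).symm

/-- Let p be a prime, G a finite group and B a p-block of G (relative to a maximal ideal M of the algebraic integers containing p) with defect group D. Let Z be a central p-subgroup of G contained in D and λ a linear character of Z (a homomorphism to the nonzero complex numbers). Say an irreducible character χ of G lies over λ when χ(z) = χ(1)λ(z) for all z ∈ Z. If some irreducible character in B lying over λ has height zero, then λ extends to a linear character of D. -/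
theorem result {G : Type*} [Group G] [Finite G] (p : ℕ) [Fact p.Prime] (M : Ideal Cfsg.AlgInt) (hM : Cfsg.IsPModular p M) (B : Set (Cfsg.IrrCharacter G)) (hB : Cfsg.IsPBlock M B) (D : Subgroup G) (hD : Cfsg.IsDefectGroup p M B D) (Z : Subgroup G) (hZc : Z ≤ Subgroup.center G) (hZp : IsPGroup p ↥Z) (hZD : Z ≤ D) (lam : ↥Z →* ℂˣ) (χ : Cfsg.IrrCharacter G) (hχ : χ ∈ B) (hover : (∀ z : ↥Z, (χ : G → ℂ) z = (χ : G → ℂ) 1 * (lam z : ℂ))) (h0 : Cfsg.blockHeight p B (χ : G → ℂ) = 0) : (∃ μ : ↥D →* ℂˣ, ∀ z : ↥Z, μ ⟨(z : G), hZD z.2⟩ = lam z) := by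
  have : Modular p M := ⟨hM⟩
  obtain ⟨y, hy, hDy, hDp, -⟩ := isDefectGroup_iff.1 hD
  have h1 := (hB.height_zero_iff_red hy hχ).1 h0
  let C := centralizer ({y} : Set G)
  have := Fintype.ofFinite C
  have := Fintype.ofFinite D
  let y' : C := ⟨y, mem_centralizer_singleton_iff.2 rfl⟩
  have hy' : y' ∈ center C := mem_center_iff.2 fun c => Subtype.ext
    (mem_centralizer_singleton_iff.1 c.2)
  obtain ⟨ξ, hξ, h2⟩ := exists_constituent χ.2.isCharacter C.subtype (g := y') h1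
  have h3 : red M ((ξ : C → ℂ) (inclusion hDy 1)) ≠ 0 := fun h => h2 (by
    have h4 := Lib.Modular.irr_apply_central_mul ξ.2 hy' 1
    rw [mul_one] at h4
    rw [map_one] at h
    rw [h4, red_mul (mem_locRing_of_pow_eq_one (orderOf_pos y').ne'
      (Lib.Modular.div_pow_orderOf hy' ξ)) (irr_mem ξ 1), h, mul_zero])
  obtain ⟨θ, hθ, h4⟩ := exists_constituent ξ.2.isCharacter (inclusion hDy) h3
  have h5 : (θ : D → ℂ) 1 = 1 := by
    obtain ⟨k, hk⟩ := IsPGroup.iff_card.1 hDp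
    obtain ⟨j, -, hj⟩ := (Nat.dvd_prime_pow (Fact.out : p.Prime)).1 (hk ▸ θ.2.charDegree_dvd_card)
    rw [apply_one_eq_charDegree θ.2.isCharacter, hj] at h4 ⊢
    rcases j with _ | j
    · simp
    · exact absurd ((red_natCast_eq_zero_iff _).2 (dvd_pow_self p j.succ_ne_zero)) h4
  obtain ⟨μ, hμ⟩ := θ.2.isCharacter.exists_hom_of_apply_one h5
  refine ⟨μ, fun z => Units.ext ?_⟩
  have hz : ∀ K : Subgroup G, ∀ h : (z : G) ∈ K, (⟨z, h⟩ : K) ∈ center K := fun K h =>
    mem_center_iff.2 fun c => Subtype.ext (mem_center_iff.1 (hZc z.2) c)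
  have h6 := div_eq_of_constituent ξ.2 (inclusion hDy) hθ (hz D (hZD z.2)) (hz C (hDy (hZD z.2)))
  have h7 := div_eq_of_constituent χ.2 C.subtype hξ (hz C (hDy (hZD z.2))) (hZc z.2)
  rw [h5, div_one, hμ] at h6
  refine (h6.trans h7).trans ?_
  rw [div_eq_iff χ.2.apply_one_ne_zero, mul_comm]
  exact hover z

end Cfsg.Agent.S5001
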