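import Cfsg.Statements.S5011
import Cfsg.Agent.Lib.Char.Rep

set_option autoImplicit false
open Cfsg

namespace Cfsg.Agent.S5011

open Cfsg.Lib.Char in

/-- Let G be a finite non-abelian simple group and ρ an irreducible complex representation of G on a space of dimension greater than one (irreducible in the sense that the only subspaces invariant under every ρ(x) are 0 and the whole space). Then for every non-identity element g of G, the centralizer of g does not act irreducibly: there is a non-zero proper subspace invariant under ρ(c) for every c commuting with g. -/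
theorem result {G : Type*} [Group G] [Finite G] [IsSimpleGroup G]
    (hG : ¬ IsMulCommutative G) {V : Type*} [AddCommGroup V] [Module ℂ V] [FiniteDimensional ℂ V]
    (ρ : Representation ℂ G V)
    (hirr : ∀ W : Submodule ℂ V, (∀ x : G, ∀ v ∈ W, ρ x v ∈ W) → W = ⊥ ∨ W = ⊤)
    (hdim : 1 < Module.finrank ℂ V) (g : G) (hg : g ≠ 1) :
    ∃ W : Submodule ℂ V, W ≠ ⊥ ∧ W ≠ ⊤ ∧ ∀ c ∈ Subgroup.centralizer ({g} : Set G), ∀ v ∈ W, ρ c v ∈ W := by
  by_contra hcon
  push Not at hcon
  haveI : Nontrivial V := Module.nontrivial_of_finrank_pos (R := ℂ) (by omega)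
  set C := Subgroup.centralizer ({g} : Set G) with hC
  haveI : Representation.IsIrreducible (ρ.comp C.subtype : Representation ℂ C V) := by
    rw [isIrreducible_iff_submodule]
    refine ⟨inferInstance, fun U hU => ?_⟩
    by_contra h
    push Not at h
    obtain ⟨c, hc, v, hv, h'⟩ := hcon U h.1 h.2
    exact h' (hU ⟨c, hc⟩ v hv)
  obtain ⟨c, hc⟩ := exists_eq_smul_of_commute (ρ.comp C.subtype : Representation ℂ C V) (ρ g)
    (fun x => by
      have := Subgroup.mem_centralizer_singleton_iff.1 x.2
      change ρ g * ρ x = ρ x * ρ g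
      rw [← map_mul, ← map_mul, this])
  have h1 : ∀ h : G, ρ (g * h) = ρ (h * g) := fun h => by
    rw [map_mul, map_mul, hc]
    ext v
    simp
  rcases (MonoidHom.normal_ker ρ).eq_bot_or_eq_top with h | h
  · have hinj : Function.Injective ρ := (MonoidHom.ker_eq_bot_iff _).1 h
    have h2 : g ∈ Subgroup.center G := Subgroup.mem_center_iff.2 fun h => (hinj (h1 h)).symm
    rcases (inferInstance : (Subgroup.center G).Normal).eq_bot_or_eq_top with h3 | h3
    · exact hg (by simpa [h3] using h2)
    · exact hG ⟨⟨fun a b => Subgroup.mem_center_iff.1 (h3 ▸ Subgroup.mem_top b) a⟩⟩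
  · obtain ⟨v, hv⟩ := exists_ne (0 : V)
    rcases hirr (Submodule.span ℂ {v}) (fun x w hw => by
      have : ρ x = 1 := MonoidHom.mem_ker.1 (h ▸ Subgroup.mem_top x)
      simpa [this] using hw) with h3 | h3
    · exact hv (Submodule.span_singleton_eq_bot.1 h3)
    · have h4 := finrank_span_singleton (K := ℂ) hv
      rw [h3, finrank_top] at h4
      omega

end Cfsg.Agent.S5011
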