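import Cfsg.Statements.S5075
import Cfsg.Agent.Lib.RI.Tv2

set_option autoImplicit false
open Cfsg

namespace Cfsg.Agent.S5075

open Cfsg.Lib.TvS Module Subgroup Relation

theorem tv_of {p : ℕ} [Fact p.Prime] {V : Type*} [AddCommGroup V] [Module (ZMod p) V] [Finite V]
    {t : V ≃ₗ[ZMod p] V} (h1 : orderOf t = p)
    (h2 : finrank (ZMod p) (LinearMap.ker ((t : V →ₗ[ZMod p] V) - LinearMap.id)) + 1 = finrank (ZMod p) V) :
    ∃ (v : V) (φ : Dual (ZMod p) V), φ v = 0 ∧ ∀ x, t x = x + φ x • v := by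
  have h3 := LinearMap.finrank_range_add_finrank_ker ((t : V →ₗ[ZMod p] V) - LinearMap.id)
  obtain ⟨v, -, hv⟩ := (finrank_eq_one_iff' (K := ZMod p)).1
    (show finrank (ZMod p) (LinearMap.range ((t : V →ₗ[ZMod p] V) - LinearMap.id)) = 1 by omega)
  choose c hc using fun x => hv ⟨_, x, rfl⟩
  have h4 : ∀ x, t x = x + c x • (v : V) := fun x => by
    have := congrArg Subtype.val (hc x)
    simp only [SetLike.val_smul, LinearMap.sub_apply, LinearEquiv.coe_coe, LinearMap.id_apply] at this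
    rw [this, add_sub_cancel]
  have h0 : (v : V) ≠ 0 := fun e => by
    rw [show t = 1 from LinearEquiv.ext fun x => by simp [h4, e], orderOf_one] at h1
    exact (Fact.out : p.Prime).ne_one h1.symm
  refine ⟨v, ⟨⟨c, fun x y => smul_left_injective _ h0 ?_⟩, fun a x => smul_left_injective _ h0 ?_⟩, ?_, h4⟩
  · have := map_add t x y
    simp only [h4] at this
    linear_combination (norm := module) this
  · have := map_smul t a x
    simp only [h4, RingHom.id_apply, smul_eq_mul] at this ⊢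
    linear_combination (norm := module) this
  · have h5 : ∀ n : ℕ, (t ^ n) v = (1 + c v) ^ n • (v : V) := fun n => by
      induction n with
      | zero => simp
      | succ n ih => rw [pow_succ', LinearEquiv.mul_apply, ih, map_smul, h4]; module
    have := h5 p
    rw [ZMod.pow_card, orderOf_dvd_iff_pow_eq_one.1 h1.dvd] at this
    simpa [add_smul, h0] using this

/-- Let p be an odd prime, V a finite-dimensional vector space over the field with p elements, and H a group of linear automorphisms of V generated by transvections (elements of order p fixing a hyperplane pointwise) and having no nontrivial normal p-subgroup. Then for some n ≥ 1 there are a decomposition V = V₀ ⊕ V₁ ⊕ ⋯ ⊕ Vₙ into H-invariant subspaces and a decomposition of H as the internal direct product of normal subgroups H₁, …, Hₙ such that Hⱼ acts trivially on every Vᵢ with i ≠ j, and Hⱼ induces on Vⱼ exactly the special linear group of Vⱼ or exactly the isometry group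 of a non-degenerate alternating form on Vⱼ. -/
theorem result {p : ℕ} [Fact p.Prime] (hp : Odd p) {V : Type*} [AddCommGroup V] [Module (ZMod p) V] [Finite V]
    (H : Subgroup (V ≃ₗ[ZMod p] V)) (T : Set (V ≃ₗ[ZMod p] V)) (hHT : H = Subgroup.closure T)
    (hT : ∀ t ∈ T, orderOf t = p ∧
      Module.finrank (ZMod p) ↥(LinearMap.ker ((t : V →ₗ[ZMod p] V) - LinearMap.id)) + 1 =
        Module.finrank (ZMod p) V)
    (hOp : Cfsg.pCore p ↥H = ⊥) :
    ∃ (n : ℕ) (W : Fin (n + 1) → Submodule (ZMod p) V) (K : Fin n → Subgroup (V ≃ₗ[ZMod p] V)),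
      1 ≤ n ∧ DirectSum.IsInternal W ∧
      (∀ h ∈ H, ∀ i, (W i).map (h : V →ₗ[ZMod p] V) = W i) ∧
      (∀ j, K j ≤ H ∧ ((K j).subgroupOf H).Normal) ∧ ⨆ j, K j = H ∧
      (∀ j, K j ⊓ (⨆ j' ∈ {j' : Fin n | j' ≠ j}, K j') = ⊥) ∧
      (∀ j j', j ≠ j' → ∀ a ∈ K j, ∀ b ∈ K j', a * b = b * a) ∧
      (∀ j, ∀ h ∈ K j, ∀ i : Fin (n + 1), i ≠ j.succ → ∀ v ∈ W i, h v = v) ∧
      (∀ j, ∃ ρ : ↥(K j) →* (↥(W j.succ) ≃ₗ[ZMod p] ↥(W j.succ)),
        (∀ (h : ↥(K j)) (v : ↥(W j.succ)), ((ρ h v : ↥(W j.succ)) : V) = (h : V ≃ₗ[ZMod p] V) (v : V)) ∧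
        ((ρ.range : Set (↥(W j.succ) ≃ₗ[ZMod p] ↥(W j.succ))) =
            {f : ↥(W j.succ) ≃ₗ[ZMod p] ↥(W j.succ) | LinearMap.det (f : ↥(W j.succ) →ₗ[ZMod p] ↥(W j.succ)) = 1} ∨
          ∃ B : LinearMap.BilinForm (ZMod p) ↥(W j.succ), B.IsAlt ∧ B.Nondegenerate ∧
            (ρ.range : Set (↥(W j.succ) ≃ₗ[ZMod p] ↥(W j.succ))) = {f : ↥(W j.succ) ≃ₗ[ZMod p] ↥(W j.succ) | ∀ x y, B (f x) (f y) = B x y})) := by
  have G : Gen p H := ⟨Fact.out, by have := (Fact.out : p.Prime).two_le; obtain ⟨k, rfl⟩ := hp; omega, inferInstance,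
    fun c => ⟨c.val, (ZMod.natCast_zmod_val c).symm⟩, fun K hK => hHT ▸ (closure_le _).2 fun t ht =>
      let ⟨v, φ, h1, h2⟩ := tv_of (hT t ht).1 (hT t ht).2
      hK t v φ ⟨h1, t, hHT ▸ subset_closure ht, h2⟩ h2,
    fun N h1 h2 => eq_bot_iff.2 (hOp ▸ le_sSup (show N ∈ {N : Subgroup H | N.Normal ∧ IsPGroup p N} from ⟨h1, h2⟩))⟩
  let cmp (a : V × Dual (ZMod p) V) (v : V) (φ : Dual (ZMod p) V) :=
    TransGen (Ar LinearMap.id (TH H)) a (v, φ) ∧ TransGen (Ar LinearMap.id (TH H)) (v, φ) a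
  have : Finite (Dual (ZMod p) V) := Module.finite_of_finite (ZMod p)
  obtain ⟨n, ⟨ε⟩⟩ := Finite.exists_equiv_fin (Set.range cmp)
  let S (j : Fin n) := (ε.symm j).1
  have C : ∀ j, Cmp LinearMap.id (TH H) (S j) := fun j => by
    obtain ⟨a, e⟩ := (ε.symm j).2
    simpa only [S, ← e] using G.ts.cmp G.opp a
  have c2 : ∀ v φ, TH H v φ → v ≠ 0 → φ ≠ 0 → ∃ j, S j v φ := fun v φ t hv hφ => by
    obtain ⟨x, ξ, h1, h2, h3⟩ := G.opp t hv hφ
    have : TransGen (Ar LinearMap.id (TH H)) (v, φ) (v, φ) :=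
      .tail (b := (x, ξ)) (.single ⟨h1, fun e : x = 0 => h3 (by simp [e]), h2⟩) ⟨t, hv, h3⟩
    exact ⟨ε ⟨_, (v, φ), rfl⟩, by simp only [S, ε.symm_apply_apply]; exact ⟨this, this⟩⟩
  have c3 : ∀ i j, i ≠ j → ∀ x ∈ cen (S i), x ∈ fx (S j) := fun i j h x hx => mem_fx.2 fun w ψ b =>
    cen_ker (fun v φ a => by_contra fun n => h (ε.symm.injective (Subtype.ext (by
      have c := (C i).cl1 a ((C j).t b) ((C j).sub b).2.1 n
      obtain ⟨a₁, e₁⟩ := (ε.symm i).2
      obtain ⟨a₂, e₂⟩ := (ε.symm j).2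
      simp only [S, ← e₁, ← e₂] at b c ⊢
      exact funext₂ fun y η => propext ⟨fun r => ⟨b.1.trans (c.2.trans r.1), r.2.trans (c.1.trans b.2)⟩,
        fun r => ⟨c.1.trans (b.2.trans r.1), r.2.trans (b.1.trans c.2)⟩⟩)))) hx
  let W : Fin (n + 1) → Submodule (ZMod p) V := Fin.cons (⨅ j, fx (S j)) fun j => cen (S j)
  have c4 : ∀ j i, i ≠ j.succ → ∀ x ∈ W i, x ∈ fx (S j) := fun j i => Fin.cases
    (fun _ x hx => (Submodule.mem_iInf _).1 hx j) (fun i h => c3 i j fun e => h (congrArg _ e)) i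
  have c5 : iSup W = ⊤ := by
    by_contra h
    obtain ⟨μ, h1, h2⟩ := Submodule.exists_le_ker_of_lt_top _ (lt_top_iff_ne_top.2 h)
    have : μ ∈ ⨆ j, ax (S j) := by
      rw [← Subspace.dualCoannihilator_dualAnnihilator_eq (W := ⨆ j, ax (S j)), Submodule.dualCoannihilator_iSup_eq,
        Submodule.mem_dualAnnihilator]
      exact fun x hx => h2 (Submodule.mem_iSup_of_mem 0 hx)
    obtain ⟨f, h3, rfl⟩ := (Submodule.mem_iSup_iff_exists_finsupp _ _).1 this
    refine h1 (Finset.sum_eq_zero fun j hj => ((G.of_ax (C j) (h3 j)).resolve_right fun ⟨v, a⟩ => ?_))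
    obtain ⟨x, ξ, h4, -, h5⟩ := (C j).opp' a
    have := h2 (Submodule.mem_iSup_of_mem j.succ (mem_cen h4))
    rw [LinearMap.mem_ker, Finsupp.sum, LinearMap.sum_apply, Finset.sum_eq_single j (fun i _ n =>
      (Submodule.mem_dualCoannihilator _).1 (c3 j i n.symm x (mem_cen h4)) _ (h3 i)) fun n => absurd hj n] at this
    exact h5 this
  have c6 : ∀ i j, i ≠ j → ∀ a ∈ grp (S i), ∀ b ∈ grp (S j), a * b = b * a := fun i j h a ha b hb => by
    refine (closure_le (centralizer _)).2 ?_ hb a ha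
    rintro b ⟨w, ψ, hw, e⟩
    refine mem_centralizer_iff.2 fun a ha => ((closure_le (centralizer {b})).2 ?_ ha b rfl).symm
    rintro a ⟨v, φ, hv, e'⟩ _ rfl
    exact LinearEquiv.ext fun x => by
      simp [e, e', mem_fx.1 (c3 i j h v (mem_cen hv)) _ _ hw, mem_fx.1 (c3 j i h.symm w (mem_cen hw)) _ _ hv]; abel
  have c7 : ⨆ j, grp (S j) = H := le_antisymm (iSup_le fun j => Gen.grp_le (C j)) (G.gen _ fun g v φ t e => by
    by_cases h : v = 0 ∨ φ = 0
    · exact (LinearEquiv.ext fun x => by rcases h with h | h <;> simp [e, h] : 1 = g) ▸ one_mem _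
    · obtain ⟨j, a⟩ := c2 v φ t (not_or.1 h).1 (not_or.1 h).2
      exact mem_iSup_of_mem j (subset_closure ⟨v, φ, a, e⟩))
  refine ⟨n, W, fun j => grp (S j), (ε ⟨_, 0, rfl⟩).pos, DirectSum.isInternal_submodule_of_iSupIndep_of_iSup_eq_top
    ((iSupIndep_iff_finsetSum_eq_zero_imp_eq_zero W).2 fun s v h1 h2 => ?_) c5, fun g hg i => ?_, fun j => ⟨Gen.grp_le (C j), ?_⟩, c7, fun j => eq_bot_iff.2 fun g hg => ?_, c6,
    fun j g hg i h x hx => grp_fix hg (c4 j i h x hx), fun j => G.range_res (C j)⟩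
  · have k : ∀ j : Fin n, j.succ ∈ s → v j.succ = 0 := fun j hj => G.cen_fx (C j) (h1 _ hj) (by
      rw [← Finset.add_sum_erase _ _ hj, add_eq_zero_iff_eq_neg] at h2
      exact h2 ▸ neg_mem (Submodule.sum_mem _ fun i hi =>
        c4 j i (Finset.ne_of_mem_erase hi) _ (h1 i (Finset.mem_of_mem_erase hi))))
    refine Fin.cases (fun h0 => ?_) k
    rwa [Finset.sum_eq_single_of_mem 0 h0 (Fin.cases (fun _ n => absurd rfl n) fun j hj _ => k j hj)] at h2
  · refine Fin.cases (G.inv (fun v φ t hv y hy n => absurd ?_ n) hg) (fun j => G.cen_inv (C j) hg) i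
    obtain ⟨j, a⟩ := c2 v φ t hv fun e => n (by simp [e])
    exact mem_fx.1 ((Submodule.mem_iInf _).1 hy j) v φ a
  · rw [normal_subgroupOf_iff_le_normalizer (Gen.grp_le (C j)), ← c7]
    refine iSup_le fun i => ?_
    by_cases h : i = j
    · exact h ▸ le_normalizer
    · exact fun a ha => centralizer_le_normalizer _ fun b hb => c6 j i (Ne.symm h) b hb a ha
  · refine LinearEquiv.ext fun x => ?_
    induction (c5.ge Submodule.mem_top : x ∈ iSup W) using Submodule.iSup_induction' with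
    | mem i x hx =>
      by_cases h : i = j.succ
      · subst h
        exact (iSup₂_le (a := MulAction.stabilizer _ x) fun i n g hg => grp_fix hg (c3 j i (Ne.symm n) x hx)) hg.2
      · exact grp_fix hg.1 (c4 j i h x hx)
    | zero => simp
    | add x y _ _ h1 h2 => rw [map_add, map_add, h1, h2]

end Cfsg.Agent.S5075
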