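import Cfsg.Statements.S5138
import Cfsg.Agent.Lib.Fusion.CProd
-- import your own Cfsg.Agent.* helpers here

set_option autoImplicit false
open Cfsg

namespace Cfsg.Agent.S5138

/-- Let F be a saturated fusion system over a finite p-group S and E₁, E₂ normal subsystems over T₁, T₂ with [T₁, T₂] = 1. Then there is a normal subsystem of F over T₁T₂ which, if moreover T₁ ∩ T₂ lies in the centre of E₁ and in the centre of E₂, is a central product of E₁ and E₂ (the factor system of a direct product of E₁ and E₂ modulo a subgroup of its centre meeting both factors trivially). -/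
theorem result {Ω : Type*} [Group Ω] {S : Subgroup Ω} [Finite S] (p : ℕ) [Fact p.Prime] (hS : IsPGroup p S) (F : Cfsg.FusionSystem S) (hF : F.IsSaturated p) {T₁ T₂ : Subgroup Ω} (E₁ : Cfsg.FusionSystem T₁) (E₂ : Cfsg.FusionSystem T₂) (hE₁ : E₁.IsNormalIn F p) (hE₂ : E₂.IsNormalIn F p) (hc : ⁅T₁, T₂⁆ = ⊥) : ∃ D : Cfsg.FusionSystem (T₁ ⊔ T₂), D.IsNormalIn F p ∧ (T₁ ⊓ T₂ ≤ E₁.center → T₁ ⊓ T₂ ≤ E₂.center → Cfsg.FusionSystem.IsCentralProductOf E₁ E₂ D) := by
  open Subgroup Cfsg.Lib.Transfer Cfsg.Lib.Fusion in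
  open Cfsg.FusionSystem hiding inv_mem in
  · have h₁ := (isNormalIn_iff hS).1 hE₁
    have h₂ := (isNormalIn_iff hS).1 hE₂
    have := finite_of_le h₁.le
    have := finite_of_le h₂.le
    have hc' := commutator_eq_bot_iff_le_centralizer.1 hc
    by_cases h : T₁ ⊓ T₂ ≤ E₁.center ∧ T₁ ⊓ T₂ ≤ E₂.center
    · obtain ⟨D, hD⟩ := exists_cPr hc' (central_iff_le_center.2 h.1) (central_iff_le_center.2 h.2) rfl
      exact ⟨D, (h₁.nrm_cPr h₂ hD).isNormalIn, fun _ _ => isCentralProductOf_iff.2 hD⟩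
    · obtain ⟨D, hD⟩ := h₁.exists_nrm_sup h₂ hc' rfl
      exact ⟨D, hD.isNormalIn, fun a b => (h ⟨a, b⟩).elim⟩

end Cfsg.Agent.S5138
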