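import Cfsg.Statements.S5148
import Cfsg.Agent.Lib.Fusion.Solv
-- import your own Cfsg.Agent.* helpers here

set_option autoImplicit false
open Cfsg

namespace Cfsg.Agent.S5148

/-- A quasisimple fusion system over a finite p-group S (saturated, equal to its p-residual subsystem, with simple — in particular nontrivial — factor system modulo its centre) has S nonabelian. -/
theorem result {Ω : Type*} [Group Ω] {S : Subgroup Ω} [Finite S] (p : ℕ) [Fact p.Prime] (hS : IsPGroup p S) (F : Cfsg.FusionSystem S) (hq : F.Quasisimple p) : ¬ IsMulCommutative S := by
  open Subgroup Cfsg.Lib.Transfer Cfsg.Lib.Fusion in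
  open Cfsg.FusionSystem hiding inv_mem in
  exact fun h => not_le_center_of_quasisimple hS hq (normal_le_center_of_quasisimple hS hq
    ((Sat.mk hS hq.1).normal_of_commutative (stronglyClosed_top F) fun x hx y hy =>
      setLike_mul_comm hx hy))

end Cfsg.Agent.S5148
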