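import Cfsg.Statements.S5152
import Cfsg.Agent.Lib.Fusion.CPre
-- import your own Cfsg.Agent.* helpers here

set_option autoImplicit false
open Cfsg

namespace Cfsg.Agent.S5152

/-- Dichotomy for saturated fusion systems: a saturated fusion system over a finite p-group is of characteristic p-type (the normalizer system of every nontrivial fully normalized subgroup is constrained) or of component type (the centralizer system of some fully normalized subgroup of order p has a component). -/
theorem result {Ω : Type*} [Group Ω] {S : Subgroup Ω} [Finite S] (p : ℕ) [Fact p.Prime] (hS : IsPGroup p S) (F : Cfsg.FusionSystem S) (hF : F.IsSaturated p) : F.IsOfCharacteristicPType p ∨ F.IsOfComponentType p := by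
  open Subgroup Cfsg.Lib.Transfer Cfsg.Lib.Fusion in
  open Cfsg.FusionSystem hiding inv_mem in
  · refine or_iff_not_imp_right.2 fun h U h0 hU E hE => Sat.constrained_nz ⟨hS, hF⟩
      (fun X h1 h2 C hC => ?_) h0 hU (nz_of hE)
    exact (hC.sat ⟨hS, hF⟩ (Sat.fc ⟨hS, hF⟩ h2)).constrained_iff_no_comp.2 fun k =>
      h ⟨X, h1, h2, C, (isCentralizerSystem_iff h2.1).2 hC, k⟩

end Cfsg.Agent.S5152
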