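import Cfsg.Statements.S5153
import Cfsg.Agent.Lib.Fusion.Invariant
-- import your own Cfsg.Agent.* helpers here

set_option autoImplicit false
open Cfsg

namespace Cfsg.Agent.S5153

section
open Subgroup Cfsg.Lib.Transfer Cfsg.Lib.Fusion
open Cfsg.FusionSystem hiding inv_mem
open scoped commutatorElement

theorem aux {Ω : Type*} [Group Ω] {p : ℕ} {S T : Subgroup Ω} {F : FusionSystem S}
    {E : FusionSystem T} (hE : E.IsSubnormalIn F p) (hp : p.Prime) (hfin : Finite S)
    (hS : IsPGroup p S) : T ≤ S ∧ ∀ P ≤ T, F.IsFullyNormalized P → E.IsFullyNormalized P := by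
  induction hE with
  | refl => exact ⟨le_rfl, fun _ _ h => h⟩
  | step _ h ih =>
    have := Fact.mk hp
    have h' := (isNormalIn_iff hS).1 h
    obtain ⟨h1, h2⟩ := ih hp (finite_of_le h'.le) h'.satE.pg
    exact ⟨h1.trans h'.le, fun P hP H =>
      h2 P hP (h'.satF.fn_of_sub h'.sub h'.sc (hP.trans h1) H)⟩

end

/-- Let F be a saturated fusion system over a finite p-group S and E a subnormal subsystem of F over T. Then every subgroup of T that is fully normalized in F is fully normalized in E. -/
theorem result {Ω : Type*} [Group Ω] {S : Subgroup Ω} [Finite S] (p : ℕ) [Fact p.Prime] (hS : IsPGroup p S) (F : Cfsg.FusionSystem S) (hF : F.IsSaturated p) {T : Subgroup Ω} (E : Cfsg.FusionSystem T) (hE : E.IsSubnormalIn F p) (P : Subgroup Ω) (hPT : P ≤ T) (hP : F.IsFullyNormalized P) : E.IsFullyNormalized P := by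
  open Subgroup Cfsg.Lib.Transfer Cfsg.Lib.Fusion in
  open Cfsg.FusionSystem hiding inv_mem in
  exact (aux hE Fact.out inferInstance hS).2 P hPT hP

end Cfsg.Agent.S5153
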