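import Cfsg.Statements.S5162
import Cfsg.Agent.Lib.Fusion.Comp
-- import your own Cfsg.Agent.* helpers here

set_option autoImplicit false
open Cfsg

namespace Cfsg.Agent.S5162

/-- Let F be a saturated fusion system over a finite p-group S that is a central product of two saturated subsystems F₁ (over S₁) and F₂ (over S₂) inside S. Then every component of F is a component of F₁ or a component of F₂. -/
theorem result {Ω : Type*} [Group Ω] {S : Subgroup Ω} [Finite S] (p : ℕ) [Fact p.Prime] (hS : IsPGroup p S) (F : Cfsg.FusionSystem S) (hF : F.IsSaturated p) {S₁ S₂ : Subgroup Ω} (F₁ : Cfsg.FusionSystem S₁) (F₂ : Cfsg.FusionSystem S₂) (h₁ : F₁.IsSaturated p) (h₂ : F₂.IsSaturated p) (h₁F : F₁.IsSubsystemOf F) (h₂F : F₂.IsSubsystemOf F) (hc : Cfsg.FusionSystem.IsCentralProductOf F₁ F₂ F) {T : Subgroup Ω} (C : Cfsg.FusionSystem T) (hC : C.IsComponentIn F p) : C.IsComponentIn F₁ p ∨ C.IsComponentIn F₂ p := by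
  open Subgroup Cfsg.Lib.Transfer Cfsg.Lib.Fusion in
  open Cfsg.FusionSystem hiding inv_mem in
  · have a₁ := le_of_isSubsystemOf h₁F
    have a₂ := le_of_isSubsystemOf h₂F
    have := finite_of_le a₁
    have := finite_of_le a₂
    have h := isCentralProductOf_iff.1 hc
    have n₁ := h.nrm_of_nrm ⟨hS, hF⟩ (Sat.nrm_refl ⟨hS.to_le a₁, h₁⟩)
    have n₂ := h.symm.nrm_of_nrm ⟨hS, hF⟩ (Sat.nrm_refl ⟨hS.to_le a₂, h₂⟩)
    refine (n₁.comp_or_cen hC).elim Or.inl fun c₁ => (n₂.comp_or_cen hC).elim Or.inr fun c₂ => ?_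
    have k := comp_sat hC ⟨hS, hF⟩
    have hT := le_of_isSubsystemOf k.1
    have := finite_of_le hT
    exact (not_le_centralizer_of_quasisimple k.2.pg hC.2 (hT.trans (h.eq.le.trans (sup_le
      (c₁.le.trans (centralizerIn_le_centralizer _ _))
      (c₂.le.trans (centralizerIn_le_centralizer _ _)))))).elim

end Cfsg.Agent.S5162
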