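import Cfsg.Statements.S5163
import Cfsg.Agent.Lib.Fusion.LieClass
import Cfsg.Agent.Lib.Linear.AutLift
-- import your own Cfsg.Agent.* helpers here

set_option autoImplicit false
open Cfsg

namespace Cfsg.Agent.S5163

/-- For a finite field K of characteristic p and n ≥ 3, the p-fusion system of the projective special linear group PSL_n(K) on a Sylow p-subgroup is simple. -/
theorem result {K : Type*} [Field K] [Fintype K] (p : ℕ) [Fact p.Prime] [CharP K p] (n : ℕ) (hn : 3 ≤ n) (S : Sylow p (Matrix.ProjectiveSpecialLinearGroup (Fin n) K)) : (Cfsg.groupFusionSystem (S : Subgroup (Matrix.ProjectiveSpecialLinearGroup (Fin n) K))).IsSimple p := by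
  open Subgroup Cfsg.Lib.Transfer Cfsg.Lib.Fusion in
  open Cfsg.FusionSystem hiding inv_mem in
  obtain ⟨K', _, _, _, -, ⟨f⟩⟩ := Lib.St.exists_small' K p
  obtain ⟨n, rfl⟩ := Nat.exists_eq_add_of_le' hn
  have key : ∀ {i j : Fin (n + 3)} (h : i ≠ j) (b : K) (x : Fin (n + 3) → K),
      Matrix.SpecialLinearGroup.toLin' (Matrix.SpecialLinearGroup.transvection h b) x =
        x + (b • LinearMap.proj j : _ →ₗ[K] K) x • Pi.single i 1 := fun h b x => by
    simp [Matrix.SpecialLinearGroup.toLin'_apply, Matrix.SpecialLinearGroup.transvection_coe,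
      Matrix.single_mulVec, ← Pi.single_smul]
    rfl
  have h01 : (0 : Fin (n + 3)) ≠ 1 := by simp
  have h02 : (0 : Fin (n + 3)) ≠ 2 := by simp [Fin.ext_iff, Nat.mod_eq_of_lt]
  have h12 : (1 : Fin (n + 3)) ≠ 2 := by simp [Fin.ext_iff, Nat.mod_eq_of_lt]
  exact Lib.St.fusion_simple_of_transv (y := Pi.single 2 1) (y' := Pi.single 2 1)
    (.inl ⟨K', _, ‹_›, ‹_›, n + 3, by omega, by omega, ⟨Lib.Linear.congrPSL (.refl _) f⟩⟩)
    (.refl _) Lib.Linear.centerPFree_SL _ Matrix.SpecialLinearGroup.toLin'_injective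
    (key h01 1) (key h02 1) (key h12 1) (key h01.symm (-1)) (by simp) (by simp [h02.symm])
    (by simp [h12.symm]) (by simp) (by simp) (by simp [h02.symm]) (by simp [h12.symm])
    (by simp [h02.symm]) (by simp [h12.symm]) (by simp) (by simp) (by simp) (by simp) S

end Cfsg.Agent.S5163
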