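import Cfsg.Statements.S5165
import Cfsg.Agent.Lib.Fusion.AltB
-- import your own Cfsg.Agent.* helpers here

set_option autoImplicit false
open Cfsg

namespace Cfsg.Agent.S5165

/-- For n ≥ 6, a prime p with p² ≤ n, and n congruent to 0 or 1 modulo p, the p-fusion system of the alternating group of degree n on a Sylow p-subgroup is simple. -/
theorem result (n p : ℕ) (hn : 6 ≤ n) [Fact p.Prime] (hnp : p ^ 2 ≤ n) (hb : n % p ≤ 1) (S : Sylow p (alternatingGroup (Fin n))) : (Cfsg.groupFusionSystem (S : Subgroup (alternatingGroup (Fin n)))).IsSimple p := by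
  open Subgroup Cfsg.Lib.Transfer Cfsg.Lib.Fusion in
  open Cfsg.FusionSystem hiding inv_mem in
  have hp := (Fact.out : p.Prime)
  have h1 : p ≤ n / p := (Nat.le_div_iff_mul_le hp.pos).2 (sq p ▸ hnp)
  have : Subsingleton (Fin (n % p)) := Fin.subsingleton_iff_le_one.2 hb
  have h2 : Fintype.card (ZMod p ⊕ Fin (n / p - p)) = n / p := by simp [h1]
  refine Alt.alt_simple (B := Fin (n % p)) (κ := Fin (n / p - p)) (Fintype.equivOfCardEq (by
    rw [Fintype.card_sum, Fintype.card_prod, h2]; simp [Nat.div_add_mod'])).altCongrHom ?_ S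
  rcases hp.eq_two_or_odd' with rfl | h
  · omega
  · exact ((hp.odd_iff.1 h).trans h1).trans h2.ge

end Cfsg.Agent.S5165
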