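import Cfsg.Statements.S5171
import Cfsg.Agent.Lib.Fusion.LieClass
import Cfsg.Agent.Lib.Symp.Siegel
import Cfsg.Agent.Lib.Symp.Group
-- import your own Cfsg.Agent.* helpers here

set_option autoImplicit false
open Cfsg

namespace Cfsg.Agent.S5171

/-- For a finite field K of characteristic p and m ≥ 2, excluding the case m = 2 with K of two elements, the p-fusion system of the projective symplectic group PSp_{2m}(K) on a Sylow p-subgroup is simple. -/
theorem result {K : Type*} [Field K] [Fintype K] (p : ℕ) [Fact p.Prime] [CharP K p] (m : ℕ) (hm : 2 ≤ m) (hex : m = 2 → 3 ≤ Fintype.card K) (S : Sylow p (Cfsg.PSp m K)) : (Cfsg.groupFusionSystem (S : Subgroup (Cfsg.PSp m K))).IsSimple p := by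
  open Subgroup Cfsg.Lib.Transfer Cfsg.Lib.Fusion in
  open Cfsg.FusionSystem hiding inv_mem in
  obtain ⟨K', _, _, _, hc, ⟨f⟩⟩ := Lib.St.exists_small' K p
  obtain ⟨n, rfl⟩ := Nat.exists_eq_add_of_le' hm
  have hA := Lib.Symp.bil_isAlt (Fin (n + 2)) K
  have key : ∀ v (x : Fin (n + 2) ⊕ Fin (n + 2) → K), (Subgroup.subtype _ (Lib.Symp.tv hA v 1)) x =
      x + (Lib.Symp.bil (Fin (n + 2)) K).flip v x • v := fun v x => by
    simp [Lib.Symp.tv_apply]
  exact Lib.St.fusion_simple_of_transv (y := Pi.single (.inr 1) 1) (y' := Pi.single (.inr 1) 1)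
    (.inr (.inl ⟨K', _, _, ‹_›, n + 2, hm, hc ▸ hex, ⟨Lib.Mult.pspCongr f _⟩⟩))
    (Lib.Linear.centerQuotCongr (Lib.Symp.spEquiv _ K))
    (Lib.Symp.centerPFree_isom hA (Lib.Symp.bil_nondegenerate _ K)) _ Subtype.val_injective
    (key (Pi.single (.inl 0) 1)) (key (Pi.single (.inl 1) 1)) (key (Pi.single (.inl 1) 1))
    (key (Pi.single (.inr 0) 1)) (hA _) (hA _) (hA _) (hA _)
    (by simp [Lib.Symp.bil_single_inl_left]) (by simp [Lib.Symp.bil_single_inl_left]) (hA _) (hA _)
    (by simp [Lib.Symp.bil_single_inr_left]) (by simp [Lib.Symp.bil_single_inl_left])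
    (by simp [Lib.Symp.bil_single_inl_left, Lib.Symp.bil_single_inr_left])
    (by simp [Lib.Symp.bil_single_inr_left]) (by simp [Lib.Symp.bil_single_inr_left]) S

end Cfsg.Agent.S5171
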