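import Cfsg.Statements.S5172
import Cfsg.Agent.Lib.Fusion.LieClass
import Cfsg.Agent.Lib.Unitary.AutA
-- import your own Cfsg.Agent.* helpers here

set_option autoImplicit false
open Cfsg

namespace Cfsg.Agent.S5172

/-- For a finite field K with q² elements of characteristic p and n ≥ 4, the p-fusion system of the projective special unitary group PSU_n(q) (realised over K) on a Sylow p-subgroup is simple. -/
theorem result {K : Type*} [Field K] [Fintype K] (p q : ℕ) [Fact p.Prime] [CharP K p] (hK : Fintype.card K = q ^ 2) (n : ℕ) (hn : 4 ≤ n) (S : Sylow p (Cfsg.PSU n K q)) : (Cfsg.groupFusionSystem (S : Subgroup (Cfsg.PSU n K q))).IsSimple p := by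
  open Subgroup Cfsg.Lib.Transfer Cfsg.Lib.Fusion in
  open Cfsg.FusionSystem hiding inv_mem in
  obtain ⟨K', _, _, _, hc, ⟨f⟩⟩ := Lib.St.exists_small' K p
  obtain ⟨n, rfl⟩ := Nat.exists_eq_add_of_le' hn
  obtain ⟨σ, hσ⟩ := Lib.Unitary.exists_isBar hK
  have h := hσ.isHerm (ι := Fin (n + 4))
  obtain ⟨l, hl⟩ := hσ.exists_norm_eq (μ := -1) (by simp)
  obtain ⟨s, s0, hs⟩ := hσ.exists_skew
  set B := Lib.Unitary.stdForm σ (Fin (n + 4))
  have key : ∀ v c hv hc x, (Subgroup.subtype _ (⟨_, h.transv_mem_SUG v c hv hc⟩ :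
      Lib.Unitary.SUG B)) x = x + (c • B v) x • v := fun _ _ _ _ _ => rfl
  have h01 : (0 : Fin (n + 4)) ≠ 1 := by simp
  have h02 : (0 : Fin (n + 4)) ≠ 2 := by simp [Fin.ext_iff, Nat.mod_eq_of_lt]
  have h12 : (1 : Fin (n + 4)) ≠ 2 := by simp [Fin.ext_iff, Nat.mod_eq_of_lt]
  have h03 : (0 : Fin (n + 4)) ≠ 3 := by simp [Fin.ext_iff, Nat.mod_eq_of_lt]
  have h13 : (1 : Fin (n + 4)) ≠ 3 := by simp [Fin.ext_iff, Nat.mod_eq_of_lt]
  have h23 : (2 : Fin (n + 4)) ≠ 3 := by simp [Fin.ext_iff, Nat.mod_eq_of_lt]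
  have hB : ∀ i c x, B (Pi.single i c) x = σ c * x i := Lib.Unitary.stdForm_single_left
  obtain ⟨u, v, e, y, h1, h2, h3, h4, h5, h6⟩ : ∃ u v e y, B u u = 0 ∧ B v v = 0 ∧ B u v = 0 ∧
      B u e = 1 ∧ B v e = 0 ∧ B v y = 1 :=
    ⟨Pi.single 0 1 + Pi.single 1 l, Pi.single 2 1 + Pi.single 3 l, Pi.single 0 1, Pi.single 2 1,
      by simp [hB, mul_comm _ l, hl], by simp [hB, mul_comm _ l, hl, h23, h23.symm],
      by simp [hB, h02, h12, h03, h13], by simp [hB], by simp [hB, h02.symm, h03.symm],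
      by simp [hB, h23.symm]⟩
  obtain ⟨c, h7⟩ := h.exists_add_smul_isotropic h1 (h4.trans_ne one_ne_zero)
  have h3' := h.eq_zero_comm.1 h3
  have h8 : B u (e + c • u) = 1 := by simp [h1, h4]
  have h9 : B v (e + c • u) = 0 := by simp [h3', h5]
  generalize e + c • u = w at h7 h8 h9
  have h10 : s • v ≠ 0 := smul_ne_zero s0 fun e => by simp [e] at h6
  exact Lib.St.fusion_simple_of_transv (y := y) (y' := y)
    (.inr (.inr (.inl ⟨K', _, _, ‹_›, n + 4, q, hc ▸ hK, by omega, by omega,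
      ⟨Lib.Mult.psuCongr f _ _⟩⟩))) (Lib.Unitary.quotCenterCongr (hσ.suEquiv _))
    (h.centerPFree (by simp) p) _ Subtype.val_injective
    (key u s h1 (by simp [hs])) (key v s h2 (by simp [hs])) (key v s h2 (by simp [hs]))
    (key _ (-s⁻¹) h7 (by simp [hs])) (by simp [h1]) (by simp [h2]) (by simp [h2]) (by simp [h7])
    (by simp [h3]) (by simp [h3']) (by simp [h2]) (by simp [h2]) (by simp [h9])
    (by simp [h.eq_zero_comm.1 h9]) (by simp [h8, ← h.symm u w, s0]) (by simpa [h6] using h10)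
    (by simpa [h6] using h10) S

end Cfsg.Agent.S5172
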