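import Cfsg.Statements.S5196
import Cfsg.Agent.Lib.Fusion.Bridge
-- import your own Cfsg.Agent.* helpers here

set_option autoImplicit false
universe u
open Cfsg

namespace Cfsg.Agent.S5196

/-- Let p be an odd prime and W a positive characteristic p-functor: W assigns to every finite p-group Q (in a fixed universe) a subgroup W(Q), nontrivial when Q is, carried to W(R) by every isomorphism Q ≅ R; assume also Z(Q) ≤ W(Q) for every finite p-group Q. Suppose W satisfies the local condition: for every finite group G with Sylow p-subgroup P, O_p(G) ∩ Z(G) = O_p(G) ∩ Z(N_G(W(P))). Then W controls weak closure of elements in every saturated fusion system F over a finite p-group S: the centre of the normalizer fusion system of W(S) in F equals the centre of F. (For p = 2 no functor satisfies the local condition, so p is taken odd.) -/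
theorem result {p : ℕ} [Fact p.Prime] (hp : p ≠ 2) (W : ∀ (Q : Type u) [Group Q], Subgroup Q) (hW1 : ∀ (Q : Type u) [Group Q] [Finite Q], IsPGroup p Q → Nontrivial Q → W Q ≠ ⊥) (hW2 : ∀ (Q R : Type u) [Group Q] [Group R] [Finite Q], IsPGroup p Q → ∀ φ : Q ≃* R, (W Q).map φ.toMonoidHom = W R) (hWZ : ∀ (Q : Type u) [Group Q] [Finite Q], IsPGroup p Q → Subgroup.center Q ≤ W Q) (hC : ∀ (G : Type u) [Group G] [Finite G] (P : Sylow p G), Cfsg.pCore p G ⊓ Subgroup.center G = Cfsg.pCore p G ⊓ (Subgroup.center ↥(Subgroup.normalizer (((W ↥(P : Subgroup G)).map (P : Subgroup G).subtype : Subgroup G) : Set G))).map (Subgroup.normalizer (((W ↥(P : Subgroup G)).map (P : Subgroup G).subtype : Subgroup G) : Set G)).subtype) {Ω : Type u} [Group Ω] {S : Subgroup Ω} [Finite S] (hS : IsPGroup p S) (F : Cfsg.FusionSystem S) (hF : F.IsSaturated p) (N : Cfsg.FusionSystem (Cfsg.FusionSystem.normalizerIn S ((W ↥S).map S.subtype))) (hN : F.IsNormalizerSystem ((W ↥S).map S.subtype) N) : N.center = F.center := by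
  open Subgroup Cfsg.Lib.Transfer Cfsg.Lib.Fusion in
  open Cfsg.FusionSystem hiding inv_mem in
  have hW : PFun p (inducedFunctor W) := pFun_induced ⟨hW1, hW2⟩
  have hF : Sat F p := ⟨hS, hF⟩
  have hN := nz_of hN
  have hn := hW.normalizerIn_eq hS le_rfl le_normalizer
  have hN' := hN.sat hF (hW.fn hS le_rfl le_normalizer)
  refine le_antisymm (fun z hz => ?_) fun z hz => (hN.mem_center_iff hN').2
    ⟨hn.ge (center_le F hz), nFix_of_mem_center hz _⟩
  have h1 := mem_centralizerIn_of_mem_center hz
  refine center_reduction (C := fun _ _ => True) hW (fun {G _ P _} hP => ?_)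
    (fun _ _ _ _ _ => trivial) (fun _ _ _ _ => trivial) (fun {Ω _ S _ F z} hF hc _ hz h => ?_) hF
    trivial (mkC (hn.le h1.1) (centralizer_le hn.ge h1.2)) ((hN.mem_center_iff hN').1 hz).2
  · exact (Cfsg.Lib.Core.map_subtype_center P).ge.trans (map_mono (hWZ P hP))
  · obtain ⟨G, _, _, T, j, hM⟩ := exists_mdl_sylow hF.pg hc
    have h2 := hM.mem_centralizer_of_nFix (hW.le hF.pg) hz h
    rw [hW.iso_im hF.pg hM.iso le_rfl, hM.iso.im_eq] at h2
    have h3 := hM.mem_pCore hz
    refine hM.mem_center_of hz.1 ((hC G T).ge (mem_inf.2 ⟨h3, ?_⟩)).2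
    rw [Cfsg.Lib.Core.map_subtype_center]
    exact mem_inf.2 ⟨hW.normalizer_le T.2 le_rfl (le_normalizer (hM.pCore_le h3)), h2⟩

end Cfsg.Agent.S5196
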