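import Cfsg.Statements.S5222
import Cfsg.Agent.Lib.Fusion.Tate
import Cfsg.Agent.Lib.Fusion.Bridge

set_option autoImplicit false
open Cfsg

namespace Cfsg.Agent.S5222

open Cfsg.Lib.Fusion

/-- Let F be a saturated fusion system over a finite p-group S whose normalizer fusion system of S is the inner fusion system of S (Aut_F(S) is a p-group). Then for every subgroup Q of S with [S, S] ≤ Q ≤ Φ(S), the normalizer fusion system of Q in F is the inner fusion system of N_S(Q) = S. -/
theorem result {Ω : Type*} [Group Ω] {S : Subgroup Ω} [Finite S] (p : ℕ) [Fact p.Prime] (hS : IsPGroup p S) (F : Cfsg.FusionSystem S) (hF : F.IsSaturated p) (hN : ∀ N : Cfsg.FusionSystem (Cfsg.FusionSystem.normalizerIn S S), F.IsNormalizerSystem S N → ∀ P : Subgroup Ω, N.Hom P = (Cfsg.innerFusionSystem (Cfsg.FusionSystem.normalizerIn S S)).Hom P) (Q : Subgroup Ω) (h1 : (commutator ↥S).map S.subtype ≤ Q) (h2 : Q ≤ (frattini ↥S).map S.subtype) : ∀ N : Cfsg.FusionSystem (Cfsg.FusionSystem.normalizerIn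 S Q), F.IsNormalizerSystem Q N → ∀ P : Subgroup Ω, N.Hom P = (Cfsg.innerFusionSystem (Cfsg.FusionSystem.normalizerIn S Q)).Hom P := by
  have hF' : Sat F p := ⟨hS, hF⟩
  rw [Subgroup.map_subtype_commutator] at h1
  have hQ : Q ≤ S := h2.trans (Subgroup.map_subtype_le _)
  have hn : S ≤ Subgroup.normalizer (Q : Set Ω) :=
    Subgroup.le_normalizer_iff_commutator_le_right.2
      ((Subgroup.commutator_mono le_rfl hQ).trans h1)
  obtain ⟨M, hM, hM'⟩ := hF'.exists_nz_normal hQ hn
  have h3 := hM'.hyp_eq_bot_of_nInn_top ((nInn_of_forall hS le_rfl hN).of_sub hM.sub)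
    (stronglyClosed_of_normal hM.normal) h1 h2
  intro N hN'
  have hN'' := nz_of hN'
  rw [(hN''.sat hF' (fullyNormalized_of_normal hQ hn)).hom_eq_inner_iff, ← hN''.nInn_iff]
  exact hM.nInn_iff.2 h3

end Cfsg.Agent.S5222
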