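import Cfsg.Statements.S5223
import Cfsg.Agent.Lib.Fusion.Focal
-- import your own Cfsg.Agent.* helpers here

set_option autoImplicit false
open Cfsg

namespace Cfsg.Agent.S5223

/-- Let F be a saturated fusion system over a finite p-group S. Suppose there are subgroups Q₀ = S, Q₁, …, Qₙ = 1 (not required to be nested) such that for each i < n the focal subgroup of Qᵢ (generated by the elements x⁻¹φ(x), x ∈ Qᵢ, φ a map of F defined on the cyclic group generated by x) lies in Qᵢ₊₁. Then F is the inner fusion system of S. -/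
theorem result {Ω : Type*} [Group Ω] {S : Subgroup Ω} [Finite S] (p : ℕ) [Fact p.Prime] (hS : IsPGroup p S) (F : Cfsg.FusionSystem S) (hF : F.IsSaturated p) (n : ℕ) (Q : Fin (n + 1) → Subgroup Ω) (hQ0 : Q 0 = S) (hQn : Q (Fin.last n) = ⊥) (hstep : ∀ i : Fin n, Subgroup.closure {y : Ω | ∃ x ∈ Q i.castSucc, ∃ φ ∈ F.Hom (Subgroup.zpowers x), y = x⁻¹ * φ ⟨x, Subgroup.mem_zpowers x⟩} ≤ Q i.succ) : ∀ P : Subgroup Ω, F.Hom P = (Cfsg.innerFusionSystem S).Hom P := by
  open Subgroup Cfsg.Lib.Transfer Cfsg.Lib.Fusion in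
  open Cfsg.FusionSystem hiding inv_mem in
  intro P
  rw [← (Sat.mk hS hF).eq_inner_iff_hyp.2 (le_bot_iff.1 (hyp_le_iff.2 fun P hP α hα hc x hx => ?_))]
  rw [fix_of_chain (hS.to_le hP) hc (fun i => Q ⟨n - i, by omega⟩) hQn n (fun i hi y hy h => ?_) x hx
    (by simp only [Nat.sub_self]; exact hQ0.ge (hP hx))]
  · simp
  have := hstep ⟨n - (i + 1), by omega⟩ (subset_closure ⟨y, h, _,
    ((mor_ext hP hα).mono (zpowers_le.2 hy)).toHom_mem, rfl⟩)
  rwa [show (⟨n - (i + 1), by omega⟩ : Fin n).succ = ⟨n - i, by omega⟩ from Fin.ext (by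
    simp only [Fin.succ_mk]; omega)] at this

end Cfsg.Agent.S5223
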