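import Cfsg.Statements.S5225
import Cfsg.Agent.Lib.Fusion.Transfer

set_option autoImplicit false
open Cfsg

namespace Cfsg.Agent.S5225

open Cfsg.Lib.Fusion

/-- Yoshida's Theorem for fusion systems. Let F be a saturated fusion system over a finite p-group S and N the normalizer fusion system of S in F. If the focal subgroups of F and N differ (N does not control transfer in F), then S has a quotient isomorphic to the wreath product C_p ≀ C_p (realised as a Sylow p-subgroup of the symmetric group of degree p²). -/
theorem result {Ω : Type*} [Group Ω] {S : Subgroup Ω} [Finite S] (p : ℕ) [Fact p.Prime] (hS : IsPGroup p S) (F : Cfsg.FusionSystem S) (hF : F.IsSaturated p) (N : Cfsg.FusionSystem (Cfsg.FusionSystem.normalizerIn S S)) (hN : F.IsNormalizerSystem S N) (hne : N.focalSubgroup ≠ F.focalSubgroup) : ∃ (W : Sylow p (Equiv.Perm (Fin (p ^ 2)))) (f : ↥S →* ↥(W : Subgroup (Equiv.Perm (Fin (p ^ 2))))), Function.Surjective f := by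
  by_contra hw
  have hN' := nz_of hN
  refine hne (le_antisymm (focal_mono hN'.sub) (Sat.focal_le_of_not_wreath ⟨hS, hF⟩ hw
    fun f hf x hx => Mor.mem_focal (P := S) ((hN'.mor S f).2 ⟨le_normalizerIn le_rfl, f,
      by rwa [sup_idem], fun _ _ => rfl, hf.im_eq_of_mem fun y hy => hf.mem hy⟩) hx))

end Cfsg.Agent.S5225
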