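import Cfsg.Statements.S5226
import Cfsg.Agent.Lib.Fusion.Normal
-- import your own Cfsg.Agent.* helpers here

set_option autoImplicit false
open Cfsg

namespace Cfsg.Agent.S5226

/-- Let F be a saturated fusion system over a finite p-group S and Q a subgroup of S. Then Q is normal in F (F equals the normalizer system of Q) if and only if Q is strongly closed in F and admits a central series 1 = Q₀ ≤ Q₁ ≤ ⋯ ≤ Qₙ = Q ([Qᵢ₊₁, Q] ≤ Qᵢ) all of whose proper terms are weakly closed in F. -/
theorem result {Ω : Type*} [Group Ω] {S : Subgroup Ω} [Finite S] (p : ℕ) [Fact p.Prime] (hS : IsPGroup p S) (F : Cfsg.FusionSystem S) (hF : F.IsSaturated p) (Q : Subgroup Ω) : F.IsNormal Q ↔ F.StronglyClosed Q ∧ ∃ (n : ℕ) (C : Fin (n + 1) → Subgroup Ω), C 0 = ⊥ ∧ C (Fin.last n) = Q ∧ Monotone C ∧ (∀ i : Fin n, ⁅C i.succ, Q⁆ ≤ C i.castSucc) ∧ ∀ i : Fin n, F.WeaklyClosed (C i.castSucc) := by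
  open Subgroup Cfsg.Lib.Transfer Cfsg.Lib.Fusion in
  open Cfsg.FusionSystem hiding inv_mem in
  have hF' := Sat.mk hS hF
  constructor
  · intro h
    obtain ⟨C, n, h0, hn, hm, hle, hc, hch⟩ := exists_central_series hS h.1
    exact ⟨stronglyClosed_of_normal h, n, fun i => C i, h0, hn, fun i j hij => hm hij, fun i => hc i,
      fun i => weaklyClosed_of_stronglyClosed
        (stronglyClosed_of_normal (normal_of_characteristic h (hle _) (hch _)))⟩
  · rintro ⟨hQ, n, Qs, h0, hn, hm, h, h'⟩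
    refine hF'.normal_of_series hQ (fun i => if h : i < n + 1 then Qs ⟨i, h⟩ else Q) n
      (by simpa using h0) (by rw [dif_pos (by omega)]; exact hn) (fun i hi => ?_) (fun i hi => ?_) fun i hi => ?_
    · rw [dif_pos (by omega), ← hn]; exact hm (Fin.le_last _)
    · rw [dif_pos (by omega), dif_pos (by omega)]; exact h ⟨i, hi⟩
    · rw [dif_pos (by omega)]; exact h' ⟨i, hi⟩

end Cfsg.Agent.S5226
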