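import Cfsg.Statements.S5236
import Cfsg.Agent.Lib.Fusion.Small

set_option autoImplicit false
open Cfsg

namespace Cfsg.Agent.S5236

open Cfsg.Lib Cfsg.Lib.Fusion Subgroup
open Cfsg.FusionSystem hiding inv_mem

/-- Let p be an odd prime, F a saturated fusion system over a finite p-group S and P a subgroup of S strongly closed in F. Then P is normal in F if and only if Ω₁(P) (the subgroup generated by the elements of order p of P) has a chain of subgroups 1 = Q₀ ≤ Q₁ ≤ ⋯ ≤ Qₙ = Ω₁(P), each strongly closed in F, with [Qᵢ₊₁, P] ≤ Qᵢ for all i. -/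
theorem result {Ω : Type*} [Group Ω] {S : Subgroup Ω} [Finite S] (p : ℕ) [Fact p.Prime] (hS : IsPGroup p S) (F : Cfsg.FusionSystem S) (hF : F.IsSaturated p) (hp : p ≠ 2) (P : Subgroup Ω) (hP : F.StronglyClosed P) : F.IsNormal P ↔ ∃ (n : ℕ) (Q : Fin (n + 1) → Subgroup Ω), Q 0 = ⊥ ∧ Q (Fin.last n) = Cfsg.omegaOne p P ∧ Monotone Q ∧ (∀ i : Fin (n + 1), F.StronglyClosed (Q i)) ∧ ∀ i : Fin n, ⁅Q i.succ, P⁆ ≤ Q i.castSucc := by
  have hF' : Sat F p := ⟨hS, hF⟩
  refine ⟨fun h => ?_, fun ⟨n, Q, h0, hn, _, h1, h2⟩ => ?_⟩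
  · obtain ⟨C, n, h0, hn, hm, hle, hc, hch⟩ := exists_central_series hS hP.1
    have h1 : F.StronglyClosed (omegaOne p P) := stronglyClosed_of_normal (by
      rw [← PGroup.map_subtype_omegaOne_top]; exact normal_map_characteristic h _)
    refine ⟨n, fun i => omegaOne p P ⊓ C i, by simp [h0], by simp [hn, PGroup.omegaOne_le],
      fun i j hij => inf_le_inf_left _ (hm hij), fun i => stronglyClosed_inf h1
        (stronglyClosed_of_normal (normal_of_characteristic h (hle i) (hch i))), fun i => le_inf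
        ((commutator_mono inf_le_left le_rfl).trans (le_normalizer_iff_commutator_le_left.1
          (hP.1.trans (le_normalizer_of_stronglyClosed h1))))
        ((commutator_mono inf_le_right le_rfl).trans (hc i))⟩
  refine hF'.normal_of_le_fcr (weaklyClosed_of_stronglyClosed hP) fun R _ hc hr =>
    le_of_normalizer_le hS hc.1 hP.1 (hc.1.trans (le_normalizer_of_stronglyClosed hP))
      fun s hs hs' => mem_of_small_chain hS hc hr hP (K := triv R R P)
        (le_normalizer_triv (fun α _ x hx => iff_of_true (ext_mem α hx) hx)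
          (autGroup_le_stab hc.1 hP)) (fun α _ h _ x hx => h.2 x hx hx)
        (fun i => Q (Fin.ofNat (n + 1) i)) n (by simpa using h0) (fun x hx h => ?_)
        (fun i _ α hα x hx _ h => (mor_ext hc.1 hα).mem_of_stronglyClosed (h1 _) hx.1 h)
        ⟨hP.1 hs, hs'⟩ (cjA_mem_triv hs' (le_normalizer hs) fun x hx _ => ?_) fun i hi x _ _ h => ?_
  · rw [show Fin.ofNat (n + 1) n = Fin.last n from Fin.ext (Nat.mod_eq_of_lt n.lt_succ_self), hn]
    exact PGroup.mem_omegaOne hx.2 (h.resolve_right fun e => hp e.1)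
  · exact le_normalizer_iff_commutator_le_right.1 (le_normalizer_of_stronglyClosed hP)
      (commutator_mem_commutator (inv_mem (hc.1 hx)) hs)
  · rw [show Fin.ofNat (n + 1) i = Fin.castSucc ⟨i, hi⟩ from Fin.ext (Nat.mod_eq_of_lt (by omega))]
    rw [show Fin.ofNat (n + 1) (i + 1) = Fin.succ ⟨i, hi⟩ from
      Fin.ext (Nat.mod_eq_of_lt (by omega))] at h
    exact h2 ⟨i, hi⟩ (commutator_mem_commutator (inv_mem h) hs)

end Cfsg.Agent.S5236
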