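import Cfsg.Statements.S5243
import Cfsg.Agent.Lib.Fusion.PPrime
-- import your own Cfsg.Agent.* helpers here

set_option autoImplicit false
open Cfsg

namespace Cfsg.Agent.S5243

/-- Let F be a saturated fusion system over a finite p-group S, E a normal subsystem of F over T ≤ S, and χ a surjective homomorphism from Aut_F(T) onto a nontrivial finite group Δ of order prime to p whose kernel contains Aut_E(T). Then there is a proper normal subsystem F₀ of F over S containing E such that Aut_{F₀}(S) consists of those α ∈ Aut_F(S) whose restriction to T is an element of Aut_F(T) in the kernel of χ; moreover every p'-residual subsystem O^{p'}(F) of F is contained in F₀. -/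
theorem result {Ω : Type*} [Group Ω] {S : Subgroup Ω} [Finite S] (p : ℕ) [Fact p.Prime] (hS : IsPGroup p S) (F : Cfsg.FusionSystem S) (hF : F.IsSaturated p) {T : Subgroup Ω} (hTS : T ≤ S) (E : Cfsg.FusionSystem T) (hE : E.IsNormalIn F p) {Δ : Type*} [Group Δ] [Finite Δ] [Nontrivial Δ] (hΔ : (Nat.card Δ).Coprime p) (χ : ↥(F.autGroup T) →* Δ) (hχ : Function.Surjective χ) (hker : (E.autGroup T).subgroupOf (F.autGroup T) ≤ χ.ker) : ∃ F₀ : Cfsg.FusionSystem S, F₀.IsNormalIn F p ∧ ¬ (∀ P : Subgroup Ω, F₀.Hom P = F.Hom P) ∧ E.IsSubsystemOf F₀ ∧ (∀ α : MulAut ↥S, α ∈ F₀.autGroup S ↔ α ∈ F.autGroup S ∧ ∃ β : ↥(F.autGroup T), χ β = 1 ∧ ∀ t : ↥T, (((β : MulAut ↥T) t : ↥T) : Ω) = ((α ⟨(t : Ω), hTS t.2⟩ : ↥S) : Ω)) ∧ ∀ R : Cfsg.FusionSystem S, F.IsPPrimeResidual p R → R.IsSubsystemOf F₀ := by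
  open Subgroup Cfsg.Lib.Transfer Cfsg.Lib.Fusion in
  open Cfsg.FusionSystem hiding inv_mem in
  have hF' : Sat F p := ⟨hS, hF⟩
  have hn := (isNormalIn_iff hS).1 hE
  have := finite_of_le hTS
  have hm : ∀ {α : MulAut T} (hα : α ∈ F.autGroup T),
      α ∈ χ.ker.map (F.autGroup T).subtype ↔ χ ⟨α, hα⟩ = 1 := fun hα =>
    ⟨fun ⟨_, h1, h2⟩ => by subst h2; exact h1, fun h => ⟨⟨_, hα⟩, h, rfl⟩⟩
  have h2 : χ.ker.map (F.autGroup T).subtype ≤ F.autGroup T := map_subtype_le _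
  have h3 : F.autGroup T ≤ normalizer ((χ.ker.map (F.autGroup T).subtype : Subgroup _) : Set _) :=
    fun a ha => mem_normalizer_of_conj_mem fun b hb =>
      (hm (mul_mem (mul_mem ha (h2 hb)) (inv_mem ha))).2
        (χ.normal_ker.conj_mem ⟨b, h2 hb⟩ ((hm _).1 hb) ⟨a, ha⟩)
  have h4 : opP p (F.autGroup T) ≤ χ.ker.map (F.autGroup T).subtype :=
    opP_le_iff.2 fun a ha ⟨j, hj⟩ => (hm ha).2 (by
      refine orderOf_eq_one_iff.1 (Nat.eq_one_of_dvd_coprimes (hΔ.pow_right j) (orderOf_dvd_natCard _)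
        (orderOf_dvd_of_pow_eq_one ?_))
      rw [← map_pow, ← χ.map_one]
      exact congrArg χ (Subtype.ext hj))
  obtain ⟨D, d1, d2, d3, -⟩ := hn.toInv.exists_primeToP hn.satE hF'
    (fun α hα => (hm (autGroup_mono hn.sub T hα)).2 (hker hα)) h2 h3 h4
  refine ⟨D, d1.isNormalIn, fun h => ?_, d2, fun α => ⟨fun hα => ?_, fun ⟨hα, β, hβ, e⟩ => ?_⟩,
    fun R hR => pPrimeResidual_le hR d1.satE hF' d1.toInv⟩
  · obtain ⟨d, hd⟩ := exists_ne (1 : Δ)
    obtain ⟨⟨α, hα⟩, rfl⟩ := hχ d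
    obtain ⟨κ, hκ, β, hβ, rfl⟩ := hF'.exists_top_ext hn.sc h2 h3 ((le_opP
      (autInducedBy_le_autGroup F hTS) (isPGroup_autInducedBy hS T)).trans h4) hα
    exact hd ((hm hα).1 (mul_mem hκ ((d3 β hβ).1 (ext_hom h ▸ hβ))))
  · have h5 := autGroup_mono d1.sub S hα
    have hs := autGroup_le_stab le_rfl hn.sc h5
    exact ⟨h5, ⟨_, rs_mem_autGroup le_rfl hTS h5 hs⟩, (hm _).1 ((d3 α h5).1 hα), fun t => by
      rw [← ext_coe, ext_rs hTS hs t.2, ext_apply α (hTS t.2)]⟩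
  · refine (d3 α hα).2 ?_
    rw [(eq_rs hTS (γ := α) (α := β.1) fun x hx => by
      rw [ext_apply α (hTS hx), ext_apply _ hx, e]).2]
    exact (hm β.2).2 hβ

end Cfsg.Agent.S5243
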