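import Cfsg.Statements.S5245
import Cfsg.Agent.Lib.Fusion.PPrime
-- import your own Cfsg.Agent.* helpers here

set_option autoImplicit false
open Cfsg

namespace Cfsg.Agent.S5245

/-- Let F be an extremely sparse fusion system over a finite p-group S (saturated, not the inner system, and every saturated fusion system over any subgroup T of S contained in F is F itself or the inner system of T). Then S is normal in F, the focal and hyperfocal subgroups of F are both S, and Aut_F(S) is generated by the inner automorphisms of S together with a single automorphism of prime order q ≠ p (F is the fusion system of the semidirect product of S by a cyclic group of prime order). -/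
theorem result {Ω : Type*} [Group Ω] {S : Subgroup Ω} [Finite S] (p : ℕ) [Fact p.Prime] (hS : IsPGroup p S) (F : Cfsg.FusionSystem S) (hF : F.IsSaturated p) (hxs : ¬ (∀ P : Subgroup Ω, F.Hom P = (Cfsg.innerFusionSystem S).Hom P) ∧ ∀ (T : Subgroup Ω) (E : Cfsg.FusionSystem T), E.IsSaturated p → E.IsSubsystemOf F → (T = S ∧ ∀ P : Subgroup Ω, E.Hom P = F.Hom P) ∨ (∀ P : Subgroup Ω, E.Hom P = (Cfsg.innerFusionSystem T).Hom P)) : F.IsNormal S ∧ F.focalSubgroup = S ∧ F.hyperfocalSubgroup p = S ∧ ∃ (q : ℕ) (β : MulAut ↥S), q.Prime ∧ q ≠ p ∧ β ∈ F.autGroup S ∧ orderOf β = q ∧ (F.autGroup S : Subgroup (MulAut ↥S)) = Cfsg.Inn ↥S ⊔ Subgroup.zpowers β := by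
  open Subgroup Cfsg.Lib.Transfer Cfsg.Lib.Fusion in
  open Cfsg.FusionSystem hiding inv_mem in
  have hF' : Sat F p := ⟨hS, hF⟩
  have key : ∀ P ≤ S, ∀ β ∈ F.autGroup P, (orderOf β).Coprime p → β ≠ 1 →
      P = S ∧ ∀ Q f, Mor F Q f → ∃ α ∈ zpowers β, ∃ s ∈ P, ∀ x ∈ Q,
        f x = ext α (s * x * s⁻¹) := fun P hP β hβ hc h1 => by
    have := finite_of_le hP
    have hP' := hS.to_le hP
    obtain ⟨D, hD⟩ := exists_autMul (E := innerFusionSystem P) (A := zpowers β) fun α _ Q f hf => by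
      obtain ⟨h2, s, hs, e⟩ := mor_inner.1 hf
      exact (mor_conj _ (im_ext_le α h2) (ext_mem α hs)).congr fun y hy => by
        have hx := (mem_im_ext α h2).1 hy
        rw [e _ hx, (homOn_ext α).map_conj hs (h2 hx), ext_ext_inv]
    have hI : (innerFusionSystem P).autGroup P = Inn P := by
      rw [(grp_inner P).autGroup_eq le_rfl, inn_eq]
    have h3 : Sat D p := hD.inv.sat_of_opP_le (sat_inner hP') (opP_le_iff.2 fun γ hγ ⟨j, hj⟩ => by
      obtain ⟨α, hα, κ, hκ, rfl⟩ := hD.mem_autGroup.1 hγ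
      rw [hI] at hκ ⊢
      rw [← QuotientGroup.eq_one_iff] at hκ ⊢
      refine orderOf_eq_one_iff.1 (Nat.eq_one_of_dvd_coprimes (hc.pow_right j) ?_
        (orderOf_dvd_of_pow_eq_one (by rw [← QuotientGroup.mk_pow, hj, QuotientGroup.mk_one])))
      rw [QuotientGroup.mk_mul, hκ, mul_one]
      exact (orderOf_map_dvd (QuotientGroup.mk' (Inn P)) α).trans (orderOf_dvd_of_mem_zpowers hα))
    rcases hxs.2 P D h3.sat (hD.sub_of (isSubsystemOf_iff.2 fun Q f hf => let ⟨h, s, hs, e⟩ := mor_inner.1 hf; (mor_conj F (h.trans hP) (hP hs)).congr e) (zpowers_le.2 hβ)) with h | h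
    · refine ⟨h.1, fun Q f hf => ?_⟩
      obtain ⟨α, hα, g, hg, e⟩ := (hD.mor Q f).1 ((hom_eq_iff.1 (h.2 Q) f).2 hf)
      obtain ⟨-, s, hs, e'⟩ := mor_inner.1 hg
      exact ⟨α, hα, s, hs, fun x hx => by rw [e x hx, e' x hx]⟩
    · exact absurd (eq_one_of_isPGroup_of_coprime (isPGroup_inn hP')
        (hI ▸ ext_hom h ▸ hD.le_autGroup (mem_zpowers β)) hc) h1
  obtain ⟨P, hP, hp⟩ : ∃ P ≤ S, ¬ IsPGroup p (F.autGroup P) := by
    by_contra h
    push Not at h
    exact hxs.1 fun P => by rw [hF'.eq_inner fun P hP => h P (hF'.fcr_of_essential hP).1.1]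
  have := finite_of_le hP
  obtain ⟨γ, hγ, hc, h1⟩ : ∃ γ ∈ F.autGroup P, (orderOf γ).Coprime p ∧ γ ≠ 1 := by
    by_contra h
    push Not at h
    exact hp (isPGroup_of_coprime_eq_one h)
  obtain ⟨q, hq, m, hm⟩ := Nat.exists_prime_and_dvd (mt orderOf_eq_one_iff.1 h1)
  have hm0 : m ≠ 0 := fun h => (orderOf_pos γ).ne' (by rw [hm, h, mul_zero])
  have ho : orderOf (γ ^ m) = q := by
    rw [orderOf_pow_of_dvd hm0 ⟨q, by rw [hm, mul_comm]⟩, hm, Nat.mul_div_cancel _ (Nat.pos_of_ne_zero hm0)]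
  have hc' : (orderOf (γ ^ m)).Coprime p := hc.coprime_dvd_left (orderOf_pow_dvd m)
  have h1' : γ ^ m ≠ 1 := fun h => hq.ne_one (by rw [← ho, h, orderOf_one])
  obtain ⟨rfl, h2⟩ := key P hP _ (pow_mem hγ m) hc' h1'
  have hH : F.hyperfocalSubgroup p = P := by
    have hs := autGroup_le_stab le_rfl hF'.stronglyClosed_hyp (pow_mem hγ m)
    refine (key _ (hyp_le F p) _ (rs_mem_autGroup le_rfl (hyp_le F p) (pow_mem hγ m) hs)
      ((homOn_rs (hyp_le F p)).coprime hs hc') fun h => h1' (eq_one_of_ext fun x hx => ?_)).1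
    exact ext_eq_of_coprime hS hc' (fun b _ hb => by rw [← ext_rs (hyp_le F p) hs hb, h, ext_one]) hx
      (mem_hyp le_rfl (pow_mem hγ m) hc' hx)
  refine ⟨hF'.normal_of_exists_aut le_rfl fun Q f hQ hf => ?_, le_antisymm (focal_le F)
    (hH.ge.trans (hyp_le_focal F p)), hH, q, γ ^ m, hq, fun h => ?_, pow_mem hγ m, ho,
    le_antisymm (fun α hα => ?_) (sup_le (inn_le_autGroup F le_rfl) (zpowers_le.2 (pow_mem hγ m)))⟩
  · obtain ⟨α, hα, s, hs, e⟩ := h2 Q f hf
    exact ⟨α * cjA P s, mul_mem (zpowers_le.2 (pow_mem hγ m) hα) (cjA_mem_autGroup F le_rfl hs),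
      fun x hx => by rw [e x hx, ext_mul, ext_cjA (le_normalizer hs) (hQ hx)]⟩
  · rw [ho, h, Nat.coprime_self] at hc'
    exact hq.ne_one (h.trans hc')
  · obtain ⟨β, hβ, s, hs, e⟩ := h2 _ _ (mor_ext le_rfl hα)
    rw [eq_of_ext (α := α) (β := β * cjA P s) fun x hx => by
      rw [e x hx, ext_mul, ext_cjA (le_normalizer hs) hx]]
    exact mul_mem (mem_sup_right hβ) (mem_sup_left (inn_eq P ▸ cjA_mem_autInducedBy hs))

end Cfsg.Agent.S5245
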