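import Cfsg.Statements.S5251
import Cfsg.Agent.Lib.Fusion.PPrime
-- import your own Cfsg.Agent.* helpers here

set_option autoImplicit false
open Cfsg

namespace Cfsg.Agent.S5251

/-- Let F be a saturated fusion system over a finite p-group S, E a normal subsystem of F over T, and P an F-centric subgroup of S such that P ∩ T is not E-centric. Then some F-conjugate P* of P satisfies Out_S(P*) ∩ O_p(Out_F(P*)) ≠ 1: there is an element of N_S(P*) outside P* whose conjugation action on P* lies in O_p(Aut_F(P*)). In particular P is not both centric and radical in F. -/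
theorem result {Ω : Type*} [Group Ω] {S : Subgroup Ω} [Finite S] (p : ℕ) [Fact p.Prime] (hS : IsPGroup p S) (F : Cfsg.FusionSystem S) (hF : F.IsSaturated p) {T : Subgroup Ω} (E : Cfsg.FusionSystem T) (hE : E.IsNormalIn F p) (P : Subgroup Ω) (hP : F.IsCentric P) (hPT : ¬ E.IsCentric (P ⊓ T)) : (∃ φ ∈ F.Hom P, ∃ x ∈ S ⊓ Subgroup.normalizer (φ.range : Set Ω), x ∉ φ.range ∧ ∃ α ∈ ((Cfsg.pCore p ↥(F.autGroup φ.range)).map (F.autGroup φ.range).subtype : Subgroup (MulAut ↥φ.range)), ∀ y : ↥φ.range, ((α y : ↥φ.range) : Ω) = x * (y : Ω) * x⁻¹) ∧ ¬ F.IsRadical p P := by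
  open Subgroup Cfsg.Lib.Transfer Cfsg.Lib.Fusion in
  open Cfsg.FusionSystem hiding inv_mem in
  have hF' : Sat F p := ⟨hS, hF⟩
  have hn := (isNormalIn_iff hS).1 hE
  rw [hn.toInv.centric_iff_tc] at hPT
  refine ⟨?_, fun hr => hPT (hF'.tc_of_radical hn.sc hP hr)⟩
  obtain ⟨f, hf, -, h⟩ := hF'.exists_not_centralizer_le hn.sc hP.1 hPT
  obtain ⟨x, hx, hx'⟩ := SetLike.not_le_iff_exists.1 (star_of_centralizer hS hn.sc hf.im_le h)
  obtain ⟨h1, h2⟩ := mem_normK.1 hx.1
  refine ⟨_, hf.toHom_mem, ?_⟩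
  rw [hf.homOn.range_toHom]
  exact ⟨x, h1, hx', _, h2, fun y => by rw [← ext_coe, ext_cjA h1.2 y.2]⟩

end Cfsg.Agent.S5251
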