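import Cfsg.Statements.S5271
import Cfsg.Agent.Lib.Fusion.WkEmb

set_option autoImplicit false
open Cfsg

namespace Cfsg.Agent.S5271

/-- A nilpotency criterion for fusion systems. Let F be a saturated fusion system over a finite p-group S of order at least p². Call a subgroup Q of S weakly embedded in F when there is a subgroup P of S strongly closed in F such that both the product QP and the intersection Q ∩ P are strongly closed in F. Then F is the inner fusion system of S if and only if there is a subgroup D of S with 1 < D < S such that every subgroup of S of the same order as D is weakly embedded in F and, for every fully normalized subgroup H of S of that order, the normalizer fusion system of H in F is the inner fusion system of N_S(H). -/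
theorem result {Ω : Type*} [Group Ω] {S : Subgroup Ω} [Finite S] (p : ℕ) [Fact p.Prime] (hS : IsPGroup p ↥S) (F : Cfsg.FusionSystem S) (hF : F.IsSaturated p) (hcard : p ^ 2 ≤ Nat.card S) : (∀ P : Subgroup Ω, F.Hom P = (Cfsg.innerFusionSystem S).Hom P) ↔ ∃ D : Subgroup Ω, ⊥ < D ∧ D < S ∧ (∀ Q : Subgroup Ω, Q ≤ S → Nat.card ↥Q = Nat.card ↥D → ∃ P : Subgroup Ω, F.StronglyClosed P ∧ F.StronglyClosed (Q ⊔ P) ∧ F.StronglyClosed (Q ⊓ P)) ∧ (∀ H : Subgroup Ω, F.IsFullyNormalized H → Nat.card ↥H = Nat.card ↥D → ∀ N : Cfsg.FusionSystem (Cfsg.FusionSystem.normalizerIn S H), F.IsNormalizerSystem H N → ∀ P : Subgroup Ω, N.Hom P = (Cfsg.innerFusionSystem (Cfsg.FusionSystem.normalizerIn S H)).Hom P) := by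
----
  open Subgroup Cfsg.Lib.Transfer Cfsg.Lib.Fusion Cfsg.Lib.Fusion.WkEmb in
  open Cfsg.FusionSystem hiding inv_mem in
  have hF' : Sat F p := ⟨hS, hF⟩
  have hp : 1 < p := (Fact.out : p.Prime).one_lt
  rw [hF'.hom_eq_inner_iff]
  constructor
  · intro h
    obtain ⟨s, hs⟩ := hS.exists_card_eq
    have hs2 : 2 ≤ s := (Nat.pow_le_pow_iff_right hp).1 (hs ▸ hcard)
    obtain ⟨d, rfl⟩ : ∃ d, s = d + 1 := ⟨s - 1, by omega⟩
    obtain ⟨D, -, hD, hDc⟩ := exists_between hS (A := ⊥) bot_le (d := d)
      (by rw [card_bot]; exact Nat.pow_pos (by omega))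
      (hs ▸ Nat.pow_le_pow_right hp.le (Nat.le_succ d))
    have hlt : ∀ Q : Subgroup Ω, Q ≤ S → Nat.card Q = p ^ d → Q < S := fun Q hQ hc =>
      lt_of_le_of_ne hQ fun e => by
        rw [e, hs] at hc
        exact absurd (Nat.pow_right_injective hp hc) (by omega)
    refine ⟨D, bot_lt_iff_ne_bot.2 fun e => ?_, hlt D hD hDc, fun Q hQ hc => ⟨⊥,
      stronglyClosed_bot F, ?_, by rw [inf_bot_eq]; exact stronglyClosed_bot F⟩,
      fun H _ _ N hN P => hF'.forall_of_hyp h N hN P⟩
    · rw [e, card_bot] at hDc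
      have : 1 < p ^ d := Nat.one_lt_pow (by omega) hp
      omega
    · rw [sup_bot_eq]
      refine hF'.stronglyClosed_of_hyp_le (h ▸ bot_le) hQ ?_
      have h1 := lt_normalizerIn hS (hlt Q hQ (hc.trans hDc))
      obtain ⟨n, hn⟩ := (hS.to_le (normalizerIn_le S Q)).exists_card_eq
      have h2 := card_lt_of_lt' h1
      rw [hc, hDc, hn, Nat.pow_lt_pow_iff_right hp] at h2
      have h3 : normalizerIn S Q = S := eq_of_le_of_card_ge (normalizerIn_le S Q)
        (by rw [hs, hn]; exact Nat.pow_le_pow_right hp.le h2)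
      exact h3.ge.trans (normalizerIn_le_normalizer S Q)
  · rintro ⟨D, -, hD, hW, hN⟩
    have := finite_of_le hD.le
    obtain ⟨d, hd⟩ := (hS.to_le hD.le).exists_card_eq
    refine hyp_eq_bot hF' (d := d) (hd ▸ card_lt_of_lt' hD) (fun Q hQ hc => hW Q hQ (hc.trans hd.symm))
      fun H hH hc => ?_
    obtain ⟨V, hV, hV'⟩ := exists_fullyNormalized F hH
    exact NInn.of_isConj hF' hV hV' (nInn_of_forall hS (isConj_le_right hV)
      (hN V hV' (by rw [← isConj_card hV, hc, hd])))

end Cfsg.Agent.S5271
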