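import Cfsg.Statements.S5286
import Cfsg.Agent.Lib.Fusion.Realize
-- import your own Cfsg.Agent.* helpers here

set_option autoImplicit false
universe u
open Cfsg

namespace Cfsg.Agent.S5286

/-- Every fusion system F over a finite p-group S, saturated or not, is realized by a possibly infinite group: there are a group G and an injective homomorphism ι of S into G such that the maps of F are exactly the conjugations by elements of G between subgroups of ι(S), every finite subgroup of G is conjugate to a subgroup of ι(S), and G has a free normal subgroup whose index divides (#S)!. -/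
theorem result {Ω : Type u} [Group Ω] {S : Subgroup Ω} [Finite S] (p : ℕ) [Fact p.Prime] (hS : IsPGroup p ↥S) (F : Cfsg.FusionSystem S) : ∃ (G : Type u) (_ : Group G) (ι : ↥S →* G), F.IsRealizedBy ι ∧ (∀ H : Subgroup G, Finite ↥H → ∃ g : G, ∀ h ∈ H, g * h * g⁻¹ ∈ ι.range) ∧ ∃ N : Subgroup G, N.Normal ∧ IsFreeGroup ↥N ∧ N.index ∣ (Nat.card ↥S).factorial := by
  open Subgroup Cfsg.Lib.Transfer Cfsg.Lib.Fusion in
  open Cfsg.FusionSystem hiding inv_mem in
  classical
  have h := paths_free (p := p) F (MulAction.toPermHom S S)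
  refine ⟨_, _, _, h.isRealizedBy hS MulAction.toPerm_injective fun _ _ => exists_perm_conj F,
    fun H _ => ?_, (SemidirectProduct.rightHom.comp h.grp.subtype).ker, inferInstance, ?_, ?_⟩
  · obtain ⟨g, hg⟩ := exists_fixed (G := h.grp) (fun g hg x l e => by
      obtain ⟨a, ha⟩ := QuotientGroup.mk_surjective (nd x.2 x.1)
      change LP _ _ _ at hg
      rw [e] at hg
      exact ⟨a, hg.1, ha.symm⟩) H
    refine ⟨g, fun x hx => ?_⟩
    have h1 : LP _ (FreeGroup.toWord _) _ := (g * x * g⁻¹).2
    rw [hg x hx] at h1
    obtain ⟨s, hs⟩ := QuotientGroup.eq.1 h1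
    exact ⟨s, Subtype.ext (SemidirectProduct.ext (hg x hx).symm (hs.trans (by simp)))⟩
  · let φ : (SemidirectProduct.rightHom.comp h.grp.subtype).ker →* FreeGroup _ :=
      MonoidHom.mk' (fun n => n.1.1.left) fun a b => by
        simp [show a.1.1.right = 1 from a.2]
    exact IsFreeGroup.ofMulEquiv (MonoidHom.ofInjective (f := φ) fun a b e =>
      Subtype.ext (Subtype.ext (SemidirectProduct.ext e (a.2.trans b.2.symm)))).symm
  · rw [index_ker, ← Nat.card_perm]
    exact card_subgroup_dvd_card _

end Cfsg.Agent.S5286
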