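import Cfsg.Statements.S5291
import Cfsg.Agent.Lib.Fusion.Invariant
-- import your own Cfsg.Agent.* helpers here

set_option autoImplicit false
open Cfsg

namespace Cfsg.Agent.S5291

/-- Let F be a saturated fusion system over a finite p-group S and E a weakly normal subsystem of F over a subgroup T. Suppose a subgroup R of T is normal in E (E = N_E(R)), and let R* be the subgroup of T generated by the images of R under all maps of F with source R. Then R* is normal in F (F = N_F(R*)). -/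
theorem result {Ω : Type*} [Group Ω] {S : Subgroup Ω} [Finite S] (p : ℕ) [Fact p.Prime] (hS : IsPGroup p S)
    (F : Cfsg.FusionSystem S) (hF : F.IsSaturated p)
    {T : Subgroup Ω} (E : Cfsg.FusionSystem T) (hE : E.IsWeaklyNormalIn F p)
    (R : Subgroup Ω) (hR : E.IsNormal R) :
    F.IsNormal (Subgroup.closure {x : Ω | ∃ φ ∈ F.Hom R, ∃ r : R, x = φ r}) := by
  open Subgroup Cfsg.Lib.Transfer Cfsg.Lib.Fusion in
  open Cfsg.FusionSystem hiding inv_mem in
  obtain ⟨-, hF', h⟩ := (isWeaklyNormalIn_iff hS).1 hE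
  have := finite_of_le h.le
  have e : Subgroup.closure {x : Ω | ∃ φ ∈ F.Hom R, ∃ r : R, x = φ r} =
      sSup {Q | ∃ α ∈ F.autGroup T, Q = im (ext α) R} := by
    refine le_antisymm ((closure_le _).2 ?_) (sSup_le ?_)
    · rintro _ ⟨φ, hφ, r, rfl⟩
      obtain ⟨α, hα, g, h1, e⟩ := h.frat hR.1 (mor_fn hφ)
      rw [← fn_coe, e r r.2]
      exact le_sSup (s := {Q | ∃ α ∈ F.autGroup T, Q = im (ext α) R}) ⟨α, hα, rfl⟩
        (mem_im_of_mem _ (h1.mem_of_stronglyClosed (stronglyClosed_of_normal hR) r.2 r.2))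
    · rintro _ ⟨α, hα, rfl⟩
      exact im_le_iff.2 fun x hx =>
        subset_closure ⟨_, ((mor_ext h.le hα).mono hR.1).toHom_mem, ⟨x, hx⟩, rfl⟩
  rw [e]
  have hn : E.IsNormal (sSup {Q | ∃ α ∈ F.autGroup T, Q = im (ext α) R}) :=
    sSup_induction_of_le (S := T) _ (by rintro _ ⟨α, -, rfl⟩; exact im_ext_le α hR.1) (normal_bot E)
      (by rintro _ ⟨α, hα, rfl⟩; exact ((h.iso hα).normal_iff hR.1).2 hR) fun _ _ => normal_sup
  have := finite_of_le hn.1
  refine h.normal hF' hn fun α hα => im_ext_eq_of_mem α hn.1 fun x hx => ?_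
  refine (sSup_le ?_ : _ ≤ (homOn_ext α).pre _) hx |>.2
  rintro _ ⟨β, hβ, rfl⟩ y hy
  refine ⟨im_ext_le β hR.1 hy, le_sSup (s := {Q | ∃ α ∈ F.autGroup T, Q = im (ext α) R})
    ⟨α * β, mul_mem hα hβ, rfl⟩ ?_⟩
  rw [im_ext_mul _ _ hR.1]
  exact mem_im_of_mem _ hy

end Cfsg.Agent.S5291
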