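import Cfsg.Statements.S5297
import Cfsg.Agent.Lib.Fusion.Small

set_option autoImplicit false
universe u
open Cfsg

namespace Cfsg.Agent.S5297

open Cfsg.Lib.Fusion Subgroup

/-- Let F be a saturated fusion system over a finite p-group S. If every map of F between cyclic subgroups of the hyperfocal subgroup of F of order p or 4 is a map of the normalizer system of S (it extends to a map of F defined on all of S), then S is normal in F. -/
theorem result {Ω : Type u} [Group Ω] {S : Subgroup Ω} [Finite S] (p : ℕ) [Fact p.Prime] (hS : IsPGroup p S)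
    (F : Cfsg.FusionSystem S) (hF : F.IsSaturated p)
    (h : ∀ A B : Subgroup Ω, A ≤ (F.hyperfocalSubgroup p) → B ≤ (F.hyperfocalSubgroup p) → IsCyclic ↥A → (Nat.card ↥A = p ∨ Nat.card ↥A = 4) → IsCyclic ↥B → (Nat.card ↥B = p ∨ Nat.card ↥B = 4) →
      F.homSet A B ⊆ F.normalizerHom S A) :
    F.IsNormal S := by
  have hF' : Sat F p := ⟨hS, hF⟩
  refine hF'.normal_top_of_small fun x hx h1 y hy => ?_
  obtain ⟨f, hf, rfl⟩ := isConjElt_iff.1 hy
  by_cases h0 : x = 1
  · exact ⟨_, mor_id F le_rfl, by rw [h0, hf.homOn.map_one]⟩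
  have h2 := h1.card_zpowers h0
  have h3 := hf.homOn.im_zpowers (mem_zpowers x)
  obtain ⟨-, g, hg, e, -⟩ := kMor_top.1 (mem_normalizerHom.1 (h _ (zpowers (f x)) (zpowers_le.2 hx)
    (zpowers_le.2 (hf.mem_of_stronglyClosed hF'.stronglyClosed_hyp (mem_zpowers x) hx))
    inferInstance h2 inferInstance (by rwa [← h3, hf.card_im])
    ⟨hf.toHom_mem, fun z => h3 ▸ mem_im_of_mem f z.2⟩))
  exact ⟨g, hg.mono le_sup_right, by rw [e x (mem_zpowers x), fn_apply _ (mem_zpowers x)]; rfl⟩

end Cfsg.Agent.S5297
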