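import Cfsg.Statements.S5298
import Cfsg.Agent.Lib.Fusion.Small

set_option autoImplicit false
universe u
open Cfsg

namespace Cfsg.Agent.S5298

open Cfsg.Lib.Fusion Subgroup

/-- Let F be a saturated fusion system over a finite p-group S. If every map of F between cyclic subgroups of the hyperfocal subgroup of F of order p or 4 is conjugation by an element of S, then F is the inner fusion system of S. -/
theorem result {Ω : Type u} [Group Ω] {S : Subgroup Ω} [Finite S] (p : ℕ) [Fact p.Prime] (hS : IsPGroup p S)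
    (F : Cfsg.FusionSystem S) (hF : F.IsSaturated p)
    (h : ∀ A B : Subgroup Ω, A ≤ (F.hyperfocalSubgroup p) → B ≤ (F.hyperfocalSubgroup p) → IsCyclic ↥A → (Nat.card ↥A = p ∨ Nat.card ↥A = 4) → IsCyclic ↥B → (Nat.card ↥B = p ∨ Nat.card ↥B = 4) →
      F.homSet A B ⊆ (Cfsg.innerFusionSystem S).Hom A) :
    ∀ P : Subgroup Ω, F.Hom P = (Cfsg.innerFusionSystem S).Hom P := by
  have hF' : Sat F p := ⟨hS, hF⟩
  refine hF'.hom_eq_inner_iff.2 (hF'.hyp_eq_bot_of_small fun x hx h1 y hy => ?_)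
  obtain ⟨f, hf, rfl⟩ := isConjElt_iff.1 hy
  by_cases h0 : x = 1
  · exact ⟨1, one_mem _, by simp [h0, hf.homOn.map_one]⟩
  have h2 := h1.card_zpowers h0
  have h3 := hf.homOn.im_zpowers (mem_zpowers x)
  obtain ⟨-, s, hs, e⟩ := h _ (zpowers (f x)) (zpowers_le.2 hx)
    (zpowers_le.2 (hf.mem_of_stronglyClosed hF'.stronglyClosed_hyp (mem_zpowers x) hx))
    inferInstance h2 inferInstance (by rwa [← h3, hf.card_im])
    ⟨hf.toHom_mem, fun z => h3 ▸ mem_im_of_mem f z.2⟩
  exact ⟨s, hs, e ⟨x, mem_zpowers x⟩⟩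

end Cfsg.Agent.S5298
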