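import Cfsg.Statements.S5300
import Cfsg.Agent.Lib.Fusion.Small

set_option autoImplicit false
universe u
open Cfsg

namespace Cfsg.Agent.S5300

open Cfsg.Lib Cfsg.Lib.Fusion Subgroup
open Cfsg.FusionSystem hiding inv_mem
open scoped commutatorElement

/-- Let F be a saturated fusion system over a finite p-group S. If every cyclic subgroup of the focal subgroup of F of order p (of order 2 or 4 when p = 2) is normal in S, then S is normal in F. -/
theorem result {Ω : Type u} [Group Ω] {S : Subgroup Ω} [Finite S] (p : ℕ) [Fact p.Prime] (hS : IsPGroup p S)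
    (F : Cfsg.FusionSystem S) (hF : F.IsSaturated p)
    (hnorm : ∀ x ∈ F.focalSubgroup, (x ^ p = 1 ∨ (p = 2 ∧ x ^ 4 = 1)) → ∀ s ∈ S, s * x * s⁻¹ ∈ Subgroup.zpowers x) :
    F.IsNormal S := by
  have hF' : Sat F p := ⟨hS, hF⟩
  have hZ := PGroup.isMulCommutative_inf_centralizer S
  have h1 : ∀ x ∈ F.hyperfocalSubgroup p, x ^ p = 1 → x ∈ omegaOne p (centralizerIn S S) := by
    refine fun x hx h => PGroup.mem_omegaOne (mkC (hyp_le F p hx) ?_) h
    by_cases h0 : x = 1
    · exact h0 ▸ one_mem _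
    have hxS := hyp_le F p hx
    have := finite_of_le (zpowers_le.2 hxS)
    have : ((zpowers x).subgroupOf S).Normal := normal_subgroupOf_of_le_normalizer fun s hs =>
      mem_normalizer_of_conj_mem fun y hy => by
        obtain ⟨k, rfl⟩ := hy
        simp only [← conj_zpow]
        exact zpow_mem (hnorm x (hyp_le_focal F p hx) (Or.inl h) s hs) k
    have h2 := PGroup.le_center_of_card_eq hS ((zpowers x).subgroupOf S) (by
      rw [Nat.card_congr (subgroupOfEquivOfLe (zpowers_le.2 hxS)).toEquiv, Nat.card_zpowers,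
        orderOf_eq_prime h h0]) (show (⟨x, hxS⟩ : S) ∈ _ from mem_zpowers x)
    exact fun s hs => congrArg Subtype.val (mem_center_iff.1 h2 ⟨s, hs⟩)
  refine hF'.normal_top_of_chain (fun i => if i = 0 then ⊥ else if i = 1 then
    omegaOne p (centralizerIn S S) else ⊤) 2 rfl (fun _ _ _ => mem_top _)
    (fun i hi x hx h h' y hy => ?_) fun i hi x hx h h' s hs => ?_
  · obtain ⟨f, hf, rfl⟩ := isConjElt_iff.1 hy
    interval_cases i
    · exact mem_bot.2 (by rw [mem_bot.1 h', hf.homOn.map_one])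
    · refine h1 _ (hf.mem_of_stronglyClosed hF'.stronglyClosed_hyp (mem_zpowers x) hx) ?_
      rw [← hf.homOn.map_pow (mem_zpowers x),
        ((PGroup.mem_omegaOne_iff_of_isMulCommutative hZ).1 h').2, hf.homOn.map_one]
    · exact mem_top _
  · have h2 : x ∈ omegaOne p (centralizerIn S S) → ⁅x⁻¹, s⁆ = 1 := fun h' =>
      commutatorElement_eq_one_iff_mul_comm.2
        ((inv_mem (PGroup.omegaOne_le _ h')).2 s hs).symm
    interval_cases i
    · exact mem_bot.2 (h2 h')
    change _ ∈ omegaOne p _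
    by_cases h3 : x ^ p = 1
    · rw [h2 (h1 x hx h3)]; exact one_mem _
    obtain ⟨rfl, h4⟩ := h.resolve_left h3
    obtain ⟨k, hk⟩ := hnorm x (hyp_le_focal F 2 hx) h s hs
    have h5 : ⁅x⁻¹, s⁆ = x ^ (k - 1) := by
      rw [sub_eq_neg_add, zpow_add, show x ^ k = _ from hk]; simp [commutatorElement_def, mul_assoc]
    have h6 : (x ^ 2) ^ (2 : ℤ) = 1 := by rw [zpow_ofNat, ← pow_mul, h4]
    rw [h5]
    refine h1 _ (zpow_mem hx _) ?_
    rcases Int.even_or_odd' k with ⟨j, rfl | rfl⟩
    · refine absurd ?_ h3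
      have : (s * x * s⁻¹) ^ 2 = 1 := by
        rw [← show x ^ (2 * j) = _ from hk, ← zpow_natCast, ← zpow_mul, mul_right_comm, zpow_mul,
          zpow_mul, zpow_ofNat]
        erw [h6, one_zpow]
      simpa [conj_pow] using this
    · rw [add_sub_cancel_right, ← zpow_natCast, ← zpow_mul, mul_right_comm, zpow_mul,
        zpow_mul, zpow_ofNat]
      erw [h6, one_zpow]

end Cfsg.Agent.S5300
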