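import Cfsg.Statements.S5301
import Cfsg.Agent.Lib.Fusion.Normal
-- import your own Cfsg.Agent.* helpers here

set_option autoImplicit false
universe u
open Cfsg

namespace Cfsg.Agent.S5301

/-- Let F be a saturated fusion system over a finite p-group S. If for every subgroup P of S that is fully normalized, centric and radical in F the automorphism group that F induces on P has a normal Sylow p-subgroup, then S is normal in F. -/
theorem result {Ω : Type u} [Group Ω] {S : Subgroup Ω} [Finite S] (p : ℕ) [Fact p.Prime] (hS : IsPGroup p S)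
    (F : Cfsg.FusionSystem S) (hF : F.IsSaturated p)
    (hcl : ∀ P : Subgroup Ω, F.IsFullyNormalized P → F.IsCentric P → F.IsRadical p P →
      ∃ R : Sylow p ↥(F.autGroup P), (R : Subgroup ↥(F.autGroup P)).Normal) :
    F.IsNormal S := by
  open Subgroup Cfsg.Lib.Transfer Cfsg.Lib.Fusion in
  open Cfsg.FusionSystem hiding inv_mem in
  have hF' := Sat.mk hS hF
  refine hF'.normal_of_le_fcr (weaklyClosed_of_stronglyClosed (stronglyClosed_top F))
    fun P h1 h2 h3 => by_contra fun hc => ?_
  have := finite_of_le h1.1
  obtain ⟨R, hR⟩ := hcl P h1 h2 h3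
  obtain ⟨R', hR'⟩ := (hF'.fa h1).2
  refine not_autInducedBy_le_inn hS (centralizerIn_le_of_centric h2)
    (lt_of_le_not_ge h1.1 hc) ?_
  rw [← h3.2, ← map_subgroupOf_eq_of_le (autInducedBy_le_autGroup F h1.1), ← hR']
  refine map_mono ?_
  have := Sylow.unique_of_normal R hR
  rw [Subsingleton.elim R' R]
  exact Cfsg.Lib.Core.le_pCore hR R.2

end Cfsg.Agent.S5301
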