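import Cfsg.Statements.S5310
import Cfsg.Agent.Lib.Fusion.CPre
-- import your own Cfsg.Agent.* helpers here

set_option autoImplicit false
open Cfsg

namespace Cfsg.Agent.S5310

/-- A saturated fusion system F over a finite p-group S is constrained (its largest normal subgroup O_p(F) is centric) if and only if the inner fusion system of O_p(F) is itself a generalized Fitting subsystem of F (that is, F*(F) = O_p(F)). -/
theorem result {Ω : Type*} [Group Ω] {S : Subgroup Ω} [Finite S] (p : ℕ) [Fact p.Prime] (hS : IsPGroup p S) (F : Cfsg.FusionSystem S) (hF : F.IsSaturated p) :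
    F.IsConstrained p ↔ (Cfsg.innerFusionSystem F.core).IsGeneralizedFittingOf F p := by
  open Subgroup Cfsg.Lib.Transfer Cfsg.Lib.Fusion in
  open Cfsg.FusionSystem hiding inv_mem in
  · rw [isGeneralizedFittingOf_iff hS]
    refine ⟨fun h => ?_, fun ⟨T, E, h1, h2⟩ => ?_⟩
    · obtain ⟨T, E, h1⟩ := Sat.exists_lay ⟨hS, hF⟩
      obtain ⟨D, hD⟩ := h1.exists_cPr (V := F.core) (normal_core F)
        (by rw [h1.bot_iff.2 h, sup_bot_eq])
      obtain rfl : D = innerFusionSystem F.core :=
        ext_mor fun _ _ => ⟨fun hf => hD.mor₁ hf hf.le, fun hf => hf.of_sub hD.sub₁⟩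
      exact ⟨T, E, h1, hD⟩
    · refine (Sat.constrained_iff_no_comp ⟨hS, hF⟩).2 fun ⟨U, C, hC⟩ => ?_
      have k := comp_sat hC ⟨hS, hF⟩
      have := finite_of_le (le_of_isSubsystemOf k.1)
      exact (Sat.cen_of_comp ⟨hS, hF⟩ hC (normal_core F)).not_le k.2.pg hC.2
        ((le_of_isSubsystemOf (h1.comps U C hC)).trans h2.le₂)

end Cfsg.Agent.S5310
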