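import Cfsg.Statements.S5381
import Cfsg.Agent.Lib.CoT.Three

set_option autoImplicit false
open Cfsg

namespace Cfsg.Agent.S5381

open Subgroup Module Cfsg.Lib Cfsg.Lib.CoT Cfsg.Lib.Orth

/-- Let G be a finite group of Conway type (involution z with generalized Fitting subgroup Q of its centralizer C extraspecial of order 2^9, C/Q the commutator subgroup of the isometry group of the hyperbolic quadratic form in dimension 8 over the field with two elements, z not weakly closed in Q), and let X be a subgroup of C of order 3 whose commutator subgroup with Q is non-abelian of order 8, contained in an elementary abelian subgroup Y of C of order 9 whose centralizer in Q is extraspecial of order 32 containing an elementary abelian subgroup of order 8. Then the centralizer of X in G is quasisimple and its quotient by X is isomorphic to the presented sporadic Suzuki group. -/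
theorem result {G : Type*} [Group G] [Finite G] (z : G) (hz : orderOf z = 2) (Q : Subgroup (Subgroup.centralizer ({z} : Set G))) [Q.Normal] (hF : Cfsg.generalizedFittingSubgroup (Subgroup.centralizer ({z} : Set G)) = Q) (hQ : Cfsg.IsExtraspecial 2 Q) (hcard : Nat.card Q = 2 ^ 9) (e : (Subgroup.centralizer ({z} : Set G)) ⧸ Q ≃* Cfsg.Omega (ZMod 2) (Cfsg.quadFormPlus 4 (ZMod 2))) (hnwc : ∃ g : G, (∃ hq : g * z * g⁻¹ ∈ Subgroup.centralizer ({z} : Set G), (⟨g * z * g⁻¹, hq⟩ : Subgroup.centralizer ({z} : Set G)) ∈ Q) ∧ g * z * g⁻¹ ≠ z) (X : Subgroup (Subgroup.centralizer ({z} : Set G))) (hX : Nat.card X = 3) (hQX : Nat.card ↥⁅Q, X⁆ = 8) (hQXna : ¬ IsMulCommutative ↥⁅Q, X⁆) (Y₉ : Subgroup (Subgroup.centralizer ({z} : Set G))) (hXY : X ≤ Y₉) (hY₉ : Nat.card Y₉ = 9) (hY₉e : ∀ y ∈ Y₉, y ^ 3 = 1) (hCQ₉ : Cfsg.IsExtraspecial 2 ↥(Q ⊓ Subgroup.centralizer (Y₉ : Set (Subgroup.centralizer ({z} : Set G))))) (hCQ₉c : Nat.card ↥(Q ⊓ Subgroup.centralizer (Y₉ : Set (Subgroup.centralizer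 ({z} : Set G)))) = 32) (hCQ₉p : ∃ A : Subgroup (Subgroup.centralizer ({z} : Set G)), A ≤ Q ⊓ Subgroup.centralizer (Y₉ : Set (Subgroup.centralizer ({z} : Set G))) ∧ Cfsg.IsElementaryAbelian 2 A ∧ Nat.card A = 8) [((X.map (Subgroup.subtype (Subgroup.centralizer ({z} : Set G)))).subgroupOf (Subgroup.centralizer ((X.map (Subgroup.subtype (Subgroup.centralizer ({z} : Set G)))) : Set G))).Normal] : Cfsg.IsQuasisimple ↥(Subgroup.centralizer ((X.map (Subgroup.subtype (Subgroup.centralizer ({z} : Set G)))) : Set G)) ∧ Cfsg.Spor.IsoSuz (↥(Subgroup.centralizer ((X.map (Subgroup.subtype (Subgroup.centralizer ({z} : Set G)))) : Set G)) ⧸ (X.map (Subgroup.subtype (Subgroup.centralizer ({z} : Set G)))).subgroupOf (Subgroup.centralizer ((X.map (Subgroup.subtype (Subgroup.centralizer ({z} : Set G)))) : Set G))) := by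
  obtain ⟨D⟩ := exists_od hz hF hQ hcard e hnwc
  have : Fact (Nat.Prime 3) := ⟨Nat.prime_three⟩
  obtain ⟨x, hx, rfl⟩ := Grp.exists_zpowers_eq hX
  have o3 : ∀ {y : centralizer ({z} : Set G)}, orderOf y = 3 → Odd (orderOf (y : G)) ∧ D.r y ^ 3 = 1 ∧ y ≠ 1 :=
    fun h => ⟨by rw [orderOf_coe, h]; decide, by rw [← map_pow, ← h, pow_orderOf_eq_one, map_one], fun e => by
      rw [e, orderOf_one] at h; omega⟩
  obtain ⟨x1, x2, x3⟩ := o3 hx
  have h2 : finrank (ZMod 2) (O.comm (D.r x)) = 2 := by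
    rw [← Core.card_map_subtype, map_commutator, MonoidHom.map_zpowers, coe_subtype,
      D.comm_eq le_rfl (by decide) x2 D.pre_le (D.comm_ne_bot x1 x3), D.card_pre] at hQX
    exact Nat.succ_injective (Nat.pow_right_injective le_rfl hQX)
  obtain ⟨y, y1, y2⟩ := SetLike.not_le_iff_exists.1 fun h : Y₉ ≤ zpowers x => by
    have := card_le_of_le h
    omega
  have := IsPGroup.isMulCommutative_of_card_eq_prime_sq (p := 3) hY₉
  have x4 := hXY (mem_zpowers x)
  obtain ⟨i, hi⟩ := sc_three x2 h2 (D.r y) (Commute.map (setLike_mul_comm y1 x4) D.r)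
  have y3 := mul_mem (inv_mem (zpow_mem x4 i)) y1
  have y4 : orderOf ((x ^ i)⁻¹ * y) = 3 := orderOf_eq_prime (hY₉e _ y3) fun e => y2 ⟨i, eq_of_inv_mul_eq_one e⟩
  have y5 : O.comm (D.r x) ≤ O.fix (D.r ((x ^ i)⁻¹ * y)) := fun w hw => by
    rw [O.mem_fix, map_mul, map_inv, map_zpow, O.mul_apply, hi w hw, O.inv_apply_apply]
  generalize (x ^ i)⁻¹ * y = u at y3 y4 y5
  obtain ⟨u1, u2, u3⟩ := o3 y4
  refine D.quasisimple (MonoidHom.map_zpowers _ _) ((orderOf_coe x).trans hx) h2 ((orderOf_coe u).trans y4) ?_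
    (setLike_mul_comm y3 x4) y5
  have a1 := orderOf_dvd_finrank u2 (W := O.comm (D.r u)) (fun _ => O.apply_mem_comm (Commute.refl _))
    (osum (by decide) u2).isCompl.disjoint.eq_bot
  rw [Nat.card_zmod, Nat.cast_ofNat, ord_three] at a1
  have a2 := O.finrank_comm_add_finrank_fix (D.r u)
  have a3 := mt Submodule.finrank_eq_zero.1 (D.comm_ne_bot u1 u3)
  have a4 := Submodule.finrank_sup_add_finrank_inf_eq (O.comm (D.r x)) (O.fix (D.r x) ⊓ O.fix (D.r u))
  rw [← inf_assoc, (osum (by decide) x2).isCompl.disjoint.eq_bot, bot_inf_eq, finrank_bot, h2] at a4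
  have a5 := Submodule.finrank_mono (sup_le y5 (inf_le_right (a := O.fix (D.r x))))
  have a6 : (Q ⊓ centralizer (Y₉ : Set (centralizer ({z} : Set G)))).map (Subgroup.subtype _) ≤
      D.pre (O.fix (D.r x) ⊓ O.fix (D.r u)) := by
    rintro _ ⟨c, hc, rfl⟩
    have := mem_map_of_mem (Subgroup.subtype _) hc.1
    exact ⟨this, O.mem_fix.2 (D.fix_of_comm this (congrArg Subtype.val (hc.2 x x4))),
      O.mem_fix.2 (D.fix_of_comm this (congrArg Subtype.val (hc.2 u y3)))⟩
  have a7 := card_le_of_le a6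
  rw [Core.card_map_subtype, hCQ₉c, D.card_pre, show 32 = 2 ^ 5 from rfl, Nat.pow_le_pow_iff_right (by decide)] at a7
  rw [finrank8] at a2
  omega

end Cfsg.Agent.S5381
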