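import Cfsg.Statements.S5385
import Cfsg.Agent.Lib.CoT.Five

set_option autoImplicit false
open Cfsg

namespace Cfsg.Agent.S5385

open Subgroup Module Cfsg.Lib Cfsg.Lib.CoT Cfsg.Lib.Orth

/-- Let G be a finite group of Conway type (involution z with generalized Fitting subgroup Q of its centralizer C extraspecial of order 2^9, C/Q the commutator subgroup of the isometry group of the hyperbolic quadratic form in dimension 8 over the field with two elements, z not weakly closed in Q), and let B be a subgroup of C of order 5 such that the centralizer of B in Q is extraspecial of order 32 containing no elementary abelian subgroup of order 8 (the quaternion-times-dihedral type). Then the layer L of the centralizer of B in G is isomorphic to the Hall–Janko group and the centralizer of L is isomorphic to the alternating group of degree 5. -/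
theorem result {G : Type*} [Group G] [Finite G] (z : G) (hz : orderOf z = 2) (Q : Subgroup (Subgroup.centralizer ({z} : Set G))) [Q.Normal] (hF : Cfsg.generalizedFittingSubgroup (Subgroup.centralizer ({z} : Set G)) = Q) (hQ : Cfsg.IsExtraspecial 2 Q) (hcard : Nat.card Q = 2 ^ 9) (e : (Subgroup.centralizer ({z} : Set G)) ⧸ Q ≃* Cfsg.Omega (ZMod 2) (Cfsg.quadFormPlus 4 (ZMod 2))) (hnwc : ∃ g : G, (∃ hq : g * z * g⁻¹ ∈ Subgroup.centralizer ({z} : Set G), (⟨g * z * g⁻¹, hq⟩ : Subgroup.centralizer ({z} : Set G)) ∈ Q) ∧ g * z * g⁻¹ ≠ z) (B : Subgroup (Subgroup.centralizer ({z} : Set G))) (hB : Nat.card B = 5) (hCQ : Cfsg.IsExtraspecial 2 ↥(Q ⊓ Subgroup.centralizer (B : Set (Subgroup.centralizer ({z} : Set G))))) (hCQcard : Nat.card ↥(Q ⊓ Subgroup.centralizer (B : Set (Subgroup.centralizer ({z} : Set G)))) = 32) (hminus : ∀ A : Subgroup (Subgroup.centralizer ({z} : Set G)), A ≤ Q ⊓ Subgroup.centralizer (B : Set (Subgroup.centralizer ({z} : Set G))) → Cfsg.IsElementaryAbelian 2 A → Nat.card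 A ≤ 4) : Cfsg.Spor.IsoJ2 ↥(Cfsg.layer ↥(Subgroup.centralizer ((B.map (Subgroup.subtype (Subgroup.centralizer ({z} : Set G)))) : Set G))) ∧ Nonempty (↥(Subgroup.centralizer (((Cfsg.layer ↥(Subgroup.centralizer ((B.map (Subgroup.subtype (Subgroup.centralizer ({z} : Set G)))) : Set G))).map (Subgroup.subtype _)) : Set G)) ≃* alternatingGroup (Fin 5)) := by
  obtain ⟨D⟩ := exists_od hz hF hQ hcard e hnwc
  have : Fact (Nat.Prime 5) := ⟨Nat.prime_five⟩
  obtain ⟨b, hb, rfl⟩ := Grp.exists_zpowers_eq hB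
  rw [← orderOf_coe] at hb
  have h4 : finrank (ZMod 2) (O.comm (D.r b)) = 4 := by
    have h1 := O.finrank_comm_add_finrank_fix (D.r b)
    have h2 : (Q ⊓ centralizer (zpowers b : Set (centralizer ({z} : Set G)))).map (Subgroup.subtype _) =
        D.pre (O.fix (D.r b)) := by
      rw [← D.inf_cen (hb ▸ by decide), Core.centralizer_zpowers]
      refine le_antisymm ?_ ?_
      · rintro _ ⟨c, hc, rfl⟩
        exact ⟨⟨c, hc.1, rfl⟩, mem_centralizer_singleton_iff.2
          (congrArg Subtype.val (mem_centralizer_singleton_iff.1 hc.2))⟩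
      · rintro _ ⟨⟨c, hc, rfl⟩, h⟩
        exact ⟨c, ⟨hc, mem_centralizer_singleton_iff.2 (Subtype.ext (mem_centralizer_singleton_iff.1 h))⟩, rfl⟩
    rw [← Core.card_map_subtype, h2, D.card_pre] at hCQcard
    have := Nat.pow_right_injective le_rfl (hCQcard.trans (show 32 = 2 ^ 5 from rfl))
    rw [finrank8] at h1
    omega
  obtain ⟨g, hg, g1, g2, g3⟩ := D.exists_g hb h4
  let K := centralizer (D.pre (O.fix (D.r b)) : Set G)
  have hA : ∀ x, x ∈ K ⊓ K.comap (MulAut.conj g).toMonoidHom ↔ x ∈ K ∧ g * x * g⁻¹ ∈ K := fun _ => Iff.rfl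
  have h := D.layer_five hb h4 hg hA g1 g2 g3 (MonoidHom.map_zpowers (Subgroup.subtype _) b)
  obtain ⟨i⟩ := D.isoJ2 hb h4 hg hA g1 g2 g3
  obtain ⟨j⟩ := D.alt_five hb h4 hg hA g1 g2 g3
  exact ⟨⟨((equivMapOfInjective _ _ (subtype_injective _)).trans (MulEquiv.subgroupCongr h)).trans i⟩,
    ⟨(MulEquiv.subgroupCongr ((congrArg (fun L : Subgroup G => centralizer (L : Set G)) h).trans (D.cen_cen hA).2.2)).trans j⟩⟩

end Cfsg.Agent.S5385
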