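import Cfsg.Statements.S5418
import Cfsg.Agent.S5417

set_option autoImplicit false
open Cfsg.Lib Cfsg.Lib.Mon Cfsg.Lib.ES Cfsg.Lib.Leech Subgroup

namespace Cfsg.Agent.S5418

theorem index_six {G : Type*} [Group G] [Finite G] {b n : G} (ho : orderOf b = 7) (h : n * b * n⁻¹ = b ^ 3) :
    (centralizer (zpowers b : Set G)).relIndex (normalizer (zpowers b : Set G)) = 6 := by
  have : Fact (Nat.Prime 7) := ⟨by norm_num⟩
  have m : n ∈ normalizer (zpowers b : Set G) := mem_normalizer_fintype (by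
    rintro _ ⟨j, rfl⟩
    rw [← conj_zpow, h]; exact zpow_mem (pow_mem (mem_zpowers b) 3) j)
  have p : ∀ k : ℕ, n ^ k * b * (n ^ k)⁻¹ = b ^ 3 ^ k := fun k => by
    induction k with
    | zero => simp
    | succ k ih => rw [pow_succ 3, mul_comm _ 3, pow_mul, ← h, conj_pow, ← ih]; group
  rw [relIndex, ← normalizerMonoidHom_ker]
  have a : ∀ k, (zpowers b).normalizerMonoidHom.ker.index ∣ k → 3 ^ k % 7 = 1 := fun k ⟨j, e⟩ => by
    have := pow_mem (pow_index_mem (H := (zpowers b).normalizerMonoidHom.ker) ⟨n, m⟩) j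
    rw [← pow_mul, ← e, normalizerMonoidHom_ker] at this
    have := (mul_inv_eq_iff_eq_mul.2 (this b (mem_zpowers b)).symm).symm.trans (p k)
    nth_rw 1 [← pow_one b] at this
    rw [pow_eq_pow_iff_modEq, ho] at this
    exact this.symm
  have d : (zpowers b).normalizerMonoidHom.ker.index ∣ 6 := by
    rw [index_ker, ← show 7 - 1 = 6 from rfl, ← T2.card_mulAut_of_prime ((Nat.card_zpowers b).trans ho)]
    exact card_subgroup_dvd_card _
  generalize (zpowers b).normalizerMonoidHom.ker.index = i at a d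
  have := a i dvd_rfl
  have := Nat.le_of_dvd (by norm_num) d
  interval_cases i <;> omega

theorem mem_layer {C : Type*} [Group C] [Finite C] {B : Subgroup C} [B.Normal] (hB : B ≤ center C) (h7 : ∀ b ∈ B, b ^ 7 = 1)
    (e : Cfsg.Spor.IsoHe (C ⧸ B)) {u : C} (hu : u * u = 1) : u ∈ layer C := by
  obtain ⟨e⟩ := e
  have := Calc.He.simple
  have hs := e.isSimpleGroup
  have hn : ¬ IsMulCommutative (C ⧸ B) := fun h => by
    let _ : CommGroup (C ⧸ B) := ⟨h.is_comm.comm⟩
    have := (IsSimpleGroup.prime_card (α := C ⧸ B)).eq_one_or_self_of_dvd 2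
    rw [Nat.card_congr e.toEquiv, Calc.He.card] at this
    omega
  have c : B = center C := le_antisymm hB fun x hx => (QuotientGroup.eq_one_iff x).1 (by
    rcases (inferInstance : (center (C ⧸ B)).Normal).eq_bot_or_eq_top with f | f
    · exact mem_bot.1 (f ▸ Comp.map_center_le_center_of_surjective (QuotientGroup.mk'_surjective B) (mem_map_of_mem _ hx))
    · exact absurd ⟨⟨fun a b => (mem_center_iff.1 (f ▸ mem_top b) a)⟩⟩ hn)
  subst c
  obtain ⟨a, b⟩ := Comp.commutator_sup_center_and_isQuasisimple hs hn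
  obtain ⟨k, k1, y, y1, rfl⟩ := mem_sup_of_normal_right.1 (a.ge (mem_top u))
  have : (k * y) ^ 7 = k * y := by rw [show 7 = 2 * 3 + 1 from rfl, pow_succ, pow_mul, sq, hu, one_pow, one_mul]
  rw [← this, Commute.mul_pow (mem_center_iff.1 y1 k), h7 y y1, mul_one]
  exact Comp.le_layer ⟨(inferInstance : (commutator C).Normal).isSubnormal, b⟩ (pow_mem k1 7)

/-- Let G be a finite group of Monster type at the involution z with Q the extraspecial normal subgroup of order 2^25 of C = C_G(z) (so C/Q is identified with the first Conway group with Q modulo its centre the Leech lattice modulo 2, and z is not weakly closed in Q). Let s be a conjugate of z in Q other than z and let B be a Sylow 7-subgroup of the joint centralizer of z and s. Then the centralizer of B has index 6 in the normalizer of B; and some involution inverting B induces, by conjugation, a non-inner automorphism of the layer of the centralizer of B. -/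
theorem result {G : Type*} [Group G] [Finite G] (z : G) (Q : Subgroup (Subgroup.centralizer ({z} : Set G))) [Q.Normal] (hM : Cfsg.IsOfMonsterType z Q) (s : G) (hsQ : ∃ hsc : s ∈ Subgroup.centralizer ({z} : Set G), (⟨s, hsc⟩ : Subgroup.centralizer ({z} : Set G)) ∈ Q) (hs : IsConj z s) (hs1 : s ≠ z) (B : Subgroup G) (hB : B ≤ Subgroup.centralizer ({z, s} : Set G)) (hBp : Nat.card B = 7 ^ (Nat.card ↥(Subgroup.centralizer ({z, s} : Set G))).factorization 7) : (Subgroup.centralizer (B : Set G)).relIndex (Subgroup.normalizer (B : Set G)) = 6 ∧ ∃ t : G, orderOf t = 2 ∧ (∀ b ∈ B, t * b * t⁻¹ = b⁻¹) ∧ (∀ x ∈ (Cfsg.layer ↥(Subgroup.centralizer (B : Set G))).map (Subgroup.centralizer (B : Set G)).subtype, t * x * t⁻¹ ∈ (Cfsg.layer ↥(Subgroup.centralizer (B : Set G))).map (Subgroup.centralizer (B : Set G)).subtype) ∧ ¬ ∃ l ∈ (Cfsg.layer ↥(Subgroup.centralizer (B : Set G))).map (Subgroup.centralizer (B : Set G)).subtype, ∀ x ∈ (Cfsg.layer ↥(Subgroup.centralizer (B : Set G))).map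 (Subgroup.centralizer (B : Set G)).subtype, t * x * t⁻¹ = l * x * l⁻¹ := by
  have cB : B ≤ centralizer (B : Set G) → (B.subgroupOf (centralizer (B : Set G))) ≤ center _ := fun _ x hx =>
    mem_center_iff.2 fun y => Subtype.ext (y.2 _ hx).symm
  have hI := fun hn => @S5417.result G _ _ z Q _ hM s hsQ hs hs1 B hB hBp hn
  obtain ⟨h, e, ψ, hψ⟩ := hM
  obtain ⟨D, -, -⟩ := exists_xd h hψ
  rw [← Core.mem_map_subtype_iff] at hsQ
  have hc := card_map_of_setting h
  obtain ⟨D, h1⟩ := exists_base D hc hsQ hs hs1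
  rw [card_pair D hc hsQ h1, show Nat.factorization (2 ^ 35 * 244823040) 7 = 1 by
    simp; decide +kernel, pow_one] at hBp
  obtain ⟨D, h1, b, rfl, h2, h3⟩ := He.exists_setup D hc hsQ hs hs1 hB hBp
  have h2' := (orderOf_coe b).symm.trans h2
  obtain ⟨g, rfl⟩ := isConj_iff.1 hs
  obtain ⟨n, hn⟩ := He.exists_cuber D h2' h3
  obtain ⟨t, t2, ht⟩ := He.exists_inverter D hc hsQ hs1 h1 h2' h3
  have hv : ∀ y ∈ zpowers (b : G), t * y * (t : G)⁻¹ = y⁻¹ := by
    rintro _ ⟨j, rfl⟩
    rw [← conj_zpow, ← inv_zpow]; exact congrArg (fun y : centralizer ({z} : Set G) => (y : G) ^ j) ht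
  have nz : ∀ {y : centralizer ({z} : Set G)}, y * (g * z * g⁻¹) * (y : G)⁻¹ = g * z * g⁻¹ → y * b * y⁻¹ ≠ b⁻¹ :=
    fun {y} a c => He.not_inv (g := D.ρ y) (by rw [MulAction.mem_stabilizer_iff, ← h1, ← D.π_conj y _ hsQ, a])
      (by rw [← h3, ← map_inv, ← map_mul, ← map_mul, c, map_inv])
  refine ⟨index_six h2 (congrArg Subtype.val hn), t, ?_, hv, fun x hx => ?_, fun ⟨_, ⟨l, _, l2⟩, hl⟩ => ?_⟩
  · refine orderOf_eq_prime ((sq _).trans (congrArg Subtype.val t2)) fun f => ?_
    rw [show t = 1 from Subtype.ext f, one_mul, inv_one, mul_one, eq_inv_iff_mul_eq_one, ← sq,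
      ← orderOf_dvd_iff_pow_eq_one, h2'] at ht
    omega
  · refine (mem_normalizer_iff.1 (Comp.normalizer_le_normalizer_map_layer _ (mem_normalizer_fintype fun y hy u hu => ?_)) x).1 hx
    rw [← inv_inv u, ← hv _ (inv_mem hu), conj_mul, conj_mul, hy _ (inv_mem hu)]
  · subst l2
    have cB := cB (le_centralizer _)
    have : ((zpowers (b : G)).subgroupOf (centralizer (zpowers (b : G) : Set G))).Normal := ⟨fun x hx y => by
      rwa [mul_inv_eq_iff_eq_mul.2 (mem_center_iff.1 (cB hx) y)]⟩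
    have k : ∀ u ∈ ({z, g * z * g⁻¹} : Set G), u * u = 1 → t * u * (t : G)⁻¹ = l * u * (l : G)⁻¹ := fun u a c =>
      hl u ⟨⟨u, fun y hy => (hB hy u a).symm⟩, mem_layer cB (fun y hy => Subtype.ext (by
        rw [← hBp]; exact (congrArg Subtype.val (pow_card_eq_one' (x := (⟨y, hy⟩ : zpowers (b : G)))) :))) (hI _)
          (Subtype.ext c), rfl⟩
    have z2 := D.lg.mul_self
    have k1 := k z (.inl rfl) z2
    have k2 := k _ (.inr rfl) (by rw [conj_mul, z2, mul_one, mul_inv_cancel])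
    have lz : (l : G) ∈ centralizer {z} := mem_centralizer_singleton_iff.2 (mul_inv_eq_iff_eq_mul.1
      (k1.symm.trans (mul_inv_eq_iff_eq_mul.2 (mem_centralizer_singleton_iff.1 t.2))))
    refine nz (y := ⟨l, lz⟩⁻¹ * t) ?_ (Subtype.ext ?_)
    · change (l : G)⁻¹ * t * _ * ((l : G)⁻¹ * t)⁻¹ = _
      rw [mul_inv_rev, mul_assoc (l : G)⁻¹, ← mul_assoc, mul_assoc (l : G)⁻¹, k2]; group
    · change (l : G)⁻¹ * t * _ * ((l : G)⁻¹ * t)⁻¹ = (b : G)⁻¹
      rw [mul_inv_rev, mul_assoc (l : G)⁻¹, ← mul_assoc, mul_assoc (l : G)⁻¹, hv _ (mem_zpowers _), inv_inv, mul_assoc,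
        l.2 _ (inv_mem (mem_zpowers _)), inv_mul_cancel_left]

end Cfsg.Agent.S5418
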