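import Cfsg.Statements.S5424
import Cfsg.Agent.Lib.Extraspecial.Transv

set_option autoImplicit false
open Cfsg

namespace Cfsg.Agent.S5424

open Matrix

theorem det_eq_one {m : ℕ} {X Y : Matrix (Fin m) (Fin m) (ZMod 2)} (h : X * Y = 1) : X.det = 1 := by
  have := congrArg det h
  rw [det_mul, det_one] at this
  revert this; generalize X.det = x; generalize Y.det = y; revert x y; decide

/-- Let G be the special linear group of degree n + 2 over the field with two elements, n ≥ 2, let z be a transvection, and let Q be the largest normal 2-subgroup of the centralizer C of z. Then Q is extraspecial of order 2^(2n+1) with an elementary abelian subgroup of order 2^(n+1) (plus type), Q is a large extraspecial 2-subgroup of G, and C is the split extension of Q by the special linear group of degree n over the field with two elements. -/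
theorem result (n : ℕ) (hn : 2 ≤ n) (z : Matrix.SpecialLinearGroup (Fin (n + 2)) (ZMod 2)) (hz : (z : Matrix (Fin (n + 2)) (Fin (n + 2)) (ZMod 2)) = Matrix.transvection 0 1 1) (Q : Subgroup (Matrix.SpecialLinearGroup (Fin (n + 2)) (ZMod 2))) (hQ : Q = (Cfsg.pCore 2 ↥(Subgroup.centralizer ({z} : Set (Matrix.SpecialLinearGroup (Fin (n + 2)) (ZMod 2))))).map (Subgroup.centralizer ({z} : Set (Matrix.SpecialLinearGroup (Fin (n + 2)) (ZMod 2)))).subtype) : Cfsg.IsExtraspecial 2 ↥Q ∧ Nat.card ↥Q = 2 ^ (2 * n + 1) ∧ (∃ E : Subgroup (Matrix.SpecialLinearGroup (Fin (n + 2)) (ZMod 2)), E ≤ Q ∧ Cfsg.IsElementaryAbelian 2 E ∧ Nat.card ↥E = 2 ^ (n + 1)) ∧ Cfsg.IsLargeExtraspecial Q ∧ ∃ K : Subgroup (Matrix.SpecialLinearGroup (Fin (n + 2)) (ZMod 2)), K ≤ Subgroup.centralizer ({z} : Set (Matrix.SpecialLinearGroup (Fin (n + 2)) (ZMod 2))) ∧ Q ⊓ K = ⊥ ∧ Q ⊔ K = Subgroup.centralizer ({z} : Set (Matrix.SpecialLinearGroup (Fin (n + 2)) (ZMod 2))) ∧ Nonempty (↥K ≃*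 Matrix.SpecialLinearGroup (Fin n) (ZMod 2)) := by
  obtain ⟨h1, h2, h3, h4, K, h5, h6, h7, ⟨e⟩⟩ := Cfsg.Lib.ES.Tv.main (by omega)
    SpecialLinearGroup.coeMonoidHom (fun _ _ h => Subtype.ext h) hz
    (fun X Y h _ => ⟨⟨X, det_eq_one h⟩, rfl⟩) hQ
  refine ⟨h1, h2, h3, h4, K, h5, h6, h7, ⟨e.trans (MulEquiv.ofBijective SpecialLinearGroup.toGL
    ⟨SpecialLinearGroup.toGL_injective, fun g => ⟨⟨g, det_eq_one g.mul_inv⟩, Units.ext rfl⟩⟩).symm⟩⟩

end Cfsg.Agent.S5424
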