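import Cfsg.Statements.S5600
import Cfsg.Agent.Lib.Mathieu.Struct

set_option autoImplicit false
open scoped Pointwise
open Cfsg

namespace Cfsg.Agent.S5600

open Cfsg.Lib Cfsg.Lib.Golay Cfsg.Lib.Calc Cfsg.Lib.Grp Cfsg.Lib.Mathieu MulAction

set_option maxRecDepth 100000
set_option maxHeartbeats 400000

theorem std {E : Finset GolayPt} (hE : E.card = 6) :
    ∃ g : M24, (g : P24) • G.toF 8388655 = E ∨ (g : P24) • G.toF 8388639 = E := by
  obtain ⟨x, s, hx, rfl, hs⟩ := Finset.card_eq_succ.1 hE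
  obtain ⟨g, rfl⟩ := exists_smul_eq_of_card_le_five (s := G.toF 8388623) (t := s)
    (by rw [hs]; exact card_toF_eq (by decide +kernel)) (by rw [card_toF (by norm_num)]; decide +kernel)
  obtain ⟨y, rfl⟩ := (g : P24).surjective x
  rw [apply_mem_smul_iff] at hx
  have key : ∀ (k : M24) (i m : ℕ), i < 24 → k ∈ m19 → (k : P24) (G.pt i) = y →
      Nat.beq (Nat.lor 8388623 (2 ^ i)) m = true →
      ((g * k : M24) : P24) • G.toF m = insert ((g : P24) y) ((g : P24) • G.toF 8388623) := by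
    rintro k i m hi hk rfl e
    have : (k : P24) • G.toF 8388623 = G.toF 8388623 := smul_eq_of_fix (fix_maskL (l := [23, 0, 1, 2, 3])
      (by simp only [List.forall_mem_cons]; exact ⟨hk.1.1.1.1, hk.1.1.1.2, hk.1.1.2, hk.1.2, hk.2, by simp⟩))
    rw [← beq_iff.1 e, G.toF_insert _ hi, Subgroup.coe_mul, mul_smul, Finset.smul_finset_insert, this,
      Finset.smul_finset_insert]
    rfl
  obtain ⟨i, hi, rfl⟩ := surj_pt y
  have : ∀ i < 24, bor (Calc.bit 8388623 i) (Golay.anyL (L24.drop 5) fun l => Golay.anyL l.2 fun c =>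
      Nat.beq (get 5 c l.1) i) = true := allLt_iff.1 (by decide +kernel)
  have h1 := (bor_eq_true.1 (this i hi)).resolve_left fun e => hx ((pt_mem_iff hi _).2 e)
  simp only [anyL_iff, beq_iff] at h1
  obtain ⟨l, h2, c, h3, rfl⟩ := h1
  have w := ch19.w
  rcases List.mem_cons.1 h2 with rfl | h2
  · obtain ⟨k, a, b⟩ := w.2.1 c h3
    exact ⟨_, Or.inl (key k 5 _ (by norm_num) a (b.smul (by norm_num)) (by decide +kernel))⟩
  · obtain rfl := List.mem_singleton.1 h2
    obtain ⟨k, a, b⟩ := w.2.2.2.2.1 c h3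
    exact ⟨_, Or.inr (key k 4 _ (by norm_num) a.1 (b.smul (by norm_num)) (by decide +kernel))⟩

theorem top (g : M24) {m : ℕ} {l cs ds C D : List ℕ} {L : List (ℕ × List ℕ × ℕ)} (hm : m < 2 ^ 24) (h0 : l.length = 6)
    (h1 : band (Nat.beq (maskL l) m) (Calc.allL l fun i => blt i 24) = true) (h2 : injOK 6 24 l = true)
    (h3 : all2 (fun c d => band (tOK (tSet m) c) (ptRep 6 3 l c d)) cs ds = true)
    (h4 : surOK 6 3 ds 720 C D L = true) : (indPerm _ _ (smul_mem_of_stab ((g : P24) • G.toF m))).range = ⊤ :=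
  range_eq_top _ (by norm_num) ((inj_of_injOK h2 inj_pt).smul g) (mem_smul_iff_ex g (h0 ▸ mem_toF_iff_ex h1))
    ((cjSt rfl).repList ((Mem.set hm).ptList h3)) h4

theorem card_fix (g : M24) {m : ℕ} (h : Nat.beq (Nat.land 8388623 m) 8388623 = true) :
    Nat.card (fixS ((g : P24) • G.toF m)) = cntCh 24 5 (tFix m) (fun _ _ => true) (L24.drop 5) [] id24 := by
  refine Eq.trans ?_ (ch19.card_inf (Mem.fix m))
  rw [(cjFix g _).card]
  refine congrArg (fun H : Subgroup M24 => Nat.card H) (inf_eq_right.2 fun k hk => ?_).symm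
  have := fun i hi => mem_fixS.1 hk (G.pt i) (G.subset_of_land (beq_iff.1 h) (pt_mem (i := i) hi))
  exact ⟨⟨⟨⟨this 23 (by decide), this 0 (by decide)⟩, this 1 (by decide)⟩, this 2 (by decide)⟩, this 3 (by decide)⟩

theorem card_eq (E : Finset GolayPt) :
    Nat.card {g : P24 // g ∈ M24 ∧ ∀ p ∈ E, g p = p} = Nat.card (fixS E) :=
  Nat.card_congr
    { toFun g := ⟨⟨g, g.2.1⟩, mem_fixS.2 g.2.2⟩
      invFun g := ⟨g.1, g.1.2, mem_fixS.1 g.2⟩
      left_inv _ := rfl
      right_inv _ := rfl }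

/-- Although the group of the length-24 code is only 5-transitive on the 24 points, it induces the full symmetric group on every 6-element subset: every permutation of a 6-set E is the restriction of an element of the group mapping E to itself. The pointwise stabiliser of E has order 16 when E lies in an octad and order 3 otherwise; in the latter case the setwise stabiliser of E has order 2160. -/
theorem result (E : Finset Cfsg.GolayPt) (hE : E.card = 6) : (∀ σ : Equiv.Perm ↥E, ∃ g ∈ Cfsg.M24, ∀ p : ↥E, g p = σ p) ∧ ((∃ o ∈ Cfsg.octads, E ⊆ o) → Nat.card {g : Equiv.Perm Cfsg.GolayPt // g ∈ Cfsg.M24 ∧ ∀ p ∈ E, g p = p} = 16) ∧ ((¬ ∃ o ∈ Cfsg.octads, E ⊆ o) → Nat.card {g : Equiv.Perm Cfsg.GolayPt // g ∈ Cfsg.M24 ∧ ∀ p ∈ E, g p = p} = 3 ∧ Nat.card ↥(MulAction.stabilizer Cfsg.M24 E) = 2160) := by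
  have h1 : (indPerm _ _ (smul_mem_of_stab E)).range = ⊤ := by
    obtain ⟨g, rfl | rfl⟩ := std hE
    · exact top g (l := [23, 0, 1, 2, 3, 5]) (cs := [218580581324660303494188869735253079, 133306902829793558053456501526303745]) (ds := [50373, 14932]) (by norm_num) rfl (by decide +kernel)
        (by decide +kernel) (by decide +kernel) (by decide +kernel : surOK _ _ _ 720 [140120, 54496, 80648, 146056, 117384]
    [0, 0, 60937, 408791822, 66825993, 1870007818, 274436]
    [(0, [0, 1], 6), (1, [2, 3], 5), (2, [4, 5], 4), (4, [5, 6], 3), (3, [6], 2)] = true)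
    · exact top g (l := [23, 0, 1, 2, 3, 4]) (cs := [92389522175374964408744420986028163, 55266641352194143600531451616660484]) (ds := [66403, 100458]) (by norm_num) rfl (by decide +kernel)
        (by decide +kernel) (by decide +kernel) (by decide +kernel : surOK _ _ _ 720 [54496, 141912, 108872, 120072, 153224, 120968, 117384]
    [0, 0, 260, 24069, 17091706637, 70998280, 45827, 119801322899726, 15874]
    [(0, [0, 1], 6), (1, [2, 3], 5), (2, [4, 5], 4), (4, [6, 7], 3), (3, [8], 2)] = true)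
  have h2 := card_fix_mul' (smul_mem_of_stab E) (E := fixS E) fun g =>
    ⟨fun h => ⟨smul_eq_of_fix (mem_fixS.1 h), mem_fixS.1 h⟩, fun h => mem_fixS.2 h.2⟩
  rw [h1, Subgroup.card_top, Nat.card_perm, Nat.card_eq_fintype_card (α := E), Fintype.card_coe, hE] at h2
  rw [card_eq, ← h2, ← inOct_eq_one]
  refine ⟨fun σ => ?_, ?_⟩
  · obtain ⟨g, -, h⟩ := mem_range_indPerm.1 (h1 ▸ Subgroup.mem_top σ)
    exact ⟨g, g.2, h⟩
  · obtain ⟨g, rfl | rfl⟩ := std hE <;> rw [inOct_smul g.2, inOct_toF (by norm_num), card_fix g (by decide +kernel)] <;>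
      decide +kernel

end Cfsg.Agent.S5600
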