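import Cfsg.Statements.S5521
import Cfsg.Agent.S5600

set_option autoImplicit false
open Cfsg

namespace Cfsg.Agent.S5521

open Cfsg.Lib.Golay Cfsg.Lib.Mathieu Finset

/-- The Mathieu group M₂₄ in its natural action on the 24 coordinate positions of the binary Golay code has minimal base size exactly 7: every set of at most 6 positions is fixed pointwise by some non-identity element of M₂₄, while some set of 7 positions is fixed pointwise only by the identity. -/
theorem result :
    (∀ B : Finset Cfsg.GolayPt, B.card ≤ 6 → ∃ g ∈ Cfsg.M24, g ≠ 1 ∧ ∀ b ∈ B, g b = b) ∧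
    (∃ B : Finset Cfsg.GolayPt, B.card = 7 ∧ ∀ g ∈ Cfsg.M24, (∀ b ∈ B, g b = b) → g = 1) := by
  refine ⟨fun B hB => ?_, {G.pt 4, G.pt 5, G.pt 3, G.pt 2, G.pt 1, G.pt 0, G.pt 23}, by decide, fun g hg h =>
    eq_one_of_fix_base hg fun b hb => h _ ?_⟩
  · obtain ⟨E, h1, -, h2⟩ := exists_subsuperset_card_eq (subset_univ B) hB (by rw [card_univ, card_golayPt]; omega)
    have : 1 < Nat.card {g : P24 // g ∈ M24 ∧ ∀ p ∈ E, g p = p} := by
      obtain ⟨-, a, b⟩ := S5600.result E h2
      by_cases e : ∃ o ∈ octads, E ⊆ o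
      · rw [a e]; omega
      · rw [(b e).1]; omega
    have := Finite.one_lt_card_iff_nontrivial.1 this
    obtain ⟨g, hg⟩ := exists_ne (⟨1, one_mem _, fun _ _ => rfl⟩ : {g : P24 // g ∈ M24 ∧ ∀ p ∈ E, g p = p})
    exact ⟨g, g.2.1, fun e => hg (Subtype.ext e), fun b hb => g.2.2 b (h1 hb)⟩
  · simp only [List.mem_cons, List.not_mem_nil, or_false] at hb
    rcases hb with rfl | rfl | rfl | rfl | rfl | rfl | rfl <;> simp

end Cfsg.Agent.S5521
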