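import Cfsg.Statements.S5562
import Cfsg.Agent.Lib.ThreeTr.Structure
import Cfsg.Agent.Lib.ZStar.Isolated

set_option autoImplicit false
open Cfsg

namespace Cfsg.Agent.S5562

open Cfsg.Lib Cfsg.Lib.ThreeTr

/-- Let G be a finite group, d an involution of G whose conjugates pairwise have products of odd order, and x any involution of G. Then the conjugacy class of d is the disjoint union, over the conjugates a of d commuting with x, of the sets of conjugates of d commuting with ax: every conjugate of d commutes with ax for exactly one conjugate a of d that commutes with x. -/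
theorem result {G : Type*} [Group G] [Finite G] (d : G) (hd : orderOf d = 2)
    (hodd : ∀ a ∈ conjugatesOf d, ∀ b ∈ conjugatesOf d, Odd (orderOf (a * b)))
    (x : G) (hx : orderOf x = 2) :
    ∀ e ∈ conjugatesOf d,
      ∃! a : G, a ∈ conjugatesOf d ∧ Commute a x ∧ Commute e (a * x) := by
  intro e he
  have sq : ∀ a ∈ conjugatesOf d, a * a = 1 := fun a ha => by
    obtain ⟨g, rfl⟩ := isConj_iff.1 ha
    simp [mul_assoc, sq_cancel_left (mul_self_of_orderOf_two hd)]
  have hc : ∀ g, ∀ a ∈ conjugatesOf d, g * a * g⁻¹ ∈ conjugatesOf d := fun g a ha =>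
    IsConj.trans ha (isConj_iff.2 ⟨g, rfl⟩)
  have sx := mul_self_of_orderOf_two hx
  have hinj : Set.InjOn (fun a => a * e * a) (conjugatesOf d) := by
    intro a ha b hb h
    have : a * e * (a * e) = b * e * (b * e) := by
      rw [← mul_assoc, ← mul_assoc]; exact congrArg (· * e) h
    exact mul_right_cancel (ZStar.eq_of_sq_eq_of_odd (hodd a ha e he) (hodd b hb e he) this)
  have hmap : Set.MapsTo (fun a => a * e * a) (conjugatesOf d) (conjugatesOf d) := fun a ha => by
    have := hc a e he
    rwa [inv_eq_of_sq (sq a ha)] at this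
  have hsurj := ((Set.toFinite _).injOn_iff_bijOn_of_mapsTo hmap).1 hinj
  have hiff : ∀ a ∈ conjugatesOf d, Commute a x → (Commute e (a * x) ↔ a * e * a = x * e * x) := by
    intro a ha hax
    constructor
    · intro h
      have : a * (e * (a * x)) * x = a * (a * x * e) * x := by rw [h.eq]
      simpa only [mul_assoc, sx, mul_one, sq_cancel_left (sq a ha)] using this
    · intro h
      have : a * (a * e * a) * x = a * (x * e * x) * x := by rw [h]
      simpa only [Commute, SemiconjBy, mul_assoc, sx, mul_one, sq_cancel_left (sq a ha)] using this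
  have hxe : x * e * x ∈ conjugatesOf d := by
    have := hc x e he
    rwa [inv_eq_of_sq sx] at this
  obtain ⟨a, ha, hae⟩ := hsurj.surjOn hxe
  simp only at hae
  have hxa : x * a * x ∈ conjugatesOf d := by
    have := hc x a ha
    rwa [inv_eq_of_sq sx] at this
  have h1 : Commute a x := by
    refine (commute_of_conj_eq_self sx (hinj hxa ha ?_)).symm
    simp only
    rw [hae]
    have : x * a * x * e * (x * a * x) = x * (a * (x * e * x) * a) * x := by simp only [mul_assoc]
    rw [this, ← hae]
    simp only [mul_assoc, sq_cancel_left (sq a ha), sq a ha, mul_one]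
    simpa only [mul_assoc] using hae.symm
  refine ⟨a, ⟨ha, h1, (hiff a ha h1).2 hae⟩, fun b ⟨hb, h2, h3⟩ => hinj hb ha ?_⟩
  simp only
  rw [hae, (hiff b hb h2).1 h3]

end Cfsg.Agent.S5562
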