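import Cfsg.Statements.S5597
import Cfsg.Agent.Lib.Extraspecial.Singular

set_option autoImplicit false
open Cfsg Cfsg.Lib Subgroup

namespace Cfsg.Agent.S5597

/-- Setting: `z` is an involution of the finite group `G`; for each element `x`, `Q x` is the largest normal 2-subgroup of the centralizer of `x`; `Q z` is extraspecial and contains its own centralizer in `G`. A subgroup `U` is singular when it is elementary abelian, every non-identity element of `U` is conjugate to `z`, and any two non-identity elements `u`, `v` of `U` are orthogonal (`v ∈ Q u`). Write `QU` for the intersection of the `Q u` and `LU` for the join of the `Q u` over the non-identity `u` in `U`. If `U` is a non-trivial singular subgroup, then `LU` acts trivially on `QU / U` (every commutator of an element of `LU` with an element of `QU` lies in `U`), and for every `x` in `QU` outside `U` the centralizer of `U` in `LU` permutes the coset `x U` transitively: each `x u` with `u ∈ U` is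 a conjugate of `x` by an element of `LU` centralizing `U`. -/
theorem result {G : Type*} [Group G] [Finite G]
    (Q : G → Subgroup G)
    (hQ : ∀ x : G, Q x = (Cfsg.pCore 2 ↥(Subgroup.centralizer ({x} : Set G))).map (Subgroup.centralizer ({x} : Set G)).subtype)
    (z : G) (hz : orderOf z = 2) (hE : Cfsg.IsExtraspecial 2 ↥(Q z))
    (hC : Subgroup.centralizer ((Q z : Subgroup G) : Set G) ≤ Q z)
    (U : Subgroup G) (hU2 : ∀ u ∈ U, u * u = 1)
    (hS : ∀ u ∈ U, u ≠ 1 → ∃ g : G, g * z * g⁻¹ = u)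
    (hO : ∀ u ∈ U, ∀ v ∈ U, u ≠ 1 → v ≠ 1 → v ∈ Q u)
    (QU LU : Subgroup G) (hQU : QU = ⨅ u ∈ ((U : Set G) \ {1}), Q u) (hLU : LU = ⨆ u ∈ ((U : Set G) \ {1}), Q u)
    (hU : U ≠ ⊥) :
    (∀ g ∈ LU, ∀ x ∈ QU, g * x * g⁻¹ * x⁻¹ ∈ U) ∧
      ∀ x ∈ QU, x ∉ U → ∀ u ∈ U, ∃ g ∈ LU ⊓ Subgroup.centralizer (U : Set G), g * x * g⁻¹ = x * u := by
  have h := ES.sing_of hQ hz hE hC hS hO
  have hL : ∀ u ∈ U, u ≠ 1 → Q u ≤ LU := fun u hu h1 =>
    hLU ▸ le_iSup₂_of_le (f := fun u (_ : u ∈ (U : Set G) \ {1}) => Q u) u ⟨hu, h1⟩ le_rfl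
  have hR : ∀ u ∈ U, u ≠ 1 → QU ≤ Q u := fun u hu h1 =>
    hQU ▸ iInf₂_le (f := fun u (_ : u ∈ (U : Set G) \ {1}) => Q u) u ⟨hu, h1⟩
  constructor
  · have h1 : LU ≤ PGroup.commStab U QU := hLU ▸ iSup₂_le fun u hu g hg =>
      ⟨h.le_normalizer hu.1 hu.2 hg, fun x hx => zpowers_le.2 hu.1
        ((h.lg u hu.1 hu.2).commutator_mem hg (hR u hu.1 hu.2 hx))⟩
    exact fun g hg x hx => (h1 hg).2 x hx
  · intro x hx hxU u hu
    by_cases h1 : u = 1
    · exact ⟨1, one_mem _, by simp [h1]⟩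
    obtain ⟨g, hg, e⟩ := (h.lg u hu h1).exists_conj_of_not_mem (h.es u hu h1) (h.le u hu h1) hu
      (hR u hu h1 hx) hxU
    exact ⟨g, ⟨hL u hu h1 hg.1, hg.2⟩, e.trans ((h.lg u hu h1).comm (hR u hu h1 hx)).symm⟩

end Cfsg.Agent.S5597
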