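import Cfsg.Statements.S5945
import Cfsg.Agent.Lib.Perm.Sym

set_option autoImplicit false
open Cfsg

namespace Cfsg.Agent.S5945

open MulAction Subgroup Cfsg.Lib.Perm Cfsg.Lib Equiv

/-- The symmetric group S_6 has exactly 12 subgroups of index 6; each of them is isomorphic to S_5, and at least one of them is not the stabilizer of any point. -/
theorem result : Nat.card {H : Subgroup (Equiv.Perm (Fin 6)) // H.index = 6} = 12 ∧ (∀ H : Subgroup (Equiv.Perm (Fin 6)), H.index = 6 → Nonempty (H ≃* Equiv.Perm (Fin 5))) ∧ ∃ H : Subgroup (Equiv.Perm (Fin 6)), H.index = 6 ∧ ∀ a : Fin 6, H ≠ MulAction.stabilizer (Equiv.Perm (Fin 6)) a := by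
  have h6 : Nat.card (Fin 6) = 6 := by simp
  obtain ⟨φ, hφ⟩ := exists_outer h6
  have hi := fun a : Fin 6 => (index_stabilizer_perm a).trans h6
  have hi' := fun a : Fin 6 => (index_comap_of_surjective (stabilizer (Perm (Fin 6)) a)
    (f := φ.toMonoidHom) φ.surjective).trans (hi a)
  refine ⟨?_, fun H hH => ?_, _, hi' 0, hφ 0⟩
  · let f : Fin 6 ⊕ Fin 6 → {H : Subgroup (Perm (Fin 6)) // H.index = 6} :=
      Sum.elim (fun a => ⟨_, hi a⟩) fun a => ⟨_, hi' a⟩
    have hinj := stabilizer_perm_injective (Ω := Fin 6) (by simp)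
    rw [← Nat.card_congr (Equiv.ofBijective f ⟨?_, fun ⟨H, hH⟩ => ?_⟩)]
    · simp
    · rintro (a | a) (b | b) e <;> replace e := congrArg Subtype.val e
      · rw [hinj e]
      · exact absurd e.symm (hφ _ _)
      · exact absurd e (hφ _ _)
      · rw [hinj (comap_injective φ.surjective e)]
    · obtain ⟨x, rfl | rfl⟩ := index_six h6 hφ hH
      exacts [⟨.inl x, rfl⟩, ⟨.inr x, rfl⟩]
  · obtain ⟨x, rfl | rfl⟩ := index_six h6 hφ hH <;>
      obtain ⟨e⟩ := nonempty_stabilizer_equiv x (n := 5) h6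
    · exact ⟨e⟩
    · rw [comap_equiv_eq_map_symm']
      exact ⟨(φ.symm.subgroupMap _).symm.trans e⟩

end Cfsg.Agent.S5945
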