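import Cfsg.Statements.S5712
import Cfsg.Agent.Lib.Symp.TwoTv2
import Cfsg.Agent.S0247
import Cfsg.Agent.S5945

set_option autoImplicit false
open Cfsg

namespace Cfsg.Agent.S5712

/-- Let F be a finite field of characteristic two, n ≥ 2, V = F^{2n} with the non-degenerate alternating form f(u, v) = Σ (u_i v_{n+i} + u_{n+i} v_i), and G the group of invertible matrices preserving f. Let a ≠ 0 be a vector, H its stabilizer in G, and X a subgroup of O₂(H) of order |F|^{2n−2} no element of which is a transvection (no element g has g − 1 of rank one). If L is a subgroup of G containing X that acts irreducibly on V (no proper non-zero L-invariant subspace), then L = G, or, for some quadratic form Q on V whose polar form is f, L is the isometry group of Q or its subgroup of the isometries g for which g − 1 has even rank, or |F| = 2, n = 2 and L is isomorphic to the alternating group of degree 6 or to the symmetric group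 of degree 5. -/
theorem result {F : Type*} [Field F] [Fintype F] [CharP F 2] {n : ℕ} (hn : 2 ≤ n) (a : (Fin n ⊕ Fin n → F)) (ha : a ≠ 0)
    (X : Subgroup (GL (Fin n ⊕ Fin n) F)) (hXG : X ≤ Cfsg.preserving (Units.coeHom (Matrix (Fin n ⊕ Fin n) (Fin n ⊕ Fin n) F)) (fun u v : (Fin n ⊕ Fin n → F) => ∑ i : Fin n, (u (Sum.inl i) * v (Sum.inr i) + u (Sum.inr i) * v (Sum.inl i))))
    (hXO : ∀ H : Subgroup (GL (Fin n ⊕ Fin n) F),
      (∀ g : GL (Fin n ⊕ Fin n) F, g ∈ H ↔ (g ∈ Cfsg.preserving (Units.coeHom (Matrix (Fin n ⊕ Fin n) (Fin n ⊕ Fin n) F)) (fun u v : (Fin n ⊕ Fin n → F) => ∑ i : Fin n, (u (Sum.inl i) * v (Sum.inr i) + u (Sum.inr i) * v (Sum.inl i))) ∧ Matrix.mulVec (g : Matrix (Fin n ⊕ Fin n) (Fin n ⊕ Fin n) F) a = a)) →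
      X ≤ (Cfsg.pCore 2 ↥H).map H.subtype)
    (hcard : Nat.card ↥X = Fintype.card F ^ (2 * n - 2))
    (hntv : ∀ x ∈ X, ((x : Matrix (Fin n ⊕ Fin n) (Fin n ⊕ Fin n) F) - 1).rank ≠ 1)
    (L : Subgroup (GL (Fin n ⊕ Fin n) F)) (hXL : X ≤ L) (hLG : L ≤ Cfsg.preserving (Units.coeHom (Matrix (Fin n ⊕ Fin n) (Fin n ⊕ Fin n) F)) (fun u v : (Fin n ⊕ Fin n → F) => ∑ i : Fin n, (u (Sum.inl i) * v (Sum.inr i) + u (Sum.inr i) * v (Sum.inl i))))
    (hirr : ∀ W : Submodule F (Fin n ⊕ Fin n → F), (∀ g ∈ L, ∀ w ∈ W, Matrix.mulVec (g : Matrix (Fin n ⊕ Fin n) (Fin n ⊕ Fin n) F) w ∈ W) → W = ⊥ ∨ W = ⊤) :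
    L = Cfsg.preserving (Units.coeHom (Matrix (Fin n ⊕ Fin n) (Fin n ⊕ Fin n) F)) (fun u v : (Fin n ⊕ Fin n → F) => ∑ i : Fin n, (u (Sum.inl i) * v (Sum.inr i) + u (Sum.inr i) * v (Sum.inl i))) ∨
    (∃ Q : QuadraticForm F (Fin n ⊕ Fin n → F), (∀ u v, QuadraticMap.polar ⇑Q u v = (fun u v : (Fin n ⊕ Fin n → F) => ∑ i : Fin n, (u (Sum.inl i) * v (Sum.inr i) + u (Sum.inr i) * v (Sum.inl i))) u v) ∧
      (L = Cfsg.isometryGroup F ⇑Q ∨
        ∀ g : GL (Fin n ⊕ Fin n) F, g ∈ L ↔ (g ∈ Cfsg.isometryGroup F ⇑Q ∧ Even ((g : Matrix (Fin n ⊕ Fin n) (Fin n ⊕ Fin n) F) - 1).rank))) ∨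
    (Fintype.card F = 2 ∧ n = 2 ∧ (Nonempty (↥L ≃* ↥(alternatingGroup (Fin 6))) ∨ Nonempty (↥L ≃* Equiv.Perm (Fin 5)))) := by
  open Cfsg.Lib.Symp Cfsg.Lib.Asch Cfsg.Lib.Linear Matrix in
  generalize hf : (fun u v : (Fin n ⊕ Fin n → F) => ∑ i : Fin n, (u (Sum.inl i) * v (Sum.inr i) +
    u (Sum.inr i) * v (Sum.inl i))) = f at *
  have h2 : (2 : F) = 0 := CharP.cast_eq_zero F 2
  have hf' : f = sympForm n F := by
    ext u v
    rw [← hf, sympForm_eq_bil, bil_apply_sum]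
    exact Finset.sum_congr rfl fun i _ => by linear_combination (u (.inl i) * v (.inr i)) * h2
  have h : Alt f := hf' ▸ alt_sympForm n
  let H : Subgroup (GL (Fin n ⊕ Fin n) F) :=
    { carrier := {g | g ∈ iso f ∧ g.1 *ᵥ a = a}
      mul_mem' := fun h1 h2 => ⟨mul_mem h1.1 h2.1, by rw [GL_mul_mulVec, h2.2, h1.2]⟩
      one_mem' := ⟨one_mem _, by simp⟩
      inv_mem' := fun {g} h1 => ⟨inv_mem h1.1, by
        nth_rw 1 [← h1.2]; exact GL_inv_mulVec_mulVec g a⟩ }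
  have hH : ∀ g, g ∈ H ↔ g ∈ iso f ∧ g.1 *ᵥ a = a := fun _ => Iff.rfl
  have hX := hXO H hH
  have hT : TT L f a := ⟨h, h2, hLG, ha, by simp; omega, fun z hz => by
    obtain ⟨c, hc⟩ := h.full_of_card (X := X) ha (fun g hg => ⟨hXG hg,
      ((hH g).1 (Subgroup.map_subtype_le _ (hX hg))).2,
      fun z hz => h.sub_mem_of_pCore hH ha (hX hg) hz⟩)
      (by rw [hcard, Nat.card_eq_fintype_card]; simp [two_mul]) hntv hz
    exact ⟨c, hc.mono hXL⟩, hirr⟩
  by_cases hA : NoTv L f a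
  swap
  · exact Or.inl (le_antisymm hLG (hT.iso_le hA))
  by_cases hs : Sg L f a
  · exact Or.inr (Or.inl (hT.orth hA hs))
  have hF : Fintype.card F = 2 := by
    by_contra hF
    obtain ⟨c, h0, h1⟩ := exists_ne_zero_ne_one (F := F) (by
      have := Fintype.one_lt_card (α := F)
      rw [Nat.card_eq_fintype_card]; omega)
    exact hs (hT.sg_of_card hA h0 h1)
  obtain rfl : n = 2 := by
    by_contra h3
    exact hs (hT.sg_of_five (by simp; omega))
  have h120 := hT.card_of_not_sg (Nat.card_eq_fintype_card.trans hF) (by simp) hs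
  obtain ⟨e₁⟩ := S0247.result hF
  obtain ⟨e₂⟩ := nonempty_isom_equiv (l := Fin 2) h.isAlt h.nondegenerate (by simp)
  let e₃ : iso f ≃* isom h.bilin := ((Lib.Orth.glEquiv _ F).subgroupMap (iso f)).trans
    (MulEquiv.subgroupCongr (by
      ext g
      obtain ⟨g, rfl⟩ := (Lib.Orth.glEquiv _ F).surjective g
      exact Subgroup.mem_map_iff_mem (Lib.Orth.glEquiv _ F).injective))
  let e := (e₃.trans e₂).trans e₁
  let L' := (L.subgroupOf (iso f)).map (e : iso f →* Equiv.Perm (Fin 6))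
  have e₄ : L ≃* L' := (Subgroup.subgroupOfEquivOfLe hLG).symm.trans (e.subgroupMap _)
  have hi := L'.index_mul_card
  rw [← Nat.card_congr e₄.toEquiv, Nat.card_perm, Nat.card_fin] at hi
  by_cases h3 : 2 < L'.index
  · have h4 := Lib.Perm.card_le_index (by simp) h3
    rw [Nat.card_fin] at h4
    obtain ⟨e₅⟩ := S5945.result.2.1 L' (by
      have : L'.index * 120 ≤ 720 := le_trans (Nat.mul_le_mul_left _ h120) hi.le
      omega)
    exact Or.inr (Or.inr ⟨hF, rfl, Or.inr ⟨e₄.trans e₅⟩⟩)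
  by_cases h4 : L'.index = 2
  · exact Or.inr (Or.inr ⟨hF, rfl, Or.inl ⟨e₄.trans
      (MulEquiv.subgroupCongr (Equiv.Perm.eq_alternatingGroup_of_index_eq_two h4))⟩⟩)
  have h5 : L' = ⊤ := Subgroup.index_eq_one.1 (by have := L'.index_ne_zero_of_finite; omega)
  refine Or.inl (le_antisymm hLG fun g hg => ?_)
  exact (Subgroup.mem_map_iff_mem (K := L.subgroupOf (iso f)) (x := ⟨g, hg⟩)
    (f := (e : iso f →* Equiv.Perm (Fin 6))) e.injective).1
    (h5 ▸ Subgroup.mem_top (e ⟨g, hg⟩) : e ⟨g, hg⟩ ∈ L')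

end Cfsg.Agent.S5712
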