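import Cfsg.Statements.S5722
import Cfsg.Agent.Lib.CharDeg.CompLen3

set_option autoImplicit false
open Cfsg

namespace Cfsg.Agent.S5722

open Cfsg.Lib.CharDeg.CompLen in

/-- If a finite group G acts faithfully on a finite set with n points and r orbits, then the composition length of G is at most 4(n − r)/3. Here the composition length is expressed through chains: the conclusion bounds the length l of every chain of subgroups 1 = H₀ < H₁ < ⋯ < H_l = G in which each term is normal in the next (the longest such chains are exactly the composition series). -/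
theorem result {G Ω : Type*} [Group G] [Finite G] [MulAction G Ω] [FaithfulSMul G Ω] [Fintype Ω]
    (l : ℕ) (H : Fin (l + 1) → Subgroup G) (h0 : H 0 = ⊥) (hl : H (Fin.last l) = ⊤)
    (hchain : ∀ i : Fin l, H i.castSucc < H i.succ ∧ ((H i.castSucc).subgroupOf (H i.succ)).Normal) :
    3 * l ≤ 4 * (Fintype.card Ω - Nat.card (Quotient (MulAction.orbitRel G Ω))) := by
  have h1 := le_cl_of_chain l H hl hchain
  let e := Fintype.equivFin Ω
  let φ : G →* Equiv.Perm (Fin (Fintype.card Ω)) :=
    e.permCongrHom.toMonoidHom.comp (MulAction.toPermHom G Ω)
  have hφ : Function.Injective φ := e.permCongrHom.injective.comp MulAction.toPerm_injective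
  have h2 := cl_congr (MonoidHom.ofInjective hφ)
  let f := Finite.equivFin (Quotient (MulAction.orbitRel G Ω))
  have h3 := bd_all _ (Fin (Fintype.card Ω)) rfl φ.range _
    (fun x => f (Quotient.mk _ (e.symm x)))
    (f.surjective.comp (Quotient.mk_surjective.comp e.symm.surjective)) (by
      rintro ⟨_, g, rfl⟩ x
      refine congrArg f (Quotient.sound ⟨g, ?_⟩)
      change g • e.symm x = e.symm (e (g • e.symm x))
      rw [Equiv.symm_apply_apply])
  rw [Nat.card_fin, Nat.card_fin] at h3
  omega

end Cfsg.Agent.S5722
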