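import Cfsg.Statements.S5729
import Cfsg.Agent.Lib.Perm.Frob
import Cfsg.Agent.Lib.Perm.Multi

set_option autoImplicit false
open Cfsg

namespace Cfsg.Agent.S5729

open Cfsg.Lib.Perm MulAction Subgroup

/-- Let a finite group G act faithfully and transitively on a set with n ≥ 3 points. Then either G is a Frobenius permutation group (Frobenius as a permutation group: transitive, some non-identity element fixes a point, and no non-identity element fixes two points) of order n(n − 1) and exactly |G|/n of its elements are derangements (fix no point), or the number of derangements is greater than |G|/n. -/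
theorem result {G Ω : Type*} [Group G] [Finite G] [MulAction G Ω] [FaithfulSMul G Ω] [Fintype Ω] (htr : MulAction.IsPretransitive G Ω) (hn : 3 ≤ Fintype.card Ω) :
    ((MulAction.IsPretransitive G Ω ∧ (∃ g : G, g ≠ 1 ∧ ∃ ω : Ω, g • ω = ω) ∧ ∀ g : G, g ≠ 1 → Nat.card (MulAction.fixedBy Ω g) ≤ 1) ∧ Nat.card G = Fintype.card Ω * (Fintype.card Ω - 1) ∧ Fintype.card Ω * Nat.card {g : G // ∀ ω : Ω, g • ω ≠ ω} = Nat.card G) ∨
    Nat.card G < Fintype.card Ω * Nat.card {g : G // ∀ ω : Ω, g • ω ≠ ω} := by
  classical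
  have := Fintype.ofFinite G
  rw [← Nat.card_eq_fintype_card] at hn ⊢
  set n := Nat.card Ω with hnd
  have : Nontrivial Ω := Finite.one_lt_card_iff_nontrivial.1 (by omega)
  let f : G → ℕ := fun g => Nat.card (fixedBy Ω g)
  have h1 : ∑ g, f g = Nat.card G := sum_card_fixedBy_of_transitive
  have h2 : 2 * Nat.card G ≤ ∑ g, f g * f g := by
    have e : ∀ g : G, Nat.card (fixedBy (Ω × Ω) g) = f g * f g := fun g => by
      rw [← Nat.card_prod]
      exact Nat.card_congr ((Equiv.subtypeEquivRight fun p => by simp [Prod.ext_iff]).trans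
        (Equiv.subtypeProdEquivProd (p := fun x => x ∈ fixedBy Ω g) (q := fun x => x ∈ fixedBy Ω g)))
    have := sum_card_fixedBy (G := G) (α := Ω × Ω)
    simp only [e] at this
    rw [this]
    refine Nat.mul_le_mul_right _ (Finite.one_lt_card_iff_nontrivial.2 ?_)
    obtain ⟨a, b, hab⟩ := exists_pair_ne Ω
    refine ⟨Quotient.mk'' (a, b), Quotient.mk'' (a, a), fun h => ?_⟩
    obtain ⟨g, hg⟩ := Quotient.exact' h
    exact hab ((congrArg Prod.fst hg).symm.trans (congrArg Prod.snd hg))
  have hD : Nat.card {g : G // ∀ ω : Ω, g • ω ≠ ω} = (Finset.univ.filter fun g => f g = 0).card := by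
    rw [Nat.card_eq_fintype_card, Fintype.card_subtype]
    congr 1
    ext g
    simp [f, Nat.card_eq_zero, Set.eq_empty_iff_forall_notMem, not_infinite_iff_finite.2]
  have hle : ∀ g, f g ≤ n := fun g => Nat.card_le_card_of_injective _ Subtype.val_injective
  let t : G → ℤ := fun g => (if f g = 0 then (n : ℤ) else 0) - ((f g : ℤ) - 1) * (f g - n)
  have ht : ∀ g, 0 ≤ t g := fun g => by
    have h3 : (f g : ℤ) ≤ n := by exact_mod_cast hle g
    by_cases h : f g = 0
    · simp [t, h]
    · have : (1 : ℤ) ≤ f g := by omega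
      simp only [t, h, if_false]
      nlinarith
  have hs : ∑ g, t g = n * Nat.card {g : G // ∀ ω : Ω, g • ω ≠ ω} -
      ((∑ g, f g * f g : ℕ) - Nat.card G) := by
    have e : ∀ g, t g = (if f g = 0 then (n : ℤ) else 0) -
      ((f g * f g : ℕ) - (n + 1) * (f g : ℤ) + n) := fun g => by simp only [t]; push_cast; ring
    simp only [e, Finset.sum_sub_distrib, Finset.sum_add_distrib, ← Finset.mul_sum]
    rw [← Finset.sum_filter, Finset.sum_const, ← hD, ← Nat.cast_sum, ← Nat.cast_sum, h1,
      Finset.sum_const, Finset.card_univ, ← Nat.card_eq_fintype_card]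
    simp only [nsmul_eq_mul]
    ring
  have h0 := Finset.sum_nonneg fun g (_ : g ∈ Finset.univ) => ht g
  rw [or_iff_not_imp_right, not_lt]
  intro hge
  have h3 : (n : ℤ) * Nat.card {g : G // ∀ ω : Ω, g • ω ≠ ω} ≤ Nat.card G := by exact_mod_cast hge
  have h4 : (2 : ℤ) * Nat.card G ≤ (∑ g, f g * f g : ℕ) := by exact_mod_cast h2
  have h5 := (Finset.sum_eq_zero_iff_of_nonneg fun g (_ : g ∈ Finset.univ) => ht g).1 (by omega)
  have h6 : n * Nat.card {g : G // ∀ ω : Ω, g • ω ≠ ω} = Nat.card G := by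
    have : (n : ℤ) * Nat.card {g : G // ∀ ω : Ω, g • ω ≠ ω} = Nat.card G := by omega
    exact_mod_cast this
  have h7 : ∀ g : G, g ≠ 1 → f g ≤ 1 := by
    intro g hg
    by_contra h
    have h8 := h5 g (Finset.mem_univ _)
    simp only [t, show f g ≠ 0 by omega, if_false, zero_sub, neg_eq_zero, mul_eq_zero] at h8
    have h9 : f g = n := by omega
    refine hg (FaithfulSMul.eq_of_smul_eq_smul (α := Ω) fun a => ?_)
    have : fixedBy Ω g = Set.univ := Set.eq_of_subset_of_ncard_le (Set.subset_univ _)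
      (by rw [Set.ncard_univ]; exact h9.ge)
    rw [one_smul]
    exact (this ▸ Set.mem_univ a : a ∈ fixedBy Ω g)
  have h8 := card_fpf_add_one (G := G) (α := Ω) fun g a b hab ha hb => by
    by_contra hg
    have := (Finite.card_le_one_iff_subsingleton).1 (h7 g hg)
    exact hab (congrArg Subtype.val (Subsingleton.elim (⟨a, ha⟩ : fixedBy Ω g) ⟨b, hb⟩))
  have h9 : Nat.card G = n * (n - 1) := by rw [← h6, hnd, ← h8]; simp
  refine ⟨⟨htr, ?_, h7⟩, h9, h6⟩
  obtain ⟨a⟩ : Nonempty Ω := inferInstance
  have h10 := card_eq_card_mul_stabilizer (G := G) a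
  rw [h9] at h10
  have h11 := Nat.eq_of_mul_eq_mul_left (by omega) h10
  have : Nontrivial (stabilizer G a) := Finite.one_lt_card_iff_nontrivial.1 (by omega)
  obtain ⟨g, hg⟩ := exists_ne (1 : stabilizer G a)
  exact ⟨g, fun h => hg (Subtype.ext h), a, g.2⟩

end Cfsg.Agent.S5729
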