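import Cfsg.Statements.S5730
import Cfsg.Agent.Lib.CharDeg.Derange

set_option autoImplicit false
open Cfsg

namespace Cfsg.Agent.S5730

open Cfsg.Lib.CharDeg.Der MulAction Finset

/-- Let a finite group G act faithfully and transitively on a set with n ≥ 7 points. Then either G is a Frobenius permutation group (Frobenius as a permutation group: transitive, some non-identity element fixes a point, and no non-identity element fixes two points) of order n(n − 1)/a with a ∈ {1, 2}, in which case exactly a|G|/n of its elements are derangements, or the number of derangements is at least 2|G|/n. (Equality does occur: PSL₃(2) acting on the 7 points of the Fano plane has exactly 2|G|/7 derangements.) -/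
theorem result {G Ω : Type*} [Group G] [Finite G] [MulAction G Ω] [FaithfulSMul G Ω] [Fintype Ω] (htr : MulAction.IsPretransitive G Ω) (hn : 7 ≤ Fintype.card Ω) :
    (∃ a : ℕ, (a = 1 ∨ a = 2) ∧ (MulAction.IsPretransitive G Ω ∧ (∃ g : G, g ≠ 1 ∧ ∃ ω : Ω, g • ω = ω) ∧ ∀ g : G, g ≠ 1 → Nat.card (MulAction.fixedBy Ω g) ≤ 1) ∧ a * Nat.card G = Fintype.card Ω * (Fintype.card Ω - 1) ∧ Fintype.card Ω * Nat.card {g : G // ∀ ω : Ω, g • ω ≠ ω} = a * Nat.card G) ∨
    2 * Nat.card G ≤ Fintype.card Ω * Nat.card {g : G // ∀ ω : Ω, g • ω ≠ ω} := by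
  classical
  haveI := Fintype.ofFinite G
  have hfx : ∀ g : G, Nat.card (fixedBy Ω g) = #(fx Ω g) := fun g => by
    rw [← Nat.card_eq_finsetCard]
    exact Nat.card_congr (Equiv.subtypeEquivRight fun x => by simp [mem_fx])
  have hD : Nat.card {g : G // ∀ ω : Ω, g • ω ≠ ω} = #(univ.filter fun g : G => #(fx Ω g) = 0) := by
    rw [← Nat.card_eq_finsetCard]
    exact Nat.card_congr (Equiv.subtypeEquivRight fun g => by
      simp [Finset.eq_empty_iff_forall_notMem, mem_fx])
  haveI : Nonempty Ω := Fintype.card_pos_iff.1 (by omega)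
  have h1 : ∑ g : G, #(fx Ω g) = Fintype.card G := by
    haveI : Unique (Quotient (orbitRel G Ω)) := ((pretransitive_iff_unique_quotient_of_nonempty G Ω).1 htr).some
    have := sum_card_fixedBy_eq_card_orbits_mul_card_group G Ω
    rw [Fintype.card_unique, one_mul] at this
    rw [← this]
    exact sum_congr rfl fun g _ => by rw [← hfx, Nat.card_eq_fintype_card]
  have h1' : ∑ g : G, (#(fx Ω g) : ℚ) = Fintype.card G := by exact_mod_cast h1
  have hn' : (7 : ℚ) ≤ Fintype.card Ω := by exact_mod_cast hn
  rw [hD, Nat.card_eq_fintype_card]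
  by_cases h2 : Two G Ω
  · obtain ⟨a, b, hab⟩ := Fintype.exists_pair_of_one_lt_card (α := Ω) (by omega)
    have hc := h2.card_eq hab
    have hs := h2.sum_pairs hab fun k => (1 : ℚ) / k
    have hs' : ∑ g : G, (#(fx Ω g) : ℚ) * (#(fx Ω g) - 1) * (1 / #(fx Ω g)) =
        #(univ.filter fun g : G => #(fx Ω g) = 0) := by
      have : ∀ g : G, (#(fx Ω g) : ℚ) * (#(fx Ω g) - 1) * (1 / #(fx Ω g)) =
          #(fx Ω g) - 1 + if #(fx Ω g) = 0 then 1 else 0 := by
        intro g
        split_ifs with h
        · simp [h]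
        · have : (#(fx Ω g) : ℚ) ≠ 0 := by exact_mod_cast h
          field_simp; ring
      rw [sum_congr rfl fun g _ => this g, sum_add_distrib, sum_sub_distrib, h1', sum_boole]
      simp
    rw [hs'] at hs
    by_cases h3 : ∃ g ∈ st G a b, g ≠ 1
    · right
      obtain ⟨g, hg, hg1⟩ := h3
      have h4 := h2.main hn hab hg hg1
      have : (2 * Fintype.card G : ℚ) ≤ Fintype.card Ω * #(univ.filter fun g : G => #(fx Ω g) = 0) := by
        rw [hs, hc, Nat.cast_mul, Nat.cast_mul, Nat.cast_sub (by omega), Nat.cast_one]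
        have := mul_le_mul_of_nonneg_left h4 (show (0 : ℚ) ≤ Fintype.card Ω * (Fintype.card Ω - 1) by nlinarith)
        linarith
      exact_mod_cast this
    · left
      push Not at h3
      have hL : univ.filter (· ∈ st G a b) = {1} := by
        ext g
        simp only [mem_filter, mem_univ, true_and, mem_singleton]
        exact ⟨h3 g, fun h => h ▸ Subgroup.one_mem _⟩
      rw [hL] at hc hs
      have e1 : #(fx Ω (1 : G)) = Fintype.card Ω := by
        rw [← card_univ]; congr 1; ext x; simp [mem_fx]
      rw [card_singleton, mul_one] at hc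
      rw [sum_singleton, e1] at hs
      refine ⟨1, Or.inl rfl, ⟨htr, ?_, fun g hg => ?_⟩, by rw [one_mul, hc], ?_⟩
      · obtain ⟨c, hc⟩ : (({a, b} : Finset Ω)ᶜ).Nonempty := by
          have := card_le_two (a := a) (b := b)
          rw [← card_pos, card_compl]; omega
        simp only [mem_compl, mem_insert, mem_singleton, not_or] at hc
        obtain ⟨g, h4, h5⟩ := h2 a b a c hab (Ne.symm hc.1)
        exact ⟨g, fun e => hc.2 (by rw [← h5, e, one_smul]), a, h4⟩
      · rw [hfx, card_le_one]
        intro x hx y hy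
        by_contra hxy
        have h4 := h2.card_st hab hxy
        have h5 : st G a b = ⊥ := (Subgroup.eq_bot_iff_forall _).2 h3
        rw [h5, Subgroup.card_bot, Subgroup.card_eq_one] at h4
        exact hg ((Subgroup.eq_bot_iff_forall _).1 h4 g ⟨mem_fx.1 hx, mem_fx.1 hy⟩)
      · have : (Fintype.card Ω * #(univ.filter fun g : G => #(fx Ω g) = 0) : ℚ) = Fintype.card G := by
          rw [hs, hc, Nat.cast_mul, Nat.cast_sub (by omega), Nat.cast_one]
          field_simp
        rw [one_mul]
        exact_mod_cast this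
  · right
    unfold Two at h2
    push Not at h2
    obtain ⟨a, b, c, d, hab, hcd, h2⟩ := h2
    have h3 := sum_card_fixedBy_eq_card_orbits_mul_card_group G (Ω × Ω)
    have h4 : 2 < Fintype.card (Quotient (orbitRel G (Ω × Ω))) := by
      rw [Fintype.two_lt_card_iff]
      refine ⟨Quotient.mk _ (a, a), Quotient.mk _ (c, d), Quotient.mk _ (a, b), ?_, ?_, ?_⟩ <;> intro h <;>
        obtain ⟨g, hg⟩ := Quotient.exact h <;> simp only [Prod.smul_mk, Prod.mk.injEq] at hg
      · exact hcd (MulAction.injective g (hg.1.trans hg.2.symm))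
      · exact hab (MulAction.injective g (hg.1.trans hg.2.symm))
      · exact h2 g hg.1 hg.2
    have h5 : ∀ g : G, Fintype.card (fixedBy (Ω × Ω) g) = #(fx Ω g) ^ 2 := fun g => by
      rw [pow_two, ← card_product, ← Nat.card_eq_finsetCard, ← Nat.card_eq_fintype_card]
      exact Nat.card_congr (Equiv.subtypeEquivRight fun x => by simp [mem_fx, Prod.ext_iff])
    rw [sum_congr rfl fun g _ => h5 g] at h3
    have h6 : (3 * Fintype.card G : ℚ) ≤ ∑ g : G, (#(fx Ω g) : ℚ) ^ 2 := by
      have : 3 * Fintype.card G ≤ ∑ g : G, #(fx Ω g) ^ 2 := h3 ▸ Nat.mul_le_mul_right _ h4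
      exact_mod_cast this
    have h7 : ∑ g : G, ((#(fx Ω g) : ℚ) ^ 2 - (Fintype.card Ω + 1) * #(fx Ω g) + Fintype.card Ω) ≤
        ∑ g : G, (Fintype.card Ω : ℚ) * if #(fx Ω g) = 0 then 1 else 0 := by
      refine sum_le_sum fun g _ => ?_
      split_ifs with h
      · simp [h]
      · have a1 : (1 : ℚ) ≤ #(fx Ω g) := by exact_mod_cast Nat.pos_of_ne_zero h
        have a2 : (#(fx Ω g) : ℚ) ≤ Fintype.card Ω := by exact_mod_cast card_le_univ _
        nlinarith
    rw [← mul_sum, sum_boole, sum_add_distrib, sum_sub_distrib, ← mul_sum, h1', sum_const, card_univ,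
      nsmul_eq_mul] at h7
    have : (2 * Fintype.card G : ℚ) ≤ Fintype.card Ω * #(univ.filter fun g : G => #(fx Ω g) = 0) := by linarith
    exact_mod_cast this

end Cfsg.Agent.S5730
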