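import Cfsg.Statements.S5736
import Cfsg.Agent.Lib.BS.Binary
import Cfsg.Agent.Lib.Inv.BinaryTI
import Cfsg.Agent.Lib.PSL2.Sub

set_option autoImplicit false
open Cfsg

namespace Cfsg.Agent.S5736
open Cfsg.Lib.Inv

open Subgroup Cfsg.Lib Cfsg.Lib.Inv Cfsg.Lib.BS Cfsg.Lib.Bin Cfsg.Lib.PSL2 Cfsg.Lib.Transfer Cfsg.Lib.BG
open Matrix MatrixGroups MulAction

variable {F : Type*} [Field F]

theorem comm_cases {A B : SL(2, F)} (h : toL A * toL B = toL B * toL A) :
    A.1 * B.1 = B.1 * A.1 ∨ A.1 * B.1 = -(B.1 * A.1) :=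
  (toL_eq_iff.1 ((map_mul toL A B).trans (h.trans (map_mul toL B A).symm))).imp
    (congrArg Subtype.val) (congrArg Subtype.val)

theorem toL_conj {A B C : SL(2, F)} (h : A.1 * B.1 = C.1 * A.1 ∨ A.1 * B.1 = -(C.1 * A.1)) :
    toL A * toL B * (toL A)⁻¹ = toL C :=
  mul_inv_eq_iff_eq_mul.2 ((map_mul toL A B).symm.trans ((toL_eq_iff.2
    (h.imp Subtype.ext Subtype.ext)).trans (map_mul toL C A)))

theorem triple [Finite F] {τ : F} (z : F) (h0 : τ ≠ 0) (h4 : τ ^ 2 ≠ 4) : ∃ A B : SL(2, F),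
    A.1.trace = τ ∧ B.1.trace = τ ∧ (A * B).1.trace = z ∧
      (toL A * toL B = toL B * toL A → 2 * τ ^ 2 + z ^ 2 - τ ^ 2 * z = 4) := by
  obtain ⟨a, c, e⟩ : ∃ a c : F, a ^ 2 + τ * a * c + c ^ 2 - τ * a + (z - τ ^ 2) * c + 1 = 0 := by
    letI := Fintype.ofFinite F
    by_cases h2 : (2 : F) = 0
    · have : CharP F 2 := CharTwo.of_one_ne_zero_of_two_eq_zero one_ne_zero h2
      obtain ⟨a, ha⟩ := FiniteField.isSquare_of_char_two (ringChar.eq F 2) (τ ^ 2 - z - 2)
      exact ⟨a, 1, by linear_combination -ha⟩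
    · open Polynomial in
      obtain ⟨a, c, e⟩ := FiniteField.exists_root_sum_quadratic
        (f := C 1 * X ^ 2 + C (-τ) * X + C 1) (g := C (4 - τ ^ 2) * X ^ 2 + C (2 * z - τ ^ 2) * X + C 0)
        (degree_quadratic one_ne_zero) (degree_quadratic (sub_ne_zero.2 h4.symm)) (by
          rw [← Nat.card_eq_fintype_card]; exact Nat.odd_iff.1 (two_ne_zero_iff_odd.1 h2))
      exact ⟨a - τ * c, 2 * c, by simp at e; linear_combination e⟩
  refine ⟨⟨!![0, -1; 1, τ], by simp [det_fin_two]⟩,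
    ⟨!![a, z + c - τ * (τ - a); c, τ - a], by simp [det_fin_two]; linear_combination -e⟩,
    by simp [trace_fin_two], by simp [trace_fin_two], ?_, fun h => ?_⟩
  · change (!![0, -1; 1, τ] * !![a, z + c - τ * (τ - a); c, τ - a]).trace = z
    simp [trace_fin_two]
  rcases comm_cases h with h | h
  · have h1 := congrFun (congrFun h 0) 0
    have h2 := congrFun (congrFun h 1) 0
    simp [Matrix.mul_apply] at h1 h2
    grind
  · have h1 := congrFun (congrFun h 0) 0
    have h2 := congrFun (congrFun h 1) 0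
    have h3 := congrFun (congrFun h 0) 1
    simp [Matrix.mul_apply] at h1 h2 h3
    grind

theorem triple_torus [Finite F] {y : PSL(2, F)} (h0 : tau (toP y) ≠ 0) (h4 : tau (toP y) ≠ 4)
    (h : (2 : F) = 0 → tau (toP y) = 1 → ∃ ω : F, ω ^ 2 + ω + 1 = 0) :
    ∃ a b, IsConj y a ∧ IsConj y b ∧ IsConj y (a * b) ∧ a * b ≠ b * a := by
  have h1 : ∀ g : PSL(2, F), tau (toP g) = tau (toP y) → g ≠ 1 := fun g e g1 => h4 (by
    rw [← e, g1, map_one, tau_of_mem_unip (one_mem (unip inf))])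
  suffices ∃ A B : SL(2, F), A.1.trace ^ 2 = tau (toP y) ∧ B.1.trace ^ 2 = tau (toP y) ∧
      (A * B).1.trace ^ 2 = tau (toP y) ∧ toL A * toL B ≠ toL B * toL A by
    obtain ⟨A, B, hA, hB, hAB, hne⟩ := this
    rw [← tau_toL] at hA hB hAB
    have h2 : ∀ g : PSL(2, F), tau (toP g) = tau (toP y) → IsConj y g := fun g e =>
      isConj_psl_of_tau_eq (h1 y rfl) (h1 g e) h0 h4 e.symm
    exact ⟨_, _, h2 _ hA, h2 _ hB, map_mul toL A B ▸ h2 _ hAB, hne⟩
  obtain ⟨s, rfl⟩ := toL_surjective y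
  rw [tau_toL] at *
  generalize s.1.trace = τ at *
  have h0' : τ ≠ 0 := fun e => h0 (by rw [e]; simp)
  have h5 : (τ - 2) * (τ + 2) ≠ 0 := fun e => h4 (by linear_combination e)
  by_cases e1 : τ + 1 = 0
  swap
  · obtain ⟨A, B, hA, hB, hAB, hne⟩ := triple τ h0' h4
    refine ⟨A, B, by rw [hA], by rw [hB], by rw [hAB], fun e => ?_⟩
    exact mul_ne_zero (pow_ne_zero 2 (left_ne_zero_of_mul h5)) e1 (by linear_combination -hne e)
  by_cases h2 : (2 : F) = 0
  swap
  · obtain ⟨A, B, hA, hB, hAB, hne⟩ := triple (-τ) h0' h4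
    refine ⟨A, B, by rw [hA], by rw [hB], by rw [hAB, neg_sq], fun e => ?_⟩
    exact mul_ne_zero (pow_ne_zero 2 (right_ne_zero_of_mul h5)) h2
      (by linear_combination -hne e + (τ + 2) ^ 2 * e1)
  obtain ⟨ω, hω⟩ := h h2 (by linear_combination (τ - 1) * e1)
  refine ⟨⟨!![ω, 0; 0, ω ^ 2], by simp [det_fin_two]; grind⟩,
    ⟨!![ω, 1; 0, ω ^ 2], by simp [det_fin_two]; grind⟩, by simp [trace_fin_two]; grind,
    by simp [trace_fin_two]; grind, ?_, fun e => ?_⟩
  · change (!![ω, 0; 0, ω ^ 2] * !![ω, 1; 0, ω ^ 2]).trace ^ 2 = _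
    simp [trace_fin_two]; grind
  · rcases comm_cases e with e | e <;>
    · have h3 := congrFun (congrFun e 0) 1
      simp [Matrix.mul_apply] at h3
      grind

theorem triple_unip [Finite F] (h2 : (2 : F) ≠ 0) {y : PSL(2, F)} {x : P1 F} (hy : y ∈ unipL x)
    (h1 : y ≠ 1) : ∃ a b, IsConj y a ∧ IsConj y b ∧ IsConj y⁻¹ (a * b) ∧ a * b ≠ b * a := by
  obtain ⟨g, rfl⟩ := exists_smulL (inf : P1 F) x
  obtain ⟨α, hα⟩ := (mem_unip_iff_conj (c := toP g) (psl_smul_eq g inf).symm).1 hy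
  have e : y = g * toL (upper α) * g⁻¹ :=
    toP_injective (by rw [map_mul, map_mul, map_inv, toP_toL_upper, hα])
  have h0 : α ≠ 0 := fun e' => h1 (by rw [e, e', upper_zero]; simp)
  have hc : IsConj y (toL (upper α)) := (isConj_iff.2 ⟨g, e.symm⟩).symm
  let A : SL(2, F) := ⟨!![0, -α / 2; 2 / α, 0], by simp [det_fin_two]; field_simp⟩
  let B : SL(2, F) := ⟨!![1, 0; -4 / α, 1], by simp [det_fin_two]⟩
  let C : SL(2, F) := ⟨!![1, 0; 2 / α, 1], by simp [det_fin_two]⟩
  refine ⟨_, toL B, hc, hc.trans (isConj_iff.2 ⟨toL A, ?_⟩), IsConj.trans (isConj_iff.2 ⟨g⁻¹, ?_⟩)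
    (isConj_iff.2 ⟨toL C, (?_ : _ * toL (upper (-α)) * _ = _)⟩), fun e => ?_⟩
  · refine toL_conj (Or.inl ?_)
    ext i j
    fin_cases i <;> fin_cases j <;> simp [A, B, Matrix.mul_apply] <;> field_simp <;> norm_num
  · rw [e, eq_inv_of_mul_eq_one_left (show toL (upper (-α)) * toL (upper α) = 1 by
      rw [← _root_.map_mul, upper_mul, neg_add_cancel, upper_zero, _root_.map_one])]
    group
  · rw [← _root_.map_mul]
    refine toL_conj (Or.inr ?_)
    rw [show (upper α * B).1 = (upper α).1 * B.1 from rfl]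
    ext i j
    fin_cases i <;> fin_cases j <;> simp [C, B, Matrix.mul_apply] <;> field_simp <;> norm_num
  · rcases comm_cases e with e | e
    · have h3 := congrFun (congrFun e 0) 0
      simp [B, Matrix.mul_apply, h0] at h3
      exact h2 (pow_eq_zero_iff two_ne_zero |>.1 (by linear_combination h3))
    · have h3 := congrFun (congrFun e 0) 1
      simp [B, Matrix.mul_apply] at h3
      exact mul_ne_zero h2 h0 (by linear_combination h3)

theorem eq_of_three (h2 : (2 : F) = 0) (hω : ∀ ω : F, ω ^ 2 + ω + 1 ≠ 0) {a b : PSL(2, F)}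
    (ha : tau (toP a) = 1) (hb : tau (toP b) = 1) (hab : tau (toP (a * b)) = 1) : a = b := by
  obtain ⟨A, rfl⟩ := toL_surjective a
  obtain ⟨B, rfl⟩ := toL_surjective b
  rw [← _root_.map_mul toL] at hab
  rw [tau_toL] at ha hb hab
  have key : ∀ x : F, x ^ 2 = 1 → x = 1 := fun x hx =>
    sub_eq_zero.1 (pow_eq_zero_iff two_ne_zero |>.1 (by linear_combination hx + (1 - x) * h2))
  replace ha := key _ ha
  replace hb := key _ hb
  replace hab : (A.1 * B.1).trace = 1 := key _ hab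
  have dA := sl_det A
  have dB := sl_det B
  simp only [trace_fin_two, Matrix.mul_apply, Fin.sum_univ_two] at ha hb hab
  have : CharP F 2 := CharTwo.of_one_ne_zero_of_two_eq_zero one_ne_zero h2
  have h1 : A 0 1 ≠ 0 := fun e => hω (A 0 0) (by grind)
  have h3 : A 0 1 = B 0 1 := by_contra fun e =>
    hω (A 0 1 ^ 2 * (B 1 0 + A 1 0) / (B 0 1 + A 0 1) + A 0 0 ^ 2) (by
      have : B 0 1 + A 0 1 ≠ 0 := by grind
      field_simp
      grind)
  congr 1
  refine sl_ext ?_ h3 ?_ ?_ <;> grind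

variable [Finite F] {H : Subgroup PSL(2, F)}

theorem false_of_even (h7 : 7 ≤ Nat.card F) (ho : Odd (Nat.card F)) (hT : Tri H) (hH : H ≠ ⊤)
    (he : Even (Nat.card H)) : False := by
  have := isSimpleGroup_psl (F := F) (by omega)
  obtain ⟨M, hM⟩ := hT.exists_se (fun _ _ => isConj_psl_of_orderOf_two) hH he
  obtain ⟨Q, D, t, h⟩ := exists_ro_simple hM
  obtain ⟨s, hs, so⟩ := h.exists_inv
  obtain ⟨p, hp⟩ := CharP.exists F
  have := Fact.mk (CharP.char_is_prime F p)
  obtain ⟨a, b, m, hab, hs'⟩ := exists_mem_torusL_of_coprime (AlgebraicClosure F) p (g := s) (by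
    rw [so]
    exact Nat.coprime_two_left.2 (ho.of_dvd_nat (char_dvd_card p)))
  have hC : dihL F a b ≤ M := by
    rw [← centralizer_of_involutionL hab.ne hs' (ne_one_of_orderOf so) (mul_self_of_orderOf so)]
    exact se_centralizer_le hM so (h.QH hs)
  obtain ⟨j, hj, hj'⟩ := SetLike.not_le_iff_exists.1 hab.not_dihL_le_torusL
  obtain ⟨y, yo, hy⟩ := hab.exists_zpowers_eqL
  have hy' : y ∈ torusL F a b := hy ▸ mem_zpowers y
  have hsq : ∀ g ∈ dihL F a b, g ∉ torusL F a b → g * g = 1 := fun g hg hg' =>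
    toK_comp_toP_injective (K := AlgebraicClosure F) (by
      rw [_root_.map_mul, _root_.map_one]
      exact mul_self_of_swap hab.ne (swap_of_mem_pairStab hg hg').1 (swap_of_mem_pairStab hg hg').2)
  have h1 := mul_mem hj (torusL_le_dihL a b hy')
  have h2 := hsq _ h1 fun e => hj' ((mul_mem_cancel_right hy').1 e)
  have h3 := h.inv_comm (rk2_of_se hM) (g := 1) (hsq j hj hj') h2 (by simpa using hC hj)
    (by simpa using hC h1)
  have h4 : y ^ 2 = 1 := by
    rw [mul_assoc, mul_right_inj] at h3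
    rw [mul_assoc, ← mul_assoc y, ← h3, ← mul_assoc, ← mul_assoc, hsq j hj hj', one_mul] at h2
    rwa [sq]
  have h5 := Nat.le_of_dvd two_pos (orderOf_dvd_of_pow_eq_one h4)
  rw [yo, gcd_two_eq_of_odd ho] at h5
  rcases hab.eq_or_eq with e | e <;> omega

theorem of_odd (hT : Tri H) (h1 : H ≠ ⊥) (ho : Odd (Nat.card H)) :
    (2 : F) = 0 ∧ (∀ ω : F, ω ^ 2 + ω + 1 ≠ 0) ∧ Nat.card H = 3 := by
  have hodd : ∀ x ∈ H, Odd (orderOf x) := fun x hx => ho.of_dvd_nat (H.orderOf_dvd_natCard hx)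
  obtain ⟨z, hz, z1, hc⟩ := Sz.exists_comm_conj_of_isSolvable
    (Coprime.isSolvable_of_not_two_dvd (K := H) ho.not_two_dvd_nat) h1
  obtain ⟨p, hp⟩ := CharP.exists F
  have := Fact.mk (CharP.char_is_prime F p)
  by_cases hpz : p ∣ orderOf z
  · exfalso
    obtain ⟨x, hx⟩ := exists_mem_unipL_of_dvd_orderOf p hpz
    have hB : H ≤ stabilizer PSL(2, F) x := fun g hg => by
      have : g * z * g⁻¹ ∈ unipL x :=
        centralizer_of_mem_unipL hx z1 ▸ mem_centralizer_singleton_iff.2 (hc g hg)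
      exact (psl_smul_eq g x).trans (smul_eq_of_conj_mem_unip hx
        (fun e => z1 (toP_injective (e.trans (_root_.map_one _).symm)))
        (by simpa [mem_unipL] using this))
    have hU := hT.le_of_frob hB (normalizer_unipL x).ge (unipL_ne_bot x)
      (fun k _ hk u hu e => by_contra fun u1 =>
        hk (centralizer_of_mem_unipL hu u1 ▸ mem_centralizer_singleton_iff.2 e))
      fun k hk hkU => ⟨fun e => hkU (mem_of_odd_of_sq_mem (hodd k hk) e), by
        have hkx : toP k • x = x := (psl_smul_eq k x).symm.trans (hB hk)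
        obtain ⟨y, hy, e⟩ := exists_fixed_ne_of_not_mem_unip hkx hkU
        obtain ⟨w, w1, w2⟩ := exists_smulL_two hy.symm hy
        refine ⟨w, toP_injective ?_, eq_bot_iff.2 fun u hu => toP_injective ?_⟩
        · simpa using conj_eq_inv_of_swap hy.symm ((psl_smul_eq w x).symm.trans w1)
            ((psl_smul_eq w y).symm.trans w2) hkx e
        · rw [_root_.map_one]
          refine eq_one_of_mem_unip hu.1 hy ?_
          have := mem_stabilizer_iff.1 (mem_conj.1 hu.2)
          rwa [mul_smul, mul_smul, w1, inv_smul_eq_iff, w1, psl_smul_eq] at this⟩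
    obtain ⟨a, b, ha, hb, hab, hne⟩ := triple_unip (two_ne_zero_iff_odd.2
      (odd_card_of_char_ne_two p fun e => (hodd z hz).not_two_dvd_nat (e ▸ hpz))) hx z1
    exact hne (hT.comm_of_ti hU
      (fun a ha b hb => toP_injective (by simpa using (commute_of_mem_unip ha hb).eq))
      (fun g y hy y1 e => (normalizer_unipL x).ge ((psl_smul_eq g x).trans
        (smul_eq_of_conj_mem_unip hy (fun e => y1 (toP_injective (e.trans (_root_.map_one _).symm)))
        (by simpa [mem_unipL] using e)))) hz hz (inv_mem hz) ha hb hab)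
  obtain ⟨a, b, m, hab, hz'⟩ := exists_mem_torusL_of_coprime (AlgebraicClosure F) p (g := z)
    ((Nat.Prime.coprime_iff_not_dvd this.1).2 hpz).symm
  have hi := toK_comp_toP_injective (F := F) (K := AlgebraicClosure F)
  have hN : ∀ g : PSL(2, F), ∀ y ∈ torusL F a b, y ≠ 1 → g * y * g⁻¹ ∈ torusL F a b →
      g ∈ dihL F a b := fun g y hy y1 e => mem_pairStab_of_conj_mem hab.ne hy
    (fun e => y1 (hi (e.trans (_root_.map_one _).symm))) (by simpa [mem_torusL, mem_torus] using e)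
  have hA : H ≤ torusL F a b := le_comap_fix2_of_odd hi hab.ne (fun g hg => hN g z hz' z1
    (centralizer_of_mem_torusL hab.ne hz' (fun e => z1 (eq_one_of_odd_of_mul_self (hodd z hz) e)) ▸
      mem_centralizer_singleton_iff.2 (hc g hg))) ho
  have key : ∀ y ∈ H, y ≠ 1 → (2 : F) = 0 ∧ tau (toP y) = 1 ∧ ∀ ω : F, ω ^ 2 + ω + 1 ≠ 0 :=
    fun y hy y1 => by
      by_contra hn
      have y1' : toP y ≠ 1 := fun e => y1 (toP_injective (e.trans (_root_.map_one _).symm))
      obtain ⟨u, v, hu, hv, huv, hne⟩ := triple_torus (y := y)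
        (fun e => y1 (eq_one_of_odd_of_mul_self (hodd y hy) (toP_injective (by
          simpa using (mul_self_eq_one_iff_tau y1').2 e))))
        (fun e => y1 (hi ((eq_one_of_mem_unip (mem_unip_of_tau (hA hy).1 (by
          show tau (pglMap _ _) = _
          rw [tau_pglMap, e, map_ofNat])) hab.ne.symm (hA hy).2).trans (_root_.map_one _).symm)))
        fun e e' => by_contra fun h => hn ⟨e, e', not_exists.1 h⟩
      exact hne (hT.comm_of_ti hA
        (fun a ha b hb => hi (by simpa using (commute_of_mem_fix2 hab.ne ha hb).eq))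
        (fun g y hy y1 e => (normalizer_of_le_torusL hab.ne le_rfl fun e =>
          y1 (mem_bot.1 (e ▸ hy))).ge (hN g y hy y1 e)) hy hy hy hu hv huv)
  refine ⟨(key z hz z1).1, (key z hz z1).2.2, ?_⟩
  obtain ⟨y, rfl⟩ := (Subgroup.isCyclic_iff_exists_zpowers_eq_top H).1 (isCyclic_of_le_torusL hab.ne hA)
  have y1 : y ≠ 1 := zpowers_ne_bot.1 h1
  rw [Nat.card_zpowers]
  have := Fact.mk Nat.prime_three
  refine orderOf_eq_prime (toP_injective ?_) y1
  simpa using (pow_three_eq_one_iff_tau fun e => y1 (toP_injective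
    (e.trans (_root_.map_one _).symm))).2 (key y (mem_zpowers y) y1).2.1

theorem no_root_iff {a : ℕ} (h2 : (2 : F) = 0) (ha : Nat.card F = 2 ^ a) :
    (∀ ω : F, ω ^ 2 + ω + 1 ≠ 0) ↔ Odd a := by
  have := Fact.mk Nat.prime_three
  have h3 : 3 ∣ Nat.card Fˣ ↔ Even a := by
    rw [Nat.card_units, ha]
    obtain ⟨k, rfl | rfl⟩ := Nat.even_or_odd' a
    · simpa [pow_mul] using Nat.sub_dvd_pow_sub_pow 4 1 k
    · have : 4 ^ k % 3 = 1 := by simp [Nat.pow_mod]
      simp only [pow_succ, pow_mul, Nat.even_add_one, even_two_mul, not_true, iff_false]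
      norm_num
      omega
  rw [← Nat.not_even_iff_odd, ← h3]
  refine ⟨fun h hd => ?_, fun h ω e => h ?_⟩
  · obtain ⟨u, hu⟩ := exists_prime_orderOf_dvd_card' 3 hd
    have h4 : (u : F) ^ 3 = 1 := by rw [← Units.val_pow_eq_pow_val, ← hu, pow_orderOf_eq_one]; rfl
    have h5 : (u : F) - 1 ≠ 0 := fun e => by
      rw [Units.val_eq_one.1 (sub_eq_zero.1 e), orderOf_one] at hu
      omega
    exact h u (mul_left_cancel₀ h5 (by linear_combination h4))
  · have h0 : ω ≠ 0 := fun e' => by simp [e'] at e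
    rw [← orderOf_eq_prime (x := Units.mk0 ω h0) (p := 3)
      (Units.ext (by simp; linear_combination (ω - 1) * e)) fun e' => ?_]
    · exact orderOf_dvd_natCard _
    · have : ω = 1 := congrArg Units.val e'
      exact one_ne_zero (by rw [this] at e; linear_combination e - h2 : (1 : F) = 0)

theorem isBin_three (h2 : (2 : F) = 0) (hω : ∀ ω : F, ω ^ 2 + ω + 1 ≠ 0) (h3 : Nat.card H = 3) :
    IsBin PSL(2, F) (PSL(2, F) ⧸ H) := by
  refine isBin_of_nt fun g₁ g₂ g₃ a b ha hb a1 b1 hab => ?_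
  have := Fact.mk Nat.prime_three
  have h4 : ∀ {g y : PSL(2, F)}, y ∈ g ⋆ H → y ≠ 1 → tau (toP y) = 1 ∧ g ⋆ H = zpowers y :=
    fun {g y} hy y1 => by
      have h5 : y ^ 3 = 1 := orderOf_dvd_iff_pow_eq_one.1
        (h3 ▸ card_conj g H ▸ (g ⋆ H).orderOf_dvd_natCard hy)
      refine ⟨(pow_three_eq_one_iff_tau fun e => y1 (toP_injective
        (e.trans (_root_.map_one _).symm))).1 (by rw [← map_pow, h5, _root_.map_one]),
        (eq_of_le_of_card_ge (zpowers_le.2 hy) ?_).symm⟩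
      rw [card_conj, h3, Nat.card_zpowers, orderOf_eq_prime h5 y1]
  rw [(h4 ha a1).2, (h4 hb b1).2]
  by_cases e : a * b = 1
  · rw [eq_inv_of_mul_eq_one_left e, zpowers_inv]
  · rw [eq_of_three h2 hω (h4 ha a1).1 (h4 hb b1).1 (h4 hab e).1]

/-- Let F be a finite field with q ≥ 4 elements, q ≠ 5, let G = PSL₂(F) and let H be a proper subgroup of G. Then the action of G on the cosets of H is binary if and only if H is trivial, or q is a power of 2 and H is a Sylow 2-subgroup, or q = 2^a with a odd and H has order 3. Here an action is binary (relational complexity 2) when, for every n ≥ 2 and all n-tuples I, J of points, if for every pair of positions some group element carries the corresponding pair of entries of I to those of J, then a single group element carries I to J. -/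
theorem result {F : Type*} [Field F] [Fintype F] (h4 : 4 ≤ Fintype.card F) (h5 : Fintype.card F ≠ 5)
    (H : Subgroup (Matrix.ProjectiveSpecialLinearGroup (Fin 2) F)) (hH : H ≠ ⊤) :
    (∀ (n : ℕ) (I J : Fin n → Matrix.ProjectiveSpecialLinearGroup (Fin 2) F ⧸ H), 2 ≤ n →
        (∀ i j : Fin n, i ≠ j → ∃ g : Matrix.ProjectiveSpecialLinearGroup (Fin 2) F, g • I i = J i ∧ g • I j = J j) → ∃ g : Matrix.ProjectiveSpecialLinearGroup (Fin 2) F, ∀ i, g • I i = J i) ↔
      (H = ⊥ ∨ ((∃ a : ℕ, Fintype.card F = 2 ^ a) ∧ ∃ P : Sylow 2 (Matrix.ProjectiveSpecialLinearGroup (Fin 2) F), H = P) ∨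
        ((∃ a : ℕ, Odd a ∧ Fintype.card F = 2 ^ a) ∧ Nat.card H = 3)) := by
  rw [← Nat.card_eq_fintype_card] at *
  have hch : (2 : F) = 0 ↔ ∃ a, Nat.card F = 2 ^ a := ⟨fun h2 => by
    have : CharP F 2 := CharTwo.of_one_ne_zero_of_two_eq_zero one_ne_zero h2
    exact (exists_card_eq_pow (F := F) 2).imp fun _ h => h.2, fun ⟨a, ha⟩ => by_contra fun h2 => by
      have h3 := two_ne_zero_iff_odd.1 h2
      rw [ha] at h3 h4
      rcases a with _ | a
      · omega
      · exact h3.not_two_dvd_nat (dvd_pow_self 2 a.succ_ne_zero)⟩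
  have hG := fun h2 : (2 : F) = 0 =>
    @binGood_psl PSL(2, F) _ _ F _ _ (CharTwo.of_one_ne_zero_of_two_eq_zero one_ne_zero h2) h4
      (MulEquiv.refl _)
  refine ⟨fun hb => ?_, ?_⟩
  · rcases Nat.even_or_odd (Nat.card H) with he | ho
    · by_cases h2 : (2 : F) = 0
      · obtain ⟨P, hP⟩ := ((hG h2).1.iff hH he).1 hb
        exact Or.inr (Or.inl ⟨hch.1 h2, P, hP.trans ((hG h2).2 P)⟩)
      · have ho := two_ne_zero_iff_odd.1 h2
        exact (false_of_even (by obtain ⟨k, hk⟩ := ho; omega) ho (IsBin.tri hb) hH he).elim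
    · refine (em (H = ⊥)).imp_right fun h1 => Or.inr ?_
      obtain ⟨h2, hω, h3⟩ := of_odd (IsBin.tri hb) h1 ho
      obtain ⟨a, ha⟩ := hch.1 h2
      exact ⟨⟨a, (no_root_iff h2 ha).1 hω, ha⟩, h3⟩
  · rintro (rfl | ⟨ha, P, hP⟩ | ⟨⟨a, ho, ha⟩, h3⟩)
    · exact isBin_bot
    · have h2 := hch.2 ha
      refine ((hG h2).1.iff hH ?_).2 ⟨P, hP.trans ((hG h2).2 P).symm⟩
      have : CharP F 2 := CharTwo.of_one_ne_zero_of_two_eq_zero one_ne_zero h2
      obtain ⟨x, hx⟩ := exists_sylow_eq_unipL 2 P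
      rw [hP, hx, card_unipL]
      exact even_iff_two_dvd.2 (char_dvd_card 2)
    · have h2 := hch.2 ⟨a, ha⟩
      exact isBin_three h2 ((no_root_iff h2 ha).2 ho) h3

end Cfsg.Agent.S5736
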