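import Cfsg.Statements.S5737
import Cfsg.Agent.Lib.BS.Binary
import Cfsg.Agent.Lib.Inv.BinaryTI
import Cfsg.Agent.Lib.Sz.Classes

set_option autoImplicit false
open Cfsg

namespace Cfsg.Agent.S5737
open Cfsg.Lib.Inv

open Subgroup Cfsg.Lib Cfsg.Lib.BS Cfsg.Lib.Bin Cfsg.Lib.Sz Cfsg.Lib.Transfer Cfsg.Lib.BG

theorem sz_wuw {F G : Type*} [Field F] [Group G] (M : Sz.Model F G) {x y : F} (h : M.f x y = 1) :
    M.w * M.u x y * M.w * M.u (y + M.σ x * x) x = M.u y x * M.w := by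
  have := M.charP
  have h1 := M.σ_f x y
  rw [h, map_one] at h1
  apply M.mat_inj
  simp only [map_mul, M.mat_u, M.mat_w, Tits.uM, wM, mul_fin_four, mat4_ext, Tits.f, map_add,
    M.σσ] at h ⊢
  refine ⟨⟨?_, ?_, ?_, ?_⟩, ⟨?_, ?_, ?_, ?_⟩, ⟨?_, ?_, ?_, ?_⟩, ⟨?_, ?_, ?_, ?_⟩⟩ <;> grind

theorem exists_f {F G : Type*} [Field F] [Finite F] [Group G] (M : Sz.Model F G)
    (ht : ∃ t : F, t ≠ 0 ∧ t ≠ 1) (c : F) : ∃ x y, M.f x y = 1 ∧ x ≠ 0 ∧ M.σ x * x ≠ c := by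
  have := M.charP
  by_cases hc : c = 1
  swap
  · exact ⟨1, 0, by simp [Tits.f], one_ne_zero, by simpa using Ne.symm hc⟩
  obtain ⟨v, v0, v1⟩ := ht
  have h1 : 1 + v + M.σ v ≠ 0 := fun e => M.σ_add_self_ne_one v (by grind)
  obtain ⟨y, hy⟩ := M.σ_surj (1 + v + M.σ v)⁻¹
  have hy0 : y ≠ 0 := fun e => inv_ne_zero h1 (by rw [← hy, e, map_zero])
  have h2 := M.σ_ne_zero hy0
  have h3 : M.σ y * (1 + v + M.σ v) = 1 := by rw [hy, inv_mul_cancel₀ h1]
  refine ⟨M.σ y / y, y * v, ?_, div_ne_zero h2 hy0, fun e => ?_⟩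
  · simp only [Tits.f, map_div₀, map_mul, M.σσ]
    field_simp
    linear_combination h3
  · have h4 := M.σ_mul_self_eq_one (e.trans hc)
    rw [div_eq_one_iff_eq hy0] at h4
    obtain h5 | h5 := M.σ_eq_self h4
    · exact hy0 h5
    rw [h4, h5, one_mul] at h3
    exact (M.σ_eq_self (by grind)).elim v0 v1

theorem exists_nf {G : Type*} [Group G] [Finite G] {B Q D Q₀ K : Subgroup G} {t s r x j : G}
    (h : RS B Q D Q₀ K t s r) (hj : j * j = 1) (e : j * x * j⁻¹ = x⁻¹) (h2 : x * x ≠ 1) :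
    ∃ z ∈ Q₀, z ≠ 1 ∧ IsConj x (z * (t * z * t)) := by
  have hj' := inv_eq_of_mul_self hj
  rw [hj'] at e
  have h1 : x * j * (x * j) = 1 := by rw [mul_assoc, ← mul_assoc j, e, mul_inv_cancel]
  have h3 : x * j * j = x := by rw [mul_assoc, hj, mul_one]
  obtain ⟨g, hg, hgt⟩ := h.exists_conj_ut h.rk2 (u := x * j) (orderOf_eq_two_iff.2 ⟨fun e => h2 (by
    rw [eq_inv_of_mul_eq_one_left e, hj', hj]), h1⟩) hj fun e' => h2 (by
      rw [h3, ← mul_assoc, e] at e'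
      exact mul_eq_one_iff_eq_inv.2 e')
  have hz : g * (x * j) * g⁻¹ ∈ Q₀ := (h.memQ0 _).2 ⟨hg, by
    rw [conj_mul, h1, mul_one, mul_inv_cancel]⟩
  have hz1 : g * (x * j) * g⁻¹ ≠ 1 := fun e => h2 (by
    rw [eq_inv_of_mul_eq_one_left (conj_eq_one_iff.1 e), hj', hj])
  have hx : g * x * g⁻¹ = g * (x * j) * g⁻¹ * t := by rw [← hgt, conj_mul, h3]
  generalize g * (x * j) * g⁻¹ = z at hz hz1 hx
  obtain ⟨l, hl, el⟩ := h.exists_k' hz hz1 h.sQ0 h.s_ne_one
  obtain ⟨b, hb, eb, rfl, -⟩ := h.exists_sqrt (h.K_le hl) (h.K_inv hl)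
  refine ⟨_, h.conj_mem_Q0 (h.D_le hb) hz, fun e => hz1 (conj_eq_one_iff.1 e),
    isConj_iff.2 ⟨b * r⁻¹ * g, ?_⟩⟩
  calc _ = b * (r⁻¹ * (g * x * g⁻¹) * r) * b⁻¹ := by group
    _ = b * z * (t * s * t) * b⁻¹ := by
      rw [hx, h.str, ← mul_assoc r⁻¹, ← h.Q0_central hz (inv_mem h.rQ)]; group
    _ = b * z * (t * b * t⁻¹) * (t * (b * z * b⁻¹) * t) * (t⁻¹ * b⁻¹ * t) * b⁻¹ := by
      rw [← el]; group
    _ = _ := by
      rw [eb, h.t_inv, h.tkt_of_inverted (k := b⁻¹) (by rw [conj_inv.symm, eb])]; group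

theorem false_of_odd {F G : Type*} [Field F] [Finite F] [Group G] (M : Sz.Model F G) {m : ℕ}
    (hm : 1 ≤ m) (hq : Nat.card F = 2 ^ (2 * m + 1)) (ht : ∃ t : F, t ≠ 0 ∧ t ≠ 1)
    {H : Subgroup G} (hT : Tri H) (h1 : H ≠ ⊥) (ho : Odd (Nat.card H)) : False := by
  have := M.finite
  have := M.isSimpleGroup ht
  have tor : ∀ x : G, x ≠ 1 → Odd (orderOf x) → ∃ n, IsTorus (centralizer {x}) n := fun x x1 xo => by
    obtain ⟨p, hp⟩ | ⟨y, μ, rfl⟩ | he := M.trichotomy x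
    · exact (M.not_mem_Up_of_odd x1 xo p hp).elim
    · exact ⟨2, M.centralizer_conj_h y x1 ▸ (M.isTorus_H ht).conj y⟩
    · exact ⟨4, he.isTorus hm hq⟩
  have hodd : ∀ x ∈ H, Odd (orderOf x) := fun x hx => ho.of_dvd_nat (H.orderOf_dvd_natCard hx)
  obtain ⟨x, hx, x1, hc⟩ := exists_comm_conj_of_isSolvable
    (Coprime.isSolvable_of_not_two_dvd (K := H) ho.not_two_dvd_nat) h1
  obtain ⟨n, T⟩ := tor x x1 (hodd x hx)
  have hxA : x ∈ centralizer {x} := mem_centralizer_singleton_iff.2 rfl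
  have hA : H ≤ centralizer {x} := fun y hy => T.mem_of_odd
    (T.mem_normalizer hxA x1 (mem_centralizer_singleton_iff.2 (hc y hy))) (hodd y hy)
  obtain ⟨j, hj, jj, j1⟩ := M.exists_sq_mem_normalizer T
  have hro := sz_ro M
  obtain ⟨Q₀, K, s, r, h⟩ := hro.exists_RS (rk2_of_se hro.se)
  obtain rfl : Q₀ = M.Z := Subgroup.ext fun x => by rw [h.memQ0, M.mem_Z_iff, M.mem_B]
  obtain ⟨z, hz, z1, ha⟩ := exists_nf h jj (T.inverts hj jj j1 hxA)
    fun e => x1 (eq_one_of_odd_of_mul_self (hodd x hx) e)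
  obtain ⟨c, rfl⟩ := M.mem_Z.1 hz
  obtain ⟨a, b, hf, a0, hac⟩ := exists_f M ht c
  have e := sz_wuw M hf
  have hu := M.u_mem_U a b
  have e1 := h.Q0_central hz hu
  have e2 := h.Q0_central hz (M.u_mem_U (b + M.σ a * a) a)
  have e3 := h.Q0_central hz (M.u_mem_U b a)
  have e4 := h.Q0_mul_self hz
  have hsq : M.u 0 c * (M.u a b * M.u a b) ≠ 1 := by
    rw [M.u_sq, M.u_zero_mul_u_zero, Ne, M.u_eq_one]
    have := M.charP
    exact fun e => hac (by grind)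
  have hsq' : M.u a b * M.u a b ≠ 1 := mt M.u_sq_eq_one.1 a0
  have hsq4 : M.u a b * M.u a b * (M.u a b * M.u a b) = 1 := by rw [M.u_sq, M.u_zero_sq]
  have hw := h.tt
  have hw' := h.t_inv
  have hmem : ∀ g, g * (M.u 0 c * (M.u a b * M.u a b)) = M.u 0 c * (M.u a b * M.u a b) * g →
      g ∈ M.U := fun g => M.mem_U_of_commute (mul_mem (M.Z_le_U hz) (mul_mem hu hu)) hsq
  have hodd' : ∀ g ∈ M.U, g ≠ 1 → ¬ Odd (orderOf g) := fun g hg g1 go =>
    M.not_mem_Up_of_odd g1 go M.inf (M.Up_inf ▸ hg)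
  generalize M.u 0 c = z at *
  generalize M.u a b = u at *
  generalize M.u (b + M.σ a * a) a = f at *
  generalize M.u b a = g at *
  generalize M.w = w at *
  have e5 : z * (w * z * w) * (w * z * w * (u * (w * z * w) * u⁻¹)) = u * (z * (w * z * w)) * u⁻¹ := by
    calc _ = z * (w * z * (w * w) * z * w) * (u * (w * z * w) * u⁻¹) := by group
      _ = z * u * (w * z * w) * u⁻¹ := by rw [hw, mul_one, mul_assoc w z z, e4, mul_one, hw]; group
      _ = _ := by rw [e1]; group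
  have e6 : w * z * w * (u * (w * z * w) * u⁻¹) = w * g * (z * (w * z * w)) * (w * g)⁻¹ := by
    have e7 : u = w * g * w * f⁻¹ * w := by
      rw [mul_assoc w g w, ← e]; simp only [← mul_assoc, hw, one_mul, mul_inv_cancel_right]
      rw [mul_assoc, hw, mul_one]
    calc _ = w * z * (w * w) * g * w * (f⁻¹ * (w * w) * z * (w * w⁻¹) * f) * w⁻¹ * g⁻¹ * w⁻¹ := by
          rw [e7]; group
      _ = w * (z * g) * w * (f⁻¹ * (z * f)) * w⁻¹ * g⁻¹ * w⁻¹ := by rw [hw]; group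
      _ = _ := by rw [e2, e3, mul_inv_rev, hw']; group
  have hcm := hT.comm_of_ti hA (fun a ha b hb => comm_of_isCyclic T.cyc ha hb)
    (fun g y hy y1 e => T.mem_normalizer hy y1 e) hx hx hx ha
    (ha.trans (isConj_iff.2 ⟨_, e6.symm⟩)) (ha.trans (isConj_iff.2 ⟨_, e5.symm⟩))
  have ho' : Odd (orderOf (z * (w * z * w))) := by
    obtain ⟨k, hk⟩ := isConj_iff.1 ha
    rw [← hk, orderOf_conj']
    exact hodd x hx
  have ha1 : z * (w * z * w) ≠ 1 := fun e => x1 (isConj_one_left.1 (e ▸ ha))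
  have hz' : z * (z * (w * z * w)) * z⁻¹ = (z * (w * z * w))⁻¹ := by
    rw [← mul_assoc z z, e4, one_mul, mul_inv_rev, mul_inv_rev, mul_inv_rev, hw',
      inv_eq_of_mul_self e4, mul_assoc w z w]
  generalize z * (w * z * w) = y at *
  obtain ⟨n', T'⟩ := tor y ha1 ho'
  have hyA : y ∈ centralizer {y} := mem_centralizer_singleton_iff.2 rfl
  have hN := T'.mem_normalizer (x := u) hyA ha1 (mem_centralizer_singleton_iff.2 (by
    rw [← e5, mul_assoc, ← hcm]))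
  have h8 := T'.inverts (mul_mem hN hN) hsq4 hsq' hyA
  refine hodd' y (hmem y ?_) ha1 ho'
  calc _ = (z * y * z⁻¹)⁻¹⁻¹⁻¹ * (z * (u * u)) := by rw [hz', inv_inv, inv_inv]
    _ = z * (u * u * y * (u * u)⁻¹) * (u * u) := by rw [h8]; group
    _ = _ := by group

/-- Let G = Sz(q) be a Suzuki group, q = 2^(2a+1) with a ≥ 1 (realised inside Sp₄ over the field with q elements), and let H be a proper subgroup of G. Then the action of G on the cosets of H is binary if and only if H is trivial or H is the centre of a Sylow 2-subgroup of G. Here an action is binary (relational complexity 2) when, for every n ≥ 2 and all n-tuples I, J of points, if for every pair of positions some group element carries the corresponding pair of entries of I to those of J, then a single group element carries I to J. -/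
theorem result {F : Type*} [Field F] [Fintype F] (a : ℕ) (ha : 1 ≤ a) (hF : Fintype.card F = 2 ^ (2 * a + 1))
    (H : Subgroup (Cfsg.Lie.Sz F (2 ^ (a + 1)))) (hH : H ≠ ⊤) :
    (∀ (n : ℕ) (I J : Fin n → (Cfsg.Lie.Sz F (2 ^ (a + 1))) ⧸ H), 2 ≤ n →
        (∀ i j : Fin n, i ≠ j → ∃ g : (Cfsg.Lie.Sz F (2 ^ (a + 1))), g • I i = J i ∧ g • I j = J j) → ∃ g : (Cfsg.Lie.Sz F (2 ^ (a + 1))), ∀ i, g • I i = J i) ↔
      (H = ⊥ ∨ ∃ P : Sylow 2 (Cfsg.Lie.Sz F (2 ^ (a + 1))), H = (Subgroup.center (P : Subgroup (Cfsg.Lie.Sz F (2 ^ (a + 1))))).map (P : Subgroup (Cfsg.Lie.Sz F (2 ^ (a + 1)))).subtype) := by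
  have M := Sz.lieModel hF
  have ht := Sz.exists_ne_zero_ne_one ha hF
  have := M.finite
  have hG := binGood_sz M ht
  refine ⟨fun hb => ?_, ?_⟩
  · rcases Nat.even_or_odd (Nat.card H) with he | ho
    · exact Or.inr ((hG.iff hH he).1 hb)
    · exact Or.inl (by_contra fun h1 =>
        false_of_odd M ha (Nat.card_eq_fintype_card.trans hF) ht (IsBin.tri hb) h1 ho)
  · rintro (rfl | ⟨P, hP⟩)
    · exact isBin_bot
    · refine (hG.iff hH ?_).2 ⟨P, hP⟩
      obtain ⟨x, hx⟩ := M.exists_conj_U_eq P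
      rw [hP, hx, (M.conj x).map_center_U ht, (M.conj x).card_Z]
      exact M.even_card

end Cfsg.Agent.S5737
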