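import Cfsg.Statements.S5739
import Cfsg.Agent.Lib.GLC.Singer

set_option autoImplicit false
open Cfsg

namespace Cfsg.Agent.S5739

/-- Let F ⊆ K be finite fields with |F| = q and [K : F] = n ≥ 2, and let M ≤ GL_F(K) be the Singer group of multiplications by non-zero elements of K. If g ∈ GL_F(K) does not normalise M, then the order of M ∩ gMg⁻¹ divides q^r − 1 for some proper divisor r of n. In particular, when n is prime, that order divides q − 1. -/
theorem result {F K : Type*} [Field F] [Fintype F] [Field K] [Fintype K] [Algebra F K] (n : ℕ) (hn : 2 ≤ n) (hdim : Module.finrank F K = n)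
    (g : (Module.End F K)ˣ) (hg : ((Units.map ((Algebra.lmul F K : K →ₐ[F] Module.End F K) : K →* Module.End F K)).range).map (MulAut.conj g).toMonoidHom ≠ (Units.map ((Algebra.lmul F K : K →ₐ[F] Module.End F K) : K →* Module.End F K)).range) :
    ∃ r : ℕ, 1 ≤ r ∧ r ∣ n ∧ r < n ∧ Nat.card ↥(((Units.map ((Algebra.lmul F K : K →ₐ[F] Module.End F K) : K →* Module.End F K)).range).map (MulAut.conj g).toMonoidHom ⊓ (Units.map ((Algebra.lmul F K : K →ₐ[F] Module.End F K) : K →* Module.End F K)).range) ∣ Fintype.card F ^ r - 1 := by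
  open Lib.GLC Subgroup in
  set D := (sing F K).range.map (MulAut.conj g).toMonoidHom ⊓ (sing F K).range
  let L := IntermediateField.adjoin F (Units.val '' (D.comap (sing F K) : Set Kˣ))
  have h1 := Module.finrank_mul_finrank F L K
  refine ⟨Module.finrank F L, Module.finrank_pos, hdim ▸ Dvd.intro _ h1, lt_of_le_of_ne (hdim ▸ L.toSubmodule.finrank_le)
    fun e => hg (eq_of_le_of_card_ge ?_ (card_map_of_injective (MulEquiv.injective _)).ge), ?_⟩
  · rintro _ ⟨_, ⟨a, rfl⟩, rfl⟩
    refine mem_sing_of_commute (S := Units.val '' (D.comap (sing F K) : Set Kˣ)) (by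
      rw [← IntermediateField.adjoin_toSubalgebra_of_isAlgebraic fun x _ => .of_finite F x,
        show IntermediateField.adjoin F _ = ⊤ from IntermediateField.eq_of_le_of_finrank_eq le_top
          (e.trans (hdim.symm.trans IntermediateField.finrank_top'.symm)), IntermediateField.top_toSubalgebra]) ?_
    rintro _ ⟨b, ⟨⟨_, ⟨c, rfl⟩, h⟩, -⟩, rfl⟩
    exact congrArg Units.val (show _ * sing F K b = sing F K b * _ by rw [← h, ← map_mul, ← map_mul, ← map_mul, ← map_mul,
      mul_comm])
  rw [← Nat.card_eq_fintype_card, ← Module.natCard_eq_pow_finrank, ← Nat.card_units,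
    ← map_comap_eq_self (f := sing F K) (H := D) inf_le_right, card_map_of_injective sing_injective,
    ← card_map_of_injective (K := ⊤) (Units.map_injective (f := L.val.toMonoidHom) L.val.injective) |>.trans card_top]
  exact card_dvd_of_le fun a ha => ⟨Units.mk0 ⟨a, IntermediateField.subset_adjoin _ _ ⟨a, ha, rfl⟩⟩
    fun e => a.ne_zero (congrArg Subtype.val e), trivial, Units.ext rfl⟩

end Cfsg.Agent.S5739
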