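import Cfsg.Statements.S5747
import Cfsg.Agent.Lib.Perm.Basic

set_option autoImplicit false
open Cfsg

namespace Cfsg.Agent.S5747

variable (G : Type*) {Ω : Type*} [Group G] [MulAction G Ω] [DecidableEq Ω]

def Base (s : Finset Ω) : Prop := ∀ g : G, (∀ x ∈ s, g • x = x) → g = 1

def MinBase (s : Finset Ω) : Prop := Base G s ∧ ∀ x ∈ s, ¬ Base G (s.erase x)

def IrrB {t : ℕ} (f : Fin t → Ω) : Prop := (∀ g : G, (∀ i : Fin t, g • f i = f i) → g = 1) ∧
  ∀ i : Fin t, ∃ g : G, (∀ j : Fin t, j < i → g • f j = f j) ∧ g • f i ≠ f i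

variable {G}

omit [DecidableEq Ω] in
theorem IrrB.inj {t : ℕ} {f : Fin t → Ω} (h : IrrB G f) : Function.Injective f := by
  have key : ∀ i j, j < i → f j ≠ f i := fun i j hij e => by
    obtain ⟨g, h1, h2⟩ := h.2 i
    exact h2 (e ▸ h1 j hij)
  intro i j e
  rcases lt_trichotomy i j with h1 | h1 | h1
  exacts [absurd e (key j i h1), h1, absurd e.symm (key i j h1)]

omit [DecidableEq Ω] in
theorem exists_enum {s : Finset Ω} (hs : Base G s) (r : Ω → ℕ)
    (h : ∀ x ∈ s, ∃ g : G, (∀ y ∈ s, y ≠ x → r y ≤ r x → g • y = y) ∧ g • x ≠ x) :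
    ∃ f : Fin s.card → Ω, IrrB G f ∧ ∀ x, x ∈ s ↔ ∃ i, f i = x := by
  let f₀ : Fin s.card → Ω := fun i => s.equivFin.symm i
  let σ := Tuple.sort (r ∘ f₀)
  have hinj : Function.Injective (f₀ ∘ σ) :=
    (Subtype.val_injective.comp s.equivFin.symm.injective).comp σ.injective
  have hmem : ∀ x, x ∈ s ↔ ∃ i, (f₀ ∘ σ) i = x := fun x =>
    ⟨fun hx => ⟨σ.symm (s.equivFin ⟨x, hx⟩), by simp [f₀]⟩, by rintro ⟨i, rfl⟩; exact Subtype.prop _⟩
  refine ⟨f₀ ∘ σ, ⟨fun g hg => hs g fun x hx => ?_, fun i => ?_⟩, hmem⟩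
  · obtain ⟨i, rfl⟩ := (hmem x).1 hx
    exact hg i
  · obtain ⟨g, h1, h2⟩ := h _ ((hmem _).2 ⟨i, rfl⟩)
    exact ⟨g, fun j hj => h1 _ ((hmem _).2 ⟨j, rfl⟩) (fun e => hj.ne (hinj e))
      (Tuple.monotone_sort (r ∘ f₀) hj.le), h2⟩

theorem MinBase.exists_move {s : Finset Ω} (hs : MinBase G s) {x : Ω} (hx : x ∈ s) :
    ∃ g : G, (∀ y ∈ s, y ≠ x → g • y = y) ∧ g • x ≠ x := by
  have := hs.2 x hx
  simp only [Base, not_forall] at this
  obtain ⟨g, h1, h2⟩ := this
  have h3 : ∀ y ∈ s, y ≠ x → g • y = y := fun y hy hyx => h1 y (Finset.mem_erase.2 ⟨hyx, hy⟩)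
  exact ⟨g, h3, fun e => h2 (hs.1 g fun y hy => if h : y = x then h ▸ e else h3 y hy h)⟩

theorem exists_minBase {s : Finset Ω} (hs : Base G s) : ∃ u ⊆ s, MinBase G u := by
  obtain ⟨u, ⟨h1, h2⟩, h3⟩ := exists_minimal_of_wellFoundedLT (fun u => u ⊆ s ∧ Base G u)
    ⟨s, subset_rfl, hs⟩
  exact ⟨u, h1, h2, fun x hx h => Finset.notMem_erase x u
    (h3 ⟨(u.erase_subset x).trans h1, h⟩ (u.erase_subset x) hx)⟩

theorem card_eq (H : ∀ (s : Finset Ω) (r : Ω → ℕ), Base G s →
      (∀ x ∈ s, ∃ g : G, (∀ y ∈ s, y ≠ x → r y ≤ r x → g • y = y) ∧ g • x ≠ x) → MinBase G s)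
    {t : Finset Ω} (ht : MinBase G t) (s : Finset Ω) (hs : MinBase G s) : s.card = t.card := by
  induction hn : (s \ t).card using Nat.strong_induction_on generalizing s with
  | _ n ih =>
  by_cases hst : s ⊆ t
  · refine congrArg _ (hst.antisymm fun y hy => ?_)
    by_contra h
    exact ht.2 y hy fun g hg => hs.1 g fun x hx =>
      hg x (Finset.mem_erase.2 ⟨by rintro rfl; exact h hx, hst hx⟩)
  obtain ⟨x, hx, hxt⟩ := Finset.not_subset.1 hst
  obtain ⟨k, hk1, hk2⟩ := hs.exists_move hx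
  obtain ⟨y, hy, hky⟩ : ∃ y ∈ t, k • y ≠ y := by
    by_contra h
    push Not at h
    exact hk2 (by rw [ht.1 k h, one_smul])
  have hyx : y ≠ x := by rintro rfl; exact hxt hy
  have hys : y ∉ s := fun h => hky (hk1 y h hyx)
  have hb : Base G (insert y (s.erase x)) := by
    intro g hg
    by_contra hg1
    refine (H (insert y s) (fun z => if z = x then 2 else if z = y then 1 else 0)
      (fun g hg => hs.1 g fun z hz => hg z (Finset.mem_insert_of_mem hz)) fun z hz => ?_).2 y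
      (Finset.mem_insert_self _ _) (by rw [Finset.erase_insert hys]; exact hs.1)
    by_cases hzx : z = x
    · subst hzx
      have h1 : ∀ w ∈ insert y s, w ≠ z → g • w = w := fun w hw hwz => hg w (by
        simp only [Finset.mem_insert, Finset.mem_erase] at hw ⊢; tauto)
      exact ⟨g, fun w hw hwz _ => h1 w hw hwz, fun e => hg1 (hs.1 g fun w hw =>
        if h : w = z then h ▸ e else h1 w (Finset.mem_insert_of_mem hw) h)⟩
    rcases Finset.mem_insert.1 hz with rfl | hz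
    · refine ⟨k, fun w hw hwz h => hk1 w ((Finset.mem_insert.1 hw).resolve_left hwz) ?_, hky⟩
      rintro rfl
      simp [hzx] at h
    · obtain ⟨g', h1, h2⟩ := hs.exists_move hz
      have hzy : z ≠ y := fun e => hys (e ▸ hz)
      refine ⟨g', fun w hw hwz h => h1 w ((Finset.mem_insert.1 hw).resolve_left ?_) hwz, h2⟩
      rintro rfl
      simp [hzx, hzy, hyx] at h
  have hm := H _ (fun z => if z = y then 1 else 0) hb fun z hz => by
    rcases Finset.mem_insert.1 hz with rfl | hz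
    · refine ⟨k, fun w hw hwz _ => ?_, hky⟩
      have := Finset.mem_erase.1 ((Finset.mem_insert.1 hw).resolve_left hwz)
      exact hk1 w this.2 this.1
    · obtain ⟨g', h1, h2⟩ := hs.exists_move (Finset.mem_of_mem_erase hz)
      have hzy : z ≠ y := fun e => hys (e ▸ Finset.mem_of_mem_erase hz)
      refine ⟨g', fun w hw hwz h => h1 w (Finset.mem_of_mem_erase
        ((Finset.mem_insert.1 hw).resolve_left ?_)) hwz, h2⟩
      rintro rfl
      simp [hzy] at h
  rw [← ih _ ?_ _ hm rfl, Finset.card_insert_of_notMem fun h => hys (Finset.mem_of_mem_erase h),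
    Finset.card_erase_add_one hx]
  rw [← hn, Finset.insert_sdiff_of_mem _ hy]
  exact Finset.card_lt_card ⟨Finset.sdiff_subset_sdiff (s.erase_subset x) subset_rfl, fun h =>
    Finset.notMem_erase x s (Finset.mem_sdiff.1 (h (Finset.mem_sdiff.2 ⟨hx, hxt⟩))).1⟩

/-- Let a finite group G act on a finite set Ω. An irredundant base is a sequence of points ω₁, …, ω_t whose pointwise stabiliser is trivial and in which each ω_i is moved by some element fixing ω₁, …, ω_{i−1}. Then all irredundant bases have the same length if and only if every reordering of an irredundant base is again an irredundant base. -/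
theorem result {G Ω : Type*} [Group G] [Finite G] [MulAction G Ω] [Fintype Ω] :
    (∀ (t t' : ℕ) (f : Fin t → Ω) (f' : Fin t' → Ω), ((∀ g : G, (∀ i : Fin t, g • f i = f i) → g = 1) ∧ ∀ i : Fin t, ∃ g : G, (∀ j : Fin t, j < i → g • f j = f j) ∧ g • f i ≠ f i) → ((∀ g : G, (∀ i : Fin t', g • f' i = f' i) → g = 1) ∧ ∀ i : Fin t', ∃ g : G, (∀ j : Fin t', j < i → g • f' j = f' j) ∧ g • f' i ≠ f' i) → t = t') ↔
    (∀ (t : ℕ) (f : Fin t → Ω) (σ : Equiv.Perm (Fin t)), ((∀ g : G, (∀ i : Fin t, g • f i = f i) → g = 1) ∧ ∀ i : Fin t, ∃ g : G, (∀ j : Fin t, j < i → g • f j = f j) ∧ g • f i ≠ f i) → ((∀ g : G, (∀ i : Fin t, g • (f ∘ σ) i = (f ∘ σ) i) → g = 1) ∧ ∀ i : Fin t, ∃ g : G, (∀ j : Fin t, j < i → g • (f ∘ σ) j = (f ∘ σ) j) ∧ g • (f ∘ σ) i ≠ (f ∘ σ) i)) := by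
  classical
  change (∀ (t t' : ℕ) (f : Fin t → Ω) (f' : Fin t' → Ω), IrrB G f → IrrB G f' → t = t') ↔
    ∀ (t : ℕ) (f : Fin t → Ω) (σ : Equiv.Perm (Fin t)), IrrB G f → IrrB G (f ∘ σ)
  constructor
  · intro h t f σ hf
    have hb : ∀ g : G, (∀ i, g • (f ∘ σ) i = (f ∘ σ) i) → g = 1 := fun g hg =>
      hf.1 g fun i => by simpa using hg (σ.symm i)
    refine ⟨hb, fun i => ?_⟩
    by_contra hi
    push Not at hi
    have hinj := hf.inj.comp σ.injective
    obtain ⟨u, hu, hu'⟩ := exists_minBase (G := G)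
      (s := (Finset.univ.image (f ∘ σ)).erase ((f ∘ σ) i)) fun g hg => by
        have h1 : ∀ j, j ≠ i → g • (f ∘ σ) j = (f ∘ σ) j := fun j hj =>
          hg _ (Finset.mem_erase.2 ⟨fun e => hj (hinj e), Finset.mem_image_of_mem _ (by simp)⟩)
        exact hb g fun j => if e : j = i then e ▸ hi g fun k hk => h1 k hk.ne else h1 j e
    obtain ⟨f', hf', -⟩ := exists_enum hu'.1 (fun _ => 0) fun x hx =>
      (hu'.exists_move hx).imp fun g hg => ⟨fun y hy hyx _ => hg.1 y hy hyx, hg.2⟩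
    have h1 := h _ _ f f' hf hf'
    have h2 := Finset.card_le_card hu
    rw [Finset.card_erase_of_mem (Finset.mem_image_of_mem _ (by simp)),
      Finset.card_image_of_injective _ hinj, Finset.card_univ, Fintype.card_fin] at h2
    have := i.pos
    omega
  · intro h t t' f f' hf hf'
    have key : ∀ (t : ℕ) (f : Fin t → Ω) (s : Finset Ω), IrrB G f → (∀ x, x ∈ s ↔ ∃ i, f i = x) →
        MinBase G s := by
      intro t f s hf hs
      refine ⟨fun g hg => hf.1 g fun i => hg _ ((hs _).2 ⟨i, rfl⟩), fun x hx hb => ?_⟩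
      obtain ⟨i, rfl⟩ := (hs x).1 hx
      obtain ⟨n, rfl⟩ : ∃ n, t = n + 1 := ⟨t - 1, by have := i.pos; omega⟩
      obtain ⟨g, h1, h2⟩ := (h _ f (Equiv.swap i (Fin.last n)) hf).2 (Fin.last n)
      suffices hg1 : g = 1 from h2 (by rw [hg1, one_smul])
      refine hb g fun y hy => ?_
      obtain ⟨hy1, hy2⟩ := Finset.mem_erase.1 hy
      obtain ⟨j, rfl⟩ := (hs y).1 hy2
      have := h1 (Equiv.swap i (Fin.last n) j) (Fin.lt_last_iff_ne_last.2 fun e => hy1 (by
        rw [Equiv.swap_apply_eq_iff] at e; simp [e]))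
      simpa using this
    have := card_eq (fun s r hs hr => (exists_enum hs r hr).elim fun f hf => key _ f s hf.1 hf.2)
      (key _ f' (Finset.univ.image f') hf' (by simp)) _ (key _ f (Finset.univ.image f) hf (by simp))
    simpa [Finset.card_image_of_injective _ hf.inj, Finset.card_image_of_injective _ hf'.inj]
      using this

end Cfsg.Agent.S5747
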