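import Cfsg.Statements.S5748
import Cfsg.Agent.Lib.OddChar.AbCent
import Cfsg.Agent.S0205

set_option autoImplicit false
open Cfsg

namespace Cfsg.Agent.S5748

/-- A finite non-abelian simple group in which commuting is a transitive relation on the non-identity elements (equivalently, every non-identity element has abelian centraliser) is isomorphic to PSL₂ over a field with 2^f elements for some f ≥ 2; conversely these groups have that property. -/
theorem result {G : Type*} [Group G] [Finite G] [IsSimpleGroup G] (hG : ¬ IsMulCommutative G) :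
    (∀ a b c : G, a ≠ 1 → b ≠ 1 → c ≠ 1 → Commute a b → Commute b c → Commute a c) ↔
    ∃ (F : Type) (_ : Field F) (_ : Fintype F) (f : ℕ), 2 ≤ f ∧ Fintype.card F = 2 ^ f ∧ Nonempty (G ≃* Matrix.ProjectiveSpecialLinearGroup (Fin 2) F) := by
  constructor
  · intro h
    have he : Even (Nat.card G) := Nat.not_odd_iff_even.1 fun ho =>
      hG ⟨⟨IsSimpleGroup.comm_iff_isSolvable.2 (Lib.PF.isSolvable_of_odd G ho)⟩⟩
    obtain ⟨n, hn, e⟩ := Lib.OddChar.equiv_psl_of_abCent hG he fun t a b ht ha hb => by
      by_cases h1 : a = 1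
      · rw [h1, one_mul, mul_one]
      by_cases h2 : b = 1
      · rw [h2, one_mul, mul_one]
      exact h a t b h1 (Lib.Inv.ne_one_of_orderOf ht) h2 ha hb.symm
    let _ := Fintype.ofFinite (GaloisField 2 n)
    exact ⟨GaloisField 2 n, inferInstance, inferInstance, n, hn,
      Nat.card_eq_fintype_card.symm.trans (GaloisField.card 2 n (by omega)), e⟩
  · rintro ⟨F, _, _, n, hn, hF, ⟨e⟩⟩ a b c - hb - hab hbc
    have : CharP F 2 := charP_of_card_eq_prime_pow hF
    have h1 := (Lib.OddChar.psl_even_centralizer (e.map_ne_one_iff.2 hb)).is_comm.comm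
      ⟨e a, Subgroup.mem_centralizer_singleton_iff.2 (hab.map e).eq⟩
      ⟨e c, Subgroup.mem_centralizer_singleton_iff.2 (hbc.map e).symm.eq⟩
    exact e.injective (by simpa using congrArg Subtype.val h1)

end Cfsg.Agent.S5748
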