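import Cfsg.Statements.S5751
import Cfsg.Agent.Lib.Chev.Cores
import Cfsg.Agent.Lib.Chev.CertE8
import Cfsg.Agent.Lib.Chev.Dict
import Cfsg.Agent.Lib.Chev.Top

set_option autoImplicit false
open Cfsg

namespace Cfsg.Agent.S5751

open Cfsg.Lib.Chev Cfsg.Lie

theorem chk1 : ∀ r : Fin 240, lnN certE8 r = 1 ∧ aN chevE8 certE8 r 3 ≤ 6 := by decide +kernel

theorem chk2 : ∀ j : Fin 8, ∃ r : Fin 240, aN chevE8 certE8 r 3 = 1 ∧ caN chevE8 j r ≠ 0 := by
  decide +kernel

theorem chk3 : ∃ r : Fin 240, aN chevE8 certE8 r 3 = 5 + 1 := by decide +kernel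

/-- An extremal example for iterated cores of conjugate maximal subgroups: there exist a finite group G and two distinct conjugate maximal subgroups M₁, M₂ of G, with M₁ having trivial core in G, such that, if we define two descending sequences of subgroups by A₀ = M₁, B₀ = M₂ and, for every i, A_{i+1} = the core in M₁ of A_i ∩ B_i and B_{i+1} = the core in M₂ of A_i ∩ B_i (the core in M of a subgroup Y ≤ M is the largest normal subgroup of M contained in Y), the subgroup A₆ is trivial while A₅ is not (so the index 6 cannot be lowered to 5). (One example is a maximal parabolic subgroup of the Chevalley group of type E₈ over a finite field and a suitable conjugate of it.) -/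
theorem result :
    ∃ (G : Type) (_ : Group G) (_ : Finite G) (M₁ M₂ : Subgroup G) (g : G) (A B : ℕ → Subgroup G),
      IsCoatom M₁ ∧ M₂ = M₁.map (MulAut.conj g).toMonoidHom ∧ M₁ ≠ M₂ ∧ M₁.normalCore = ⊥ ∧ A 0 = M₁ ∧ B 0 = M₂ ∧
      (∀ i, A (i + 1) = ((A i ⊓ B i).subgroupOf M₁).normalCore.map M₁.subtype) ∧
      (∀ i, B (i + 1) = ((A i ⊓ B i).subgroupOf M₂).normalCore.map M₂.subtype) ∧ A 6 = ⊥ ∧ A 5 ≠ ⊥ := by
  have hF := checkedE8.gsys_faithful (ZMod 2)
  exact ⟨chevE8.group (ZMod 2), inferInstance, hF.finite (checkedE8.gsys_grp _), hF.exists_cores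
    (i := (3 : Fin 8)) (k := 5) (checkedE8.gsys_grp _) (fun r s => (chk1 r).1.trans (chk1 s).1.symm)
    (eq_bot_iff.2 (PreSys.H_le_iff.2 fun r t => by simp [Subsingleton.elim t 1]))
    (fun j => (chk2 j).elim fun r h => ⟨r, h.1, (checkedE8.cartan_eq j r).symm.trans_ne
      (caN_eq chevE8 j r ▸ h.2)⟩) (fun r => (chk1 r).2)
    (chk3.elim fun r h => ⟨r, h⟩)⟩

end Cfsg.Agent.S5751
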