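import Cfsg.Statements.S5752
import Cfsg.Agent.Lib.Perm.TW

set_option autoImplicit false
open Cfsg

namespace Cfsg.Agent.S5752

open Cfsg.Lib.Perm Cfsg.Lib.Core Cfsg.Lib.Comp Cfsg.Lib.Loc Cfsg.Lib.Transfer Subgroup

/-- A form of the Thompson–Wielandt Theorem on primitive permutation groups. Let G be a finite group and M₁, M₂ two distinct conjugate maximal subgroups of G with trivial core in G; define two descending sequences of subgroups by A₀ = M₁, B₀ = M₂ and, for every i, A_{i+1} = the core in M₁ of A_i ∩ B_i and B_{i+1} = the core in M₂ of A_i ∩ B_i (the core in M of a subgroup Y ≤ M is the largest normal subgroup of M contained in Y). If A₂ and B₂ are both non-trivial, then for some prime p the subgroup generated by A₂ and B₂ is a p-group, and for each j the generalized Fitting subgroups of M_j and of its first core (A₁, resp. B₁) are their largest normal p-subgroups. -/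
theorem result {G : Type*} [Group G] [Finite G] (M₁ M₂ : Subgroup G) (hmax : IsCoatom M₁) (g : G)
    (hconj : M₂ = M₁.map (MulAut.conj g).toMonoidHom) (hne : M₁ ≠ M₂) (hcore : M₁.normalCore = ⊥)
    (A B : ℕ → Subgroup G) (hA0 : A 0 = M₁) (hB0 : B 0 = M₂)
    (hA : ∀ i, A (i + 1) = ((A i ⊓ B i).subgroupOf M₁).normalCore.map M₁.subtype)
    (hB : ∀ i, B (i + 1) = ((A i ⊓ B i).subgroupOf M₂).normalCore.map M₂.subtype) (hA2 : A 2 ≠ ⊥) (hB2 : B 2 ≠ ⊥) :
    ∃ p : ℕ, p.Prime ∧ IsPGroup p ↥(A 2 ⊔ B 2) ∧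
      Cfsg.generalizedFittingSubgroup ↥M₁ = Cfsg.pCore p ↥M₁ ∧ Cfsg.generalizedFittingSubgroup ↥(A 1) = Cfsg.pCore p ↥(A 1) ∧
      Cfsg.generalizedFittingSubgroup ↥M₂ = Cfsg.pCore p ↥M₂ ∧ Cfsg.generalizedFittingSubgroup ↥(B 1) = Cfsg.pCore p ↥(B 1) := by
  have hM := isPrimSub_of_isCoatom hmax hcore
  have a1 : A 1 = coreIn M₁ M₂ := by rw [hA, hA0, hB0]; exact coreIn_inf _ _
  have b1 : B 1 = coreIn M₂ M₁ := by rw [hB, hA0, hB0]; exact coreIn_inf' _ _
  have a2 : A 2 = coreIn M₁ (A 1 ⊓ B 1) := hA 1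
  have b2 : B 2 = coreIn M₂ (A 1 ⊓ B 1) := hB 1
  obtain ⟨p, hp, h1, h2, h3, h4⟩ := thompson_wielandt hM (hconj ▸ hM.conj g) hne
    (fun q => by rw [hconj, ← conj_core, card_conj]) hA2
    (by rw [a2, ← b1]; exact (coreIn_le_right _ _).trans inf_le_right)
    (a2 ▸ le_normalizer_coreIn _ _) hB2
    (by rw [b2, ← a1]; exact (coreIn_le_right _ _).trans inf_le_left)
    (b2 ▸ le_normalizer_coreIn _ _)
  have := Fact.mk hp
  refine ⟨p, hp, h3.to_sup_of_normal_right' h4 ?_, h1, ?_, h2, ?_⟩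
  · rw [a2, b2]
    refine le_trans ?_ (le_normalizer_coreIn _ _)
    exact (coreIn_le_right _ _).trans (inf_le_right.trans (b1 ▸ coreIn_le_left _ _))
  · rw [a1]
    exact genFitting_eq_pCore_of_isSubnormal_subgroupOf (coreIn_le_left _ _) h1
      (SubnormalIn.of_le_normalizer (coreIn_le_left _ _)
        (le_normalizer_coreIn _ _)).isSubnormal_subgroupOf
  · rw [b1]
    exact genFitting_eq_pCore_of_isSubnormal_subgroupOf (coreIn_le_left _ _) h2
      (SubnormalIn.of_le_normalizer (coreIn_le_left _ _)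
        (le_normalizer_coreIn _ _)).isSubnormal_subgroupOf

end Cfsg.Agent.S5752
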