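import Cfsg.Statements.S5754
import Cfsg.Agent.Lib.Orth.Count

set_option autoImplicit false
open Cfsg

namespace Cfsg.Agent.S5754

open Cfsg.Lib Cfsg.Lib.Orth QuadraticMap Module

/-- Let V be a finite-dimensional vector space over a finite field F carrying an anisotropic quadratic form Q (Q(v) = 0 only for v = 0). Then the group of all maps v ↦ φ(v) + c, with φ an isometry of Q and c ∈ V, acts on V as a binary permutation group: given n ≥ 2 and two n-tuples u, u' of vectors such that every pair of corresponding entries of u is carried to that of u' by such a map, one such map carries u to u'. -/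
theorem result {F V : Type*} [Field F] [Finite F] [AddCommGroup V] [Module F V] [Module.Finite F V]
    (Q : QuadraticForm F V) (hQ : Q.Anisotropic) (n : ℕ) (hn : 2 ≤ n) (u u' : Fin n → V)
    (h2 : ∀ i j : Fin n, i ≠ j → ∃ (φ : Q.IsometryEquiv Q) (c : V), φ (u i) + c = u' i ∧ φ (u j) + c = u' j) :
    ∃ (φ : Q.IsometryEquiv Q) (c : V), ∀ i, φ (u i) + c = u' i := by
  let o : Fin n := ⟨0, by omega⟩
  have h1 : ∀ i j, Q (u i - u j) = Q (u' i - u' j) := fun i j => by
    by_cases h : i = j
    · simp [h]
    · obtain ⟨φ, c, h3, h4⟩ := h2 i j h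
      rw [← h3, ← h4, add_sub_add_right_eq_sub, ← map_sub, φ.map_app]
  suffices ∃ g : O Q, ∀ i, g.1 (u i - u o) = u' i - u' o by
    obtain ⟨g, hg⟩ := this
    exact ⟨⟨g.1, g.2⟩, u' o - g.1 (u o), fun i => by
      have := hg i
      rw [map_sub] at this
      exact (add_sub_left_comm _ _ _).trans (eq_sub_iff_add_eq'.1 this)⟩
  by_cases hN : ND Q
  · have h3 := Q_sum_congr Finset.univ (fun i => h1 i o) fun i j _ => by
      have e := Q_sub (Q := Q) (u i - u o) (u j - u o)
      have e' := Q_sub (Q := Q) (u' i - u' o) (u' j - u' o)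
      rw [sub_sub_sub_cancel_right] at e e'
      linear_combination e - e' + h1 i o + h1 j o - h1 i j
    let L := Fintype.linearCombination F fun i => u i - u o
    let L' := Fintype.linearCombination F fun i => u' i - u' o
    let f : LinearMap.range L →ₗ[F] V := (LinearMap.ker L).liftQ L' (fun c hc =>
      hQ _ ((h3 c).symm.trans ((congrArg Q hc).trans (map_zero Q)))) ∘ₗ
      L.quotKerEquivRange.symm.toLinearMap
    have hf : ∀ c, f ⟨L c, c, rfl⟩ = L' c := fun c => by
      erw [LinearMap.comp_apply, LinearEquiv.coe_coe, L.quotKerEquivRange_symm_apply_image]; rfl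
    have h4 : ∀ x, Q (f x) = Q x := by
      rintro ⟨_, c, rfl⟩; rw [hf]; exact (h3 c).symm
    obtain ⟨g, hg⟩ := witt hN f h4 ((injective_iff_map_eq_zero _).2 fun x h =>
      Subtype.ext (hQ _ (by rw [← h4 x, h, map_zero])))
    exact ⟨g, fun i => by simpa [L, L'] using (hg _).trans (hf (Pi.single i 1))⟩
  · have h0 : (2 : F) = 0 := by_contra fun h => hN (nd_of_anisotropic_of_two_ne_zero h hQ)
    obtain ⟨r, hr, hr0⟩ : ∃ r, (∀ y, polar Q r y = 0) ∧ r ≠ 0 := by simpa [nd_iff] using hN
    refine ⟨1, fun i => sub_eq_zero.1 (hQ _ ?_)⟩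
    rw [Q_sub, O.one_apply, h1, ← two_mul, h0, zero_mul, zero_sub, neg_eq_zero]
    generalize u i - u o = x; generalize u' i - u' o = y
    by_contra h
    have := ((Fintype.linearIndependent_iff (R := F) (v := ![r, x, y])).2 fun c hc => by
      have e1 := congrArg (polar Q x) hc
      have e2 := congrArg (polar Q y) hc
      simp only [Fin.sum_univ_three, Matrix.cons_val, polar_add_right, polar_smul_right',
        polar_comm _ _ r, hr, polar_self', h0, polar_comm _ y x] at e1 e2
      simp [h] at e1 e2
      simp [Fin.sum_univ_three, e1, e2, hr0] at hc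
      intro j; fin_cases j <;> assumption).fintype_card_le_finrank
    have := finrank_le_two_of_anisotropic hQ
    simp at *; omega

end Cfsg.Agent.S5754
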