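import Cfsg.Statements.S5763
import Cfsg.Agent.Lib.Perm.Basic

set_option autoImplicit false
open Cfsg

namespace Cfsg.Agent.S5763

open Equiv Equiv.Perm Subgroup
open scoped Pointwise

def dig (b P x : ℕ) : ℕ := Nat.mod (Nat.div P (Nat.pow b x)) b

def L : List ℕ := [16434817, 16434376, 16406152, 14599816, 11788826, 9925146, 11788371, 9924691, 6852524,
  5017068, 6823845, 4988389, 2206526, 2177406, 371511, 342391]

def sm (A : ℕ) : ℕ := Nat.add (Nat.add (Nat.pow 9 (dig 4 A 0)) (Nat.pow 9 (dig 4 A 1)))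
  (Nat.add (Nat.pow 9 (dig 4 A 2)) (Nat.pow 9 (dig 4 A 3)))

def chk (P : ℕ) : Bool := L.any fun z =>
  [1, 2, 3, 4, 5, 6, 7].all fun x => Nat.beq (dig 4 P (dig 8 z x)) (Nat.xor (dig 4 P x) (Nat.xor (dig 4 P 0) (dig 4 P (dig 8 z 0))))

theorem chk_all : ((List.range 256).all fun A => (List.range 256).all fun B =>
  cond (Nat.beq (Nat.add (sm A) (sm B)) 1640) (chk (Nat.add (Nat.mul 256 A) B)) true) = true := by decide +kernel

def f (z : ℕ) (x : Fin 8) : Fin 8 := ⟨dig 8 z x, Nat.mod_lt _ (by norm_num)⟩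

theorem f_spec : ∀ z ∈ L, (∀ x, f z (f z x) = x) ∧ (∃ x, f z x ≠ x) ∧
    ∃ v < 4, ∀ x, (f z x).1 / 2 = x.1 / 2 ^^^ v := by decide +kernel

def T : Subgroup (Perm (Fin 8)) where
  carrier := {g | ∃ v, ∀ x, (g x).1 / 2 = x.1 / 2 ^^^ v}
  one_mem' := ⟨0, by simp⟩
  mul_mem' := fun ⟨v, h⟩ ⟨w, k⟩ => ⟨w ^^^ v, fun x => by rw [Perm.mul_apply, h, k, Nat.xor_assoc]⟩
  inv_mem' := fun {g} ⟨v, h⟩ => ⟨v, fun x => by
    have := h (g⁻¹ x)
    rw [show g (g⁻¹ x) = x from g.apply_symm_apply x] at this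
    rw [this, Nat.xor_xor_cancel_right]⟩

theorem T_two : IsPGroup 2 T := fun ⟨g, v, h⟩ => ⟨2, Subtype.ext (Equiv.ext fun x => by
  have h1 : ∀ x, (g (g x)).1 / 2 = x.1 / 2 := fun x => by rw [h, h, Nat.xor_xor_cancel_right]
  have h2 := h1 x
  have h3 := h1 (g (g x))
  have h4 : g (g (g (g x))) = g (g x) → g (g x) = x := fun e => g.injective (g.injective e)
  change g (g (g (g x))) = x
  by_cases h5 : g (g x) = x
  · rw [h5, h5]
  have := mt h4 h5
  simp only [Fin.ext_iff] at h5 this ⊢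
  omega)⟩

theorem key (y : Perm (Fin 8)) : ∃ z ∈ T, z ≠ 1 ∧ y * z * y⁻¹ ∈ T := by
  let p : Fin 8 → ℕ := fun x => (y x).1 / 2
  have hp : ∀ x, p x < 4 := fun x => by have := (y x).2; simp only [p]; omega
  have hs : ∑ x, 9 ^ p x = 1640 := (Equiv.sum_comp y fun x => 9 ^ (x.1 / 2)).trans (by decide)
  have := hp 0; have := hp 1; have := hp 2; have := hp 3
  have := hp 4; have := hp 5; have := hp 6; have := hp 7
  have h := List.all_eq_true.1 (List.all_eq_true.1 chk_all (p 4 + 4 * p 5 + 16 * p 6 + 64 * p 7)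
    (List.mem_range.2 (by omega))) (p 0 + 4 * p 1 + 16 * p 2 + 64 * p 3) (List.mem_range.2 (by omega))
  have e : ∀ a < 4, ∀ b < 4, ∀ c < 4, ∀ d < 4,
      sm (a + 4 * b + 16 * c + 64 * d) = 9 ^ a + 9 ^ b + 9 ^ c + 9 ^ d := by decide +kernel
  rw [e _ (hp _) _ (hp _) _ (hp _) _ (hp _), e _ (hp _) _ (hp _) _ (hp _) _ (hp _),
    show Nat.add _ _ = 1640 by rw [← hs, Fin.sum_univ_eight, Nat.add_eq]; ring, Nat.beq_refl, cond_true] at h
  generalize hP : Nat.add _ _ = P at h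
  have hd : ∀ x : Fin 8, dig 4 P x = p x := fun x => by
    change P / 4 ^ x.1 % 4 = _
    fin_cases x <;> simp [← hP] <;> omega
  obtain ⟨z, hz, h⟩ := List.any_eq_true.1 h
  obtain ⟨h1, ⟨x, hx⟩, v, -, h2⟩ := f_spec z hz
  refine ⟨Function.Involutive.toPerm _ h1, ⟨v, h2⟩, fun e => hx (DFunLike.congr_fun e x),
    dig 4 P 0 ^^^ dig 4 P (dig 8 z 0), fun x => ?_⟩
  obtain ⟨x, rfl⟩ := y.surjective x
  have : dig 4 P (dig 8 z x) = dig 4 P x ^^^ (dig 4 P 0 ^^^ dig 4 P (dig 8 z 0)) := by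
    rcases eq_or_ne x 0 with rfl | hx
    · exact (Nat.xor_xor_cancel_left _ _).symm
    exact Nat.eq_of_beq_eq_true (List.all_eq_true.1 h x (by revert x; decide))
  rw [hd x] at this
  rw [Perm.mul_apply, Perm.mul_apply, show y⁻¹ (y x) = x from y.symm_apply_apply x, ← this]
  exact (hd (f z x)).symm

/-- In the symmetric group on 8 letters any two Sylow 2-subgroups have non-trivial intersection: for a Sylow 2-subgroup H and every element x, H ∩ xHx⁻¹ ≠ 1. -/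
theorem result (H : Sylow 2 (Equiv.Perm (Fin 8))) (x : Equiv.Perm (Fin 8)) :
    (H : Subgroup (Equiv.Perm (Fin 8))) ⊓ (H : Subgroup (Equiv.Perm (Fin 8))).map (MulAut.conj x).toMonoidHom ≠ ⊥ := by
  obtain ⟨Q, hQ⟩ := T_two.exists_le_sylow
  obtain ⟨c, rfl⟩ := MulAction.exists_smul_eq (Perm (Fin 8)) Q H
  obtain ⟨z, h1, h2, h3⟩ := key (c⁻¹ * x⁻¹ * c)
  refine ne_bot_iff_exists_ne_one.2 ⟨⟨c * z * c⁻¹, Subgroup.smul_mem_pointwise_smul _ (MulAut.conj c) _ (hQ h1),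
    _, Subgroup.smul_mem_pointwise_smul _ (MulAut.conj c) _ (hQ h3), by simp [mul_assoc]⟩, fun e => h2 ?_⟩
  simpa using congrArg Subtype.val e

end Cfsg.Agent.S5763
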