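import Cfsg.Statements.S5769
import Cfsg.Agent.Lib.Chev.E7o65
import Cfsg.Agent.Lib.Grp.Ord65
import Cfsg.Agent.S1064

set_option autoImplicit false
open Cfsg

namespace Cfsg.Agent.S5769

open Cfsg.Lib.Chev Cfsg.Lib.Alg Cfsg.Lib.Grp

theorem no65 (x : ↥(Cfsg.Lie.chevE7.group (ZMod 2))) : orderOf x ≠ 5 * 13 := by
  have hF : Nat.card (ZMod 2) = 2 ^ 1 := by simp
  obtain ⟨φ, hφ⟩ := algE7 (AlgebraicClosure (ZMod 2)) 2 (exists_pow_pow_eq (ZMod 2) 2)
  obtain ⟨e, -⟩ := hφ.exists_equiv (algebraMap (ZMod 2) _) hF (checkedE7.noA1 (by simp))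
    (checkedE7.gsys_strongComm _) (checkedE7.gsys_faithful _) (checkedE7.gsys_adjoint _)
    (checkedE7.gsys_grp _) (checkedE7.kerChr_two (by simp) _)
  rw [← e.symm.orderOf_eq]
  refine E7o65.no65 hφ ?_ _
  have := S1064.result (F := ZMod 2) (q := 2) (by simp)
  rw [Nat.card_congr e.toEquiv, ← one_mul (Nat.card _), show 1 = Nat.gcd 2 (2 - 1) from rfl, this]
  norm_num

theorem key {G K : Type*} [Group G] [Group K] {m : ℕ} (hG : ∀ x : G, orderOf x ≠ m)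
    (h : ∃ x : K, orderOf x = m) (H : Subgroup G) : IsEmpty (↥H ≃* K) :=
  ⟨fun e => by
    obtain ⟨x, hx⟩ := h
    exact hG _ ((Subgroup.orderOf_coe (e.symm x)).trans ((e.symm.orderOf_eq x).trans hx))⟩

/-- The Chevalley group of type E₇ over the field with two elements (generated by its root elements in the adjoint representation) has no subgroup isomorphic to any of PSL₂(64), PSp₄(8), PSL₄(8), PSU₄(8) or PSp₆(8). Here F₈ and F₆₄ denote fields with 8 and 64 elements. -/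
theorem result {F₈ F₆₄ : Type*} [Field F₈] [Fintype F₈] (h8 : Fintype.card F₈ = 8) [Field F₆₄] [Fintype F₆₄] (h64 : Fintype.card F₆₄ = 64)
    (H : Subgroup ↥(Cfsg.Lie.chevE7.group (ZMod 2))) :
    IsEmpty (↥H ≃* Matrix.ProjectiveSpecialLinearGroup (Fin 2) F₆₄) ∧ IsEmpty (↥H ≃* Cfsg.PSp 2 F₈) ∧
    IsEmpty (↥H ≃* Matrix.ProjectiveSpecialLinearGroup (Fin 4) F₈) ∧ IsEmpty (↥H ≃* Cfsg.PSU 4 F₆₄ 8) ∧ IsEmpty (↥H ≃* Cfsg.PSp 3 F₈) := by
  exact ⟨key no65 (order65_L2 h64) H, key no65 (order65_S4 h8) H, key no65 (order65_L4 h8) H,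
    key no65 (order65_U4 h64) H, key no65 (order65_S6 h8) H⟩

end Cfsg.Agent.S5769
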