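import Cfsg.Statements.S5791
import Cfsg.Agent.Lib.Sp4E.Main
import Cfsg.Agent.Lib.Asch.Conv

set_option autoImplicit false
open Cfsg

namespace Cfsg.Agent.S5791

open Matrix Lib Lib.Sp4E Lib.Symp Lib.Asch Geo


/-- The maximal subgroups of Sp_4(q), q ≥ 4 even, in the residual class. Let F be a finite field of even order q ≥ 4 and H a maximal subgroup of Sp_4(F) (isometries of the standard alternating form on F^4) lying in the residual class of the symplectic case. Then q = 2^(2m+1) with m ≥ 1 and the perfect socle preimage P of H is, modulo scalars, isomorphic to the Suzuki group over F (the subgroup Sz(F, θ) of the four-dimensional symplectic group with θ(x) = x^(2^(m+1))). -/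
theorem result {F : Type*} [Field F] [Fintype F] (heven : ¬ Odd (Fintype.card F)) (h4 : 4 ≤ Fintype.card F) (H : Subgroup (Matrix.GeneralLinearGroup (Fin 2 ⊕ Fin 2) F)) (hH : Cfsg.Geo.IsMaximalIn (Cfsg.spGL 2 F) H) (hS : Cfsg.Geo.InSymplecticResidualClass H) :
    ∃ (P : Subgroup (Matrix.GeneralLinearGroup (Fin 2 ⊕ Fin 2) F)) (m : ℕ), Cfsg.Geo.IsResidualCore H P ∧ 1 ≤ m ∧ Fintype.card F = 2 ^ (2 * m + 1) ∧
    Nonempty ((P ⧸ (Cfsg.Geo.scalars (Fin 2 ⊕ Fin 2) F).subgroupOf P) ≃* Cfsg.Lie.Sz F (2 ^ (m + 1))) := by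
  obtain ⟨P, h, hQ, -⟩ := hS
  have : CharP F 2 := ringChar.of_eq (FiniteField.even_card_iff_char_two.2 (Nat.not_odd_iff.1 heven))
  let ι : Sp F →* GL (Fin 2 ⊕ Fin 2) F := (Sp F).subtype.toHomUnits
  have i1 : Function.Injective ι := fun _ _ h => Subtype.ext (congrArg Units.val h)
  have i2 : ι.range = spGL 2 F := by
    ext g
    refine ⟨?_, fun h => ⟨⟨g.1, mem_iff_bil.2 fun u v => ?_⟩, Units.ext rfl⟩⟩
    · rintro ⟨g, rfl⟩ u v
      exact (sympForm_eq_bil 2 _ _).trans ((bil_mulVec g u v).trans (sympForm_eq_bil 2 _ _).symm)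
    · exact (sympForm_eq_bil 2 _ _).symm.trans ((h u v).trans (sympForm_eq_bil 2 _ _))
  obtain ⟨R, rfl⟩ : ∃ R : Subgroup (Sp F), R.map ι = P :=
    ⟨P.comap ι, Subgroup.map_comap_eq_self (i2 ▸ h.le.trans hH.1.le)⟩
  have sc : ∀ (g : Sp F) (c : F), g.1 = c • 1 → g = 1 := fun g c e => by
    obtain ⟨r, hr⟩ := exists_one (x := (Pi.single (.inl 0) 1 : V F)) (by simp)
    have := f_ac g r (Pi.single (.inl 0) 1)
    simp only [ac_def, e, smul_mulVec, one_mulVec, map_smul, LinearMap.smul_apply, hr] at this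
    exact Subtype.ext (by rw [e, show c = 1 by simp at this; grind, one_smul]; rfl)
  have h0 : (scalars (Fin 2 ⊕ Fin 2) F).subgroupOf (R.map ι) = ⊥ := eq_bot_iff.2 fun ⟨_, g, hg, rfl⟩ e =>
    let ⟨c, hc⟩ := (mem_scalars_iff _).1 e; Subtype.ext (by simp [sc g c hc])
  let e := (R.equivMapOfInjective ι i1).trans
    ((QuotientGroup.quotientMulEquivOfEq h0).trans QuotientGroup.quotientBot).symm
  have ms : matrixSet (R.map ι) = Subtype.val '' (R : Set (Sp F)) := by
    rw [matrixSet, Subgroup.coe_map, Set.image_image]; rfl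
  have he := env_eq_top_of_absIrred h.absIrred
  have hs : ∀ M : Matrix _ _ F, (∀ g ∈ R, M * g.1 = g.1 * M) → ∃ c : F, M = c • 1 := fun M hM =>
    h.absIrred.2 M (by rw [ms]; rintro _ ⟨g, hg, rfl⟩; exact hM g hg)
  have H : Hz R :=
    { simple := have := h.simple; e.isSimpleGroup
      nab := fun c => h.nonabelian ⟨⟨fun a b => e.symm.injective (by
        rw [map_mul, map_mul, c.is_comm.comm])⟩⟩
      cen := fun c hc => let ⟨a, ha⟩ := hs c.1 fun g hg => congrArg Subtype.val (hc g hg); sc c a ha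
      sub := fun k c hc => by_contra fun hk => h.no_subfield k hk ⟨ι c⁻¹, by
        rw [ms, ← map_inv, inv_inv]; rintro _ ⟨g, hg, rfl⟩; exact hc g hg⟩
      ne := fun e => hH.1.not_ge (by
        rw [← i2, MonoidHom.range_eq_map, ← e]; exact h.le)
      big := by
        classical
        obtain ⟨a, -, ha⟩ := Finset.exists_mem_notMem_of_card_lt_card (s := ({0, 1} : Finset F))
          (t := .univ) (Finset.card_le_two.trans_lt (by rw [Finset.card_univ]; omega))
        exact ⟨a, by simpa using ha⟩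
      span := by
        rw [← Algebra.top_toSubmodule, ← he, Algebra.adjoin_eq_span, ms]
        congr 1
        exact (congrArg SetLike.coe (Submonoid.closure_eq (R.toSubmonoid.map (Sp F).subtype))).symm
      sc := hs
      tr := fun k hk => by_contra fun h1 => by
        obtain ⟨B, -, hB⟩ := exists_subfield_of_trace (H := ⊥) he bot_le (F₀ := k)
          (by rintro _ ⟨g, hg, rfl⟩; exact hk g hg)
        exact h.no_subfield k h1 ⟨B⁻¹, fun s hs => (hB s).1 (Algebra.subset_adjoin hs)⟩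
      noQ := fun Q q1 q2 q3 => by
        have : QuadraticMap.polar Q = fun x y => f x y := by
          ext x y; rw [QuadraticMap.polar, q2]; ring
        refine hQ ⟨Q, ⟨q1, this ▸ ⟨by simp, by simp, by simp, by simp⟩, this ▸ fun v hv => ?_⟩, ?_⟩
        · obtain ⟨r, hr⟩ := exists_one hv
          exact ⟨⟨r, by simp [hr]⟩, r, by simp [f_comm v, hr]⟩
        · rw [ms]; rintro _ ⟨g, hg, rfl⟩; exact q3 g hg }
  obtain ⟨K, _, _, m, h1, h2, h3, ⟨e'⟩⟩ := H.main
  rw [Nat.card_eq_fintype_card] at h3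
  exact ⟨_, m, h, h1, h3, ⟨e.symm.trans (e'.trans (CIT.sz_equiv h2 h3).some)⟩⟩

end Cfsg.Agent.S5791
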