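import Cfsg.Statements.S5883
import Cfsg.Agent.Lib.F23.Max

set_option autoImplicit false
open Cfsg

namespace Cfsg.Agent.S5883



/-- The constant 10 in the statement that H⁽¹⁰⁾ is perfect for every maximal subgroup H of a finite almost simple group cannot be lowered to 9: there exist a finite almost simple group G (with a non-abelian simple normal subgroup of trivial centralizer) and a maximal subgroup H of G whose ninth derived subgroup H⁽⁹⁾ is not perfect, i.e. H⁽¹⁰⁾ ≠ H⁽⁹⁾. (A solvable maximal subgroup of derived length 10 in the Fischer group Fi₂₃ is such an example.) -/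
theorem result :
    ∃ (G : Type) (_ : Group G) (_ : Finite G) (S H : Subgroup G), S.Normal ∧ IsSimpleGroup S ∧ ¬ IsMulCommutative S ∧
      Subgroup.centralizer (S : Set G) = ⊥ ∧ IsCoatom H ∧ derivedSeries H 10 ≠ derivedSeries H 9 := by
  have := Lib.Calc.Fi23.simple
  have hz : Subgroup.center Spor.Fi23 = ⊥ :=
    Lib.Calc.center_eq_bot_of_simple (by rw [Lib.Calc.Fi23.card]; norm_num)
  refine ⟨Spor.Fi23, inferInstance, inferInstance, ⊤, Lib.F23.H, inferInstance, Subgroup.topEquiv.isSimpleGroup, fun h => ?_,
    by rw [Subgroup.coe_top, Subgroup.centralizer_univ, hz], Lib.F23.coatom,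
    Lib.F23.derived_ne Lib.F23.solvable Lib.F23.derived⟩
  refine absurd (hz.symm.trans (eq_top_iff.2 fun x _ => Subgroup.mem_center_iff.2 fun y => ?_)) bot_ne_top
  exact congrArg Subtype.val (h.is_comm.comm (⟨y, trivial⟩ : (⊤ : Subgroup Spor.Fi23)) ⟨x, trivial⟩)

end Cfsg.Agent.S5883
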