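import Cfsg.Statements.S5885
import Cfsg.Agent.Lib.Perm.Sym

set_option autoImplicit false
open Cfsg

namespace Cfsg.Agent.S5885

open MulAction Equiv
open scoped Pointwise

theorem coatom_iff {G : Type*} [Group G] {H M : Subgroup G} (hHM : H ≤ M) :
    IsCoatom (H.subgroupOf M) ↔ H ≠ M ∧ ∀ L : Subgroup G, H ≤ L → L ≤ M → L = H ∨ L = M := by
  constructor
  · intro h
    refine ⟨fun e => h.1 (by rw [e, Subgroup.subgroupOf_self]), fun L h1 h2 => ?_⟩
    rcases (Subgroup.comap_mono (f := M.subtype) h1).eq_or_lt with h3 | h3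
    · left
      have := congrArg (Subgroup.map M.subtype) h3
      change (H.subgroupOf M).map _ = (L.subgroupOf M).map _ at this
      rw [Subgroup.map_subgroupOf_eq_of_le hHM, Subgroup.map_subgroupOf_eq_of_le h2] at this
      exact this.symm
    · right
      exact le_antisymm h2 (Subgroup.subgroupOf_eq_top.1 (h.2 _ h3))
  · rintro ⟨h1, h2⟩
    refine ⟨fun e => h1 (le_antisymm hHM (Subgroup.subgroupOf_eq_top.1 e)), fun L hL => ?_⟩
    have h3 : H ≤ L.map M.subtype := by
      rw [← Subgroup.map_subgroupOf_eq_of_le hHM]; exact Subgroup.map_mono hL.le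
    rcases h2 _ h3 (Subgroup.map_subtype_le _) with h4 | h4
    · exfalso
      apply hL.ne
      rw [← h4]
      exact Subgroup.comap_map_eq_self_of_injective M.subtype_injective L
    · rw [eq_top_iff]
      intro x _
      have : (x : G) ∈ L.map M.subtype := by rw [h4]; exact x.2
      obtain ⟨y, hy, hxy⟩ := this
      rwa [← Subtype.ext hxy]

theorem exists_three {n : ℕ} {x y z : Fin n} (hxy : x ≠ y) (hxz : x ≠ z) (hyz : y ≠ z) :
    ∃ σ ∈ alternatingGroup (Fin n), σ x = y ∧ σ y = z ∧ ∀ w, w ≠ x → w ≠ y → w ≠ z → σ w = w := by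
  refine ⟨swap x z * swap x y, ?_, ?_, ?_, ?_⟩
  · rw [Perm.mem_alternatingGroup, Perm.sign_mul, Perm.sign_swap hxz, Perm.sign_swap hxy]; rfl
  · rw [Perm.mul_apply, swap_apply_left, swap_apply_of_ne_of_ne hxy.symm hyz]
  · rw [Perm.mul_apply, swap_apply_right, swap_apply_left]
  · intro w h1 h2 h3
    rw [Perm.mul_apply, swap_apply_of_ne_of_ne h1 h2, swap_apply_of_ne_of_ne h1 h3]

/-- Let n be an odd positive integer such that every primitive permutation group of degree n contains the alternating group (so the symmetric and alternating groups are the only primitive groups of degree n). Let G be a finite group, M a maximal subgroup of G of index n, and H a maximal subgroup of M. Then H is a second maximal subgroup of G: H is maximal in every maximal subgroup K of G containing H. -/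
theorem result {G : Type*} [Group G]
    [Finite G] (n : ℕ) (hodd : Odd n)
    (hA : ∀ P : Subgroup (Equiv.Perm (Fin n)), MulAction.IsPreprimitive P (Fin n) → alternatingGroup (Fin n) ≤ P)
    (M : Subgroup G) (hM : IsCoatom M) (hn : M.index = n) (H : Subgroup G) (hHM : H ≤ M)
    (hmax : IsCoatom (H.subgroupOf M)) (K : Subgroup G) (hK : IsCoatom K) (hHK : H ≤ K) :
    IsCoatom (H.subgroupOf K) := by
  classical
  have hn1 : n ≠ 1 := fun h => hM.1 (Subgroup.index_eq_one.1 (hn.trans h))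
  have hn2 : 2 ≤ n := by obtain ⟨k, hk⟩ := hodd; omega
  haveI : Nontrivial (Fin n) := Fin.nontrivial_iff_two_le.2 hn2
  let a : Fin n := ⟨0, by omega⟩
  obtain ⟨f, -, hf, htr⟩ := Cfsg.Lib.Perm.exists_coset_hom M (Ω := Fin n) (by simpa using hn) a
  have hMf : ∀ g, g ∈ M ↔ f g a = a := fun g => by rw [← hf]; rfl
  have hAf : alternatingGroup (Fin n) ≤ f.range := by
    apply hA
    rw [← isCoatom_stabilizer_iff_preprimitive _ a]
    have e : (stabilizer f.range a).comap f.rangeRestrict = M := by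
      ext g; rw [hMf]; rfl
    have hinj := Subgroup.comap_injective f.rangeRestrict_surjective
    refine ⟨fun h => hM.1 (by rw [← e, h, Subgroup.comap_top]), fun L hL => hinj ?_⟩
    rw [Subgroup.comap_top]
    refine hM.2 _ (e ▸ lt_of_le_of_ne (Subgroup.comap_mono hL.le) fun h => hL.ne (hinj h))
  by_cases hKM : K = M
  · rw [hKM]; exact hmax
  obtain ⟨hne, hm⟩ := (coatom_iff hHM).1 hmax
  have hKH : K ⊓ M = H := by
    refine (hm _ (le_inf hHK hHM) inf_le_right).resolve_right fun h => hKM ?_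
    exact ((hM.le_iff.1 (inf_eq_right.1 h)).resolve_left hK.1)
  have hKH' : ∀ g ∈ K, f g a = a → g ∈ H := fun g hg h => hKH ▸ ⟨hg, (hMf g).2 h⟩
  rw [coatom_iff hHK]
  refine ⟨fun h => hKM ((hK.le_iff.1 (h ▸ hHM)).resolve_left hM.1).symm, fun J hHJ hJK => ?_⟩
  by_contra hc
  push Not at hc
  obtain ⟨hc1, hc2⟩ := hc
  -- the block
  have hJ : ∀ g ∈ K, ∀ j ∈ J, f g a = f j a → g ∈ J := by
    intro g hg j hj h
    have : j⁻¹ * g ∈ H := hKH' _ (K.mul_mem (K.inv_mem (hJK hj)) hg) (by
      rw [map_mul, map_inv, Perm.mul_apply, h]; simp)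
    simpa using J.mul_mem hj (hHJ this)
  obtain ⟨j₀, hj₀, hj₀'⟩ := SetLike.exists_of_lt (lt_of_le_of_ne hHJ hc1.symm)
  have hb : f j₀ a ≠ a := fun h => hj₀' (hKH' _ (hJK hj₀) h)
  obtain ⟨g₀, hg₀, hg₀'⟩ := SetLike.exists_of_lt (lt_of_le_of_ne hJK hc2)
  have hdis : ∀ j ∈ J, ∀ j' ∈ J, f (g₀ * j) a ≠ f j' a := fun j hj j' hj' h =>
    hg₀' (by simpa using J.mul_mem (hJ _ (K.mul_mem hg₀ (hJK hj)) _ hj' h) (J.inv_mem hj))
  have hc0 : ∀ j ∈ J, f g₀ a ≠ f j a := fun j hj => by simpa using hdis 1 J.one_mem j hj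
  have hcd : f g₀ a ≠ f (g₀ * j₀) a := by
    rw [map_mul, Perm.mul_apply]; exact fun h => hb ((f g₀).injective h).symm
  by_cases hN : f.ker ≤ K
  · let S : Subgroup G := M ⊓ (stabilizer (Perm (Fin n)) {x | ∃ j ∈ J, f j a = x}).comap f
    have hS : ∀ g ∈ S, ∀ j ∈ J, ∃ j' ∈ J, f j' a = f g (f j a) := by
      intro g hg j hj
      have h1 : f g • {x | ∃ j ∈ J, f j a = x} = {x | ∃ j ∈ J, f j a = x} := hg.2
      have : f g (f j a) ∈ {x | ∃ j ∈ J, f j a = x} := h1 ▸ Set.smul_mem_smul_set ⟨j, hj, rfl⟩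
      exact this
    have hHS : H ≤ S := by
      intro h hh
      refine ⟨hHM hh, ?_⟩
      change f h • {x | ∃ j ∈ J, f j a = x} = {x | ∃ j ∈ J, f j a = x}
      ext x
      rw [Set.mem_smul_set_iff_inv_smul_mem]
      constructor
      · rintro ⟨j, hj, e⟩
        exact ⟨h * j, J.mul_mem (hHJ hh) hj, by rw [map_mul, Perm.mul_apply, e]; simp⟩
      · rintro ⟨j, hj, rfl⟩
        exact ⟨h⁻¹ * j, J.mul_mem (J.inv_mem (hHJ hh)) hj, by rw [map_mul, map_inv, Perm.mul_apply]; rfl⟩
    rcases hm S hHS inf_le_left with h1 | h1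
    · have hall : ∀ e : Fin n, (∃ j ∈ J, f j a = e) ∨ ∃ j ∈ J, f (g₀ * j) a = e := by
        intro e
        by_contra he
        push Not at he
        obtain ⟨σ, hσ, s1, s2, s3⟩ := exists_three (z := e) hcd (by simpa using he.2 1 J.one_mem) (he.2 j₀ hj₀)
        obtain ⟨h, rfl⟩ := hAf hσ
        have s4 : ∀ j ∈ J, f h (f j a) = f j a := fun j hj =>
          s3 _ (hc0 j hj).symm (hdis _ hj₀ _ hj).symm (he.1 j hj)
        have hh : h ∈ H := by
          rw [← h1]
          refine ⟨(hMf h).2 (by simpa using s4 1 J.one_mem), ?_⟩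
          change f h • {x | ∃ j ∈ J, f j a = x} = {x | ∃ j ∈ J, f j a = x}
          ext x
          constructor
          · rintro ⟨_, ⟨j, hj, rfl⟩, rfl⟩
            exact ⟨j, hj, (s4 j hj).symm⟩
          · rintro ⟨j, hj, rfl⟩
            exact ⟨_, ⟨j, hj, rfl⟩, s4 j hj⟩
        have h2 : g₀⁻¹ * h * g₀ ∈ J := hJ _ (K.mul_mem (K.mul_mem (K.inv_mem hg₀) (hHK hh)) hg₀) j₀ hj₀ (by
          simp only [map_mul, map_inv, Perm.mul_apply] at s1 ⊢
          rw [s1]; simp)
        refine he.2 (g₀⁻¹ * h * g₀ * j₀) (J.mul_mem h2 hj₀) ?_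
        rw [← s2]
        simp
      let B : Finset (Fin n) := Finset.univ.filter fun x => ∃ j ∈ J, f j a = x
      have hu : (Finset.univ : Finset (Fin n)) = B ∪ B.image (f g₀) := by
        ext e
        simp only [Finset.mem_univ, Finset.mem_union, Finset.mem_image, B, Finset.mem_filter, true_and, true_iff]
        rcases hall e with h | ⟨j, hj, h⟩
        · exact Or.inl h
        · exact Or.inr ⟨_, ⟨j, hj, rfl⟩, by rw [← h, map_mul, Perm.mul_apply]⟩
      have hd : Disjoint B (B.image (f g₀)) := by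
        rw [Finset.disjoint_left]
        intro x hx hx'
        simp only [Finset.mem_univ, Finset.mem_image, B, Finset.mem_filter, true_and] at hx hx'
        obtain ⟨j, hj, rfl⟩ := hx
        obtain ⟨_, ⟨j', hj', rfl⟩, e⟩ := hx'
        exact hdis j' hj' j hj (by rw [← e, map_mul, Perm.mul_apply])
      have := congrArg Finset.card hu
      rw [Finset.card_union_of_disjoint hd, Finset.card_image_of_injective _ (f g₀).injective, Finset.card_univ,
        Fintype.card_fin] at this
      obtain ⟨k, hk⟩ := hodd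
      omega
    · obtain ⟨σ, hσ, s1, -, s3⟩ := exists_three (hc0 j₀ hj₀).symm (hdis _ hj₀ _ hj₀).symm hcd
      obtain ⟨h, rfl⟩ := hAf hσ
      have hh : h ∈ S := by
        rw [h1, hMf]
        exact s3 a hb.symm (by simpa using (hc0 1 J.one_mem).symm) (by simpa using (hdis _ hj₀ 1 J.one_mem).symm)
      obtain ⟨j', hj', e⟩ := hS h hh j₀ hj₀
      exact hc0 j' hj' (by rw [e, s1])
  · have htop : K ⊔ f.ker = ⊤ := hK.2 _ (left_lt_sup.2 hN)
    obtain ⟨σ, hσ, s1, s2, -⟩ := exists_three hb.symm (by simpa using (hc0 1 J.one_mem).symm) (hc0 j₀ hj₀).symm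
    obtain ⟨h, rfl⟩ := hAf hσ
    have : h ∈ K ⊔ f.ker := htop ▸ Subgroup.mem_top h
    rw [← SetLike.mem_coe, Subgroup.mul_normal] at this
    obtain ⟨k, hk, m, hm', rfl⟩ := this
    have hm'' : f m = 1 := hm'
    simp only [map_mul, hm'', mul_one] at s1 s2
    exact hc0 (k * j₀) (J.mul_mem (hJ k hk j₀ hj₀ s1) hj₀) (by rw [map_mul, Perm.mul_apply, s2])

end Cfsg.Agent.S5885
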