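import Cfsg.Statements.S5890
import Cfsg.Agent.Lib.PSL2.Classify

set_option autoImplicit false
open Cfsg

namespace Cfsg.Agent.S5890

/-- Let F be a finite field with q ≥ 4 elements, let L ≤ PGL₂(F) be the image of SL₂(F) (a copy of PSL₂(F), of index gcd(2, q − 1)), and let M be a maximal subgroup of PGL₂(F) that does not contain L. Suppose q ∉ {7, 9, 11} and that q is not a prime congruent to ±11 or ±19 modulo 40. Then M ∩ L is a maximal subgroup of L. (For the excluded q there are maximal subgroups of PGL₂(q) — dihedral groups of order 12 and 16 at q = 7, of order 20 and 16 at q = 9, of order 20 at q = 11, and S₄ at the excluded primes — whose intersection with L is not maximal in L.) -/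
theorem result {F : Type*} [Field F]
    [Fintype F] (h4 : 4 ≤ Fintype.card F) (h7 : Fintype.card F ≠ 7) (h9 : Fintype.card F ≠ 9) (h11 : Fintype.card F ≠ 11)
    (h40 : (Fintype.card F).Prime → Fintype.card F % 40 ∉ ({11, 19, 21, 29} : Finset ℕ))
    (M : Subgroup (Matrix.ProjGenLinGroup (Fin 2) F)) (hM : IsCoatom M)
    (hML : ¬ (Matrix.ProjGenLinGroup.mk.comp Matrix.SpecialLinearGroup.toGL).range ≤ M) :
    IsCoatom ((M ⊓ (Matrix.ProjGenLinGroup.mk.comp Matrix.SpecialLinearGroup.toGL).range).subgroupOf
      (Matrix.ProjGenLinGroup.mk.comp Matrix.SpecialLinearGroup.toGL).range) := by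
  open Cfsg.Lib.PSL2 in
  rw [← Nat.card_eq_fintype_card] at *
  have := Fact.mk (CharP.char_is_prime F (ringChar F))
  have hL : ¬ pslSub F ≤ M := fun h => hML (range_toPGL (K := F) ▸ h)
  have key : IsCoatom (M.comap toP) := by
    by_cases hodd : Odd (Nat.card F)
    · have ho := Nat.odd_iff.1 hodd
      rcases classify_pgl (AlgebraicClosure F) (ringChar F) hodd h4 hM hL with ⟨x, rfl⟩ |
        ⟨a, b, m, h, rfl, h5⟩ | ⟨h1, h2, V, hV, rfl⟩ | ⟨k, c, n, h1, h2, h3, rfl⟩
      · exact comap_stabilizer_toP x ▸ isCoatom_stabilizerL x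
      · rcases h.eq_or_eq with rfl | rfl
        · have := h5 rfl
          exact h.isCoatom_dihL_split (by simp only [Finset.mem_insert, Finset.mem_singleton]; omega)
        · exact h.isCoatom_dihL_nonsplit (by omega) h7 h9
      · obtain ⟨e⟩ := equiv_normalizer_four_psl_alt h2 hV
        have hp : (Nat.card F).Prime := h1 ▸ Fact.out
        have := h40 hp
        simp only [Finset.mem_insert, Finset.mem_singleton] at this
        exact normalizer_eq_comap_toP V ▸ isCoatom_of_equiv_alt_four hp (by omega) h2 (by omega) e
      · refine isCoatom_comap_range_subHom _ h3 h1 (fun e => ?_) c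
        have := (odd_card_of_map k.subtype).2 hodd
        rw [e] at this
        exact absurd this (by decide)
    · let e := MulEquiv.ofBijective toP ⟨toP_injective, toP_surjective_of_even hodd⟩
      have := isCoatom_map_equiv e.symm hM
      rwa [Subgroup.map_equiv_eq_comap_symm'] at this
  have e : (Matrix.ProjGenLinGroup.mk.comp Matrix.SpecialLinearGroup.toGL).range = pslSub F :=
    range_toPGL
  rw [e, Subgroup.inf_subgroupOf_right]
  have := isCoatom_map_equiv (pslEquiv F) key
  convert this using 1
  ext x
  obtain ⟨y, rfl⟩ := (pslEquiv F).surjective x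
  rw [Subgroup.mem_subgroupOf, pslEquiv_coe]
  exact (Subgroup.mem_map_iff_mem (f := (pslEquiv F).toMonoidHom) (K := M.comap toP)
    (pslEquiv F).injective).symm

end Cfsg.Agent.S5890
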