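import Cfsg.Statements.S5893
import Cfsg.Agent.Lib.PSL2.Classify

set_option autoImplicit false
open Cfsg

namespace Cfsg.Agent.S5893

/-- Let F be a finite field of even order q ≥ 4 and let M be a maximal subgroup of PSL₂(F) (= SL₂(F) = PGL₂(F)). Then one of the following holds: |M| = q(q − 1) (the stabiliser of a point of the projective line, elementary abelian of order q extended by a cyclic group of order q − 1); M is dihedral of order 2(q − 1); M is dihedral of order 2(q + 1); or q = q₀^r for a prime r with q₀ ≠ 2 and M ≅ PSL₂(F₀) with |F₀| = q₀. -/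
theorem result {F : Type*} [Field F] [Fintype F]
    (heven : Even (Fintype.card F)) (h4 : 4 ≤ Fintype.card F) (M : Subgroup (Matrix.ProjectiveSpecialLinearGroup (Fin 2) F)) (hM : IsCoatom M) :
    Nat.card M = Fintype.card F * (Fintype.card F - 1) ∨
    Nonempty (M ≃* DihedralGroup (Fintype.card F - 1)) ∨
    Nonempty (M ≃* DihedralGroup (Fintype.card F + 1)) ∨
    (∃ (F₀ : Type) (_ : Field F₀) (_ : Fintype F₀) (r : ℕ), r.Prime ∧ Fintype.card F₀ ≠ 2 ∧
        Fintype.card F = Fintype.card F₀ ^ r ∧ Nonempty (M ≃* Matrix.ProjectiveSpecialLinearGroup (Fin 2) F₀)) := by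
  open Cfsg.Lib.PSL2 in
  rw [← Nat.card_eq_fintype_card] at *
  have := Fact.mk (CharP.char_is_prime F (ringChar F))
  have he := Nat.not_odd_iff_even.2 heven
  have hd := gcd_two_eq_of_even he
  rcases classify_psl (AlgebraicClosure F) (ringChar F) h4 hM with ⟨x, rfl⟩ | ⟨a, b, m, h, rfl⟩ |
    ⟨ho, -⟩ | ⟨ho, -⟩ | ⟨k, c, n, h1, h2, h3, rfl⟩
  · left
    rw [← card_stabilizerL_mul x, hd, one_mul]
  · have := h.dihedral_dihL
    rw [hd, Nat.div_one] at this
    rcases h.eq_or_eq with rfl | rfl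
    exacts [Or.inr (Or.inl this), Or.inr (Or.inr (Or.inl this))]
  · exact absurd ho he
  · rw [Nat.odd_iff] at he; omega
  · obtain ⟨F₀, _, _, e1, ⟨e2⟩, -⟩ := exists_type_field k
    obtain ⟨e⟩ := equiv_comap_range_subHom_psl k.subtype h2 (Or.inr he) c
    exact Or.inr (Or.inr (Or.inr ⟨F₀, _, _, n, h1, e1 ▸ h3, e1 ▸ h2, ⟨e.trans e2⟩⟩))

end Cfsg.Agent.S5893
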