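import Cfsg.Statements.S5902
import Cfsg.Agent.S5901

set_option autoImplicit false
open Cfsg

namespace Cfsg.Agent.S5902

open Subgroup

theorem conj_back {G : Type*} [Group G] (g : G) {H : Subgroup G}
    (h : ∃ C : Subgroup G, H.map (MulAut.conj g).toMonoidHom ⊔ C = ⊤ ∧ H.map (MulAut.conj g).toMonoidHom ⊓ C = ⊥) :
    ∃ C : Subgroup G, H ⊔ C = ⊤ ∧ H ⊓ C = ⊥ := by
  obtain ⟨C, h1, h2⟩ := h
  obtain ⟨C, rfl⟩ := (MulAut.conj g).mapSubgroup.surjective C
  refine ⟨C, (MulAut.conj g).mapSubgroup.injective ?_, (MulAut.conj g).mapSubgroup.injective ?_⟩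
  · rw [OrderIso.map_sup, OrderIso.map_top]; exact h1
  · rw [OrderIso.map_inf, OrderIso.map_bot]; exact h2

/-- Let G be a finite group, X a subgroup whose own subgroup lattice is complemented, and suppose X lies in exactly one maximal subgroup M of G. Then every subgroup H of G not contained in the normal core of M has a complement in the subgroup lattice of G (some C with H ⊔ C = G and H ⊓ C = 1); in particular the subgroup lattice of G modulo the normal core of M is complemented. -/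
theorem result {G : Type*} [Group G] [Finite G] (X M : Subgroup G)
    (hK : ComplementedLattice (Subgroup X))
    (hM : IsCoatom M) (hXM : X ≤ M) (huniq : ∀ M' : Subgroup G, IsCoatom M' → X ≤ M' → M' = M) :
    (∀ H : Subgroup G, ¬ H ≤ M.normalCore → ∃ C : Subgroup G, H ⊔ C = ⊤ ∧ H ⊓ C = ⊥) ∧
    ComplementedLattice (Subgroup (G ⧸ M.normalCore)) := by
  have key : ∀ H : Subgroup G, ¬ H ≤ M.normalCore → ∃ C : Subgroup G, H ⊔ C = ⊤ ∧ H ⊓ C = ⊥ := fun H hH => by
    obtain ⟨h, h1, h2⟩ := SetLike.not_le_iff_exists.1 hH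
    obtain ⟨g, hg⟩ := not_forall.1 h2
    refine conj_back g (S5901.result ⊥ X M bot_le (fun e => hM.1 (eq_top_iff.2 (e ▸ hXM))) (fun Y _ hY => ?_)
      hM hXM huniq _ (fun e => hg (e ⟨h, h1, rfl⟩)) (inf_bot_eq _))
    obtain ⟨C, hC⟩ := exists_isCompl (Y.subgroupOf X)
    refine ⟨C.map X.subtype, bot_le, map_subtype_le _, ?_, ?_⟩
    · rw [← map_subgroupOf_eq_of_le hY, ← Subgroup.map_sup, hC.sup_eq_top, ← MonoidHom.range_eq_map, range_subtype]
    · rw [← map_subgroupOf_eq_of_le hY, ← Subgroup.map_inf _ _ _ X.subtype_injective, hC.inf_eq_bot, Subgroup.map_bot]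
  refine ⟨key, ⟨fun H => ?_⟩⟩
  rcases eq_or_ne H ⊥ with rfl | h0
  · exact ⟨⊤, isCompl_bot_top⟩
  have hs := QuotientGroup.mk'_surjective M.normalCore
  obtain ⟨C, h1, h2⟩ := key (H.comap (QuotientGroup.mk' _)) fun e => h0 (by
    rw [← map_comap_eq_self_of_surjective hs H, Subgroup.map_eq_bot_iff, QuotientGroup.ker_mk']; exact e)
  refine ⟨C.map (QuotientGroup.mk' _), disjoint_iff_inf_le.2 ?_, codisjoint_iff.2 ?_⟩
  · rintro _ ⟨h, c, hc, rfl⟩
    rw [mem_bot.1 (h2.le ⟨h, hc⟩), map_one]; exact one_mem _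
  · rw [← map_comap_eq_self_of_surjective hs H, ← Subgroup.map_sup, h1, map_top_of_surjective _ hs]

end Cfsg.Agent.S5902
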