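import Cfsg.Statements.S5903
import Cfsg.Agent.S5902

set_option autoImplicit false
open Cfsg

namespace Cfsg.Agent.S5903

open Subgroup

/-- Let G be a finite simple group, X a subgroup lying in exactly one maximal subgroup M of G, and N a subgroup of prime order with N ≤ X that is central in M. If the subgroup lattice of X/N is complemented, then the subgroup lattice of G is complemented. -/
theorem result {G : Type*} [Group G] [Finite G] [IsSimpleGroup G] (X M N : Subgroup G)
    (hM : IsCoatom M) (hXM : X ≤ M) (huniq : ∀ M' : Subgroup G, IsCoatom M' → X ≤ M' → M' = M)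
    (hNX : N ≤ X) (hN : (Nat.card N).Prime) (hcen : ∀ n ∈ N, ∀ m ∈ M, m * n = n * m)
    [(N.subgroupOf X).Normal] (hK : ComplementedLattice (Subgroup (X ⧸ N.subgroupOf X))) :
    ComplementedLattice (Subgroup G) := by
  refine ⟨fun H => ?_⟩
  by_cases hn : H.Normal
  · rcases hn.eq_bot_or_eq_top with rfl | rfl
    exacts [⟨⊤, isCompl_bot_top⟩, ⟨⊥, isCompl_top_bot⟩]
  have := Fact.mk hN
  obtain ⟨g, h1, h2⟩ : ∃ g : G, ¬ H.map (MulAut.conj g).toMonoidHom ≤ M ∧
      H.map (MulAut.conj g).toMonoidHom ⊓ N = ⊥ := by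
    by_contra! h
    refine hn (normalizer_eq_top_iff.1 (eq_top_iff.2 (((normalClosure_normal (s := N)).eq_bot_or_eq_top.resolve_left
      fun e => ?_).ge.trans ((closure_le _).2 fun y hy => ?_))))
    · rw [eq_bot_iff.2 (le_normalClosure.trans e.le), card_bot] at hN
      exact Nat.not_prime_one hN
    obtain ⟨n, hn, hy⟩ := Group.mem_conjugatesOfSet_iff.1 hy
    obtain ⟨g, rfl⟩ := isConj_iff.1 hy
    by_cases e : H.map (MulAut.conj g⁻¹).toMonoidHom ≤ M
    · refine centralizer_le_normalizer _ fun x hx => ?_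
      simpa [mul_assoc] using congrArg (MulAut.conj g) (hcen n hn _ (e ⟨x, hx, rfl⟩))
    · have := ((H.map (MulAut.conj g⁻¹).toMonoidHom).subgroupOf N).eq_bot_or_eq_top_of_prime_card.resolve_left
        fun e' => h _ e (disjoint_iff.1 (subgroupOf_eq_bot.1 e'))
      obtain ⟨x, hx, e⟩ := subgroupOf_eq_top.1 this hn
      exact le_normalizer (by simpa [← e, mul_assoc] using hx)
  refine (S5902.conj_back g (S5901.result N X M hNX (fun e => hM.1 (eq_top_iff.2 (e ▸ hXM)))
    (fun Y h1 h2 => ?_) hM hXM huniq _ h1 h2)).imp fun C h => ⟨disjoint_iff.2 h.2, codisjoint_iff.2 h.1⟩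
  have hs := QuotientGroup.mk'_surjective (N.subgroupOf X)
  obtain ⟨C, hC⟩ := exists_isCompl ((Y.subgroupOf X).map (QuotientGroup.mk' (N.subgroupOf X)))
  have e : ((Y.subgroupOf X).map (QuotientGroup.mk' (N.subgroupOf X))).comap (QuotientGroup.mk' _) = Y.subgroupOf X :=
    comap_map_eq_self (by rw [QuotientGroup.ker_mk']; exact subgroupOf_mono X h1)
  refine ⟨(C.comap (QuotientGroup.mk' _)).map X.subtype, ?_, map_subtype_le _, ?_, ?_⟩
  · exact (map_subgroupOf_eq_of_le hNX).ge.trans (map_mono ((QuotientGroup.ker_mk' _).ge.trans (ker_le_comap _ _)))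
  · rw [← map_subgroupOf_eq_of_le h2, ← Subgroup.map_sup, ← e, comap_sup_eq _ _ _ hs, hC.sup_eq_top, comap_top,
      ← MonoidHom.range_eq_map, range_subtype]
  · rw [← map_subgroupOf_eq_of_le h2, ← Subgroup.map_inf _ _ _ X.subtype_injective, ← e, ← comap_inf, hC.inf_eq_bot,
      MonoidHom.comap_bot, QuotientGroup.ker_mk', map_subgroupOf_eq_of_le hNX]

end Cfsg.Agent.S5903
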