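import Cfsg.Statements.S5904
import Cfsg.Agent.Lib.Perm.Basic

set_option autoImplicit false
open scoped Pointwise
open Cfsg

namespace Cfsg.Agent.S5904

open MulAction Subgroup Equiv
open scoped Pointwise

/-- Let Ω be a finite set with more than two elements and O ⊆ Ω a subset with exactly as many elements as its complement. Then the setwise stabilizer of O in the symmetric group on Ω is not a maximal subgroup (it is properly contained in the stabilizer of the partition {O, Ω ∖ O}, which is proper). -/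
theorem result {Ω : Type*} [Fintype Ω] [DecidableEq Ω] (hΩ : 2 < Fintype.card Ω)
    (O : Set Ω) (hO : Nat.card O = Nat.card ↥Oᶜ) :
    ¬ IsCoatom (MulAction.stabilizer (Equiv.Perm Ω) O) := by
  classical
  intro h
  obtain ⟨e⟩ := Finite.card_eq.1 hO
  have hc := Set.ncard_add_ncard_compl O
  rw [Nat.card_eq_fintype_card] at hc
  obtain ⟨a, b, ha, hb, hab⟩ := (Set.one_lt_ncard_iff (Set.toFinite O)).1
    (by change O.ncard = Oᶜ.ncard at hO; omega)
  let t : Perm Ω := ((sumCompl (· ∈ O)).symm.trans ((e.sumCongr e.symm).trans (sumComm _ _))).trans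
    (sumCompl (· ∈ O))
  have ht : ∀ x, t x ∈ O ↔ x ∉ O := fun x => by
    by_cases hx : x ∈ O
    · rw [show t x = e ⟨x, hx⟩ by simp [t, sumCompl_symm_apply_of_pos hx]; rfl]
      exact iff_of_false (e ⟨x, hx⟩).2 (not_not.2 hx)
    · rw [show t x = e.symm ⟨x, hx⟩ by simp [t, sumCompl_symm_apply_of_neg hx]; rfl]
      exact iff_of_true (e.symm ⟨x, hx⟩).2 hx
  let K : Subgroup (Perm Ω) :=
    { carrier := {g | ∀ x y, (g x ∈ O ↔ g y ∈ O) ↔ (x ∈ O ↔ y ∈ O)}
      one_mem' := fun _ _ => Iff.rfl
      mul_mem' := fun h1 h2 x y => (h1 _ _).trans (h2 x y)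
      inv_mem' := fun {g} h1 x y => by simpa using (h1 (g⁻¹ x) (g⁻¹ y)).symm }
  have hs : ∀ g ∈ stabilizer (Perm Ω) O, ∀ x, g x ∈ O ↔ x ∈ O := fun g hg x => by
    conv_lhs => rw [← show g • O = O from hg]
    exact Set.smul_mem_smul_set_iff
  have := h.2 K (lt_of_le_of_ne (fun g hg x y => by rw [hs g hg, hs g hg]) fun e' => by
    have := hs t (e'.ge fun x y => by rw [ht, ht, not_iff_not]) a
    rw [ht] at this
    tauto)
  have h1 := this.ge (mem_top (swap b (t a))) a b
  have h2 : t a ∉ O := fun h => (ht a).1 h ha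
  rw [swap_apply_left, swap_apply_of_ne_of_ne hab fun e' => h2 (by rw [← e']; exact ha)] at h1
  tauto

end Cfsg.Agent.S5904
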