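import Cfsg.Statements.S5908
import Cfsg.Agent.S0827

set_option autoImplicit false
open Cfsg

namespace Cfsg.Agent.S5908

/-- The subgroup lattice of PSU₃(2) (the solvable group of order 72, realised over the field with 4 elements) is not complemented: some subgroup H has no subgroup X with H ⊔ X = ⊤ and H ⊓ X = ⊥. -/
theorem result {F : Type*} [Field F] [Fintype F] (hF : Fintype.card F = 4) :
    ¬ ComplementedLattice (Subgroup (Cfsg.PSU 3 F 2)) := by
  obtain ⟨N, hN, -, -, ⟨e⟩⟩ := Cfsg.Agent.S0827.result hF
  let f := e.toMonoidHom.comp (QuotientGroup.mk' N)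
  have hf : Function.Surjective f := e.surjective.comp (QuotientGroup.mk'_surjective N)
  intro hc
  obtain ⟨X, hX⟩ := hc.exists_isCompl ((Subgroup.center (QuaternionGroup 2)).comap f)
  have h1 : ∀ y : QuaternionGroup 2, y ^ 2 ∈ Subgroup.center (QuaternionGroup 2) := by
    simp only [Subgroup.mem_center_iff]; decide
  have h2 : ∀ y : QuaternionGroup 2, y ^ 2 = 1 → y ∈ Subgroup.center (QuaternionGroup 2) := by
    simp only [Subgroup.mem_center_iff]; decide
  have h3 : X ≤ (Subgroup.center (QuaternionGroup 2)).comap f := fun x hx => by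
    have h4 : x ^ 2 = 1 := Subgroup.disjoint_def.mp hX.disjoint
      (by rw [Subgroup.mem_comap, map_pow]; exact h1 _) (pow_mem hx 2)
    exact h2 _ (by rw [← map_pow, h4, map_one])
  have h4 := hX.sup_eq_top
  rw [sup_eq_left.mpr h3] at h4
  obtain ⟨x, hx⟩ := hf (QuaternionGroup.a 1)
  have h5 : f x ∈ Subgroup.center (QuaternionGroup 2) := (h4.ge (Subgroup.mem_top x) :)
  rw [hx, Subgroup.mem_center_iff] at h5
  revert h5
  decide

end Cfsg.Agent.S5908
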