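import Cfsg.Statements.S5909
import Cfsg.Agent.Lib.Perm.Imprim

set_option autoImplicit false
open Cfsg

namespace Cfsg.Agent.S5909

open MulAction Subgroup Equiv Equiv.Perm Cfsg.Lib.Perm

set_option synthInstance.maxSize 2000 in
set_option synthInstance.maxHeartbeats 200000 in
theorem four : ∀ g h : Perm (Fin 2 × Fin 2), sign g = 1 → sign h = 1 →
    (∀ x y, x.1 = y.1 → (g x).1 = (g y).1) ∨ (∀ x y, x.1 = y.1 → (h x).1 = (h y).1) ∨
    (∀ x y, x.1 = y.1 → (g (h x)).1 = (g (h y)).1) ∨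
    (∀ x y, x.1 = y.1 → (g (g (h x))).1 = (g (g (h y))).1) := by
  decide +kernel

variable {Ω : Type*} [Fintype Ω] [DecidableEq Ω] {K : Subgroup (Perm Ω)}

theorem three {u v c d : Ω} {t : Perm Ω} (huv : u ≠ v) (hS : swap u v * swap c d ∈ K) (ht : t ∈ K)
    (h1 : swap (t c) (t d) = swap c d) (h2 : t u = u) (h3 : t v ≠ v) :
    ∃ x ∈ K, x.IsThreeCycle := by
  refine ⟨swap u v * swap u (t v), ?_, isThreeCycle_swap_mul_swap_same huv
    (fun e => huv (t.injective (h2.trans e))) h3.symm⟩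
  have := mul_mem hS (inv_mem (mul_mem (mul_mem ht hS) (inv_mem ht)))
  rw [show t * (swap u v * swap c d) * t⁻¹ = (t * swap u v * t⁻¹) * (t * swap c d * t⁻¹) by group,
    ← swap_apply_apply, ← swap_apply_apply, h1, h2] at this
  simpa [mul_assoc] using this

theorem exists_three {ι : Type*} {f : Ω → ι} (hf : ∀ i, Nat.card {x : Ω // f x = i} = 2)
    (h4 : Nat.card Ω ≠ 4) (h8 : Nat.card Ω ≠ 8) (hK : ∀ w ∈ partStab f, sign w = 1 → w ∈ K)
    {g : Perm Ω} (hg : g ∈ K) (hgW : g ∉ partStab f) : ∃ x ∈ K, x.IsThreeCycle := by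
  classical
  choose s hs1 hs2 using fun x => exists_fibre_ne hf le_rfl (f x) x
  have uniq : ∀ x y, f y = f x → y = x ∨ y = s x := fun x y h => by
    by_contra hc
    push Not at hc
    have := Finset.card_le_univ ({⟨x, rfl⟩, ⟨s x, hs1 x⟩, ⟨y, h⟩} : Finset {z // f z = f x})
    rw [← Nat.card_eq_fintype_card, hf, Finset.card_eq_three.2 ⟨_, _, _, by simpa using (hs2 x).symm,
      by simpa using hc.1.symm, by simpa using hc.2.symm, rfl⟩] at this
    omega
  have ss : ∀ x, s (s x) = x := fun x =>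
    (uniq x _ ((hs1 _).trans (hs1 x))).resolve_right (hs2 _)
  have sinj : ∀ {x y}, s x = y ↔ x = s y := ⟨fun e => by rw [← e, ss], fun e => by rw [e, ss]⟩
  have m1 : ∀ x y, swap x (s x) * swap y (s y) ∈ K := fun x y => hK _
    (mul_mem (swap_mem_partStab (hs1 x).symm) (swap_mem_partStab (hs1 y).symm))
    (by simp [(hs2 x).symm, (hs2 y).symm])
  let τ : Ω → Ω := fun x => g (s (g⁻¹ x))
  have ττ : ∀ x, τ (τ x) = x := fun x => by simp [τ, ss]
  have τinj : ∀ {x y}, τ x = y ↔ x = τ y := ⟨fun e => by rw [← e, ττ], fun e => by rw [e, ττ]⟩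
  have τne : ∀ x, τ x ≠ x := fun x e => hs2 (g⁻¹ x) (by rw [eq_inv_iff_eq]; exact e)
  have m2 : ∀ x y, swap x (τ x) * swap y (τ y) ∈ K := fun x y => by
    have := mul_mem (mul_mem hg (m1 (g⁻¹ x) (g⁻¹ y))) (inv_mem hg)
    rw [show ∀ p q, g * (p * q) * g⁻¹ = (g * p * g⁻¹) * (g * q * g⁻¹) from fun p q => by group,
      ← swap_apply_apply, ← swap_apply_apply] at this
    simpa [τ] using this
  obtain ⟨u, hu⟩ : ∃ u, τ u ≠ s u := by
    by_contra hc
    push Not at hc
    refine hgW (mem_partStab_of_imp fun x y h => ?_)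
    rcases uniq y x h with rfl | rfl
    · rfl
    · rw [← hs1 (g y), ← hc (g y)]; simp [τ]
  by_cases hA : τ (s (τ u)) = s u
  · have key : ∀ c w, c ∉ ({u, τ u, s u, s (τ u)} : Finset Ω) → w ∉ ({u, τ u, s u, s (τ u)} : Finset Ω) →
        swap (swap w (s w) c) (swap w (s w) (τ c)) = swap c (τ c) → ∃ x ∈ K, x.IsThreeCycle := by
      intro c w hc hw e
      simp only [Finset.mem_insert, Finset.mem_singleton, not_or] at hc hw
      have hd : τ c ≠ u ∧ τ c ≠ s u := ⟨mt τinj.1 hc.2.1, fun e => hc.2.2.2 (by rw [τinj.1 e, ← hA, ττ])⟩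
      refine three (τne u) (swap_comm u (τ u) ▸ m2 u c) (m1 w u) ?_ ?_ ?_
      · simp only [mul_apply]
        rw [swap_apply_of_ne_of_ne hc.1 hc.2.2.1, swap_apply_of_ne_of_ne hd.1 hd.2, e]
      · rw [mul_apply, swap_apply_of_ne_of_ne (τne u) hu, swap_apply_of_ne_of_ne (Ne.symm hw.2.1)
          (fun e => hw.2.2.2 (sinj.1 e.symm))]
      · rw [mul_apply, swap_apply_left, swap_apply_of_ne_of_ne (Ne.symm hw.2.2.1)
          (fun e => hw.1 (by rw [← ss w, ← e, ss]))]
        exact hs2 u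
    have c4 : ({u, τ u, s u, s (τ u)} : Finset Ω).card = 4 := Finset.card_eq_four.2 ⟨_, _, _, _,
      (τne u).symm, (hs2 u).symm, fun e => hu (sinj.1 e.symm), hu, (hs2 _).symm,
      fun e => τne u ((ss _).symm.trans (by rw [← e, ss])), rfl⟩
    have c4' := Finset.card_le_univ ({u, τ u, s u, s (τ u)} : Finset Ω)
    rw [← Nat.card_eq_fintype_card] at c4'
    obtain ⟨c, hc⟩ := exists_notMem_finset ({u, τ u, s u, s (τ u)} : Finset Ω) (by omega)
    by_cases hd : τ c = s c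
    · exact key c c hc hc (by rw [hd, swap_apply_left, swap_apply_right, swap_comm])
    have inv : ∀ x, x ∉ ({u, τ u, s u, s (τ u)} : Finset Ω) →
        s x ∉ ({u, τ u, s u, s (τ u)} : Finset Ω) ∧ τ x ∉ ({u, τ u, s u, s (τ u)} : Finset Ω) := by
      intro x hx
      simp only [Finset.mem_insert, Finset.mem_singleton, not_or, sinj, τinj (x := x), ss, ττ, hA,
        show τ (s u) = s (τ u) by rw [← hA, ττ]] at hx ⊢
      tauto
    have c8 : (({u, τ u, s u, s (τ u)} : Finset Ω) ∪ {c, τ c, s c, s (τ c)}).card = 8 := by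
      rw [Finset.card_union_of_disjoint (Finset.disjoint_right.2 fun x hx => ?_), c4,
        Finset.card_eq_four.2 ⟨_, _, _, _, (τne c).symm, (hs2 c).symm, fun e => hd (sinj.1 e.symm), hd,
          (hs2 _).symm, fun e => τne c ((ss _).symm.trans (by rw [← e, ss])), rfl⟩]
      simp only [Finset.mem_insert, Finset.mem_singleton] at hx
      rcases hx with rfl | rfl | rfl | rfl
      exacts [hc, (inv c hc).2, (inv c hc).1, (inv _ (inv c hc).2).1]
    have c8' := Finset.card_le_univ (({u, τ u, s u, s (τ u)} : Finset Ω) ∪ {c, τ c, s c, s (τ c)})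
    rw [← Nat.card_eq_fintype_card] at c8'
    obtain ⟨w, hw⟩ := exists_notMem_finset
      (({u, τ u, s u, s (τ u)} : Finset Ω) ∪ {c, τ c, s c, s (τ c)}) (by omega)
    rw [Finset.mem_union, not_or] at hw
    refine key c w hc hw.1 ?_
    have := hw.2
    simp only [Finset.mem_insert, Finset.mem_singleton, not_or] at this
    rw [swap_apply_of_ne_of_ne (Ne.symm this.1) fun e => this.2.2.1 (sinj.1 e.symm),
      swap_apply_of_ne_of_ne (Ne.symm this.2.1) fun e => this.2.2.2 (sinj.1 e.symm)]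
  · set c := s (τ u) with hc
    set d := τ c with hd
    have h1 : d ≠ s c := fun e => hu (by rw [hc, ss] at e; rw [τinj.1 e, ττ] at hc; exact sinj.1 hc.symm)
    have h2 : f d ≠ f c := fun e => (uniq c d e).elim (τne c) h1
    have n : ∀ {x y}, f x ≠ f y → x ≠ y := fun h => ne_of_apply_ne f h
    have h3 : f (s d) ≠ f c := hs1 d ▸ h2
    have h4 : f d ≠ f (s c) := (hs1 c).symm ▸ h2
    have h5 : f (s d) ≠ f (s c) := hs1 d ▸ h4
    have e1 : (swap c d * swap (s c) (s d)) c = d := by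
      rw [mul_apply, swap_apply_of_ne_of_ne (hs2 c).symm (n h3.symm), swap_apply_left]
    have e2 : (swap c d * swap (s c) (s d)) d = c := by
      rw [mul_apply, swap_apply_of_ne_of_ne h1 (hs2 d).symm, swap_apply_right]
    have e3 : (swap c d * swap (s c) (s d)) (s c) = s d := by
      rw [mul_apply, swap_apply_left, swap_apply_of_ne_of_ne (n h3) (hs2 d)]
    have e4 : (swap c d * swap (s c) (s d)) (s d) = s c := by
      rw [mul_apply, swap_apply_right, swap_apply_of_ne_of_ne (hs2 c) h1.symm]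
    have e5 : ∀ x, x ≠ c → x ≠ d → x ≠ s c → x ≠ s d → (swap c d * swap (s c) (s d)) x = x :=
      fun x a1 a2 a3 a4 => by rw [mul_apply, swap_apply_of_ne_of_ne a3 a4, swap_apply_of_ne_of_ne a1 a2]
    have ht : swap c d * swap (s c) (s d) ∈ K := hK _ (mem_partStab_of_imp fun x y h => by
      suffices ∀ x, f ((swap c d * swap (s c) (s d)) x) = swap (f c) (f d) (f x) by rw [this, this, h]
      intro x
      by_cases a1 : f x = f c
      · rcases uniq c x a1 with rfl | rfl <;> simp only [e1, e3, hs1, swap_apply_left]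
      by_cases a2 : f x = f d
      · rcases uniq d x a2 with rfl | rfl <;> simp only [e2, e4, hs1, swap_apply_right]
      rw [e5 x (n a1) (n a2) (n (hs1 c ▸ a1)) (n (hs1 d ▸ a2)), swap_apply_of_ne_of_ne a1 a2])
      (by simp [(n h2).symm, (n h5).symm])
    refine three (τne u).symm (m2 u c) ht (by rw [e1, e2, swap_comm]) (e5 u (fun e => hu (sinj.1 e.symm))
      (fun e => hs2 _ (τinj.1 e.symm)) (by rw [hc, ss]; exact (τne u).symm)
      fun e => hA (sinj.1 e.symm)) ?_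
    rw [show τ u = s c by rw [hc, ss], e3]
    exact n h5

/-- Let Ω be a finite set whose size is not 8, and f : Ω → Fin b a labelling with b ≥ 2 whose fibres all have the same size a ≥ 2 (a partition into b blocks of size a). Then the even permutations preserving the partition — the intersection of the imprimitive wreath product S_a ≀ S_b with the alternating group — form a maximal subgroup of the alternating group on Ω. -/
theorem result {Ω : Type*} [Fintype Ω] [DecidableEq Ω] (h8 : Fintype.card Ω ≠ 8) (a b : ℕ) (ha : 2 ≤ a) (hb : 2 ≤ b)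
    (f : Ω → Fin b) (hf : ∀ i : Fin b, Nat.card {x : Ω // f x = i} = a) :
    IsCoatom ((Subgroup.closure {g : Equiv.Perm Ω | ∀ x y : Ω, f x = f y ↔ f (g x) = f (g y)} ⊓ alternatingGroup Ω).subgroupOf (alternatingGroup Ω)) := by
  rw [closure_partStab]
  rw [← Nat.card_eq_fintype_card] at h8
  have hn := card_eq_mul_of_fibres hf
  rw [Nat.card_eq_fintype_card (α := Fin b), Fintype.card_fin] at hn
  have : Nontrivial (Fin b) := Fin.nontrivial_iff_two_le.2 hb
  obtain ⟨x₀⟩ := (Nat.card_pos_iff.1 (hn ▸ by positivity : 0 < Nat.card Ω)).1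
  have pair : ∀ i, ∃ s t, s ≠ t ∧ f s = i ∧ f t = i := fun i => by
    obtain ⟨s, hs, -⟩ := exists_fibre_ne hf ha i x₀
    obtain ⟨t, ht, h⟩ := exists_fibre_ne hf ha i s
    exact ⟨s, t, h.symm, hs, ht⟩
  refine ⟨fun e => ?_, fun K' hK' => ?_⟩
  · obtain ⟨i, j, hij⟩ := exists_pair_ne (Fin b)
    obtain ⟨x, y, hxy, hx, hy⟩ := pair i
    obtain ⟨z, w, hzw, hz, hw⟩ := pair j
    have n : ∀ {x y}, f x = i → f y = j → x ≠ y := fun h1 h2 e => hij (h1.symm.trans (e ▸ h2))
    have := ((subgroupOf_eq_top.1 e (isThreeCycle_swap_mul_swap_same (n hy hz).symm hzw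
      (n hy hw)).mem_alternatingGroup).1 x y).1 (hx.trans hy.symm)
    rw [mul_apply, mul_apply, swap_apply_of_ne_of_ne (n hx hz) (n hx hw), swap_apply_of_ne_of_ne (n hx hz) hxy,
      swap_apply_of_ne_of_ne (n hy hz) (n hy hw), swap_apply_right, hx, hz] at this
    exact hij this
  obtain ⟨⟨g, hgA⟩, hg', hgW⟩ := SetLike.exists_of_lt hK'
  replace hgW : g ∉ partStab f := fun h => hgW ⟨h, hgA⟩
  set K := K'.map (alternatingGroup Ω).subtype
  have hg : g ∈ K := ⟨_, hg', rfl⟩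
  have hK : ∀ w ∈ partStab f, sign w = 1 → w ∈ K := fun w h1 h2 => ⟨⟨w, h2⟩, hK'.le ⟨h1, h2⟩, rfl⟩
  suffices alternatingGroup Ω ≤ K from eq_top_iff.2 fun x _ => by
    obtain ⟨y, hy, e⟩ := this x.2
    exact (Subtype.ext e : y = x) ▸ hy
  by_cases h4 : a = 2 ∧ b = 2
  · obtain ⟨rfl, rfl⟩ := h4
    obtain ⟨e, he⟩ := exists_equiv_prod hf
    have tr : ∀ k : Perm Ω, (∀ x y, x.1 = y.1 → (e.permCongr k x).1 = (e.permCongr k y).1) →
        k ∈ partStab f := fun k hk => mem_partStab_of_imp fun x y h => by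
      simpa [he] using hk (e x) (e y) (by rw [he, he, h])
    intro h hh
    rcases four (e.permCongr g) (e.permCongr h) (by simpa using hgA) (by simpa using hh) with
      h1 | h1 | h1 | h1
    · exact absurd (tr g h1) hgW
    · exact hK h (tr h h1) hh
    · exact (K.mul_mem_cancel_left hg).1 (hK _ (tr (g * h) (by simpa using h1)) (mul_mem hgA hh))
    · exact (K.mul_mem_cancel_left (mul_mem hg hg)).1 (hK _ (tr (g * g * h) (by simpa using h1))
        (mul_mem (mul_mem hgA hgA) hh))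
  have fix : ∀ w ∈ partStab f, ∀ s t, s ≠ t → f s = f t → ∃ m ∈ partStab f, m ∈ K ∧
      ∀ x, w x ≠ s → w x ≠ t → m x = w x := fun w hw s t hst h => by
    rcases Int.units_eq_one_or (sign w) with e | e
    · exact ⟨w, hw, hK w hw e, fun _ _ _ => rfl⟩
    · have := mul_mem (swap_mem_partStab h) hw
      exact ⟨_, this, hK _ this (by simp [e, hst]), fun x => swap_apply_of_ne_of_ne⟩
  have tr : ∀ u u', ∃ m ∈ partStab f, m ∈ K ∧ m u = u' := fun u u' => by
    obtain ⟨i, hi⟩ := exists_ne (f u)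
    obtain ⟨j, hj⟩ := exists_ne (f u')
    obtain ⟨v, -, -, hv, -⟩ := pair i
    obtain ⟨s, t, hst, hs, ht⟩ := pair j
    obtain ⟨w, hw, rfl, -⟩ := exists_map_pair hf (u := u) (v := v) (u' := u') (v' := s)
      (hv ▸ hi.symm) (hs ▸ hj.symm)
    obtain ⟨m, h1, h2, h3⟩ := fix w hw s t hst (hs.trans ht.symm)
    exact ⟨m, h1, h2, h3 u (ne_of_apply_ne f (hs ▸ hj.symm)) (ne_of_apply_ne f (ht ▸ hj.symm))⟩
  have trip : 3 ≤ a → ∀ u, ∃ s t, s ≠ t ∧ s ≠ u ∧ t ≠ u ∧ f s = f u ∧ f t = f u := fun h3 u => by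
    obtain ⟨s, hs, hsu⟩ := exists_fibre_ne hf ha (f u) u
    obtain ⟨⟨t, ht⟩, h1, h2⟩ := exists_ne_ne (α := {x // f x = f u}) (by rw [hf]; exact h3) ⟨u, rfl⟩ ⟨s, hs⟩
    exact ⟨s, t, by simpa using h2.symm, hsu, by simpa using h1, hs, ht⟩
  have two : ∀ u v v', f u ≠ f v → f u ≠ f v' → ∃ m ∈ K, m u = u ∧ m v = v' := fun u v v' h h' => by
    obtain ⟨w, hw, e1, rfl⟩ := exists_map_pair hf h h'
    obtain ⟨s, t, hst, e, h1⟩ : ∃ s t, s ≠ t ∧ f s = f t ∧ u ≠ s ∧ u ≠ t ∧ w v ≠ s ∧ w v ≠ t := by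
      by_cases h3 : 3 ≤ a
      · obtain ⟨s, t, hst, h1, h2, hs, ht⟩ := trip h3 u
        exact ⟨s, t, hst, hs.trans ht.symm, h1.symm, h2.symm, ne_of_apply_ne f (hs ▸ h'.symm),
          ne_of_apply_ne f (ht ▸ h'.symm)⟩
      · obtain ⟨k, h1, h2⟩ := exists_ne_ne (α := Fin b) (by simp; omega) (f u) (f (w v))
        obtain ⟨s, t, hst, hs, ht⟩ := pair k
        exact ⟨s, t, hst, hs.trans ht.symm, ne_of_apply_ne f (hs ▸ h1.symm), ne_of_apply_ne f (ht ▸ h1.symm),
          ne_of_apply_ne f (hs ▸ h2.symm), ne_of_apply_ne f (ht ▸ h2.symm)⟩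
    obtain ⟨m, -, h2, h3⟩ := fix w hw s t hst e
    exact ⟨m, h2, (h3 u (e1.symm ▸ h1.1) (e1.symm ▸ h1.2.1)).trans e1, h3 v h1.2.2.1 h1.2.2.2⟩
  have : IsPretransitive K Ω := ⟨fun u v => (tr u v).elim fun m hm => ⟨⟨m, hm.2.1⟩, hm.2.2⟩⟩
  have hp : IsPreprimitive K Ω := ⟨fun {B} hB => or_iff_not_imp_left.2 fun hs => by
    have blk : ∀ m ∈ K, ∀ u ∈ B, m u ∈ B → ∀ v ∈ B, m v ∈ B := fun m hm u hu h v hv =>
      (isBlock_iff_smul_eq_of_mem.1 hB (g := ⟨m, hm⟩) hu h).le ⟨v, hv, rfl⟩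
    obtain ⟨u, hu, v, hv, huv⟩ := Set.not_subsingleton_iff.1 hs
    by_cases h : ∀ u ∈ B, ∀ v ∈ B, f u = f v
    · have hcl : ∀ y, f y = f u → y ∈ B := fun y hy => by
        by_cases e : y = u
        · exact e ▸ hu
        obtain ⟨j, hj⟩ := exists_ne (f u)
        obtain ⟨s, t, hst, hs, ht⟩ := pair j
        obtain ⟨m, -, h2, h3⟩ := fix _ (swap_mem_partStab ((h v hv u hu).trans hy.symm)) s t hst
          (hs.trans ht.symm)
        have n : ∀ {x y}, f x = f u → f y = j → x ≠ y := fun h1 h2 e => hj (h2.symm.trans (e ▸ h1))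
        have e1 := swap_apply_of_ne_of_ne huv (Ne.symm e)
        have e2 := swap_apply_left v y
        rw [← e2, ← h3 v (e2.symm ▸ n hy hs) (e2.symm ▸ n hy ht)]
        exact blk m h2 u hu (by rwa [h3 u (e1.symm ▸ n rfl hs) (e1.symm ▸ n rfl ht), e1]) v hv
      refine absurd (mem_partStab_of_imp fun x y hxy => ?_) hgW
      obtain ⟨m, h1, h2, rfl⟩ := tr u x
      obtain ⟨m', h1', h2', e⟩ := tr u (g (m u))
      obtain ⟨y, rfl⟩ := m.surjective y
      have := blk (m'⁻¹ * (g * m)) (mul_mem (inv_mem h2') (mul_mem hg h2)) u hu (by simpa [← e] using hu) y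
        (hcl y ((h1 _ _).2 hxy).symm)
      simpa [← e] using (h1' _ _).1 (h u hu _ this)
    · push Not at h
      obtain ⟨u, hu, v, hv, huv⟩ := h
      refine Set.eq_univ_of_forall fun x => ?_
      by_cases e : f u = f x
      · obtain ⟨m, h1, h2, rfl⟩ := two v u x huv.symm (e ▸ huv.symm)
        exact blk m h1 v hv (h2.symm ▸ hv) u hu
      · obtain ⟨m, h1, h2, rfl⟩ := two u v x huv e
        exact blk m h1 u hu (h2.symm ▸ hu) v hv⟩
  obtain ⟨x, hx, h3⟩ : ∃ x ∈ K, x.IsThreeCycle := by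
    by_cases h3 : 3 ≤ a
    · obtain ⟨s, t, hst, h1, h2, hs, ht⟩ := trip h3 x₀
      have := isThreeCycle_swap_mul_swap_same h1.symm h2.symm hst
      exact ⟨_, hK _ (mul_mem (swap_mem_partStab hs.symm) (swap_mem_partStab ht.symm)) this.sign, this⟩
    · obtain rfl : a = 2 := by omega
      exact exists_three hf (by omega) h8 hK hg hgW
  exact alternatingGroup_le_of_isPreprimitive_of_isThreeCycle_mem hp h3 hx

end Cfsg.Agent.S5909
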