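import Cfsg.Statements.S5910
import Cfsg.Agent.Lib.Perm.Imprim

set_option autoImplicit false
open Cfsg

namespace Cfsg.Agent.S5910

open MulAction Subgroup Equiv Equiv.Perm Cfsg.Lib.Perm

def T (x y z : Fin 4 × Fin 2) : Fin 4 × Fin 2 := (x.1 ^^^ y.1 ^^^ z.1, x.2 + y.2 + z.2)

def aff : Subgroup (Perm (Fin 4 × Fin 2)) where
  carrier := {g | ∀ x y z, g (T x y z) = T (g x) (g y) (g z)}
  one_mem' _ _ _ := rfl
  mul_mem' {g k} h1 h2 x y z := by rw [mul_apply, h2, h1]; rfl
  inv_mem' {g} h x y z := by rw [inv_eq_iff_eq, h]; simp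

set_option synthInstance.maxSize 2000 in
theorem key : ∀ (σ : Perm (Fin 4)) (c : Fin 4 → Fin 2),
    sign (σ.prodShear fun i => Equiv.addRight (c i)) = 1 → ∀ x y z,
      (σ.prodShear fun i => Equiv.addRight (c i)) (T x y z) = T ((σ.prodShear fun i => Equiv.addRight (c i)) x)
        ((σ.prodShear fun i => Equiv.addRight (c i)) y) ((σ.prodShear fun i => Equiv.addRight (c i)) z) := by
  decide +kernel

theorem mem_aff {g : Perm (Fin 4 × Fin 2)} (h : g ∈ partStab Prod.fst) (hs : sign g = 1) : g ∈ aff := by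
  have hinj : Function.Injective fun i => (g (i, 0)).1 := fun i j e => (h (i, 0) (j, 0)).2 e
  have : g = (Equiv.ofBijective _ (Finite.injective_iff_bijective.1 hinj)).prodShear
      fun i => Equiv.addRight (g (i, 0)).2 := by
    ext ⟨i, ε⟩ : 1
    have h1 : (g (i, ε)).1 = (g (i, 0)).1 := (h _ _).1 rfl
    refine Prod.ext h1 ?_
    change _ = ε + (g (i, 0)).2
    by_cases e : ε = 0
    · simp [e]
    have h2 : (g (i, ε)).2 ≠ (g (i, 0)).2 := fun e' => e (Prod.ext_iff.1 (g.injective (Prod.ext h1 e'))).2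
    exact (by decide : ∀ ε u v : Fin 2, ε ≠ 0 → u ≠ v → u = ε + v) _ _ _ e h2
  rw [this] at hs ⊢
  exact key _ _ hs

def g₁ : Perm (Fin 4 × Fin 2) := swap (0, 1) (1, 0) * swap (2, 1) (3, 0)

def g₂ : Perm (Fin 4 × Fin 2) := swap (0, 0) (0, 1) * swap (0, 0) (1, 0)

theorem g₁_mem : ∀ x y z, g₁ (T x y z) = T (g₁ x) (g₁ y) (g₁ z) := by decide +kernel

/-- Let Ω be a set with 8 elements and f : Ω → Fin 4 a labelling whose four fibres all have size 2 (a partition of the 8 points into 4 pairs). Then the group of even permutations preserving this partition, (S₂ ≀ S₄) ∩ A₈, is not a maximal subgroup of the alternating group A₈ (it lies in a subgroup isomorphic to the affine group AGL₃(2)). -/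
theorem result {Ω : Type*} [Fintype Ω] [DecidableEq Ω] (h8 : Fintype.card Ω = 8)
    (f : Ω → Fin 4) (hf : ∀ i : Fin 4, Nat.card {x : Ω // f x = i} = 2) :
    ¬ IsCoatom ((Subgroup.closure {g : Equiv.Perm Ω | ∀ x y : Ω, f x = f y ↔ f (g x) = f (g y)} ⊓ alternatingGroup Ω).subgroupOf (alternatingGroup Ω)) := by
  rw [closure_partStab]
  obtain ⟨e, he⟩ := exists_equiv_prod hf
  intro h
  have e1 : ∀ k, e.permCongr (e.symm.permCongr k) = k := e.permCongr.apply_symm_apply
  have h1 := h.2 ((aff.comap e.permCongrHom.toMonoidHom).subgroupOf _) (lt_of_le_of_ne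
    (fun g hg => mem_aff (g := e.permCongr g) (fun x y => by
      have := hg.1 (e.symm x) (e.symm y)
      simpa [← he] using this) ((sign_permCongr _ _).trans g.2)) fun e' => by
      have := (e'.ge (show (⟨e.symm.permCongr g₁, by simp [g₁]⟩ : alternatingGroup Ω) ∈ _ from
        (show e.permCongr (e.symm.permCongr g₁) ∈ aff from (e1 g₁).symm ▸ g₁_mem))).1
          (e.symm (0, 0)) (e.symm (0, 1))
      simp only [← he, coe_subtype, permCongr_apply, symm_symm, apply_symm_apply] at this
      revert this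
      decide)
  have : e.permCongr (e.symm.permCongr g₂) ∈ aff := h1.ge (mem_top ⟨e.symm.permCongr g₂, by simp [g₂]⟩)
  rw [e1] at this
  exact absurd (this (0, 0) (2, 0) (2, 1)) (by decide)

end Cfsg.Agent.S5910
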