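import Cfsg.Statements.S5911
import Cfsg.Agent.Lib.Perm.Sym
import Cfsg.Agent.Lib.Core.MinNormal

set_option autoImplicit false
open Cfsg

namespace Cfsg.Agent.S5911

open MulAction Subgroup Cfsg.Lib.Perm Cfsg.Lib Equiv

/-- Let Ω be a finite set whose size n is not 6. Then every subgroup of the symmetric group on Ω of index n is the stabilizer of a point. -/
theorem result {Ω : Type*} [Fintype Ω] [DecidableEq Ω] (h6 : Fintype.card Ω ≠ 6)
    (H : Subgroup (Equiv.Perm Ω)) (hH : H.index = Fintype.card Ω) :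
    ∃ x : Ω, H = MulAction.stabilizer (Equiv.Perm Ω) x := by
  rw [← Nat.card_eq_fintype_card] at h6 hH
  have h0 : H.index ≠ 0 := index_ne_zero_of_finite
  obtain ⟨a⟩ := (Nat.card_pos_iff.1 (by omega : 0 < Nat.card Ω)).1
  by_cases h5 : 5 ≤ Nat.card Ω
  · obtain ⟨φ, rfl⟩ := exists_aut_of_index h5 hH a
    obtain ⟨σ, rfl⟩ := aut_inner (by omega) h6 φ
    exact ⟨_, comap_conj_stabilizer σ a⟩
  suffices ∃ x : Ω, ∀ g ∈ H, g • x = x by
    obtain ⟨x, hx⟩ := this
    refine ⟨x, Core.eq_of_le_of_card_eq hx (Nat.eq_of_mul_eq_mul_right (Nat.pos_of_ne_zero h0) ?_)⟩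
    rw [card_mul_index, hH, ← index_stabilizer_perm x, card_mul_index]
  have hc := H.card_mul_index
  rw [Nat.card_perm, hH] at hc
  have key : ∀ (p : ℕ) [Fact p.Prime] (k : ℕ), Nat.card H = p ^ k → ¬ p ∣ Nat.card Ω →
      ∃ x : Ω, ∀ g ∈ H, g • x = x := fun p _ k h1 h2 => by
    simpa using exists_fixed_of_not_dvd (IsPGroup.of_card h1) (s := (Set.univ : Set Ω))
      (fun _ _ _ _ => trivial) (by simpa using h2)
  obtain h | h | h | h : Nat.card Ω = 1 ∨ Nat.card Ω = 2 ∨ Nat.card Ω = 3 ∨ Nat.card Ω = 4 := by omega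
  all_goals rw [h] at hc; simp only [Nat.factorial] at hc
  · exact key 2 0 (by omega) (by omega)
  · exact key 3 0 (by omega) (by omega)
  · exact key 2 1 (by omega) (by omega)
  obtain ⟨t, ht, h3⟩ := Core.exists_mem_orderOf_eq_prime (H := H) Nat.prime_three (by omega)
  have hi : ((zpowers t).subgroupOf H).index = 2 := by
    have := Core.card_mul_relIndex (zpowers_le.2 ht)
    rw [Nat.card_zpowers, h3] at this
    change (zpowers t).relIndex H = 2
    omega
  have hn := (normal_subgroupOf_iff_le_normalizer (zpowers_le.2 ht)).1 (normal_of_index_eq_two hi)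
  have h1 := card_modEq_fixed (α := Ω) (p := 3) (P := zpowers t) (IsPGroup.of_card (n := 1) (by rw [Nat.card_zpowers, h3]; rfl))
  have h2 : {x : Ω | ∀ u ∈ zpowers t, u • x = x}.ncard < 4 := by
    rw [← h, ← Set.ncard_univ]
    refine Set.ncard_lt_ncard (Set.ssubset_univ_iff.2 fun e => ?_)
    rw [show t = 1 from Equiv.ext fun x => e.ge (Set.mem_univ x) t (mem_zpowers t)] at h3
    simp at h3
  obtain ⟨x, hx⟩ := Set.ncard_eq_one.1 (show {x : Ω | ∀ u ∈ zpowers t, u • x = x}.ncard = 1 by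
    unfold Nat.ModEq at h1; omega)
  exact ⟨x, fun g hg => hx.le (smul_fixed_of_mem_normalizer (hn hg) (hx.ge rfl))⟩

end Cfsg.Agent.S5911
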