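import Cfsg.Statements.S5912
import Cfsg.Agent.Lib.Perm.Sym
import Cfsg.Agent.Lib.Core.MinNormal

set_option autoImplicit false
open Cfsg

namespace Cfsg.Agent.S5912

open MulAction Subgroup Cfsg.Lib.Perm Cfsg.Lib Equiv

/-- The symmetric group on a 6-element set Ω has exactly two conjugacy classes of subgroups of index 6: there are two non-conjugate subgroups of index 6 (a point stabilizer and a transitive subgroup isomorphic to S₅), and every subgroup of index 6 is conjugate to one of them. -/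
theorem result {Ω : Type*} [Fintype Ω] [DecidableEq Ω] (h6 : Fintype.card Ω = 6) :
    ∃ H₁ H₂ : Subgroup (Equiv.Perm Ω), H₁.index = 6 ∧ H₂.index = 6 ∧
      (¬ ∃ g : Equiv.Perm Ω, Subgroup.map (MulAut.conj g).toMonoidHom H₁ = H₂) ∧
      ∀ H : Subgroup (Equiv.Perm Ω), H.index = 6 →
        ∃ g : Equiv.Perm Ω, Subgroup.map (MulAut.conj g).toMonoidHom H₁ = H ∨ Subgroup.map (MulAut.conj g).toMonoidHom H₂ = H := by
  rw [← Nat.card_eq_fintype_card] at h6
  obtain ⟨a⟩ := (Nat.card_pos_iff.1 (by omega : 0 < Nat.card Ω)).1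
  obtain ⟨φ, hφ⟩ := exists_outer h6
  have hi := (index_stabilizer_perm a).trans h6
  refine ⟨stabilizer _ a, (stabilizer _ a).comap φ.toMonoidHom, hi,
    (index_comap_of_surjective _ φ.surjective).trans hi, fun ⟨g, hg⟩ => hφ a (g • a)
      (hg.symm.trans (stabilizer_smul_eq_stabilizer_map_conj g a).symm), fun H hH => ?_⟩
  obtain ⟨x, rfl | rfl⟩ := index_six h6 hφ hH <;> obtain ⟨g, rfl⟩ := exists_smul_eq (Perm Ω) a x
  · exact ⟨g, Or.inl (stabilizer_smul_eq_stabilizer_map_conj g a).symm⟩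
  · obtain ⟨g, rfl⟩ := φ.surjective g
    refine ⟨g, Or.inr (Subgroup.ext fun x => ?_)⟩
    rw [Core.mem_map_conj, stabilizer_smul_eq_stabilizer_map_conj, mem_comap, mem_comap,
      Core.mem_map_conj]
    simp

end Cfsg.Agent.S5912
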