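import Cfsg.Statements.S5922
import Cfsg.Agent.Lib.E83.D61
import Cfsg.Agent.Lib.E83.D73
import Cfsg.Agent.Lib.Chev.AlgInst
import Cfsg.Agent.Lib.Chev.Aut
import Cfsg.Agent.S1065

set_option autoImplicit false
open Cfsg

namespace Cfsg.Agent.S5922

open Cfsg.Lib.Chev Cfsg.Lib.Alg Cfsg.Lib.E83 Matrix

theorem key {F : Type*} [Field F] [Fintype F] {f l m : ℕ} (hF : Fintype.card F = 3 ^ (f + 1))
    (hn : 3 ^ (f + 1) + 1 = 2 * (l * m)) (hl : l.Prime) (hm : 1 < m) (hc : (l * m).Coprime 3)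
    (w0 : List (Fin 8)) {y1 y2 : V8} (h1 : wm w0 *ᵥ y1 - (3 : ℤ) • y1 ∈ dv _ l)
    (h2 : wm w0 *ᵥ y2 - (3 : ℤ) • y2 ∈ dv _ l) (e : y1 6 = 1 ∧ y2 6 = 0 ∧ y1 7 = 0 ∧ y2 7 = 1)
    (hS : ¬ l ^ 3 ∣ Nat.card (Cfsg.Lie.chevE8.group (ZMod 3)))
    (hL : (∀ c : ℕ, c < l → TyOK l m (Ex (l * m)) (y1 + (c : ℤ) • y2)) ∧ TyOK l m (Ex (l * m)) y2)
    (H : Subgroup ↥(Cfsg.Lie.chevE8.group (ZMod 3))) :
    IsEmpty (↥H ≃* Matrix.ProjectiveSpecialLinearGroup (Fin 2) F) := ⟨fun θ => by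
  obtain ⟨φ, hφ⟩ := algE8 (AlgebraicClosure (ZMod 3)) 3 (exists_pow_pow_eq (ZMod 3) 3)
  obtain ⟨ε, -⟩ := hφ.exists_equiv (n := 1) (algebraMap (ZMod 3) _) (by simp)
    (checkedE8.noA1 (by simp)) (checkedE8.gsys_strongComm _) (checkedE8.gsys_faithful _)
    (checkedE8.gsys_adjoint _) (checkedE8.gsys_grp _) (kerDataE8 _).kerChr_eq_bot
  have : CharP F 3 := (CharP.charP_iff_prime_eq_zero Nat.prime_three).2 (by
    have := FiniteField.cast_card_eq_zero F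
    rw [hF, Nat.cast_pow] at this
    exact eq_zero_of_pow_eq_zero this)
  let _ := ZMod.algebra F 3
  rw [← wM_wm] at h1 h2
  refine link checkedE8 hφ (checkedE8.noA1 (by simp))
    (IsAlgClosed.lift (R := ZMod 3) (S := F) (M := AlgebraicClosure (ZMod 3))).toRingHom
    (hF ▸ hn) (Nat.one_lt_mul_iff.2 ⟨hl.pos, by omega, .inr hm⟩)
    (ε.symm.toMonoidHom.comp (H.subtype.comp θ.symm.toMonoidHom))
    (ε.symm.injective.comp (H.subtype_injective.comp θ.symm.injective)) fun x hx ζ hζ => ?_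
  obtain ⟨a, y, w, hw, α, β, h3, h4, h5, h6⟩ := syl hφ hl hc (RootSys.wp_mem_W w0) h1 h2 e.1 e.2.1
    e.2.2.1 e.2.2.2 (by rwa [Nat.card_congr ε.toEquiv]) x hx hζ
  exact ⟨a, y, h3, of_lines hl hL.1 hL.2 hζ hm h4 hw h5 h6⟩⟩


/-- Let G be the Chevalley group of type E₈ over the field with three elements (generated by its root elements in the 248-dimensional adjoint representation; it is the simple group E₈(3)). Then G has no subgroup isomorphic to PSL₂(243) and no subgroup isomorphic to PSL₂(729). Here F₂₄₃ and F₇₂₉ denote fields with 243 and 729 elements. -/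
theorem result
    {F₂₄₃ F₇₂₉ : Type*} [Field F₂₄₃] [Fintype F₂₄₃] (h243 : Fintype.card F₂₄₃ = 243) [Field F₇₂₉] [Fintype F₇₂₉] (h729 : Fintype.card F₇₂₉ = 729)
    (H : Subgroup ↥(Cfsg.Lie.chevE8.group (ZMod 3))) :
    IsEmpty (↥H ≃* Matrix.ProjectiveSpecialLinearGroup (Fin 2) F₂₄₃) ∧ IsEmpty (↥H ≃* Matrix.ProjectiveSpecialLinearGroup (Fin 2) F₇₂₉) := by
  have h := S1065.result (F := ZMod 3) (q := 3) (by simp)
  exact ⟨key (f := 4) (l := 61) (m := 2) h243 rfl (by norm_num) (by norm_num) (by norm_num) D61.w0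
      D61.h1 D61.h2 (by decide) (by rw [h]; decide +kernel) D61.lines H,
    key (f := 5) (l := 73) (m := 5) h729 rfl (by norm_num) (by norm_num) (by norm_num) D73.w0
      D73.h1 D73.h2 (by decide) (by rw [h]; decide +kernel) D73.lines H⟩

end Cfsg.Agent.S5922
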