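import Cfsg.Statements.S5939
import Cfsg.Agent.Lib.PSL2.Maximal

set_option autoImplicit false
open Cfsg

namespace Cfsg.Agent.S5939

/-- Let p be a prime and F a finite field of characteristic p such that either F has p elements and p ≡ ±1 (mod 10), or F has p² elements and p ≡ ±3 (mod 10). Then PSL_2(F) has a maximal subgroup isomorphic to the alternating group A_5. -/
theorem result {F : Type*} [Field F] [Fintype F] (p : ℕ) [Fact p.Prime] [CharP F p] (h : (Fintype.card F = p ∧ (p % 10 = 1 ∨ p % 10 = 9)) ∨ (Fintype.card F = p ^ 2 ∧ (p % 10 = 3 ∨ p % 10 = 7))) : ∃ H : Subgroup (Matrix.ProjectiveSpecialLinearGroup (Fin 2) F), IsCoatom H ∧ Nonempty (H ≃* alternatingGroup (Fin 5)) := by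
  open Cfsg.Lib.PSL2 in
  have hp : p.Prime := Fact.out
  have hp2 := hp.two_le
  rw [← Nat.card_eq_fintype_card] at h
  have h5 : 5 ∣ Nat.card F * (Nat.card F ^ 2 - 1) := by
    rw [five_dvd_iff Nat.card_pos]
    rcases h with ⟨h, h'⟩ | ⟨h, h'⟩
    · omega
    · rw [h, Nat.pow_mod]
      have : p % 5 = 3 ∨ p % 5 = 2 := by omega
      rcases this with e | e <;> rw [e] <;> norm_num
  obtain ⟨φ, hφ⟩ := exists_golden_of_dvd h5
  obtain ⟨H, ⟨e⟩⟩ := exists_alt_five_of_golden hφ
  refine ⟨H, isCoatom_of_equiv_alt_five ?_ ?_ (fun k hk => ?_) e, ⟨e⟩⟩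
  · rcases h with ⟨h, h'⟩ | ⟨h, h'⟩ <;> rw [h]
    · exact Nat.odd_iff.2 (by omega)
    · exact Odd.pow (Nat.odd_iff.2 (by omega))
  · rcases h with ⟨h, h'⟩ | ⟨h, h'⟩ <;> rw [h]
    · omega
    · have : 3 ≤ p := by omega
      nlinarith
  · rcases h with ⟨h, h'⟩ | ⟨h, h'⟩
    · exact absurd (subfield_eq_top_of_prime (h ▸ hp) k) hk
    · obtain ⟨k1, k2, k3, -⟩ := subfield_card_facts hk
      rw [h] at k2 k3
      obtain ⟨i, hi, e⟩ := (Nat.dvd_prime_pow hp).1 k3
      have : Nat.card k = p := by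
        interval_cases i
        · rw [e] at k1; simp at k1
        · simpa using e
        · rw [e] at k2; nlinarith
      rw [five_dvd_iff Nat.card_pos, this]
      omega

end Cfsg.Agent.S5939
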